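import Cfsg.Agent.Root.Ext2
import Cfsg.Agent.Root.Fr1
import Cfsg.Agent.Root.Max5

/-! Extension field subgroups of prime degree, II: trace forms (`TS`), maximal triples (`MT`) and the
elements `Out` they produce; the symplectic case `isMaximalIn_extSp`. -/

set_option autoImplicit false

namespace Cfsg.Agent.Root.Mx

open Cfsg.Agent.Geom Cfsg.Agent.AutCl Module

variable {F K : Type*} [Field F] [Field K] [Algebra F K] {V : Type*} [AddCommGroup V] [Module F V]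
  [Module K V] [IsScalarTower F K V]

local notation "f" => algebraMap F K

/-- An element agreeing with an Eichler map on `P^⊥` has Eichler commutators. -/
theorem comm_triv {σ : F →+* F} {Φ : Formed σ V} [FiniteDimensional F V] (hn : Φ.Nondeg) {X : Subgroup (V ≃ₗ[F] V)}
    (hi : X ≤ Φ.isom) {P : Submodule F V} {p z : V} (hp : p ∈ P) (hs : Φ.Sing p)
    (hz : z ∈ Φ.perp P) {t s : V ≃ₗ[F] V} (ht : t ∈ X) (et : ∀ v ∈ Φ.perp P, t v = v + Φ.B z v • p) (hs' : s ∈ X)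
    (es : ∀ v ∈ P, s v = v) : HasE Φ X p (z - s z) (Φ.ε * Φ.B z (z - s z)) := by
  obtain ⟨d, E, hE⟩ := exists_isE' hn hs (hz p hp)
  have hm := mul_mem (Φ.isom.inv_mem hE.mem_isom) (hi ht)
  have m1 : ∀ v ∈ Φ.perp P, (E⁻¹ * t) v = v := fun v hv => by
    rw [LinearEquiv.mul_apply, et v hv, ← hE.apply_perp (hv p hp)]; simp
  have mv : ∀ {g : V ≃ₗ[F] V} {U : Submodule F V}, g ∈ Φ.isom → (∀ v ∈ U, g v = v) → ∀ v, g v - v ∈ Φ.perp U :=
    fun hg h v u hu => by rw [map_sub, ← hg.1 u v, h u hu, sub_self]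
  have c : s * (E⁻¹ * t) = (E⁻¹ * t) * s := LinearEquiv.ext fun v => by
    have a1 := es _ (hn.perp_perp P ▸ mv hm m1 v)
    have a2 := m1 _ (mv (hi hs') es v)
    rw [map_sub] at a1 a2
    simp only [LinearEquiv.mul_apply] at a1 a2 ⊢
    linear_combination (norm := module) a1 - a2
  have h1 := (hE.conj (hi hs')).inv
  rw [es p hp] at h1
  refine ⟨_, ?_, (hE.mul h1).congr (sub_eq_add_neg z _).symm (by
    rw [map_sub, ← hE.hB, map_neg]; linear_combination -d * Φ.εε)⟩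
  convert mul_mem ht (mul_mem (mul_mem hs' (inv_mem ht)) (inv_mem hs')) using 1
  calc _ = E * (s * (E⁻¹ * t)) * t⁻¹ * s⁻¹ := by group
    _ = _ := by rw [c]; group

/-- `Φ` is the trace of `Ψ`, and `X` contains the Eichler maps of `Ψ`. -/
structure TS (Φ : Formed (RingHom.id F) V) (Ψ : Formed (RingHom.id K) V) (L : Dual F K)
    (X : Subgroup (V ≃ₗ[F] V)) : Prop where
  hn : Φ.Nondeg
  hn' : Ψ.Nondeg
  hB : ∀ x y, Φ.B x y = L (Ψ.B x y)
  L0 : L ≠ 0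
  pr : (finrank F K).Prime
  hi : X ≤ Φ.isom
  hE : ∀ p a d s, IsE Ψ p a d s → s.restrictScalars F ∈ X

/-- A maximal proper intersection of `g (K u)` with a singular point `K w`. -/
structure MT (Ψ : Formed (RingHom.id K) V) (X : Subgroup (V ≃ₗ[F] V)) (g : V ≃ₗ[F] V) (u w : V) : Prop where
  hg : g ∈ X
  u0 : u ≠ 0
  us : Ψ.Sing u
  w0 : w ≠ 0
  ws : Ψ.Sing w
  top : Ak K g u w ≠ ⊤
  bot : Ak K g u w ≠ ⊥
  max : ∀ s ∈ X, Ak K g u w < Ak K s u u → Ak K s u u = ⊤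

/-- All transvections of the point `K u` with a given axis are induced by `X`. -/
def Out (K : Type*) [Field K] [Algebra F K] [Module K V] (X : Subgroup (V ≃ₗ[F] V)) (u : V) : Prop :=
  ∃ (lam : Dual F K) (x a₀ : K), lam x = 1 ∧ lam a₀ = 0 ∧ a₀ ≠ 0 ∧ ∀ a, lam a = 0 → ∃ s ∈ X,
    (∀ k : K, s (k • u) = (k + lam k • a) • u) ∧ ∃ (g : V ≃ₗ[F] V) (w α : V) (b : K), g (a • u) = b • w ∧
      ∀ v, ∃ c₁ c₂ : K, g (s v - v) = c₁ • w + c₂ • α

variable {Φ : Formed (RingHom.id F) V} {Ψ : Formed (RingHom.id K) V} {L : Dual F K} {X : Subgroup (V ≃ₗ[F] V)}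
  {g : V ≃ₗ[F] V} {u w : V}

theorem exists_MT [FiniteDimensional F K] (hg : g ∈ X) (u0 : u ≠ 0) (us : Ψ.Sing u) (w0 : w ≠ 0) (ws : Ψ.Sing w)
    (h1 : Ak K g u w ≠ ⊤) (h0 : Ak K g u w ≠ ⊥) : ∃ g u w, MT Ψ X g u w := by
  obtain ⟨_, ⟨g, hg, u, w, u0, us, w0, ws, rfl, h1, h0⟩, hmax⟩ := set_has_maximal_iff_noetherian.2 inferInstance
    {A : Submodule F K | ∃ g ∈ X, ∃ u w, u ≠ 0 ∧ Ψ.Sing u ∧ w ≠ 0 ∧ Ψ.Sing w ∧ A = Ak K g u w ∧ A ≠ ⊤ ∧ A ≠ ⊥}
    ⟨_, g, hg, u, w, u0, us, w0, ws, rfl, h1, h0⟩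
  exact ⟨g, u, w, hg, u0, us, w0, ws, h1, h0, fun s hs lt => by_contra fun hc =>
    hmax _ ⟨s, hs, u, u, u0, us, u0, us, rfl, hc, (bot_le.trans_lt lt).ne'⟩ lt⟩

namespace MT

theorem le_conj {t : V ≃ₗ[F] V} (e : ∀ c : K, t (c • w) = c • w) : Ak K g u w ≤ Ak K (g⁻¹ * t * g) u u :=
  fun k hk => by
    obtain ⟨c, hc⟩ := mem_Ak.1 hk
    exact mem_Ak.2 ⟨k, by simp [← hc, e]; simp [hc]⟩

theorem stab (h : MT Ψ X g u w) {t : V ≃ₗ[F] V} (ht : t ∈ X) (e : ∀ c : K, t (c • w) = c • w) {x b : K}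
    (hx : x ∉ Ak K g u w) (hb : b ∈ Ak K g⁻¹ w u) (e' : t (g (x • u)) = g (x • u) + b • w) (k : K) :
    ∃ k' : K, t (g (k • u)) = g (k' • u) := by
  obtain ⟨y, hy⟩ := mem_Ak.1 hb
  have := h.max _ (mul_mem (mul_mem (inv_mem h.hg) ht) h.hg) (SetLike.lt_iff_le_and_exists.2
    ⟨le_conj e, x, mem_Ak.2 ⟨x + y, by simp [e', add_smul, hy]⟩, hx⟩)
  obtain ⟨y, hy⟩ := mem_Ak.1 (this ▸ Submodule.mem_top : k ∈ Ak K (g⁻¹ * t * g) u u)
  exact ⟨y, by simp [hy]⟩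

theorem B_top [Finite K] (h : MT Ψ X g u w) : Ak K g⁻¹ w u ≠ ⊤ := mt (Ak_eq_top h.w0) h.top

theorem B_bot (h : MT Ψ X g u w) : Ak K g⁻¹ w u ≠ ⊥ := by
  obtain ⟨a, ha, ha0⟩ := (Submodule.ne_bot_iff _).1 h.bot
  obtain ⟨c, hc⟩ := mem_Ak.1 ha
  exact (Submodule.ne_bot_iff _).2 ⟨c, mem_Ak.2 ⟨a, by simp [hc]⟩, by
    rintro rfl; exact smul_ne_zero ha0 h.u0 (by simpa using hc.symm)⟩

theorem out [Finite K] (h : MT Ψ X g u w) (pr : (finrank F K).Prime) {x : K} (hx : x ∉ Ak K g u w) {φ : Dual K V}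
    {α : V} (f1 : φ (g (x • u)) = 1) (hφ : ∀ k : K, φ (g (k • u)) = 0 → k ∈ Ak K g u w)
    (H : ∀ b : K, ∃ t ∈ X, (∀ c : K, t (c • w) = c • w) ∧ (∀ k : K, t (g (k • u)) = g (k • u) + (b * φ (g (k • u))) • w) ∧
      ∀ v, ∃ c₁ c₂ : K, t v - v = c₁ • w + c₂ • α) : Out K X u := by
  obtain ⟨lam, l1, l2⟩ := exists_fun hx
  obtain ⟨a₀, ha, ha0⟩ := (Submodule.ne_bot_iff _).1 h.bot
  have hyp : ∀ k, φ (g (k • u)) = f (lam k) := fun k => by
    obtain ⟨d, hd⟩ := mem_range_of_stab pr h.B_bot h.B_top (κ := φ (g (k • u))) fun b hb => by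
      obtain ⟨t, ht, e1, e2, -⟩ := H b
      obtain ⟨k', e⟩ := h.stab ht e1 hx hb (by rw [e2, f1, mul_one]) k
      exact mem_Ak.2 ⟨k' - k, by rw [e2] at e; simp [sub_smul, LinearEquiv.eq_symm_apply, ← e, mul_comm]⟩
    have := l2 _ (hφ (k - d • x) (by simp [sub_smul, ← hd, f1, Algebra.smul_def d (1 : K)]))
    rw [← hd, show lam k = d by simpa [l1, sub_eq_zero] using this]
  refine ⟨lam, x, a₀, l1, l2 _ ha, ha0, fun a ha => ?_⟩
  obtain ⟨b, hb⟩ := mem_Ak.1 (hφ a (by simp [hyp, ha]))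
  obtain ⟨t, ht, -, e2, e3⟩ := H b
  refine ⟨_, mul_mem (mul_mem (inv_mem h.hg) ht) h.hg, fun k => ?_, g, w, α, b, hb.symm, fun v => by simpa using e3 (g v)⟩
  simp [e2, hyp, add_smul, mul_comm b, mul_smul, hb]

theorem good [Finite K] [FiniteDimensional K V] (h : MT Ψ X g u w) (T : TS Φ Ψ L X) {x : K} (hx : x ∉ Ak K g u w)
    (e0 : Ψ.B w (g (x • u)) = 0) {z : V} (z1 : Ψ.B w z = 0) (z2 : Ψ.B z (g (x • u)) = 0) (z3 : z ∉ K ∙ w) :
    Out K X u := by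
  have E : ∀ a, Ψ.B w a = 0 → ∃ d : K, ∃ t ∈ X, (∀ c : K, t (c • w) = c • w) ∧
      ∀ v, t v = v + (Ψ.B a v - d * Ψ.B w v) • w - (Ψ.ε * Ψ.B w v) • a := fun a ha => by
    obtain ⟨d, t, ht⟩ := exists_isE' T.hn' h.ws ha
    exact ⟨d, _, T.hE _ _ _ _ ht, fun c => by simp [ht.apply_p], ht.app⟩
  have all : ∀ k : K, Ψ.B w (g (k • u)) = 0 := fun k => by_contra fun hξ => by
    have : ∀ c : K, ∃ k' : K, ∃ e : K, g (k' • u) = e • w - (Ψ.ε * Ψ.B w (g (k • u)) * c) • z := fun c => by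
      obtain ⟨d, t, ht, e1, e2⟩ := E (c • z) (by simp [z1])
      obtain ⟨k', e⟩ := h.stab ht e1 hx (zero_mem _) (by simp [e2, e0, z2]) k
      exact ⟨k' - k, _, by rw [sub_smul, map_sub, ← e, e2, smul_smul, add_sub_assoc, add_sub_cancel_left]⟩
    choose φ e he using this
    have key : ∀ c : K, (Ψ.ε * Ψ.B w (g (k • u)) * c) • z ∈ K ∙ w → c = 0 := fun c hc => by_contra fun h0 =>
      z3 ((Submodule.smul_mem_iff _ (by simp [Ψ.ε_ne_zero, hξ, h0])).1 hc)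
    have inj : Function.Injective φ := fun c c' e' => sub_eq_zero.1 (key _ (Submodule.mem_span_singleton.2
      ⟨e c - e c', by have := he c; rw [e', he] at this; linear_combination (norm := module) -this⟩))
    have : ∀ a ∈ Ak K g u w, a = φ 0 := fun a ha => by
      obtain ⟨b, hb⟩ := mem_Ak.1 ha
      obtain ⟨c, rfl⟩ := Finite.surjective_of_injective inj a
      rw [key c (Submodule.mem_span_singleton.2 ⟨e c - b, by rw [he] at hb; linear_combination (norm := module) -hb⟩)]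
    exact h.bot (eq_bot_iff.2 fun a ha => (this a ha).trans (this 0 (zero_mem _)).symm)
  have E' : ∀ φ : Dual K V, φ w = 0 → ∃ α, ∀ b : K, ∃ t ∈ X, (∀ c : K, t (c • w) = c • w) ∧
      (∀ k : K, t (g (k • u)) = g (k • u) + (b * φ (g (k • u))) • w) ∧
      ∀ v, ∃ c₁ c₂ : K, t v - v = c₁ • w + c₂ • α := fun φ e => by
    obtain ⟨α, rfl⟩ := T.hn'.exists_eq_B φ
    refine ⟨α, fun b => ?_⟩
    obtain ⟨d, t, ht, e1, e2⟩ := E (b • α) (by simp [Ψ.B_eq_zero_symm e])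
    exact ⟨t, ht, e1, fun k => by simp [e2, all], fun v => ⟨Ψ.B (b • α) v - d * Ψ.B w v,
      -(Ψ.ε * Ψ.B w v * b), by rw [e2]; module⟩⟩
  obtain ⟨φ, f1, f2⟩ := exists_fun (show g (x • u) ∉ K ∙ w from hx)
  replace f2 := f2 _ (Submodule.mem_span_singleton_self _)
  obtain ⟨α, H⟩ := E' φ f2
  refine h.out T.pr hx f1 (fun k hk => ?_) H
  have m : g (k • u) ∈ (K ∙ w) ⊔ K ∙ g (x • u) := by
    by_contra hc
    obtain ⟨ψ, e1, e2⟩ := exists_fun hc
    obtain ⟨α, H⟩ := E' ψ (e2 _ (Submodule.mem_sup_left (Submodule.mem_span_singleton_self _)))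
    refine h.B_top (eq_top_iff.2 fun b _ => ?_)
    obtain ⟨t, ht, a1, a2, -⟩ := H b
    obtain ⟨k', e⟩ := h.stab ht a1 hx (zero_mem _) (by simp [a2, e2 _ (mem_sup_self _ _)]) k
    exact mem_Ak.2 ⟨k' - k, by rw [a2, e1] at e; simp [sub_smul, LinearEquiv.eq_symm_apply, ← e]⟩
  obtain ⟨_, h1, _, h2, e⟩ := Submodule.mem_sup.1 m
  obtain ⟨κ', rfl⟩ := Submodule.mem_span_singleton.1 h1
  obtain ⟨κ, rfl⟩ := Submodule.mem_span_singleton.1 h2
  obtain rfl : κ = 0 := by simpa [← e, f1, f2] using hk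
  exact mem_Ak.2 ⟨κ', by simpa using e⟩

end MT

theorem exists_trace_form [FiniteDimensional F K] [FiniteDimensional K V] (hn : Φ.Nondeg) {L : Dual F K} (hL : L ≠ 0)
    (h : ∀ (k : K) u v, Φ.B (k • u) v = Φ.B u (k • v)) :
    ∃ B : LinearMap.BilinForm K V, (∀ x y, Φ.B x y = L (B x y)) ∧ ∀ x, (∀ y, B x y = 0) → x = 0 := by
  choose φ hφ using fun x => exists_dualK (K := K) hL (Φ.B x)
  have ext : ∀ a b : Dual K V, (∀ v, L (a v) = L (b v)) → a = b := fun a b e => LinearMap.ext fun v =>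
    sub_eq_zero.1 (eq_zero_of_dual hL fun k => by simpa [mul_sub, sub_eq_zero] using e (k • v))
  refine ⟨⟨⟨φ, fun x y => ext _ _ fun v => by simp [hφ]⟩, fun k x => ext _ _ fun v => ?_⟩, fun x y => (hφ x y).symm,
    fun x hx => hn x fun y => by rw [← hφ, show φ x y = 0 from hx y, map_zero]⟩
  simpa [hφ, h] using (hφ x (k • v)).symm

namespace TS

theorem mem_perp (T : TS Φ Ψ L X) {v : V} : v ∈ Φ.perp ((K ∙ u).restrictScalars F) ↔ Ψ.B u v = 0 :=
  ⟨fun h => eq_zero_of_dual T.L0 fun k => by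
    simpa [T.hB] using h (k • u) (Submodule.smul_mem _ _ (Submodule.mem_span_singleton_self u)), fun h x hx => by
    obtain ⟨k, rfl⟩ := Submodule.mem_span_singleton.1 hx; simp [T.hB, h]⟩

theorem B_map (T : TS Φ Ψ L X) {s : V ≃ₗ[F] V} (hs : s ∈ X) {σ σ' : K → K} (e : ∀ k : K, s (k • u) = σ k • u)
    (h : ∀ k c, L (σ k * c) = L (k * σ' c)) (v : V) : Ψ.B u (s⁻¹ v) = σ' (Ψ.B u v) :=
  sub_eq_zero.1 (eq_zero_of_dual T.L0 fun k => by
    have := (T.hi hs).1 (k • u) (s⁻¹ v)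
    rw [e] at this
    simpa [T.hB, h, mul_sub, sub_eq_zero] using this.symm)

theorem exists_rep [FiniteDimensional F K] (T : TS Φ Ψ L X) (μ : Dual F K) : ∃ c : K, ∀ k, μ k = L (c * k) := by
  obtain ⟨φ, e⟩ := exists_dualK (V := K) T.L0 μ
  exact ⟨φ 1, fun k => by rw [← e, mul_comm, ← smul_eq_mul, ← map_smul, smul_eq_mul, mul_one]⟩

end TS

section Sp
variable {B : LinearMap.BilinForm F V} {hA : B.IsAlt} {B' : LinearMap.BilinForm K V} {hA' : B'.IsAlt}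

theorem sum_sq [Finite F] (d : F) : ∃ x y : F, d = x * x + y * y := by
  by_cases h2 : (2 : F) = 0
  · obtain ⟨x, hx⟩ := sqSign_eq_one_iff.1 (sqSign_of_two_eq_zero h2 d)
    exact ⟨x, 0, by simpa using hx⟩
  · obtain ⟨x, y, h⟩ := exists_bin h2 one_ne_zero one_ne_zero d
    exact ⟨x, y, by linear_combination -h⟩

theorem EG_le_of_tv [Finite F] [FiniteDimensional F V] (hn : (Formed.ofAlt B hA).Nondeg) {e : F} (he : e ≠ 0)
    (h : ∀ p, p ≠ 0 → HasE (Formed.ofAlt B hA) X p 0 e) : EG (Formed.ofAlt B hA) ≤ X := by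
  have h1 : ∀ p d, HasE (Formed.ofAlt B hA) X p 0 d := fun p d => by
    rcases eq_or_ne p 0 with rfl | hp
    · exact ⟨1, one_mem _, sing_alt _, by simp, by simp [Formed.ofAlt], by simp [Formed.ofAlt], by simp⟩
    have : ∀ c : F, HasE (Formed.ofAlt B hA) X p 0 (e * (c * c)) := fun c => by
      rcases eq_or_ne c 0 with rfl | hc
      · simpa using hasE_one X (sing_alt p)
      · simpa using (h _ (smul_ne_zero hc hp)).of_smul hc
    obtain ⟨x, y, hd⟩ := sum_sq (d / e)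
    exact ((this x).mul (this y)).congr (by simp) (by simp [← mul_add, ← hd, mul_div_cancel₀ _ he])
  exact EG_le fun p a d g hg => (full_of_AE hg.sp (fun a ha => ⟨_, (HasE.of_tv (h1 _ (-1)) (h1 _ _) (h1 _ _) ha).congr
    (by simp [Formed.ofAlt]) rfl⟩) fun d g hg => (h1 p d).mem hg).2 a d g hg

/-- The map `v ↦ v + η (Ψ(u, v)) u` lies in `X`. -/
def Zf (Ψ : Formed (RingHom.id K) V) (X : Subgroup (V ≃ₗ[F] V)) (u : V) (η : K → K) : Prop :=
  ∃ t ∈ X, ∀ v, t v = v + η (Ψ.B u v) • u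

theorem Zf.sub {η η' η'' : K → K} (us : Ψ.B u u = 0) (h : Zf Ψ X u η) (h' : Zf Ψ X u η')
    (e : ∀ c, η c - η' c = η'' c) : Zf Ψ X u η'' := by
  obtain ⟨t, ht, e1⟩ := h
  obtain ⟨s, hs, e2⟩ := h'
  refine ⟨_, mul_mem (inv_mem hs) ht, fun v => (s.symm_apply_eq).2 ((e1 v).trans ?_)⟩
  rw [e2, map_add, map_smul, us, ← e]; simp [sub_smul, add_assoc]

theorem Zf.conj (T : TS Φ Ψ L X) {η : K → K} (h : Zf Ψ X u η) {s : V ≃ₗ[F] V} (hs : s ∈ X) {σ σ' : K → K}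
    (e : ∀ k : K, s (k • u) = σ k • u) (h' : ∀ k c, L (σ k * c) = L (k * σ' c)) : Zf Ψ X u fun c => σ (η (σ' c)) := by
  obtain ⟨t, ht, e1⟩ := h
  exact ⟨_, mul_mem (mul_mem hs ht) (inv_mem hs), fun v => by
    rw [LinearEquiv.mul_apply, LinearEquiv.mul_apply, e1, map_add, e, T.B_map hs e h']; simp⟩

theorem exists_omega (h2 : finrank F K = 2) (q2 : ∀ c : F, c ≠ 0 → c = 1) :
    ∃ ω : K, ω * ω = ω + 1 ∧ (2 : F) = 0 ∧ ∀ k : K, ∃ c d : F, k = f c + f d * ω := by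
  haveI : FiniteDimensional F K := .of_finrank_pos (by omega)
  obtain ⟨ω, -, hk⟩ := exists_notMem_of_lt (F := F) (U := ⊤) (R := F ∙ (1 : K)) (by
    have := finrank_span_one (F := F) (1 : K); rw [finrank_top]; omega)
  have hω : ∀ c, f c ≠ ω := fun c e => hk (Submodule.mem_span_singleton.2 ⟨c, by rw [← e, Algebra.smul_def, mul_one]⟩)
  have c1 : (2 : F) = 0 := by linear_combination -q2 (-1) (by simp)
  have c2 : (2 : K) = 0 := by rw [← map_ofNat f, c1, map_zero]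
  refine ⟨ω, ?_, c1, exists_coord h2 hω⟩
  obtain ⟨c, d, e⟩ := exists_coord h2 hω (ω * ω)
  have ω0 : ω ≠ 0 := by simpa using (hω 0).symm
  have ω1 : ω - 1 ≠ 0 := by simpa [sub_eq_zero] using (hω 1).symm
  rcases (eq_or_ne c 0).imp_right (q2 c) with rfl | rfl <;>
    rcases (eq_or_ne d 0).imp_right (q2 d) with rfl | rfl <;> simp only [map_zero, map_one] at e
  · exact absurd (by simpa using e) ω0
  · exact absurd (by linear_combination e) (mul_ne_zero ω0 ω1)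
  · exact absurd (by linear_combination e + (1 - ω) * c2) (mul_ne_zero ω1 ω1)
  · linear_combination e

theorem exists_kerL (h : 2 ≤ finrank F K) (L : Dual F K) : ∃ c, c ≠ 0 ∧ L c = 0 := by
  haveI : FiniteDimensional F K := .of_finrank_pos (by omega)
  obtain ⟨c, hc, c0⟩ := exists_notMem_of_lt (R := (⊥ : Submodule F K)) (U := ⊤ ⊓ LinearMap.ker (LinearMap.pi ![L])) (by
    have := finrank_ker_pi ![L] ⊤; rw [finrank_top] at this; rw [finrank_bot]; omega)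
  exact ⟨c, by simpa using c0, congrFun hc.2 0⟩

variable [Finite K] [FiniteDimensional K V]

omit [Finite K] in
theorem TS.zf_mul (T : TS Φ (Formed.ofAlt B' hA') L X) (u : V) (d : K) : Zf (Formed.ofAlt B' hA') X u (d * ·) := by
  obtain ⟨t, ht⟩ := exists_tv_alt T.hn' u (-d)
  exact ⟨_, T.hE _ _ _ _ ht, fun v => by simp [ht.app]⟩

theorem TS.out_alt (T : TS Φ (Formed.ofAlt B' hA') L X) (h : MT (Formed.ofAlt B' hA') X g u w) : Out K X u := by
  by_cases hc : ∃ x ∉ Ak K g u w, B' w (g (x • u)) = 0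
  · obtain ⟨x, hx, e⟩ := hc
    exact h.good T hx e e (hA' _) hx
  push Not at hc
  obtain ⟨x, hx⟩ : ∃ x, x ∉ Ak K g u w := by by_contra! hc; exact h.top (eq_top_iff.2 fun x _ => hc x)
  refine h.out T.pr hx (φ := (B' w (g (x • u)))⁻¹ • B' w) (α := 0) (by simp [hc x hx])
    (fun k hk => by_contra fun e => by simp [hc x hx, hc k e] at hk) fun b => ?_
  obtain ⟨t, ht, e⟩ := T.zf_mul w (b * (B' w (g (x • u)))⁻¹)
  exact ⟨t, ht, fun c => by simp [e, hA' w], fun k => by simp [e, mul_assoc], fun v => ⟨_, 0, by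
    rw [e, add_sub_cancel_left, smul_zero, add_zero]⟩⟩

theorem TS.tv_alt [FiniteDimensional F V] (T : TS (Formed.ofAlt B hA) (Formed.ofAlt B' hA') L X)
    (hI : ∀ g ∈ (Formed.ofAlt B' hA').isom, g.restrictScalars F ∈ X) (u0 : u ≠ 0) (h : Out K X u)
    (hex : finrank F K = 2 → (∀ c : F, c ≠ 0 → c = 1) → 6 ≤ finrank K V) :
    ∃ p e, p ≠ 0 ∧ e ≠ 0 ∧ HasE (Formed.ofAlt B hA) X p 0 e := by
  haveI : FiniteDimensional F K := .of_finrank_pos T.pr.pos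
  obtain ⟨lam, x, a₀, l1, l2, a0, H⟩ := h
  obtain ⟨l, hl⟩ := T.exists_rep lam
  have l0 : l ≠ 0 := by rintro rfl; simp [hl] at l1
  have us : (Formed.ofAlt B' hA').B u u = 0 := hA' u
  have fin : ∀ (a : K) (e : F), a ≠ 0 → e ≠ 0 → Zf (Formed.ofAlt B' hA') X u (fun c => (e * L (a * c)) • a) →
      ∃ p e, p ≠ 0 ∧ e ≠ 0 ∧ HasE (Formed.ofAlt B hA) X p 0 e := fun a e ha he ⟨t, ht, h⟩ =>
    ⟨a • u, -e, smul_ne_zero ha u0, neg_ne_zero.2 he, t, ht, sing_alt _, by simp, by simp [Formed.ofAlt],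
      by simp [Formed.ofAlt], fun v => by rw [h, T.hB (a • u)]; simp⟩
  have adj : ∀ a k c, L ((k + lam k • a) * c) = L (k * (c + L (a * c) • l)) := fun a k c => by
    simp [add_mul, mul_add, hl, mul_comm]
  have D : ∀ a, lam a = 0 → ∀ b, Zf (Formed.ofAlt B' hA') X u
      fun c => L (a * c) • b + (L (b * c) + lam b * L (a * c)) • a := fun a ha b => by
    obtain ⟨s, hs, e, -⟩ := H a ha
    refine ((T.zf_mul u (b / l)).conj T hs e (adj a)).sub us (T.zf_mul u (b / l)) fun c => ?_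
    simp only [mul_add, mul_smul_comm, div_mul_cancel₀ _ l0, map_add, map_smul, smul_eq_mul, hl (b / l * c),
      ← mul_assoc, mul_div_cancel₀ _ l0, mul_comm (lam b)]
    abel
  by_cases q2 : ∃ c : F, c ≠ 0 ∧ c ≠ 1
  · obtain ⟨c, c0, c1⟩ := q2
    refine fin a₀ (c * c - c) a0 (by simp [← mul_sub_one, c0, sub_eq_zero, c1])
      ((D (c • a₀) (by simp [l2]) x).sub us (D a₀ l2 (c • x)) fun k => ?_)
    simp only [smul_mul_assoc, map_smul, l1, smul_eq_mul]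
    module
  push Not at q2
  by_cases r2 : finrank F K ≠ 2
  · have := T.pr.two_le
    obtain ⟨κ, -, hk⟩ := exists_notMem_of_lt (F := F) (U := ⊤) (R := F ∙ (1 : K)) (by
      have := finrank_span_one (F := F) (1 : K); rw [finrank_top]; omega)
    have κ0 : κ ≠ 0 := by rintro rfl; simp at hk
    have κ1 : κ - 1 ≠ 0 := fun e => by simp [sub_eq_zero.1 e] at hk
    obtain ⟨a, ha, a0⟩ := exists_notMem_of_lt (R := (⊥ : Submodule F K)) (U := ⊤ ⊓ LinearMap.ker (LinearMap.pi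
      ![lam, lam ∘ₗ LinearMap.mul F K κ])) (by
        have := finrank_ker_pi ![lam, lam ∘ₗ LinearMap.mul F K κ] ⊤; rw [finrank_top] at this; rw [finrank_bot]; omega)
    have a1 : lam a = 0 := congrFun ha.2 0
    have a2 : lam (κ * a) = 0 := congrFun ha.2 1
    obtain ⟨s, hs, e⟩ := T.hn'.witt_vec u0 (smul_ne_zero κ0 u0) (by simp [hA' u]) rfl
    refine fin (κ * a) 1 (by simpa [κ0] using a0) one_ne_zero ((D _ a2 (κ * (x / (κ - 1)))).sub us
      ((D a a1 (x / (κ - 1))).conj T (hI s hs) (σ := (κ * ·)) (σ' := (κ * ·)) (fun k => by simp [e, smul_smul, mul_comm])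
        fun k c => by ring_nf) fun k => ?_)
    have : lam (κ * (x / (κ - 1))) = lam (x / (κ - 1)) + 1 := by rw [← l1, ← map_add]; congr 1; field_simp; ring
    simp only [this, mul_add, mul_smul_comm, mul_left_comm _ κ, mul_assoc]
    module
  push Not at r2
  obtain ⟨ω, hω, c1, hK⟩ := exists_omega r2 q2
  obtain ⟨s, hs, e, g, w, α, b, hb, e'⟩ := H a₀ l2
  have b0 : b ≠ 0 := by rintro rfl; exact smul_ne_zero a0 u0 (by simpa using hb)
  set Ψ := Formed.ofAlt B' hA'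
  obtain ⟨z, hz, hz'⟩ := exists_notMem_of_lt (R := K ∙ u) (U := ⊤ ⊓ pf Ψ ![u, g⁻¹ (ω • b • w), g⁻¹ α, g⁻¹ (ω • α)]) (by
    have := finrank_pf (Φ := Ψ) ![u, g⁻¹ (ω • b • w), g⁻¹ α, g⁻¹ (ω • α)] ⊤
    have := finrank_span_one (F := K) u
    have := hex r2 q2
    rw [finrank_top] at *; omega)
  replace hz := mem_pf.1 hz.2
  have z0 : Ψ.B u z = 0 := hz 0
  have z1 : ∀ v, Ψ.B z (s v) = Ψ.B z v := fun v => by
    obtain ⟨c₁, c₂, e'⟩ := e' v
    obtain ⟨x₁, x₂, e₁⟩ := hK (c₁ / b)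
    obtain ⟨x₃, x₄, rfl⟩ := hK c₂
    rw [div_eq_iff b0] at e₁
    have : s v = v + (x₁ • a₀ • u + x₂ • g⁻¹ (ω • b • w) + x₃ • g⁻¹ α + x₄ • g⁻¹ (ω • α)) := by
      rw [← sub_eq_iff_eq_add']; apply g.injective
      simp [e', e₁, hb, add_smul, mul_smul, add_assoc]
    have y := fun i => Ψ.B_eq_zero_symm (hz i)
    simp only [this, map_add, ← algebraMap_smul K x₁, ← algebraMap_smul K x₂, ← algebraMap_smul K x₃,
      ← algebraMap_smul K x₄, map_smul, show Ψ.B z u = 0 from y 0, show Ψ.B z (g⁻¹ (ω • b • w)) = 0 from y 1,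
      show Ψ.B z (g⁻¹ α) = 0 from y 2, show Ψ.B z (g⁻¹ (ω • α)) = 0 from y 3]
    simp
  obtain ⟨d, E, hE⟩ := exists_isE' T.hn' (sing_alt u) z0
  obtain ⟨β, β1, β2⟩ := T.hn'.exists_perp_eq_one hz'
  obtain ⟨d', E', hE'⟩ := exists_isE' T.hn' (sing_alt u) (a := (ω * a₀ / l) • β) (by
    simp [Ψ.mem_perp_span_singleton.1 β1])
  obtain ⟨t, ht, h1⟩ := comm_triv T.hn T.hi (P := (K ∙ u).restrictScalars F) (p := a₀ • u) (z := l • z)
    (Submodule.smul_mem _ _ (Submodule.mem_span_singleton_self u)) (sing_alt _) (T.mem_perp.2 (by simp [z0]))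
    (mul_mem (mul_mem (mul_mem hs (T.hE _ _ _ _ hE)) (inv_mem hs)) (inv_mem (T.hE _ _ _ _ hE))) (fun v hv => by
      have hv := T.mem_perp.1 hv
      have a1 : E.symm v = v - Ψ.B z v • u := by
        rw [LinearEquiv.symm_apply_eq, hE.apply_perp (by simp [hv, us])]; simp [Ψ.B_eq_zero_symm z0]
      have a2 : Ψ.B u (s.symm (v - Ψ.B z v • u)) = 0 := (T.B_map hs e (adj a₀) _).trans (by simp [hv, us])
      have a3 : Ψ.B z (s.symm (v - Ψ.B z v • u)) = Ψ.B z v := by rw [← z1]; simp [Ψ.B_eq_zero_symm z0]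
      change s (E (s.symm (E.symm v))) = _
      rw [a1, hE.apply_perp a2, a3, map_add, e, T.hB, Ψ.B_smul_left]
      simp [add_smul, hl, ← add_assoc])
    (T.hE _ _ _ _ hE') fun v hv => by
      obtain ⟨k, rfl⟩ := Submodule.mem_span_singleton.1 hv
      simp [hE'.apply_p]
  have a1 : l • z - E'.restrictScalars F (l • z) = -((ω * a₀) • u) := by
    simp [hE'.apply_perp z0, β2, smul_smul, mul_div_cancel₀ _ l0]
  have c2 : (2 : K) = 0 := by rw [← map_ofNat f, c1, map_zero]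
  refine fin a₀ 1 a0 one_ne_zero ((T.zf_mul u (a₀ * a₀ * (f (L 1) * (1 + ω) + f (L ω)))).sub us
    (η' := fun c => -(L (ω * a₀ * c) • a₀ + L (a₀ * c) • (ω * a₀))) ⟨t, ht, fun v => ?_⟩ fun c => ?_)
  · rw [h1.app, a1, T.hB, T.hB, T.hB]
    simp [add_smul, Ψ.B_eq_zero_symm z0, show (Formed.ofAlt B hA).ε = -1 from rfl, sub_eq_add_neg, add_assoc,
      add_comm, add_left_comm]
  obtain ⟨x₁, x₂, e₁⟩ := hK (a₀ * c)
  rw [mul_assoc ω, e₁, mul_add ω, mul_left_comm ω (f x₂), hω]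
  rw [mul_comm ω (f x₁), ← Algebra.smul_def x₁ ω, ← Algebra.smul_def x₂ ω, ← Algebra.smul_def x₂ (ω + 1),
    Algebra.algebraMap_eq_smul_one x₁]
  simp only [map_add, map_smul, smul_eq_mul]
  simp only [Algebra.smul_def, map_add, map_mul, one_mul]
  linear_combination a₀ * (f (L 1) * (1 + ω) + f (L ω)) * e₁ + a₀ * f x₂ * f (L 1) * hω + 
    a₀ * (f x₁ * f (L ω) + f x₁ * f (L 1) * ω + f x₂ * (f (L 1) * ω + f (L 1) + f (L ω) * ω)) * c2

theorem isMaximalIn_extSp [Finite F] [Finite V] [FiniteDimensional F V] (hn : (Formed.ofAlt B hA).Nondeg)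
    (hE : EG (Formed.ofAlt B hA) = (Formed.ofAlt B hA).isom) (hr : (finrank F K).Prime)
    (hsa : ∀ (k : K) u v, B (k • u) v = B u (k • v)) (halt : ∀ (k : K) v, B (k • v) v = 0) [Nontrivial V]
    (hex : finrank F K = 2 → (∀ c : F, c ≠ 0 → c = 1) → 6 ≤ finrank K V) :
    Geo.IsMaximalIn (EG (Formed.ofAlt B hA)) (normG (scal F K V) ⊓ EG (Formed.ofAlt B hA)) := by
  haveI : FiniteDimensional F K := .of_finrank_pos hr.pos
  obtain ⟨L, hL, -⟩ := exists_fun (S := (⊥ : Submodule F K)) (w := 1) (by simp)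
  have L0 : L ≠ 0 := by rintro rfl; simp at hL
  obtain ⟨B', h1, h2⟩ := exists_trace_form hn L0 hsa
  have hA' : B'.IsAlt := fun v => eq_zero_of_dual L0 fun k => by simpa [h1 _ _] using (h1 (k • v) v).symm.trans (halt k v)
  obtain ⟨u, hu⟩ := exists_ne (0 : V)
  obtain ⟨w, hw⟩ := Formed.Nondeg.exists_eq_one (Φ := Formed.ofAlt B' hA') h2 hu
  have hw' : w ∉ K ∙ u := fun e => by
    obtain ⟨k, rfl⟩ := Submodule.mem_span_singleton.1 e; simp [hA' u] at hw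
  have hm : 2 ≤ finrank K V := by
    have := finrank_lt_sup hw'; have := Submodule.finrank_le ((K ∙ u) ⊔ K ∙ w)
    rw [finrank_span_singleton hu] at *; omega
  refine max_crit inf_le_right ?_ fun X hX hX' g hg hg' => ?_
  · obtain ⟨t, ht⟩ := exists_tv_alt hn u (-1)
    refine ⟨t, IsE_mem_EG ht, fun hc => ?_⟩
    obtain ⟨c, c0, c1⟩ := exists_kerL hr.two_le L
    obtain ⟨k, e⟩ := mem_normG_scal.1 hc.1 c⁻¹
    replace e := e (c • w)
    replace hw : B' u w = 1 := hw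
    rw [inv_smul_smul₀ c0, ht.app, ht.app, h1 u, h1 u, Formed.ofAlt_B, map_smul (B' u), hw, smul_eq_mul, mul_one, c1,
      hL] at e
    exact notMem_symm hw' hu (Submodule.mem_span_singleton.2 ⟨k * c - 1, by
      simp only [map_zero, LinearMap.zero_apply] at e; linear_combination (norm := module) -e⟩)
  have hI : ∀ g ∈ (Formed.ofAlt B' hA').isom, g.restrictScalars F ∈ X := fun g hg => hX
    ⟨mem_normG_scal.2 fun k => ⟨k, fun v => by simp⟩, hE ▸ ⟨fun x y => by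
      rw [h1, h1 x]; exact congrArg L (hg.1 x y), fun _ => rfl⟩⟩
  have T : TS (Formed.ofAlt B hA) (Formed.ofAlt B' hA') L X :=
    ⟨hn, h2, h1, L0, hr, hX'.trans EG_le_isom, fun _ _ _ s hs => hI s hs.mem_isom⟩
  obtain ⟨u, hu⟩ := not_forall.1 (mt (mem_normG_of_points hm) fun e => hg' ⟨e, hX' hg⟩)
  have u0 : u ≠ 0 := by rintro rfl; exact hu (eq_top_iff.2 fun k _ => mem_Ak.2 ⟨0, by simp⟩)
  obtain ⟨g, u, w, h⟩ := exists_MT (Ψ := Formed.ofAlt B' hA') hg u0 (sing_alt _) (by simpa) (sing_alt _) hu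
    ((Submodule.ne_bot_iff _).2 ⟨1, mem_Ak.2 ⟨1, by simp⟩, one_ne_zero⟩)
  obtain ⟨p, e, p0, e0, h⟩ := T.tv_alt hI h.u0 (T.out_alt h) hex
  refine EG_le_of_tv hn e0 fun p' hp' => ?_
  obtain ⟨s, hs, rfl⟩ := T.hn'.witt_vec p0 hp' (by simp [hA' _]) rfl
  simpa using h.conj (hI s hs) (T.hi (hI s hs))

end Sp

end Cfsg.Agent.Root.Mx
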