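import Cfsg.Agent.Root.Ten3

/-! Rank estimates for `a ⊗ b` (`scalar_of_mv`), recognition of conjugates of `a ⊗ 1` (`rec0`), the inductive engine
`FX.gengine`, the criterion `isMaximalIn_FX`, the dictionary `isMaximalIn_tensorF`; `Sp ⊗ Sp` in `Ω⁺`. -/

set_option autoImplicit false

namespace Cfsg.Agent.Root.Mx

open Cfsg.Agent.Geom Cfsg.Agent.AutCl Module TensorProduct

variable {F : Type*} [Field F] {σ : F →+* F} {W U : Type*} [AddCommGroup W] [Module F W] [AddCommGroup U] [Module F U]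
  {Φ₁ : Formed σ W} {Φ₂ : Formed σ U} {Φ : Formed σ (W ⊗[F] U)} {X : Subgroup (W ⊗[F] U ≃ₗ[F] W ⊗[F] U)}
  {G : Subgroup (U ≃ₗ[F] U)}

/-- The maps moving vectors within `Y`. -/
def mvS (Y : Submodule F W) : Subgroup (W ≃ₗ[F] W) where
  carrier := {g | ∀ x, g x - x ∈ Y}
  one_mem' := fun x => by simp
  mul_mem' := fun {a b} ha hb x => by simpa using add_mem (ha (b x)) (hb x)
  inv_mem' := fun {a} ha x => by simpa using neg_mem (ha (a.symm x))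

theorem mvS_mono {Y Z : Submodule F W} (h : Y ≤ Z) : mvS Y ≤ mvS Z := fun _ hg x => h (hg x)

theorem fix_of_mvS (hn : Φ₁.Nondeg) {Y : Submodule F W} {g : W ≃ₗ[F] W} (hg : g ∈ Φ₁.isom) (h : g ∈ mvS Y) {y : W}
    (hy : ∀ z ∈ Y, Φ₁.B y z = 0) : g y = y := hn.ext fun z => by
  obtain ⟨z, rfl⟩ := g.surjective z
  have := hy _ (h z)
  rw [map_sub, sub_eq_zero] at this
  rw [hg.1, this]

theorem exists_dual_fam {ι : Type*} [DecidableEq ι] {v : ι → W} (h : LinearIndependent F v) :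
    ∃ φ : ι → Dual F W, ∀ i j, φ i (v j) = if i = j then 1 else 0 := by
  obtain ⟨g, hg⟩ := h.repr.exists_extend
  refine ⟨fun i => Finsupp.lapply i ∘ₗ g, fun i j => ?_⟩
  have := LinearMap.congr_fun hg ⟨v j, Submodule.subset_span ⟨j, rfl⟩⟩
  simp only [LinearMap.comp_apply, Submodule.subtype_apply, h.repr_eq_single j ⟨_, _⟩ rfl] at this
  simp [this, Finsupp.single_apply, eq_comm]

theorem mem_span_of_tmul {x y : W} {u u' : U} (u0 : u ≠ 0) (h : x ⊗ₜ[F] u = y ⊗ₜ u') : x ∈ F ∙ y := by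
  obtain ⟨μ, m⟩ := exists_fun0 (F := F) u0
  exact Submodule.mem_span_singleton.2 ⟨μ u', by simpa [m] using congrArg (TensorProduct.rid F W ∘ μ.lTensor W) h.symm⟩

/-- The point `v ⊗ U`, pulled back by `c`. -/
def ptc (c : W ⊗[F] U ≃ₗ[F] W ⊗[F] U) (v : W) : Submodule F (W ⊗[F] U) :=
  LinearMap.range (c.symm.toLinearMap ∘ₗ TensorProduct.mk F W U v)

variable [FiniteDimensional F W] [FiniteDimensional F U]

omit [FiniteDimensional F W] in
theorem finrank_ptc (c : W ⊗[F] U ≃ₗ[F] W ⊗[F] U) (v : W) : finrank F (ptc c v) ≤ finrank F U :=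
  LinearMap.finrank_range_le _

theorem exists_supp (z : W ⊗[F] U) : ∃ S : Submodule F W, finrank F S ≤ finrank F U ∧
    ∀ g : W ≃ₗ[F] W, (∀ x ∈ S, g x = x) → lT U g z = z := by
  obtain ⟨b, rfl⟩ := TensorProduct.eq_repr_basis_right (finBasis F U) z
  exact ⟨_, finrank_span_fam b, fun g hg => by
    simp [Finsupp.sum, map_sum, fun i => hg (b i) (Submodule.subset_span ⟨i, rfl⟩)]⟩

theorem scalar_of_mv {g : W ⊗[F] U ≃ₗ[F] W ⊗[F] U} {a : W ≃ₗ[F] W} {b : U ≃ₗ[F] U} (e : ∀ w u, g (w ⊗ₜ u) = a w ⊗ₜ b u)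
    {Y : Submodule F (W ⊗[F] U)} (hY : g ∈ mvS Y) {k : ℕ} (p : Fin k → W) (φ : Fin k → Dual F W)
    (h1 : ∀ i j, φ i (p j) = if i = j then 1 else 0) (h2 : ∀ i j, φ i (a (p j)) = 0)
    (hd : finrank F Y + 2 * k < finrank F W + k * finrank F U) : ∃ a' : W ≃ₗ[F] W, g = lT U a' ∧ ∃ c : F, ∀ w, a' w = c • a w := by
  rcases subsingleton_or_nontrivial U with hU | hU
  · exact ⟨a, LinearEquiv.toLinearMap_injective (TensorProduct.ext' fun w u => by simp [Subsingleton.elim u 0]), 1, by simp⟩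
  obtain ⟨c, hc⟩ : ∃ c : F, b.toLinearMap = c • 1 := by
    by_contra! hk
    obtain ⟨u, hu⟩ := exists_notMem_of_not_scalar hk
    have u0 : u ≠ 0 := by rintro rfl; simp at hu
    obtain ⟨μ, m1, m2⟩ := exists_fun1 hu
    obtain ⟨ν, n1, n2⟩ := exists_fun1 (notMem_symm hu u0)
    let j : W × (Fin k → U) →ₗ[F] W ⊗[F] U := ((TensorProduct.mk F W U).flip u).coprod
      (∑ i, TensorProduct.mk F W U (p i) ∘ₗ .proj i)
    obtain ⟨⟨w, y⟩, hx, x0⟩ := (Submodule.ne_bot_iff _).1 (LinearMap.ker_ne_bot_of_finrank_lt (f :=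
      (((g.toLinearMap - 1).codRestrict Y hY) ∘ₗ j).prod ((LinearMap.pi fun i => μ.prod ν ∘ₗ .proj i) ∘ₗ .snd F W _))
      (by simp [finrank_pi_fintype]; omega))
    replace hx : a w ⊗ₜ[F] b u + ∑ i, a (p i) ⊗ₜ b (y i) = w ⊗ₜ u + ∑ i, p i ⊗ₜ y i ∧ ∀ i, μ (y i) = 0 ∧ ν (y i) = 0 := by
      refine ⟨?_, fun i => by simpa using congrFun (congrArg Prod.snd hx) i⟩
      have : g (j (w, y)) - j (w, y) = 0 := congrArg (Subtype.val ∘ Prod.fst) hx
      simpa [j, e, sub_eq_zero, map_sum] using this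
    have y0 : ∀ i, y i = 0 := fun i => by
      have := congrArg (cL (φ i)) hx.1
      simp [h1, h2, map_sum] at this m1 n2
      have a1 : φ i (a w) = 0 := by simpa [hx.2 i, m1, m2] using congrArg μ this
      have a2 : φ i w = 0 := by simpa [hx.2 i, n1, n2, eq_comm] using congrArg ν this
      simpa [a1, a2] using this.symm
    obtain ⟨χ, c1⟩ := exists_fun0 (F := F) (show w ≠ 0 by rintro rfl; exact x0 (by simp [funext_iff, y0]))
    simpa [y0, c1, n1, show ν (b u) = 0 from n2] using congrArg (ν ∘ cL χ) hx.1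
  have hc : ∀ u, b u = c • u := LinearMap.congr_fun hc
  obtain ⟨u, u0⟩ := exists_ne (0 : U)
  have c0 : c ≠ 0 := by rintro rfl; exact u0 (by simpa using hc u)
  exact ⟨.smulOfNeZero F W c c0 * a, LinearEquiv.toLinearMap_injective (TensorProduct.ext' fun w u => by
    simp [e, hc, smul_tmul]), c, fun w => rfl⟩

theorem rec0 (hn : Φ₁.Nondeg) [Nontrivial U] {c : W ⊗[F] U ≃ₗ[F] W ⊗[F] U} {v : W} (v0 : v ≠ 0) {κ : F} (hκ : κ ≠ 0)
    {α : W → W} (e : ∀ x u, c (α x ⊗ₜ u) = κ • v ⊗ₜ cL (Φ₁.B v) (c (x ⊗ₜ u))) :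
    ∃ x₀, α x₀ ≠ 0 ∧ (∀ x, α x ∈ F ∙ α x₀) ∧ ∀ u, ∃ u', c⁻¹ (v ⊗ₜ u) = α x₀ ⊗ₜ u' := by
  obtain ⟨u₀, u0⟩ := exists_ne (0 : U)
  obtain ⟨x, hx⟩ : ∃ x, α x ≠ 0 := by
    by_contra! hx
    have : ∀ z, cL (Φ₁.B v) (c z) = 0 := fun z => by
      induction z with
      | zero => simp
      | tmul x u => exact tmul_inj (F := F) v0 (by simpa [hx, hκ] using (e x u).symm)
      | add x y a b => simp [a, b]
    exact v0 (hn _ fun z => by simpa [u0] using this (c.symm (z ⊗ₜ u₀)))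
  obtain ⟨β, hβ⟩ := exists_beta hx fun u => ⟨_, (e x u).trans (tmul_smul _ _ _).symm⟩
  have e1 : ∀ u, c⁻¹ (v ⊗ₜ u) = α x ⊗ₜ β.symm u := fun u => c.symm_apply_eq.2 (by simp [hβ])
  exact ⟨x, hx, fun y => mem_span_of_tmul u0 (c.injective ((e y u₀).trans (by
    rw [← tmul_smul]; exact c.symm_apply_eq.1 (e1 _)))), fun u => ⟨_, e1 u⟩⟩

theorem lT_rk1 {r : W ≃ₗ[F] W} {v : W} {κ : F} (e : ∀ x, r x = x + (κ * Φ₁.B v x) • v) (z : W ⊗[F] U) :
    lT U r z = z + κ • v ⊗ₜ cL (Φ₁.B v) z := by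
  induction z with
  | zero => simp
  | tmul x u => simp [e, add_tmul, smul_tmul, smul_smul]
  | add x y a b => simp only [map_add, a, b, tmul_add, smul_add]; abel

theorem conj_mem_mvS {r : W ≃ₗ[F] W} {v : W} {κ : F} (e : ∀ x, r x = x + (κ * Φ₁.B v x) • v)
    (c : W ⊗[F] U ≃ₗ[F] W ⊗[F] U) : c⁻¹ * lT U r * c ∈ mvS (ptc c v) := fun z =>
  ⟨κ • cL (Φ₁.B v) (c z), by simp [-TensorProduct.congr_tmul, lT_rk1 e]⟩

theorem rec1 (hn : Φ₁.Nondeg) [Nontrivial U] {c : W ⊗[F] U ≃ₗ[F] W ⊗[F] U} {v : W} (v0 : v ≠ 0) {κ : F} (hκ : κ ≠ 0)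
    {r a : W ≃ₗ[F] W} (e : ∀ x, r x = x + (κ * Φ₁.B v x) • v) (ha : c⁻¹ * lT U r * c = lT U a) :
    ∃ x₀, a x₀ - x₀ ≠ 0 ∧ (∀ x, a x - x ∈ F ∙ (a x₀ - x₀)) ∧ ∀ u, ∃ u', c⁻¹ (v ⊗ₜ u) = (a x₀ - x₀) ⊗ₜ u' :=
  rec0 hn v0 hκ (α := fun x => a x - x) fun x u => by
    have := c.symm_apply_eq.1 (LinearEquiv.congr_fun ha (x ⊗ₜ u))
    rw [sub_tmul, map_sub, sub_eq_iff_eq_add', ← lT_rk1 e]; exact this.symm

namespace FX

variable [Finite F] (h : FX Φ₁ Φ₂ Φ X G) (hS : ¬ EG Φ ≤ X)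
include h hS

theorem gengine (H : ∀ S : Submodule F W, finrank F S ≤ finrank F U + 1 → ∃ g : W ≃ₗ[F] W, lT U g ∈ X ∧
    (∀ x ∈ S, g x = x) ∧ ∀ c ∈ X, c⁻¹ * lT U g * c ∈ tstab F W U → c ∈ tstab F W U) : X ≤ tstab F W U := by
  obtain ⟨w, r, hp⟩ := h.exists_pair₁
  have key : ∀ (n : ℕ) (A : Submodule F U), finrank F U ≤ finrank F A + n → ∀ c ∈ X, ∀ w',
      (∀ u ∈ A, ∃ u', c (w ⊗ₜ u) = w' ⊗ₜ u') → c ∈ tstab F W U := fun n => by
    induction n with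
    | zero => exact fun A hA c hc w' e => h.par hS hc hp.1 hp.left_ne_zero fun u => e u (by
        rw [Submodule.eq_top_of_finrank_eq (le_antisymm A.finrank_le hA)]; trivial)
    | succ n ih =>
      intro A hA c hc w' e
      by_cases hA' : ∀ u, u ∈ A
      · exact h.par hS hc hp.1 hp.left_ne_zero fun u => e u (hA' u)
      obtain ⟨y, hy⟩ := not_forall.1 hA'
      obtain ⟨S, h1, h2⟩ := exists_supp (c (w ⊗ₜ y))
      obtain ⟨g, hg, g1, g2⟩ := H (S ⊔ F ∙ w') (by have := finrank_sup_one S w'; omega)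
      refine g2 c hc (ih (A ⊔ F ∙ y) ?_ _ (mul_mem (mul_mem (inv_mem hc) hg) hc) w fun u hu => ⟨u, ?_⟩)
      · have := Submodule.finrank_lt_finrank_of_lt (show A < A ⊔ F ∙ y from
          lt_of_le_of_ne le_sup_left fun e => hy (e ▸ mem_sup_self _ _))
        omega
      obtain ⟨a, ha, _, hz, rfl⟩ := Submodule.mem_sup.1 hu
      obtain ⟨t, rfl⟩ := Submodule.mem_span_singleton.1 hz
      obtain ⟨a', ha'⟩ := e a ha
      refine c.symm_apply_eq.2 (show lT U g (c _) = _ from ?_)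
      simp only [tmul_add, tmul_smul, map_add, map_smul, ha', h2 g fun x hx => g1 x (Submodule.mem_sup_left hx)]
      simp [g1 w' (mem_sup_self _ _)]
  exact fun c hc => key _ ⊥ (Nat.le_add_left _ _) c hc 0 fun u hu => ⟨0, by simp [(Submodule.mem_bot F).1 hu]⟩

/-- The engine with transvections of the larger factor. -/
theorem le_of_T {t : F} (ht : TP Φ₁ t) (hlt : finrank F U < finrank F W) (H : ∀ S : Submodule F W,
    finrank F S ≤ finrank F U + 1 → ∃ v ∈ Φ₁.perp S, v ≠ 0 ∧ Φ₁.Sing v) : X ≤ tstab F W U := by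
  have := h.nontriv
  refine h.gengine hS fun S e => ?_
  obtain ⟨v, hv, v0, hs⟩ := H S e
  obtain ⟨g, hg⟩ := isE_T h.nd hs ht
  have e1 : ∀ x, g x = x + (-t * Φ₁.B v x) • v := fun x => by simp [hg.app]
  refine ⟨g, h.l _ _ _ _ hg, fun x hx => by simp [e1, Φ₁.B_eq_zero_symm (hv x hx)], fun c hc ⟨a, b, e2⟩ => ?_⟩
  obtain ⟨a', e3, -⟩ := scalar_of_mv e2 (conj_mem_mvS e1 c) (k := 0) ![] ![] (by simp) (by simp)
    (by have := finrank_ptc c v; omega)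
  obtain ⟨x, -, -, e4⟩ := rec1 h.nd v0 (neg_ne_zero.2 ht.1) e1 e3
  exact (inv_mem_iff).1 (h.par hS (inv_mem hc) hs v0 e4)

end FX

theorem FX.mono (h : FX Φ₁ Φ₂ Φ X G) {X' : Subgroup (W ⊗[F] U ≃ₗ[F] W ⊗[F] U)} (a : X ≤ X') (b : X' ≤ Φ.isom) :
    FX Φ₁ Φ₂ Φ X' G :=
  { h with iso := b, l := fun p x d g e => a (h.l p x d g e), r := fun g e => a (h.r g e) }

theorem isMaximalIn_FX [Finite F] (h : FX Φ₁ Φ₂ Φ (tstab F W U ⊓ EG Φ) G) (H : ∀ X, tstab F W U ⊓ EG Φ ≤ X → X ≤ EG Φ →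
    FX Φ₁ Φ₂ Φ X G → ¬ EG Φ ≤ X → X ≤ tstab F W U) : Geo.IsMaximalIn (EG Φ) (tstab F W U ⊓ EG Φ) := by
  refine max_crit inf_le_right ?_ fun X a1 a2 g hg hg' => by_contra fun hS =>
    hg' ⟨H X a1 a2 (h.mono a1 (a2.trans EG_le_isom)) hS hg, a2 hg⟩
  obtain ⟨w, r, hp⟩ := h.exists_pair₁
  obtain ⟨u, y, hu⟩ := h.ok.ex
  obtain ⟨v, v1, hv, e⟩ := exists_sing_perp (Φ₁ := Φ₁) h.five w
  obtain ⟨g, hg⟩ := exists_isE0 h.nondeg (h.sing hp.1 u) (h.sing hv u) (by simp [h.B, e])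
  refine ⟨g, IsE_mem_EG hg, fun ⟨⟨a, b, e1⟩, _⟩ => ?_⟩
  obtain ⟨a, rfl, -⟩ := scalar_of_mv e1 (Y := (F ∙ w ⊗ₜ u) ⊔ F ∙ v ⊗ₜ u) (fun x => by
      rw [hg.app, add_sub_assoc, add_sub_cancel_left]
      exact sub_mem (Submodule.mem_sup_left (Submodule.smul_mem _ _ (Submodule.mem_span_singleton_self _)))
        (Submodule.smul_mem _ _ (mem_sup_self _ _))) (k := 0) ![] ![] (by simp) (by simp) (by
      have := finrank_sup_one (F ∙ w ⊗ₜ[F] u) (v ⊗ₜ u); have := finrank_span_one (F := F) (w ⊗ₜ[F] u)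
      have := h.five; omega)
  obtain ⟨φ, p1, p2⟩ := exists_fun1 v1
  have := congrArg (Φ₂.B y ∘ cL φ) (hg.app (r ⊗ₜ y))
  simp [h.B, hp.ef, hu.ef, hu.fe, hu.sf.2, p1, p2, Φ.ε_ne_zero, Φ₂.ε_ne_zero] at this

omit [FiniteDimensional F W] [FiniteDimensional F U] in
theorem congr_mem_isom (hB : ∀ w u w' u', Φ.B (w ⊗ₜ u) (w' ⊗ₜ u') = Φ₁.B w w' * Φ₂.B u u')
    (hQ : (2 : F) ≠ 0 ∨ ∀ w u, Φ.Q (w ⊗ₜ u) = 0) {a : W ≃ₗ[F] W} {b : U ≃ₗ[F] U} (ha : a ∈ Φ₁.isom) (hb : b ∈ Φ₂.isom) :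
    TensorProduct.congr a b ∈ Φ.isom := by
  have s : ∀ x y, Φ.B (TensorProduct.congr a b x) (TensorProduct.congr a b y) = Φ.B x y := fun x y => by
    induction x with
    | zero => simp
    | add x x' p q => simp only [map_add, LinearMap.add_apply, p, q]
    | tmul w u =>
      induction y with
      | zero => simp
      | add x x' p q => simp only [map_add, p, q]
      | tmul w u => simp [hB, ha.1, hb.1]
  refine ⟨s, fun x => ?_⟩
  rcases hQ with h2 | hQ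
  · have t : ∀ x, 2 * Φ.Q x = Φ.τ * Φ.B x x := fun x => by
      have := Φ.Q_add x x
      rw [← two_smul F x, Φ.Q_smul] at this
      linear_combination this
    exact mul_left_cancel₀ h2 (by rw [t, t, s])
  induction x with
  | zero => simp
  | add x x' p q => simp only [map_add, Φ.Q_add, p, q, s]
  | tmul w u => simp [hQ]

/-- Unipotent isometries (of even rank in characteristic two) lie in the Eichler group. -/
def UEG (Φ₁ : Formed σ W) : Prop := ∀ g ∈ Φ₁.isom, ∀ k, g ^ ringChar F ^ k = 1 →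
  ((2 : F) ≠ 0 ∨ Φ₁.τ = 0 ∨ Even (finrank F (mov g))) → g ∈ EG Φ₁

omit [FiniteDimensional F W] [FiniteDimensional F U] in
theorem mem_EG_comap (E : U ≃ₗ[F] W) {g : U ≃ₗ[F] U} : g ∈ EG (Φ₁.comap E.toLinearMap) ↔ autCongr E g ∈ EG Φ₁ := by
  refine ⟨fun h => EG_le (X := (EG Φ₁).comap (autCongr E).toMonoidHom) (fun p a d g h => IsE_mem_EG (p := E p) (a := E a)
    ⟨h.sp, h.pa, h.hQ, h.hB, fun x => by simp [h.app]; rfl⟩) h, fun h => ?_⟩
  simpa using EG_le (X := (EG (Φ₁.comap E.toLinearMap)).comap (autCongr E).symm.toMonoidHom) (fun p a d g h =>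
    IsE_mem_EG (p := E.symm p) (a := E.symm a) (d := d) ⟨by simpa [Formed.Sing] using h.sp, by simpa using h.pa,
      h.hQ.trans (by simp), h.hB.trans (by simp), fun x => by simp [h.app]; rfl⟩) h

omit [FiniteDimensional F W] [FiniteDimensional F U] in
theorem UEG.comap (h : UEG Φ₁) (E : U ≃ₗ[F] W) : UEG (Φ₁.comap E.toLinearMap) := fun g hg k e e' => by
  refine (mem_EG_comap E).2 (h _ ⟨fun x y => by simpa using hg.1 (E.symm x) (E.symm y),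
    fun x => by simpa using hg.2 (E.symm x)⟩ k (by rw [← map_pow, e, map_one]) (e'.imp_right (.imp_right fun e' => ?_)))
  rw [show mov (autCongr E g) = (mov g).map E.toLinearMap from ?_, E.finrank_map_eq]
  · exact e'
  ext x
  exact ⟨fun ⟨y, e⟩ => ⟨_, ⟨E.symm y, rfl⟩, by simp [← e]⟩, fun ⟨_, ⟨y, rfl⟩, e⟩ => ⟨E y, by simp [← e]⟩⟩

theorem ueg_quad [Finite F] {Q : QuadraticForm F W} (hQ : (Formed.ofQuad Q).Nondeg) (h5 : 5 ≤ finrank F W) :
    UEG (Formed.ofQuad Q) := fun g hg k e e' => by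
  have hx : NotExc Q := notExc_of_finrank (by omega)
  refine (mem_EG_quad hQ h5 (g := ⟨g, hg⟩)).2 ?_
  by_cases h2 : (2 : F) = 0
  · exact (mem_commutator_iff_of_two hQ hx h2 _).2 (dick_eq_one_iff.2 ((e'.resolve_left (not_not.2 h2)).resolve_left one_ne_zero))
  have ho : Odd (ringChar F ^ k) := ((CharP.char_is_prime F _).odd_of_ne_two (ringChar_ne_two h2)).pow
  have s : ∀ f : OG Q →* ℤˣ, f ⟨g, hg⟩ = 1 := fun f => by
    rw [← (Int.units_pow_eq_pow_mod_two _ _).symm.trans (by rw [← map_pow, show (⟨g, hg⟩ : OG Q) ^ _ = 1 from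
      Subtype.ext e, map_one] : f ⟨g, hg⟩ ^ ringChar F ^ k = 1), Nat.odd_iff.1 ho, pow_one]
  exact (mem_commutator_iff hQ hx _).2 ⟨s (dickHom hQ hx), s (spinHom hQ hx)⟩

theorem finrank_mov_lT (g : W ≃ₗ[F] W) : finrank F (mov (lT U g)) = finrank F (mov g) * finrank F U := by
  have : mov (lT U g) = LinearMap.range ((mov g).subtype.rTensor U) := by
    rw [mov, mov, ← LinearMap.rTensor_range]; congr 1; ext; simp [sub_tmul]
  rw [this, LinearMap.finrank_range_of_inj (Module.Flat.rTensor_preserves_injective_linearMap _ (mov g).injective_subtype),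
    finrank_tensorProduct]

theorem finrank_mov_rT (g : U ≃ₗ[F] U) :
    finrank F (mov (TensorProduct.congr (.refl F W) g)) = finrank F W * finrank F (mov g) := by
  have : mov (TensorProduct.congr (.refl F W) g) = LinearMap.range ((mov g).subtype.lTensor W) := by
    rw [mov, mov, ← LinearMap.lTensor_range]; congr 1; ext; simp [tmul_sub]
  rw [this, LinearMap.finrank_range_of_inj (Module.Flat.lTensor_preserves_injective_linearMap _ (mov g).injective_subtype),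
    finrank_tensorProduct]

omit [FiniteDimensional F W] [FiniteDimensional F U] in
theorem congr_pow (a : W ≃ₗ[F] W) (b : U ≃ₗ[F] U) (n : ℕ) :
    TensorProduct.congr a b ^ n = TensorProduct.congr (a ^ n) (b ^ n) := by
  induction n with
  | zero => exact LinearEquiv.toLinearMap_injective (TensorProduct.ext' fun w u => rfl)
  | succ n ih => rw [pow_succ, ih]; exact LinearEquiv.toLinearMap_injective (TensorProduct.ext' fun w u => rfl)

/-- The group `1 ⊗ G`, pulled back. -/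
def rTS (W : Type*) [AddCommGroup W] [Module F W] (X : Subgroup (W ⊗[F] U ≃ₗ[F] W ⊗[F] U)) : Subgroup (U ≃ₗ[F] U) :=
  X.comap (MonoidHom.mk' (TensorProduct.congr (.refl F W)) fun _ _ =>
    LinearEquiv.toLinearMap_injective (TensorProduct.ext' fun _ _ => rfl))

theorem fx_of [Finite F] (hB : ∀ w u w' u', Φ.B (w ⊗ₜ u) (w' ⊗ₜ u') = Φ₁.B w w' * Φ₂.B u u')
    (hQ : (2 : F) ≠ 0 ∨ (∀ w u, Φ.Q (w ⊗ₜ u) = 0) ∧ (Φ.τ = 0 ∨ Even (finrank F W) ∧ Even (finrank F U)))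
    (hτ : Φ₁.τ = 0) (hQ₁ : ∀ w, Φ₁.Q w = 0) (nd : Φ₁.Nondeg) (five : 5 ≤ finrank F W) (ok : UOK Φ₂ (EG Φ₂))
    (hU : UEG Φ) (ns : NotSp2 Φ) : FX Φ₁ Φ₂ Φ (tstab F W U ⊓ EG Φ) (EG Φ₂) := by
  have s := fun a b => congr_mem_isom hB (hQ.imp_right And.left) (a := a) (b := b)
  refine ⟨hB, fun w u hw => ?_, hτ, hQ₁, nd, five, ok, inf_le_right.trans EG_le_isom, fun p a d g hg =>
    ⟨⟨g, 1, fun _ _ => rfl⟩, hU _ (s _ _ hg.mem_isom (one_mem _)) 2 (by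
      rw [congr_pow, hg.pow_char (ringChar F)]; exact (congrArg _ (one_pow _)).trans TensorProduct.congr_refl_refl)
      (hQ.imp_right fun e => e.2.imp_right fun e => finrank_mov_lT (U := U) g ▸ e.2.mul_left _)⟩,
    fun g hg => EG_le (X := rTS W (tstab F W U ⊓ EG Φ)) (fun p a d g hg => ⟨⟨1, g, fun _ _ => rfl⟩, hU _ (s _ _ (one_mem _) hg.mem_isom) 2 (by
      erw [congr_pow, hg.pow_char (ringChar F), one_pow]; exact TensorProduct.congr_refl_refl)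
      (hQ.imp_right fun e => e.2.imp_right fun e => finrank_mov_rT (W := W) g ▸ e.1.mul_right _)⟩) hg, ns⟩
  rcases hQ with h2 | hQ
  · have := Φ.Q_add (w ⊗ₜ u) (w ⊗ₜ u)
    rw [← two_smul F (w ⊗ₜ u), Φ.Q_smul, hB, hw.2] at this
    exact mul_left_cancel₀ h2 (by linear_combination this)
  · exact hQ.1 w u

/-- Symplectic tensor symplectic in `Ω⁺`. -/
theorem isMaximalIn_sp_sp [Finite F] {Φ₁ : Formed (RingHom.id F) W} {Φ₂ : Formed (RingHom.id F) U}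
    {Φ : Formed (RingHom.id F) (W ⊗[F] U)} (hB : ∀ w u w' u', Φ.B (w ⊗ₜ u) (w' ⊗ₜ u') = Φ₁.B w w' * Φ₂.B u u')
    (hQ : (2 : F) ≠ 0 ∨ (∀ w u, Φ.Q (w ⊗ₜ u) = 0) ∧ (Φ.τ = 0 ∨ Even (finrank F W) ∧ Even (finrank F U)))
    (hτ : Φ₁.τ = 0) (hQ₁ : ∀ w, Φ₁.Q w = 0) (hε : Φ₁.ε = -1) (hA : ∀ w, Φ₁.B w w = 0) (nd : Φ₁.Nondeg)
    (five : 5 ≤ finrank F W) (ok : UOK Φ₂ (EG Φ₂)) (hU : UEG Φ) (ns : NotSp2 Φ) (hd : finrank F U + 2 ≤ finrank F W) :
    Geo.IsMaximalIn (EG Φ) (tstab F W U ⊓ EG Φ) :=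
  isMaximalIn_FX (fx_of hB hQ hτ hQ₁ nd five ok hU ns) fun X _ _ h hS => h.le_of_T hS (t := 1)
    ⟨one_ne_zero, by simp [hτ], by simp [hε]⟩ (by omega) fun S e => by
    have := nd.finrank_add_finrank_perp S
    obtain ⟨v, hv, v0⟩ := exists_notMem_of_lt (U := Φ₁.perp S) (R := ⊥) (by simp; omega)
    exact ⟨v, hv, v0, hQ₁ v, hA v⟩

section Mat
variable {ι κ μ : Type} [Fintype ι] [DecidableEq ι] [Fintype κ] [DecidableEq κ] [Fintype μ] [DecidableEq μ]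

theorem formOfGram_B (B : (κ → F) →ₛₗ[σ] (κ → F) →ₗ[F] F) {f : (κ → F) → (κ → F) → F} (h : ∀ u v, f u v = B v u)
    (u v : κ → F) : Geo.formOfGram σ (Geo.gramMatrix f) u v = f u v := by
  rw [h]
  conv_rhs => rw [pi_eq_sum_univ' u, pi_eq_sum_univ' v]
  simp only [Geo.formOfGram, Geo.gramMatrix, h, map_sum, LinearMap.sum_apply, LinearMap.map_smulₛₗ, LinearMap.smul_apply,
    smul_eq_mul, RingHom.id_apply, Finset.mul_sum]
  exact Finset.sum_congr rfl fun _ _ => Finset.sum_congr rfl fun _ _ => by ring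

theorem tensor_eq {k m : ℕ} {f : (ι → F) → (ι → F) → F} {f₁ : (Fin k → F) → (Fin k → F) → F}
    {f₂ : (Fin m → F) → (Fin m → F) → F} {e : ι ≃ Fin k × Fin m} {P : GL ι F}
    (hT : Geo.IsTensorFormStructure σ f f₁ f₂ e P) (h₁ : ∀ u v, Geo.formOfGram σ (Geo.gramMatrix f₁) u v = f₁ u v)
    (h₂ : ∀ u v, Geo.formOfGram σ (Geo.gramMatrix f₂) u v = f₂ u v) : ∃ c ≠ 0, ∀ w u w' u',
      f (((kE F _ _).trans (Asch.tv e P)) (w ⊗ₜ u)) (((kE F _ _).trans (Asch.tv e P)) (w' ⊗ₜ u')) =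
        c * f₂ w w' * f₁ u u' := by
  obtain ⟨c, hc, h⟩ := hT
  refine ⟨c, hc, fun w u w' u' => ?_⟩
  simp only [LinearEquiv.trans_apply, kE_tmul, Asch.tv_apply, h, ← h₁, ← h₂, mul_assoc]
  simp only [Geo.formOfGram, Asch.kv, Fintype.sum_prod_type, Matrix.kroneckerMap_apply, map_mul, Finset.sum_mul,
    Finset.mul_sum]
  refine Finset.sum_congr rfl fun _ _ => Finset.sum_comm.trans (Finset.sum_congr rfl fun _ _ => ?_)
  exact Finset.sum_congr rfl fun _ _ => Finset.sum_congr rfl fun _ _ => by ring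

theorem isMaximalIn_tensorF {k m : ℕ} {e : ι ≃ Fin k × Fin m} {P : GL ι F} {Φ₀ : Formed σ (ι → F)}
    {K : Subgroup (GL ι F)} (hK : ∀ g, g ∈ K ↔ glEquiv ι F g ∈ EG Φ₀)
    (h : Geo.IsMaximalIn (EG (Φ₀.comap ((kE F _ _).trans (Asch.tv e P)).toLinearMap))
      (tstab F _ _ ⊓ EG (Φ₀.comap ((kE F _ _).trans (Asch.tv e P)).toLinearMap))) :
    Geo.IsMaximalIn K (Geo.tensorProductSubgroup k m e P ⊓ K) :=
  isMaximalIn_inf _ h (fun g => by rw [hK, mem_EG_comap]; simp) fun g => mem_tensor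

omit [DecidableEq κ] in
theorem exists_symp' {f : (κ → F) → (κ → F) → F} (hf : Geo.IsSymplecticForm f) {c : F} (hc : c ≠ 0) :
    ∃ Φ : Formed (RingHom.id F) (κ → F), Φ.Nondeg ∧ (∀ u v, Φ.B u v = c * f u v) ∧ Φ.τ = 0 ∧ (∀ x, Φ.Q x = 0) ∧
      Φ.ε = -1 ∧ ∀ x, Φ.B x x = 0 := by
  obtain ⟨Φ, a, b⟩ := exists_symp hf
  have hA : ∀ x, (c • Φ.B) x x = 0 := fun x => by simp [b, hf.alternating]
  exact ⟨.ofAlt (c • Φ.B) hA, fun x e => a x fun y => (mul_eq_zero.1 (e y)).resolve_left hc,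
    fun u v => congrArg (c * ·) (b u v), rfl, fun _ => rfl, rfl, hA⟩

theorem formOfGram_bilin {f : (κ → F) → (κ → F) → F} (hb : Geo.IsBilinearForm f) (u v : κ → F) :
    Geo.formOfGram (RingHom.id F) (Geo.gramMatrix f) u v = f u v :=
  formOfGram_B (LinearMap.mk₂ F f hb.add_left hb.smul_left hb.add_right hb.smul_right).flip (fun _ _ => rfl) u v

theorem uok_sp [Fintype F] {Ψ : Formed (RingHom.id F) U} (hn : Ψ.Nondeg) (hτ : Ψ.τ = 0) (hQ : ∀ x, Ψ.Q x = 0)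
    (hε : Ψ.ε = -1) (hA : ∀ x, Ψ.B x x = 0) (h0 : finrank F U ≠ 0) (hex : ¬ (Fintype.card F = 2 ∧ finrank F U = 2)) :
    UOK Ψ (EG Ψ) := by
  classical
  obtain ⟨k, -, -, -, e, -⟩ := hn.exists_isHyp_top hQ hA
  obtain ⟨u, u0⟩ := finrank_pos_iff_exists_ne_zero.1 (Nat.pos_of_ne_zero h0)
  have T : ∀ t ≠ 0, TP Ψ t := fun t h => ⟨h, by simp [hτ], by simp [hε]⟩
  refine uok_T hn (by omega) (T 1 one_ne_zero) ⟨u, u0, hQ u, hA u⟩ ?_ hQ
  by_cases h3 : 3 ≤ finrank F U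
  · exact .inl h3
  have := Fintype.one_lt_card (α := F)
  obtain ⟨t, ht⟩ := exists_out_list [(0 : F), 1] (by simp; omega)
  simp at ht
  exact .inr ⟨t, ht.2, T t ht.1⟩

theorem isMaximalIn_tensor_sp_sp [Fintype F] {Q : QuadraticForm F (ι → F)} (hQ : (Formed.ofQuad Q).Nondeg) {k m : ℕ}
    (hk : k ≠ 0) (hkm : k < m) (h5 : 5 ≤ m) (hex : ¬ (Fintype.card F = 2 ∧ k = 2)) {e : ι ≃ Fin k × Fin m} {P : GL ι F}
    {f₁ : (Fin k → F) → (Fin k → F) → F} {f₂ : (Fin m → F) → (Fin m → F) → F} (hf₁ : Geo.IsSymplecticForm f₁)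
    (hf₂ : Geo.IsSymplecticForm f₂) (hT : Geo.IsTensorFormStructure id (QuadraticMap.polar Q) f₁ f₂ e P)
    (hp : ∀ x₁ x₂, Q (Asch.tv e P (Asch.kv x₁ x₂)) = 0) :
    Geo.IsMaximalIn (Geo.omegaGL Q) (Geo.tensorProductSubgroup k m e P ⊓ Geo.omegaGL Q) := by
  obtain ⟨c, hc, e1⟩ := tensor_eq (σ := RingHom.id F) hT (formOfGram_bilin hf₁.bilinear) (formOfGram_bilin hf₂.bilinear)
  obtain ⟨Φ₁, a1, a2, a3, a4, a5, a6⟩ := exists_symp' hf₂ hc
  obtain ⟨Φ₂, b1, b2, b3, b4, b5, b6⟩ := exists_symp' hf₁ one_ne_zero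
  obtain ⟨i, -, -, -, hi, -⟩ := a1.exists_isHyp_top a4 a6
  obtain ⟨j, -, -, -, hj, -⟩ := b1.exists_isHyp_top b4 b6
  have hn : 5 ≤ Fintype.card ι := by
    rw [Fintype.card_congr e]; simp; nlinarith [Nat.pos_of_ne_zero hk]
  refine isMaximalIn_tensorF (fun g => mem_omegaGL hQ hn) (isMaximalIn_sp_sp (fun w u w' u' => by
    rw [a2, b2, one_mul]; exact e1 w u w' u') (.inr ⟨fun w u => ?_, .inr ⟨⟨i, by omega⟩, ⟨j, by omega⟩⟩⟩) a3 a4 a5 a6 a1
    (by simpa) (uok_sp b1 b3 b4 b5 b6 (by simpa) (by simpa using hex)) ((ueg_quad hQ (by simpa)).comap _)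
    (.inl one_ne_zero) (by simp at hi hj ⊢; omega))
  simpa [kE_tmul] using hp u w

end Mat

end Cfsg.Agent.Root.Mx
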