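import Cfsg.Agent.Root.Ten6

/-! Maximality of tensor stabilisers: `SU ⊗ SU` (`isMaximalIn_tensor_su`), `O ⊗ O` of odd dimensions
(`isMaximalIn_tensor_oo`), `Sp ⊗ O` (`isMaximalIn_tensor_sp_o`). -/

set_option autoImplicit false

namespace Cfsg.Agent.Root.Mx

open Cfsg.Agent.Geom Cfsg.Agent.AutCl Module TensorProduct

variable {F : Type*} [Field F] {σ : F →+* F} {W U : Type*} [AddCommGroup W] [Module F W] [AddCommGroup U] [Module F U]
  {Φ₁ : Formed σ W} {Φ₂ : Formed σ U} {Φ : Formed σ (W ⊗[F] U)} {X : Subgroup (W ⊗[F] U ≃ₗ[F] W ⊗[F] U)}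
  {G : Subgroup (U ≃ₗ[F] U)}

theorem isMaximalIn_comm (h : Geo.IsMaximalIn (EG (Φ.comap (TensorProduct.comm F U W).toLinearMap))
    (tstab F U W ⊓ EG (Φ.comap (TensorProduct.comm F U W).toLinearMap))) :
    Geo.IsMaximalIn (EG Φ) (tstab F W U ⊓ EG Φ) :=
  isMaximalIn_inf (autCongr (TensorProduct.comm F U W)).symm h (fun g => by rw [mem_EG_comap]; simp) fun g =>
    ⟨fun ⟨a, b, e⟩ => ⟨b, a, fun u w => by simp [e]⟩, fun ⟨a, b, e⟩ => ⟨b, a, fun w u => by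
      simpa using congrArg (TensorProduct.comm F U W) (e u w)⟩⟩

theorem mem_isom_comap (E : U ≃ₗ[F] W) {g : U ≃ₗ[F] U} (hg : g ∈ (Φ₁.comap E.toLinearMap).isom) :
    autCongr E g ∈ Φ₁.isom :=
  ⟨fun x y => by simpa using hg.1 (E.symm x) (E.symm y), fun x => by simpa using hg.2 (E.symm x)⟩

/-- Isometries of determinant one lie in the Eichler group. -/
def SEG (Φ₁ : Formed σ W) : Prop := Φ₁.isom ⊓ SLg F W ≤ EG Φ₁

theorem SEG.comap (h : SEG Φ₁) (E : U ≃ₗ[F] W) : SEG (Φ₁.comap E.toLinearMap) := fun _ hg =>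
  (mem_EG_comap E).2 (h ⟨mem_isom_comap E hg.1, (det_autCongr E _).trans hg.2⟩)

theorem SEG.ueg [Finite F] (h : SEG Φ₁) : UEG Φ₁ := fun _ hg _ e _ => h ⟨hg, mem_SLg_of_pow e⟩

/-- Involutions with an even dimensional `-1` eigenspace of square discriminant lie in the Eichler group. -/
def OEG (Φ₁ : Formed σ W) : Prop := ∀ g ∈ Φ₁.isom, ∀ (k l : ℕ) (x : Fin k × Fin l → W),
  (∀ i j, i ≠ j → Φ₁.B (x i) (x j) = 0) → (∀ i, Φ₁.B (x i) (x i) ≠ 0) → (∀ i, g (x i) = -x i) →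
  (∀ v, v - g v ∈ Submodule.span F (Set.range x)) → Even (k * l) → IsSquare (∏ i, Φ₁.B (x i) (x i)) → g ∈ EG Φ₁

theorem OEG.comap (h : OEG Φ₁) (E : U ≃ₗ[F] W) : OEG (Φ₁.comap E.toLinearMap) := fun g hg k l x a b c d e f =>
  (mem_EG_comap E).2 (h _ (mem_isom_comap E hg) k l (E ∘ x) a b (fun i => by simp [c]) (fun v => by
    rw [Set.range_comp, ← E.coe_coe, ← Submodule.map_span]
    exact ⟨_, d (E.symm v), by simp⟩) e f)

theorem mix_all (h2 : (2 : F) ≠ 0) [FiniteDimensional F W] (S : Submodule F W) (hS : finrank F S = 2) (v : W)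
    (hv : v ∈ Φ₁.perp S) (v0 : Φ₁.B v v ≠ 0) : ∃ x ∈ S, x ≠ 0 ∧ ∃ t : F, t ≠ 0 ∧ Φ₁.B (x + t • v) (x + t • v) ≠ 0 := by
  by_contra! hc
  have s : ∀ x ∈ S, x ≠ 0 → Φ₁.B x x = -Φ₁.B v v := fun x hx x0 => by
    have := hc x hx x0 1 one_ne_zero
    simp [hv x hx, Φ₁.B_eq_zero_symm (hv x hx)] at this
    linear_combination this
  obtain ⟨x, hx, x0⟩ := exists_notMem_of_lt (U := S) (R := ⊥) (by simp [hS])
  obtain ⟨y, hy, y0⟩ := exists_notMem_of_lt (U := S) (R := F ∙ x) (by have := finrank_span_one (F := F) x; omega)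
  have e1 := s _ (add_mem hy hx) fun e => y0 (by simp [eq_neg_of_add_eq_zero_left e])
  have e2 := s _ (sub_mem hy hx) fun e => y0 (by simp [sub_eq_zero.1 e])
  simp [s x hx x0, s y hy (by rintro rfl; simp at y0)] at e1 e2
  exact v0 (mul_left_cancel₀ h2 (by linear_combination -e1 - e2))

variable [FiniteDimensional F W] [FiniteDimensional F U]

theorem det_congr (a : W ≃ₗ[F] W) (b : U ≃ₗ[F] U) : LinearMap.det (TensorProduct.congr a b).toLinearMap =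
    LinearMap.det a.toLinearMap ^ finrank F U * LinearMap.det b.toLinearMap ^ finrank F W := by
  rw [← LinearMap.det_toMatrix ((finBasis F W).tensorProduct (finBasis F U))]
  erw [TensorProduct.toMatrix_map]
  simp [Matrix.det_kronecker]

variable [Finite F]

theorem oeg_quad {Q : QuadraticForm F W} (hQ : (Formed.ofQuad Q).Nondeg) (h5 : 5 ≤ finrank F W) (h2 : (2 : F) ≠ 0) :
    OEG (Formed.ofQuad Q) := fun g hg k l x a b c d e f =>
  (mem_EG_quad hQ h5 (g := ⟨g, hg⟩)).2 ((mem_commutator_iff_of_neg hQ h2 _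
    (Formed.linearIndependent_of_orthogonal _ a b) c d).2 ⟨by simpa using e, by rwa [Formed.det_gram_orth _ a]⟩)

theorem isMaximalIn_tv (h : FX Φ₁ Φ₂ Φ (tstab F W U ⊓ EG Φ) G) (h2 : (2 : F) = 0) {t : F} (ht : TP Φ₁ t)
    (hlt : finrank F U < finrank F W) : Geo.IsMaximalIn (EG Φ) (tstab F W U ⊓ EG Φ) := by
  refine isMaximalIn_FX h fun X _ _ hX hS => ?_
  obtain ⟨e, f, hp⟩ := h.exists_pair₁
  obtain ⟨v, hv, v1⟩ := exists_three (F := F) (T := ⊤) (by have := h.five; simp; omega) (N := Φ₁.Sing) fun R hR => by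
    by_contra! hc
    exact hR fun x _ => sing_induction hp (fun x hx => by_contra fun e => hc x e hx) (fun _ _ => add_mem) x
  choose r hr using fun i => isE_T h.nd (v1 i) ht
  have e1 : ∀ i x, r i x = x + (-t * Φ₁.B (v i) x) • v i := fun i x => by simp [(hr i).app]
  refine hX.iengine hS (I := {v | v ≠ 0 ∧ Φ₁.Sing v}) le_rfl (fun c hc v hv v' H => hX.par hS hc hv.2 hv.1 H)
    (fun b _ _ e => ?_) hv (fun i => ⟨hv.ne_zero i, v1 i⟩) (fun i => ⟨hv.ne_zero i, LinearEquiv.ext fun x => ?_, _,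
      neg_ne_zero.2 ht.1, e1 i⟩) fun i => hX.l _ _ _ _ (hr i)
  · have := h.nontriv
    have := finrank_pos (R := F) (M := U)
    rcases (finrank F (mov b)).eq_zero_or_pos with e1 | e1
    · rw [e1] at e; omega
    · nlinarith
  · simp [e1, (v1 i).2]
    linear_combination (norm := module) (-(t * Φ₁.B (v i) x) * h2) • v i

theorem exists_sing_herm (hσ : σ ≠ RingHom.id F) (hε : Φ₁.ε = 1) (hQ : ∀ w, Φ₁.Q w = 0) {T : Submodule F W}
    (h : 2 ≤ finrank F T) : ∃ v ∈ T, v ≠ 0 ∧ Φ₁.Sing v := by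
  obtain ⟨x, hx, x0⟩ := exists_notMem_of_lt (U := T) (R := ⊥) (by simp; omega)
  have := finrank_pf (Φ := Φ₁) ![x] T
  obtain ⟨y, ⟨hy, y1⟩, y0⟩ := exists_notMem_of_lt (U := T ⊓ pf Φ₁ ![x]) (R := ⊥) (by simp; omega)
  replace y1 : Φ₁.B x y = 0 := mem_pf.1 y1 0
  by_cases e : Φ₁.B x x = 0
  · exact ⟨x, hx, x0, hQ x, e⟩
  have s : ∀ x, σ (Φ₁.B x x) = Φ₁.B x x := fun x => by simpa [hε] using B_self_eq (Φ := Φ₁) x
  obtain ⟨c, hc⟩ := exists_norm_eq hσ Φ₁.σσ (a := -Φ₁.B y y / Φ₁.B x x) (by simp [s])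
  refine ⟨y + c • x, add_mem hy (T.smul_mem _ hx), fun e1 => ?_, hQ _, ?_⟩
  · have := congrArg (Φ₁.B x) e1
    simp [y1, e] at this
    simp [this] at e1
    exact y0 e1
  · simp [y1, Φ₁.B_eq_zero_symm y1]
    field_simp at hc
    linear_combination hc

omit [FiniteDimensional F W] [Finite F] in
theorem exists_TP (hσ : σ ≠ RingHom.id F) (hτ : Φ₁.τ = 0) (hε : Φ₁.ε = 1) : ∃ t, TP Φ₁ t := by
  obtain ⟨a, ha⟩ := DFunLike.ne_iff.1 hσ
  exact ⟨a - σ a, sub_ne_zero.2 (Ne.symm ha), by simp [hτ], by simp [hε, Φ₁.σσ]⟩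

/-- The data of a unitary factor. -/
structure HD (Ψ : Formed σ W) : Prop where
  nd : Ψ.Nondeg
  τ : Ψ.τ = 0
  Q : ∀ x, Ψ.Q x = 0
  ε : Ψ.ε = 1

theorem HD.uok (h : HD Φ₂) (hσ : σ ≠ RingHom.id F) (h2 : 2 ≤ finrank F U)
    (h3 : 3 ≤ finrank F U ∨ ∃ θ : F, θ ≠ 0 ∧ θ ≠ 1 ∧ σ θ = θ) : UOK Φ₂ (EG Φ₂) := by
  obtain ⟨t, ht⟩ := exists_TP hσ h.τ h.ε
  obtain ⟨v, -, hv⟩ := exists_sing_herm hσ h.ε h.Q (T := ⊤) (by simpa)
  exact uok_T h.nd h2 ht ⟨v, hv⟩ (h3.imp_right fun ⟨θ, a, b, c⟩ => ⟨θ * t, by simpa [ht.1], mul_ne_zero a ht.1,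
    by simp [h.τ], by rw [map_mul, c]; linear_combination θ * ht.2.2⟩) h.Q

theorem hex_of_not_dvd (h : ¬ finrank F W ∣ finrank F U) (k : ℕ) : finrank F W * k ≠ finrank F U := fun e => h ⟨k, e.symm⟩

theorem max_refl_seg (hB : ∀ w u w' u', Φ.B (w ⊗ₜ u) (w' ⊗ₜ u') = Φ₁.B w w' * Φ₂.B u u') (h2 : (2 : F) ≠ 0)
    (h₁ : HD Φ₁) (h : FX Φ₁ Φ₂ Φ (tstab F W U ⊓ EG Φ) G) (hE : SEG Φ) (hp : Even (finrank F U) ∨ Odd (finrank F W))
    (hex : ∀ b : U ≃ₗ[F] U, TensorProduct.congr (.refl F W) b ∈ Φ.isom → b * b = 1 →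
      finrank F W * finrank F (mov b) ≠ finrank F U) : Geo.IsMaximalIn (EG Φ) (tstab F W U ⊓ EG Φ) := by
  refine isMaximalIn_refl h h2 h₁.ε (N := fun v => Φ₁.B v v ≠ 0) (fun v hv => ⟨hv, fun r hr e _ _ _ => ?_⟩)
    (fun T R a _ b => exists_aniso h2 h₁.ε a b) (.inr fun S _ => mix_all h2 S) hex
  have m := congr_mem_isom hB (.inl h2) hr (one_mem _)
  have d : LinearMap.det (lT U r).toLinearMap = (-1) ^ finrank F U := by rw [det_congr, e]; simp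
  rcases Nat.even_or_odd (finrank F U) with e1 | e1
  · exact .inl (hE ⟨m, mem_SLg.2 (d.trans e1.neg_one_pow)⟩)
  refine .inr (hE ⟨mul_mem neg_mem_isom m, mem_SLg.2 ?_⟩)
  rw [show (LinearEquiv.neg F * lT U r : _ ≃ₗ[F] _).toLinearMap = (-1 : F) • (lT U r).toLinearMap by ext; simp, LinearMap.det_smul, d,
    finrank_tensorProduct, ((hp.resolve_left (by simpa)).mul e1).neg_one_pow, e1.neg_one_pow]; simp

theorem max_su (hσ : σ ≠ RingHom.id F) (hB : ∀ w u w' u', Φ.B (w ⊗ₜ u) (w' ⊗ₜ u') = Φ₁.B w w' * Φ₂.B u u')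
    (h₁ : HD Φ₁) (h₂ : HD Φ₂) (hτ : Φ.τ = 0) (hQ : ∀ x, Φ.Q x = 0) (hE : SEG Φ) (h2 : 2 ≤ finrank F U)
    (hlt : finrank F U < finrank F W) (h5 : 5 ≤ finrank F W)
    (h3 : 3 ≤ finrank F U ∨ ∃ θ : F, θ ≠ 0 ∧ θ ≠ 1 ∧ σ θ = θ) : Geo.IsMaximalIn (EG Φ) (tstab F W U ⊓ EG Φ) := by
  have h := fx_of hB (.inr ⟨fun _ _ => hQ _, .inl hτ⟩) h₁.τ h₁.Q h₁.nd h5 (h₂.uok hσ h2 h3) hE.ueg (notSp2_of_ne hσ)
  obtain ⟨t, ht⟩ := exists_TP hσ h₁.τ h₁.ε
  by_cases c2 : (2 : F) = 0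
  · exact isMaximalIn_tv h c2 ht hlt
  by_cases hp : Even (finrank F U) ∨ Odd (finrank F W)
  · exact max_refl_seg hB c2 h₁ h hE hp fun b _ _ => hex_of_not_dvd (Nat.not_dvd_of_pos_of_lt (by omega) hlt) _
  by_cases hd : finrank F U + 3 ≤ finrank F W
  · refine isMaximalIn_FX h fun X _ _ h hS => h.le_of_T hS ht hlt fun S e => exists_sing_herm hσ h₁.ε h₁.Q ?_
    have := h₁.nd.finrank_add_finrank_perp S
    omega
  simp only [not_or, Nat.not_even_iff_odd, Nat.not_odd_iff_even, Nat.odd_iff, Nat.even_iff] at hp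
  have hB' : ∀ u w u' w', (Φ.comap (TensorProduct.comm F U W).toLinearMap).B (u ⊗ₜ w) (u' ⊗ₜ w') =
      Φ₂.B u u' * Φ₁.B w w' := fun u w u' w' => by simp [hB, mul_comm]
  refine isMaximalIn_comm (max_refl_seg hB' c2 h₂ (fx_of hB' (.inl c2) h₂.τ h₂.Q h₂.nd (by omega)
    (h₁.uok hσ (by omega) (.inl (by omega))) (hE.comap _).ueg (notSp2_of_ne hσ)) (hE.comap _)
    (.inr (Nat.odd_iff.2 (by omega))) fun b _ _ => hex_of_not_dvd (fun e => ?_) _)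
  rw [show finrank F W = finrank F U + 1 by omega, Nat.dvd_add_self_left, Nat.dvd_one] at e
  omega

theorem max_oo {Φ₁ : Formed (RingHom.id F) W} {Φ₂ : Formed (RingHom.id F) U} {Φ : Formed (RingHom.id F) (W ⊗[F] U)}
    (hB : ∀ w u w' u', Φ.B (w ⊗ₜ u) (w' ⊗ₜ u') = Φ₁.B w w' * Φ₂.B u u') (h2 : (2 : F) ≠ 0) (h₁ : HD Φ₁) (hε : Φ₂.ε = 1)
    (ok : UOK Φ₂ (EG Φ₂)) (hU : UEG Φ) (hO : OEG Φ) (h5 : 5 ≤ finrank F W) (ho : Odd (finrank F W))
    (h6 : 6 ≤ finrank F W ∨ Even (finrank F U) ∨ ∃ θ : F, θ ≠ 0 ∧ θ * θ ≠ 1) (hd : ¬ finrank F W ∣ finrank F U) :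
    Geo.IsMaximalIn (EG Φ) (tstab F W U ⊓ EG Φ) := by
  have c0 := (Φ₁.nondeg_iff_det_gram (finBasis F W)).1 h₁.nd
  set c := (Φ₁.gram (finBasis F W)).det with hc
  refine isMaximalIn_refl (fx_of hB (.inl h2) h₁.τ h₁.Q h₁.nd h5 ok hU (notSp2_of_two h2)) h2 h₁.ε
    (N := fun v => Φ₁.B v v ≠ 0 ∧ (Even (finrank F U) ∨ Φ₁.B v v = c)) (fun v hv => ⟨hv.1, fun r hr _ _ e1 e2 => .inr ?_⟩)
    (fun T R a b d => ?_) (h6.imp_right fun h6 S a b v hv v0 => ?_) fun b _ _ => hex_of_not_dvd hd _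
  · obtain ⟨k, hk⟩ := ho
    have n1 := h₁.nd.restrict_perp (Φ₁.nondeg_span_singleton hv.1)
    have n2 := h₁.nd.finrank_add_finrank_perp (F ∙ v)
    rw [finrank_span_singleton (by rintro rfl; simp at hv)] at n2
    obtain ⟨w, w1, w2⟩ := n1.exists_orth_family h2 h₁.ε (n := 2 * k) (by omega)
    obtain ⟨u, u1, u2⟩ := ok.nd.exists_orth_family h2 hε rfl
    have w3 : ∀ i, Φ₁.B v (w i) = 0 := fun i => Φ₁.mem_perp_span_singleton.1 (w i).2
    refine hO _ (mul_mem neg_mem_isom (congr_mem_isom hB (.inl h2) hr (one_mem _))) _ _ (fun i => (w i.1).1 ⊗ₜ u i.2)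
      (fun i j e => ?_) (fun i => by simpa [hB] using ⟨w2 i.1, u2 i.2⟩) (fun i => by simp [e1 _ (w3 i.1)]) (fun z => ?_)
      (by simp [parity_simps]) ?_
    · rw [hB]
      by_cases e3 : i.1 = j.1
      · rw [u1 _ _ fun e4 => e (Prod.ext e3 e4), mul_zero]
      · exact mul_eq_zero_of_left (w1 _ _ e3) _
    · induction z with
      | zero => simp
      | add x y a b => rw [map_add, add_sub_add_comm]; exact add_mem a b
      | tmul x y =>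
        have := ((Formed.basisOfOrth w1 w2 (by simp; omega)).tensorProduct (Formed.basisOfOrth u1 u2 (by simp))).mem_span
          (⟨x + r x, Φ₁.mem_perp_span_singleton.2 (e2 x)⟩ ⊗ₜ y)
        have := Submodule.mem_map_of_mem (f := (Φ₁.perp (F ∙ v)).subtype.rTensor U) this
        rw [Submodule.map_span, ← Set.range_comp] at this
        refine Submodule.span_mono ?_ (by simpa [add_tmul] using this)
        rintro _ ⟨i, rfl⟩
        exact ⟨i, by simp [Basis.tensorProduct_apply']⟩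
    simp only [hB, Fintype.prod_prod_type, Finset.prod_mul_distrib, Finset.prod_const, Finset.card_univ, Fintype.card_fin,
      Finset.prod_pow]
    refine .mul ?_ (by rw [mul_comm, pow_mul]; exact IsSquare.sq _)
    refine hv.2.elim (fun e => e.isSquare_pow _) fun e => IsSquare.pow _ ?_
    obtain ⟨t, t0, e3⟩ := Formed.det_gram_eq_of_orth (finBasis F W) (v := Fin.cons v fun i => (w i).1)
      (fun i j => by
        induction i using Fin.cases <;> induction j using Fin.cases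
        exacts [fun e => (e rfl).elim, fun _ => w3 _, fun _ => Φ₁.B_eq_zero_symm (w3 _), fun e => w1 _ _ (by simpa using e)]) (fun i => by refine Fin.cases ?_ (fun i => ?_) i; exacts [hv.1, w2 i]) (by simp; omega)
    rw [Fin.prod_univ_succ, ← hc] at e3
    simp only [Fin.cons_zero, Fin.cons_succ, e] at e3
    exact ⟨t⁻¹, mul_left_cancel₀ (mul_ne_zero (pow_ne_zero 2 t0) c0) (by
      rw [← sq t⁻¹, inv_pow, mul_right_comm _ c (_⁻¹), mul_inv_cancel₀ (pow_ne_zero 2 t0)]; linear_combination -e3)⟩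
  · obtain ⟨x, hx, x1, x0⟩ := exists_aniso h2 h₁.ε a d
    have n1 := finrank_inf_perp h₁.nd a (U := F ∙ x) (by simpa)
    have := finrank_span_one (F := F) x
    obtain ⟨y, ⟨hy, y1⟩, e⟩ := Φ₁.exists_B_self_eq h2 h₁.ε (U := T ⊓ Φ₁.perp (F ∙ x)) (Φ₁.restrict_nondeg_iff'.2
      fun u hu e => Φ₁.restrict_nondeg_iff'.1 a u hu.1 fun z hz => by
        have := Φ₁.B_eq_zero_symm (Φ₁.mem_perp_span_singleton.1 hu.2)
        simpa [this] using e (z - (Φ₁.B x z / Φ₁.B x x) • x) ⟨sub_mem hz (T.smul_mem _ hx),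
          Φ₁.mem_perp_span_singleton.2 (by simp [x0])⟩) (by omega) (c - Φ₁.B x x)
    replace y1 := Φ₁.mem_perp_span_singleton.1 y1
    by_contra! hc
    have a1 := hc _ (add_mem hx hy)
    have a2 := hc _ (sub_mem hx hy)
    simp [y1, Φ₁.B_eq_zero_symm y1, e, c0] at a1 a2
    exact x1 ((R.smul_mem_iff h2).1 (by simpa [two_smul] using add_mem a1 a2))
  rcases h6 with h6 | ⟨θ, t0, t1⟩
  · obtain ⟨x, a, b, t, c, d⟩ := mix_all h2 S b v hv v0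
    exact ⟨x, a, b, t, c, d, .inl h6⟩
  obtain ⟨t, t0, e⟩ : ∃ t : F, t ≠ 0 ∧ c - t * t * Φ₁.B v v ≠ 0 := by
    by_contra! hc
    exact t1 (mul_right_cancel₀ v0 (by linear_combination hc 1 one_ne_zero - hc θ t0))
  obtain ⟨x, hx, e1⟩ := Φ₁.exists_B_self_eq h2 h₁.ε a b.ge (c - t * t * Φ₁.B v v)
  have : Φ₁.B (x + t • v) (x + t • v) = c := by simp [hv x hx, Φ₁.B_eq_zero_symm (hv x hx), e1]; ring
  exact ⟨x, hx, by rintro rfl; simp [e.symm] at e1, t, t0, this ▸ c0, .inr this⟩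

theorem uok_O' {Ψ : Formed (RingHom.id F) U} (h : HD Ψ) (h2 : (2 : F) ≠ 0) (h3 : 3 ≤ finrank F U)
    (h4 : 4 ≤ finrank F U ∨ ∃ θ : F, θ ≠ 0 ∧ θ * θ ≠ 1) : UOK Ψ Ψ.isom := by
  refine ⟨h.nd, EG_le_isom, le_rfl, ?_, .inr ⟨rfl, h.ε, h2, h3, h4⟩, fun u y hu u0 h1 hy => ?_⟩
  · obtain ⟨u, -, r, -, h⟩ := exists_pair h.nd (nondeg_top h.nd) (by simpa)
    exact ⟨u, r, h⟩
  by_cases e : Ψ.B y y = 0
  swap
  · exact ⟨1, one_mem _, rfl, e⟩
  obtain ⟨a, a1, a2, a3⟩ : ∃ a, Ψ.B u a = 0 ∧ Ψ.B y a = 1 ∧ Ψ.B a a ≠ 0 := by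
    obtain ⟨a, -, a1, a2⟩ := sep h.nd (nondeg_top h.nd) le_top trivial hy
    rw [Formed.mem_perp_span_singleton] at a1
    by_cases e1 : Ψ.B a a = 0
    · exact ⟨a + y, by simp [a1, h1], by simp [a2, e], by simpa [e, e1, a2, Ψ.symm y a, h.ε, one_add_one_eq_two]⟩
    · exact ⟨a, a1, a2, e1⟩
  have hc : RingHom.id F (-2 / Ψ.B a a) + Ψ.ε * (-2 / Ψ.B a a) + RingHom.id F (-2 / Ψ.B a a) * (-2 / Ψ.B a a) * Ψ.B a a = 0 := by
    simp [h.ε]; field_simp; ring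
  exact ⟨Formed.qrefl h.nd a _ hc, Formed.qrefl_mem h.nd a _ hc (by simp [h.τ, h.Q]), by simp [Ψ.B_eq_zero_symm a1],
    by simp [e, Ψ.symm y a, a2, h.ε, h2, a3]⟩

theorem max_sp_o {Φ₁ : Formed (RingHom.id F) W} {Φ₂ : Formed (RingHom.id F) U} {Φ : Formed (RingHom.id F) (W ⊗[F] U)}
    (hB : ∀ w u w' u', Φ.B (w ⊗ₜ u) (w' ⊗ₜ u') = Φ₁.B w w' * Φ₂.B u u') (h2 : (2 : F) ≠ 0) (h₁ : HD Φ₁) (nd : Φ₂.Nondeg)
    (hτ : Φ₂.τ = 0) (hQ : ∀ x, Φ₂.Q x = 0) (hε : Φ₂.ε = -1) (hA : ∀ x, Φ₂.B x x = 0) (hE : Φ.isom ≤ EG Φ)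
    (hΦ : ∀ x, Φ.Q x = 0) (h0 : finrank F U ≠ 0) (h : 5 ≤ finrank F W ∧ finrank F U < 2 * finrank F W ∨
      3 ≤ finrank F W ∧ finrank F W + 2 ≤ finrank F U ∧ (4 ≤ finrank F W ∨ ∃ θ : F, θ ≠ 0 ∧ θ * θ ≠ 1)) :
    Geo.IsMaximalIn (EG Φ) (tstab F W U ⊓ EG Φ) := by
  have := Fintype.ofFinite F
  obtain ⟨k, -, -, -, hk, -⟩ := nd.exists_isHyp_top hQ hA
  rcases h with ⟨h5, hd⟩ | ⟨h3, hd, h4⟩
  · have hE : SEG Φ := inf_le_left.trans hE
    refine max_refl_seg hB h2 h₁ (fx_of hB (.inl h2) h₁.τ h₁.Q h₁.nd h5 (uok_sp nd hτ hQ hε hA h0 fun e => h2 ?_) hE.ueg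
      (notSp2_of_two h2)) hE (.inl ⟨k, by omega⟩) fun b hb e e1 => ?_
    · simpa [e.1] using Nat.cast_card_eq_zero F
    obtain ⟨w, -, r, -, hp⟩ := exists_pair h₁.nd (nondeg_top h₁.nd) (by simp; omega)
    have hb : b ∈ Φ₂.isom := ⟨fun x y => by simpa [hB, hp.ef] using hb.1 (w ⊗ₜ x) (r ⊗ₜ y), by simp [hQ]⟩
    obtain ⟨x, x0, hx⟩ := finrank_eq_one_iff'.1 (show finrank F (mov b) = 1 by
      rcases e2 : finrank F (mov b) with _ | _ | n <;> rw [e2] at e1 <;> first | rfl | nlinarith | omega)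
    have e2 : b x = x := mem_fixS.1 (perp_mov nd hb ▸ fun y hy => by
      obtain ⟨c, e⟩ := hx ⟨y, hy⟩
      simp [← show c • x.1 = y from congrArg Subtype.val e, hA])
    obtain ⟨_, y, rfl⟩ := x
    refine x0 (Subtype.ext ((smul_eq_zero_iff_right h2).1 ?_))
    have := LinearEquiv.congr_fun e y
    simp only [LinearMap.sub_apply, LinearMap.id_apply, LinearEquiv.coe_coe, map_sub, LinearEquiv.mul_apply,
      LinearEquiv.coe_one, id, ZeroMemClass.coe_zero] at e2 this ⊢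
    rw [this] at e2
    linear_combination (norm := module) -e2
  have hB' : ∀ u w u' w', (Φ.comap (TensorProduct.comm F U W).toLinearMap).B (u ⊗ₜ w) (u' ⊗ₜ w') =
      Φ₂.B u u' * Φ₁.B w w' := fun u w u' w' => by simp [hB, mul_comm]
  have s := fun a b ha hb => (mem_EG_comap (TensorProduct.comm F U W)).2 (hE (mem_isom_comap _
    (congr_mem_isom hB' (.inl h2) (a := a) (b := b) ha hb)))
  refine isMaximalIn_comm (isMaximalIn_FX (G := Φ₁.isom) ⟨hB', fun _ _ _ => hΦ _, hτ, hQ, nd, by omega, uok_O' h₁ h2 h3 h4,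
    inf_le_right.trans EG_le_isom, fun p a d g hg => ⟨lT_mem _, s _ _ hg.mem_isom (one_mem _)⟩,
    fun g hg => ⟨⟨1, g, fun _ _ => rfl⟩, s _ _ (one_mem _) hg⟩, notSp2_of_two h2⟩ fun X _ _ h hS => h.le_of_T hS (t := 1)
    ⟨one_ne_zero, by simp [hτ], by simp [hε]⟩ (by omega) fun S e => ?_)
  have := nd.finrank_add_finrank_perp S
  obtain ⟨v, hv, v0⟩ := exists_notMem_of_lt (U := Φ₂.perp S) (R := ⊥) (by simp; omega)
  exact ⟨v, hv, v0, hQ v, hA v⟩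

section Mat
variable {ι κ : Type} [Fintype ι] [DecidableEq ι] [Fintype κ]

omit [Finite F] in
theorem exists_symm' (h2 : (2 : F) ≠ 0) {f : (κ → F) → (κ → F) → F} (hf : Geo.IsSymmetricForm f) {c : F} (hc : c ≠ 0) :
    ∃ Φ : Formed (RingHom.id F) (κ → F), HD Φ ∧ ∀ u v, Φ.B u v = c * f u v :=
  have hb := hf.bilinear
  ⟨.ofSymm h2 (c • LinearMap.mk₂ F f hb.add_left hb.smul_left hb.add_right hb.smul_right) ⟨fun x y => by simp [hf.symm x]⟩,
    ⟨fun x e => by_contra fun x0 => let ⟨y, hy⟩ := (hf.nondegenerate x x0).2; mul_ne_zero hc hy (e y), rfl, fun _ => rfl, rfl⟩,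
    fun _ _ => rfl⟩

omit [Finite F] in
theorem exists_herm' [Fintype F] {q : ℕ} (hF : Fintype.card F = q ^ 2) {f : (κ → F) → (κ → F) → F}
    (hf : Geo.IsUnitaryFormPow q f) {c : F} (hc : c ≠ 0) (hc' : c ^ q = c) :
    ∃ Φ : Formed (frobq hF) (κ → F), HD Φ ∧ ∀ u v, Φ.B u v = c * f v u :=
  ⟨.ofHerm (frobq_ne_id hF) (frobq_frobq hF) (LinearMap.mk₂'ₛₗ (frobq hF) (RingHom.id F) (fun u v => c * f v u)
      (fun a b d => by rw [hf.herm d, hf.add_left, ← frobq_apply hF, map_add, mul_add, hf.herm d a, hf.herm d b]; rfl)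
      (fun d a b => by rw [hf.herm b, hf.smul_left, mul_pow, ← hf.herm]; simp; ring)
      (fun a b d => by rw [hf.add_left, mul_add]) fun d a b => by rw [hf.smul_left]; simp; ring)
    ⟨fun x y => by simp [mul_pow, hc', ← hf.herm]⟩,
    ⟨fun x e => by_contra fun x0 => let ⟨y, hy⟩ := (hf.nondegenerate x x0).1; mul_ne_zero hc hy (e y), rfl, fun _ => rfl, rfl⟩,
    fun _ _ => rfl⟩

omit [Finite F] in
theorem exists_sq_ne_one [Fintype F] (h2 : (2 : F) ≠ 0) (h3 : Fintype.card F ≠ 3) : ∃ θ : F, θ ≠ 0 ∧ θ * θ ≠ 1 := by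
  classical
  have := Fintype.one_lt_card (α := F)
  have := Nat.odd_iff.1 (odd_card_of_two_ne_zero h2)
  obtain ⟨t, ht⟩ := exists_out_list [(0 : F), 1, -1] (by simp; omega)
  simp at ht
  exact ⟨t, ht.1, by simp [mul_self_eq_one_iff, ht]⟩

omit [Finite F] in
theorem isMaximalIn_tensor_su [Fintype F] {n q : ℕ} (hF : Fintype.card F = q ^ 2) {k m : ℕ} (hk : 2 ≤ k) (hkm : k < m)
    (h5 : 5 ≤ m) (hex : ¬ (k = 2 ∧ q = 2)) {e : Fin n ≃ Fin k × Fin m} {P : GL (Fin n) F}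
    {f₁ : (Fin k → F) → (Fin k → F) → F} {f₂ : (Fin m → F) → (Fin m → F) → F} (hf₁ : Geo.IsUnitaryFormPow q f₁)
    (hf₂ : Geo.IsUnitaryFormPow q f₂) (hT : Geo.IsTensorFormStructure (fun x : F => x ^ q) (hermForm n F q) f₁ f₂ e P) :
    Geo.IsMaximalIn (GU n F q ⊓ Geo.specialLinear (Fin n) F)
      (Geo.tensorProductSubgroup k m e P ⊓ (GU n F q ⊓ Geo.specialLinear (Fin n) F)) := by
  obtain ⟨Φ₂, b1, b2⟩ := exists_herm' hF hf₁ one_ne_zero (one_pow q)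
  obtain ⟨Ψ, a1, a2⟩ := exists_herm' hF hf₂ one_ne_zero (one_pow q)
  obtain ⟨c, hc, e1⟩ := tensor_eq (σ := frobq hF) hT (formOfGram_B Φ₂.B fun u v => by simp [b2])
    (formOfGram_B Ψ.B fun u v => by simp [a2])
  have hn : 4 ≤ n := by have := Fintype.card_congr e; simp at this; nlinarith
  have hc' : c ^ q = c := by
    obtain ⟨w, -, w0⟩ := exists_notMem_of_lt (U := (⊤ : Submodule F (Fin m → F))) (R := ⊥) (by simp; omega)
    obtain ⟨u, -, u0⟩ := exists_notMem_of_lt (U := (⊤ : Submodule F (Fin k → F))) (R := ⊥) (by simp; omega)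
    obtain ⟨w', hw⟩ := a1.nd.exists_eq_one w0
    obtain ⟨u', hu⟩ := b1.nd.exists_eq_one u0
    rw [a2, one_mul] at hw
    rw [b2, one_mul] at hu
    have := hermForm_pow hF n (((kE F _ _).trans (Asch.tv e P)) (w ⊗ₜ u)) (((kE F _ _).trans (Asch.tv e P)) (w' ⊗ₜ u'))
    rw [e1, e1] at this
    simpa [hf₁.herm u, hf₂.herm w, hw, hu] using this
  obtain ⟨Φ₁, a1, a2⟩ := exists_herm' hF hf₂ hc hc'
  refine isMaximalIn_tensorF (fun g => mem_suGL hF hn) (max_su (frobq_ne_id hF) (fun w u w' u' => by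
    rw [a2, b2, one_mul]; exact e1 w' u' w u) a1 b1 rfl (fun _ => rfl) (SEG.comap (EG_herm hF hn).ge _) (by simpa)
    (by simpa) (by simpa) ?_)
  by_contra! h
  have hq := two_le_of_card_eq_sq hF
  have := (FiniteField.forall_pow_eq_one_iff F (q + 1)).1 fun x => Units.ext (by_contra fun e => h.2 (x ^ (q + 1))
    (by simp) e (by rw [pow_succ, map_mul, frobq_apply, frobq_apply, pow_q_pow_q hF, mul_comm]))
  have := Nat.le_of_dvd (by omega) this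
  simp at h
  rw [hF] at this
  have : 3 ≤ q := by omega
  have : q + 2 < q ^ 2 := by nlinarith
  omega

omit [Finite F] in
theorem isMaximalIn_tensor_oo [Fintype F] (h2 : (2 : F) ≠ 0) {Q : QuadraticForm F (ι → F)} (hQ : (Formed.ofQuad Q).Nondeg)
    {k m : ℕ} (hk : 3 ≤ k) (hkm : k < m) (hk' : k ≠ 4) (ho : Odd m) (hex : ¬ (Fintype.card F = 3 ∧ k = 3))
    {e : ι ≃ Fin k × Fin m} {P : GL ι F} {f₁ : (Fin k → F) → (Fin k → F) → F} {f₂ : (Fin m → F) → (Fin m → F) → F}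
    (hf₁ : Geo.IsSymmetricForm f₁) (hf₂ : Geo.IsSymmetricForm f₂)
    (hT : Geo.IsTensorFormStructure id (QuadraticMap.polar Q) f₁ f₂ e P) :
    Geo.IsMaximalIn (Geo.omegaGL Q) (Geo.tensorProductSubgroup k m e P ⊓ Geo.omegaGL Q) := by
  obtain ⟨c, hc, e1⟩ := tensor_eq (σ := RingHom.id F) hT (formOfGram_bilin hf₁.bilinear) (formOfGram_bilin hf₂.bilinear)
  obtain ⟨Φ₁, a1, a2⟩ := exists_symm' h2 hf₂ hc
  obtain ⟨Φ₂, b1, b2⟩ := exists_symm' h2 hf₁ one_ne_zero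
  have hn : 5 ≤ Fintype.card ι := by rw [Fintype.card_congr e]; simp; nlinarith
  have h3 : 4 ≤ k ∨ ∃ θ : F, θ ≠ 0 ∧ θ * θ ≠ 1 := or_iff_not_imp_left.2 fun h => exists_sq_ne_one h2 (by omega)
  have := Nat.odd_iff.1 ho
  exact isMaximalIn_tensorF (fun g => mem_omegaGL hQ hn) (max_oo (fun w u w' u' => by
    rw [a2, b2, one_mul]; exact e1 w u w' u') h2 a1 b1.ε (uok_O b1.nd b1.ε h2 (by simpa) (by simpa using h3)
    (.inl (by simpa))) ((ueg_quad hQ (by simpa)).comap _) ((oeg_quad hQ (by simpa) h2).comap _) (by simp; omega)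
    (by simpa) (h3.imp (by simp; omega) .inr) (by simpa using Nat.not_dvd_of_pos_of_lt (by omega) hkm))

omit [Finite F] in
theorem isMaximalIn_tensor_sp_o [Fintype F] (h2 : (2 : F) ≠ 0) {n k m : ℕ} (hk : k ≠ 0)
    (h : 5 ≤ m ∧ k < 2 * m ∨ 3 ≤ m ∧ m + 2 ≤ k ∧ ¬ (Fintype.card F = 3 ∧ m = 3))
    {e : (Fin n ⊕ Fin n) ≃ Fin k × Fin m} {P : GL (Fin n ⊕ Fin n) F} {f₁ : (Fin k → F) → (Fin k → F) → F}
    {f₂ : (Fin m → F) → (Fin m → F) → F} (hf₁ : Geo.IsSymplecticForm f₁) (hf₂ : Geo.IsSymmetricForm f₂)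
    (hT : Geo.IsTensorFormStructure id (sympForm n F) f₁ f₂ e P) :
    Geo.IsMaximalIn (spGL n F) (Geo.tensorProductSubgroup k m e P ⊓ spGL n F) := by
  obtain ⟨c, hc, e1⟩ := tensor_eq (σ := RingHom.id F) hT (formOfGram_bilin hf₁.bilinear) (formOfGram_bilin hf₂.bilinear)
  obtain ⟨Φ₁, a1, a2⟩ := exists_symm' h2 hf₂ hc
  obtain ⟨Φ₂, b1, b2, b3, b4, b5, b6⟩ := exists_symp' hf₁ one_ne_zero
  exact isMaximalIn_tensorF (fun g => mem_spGL) (max_sp_o (fun w u w' u' => by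
    rw [a2, b2, one_mul, ← e1]; exact sympFormed_B _ _ _ _) h2 a1 b1 b3 b4 b5 b6
    (fun g hg => (mem_EG_comap _).2 ((EG_symp n).ge (mem_isom_comap _ hg))) (fun _ => rfl) (by simpa)
    (h.imp (by simp) fun h => ⟨by simpa using h.1, by simpa using h.2.1, or_iff_not_imp_left.2 fun e =>
      exists_sq_ne_one h2 (by simp at e; omega)⟩))

end Mat

end Cfsg.Agent.Root.Mx
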