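import Cfsg.Agent.Root.Max5

/-! Orthogonal decompositions of quadratic spaces of characteristic two with blocks of dimension at least four
(`ODec.isMaximalIn_quad_even`), via products of two reflections. -/

set_option autoImplicit false

namespace Cfsg.Agent.Root.Mx

open Cfsg.Agent.Geom Cfsg.Agent.AutCl Module QuadraticMap

variable {F : Type*} [Field F] {V : Type*} [AddCommGroup V] [Module F V] {Q : QuadraticForm F V}

theorem refl_mul_eich {p a : V} (hp : Q p = 0) (ha : polar Q p a = 0) (h0 : Q a ≠ 0) :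
    refl Q (a + p) * refl Q a = eich Q p ((Q a)⁻¹ • a) := by
  have e : Q ((Q a)⁻¹ • a) = (Q a)⁻¹ := by rw [quad_smul]; field_simp
  rw [eich_eq_refl_mul hp (by simp [ha]) (by simpa [e]), e, ← smul_add, refl_smul (inv_ne_zero h0),
    refl_smul (inv_ne_zero h0)]

variable {t k : ℕ} {D : Fin t → Submodule F V} {X : Subgroup (V ≃ₗ[F] V)} [FiniteDimensional F V]

theorem ODec.exists_nonsing_comp (h : ODec (Formed.ofQuad Q) k D) {z : V} (hz : Q z ≠ 0) :
    ∃ m, ∃ y ∈ D m, Q y ≠ 0 ∧ ∀ x ∈ D m, polar Q x y = polar Q x z := by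
  obtain ⟨π, m, e, hπ⟩ := h.exists_sum z
  by_contra! hc
  have := Q_sum (Φ := Formed.ofQuad Q) Finset.univ π fun a b e => h.orth a b e _ (m a) _ (m b)
  rw [hπ, Finset.sum_eq_zero fun l _ => by
    by_contra h0; obtain ⟨x, hx, e'⟩ := hc l _ (m l) h0; exact e' (e l x hx)] at this
  exact hz this

theorem exists_both (hn : (Formed.ofQuad Q).Nondeg) {W : Submodule F V} (hW : ((Formed.ofQuad Q).restrict W).Nondeg)
    {u u' : V} (hu : u ∈ W) (u0 : u ≠ 0) (hu' : u' ∈ W) (u0' : u' ≠ 0) :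
    ∃ w ∈ W, polar Q u w ≠ 0 ∧ polar Q u' w ≠ 0 := by
  obtain ⟨a, ha, -, e⟩ := sep hn hW bot_le hu (by simpa)
  obtain ⟨b, hb, -, e'⟩ := sep hn hW bot_le hu' (by simpa)
  change polar Q _ _ = 1 at e e'
  by_cases h1 : polar Q u' a = 0
  · by_cases h2 : polar Q u b = 0
    · exact ⟨a + b, add_mem ha hb, by simp [e, h2], by simp [e', h1]⟩
    · exact ⟨b, hb, h2, by simp [e']⟩
  · exact ⟨a, ha, by simp [e], h1⟩

variable [Finite F]

theorem exists_Q_smul (h2 : (2 : F) = 0) {y : V} (y0 : Q y ≠ 0) {c : F} (hc : c ≠ 0) : ∃ s : F, s ≠ 0 ∧ Q (s • y) = c := by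
  have : CharP F 2 := CharTwo.of_one_ne_zero_of_two_eq_zero one_ne_zero h2
  obtain ⟨s, hs⟩ := surjective_frobenius F 2 (c / Q y)
  rw [frobenius_def] at hs
  exact ⟨s, by rintro rfl; exact div_ne_zero hc y0 (by simpa using hs.symm), by rw [quad_smul, hs]; field_simp⟩

namespace OX
variable (h : OX (Formed.ofQuad Q) k D X) (h2 : (2 : F) = 0) (h4 : 4 ≤ k) (hS : ¬ EG (Formed.ofQuad Q) ≤ X)
include h h4

theorem exists_sing_perp' (m : Fin t) (y : V) : ∃ x ∈ D m, x ≠ 0 ∧ Q x = 0 ∧ polar Q x y = 0 := by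
  obtain ⟨x, hx, x0, xs, e⟩ := exists_sing_pf (Formed.ofQuad Q) ![y] (U := D m) (R := ⊥) (by simp [h.rk]; omega)
  exact ⟨x, hx, by simpa using x0, xs.1, (polar_comm _ _ _).trans (e 0)⟩

include h2 hS

theorem k2 {c : OG Q} (hc : c.1 ∈ X) {i j l : Fin t} {a y : V} (ha : a ∈ D i) (h0 : Q a ≠ 0) (hj : c.1 a ∈ D j)
    (hy : y ∈ D l) (y0 : Q y ≠ 0) : ∃ m, c.1 y ∈ D m := by
  have h5 : 5 ≤ finrank F V := by have := h.finrank_eq; have := h.two_le; nlinarith
  obtain ⟨s, s0, hs⟩ := exists_Q_smul h2 y0 h0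
  suffices ∃ m, c.1 (s • y) ∈ D m by simpa [Submodule.smul_mem_iff _ s0] using this
  replace hy := (D l).smul_mem s hy
  generalize s • y = y at hy hs
  by_contra! hD
  have t1 : (refl Q (c.1 y) * refl Q (c.1 a)).1 ∈ X := by
    have := mul_mem (mul_mem hc (h.refl_mul_mem h5 hy ha h0 hs)) (inv_mem hc)
    rw [← conj_refl, ← conj_refl]; simpa [mul_assoc] using this
  have z0 : Q (c.1 y) ≠ 0 := by rwa [OG.map_Q, hs]
  replace h0 : Q (c.1 a) ≠ 0 := by rwa [OG.map_Q]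
  generalize c.1 y = z at hD t1 z0
  generalize c.1 a = a at hj h0 t1
  obtain ⟨m, u, hu, u0, e⟩ := h.toODec.exists_nonsing_comp z0
  obtain ⟨x, hx, x0, xs, xz⟩ := h.exists_sing_perp' h4 m z
  obtain ⟨v, hv, v1, v2⟩ := sep h.hn (h.nd m) ((Submodule.span_singleton_le_iff_mem _ _).2 hx) hu fun hc => by
    obtain ⟨c, rfl⟩ := Submodule.mem_span_singleton.1 hc
    simp [quad_smul, xs] at u0
  have i1 := isE_eich xs (v1 x (Submodule.mem_span_singleton_self _))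
  have eX := h.inE h.le m x hx v hv _ _ i1
  have ez : (eich Q x v).1 z = z + x := by
    rw [eich_apply_of_perp xs (v1 x (Submodule.mem_span_singleton_self _)) xz, ← e v hv, polar_comm,
      show polar Q u v = 1 from v2, one_smul]
  obtain ⟨j', hj'⟩ := exists_of_dstab (h.mem_dstab_of_fix (i := m) i1.mem_isom fun v' hv' => by
    rw [i1.apply_perp (hv' x hx), hv' v hv]; simp) j
  have t2 : (eich Q x v * (refl Q z * refl Q a) * (eich Q x v)⁻¹ * (refl Q ((eich Q x v).1 a) * refl Q a) *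
      (refl Q z * refl Q a)⁻¹).1 ∈ X := mul_mem (mul_mem (mul_mem (mul_mem eX t1) (inv_mem eX))
    (h.refl_mul_mem h5 (hj' a hj) hj h0 (OG.map_Q _ _))) (inv_mem t1)
  refine hS (h.win hx x0 (a := (Q z)⁻¹ • z) ⟨_, ?_, isE_eich xs (by simp [xz])⟩
    (by simpa [Submodule.smul_mem_iff _ (inv_ne_zero z0)] using hD m))
  rw [← refl_mul_eich xs xz z0, ← ez, ← conj_refl]
  convert t2 using 2
  simp [← conj_refl, mul_assoc, refl_mul_cancel]

variable (hq : (∃ s : F, s ≠ 0 ∧ s ≠ 1) ∨ ∀ i, ∀ x ∈ D i, ∀ y ∈ D i, Q x = 0 → Q y = 0 → polar Q x y = 0 → x ≠ 0 →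
  y ∈ F ∙ x)
include hq

theorem k2' {c : OG Q} (hc : c.1 ∈ X) {i j : Fin t} {a : V} (ha : a ∈ D i) (h0 : Q a ≠ 0) (hj : c.1 a ∈ D j) :
    c.1 ∈ dstab D := by
  have pp : ∀ x, polar Q x x = 0 := fun x => by rw [polar_self', h2, zero_mul]
  have opp : ∀ l m, ∀ x ∈ D l, ∀ y ∈ D l, Q y ≠ 0 → polar Q x y ≠ 0 → c.1 x ∈ D m → c.1 y ∈ D m := by
    intro l m x hx y hy hs e h1
    obtain ⟨n, hn⟩ := h.k2 h2 h4 hS hc ha h0 hj hy hs
    by_contra hc
    exact e ((OG.map_polar c x y).symm.trans (h.orth m n (by rintro rfl; exact hc hn) _ h1 _ hn))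
  have same : ∀ l m, ∀ u ∈ D l, ∀ u' ∈ D l, Q u ≠ 0 → Q u' ≠ 0 → c.1 u ∈ D m → c.1 u' ∈ D m := by
    intro l m u hu u' hu' q1 q2 h1
    by_cases e : polar Q u u' = 0
    swap
    · exact opp l m u hu u' hu' q2 e h1
    have fin : ∀ w ∈ D l, Q w ≠ 0 → polar Q u w ≠ 0 → polar Q u' w ≠ 0 → c.1 u' ∈ D m := fun w hw a b c =>
      opp l m w hw u' hu' q2 (by rwa [polar_comm]) (opp l m u hu w hw a b h1)
    obtain ⟨w, hw, b1, b2⟩ := exists_both h.hn (h.nd l) hu (by rintro rfl; simp at q1) hu' (by rintro rfl; simp at q2)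
    by_cases q3 : Q w = 0
    swap
    · exact fin w hw q3 b1 b2
    have e' := (polar_comm _ _ _).trans e
    obtain ⟨v, hv⟩ : ∃ v, v = polar Q u' w • u - polar Q u w • u' := ⟨_, rfl⟩
    have vD : v ∈ D l := hv ▸ sub_mem ((D l).smul_mem _ hu) ((D l).smul_mem _ hu')
    have v1 : polar Q v w = 0 := by simp [hv, mul_comm]
    have v2 : polar Q u v = 0 := by simp [hv, pp, e]
    by_cases q4 : Q v = 0
    swap
    · exact fin (v + w) (add_mem vD hw) (by rwa [quad_add, v1, q3, add_zero, add_zero]) (by simpa [v2])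
        (by simpa [hv, pp, e'])
    by_cases v0 : v = 0
    · rw [← Submodule.smul_mem_iff _ b1, ← map_smul, ← sub_eq_zero.1 (hv.symm.trans v0), map_smul]
      exact (D m).smul_mem _ h1
    rcases hq with ⟨s, s0, s1⟩ | hq
    · refine fin ((s * polar Q u w / Q u) • u + w) (add_mem ((D l).smul_mem _ hu) hw) ?_ (by simpa [pp])
        (by simpa [e'])
      rw [quad_add, quad_smul, q3, polar_smul_left, smul_eq_mul]
      intro e1
      field_simp at e1
      exact mul_ne_zero (mul_ne_zero s0 (sub_ne_zero.2 s1)) (mul_ne_zero b1 b1)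
        (by linear_combination e1 - s * polar Q u w ^ 2 * h2)
    · obtain ⟨s, rfl⟩ := Submodule.mem_span_singleton.1 (hq l v vD w hw q4 q3 v1 v0)
      simp [v2] at b1
  refine h.mem_dstab' c.2 fun l x hx x0 hs => ?_
  obtain ⟨u, hu, e, q⟩ := exists_nonsing_perp h.hn (h.nd l) (by rw [h.rk]; omega) hx x0 hs.1
  obtain ⟨m, hm⟩ := h.k2 h2 h4 hS hc ha h0 hj hu q
  have := same l m u hu (u + (1 : F) • x) (add_mem hu (by simpa)) q (by rwa [quad_add_smul_of_perp hs.1 e]) hm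
  exact ⟨m, by simpa using sub_mem this hm⟩

end OX

theorem ODec.isMaximalIn_quad_even (h : ODec (Formed.ofQuad Q) k D) (sw : Sw (Formed.ofQuad Q) D) (h2 : (2 : F) = 0)
    (h4 : 4 ≤ k) (hq : (∃ s : F, s ≠ 0 ∧ s ≠ 1) ∨ ∀ i, ∀ x ∈ D i, ∀ y ∈ D i, Q x = 0 → Q y = 0 → polar Q x y = 0 →
      x ≠ 0 → y ∈ F ∙ x) : Geo.IsMaximalIn (EG (Formed.ofQuad Q)) (dstab D ⊓ EG (Formed.ofQuad Q)) := by
  have k3 : ∀ i, 3 ≤ finrank F (D i) := fun i => by rw [h.rk]; omega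
  have h5 : 5 ≤ finrank F V := by have := h.finrank_eq; have := h.two_le; nlinarith
  refine h.isMaximalIn sw (fun i => irr_of_three h.hn (h.nd i) (k3 i))
    (fun i => exists_pair h.hn (h.nd i) (k3 i)) fun X hX g₀ hg i x₀ hx₀ _ _ hD => ?_
  by_contra hS
  obtain ⟨g, rfl⟩ : ∃ g : OG Q, g.1 = g₀ := ⟨⟨g₀, EG_le_isom (hX.le' hg)⟩, rfl⟩
  suffices g.1 ∈ dstab D from let ⟨j, hj⟩ := exists_of_dstab this i; hD j (hj _ hx₀)
  obtain ⟨a, ha, a0⟩ := exists_nonsing (h.nd i) fun e => by have := k3 i; rw [e, finrank_bot] at this; omega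
  obtain ⟨m, y, hy, y0, e⟩ := h.exists_nonsing_comp (z := g.1 a) (by rwa [OG.map_Q])
  obtain ⟨x, hx, x0, xs, xy⟩ := hX.exists_sing_perp' h4 m y
  have yy : polar Q y y = 0 := by rw [polar_self', h2, zero_mul]
  have sX := hX.refl_mul_mem h5 (add_mem hy hx) hy y0 (by simpa using quad_add_smul_of_perp xs xy 1)
  rw [refl_mul_eich xs xy y0] at sX
  have xy' : polar Q x ((Q y)⁻¹ • y) = 0 := by simp [xy]
  have s' := mul_mem (mul_mem (inv_mem hg) sX) hg
  have ap : ∀ v, (g⁻¹ * eich Q x ((Q y)⁻¹ • y) * g).1 v = v + (g⁻¹).1 ((polar Q ((Q y)⁻¹ • y) (g.1 v) -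
      Q ((Q y)⁻¹ • y) * polar Q x (g.1 v)) • x - polar Q x (g.1 v) • (Q y)⁻¹ • y) := fun v => by
    rw [OG.mul_apply, OG.mul_apply, eich_apply xs xy', add_sub_assoc, map_add, OG.inv_apply_apply]
  have sD := hX.k2' h2 h4 hS hq (c := g⁻¹ * eich Q x ((Q y)⁻¹ • y) * g) s' ha a0 (j := i) (by
    rw [ap, ← e x hx, xy, polar_smul_left, ← e y hy, yy]; simpa)
  obtain ⟨b, v, hv, e1⟩ : ∃ b, ∃ v ∈ D b, polar Q x (g.1 v) ≠ 0 := by
    by_contra! hc
    exact x0 ((map_eq_zero_iff _ (g⁻¹).1.injective).1 (h.eq_zero' fun b v hv => by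
      rw [ofQuad_B_apply, OG.polar_inv_right, polar_comm, hc b v hv]))
  obtain ⟨b', hb'⟩ := exists_of_dstab sD b
  obtain rfl : b = b' := by
    obtain ⟨w, hw, w0⟩ := exists_notMem_of_lt (U := D b ⊓ pf (Formed.ofQuad Q) ![(g⁻¹).1 x, (g⁻¹).1 y]) (R := ⊥) (by
      have := finrank_pf (Φ := Formed.ofQuad Q) ![(g⁻¹).1 x, (g⁻¹).1 y] (D b); have := k3 b; rw [finrank_bot]; omega)
    have w1 : polar Q x (g.1 w) = 0 := by
      rw [polar_comm, ← OG.polar_inv_right, polar_comm]; exact mem_pf.1 hw.2 0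
    have w2 : polar Q y (g.1 w) = 0 := by
      rw [polar_comm, ← OG.polar_inv_right, polar_comm]; exact mem_pf.1 hw.2 1
    by_contra hb
    exact w0 (h.eq_zero hb hw.1 (by have := hb' w hw.1; rw [ap] at this; simpa [w1, w2] using this))
  have := sub_mem (hb' v hv) hv
  rw [ap, add_sub_cancel_left] at this
  refine hX.k2' h2 h4 hS hq hg this ?_ (j := m) (by
    rw [OG.apply_inv_apply]; exact sub_mem ((D m).smul_mem _ hx) ((D m).smul_mem _ ((D m).smul_mem _ hy)))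
  rw [OG.map_Q, sub_eq_neg_add, quad_add_smul_of_perp xs (by simp [xy])]
  simp [quad_smul, e1, y0]

end Cfsg.Agent.Root.Mx
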