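import Cfsg.Agent.Root.Fr2

/-! Orthonormal frames `Fm Q e`, the root system `D_n` (`IsR`), monomial isometries (`Mon`), and the
reflection groups over `𝔽_p` containing `W(D_n)` (`Fm.thmA`, `Fm.three`). -/

set_option autoImplicit false

namespace Cfsg.Agent.Root.Mx

open Cfsg.Agent.Geom Cfsg.Agent.AutCl Module QuadraticMap

variable {F : Type*} [Field F] {V : Type*} [AddCommGroup V] [Module F V] {Q : QuadraticForm F V}
  {Y : Subgroup (OG Q)} {ι : Type*} [Fintype ι] [DecidableEq ι] {e : ι → V}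

attribute [-simp] QuadraticMap.polar_self

theorem exists_out (S : Finset ι) (h : S.card < Fintype.card ι) : ∃ i, i ∉ S := by
  by_contra! hc
  have := Finset.card_le_card (s := Finset.univ) (t := S) fun i _ => hc i
  rw [Finset.card_univ] at this; omega

theorem exists_out_list (l : List ι) (h : l.length < Fintype.card ι) : ∃ i, i ∉ l := by
  obtain ⟨i, hi⟩ := exists_out l.toFinset ((List.toFinset_card_le l).trans_lt h)
  exact ⟨i, by simpa using hi⟩

/-- An orthonormal frame over a prime field. -/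
structure Fm (Q : QuadraticForm F V) (e : ι → V) : Prop where
  two : (2 : F) ≠ 0
  prime : ∀ c : F, ∃ n : ℕ, (n : F) = c
  on : ∀ i j, polar Q (e i) (e j) = if i = j then 1 else 0
  sum : ∀ v, ∑ i, polar Q (e i) v • e i = v

/-- The roots `± eᵢ ± eⱼ`. -/
def IsR (e : ι → V) (a : V) : Prop :=
  ∃ i j, i ≠ j ∧ ∃ ε δ : F, ε * ε = 1 ∧ δ * δ = 1 ∧ a = ε • e i + δ • e j

/-- Monomial isometries. -/
def Mon (e : ι → V) (g : OG Q) : Prop := ∀ i, ∃ j, ∃ ε : F, ε * ε = 1 ∧ g.1 (e i) = ε • e j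

theorem ne_zero_of_sq {ε : F} (h : ε * ε = 1) : ε ≠ 0 := by rintro rfl; simp at h

theorem Mon.mul {g g' : OG Q} (h : Mon e g) (h' : Mon e g') : Mon e (g * g') := fun i => by
  obtain ⟨j, ε, h1, h2⟩ := h' i
  obtain ⟨k, δ, h3, h4⟩ := h j
  exact ⟨k, ε * δ, by linear_combination δ * δ * h1 + h3, by rw [OG.mul_apply, h2, map_smul, h4, smul_smul]⟩

theorem isR_add {i j : ι} (h : i ≠ j) : IsR (F := F) e (e i + e j) := ⟨i, j, h, 1, 1, by simp, by simp, by simp⟩

theorem isR_sub {i j : ι} (h : i ≠ j) : IsR (F := F) e (e i - e j) :=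
  ⟨i, j, h, 1, -1, by simp, by simp, by simp [sub_eq_add_neg]⟩

theorem IsR.neg {a : V} (h : IsR (F := F) e a) : IsR (F := F) e (-a) := by
  obtain ⟨i, j, h, ε, δ, h1, h2, rfl⟩ := h
  exact ⟨i, j, h, -ε, -δ, by simpa, by simpa, by module⟩

namespace Fm

theorem ext (h : Fm Q e) {x y : V} (H : ∀ i, polar Q (e i) x = polar Q (e i) y) : x = y := by
  rw [← h.sum x, ← h.sum y]; simp [H]

theorem polar_eq (h : Fm Q e) (x y : V) : polar Q x y = ∑ i, polar Q (e i) x * polar Q (e i) y := by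
  nth_rw 1 [← h.sum x]
  simp [← polarBilin_apply_apply, map_sum]

theorem hn (h : Fm Q e) : (Formed.ofQuad Q).Nondeg := fun x hx =>
  h.ext fun i => by rw [polar_comm, polar_zero_right]; exact hx _

theorem Q_eq (h : Fm Q e) {x : V} : Q x = 1 ↔ polar Q x x = 2 := by
  rw [polar_self']; exact ⟨fun e => by simp [e], fun e => mul_left_cancel₀ h.two (by simpa using e)⟩

theorem Q_root (h : Fm Q e) {a : V} (ha : IsR (F := F) e a) : Q a = 1 := by
  obtain ⟨i, j, hij, ε, δ, h1, h2, rfl⟩ := ha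
  rw [h.Q_eq]; simp [h.on, hij, hij.symm, h1, h2]; ring

theorem ne (h : Fm Q e) (i : ι) : e i ≠ 0 := fun e0 => by simpa [e0] using h.on i i

theorem inj (h : Fm Q e) {i j : ι} {ε δ : F} (hε : ε ≠ 0) (H : ε • e i = δ • e j) : i = j := by
  by_contra hc
  simpa [h.on, hc, hε] using congrArg (polar Q (e i)) H

theorem Mon.inv (h : Fm Q e) {g : OG Q} (hg : Mon e g) : Mon e g⁻¹ := by
  choose π ε h1 h2 using hg
  have hπ : Function.Injective π := fun i j hij => h.inj (ne_zero_of_sq (h1 j)) (δ := ε i)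
    (g.1.injective (by rw [map_smul, map_smul, h2, h2, hij, smul_comm]))
  intro j
  obtain ⟨i, rfl⟩ := Finite.surjective_of_injective hπ j
  exact ⟨i, ε i, h1 i, by
    rw [← OG.inv_apply_apply g (ε i • e i), map_smul, h2, smul_smul, h1, one_smul]⟩

theorem Mon.root (h : Fm Q e) {g : OG Q} (hg : Mon e g) {a : V} (ha : IsR (F := F) e a) :
    IsR (F := F) e (g.1 a) := by
  obtain ⟨i, j, hij, ε, δ, h1, h2, rfl⟩ := ha
  obtain ⟨k, ε', h3, h4⟩ := hg i
  obtain ⟨l, δ', h5, h6⟩ := hg j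
  refine ⟨k, l, ?_, ε * ε', δ * δ', by linear_combination ε' * ε' * h1 + h3,
    by linear_combination δ' * δ' * h2 + h5, by simp [h4, h6, smul_smul]⟩
  rintro rfl
  have := OG.map_polar g (e i) (e j)
  simp [h4, h6, h.on, hij, ne_zero_of_sq h3, ne_zero_of_sq h5] at this

theorem mon_refl (h : Fm Q e) {a : V} (ha : IsR (F := F) e a) : Mon e (refl Q a) := fun k => by
  have hq := h.Q_root ha
  obtain ⟨i, j, hij, ε, δ, h1, h2, rfl⟩ := ha
  simp only [refl_apply, hq, inv_one, one_mul, polar_add_left, polar_smul_left, h.on, smul_eq_mul]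
  by_cases hi : i = k
  · subst hi
    exact ⟨j, -(ε * δ), by linear_combination δ * δ * h1 + h2, by
      simp only [hij.symm, if_true, if_false]; match_scalars
      · linear_combination -h1
      · ring⟩
  by_cases hj : j = k
  · subst hj
    exact ⟨i, -(ε * δ), by linear_combination δ * δ * h1 + h2, by
      simp only [hij, if_true, if_false]; match_scalars
      · linear_combination -h2
      · ring⟩
  · exact ⟨k, 1, by simp, by simp [hi, hj]⟩

/-- The sign change at two coordinates. -/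
def sg (Q : QuadraticForm F V) (e : ι → V) (k l : ι) : OG Q := refl Q (e k + e l) * refl Q (e k - e l)

theorem sg_apply (h : Fm Q e) {k l : ι} (hkl : k ≠ l) (x : V) :
    (sg Q e k l).1 x = x - (2 * polar Q (e k) x) • e k - (2 * polar Q (e l) x) • e l := by
  simp only [sg, OG.mul_apply, refl_apply, h.Q_root (isR_add hkl), h.Q_root (isR_sub hkl), polar_add_left,
    polar_sub_left, polar_sub_right, polar_smul_right, h.on, hkl, hkl.symm, if_true, if_false, smul_eq_mul]
  module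

theorem co_sg (h : Fm Q e) {k l : ι} (hkl : k ≠ l) (x : V) (i : ι) : polar Q (e i) ((sg Q e k l).1 x) =
    if i = k ∨ i = l then -polar Q (e i) x else polar Q (e i) x := by
  rw [h.sg_apply hkl]
  by_cases h1 : i = k
  · subst h1; simp [h.on, hkl]; ring
  by_cases h2 : i = l
  · subst h2; simp [h.on, h1]; ring
  · simp [h.on, h1, h2]

theorem exists_sign (h : Fm Q e) (hY : ∀ k l, k ≠ l → sg Q e k l ∈ Y) (m : ℕ) : ∀ I : Finset ι, I.card = 2 * m →
    ∃ g ∈ Y, ∀ x i, polar Q (e i) (g.1 x) = if i ∈ I then -polar Q (e i) x else polar Q (e i) x := by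
  induction m with
  | zero => exact fun I hI => ⟨1, one_mem _, by simp [Finset.card_eq_zero.1 hI]⟩
  | succ m ih =>
    intro I hI
    obtain ⟨k, hk, l, hl, hkl⟩ := Finset.one_lt_card.1 (show 1 < I.card by omega)
    obtain ⟨g, hg, H⟩ := ih ((I.erase k).erase l) (by
      rw [Finset.card_erase_of_mem (by simp [hl, hkl.symm]), Finset.card_erase_of_mem hk]; omega)
    refine ⟨sg Q e k l * g, mul_mem (hY k l hkl) hg, fun x i => ?_⟩
    rw [OG.mul_apply, h.co_sg hkl, H]
    by_cases h1 : i = k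
    · simp [h1, hk]
    by_cases h2 : i = l
    · simp [h2, hl]
    · simp [h1, h2]

theorem polar_sign (h : Fm Q e) {I : Finset ι} {x y : V} (hx : Q x = 1)
    (H : ∀ i, polar Q (e i) y = if i ∈ I then -polar Q (e i) x else polar Q (e i) x) :
    polar Q x y = 2 - 2 * ∑ i ∈ I, polar Q (e i) x ^ 2 := by
  nth_rw 1 [← h.Q_eq.1 hx]
  rw [h.polar_eq x x, h.polar_eq x y, Finset.mul_sum, ← Finset.sum_filter_add_sum_filter_not _ (· ∈ I),
    ← Finset.sum_filter_add_sum_filter_not Finset.univ (· ∈ I), Finset.filter_mem_eq_inter, Finset.univ_inter,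
    add_sub_right_comm, ← Finset.sum_sub_distrib]
  congr 1
  · exact Finset.sum_congr rfl fun i hi => by simp [H, hi]; ring
  · exact Finset.sum_congr rfl fun i hi => by simp at hi; simp [H, hi]

theorem rg (h : Fm Q e) (h3 : 3 ≤ Fintype.card ι) (hY : ∀ a, IsR (F := F) e a → Ro Y a) : RG Y := by
  refine ⟨h.hn, h.two, h.prime, fun U hU H => ?_⟩
  obtain ⟨u, hu, hu0⟩ := (Submodule.ne_bot_iff _).1 hU
  obtain ⟨i, hi⟩ : ∃ i, polar Q (e i) u ≠ 0 := by
    by_contra! hc; exact hu0 (h.ext fun i => by simp [hc])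
  have step : ∀ a ∈ U, ∀ b, IsR (F := F) e b → polar Q a b ≠ 0 → b ∈ U := fun a ha b hb e =>
    (H b (hY b hb)).resolve_right fun hc => e (hc a ha)
  have key : ∀ i j, i ≠ j → ∀ ε : F, ε * ε = 1 → e i + ε • e j ∈ U → ∀ k, k ≠ i → k ≠ j → e i ∈ U ∧ e k ∈ U :=
    fun i j hij ε hε H k hi hj => by
      have h1 := step _ H _ (isR_add hi.symm) (by simp [h.on, hij.symm, hi.symm, hj.symm])
      have h2 := step _ H _ (isR_sub hi.symm) (by simp [h.on, hij.symm, hi.symm, hj.symm])
      exact ⟨(U.smul_mem_iff h.two).1 (by convert add_mem h1 h2 using 1; module),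
        (U.smul_mem_iff h.two).1 (by convert sub_mem h1 h2 using 1; module)⟩
  obtain ⟨j, hj⟩ := exists_out_list [i] (by simp; omega)
  obtain ⟨k, hk⟩ := exists_out_list [i, j] (by simp; omega)
  simp only [List.mem_cons, List.not_mem_nil, or_false, not_or] at hj hk
  obtain ⟨ε, hε, H1⟩ : ∃ ε : F, ε * ε = 1 ∧ e i + ε • e j ∈ U := by
    by_cases hc : polar Q u (e i + e j) = 0
    · have := step u hu _ (isR_sub (Ne.symm hj)) fun hc' => by
        rw [polar_add_right] at hc; rw [polar_sub_right] at hc'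
        exact mul_ne_zero h.two hi (by rw [polar_comm]; linear_combination hc + hc')
      exact ⟨-1, by simp, by simpa [← sub_eq_add_neg] using this⟩
    · exact ⟨1, by simp, by simpa using step u hu _ (isR_add (Ne.symm hj)) hc⟩
  have H2 := key i j (Ne.symm hj) ε hε H1
  refine eq_top_iff.2 fun v _ => h.sum v ▸ U.sum_mem fun l _ => U.smul_mem _ ?_
  by_cases h1 : l = i
  · exact h1 ▸ (H2 k hk.1 hk.2).1
  by_cases h2 : l = j
  · exact h2 ▸ (U.smul_mem_iff (ne_zero_of_sq hε)).1 (by simpa using sub_mem H1 (H2 k hk.1 hk.2).1)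
  · exact (H2 l h1 h2).2

theorem sg_mem (hY : ∀ a, IsR (F := F) e a → Ro Y a) (k l : ι) (hkl : k ≠ l) : sg Q e k l ∈ Y :=
  mul_mem (hY _ (isR_add hkl)).2 (hY _ (isR_sub hkl)).2

theorem thmA [Finite F] [FiniteDimensional F V] (h : Fm Q e) (h9 : 9 ≤ Fintype.card ι) (h3 : (3 : F) ≠ 0)
    (hY : ∀ a, IsR (F := F) e a → Ro Y a) (hN : ¬ NE Y) {x : V} (hx : Ro Y x) :
    IsR (F := F) e x ∨ ∃ i, x ∈ F ∙ e i := by
  by_contra! ⟨hr, hf⟩
  have h2 := h.two
  have h4 : (4 : F) ≠ 0 := fun h => mul_ne_zero h2 h2 (by linear_combination h)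
  obtain ⟨c, hc⟩ : ∃ c : ι → F, ∀ i, polar Q (e i) x = c i := ⟨_, fun _ => rfl⟩
  have A : ∀ (i j k l : ι) (ε δ : F), i ≠ j → k ≠ l → ε * ε = 1 → δ * δ = 1 →
      polar Q (e i + ε • e j) (e k + δ • e l) = 0 → c i + ε * c j ≠ 0 → c k + δ * c l ≠ 0 →
      ∀ m, m ∉ [i, j, k, l] → c m ≠ 0 → A2 ((c i + ε * c j) ^ 2) ((c k + δ * c l) ^ 2) :=
    fun i j k l ε δ hij hkl hε hδ e0 e1 e2 m hm hm0 => by
      have r1 : IsR (F := F) e (e i + ε • e j) := ⟨i, j, hij, 1, ε, by simp, hε, by simp⟩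
      have r2 : IsR (F := F) e (e k + δ • e l) := ⟨k, l, hkl, 1, δ, by simp, hδ, by simp⟩
      have := rank3 h.hn h2 (hY _ r1) (hY _ r2) hx e0 (by simpa [hc] using e1) (by simpa [hc] using e2)
        (fun hs => hm0 (by
          obtain ⟨α, β, rfl⟩ := Submodule.mem_span_pair.1 hs
          simp only [List.mem_cons, List.not_mem_nil, or_false, not_or] at hm
          simp [← hc, h.on, hm])) hN
      simp only [polar_add_left, polar_smul_left, hc, smul_eq_mul] at this
      exact a2_of_g3 h2 h3 (pow_ne_zero _ e1) (pow_ne_zero _ e2) this.1 this.2.1 this.2.2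
  have nsign : ∀ (I : Finset ι) (m : ℕ), I.card = 2 * m → ∑ i ∈ I, c i ^ 2 = 2 → ∀ j ∉ I, c j = 0 :=
    fun I m hI hs j hj => by
      obtain ⟨g, hg, H⟩ := h.exists_sign (sg_mem hY) m I hI
      by_contra h0
      refine hN (hx.ne (hx.map hg).neg ?_ fun e0 => ?_)
      · rw [polar_neg_right, h.polar_sign hx.1 (H x)]; simp only [hc, hs]; ring
      · have := congrArg (polar Q (e j)) e0
        rw [polar_neg_right, H, if_neg hj, hc] at this
        exact mul_ne_zero h2 h0 (by linear_combination -this)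
  have two : ∀ i, ∃ j ≠ i, c j ≠ 0 := fun i => by
    by_contra! H
    exact hf i (Submodule.mem_span_singleton.2 ⟨c i, h.ext fun j => by
      by_cases e : j = i <;> simp [h.on, hc, e, H]⟩)
  by_cases hZ : ∃ k, c k = 0
  · obtain ⟨k, hk⟩ := hZ
    have one : ∀ i, c i ≠ 0 → c i * c i = 1 := fun i hi => by
      have hik : i ≠ k := by rintro rfl; exact hi hk
      obtain ⟨j, hj, hj0⟩ := two i
      have hjk : j ≠ k := by rintro rfl; exact hj0 hk
      have := (A i k i k 1 (-1) hik hik (by simp) (by simp) (by simp [h.on, hik, hik.symm]) (by simpa [hk])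
        (by simpa [hk]) j (by simp [hj, hjk]) hj0).2.2.1 (by simp [hk])
      simpa [hk, _root_.sq] using this
    obtain ⟨i, -, hi⟩ := two k
    obtain ⟨j, hj, hj0⟩ := two i
    have r : IsR (F := F) e (c i • e i + c j • e j) := ⟨i, j, hj.symm, _, _, one i hi, one j hj0, rfl⟩
    exact hN ((hY _ r).ne hx (by simp [hc, one i hi, one j hj0]; ring) fun e0 => hr (e0 ▸ r))
  push Not at hZ
  have A' : ∀ (i j k l : ι) (ε δ : F), i ≠ j → k ≠ l → ε * ε = 1 → δ * δ = 1 →
      polar Q (e i + ε • e j) (e k + δ • e l) = 0 → c i + ε * c j ≠ 0 → c k + δ * c l ≠ 0 →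
      A2 ((c i + ε * c j) ^ 2) ((c k + δ * c l) ^ 2) := fun i j k l ε δ a1 a2 a3 a4 a5 a6 a7 => by
    obtain ⟨m, hm⟩ := exists_out_list [i, j, k, l] (by simp; omega)
    exact A i j k l ε δ a1 a2 a3 a4 a5 a6 a7 m hm (hZ m)
  have un : ∀ i j, c i ^ 2 ≠ c j ^ 2 → i ≠ j ∧ A2 ((c i + 1 * c j) ^ 2) ((c i + -1 * c j) ^ 2) ∧
      ∃ ε : F, ε * ε = 1 ∧ c i + ε * c j ≠ 0 ∧ (c i + ε * c j) ^ 2 ≠ 1 := fun i j H => by
    have hij : i ≠ j := by rintro rfl; exact H rfl
    have e1 : c i + 1 * c j ≠ 0 := fun e => H (by linear_combination (c i - c j) * e)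
    have e2 : c i + -1 * c j ≠ 0 := fun e => H (by linear_combination (c i + c j) * e)
    refine ⟨hij, A' i j i j 1 (-1) hij hij (by simp) (by simp) (by simp [h.on, hij, hij.symm]) e1 e2, ?_⟩
    by_cases e3 : (c i + 1 * c j) ^ 2 = 1
    · exact ⟨-1, by simp, e2, fun e4 => mul_ne_zero h4 (mul_ne_zero (hZ i) (hZ j)) (by linear_combination e3 - e4)⟩
    · exact ⟨1, by simp, e1, e3⟩
  obtain ⟨S, hS, hS'⟩ : ∃ S : Finset ι, S.card ≤ 4 ∧ ∀ m ∉ S, ∀ n ∉ S, c m ^ 2 = c n ^ 2 := by
    by_contra! H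
    obtain ⟨i, -, j, -, H1⟩ := H ∅ (by simp)
    obtain ⟨k, hk, l, hl, H2⟩ := H {i, j} (Finset.card_le_two.trans (by omega))
    obtain ⟨m, hm, n, hn, H3⟩ := H {i, j, k, l} Finset.card_le_four
    obtain ⟨a1, -, ε, b1, c1, d1⟩ := un i j H1
    obtain ⟨a2, -, δ, b2, c2, d2⟩ := un k l H2
    obtain ⟨a3, -, η, b3, c3, d3⟩ := un m n H3
    simp only [Finset.mem_insert, Finset.mem_singleton, not_or] at hk hl hm hn
    have f1 := (A' k l i j δ ε a2 a1 b2 b1 (by simp [h.on, hk, hl]) c2 c1).2.2.2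
    have f2 := (A' m n i j η ε a3 a1 b3 b1 (by simp [h.on, hm, hn]) c3 c1).2.2.2
    have f3 := (A' m n k l η δ a3 a2 b3 b2 (by simp [h.on, hm, hn]) c3 c2).2.2.1
    simp only [d1, d2, d3, false_or] at f1 f2
    exact d3 (f3 (by linear_combination f2 - f1))
  have hS2 : 5 ≤ Sᶜ.card := by rw [Finset.card_compl]; omega
  have q : ∀ i ∉ S, 4 * c i ^ 2 = 1 := fun i hi => by
    obtain ⟨J, hJ, hJ3⟩ := Finset.exists_subset_card_eq (s := Sᶜ.erase i) (n := 3) (by
      rw [Finset.card_erase_of_mem (by simpa using hi)]; omega)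
    obtain ⟨j, k, l, hjk, hjl, hkl, rfl⟩ := Finset.card_eq_three.1 hJ3
    have hj := hJ (show j ∈ _ by simp)
    have hk := hJ (show k ∈ _ by simp)
    have hl := hJ (show l ∈ _ by simp)
    simp only [Finset.mem_erase, Finset.mem_compl] at hj hk hl
    have v : ∀ a ∉ S, ∀ b ∉ S, c b / c a * (c b / c a) = 1 ∧ c a + c b / c a * c b = 2 * c a := fun a ha b hb => by
      have := hZ a
      constructor <;> field_simp
      · exact hS' b hb a ha
      · linear_combination hS' b hb a ha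
    have := A' i j k l _ _ hj.1.symm hkl (v i hi j hj.2).1 (v k hk.2 l hl.2).1
      (by simp [h.on, hk.1.symm, hl.1.symm, hjk, hjl]) (by simp [(v i hi j hj.2).2, h2, hZ])
      (by simp [(v k hk.2 l hl.2).2, h2, hZ])
    rw [(v i hi j hj.2).2, (v k hk.2 l hl.2).2] at this
    linear_combination this.2.2.1 (by linear_combination 4 * hS' i hi k hk.2)
  by_cases hj : ∃ j, 4 * c j ^ 2 ≠ 1
  · obtain ⟨j, hj⟩ := hj
    obtain ⟨J, hJ, hJ3⟩ := Finset.exists_subset_card_eq (s := Sᶜ) (n := 3) (by omega)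
    have hq : ∀ i ∈ J, 4 * c i ^ 2 = 1 := fun i hi => q i (by simpa using hJ hi)
    have hjJ : j ∉ J := fun e => hj (hq j e)
    obtain ⟨i, hi⟩ := Finset.card_pos.1 (show 0 < J.card by omega)
    have e1 := hq i hi
    obtain ⟨-, ⟨a1, a2, -, a3⟩, -⟩ := un j i fun e => hj (e ▸ e1)
    have key : ∀ u : F, 4 * u ^ 2 = 1 → (c j + u) ^ 2 = 1 → (c j - u) ^ 2 ≠ 4 → False := fun u e1 e2 e3 =>
      (mul_eq_zero.1 (show (c j - u) * (c j + 3 * u) = 0 by
        linear_combination e2 - e1)).elim (fun e => hj (by linear_combination e1 + 4 * (c j + u) * e))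
        fun e => e3 (by linear_combination 4 * e1 + (c j - 5 * u) * e)
    have e5 : 4 * c j ^ 2 = 5 := by
      rcases a3 with a3 | a3 | a3
      · exact (key (c i) e1 (by simpa using a3) (by simpa [sub_eq_add_neg] using a2)).elim
      · exact (key (-c i) (by simpa using e1) (by simpa using a3) (by simpa using a1)).elim
      · linear_combination 2 * a3 - e1
    obtain ⟨m, hm⟩ := exists_out (insert j J) (by rw [Finset.card_insert_of_notMem hjJ]; omega)
    refine hZ m (nsign _ 2 (by rw [Finset.card_insert_of_notMem hjJ, hJ3]) (mul_left_cancel₀ h4 ?_) m hm)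
    rw [Finset.sum_insert hjJ, mul_add, Finset.mul_sum, Finset.sum_congr rfl hq, e5]
    simp [hJ3]; norm_num
  · push Not at hj
    obtain ⟨J, -, hJ⟩ := Finset.exists_subset_card_eq (s := (Finset.univ : Finset ι)) (n := 8) (by simp; omega)
    obtain ⟨m, hm⟩ := exists_out J (by omega)
    refine hZ m (nsign _ 4 hJ (mul_left_cancel₀ h4 ?_) m hm)
    rw [Finset.mul_sum, Finset.sum_congr rfl fun i _ => hj i]
    simp [hJ]; norm_num

theorem sq_three (h : Fm Q e) (h3 : (3 : F) = 0) (c : F) : c = 0 ∨ c * c = 1 := by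
  obtain ⟨n, rfl⟩ := h.prime c
  rw [← Nat.div_add_mod n 3]
  have : n % 3 = 0 ∨ n % 3 = 1 ∨ n % 3 = 2 := by omega
  rcases this with e | e | e <;> simp [e, h3]
  right; linear_combination h3

theorem five [FiniteDimensional F V] (h : Fm Q e) (h6 : 6 ≤ Fintype.card ι) (h3 : (3 : F) = 0)
    (hY : ∀ a, IsR (F := F) e a → Ro Y a) {x : V} (hx : Ro Y x) {J : Finset ι} (hJ : J.card = 5)
    (H : ∀ i, polar Q (e i) x ≠ 0 ↔ i ∈ J) : EG (Formed.ofQuad Q) ≤ Y.map (OG Q).subtype := by
  have R := h.rg (by omega) hY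
  have h2 := h.two
  obtain ⟨c, hc⟩ : ∃ c : ι → F, ∀ i, polar Q (e i) x = c i := ⟨_, fun _ => rfl⟩
  simp only [hc] at H
  have q : ∀ i ∈ J, c i * c i = 1 := fun i hi => (h.sq_three h3 _).resolve_left ((H i).2 hi)
  obtain ⟨K, hK, hK3⟩ := Finset.exists_subset_card_eq (s := J) (n := 3) (by omega)
  have hI : (J \ K).card = 2 * 1 := by rw [Finset.card_sdiff_of_subset hK]; omega
  obtain ⟨g, hg, G⟩ := h.exists_sign (sg_mem hY) 1 _ hI
  have h1 := hx.ae (hx.map hg).neg (by
    rw [polar_neg_right, h.polar_sign hx.1 (G x), Finset.sum_congr rfl (g := fun _ => 1) fun i hi => by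
      rw [hc, _root_.sq, q i (Finset.mem_sdiff.1 hi).1]]
    simp [hI]; ring)
  obtain ⟨k, hk⟩ := Finset.card_pos.1 (show 0 < (J \ K).card by omega)
  obtain ⟨l, hl⟩ := exists_out J (by omega)
  obtain ⟨a, b, d, hab, had, hbd, rfl⟩ := Finset.card_eq_three.1 hK3
  have ha := hK (show a ∈ _ by simp)
  have hb := hK (show b ∈ _ by simp)
  have hd := hK (show d ∈ _ by simp)
  obtain ⟨p, hp⟩ : ∃ p, p = c a • e a + c b • e b + c d • e d := ⟨_, rfl⟩
  have p0 : ∀ i, i ∉ ({a, b, d} : Finset ι) → polar Q (e i) p = 0 := fun i hi => by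
    simp only [Finset.mem_insert, Finset.mem_singleton, not_or] at hi
    simp [hp, h.on, hi]
  rw [show -(g.1 x) - x = p from h.ext fun i => by
    rw [polar_sub_right, polar_neg_right, G, hc]
    by_cases h1 : i ∈ ({a, b, d} : Finset ι)
    · rw [if_neg (by simp [h1]), show polar Q (e i) p = c i by
        simp only [Finset.mem_insert, Finset.mem_singleton] at h1
        rcases h1 with rfl | rfl | rfl <;> simp [hp, h.on, hab, had, hbd, hab.symm, had.symm, hbd.symm]]
      linear_combination -c i * h3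
    · rw [p0 i h1]
      by_cases h2 : i ∈ J
      · simp [h1, h2]
      · simp [h2, not_not.1 (mt (H i).1 h2)]] at h1
  obtain ⟨hk1, hk2⟩ := Finset.mem_sdiff.1 hk
  have hkl : k ≠ l := by rintro rfl; exact hl hk1
  have h4 : Ae Y p (e k) := by
    have := h1.map (sg_mem hY k l hkl)
    rw [h.sg_apply hkl, h.sg_apply hkl, p0 k hk2, p0 l fun e => hl (hK e), hc, hc,
      not_not.1 (mt (H l).1 hl)] at this
    simp only [mul_zero, zero_smul, sub_zero] at this
    exact R.of_smul (c := 2 * c k) (by simpa using h1.sub this) (mul_ne_zero h2 ((H k).2 hk1))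
  have h5 : ∀ i, i ∉ ({a, b, d} : Finset ι) → Ae Y p (e i) := fun i hi => by
    by_cases hik : k = i
    · exact hik ▸ h4
    have := h4.map (hY _ (isR_sub hik)).2
    rw [refl_of_perp (by simp [p0 k hk2, p0 i hi]), (hY _ (isR_sub hik)).app] at this
    simpa [h.on, hik, Ne.symm hik] using this
  have r1 := hY (c a • e a - c b • e b) ⟨a, b, hab, _, -c b, q a ha, by simpa using q b hb, by module⟩
  have r2 := hY (c b • e b - c d • e d) ⟨b, d, hbd, _, -c d, q b hb, by simpa using q d hd, by module⟩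
  have e1 : polar Q (c a • e a - c b • e b) (c b • e b - c d • e d) = 2 := by
    simp [h.on, hab, had, hbd, q b hb]; linear_combination -h3
  have e2 : c a • e a - c b • e b - (c b • e b - c d • e d) = p := by
    rw [hp]; match_scalars <;> first | ring1 | linear_combination -c b * h3
  have f1 := r1.ae r2 e1
  have f2 := r2.ae r1 (by rwa [polar_comm])
  rw [e2] at f2
  rw [← neg_sub, e2, ← neg_one_smul F p] at f1
  replace f1 := R.of_smul (f1.of_smul (by simp)) (by simp)
  refine R.EG_le_of_full (p := p) (fun e0 => (H a).2 ha ?_) h1.1 fun v hv => ?_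
  · simpa [hp, h.on, hab, had] using congrArg (polar Q (e a)) e0
  have h6 : ∀ s : Finset ι, (∀ i ∈ s, i ∉ ({a, b, d} : Finset ι)) → Ae Y p (∑ i ∈ s, polar Q (e i) v • e i) :=
    fun s hs => Finset.sum_induction _ _ (fun _ _ => Ae.add) (by simpa using ae_smul h1.1 0)
      fun i hi => R.smul (h5 i (hs i hi)) _
  convert ((h6 {a, b, d}ᶜ (by simp)).add (R.smul f1 (c a * polar Q (e a) v))).sub
    (R.smul f2 (c d * polar Q (e d) v)) using 1
  nth_rw 1 [← h.sum v, ← Finset.sum_compl_add_sum {a, b, d}]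
  rw [Finset.sum_insert (by simp [hab, had]), Finset.sum_pair hbd]
  simp only [hp, polar_add_left, polar_smul_left, smul_eq_mul] at hv
  match_scalars
  · ring
  · linear_combination -polar Q (e a) v * q a ha
  · linear_combination c b * hv - polar Q (e b) v * q b hb
  · linear_combination -polar Q (e d) v * q d hd

theorem three [FiniteDimensional F V] (h : Fm Q e) (h9 : 9 ≤ Fintype.card ι) (h3 : (3 : F) = 0)
    (hY : ∀ a, IsR (F := F) e a → Ro Y a) {x : V} (hx : Ro Y x) :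
    IsR (F := F) e x ∨ EG (Formed.ofQuad Q) ≤ Y.map (OG Q).subtype := by
  have h2 := h.two
  have sm : ∀ x (I : Finset ι), (∀ i ∈ I, polar Q (e i) x ≠ 0) → ∑ i ∈ I, polar Q (e i) x ^ 2 = I.card :=
    fun x I hI => by
      rw [Finset.sum_congr rfl (g := fun _ => 1) fun i hi => by
        rw [_root_.sq, (h.sq_three h3 _).resolve_left (hI i hi)]]
      simp
  have eight : ∀ x, Ro Y x → ∀ J : Finset ι, J.card = 8 → (∀ i, polar Q (e i) x ≠ 0 ↔ i ∈ J) →
      EG (Formed.ofQuad Q) ≤ Y.map (OG Q).subtype := fun x hx J hJ H => by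
    obtain ⟨k, hk⟩ := exists_out J (by omega)
    obtain ⟨i, hi⟩ := Finset.card_pos.1 (show 0 < J.card by omega)
    obtain ⟨K, hK, hK3⟩ := Finset.exists_subset_card_eq (s := J.erase i) (n := 3) (by
      rw [Finset.card_erase_of_mem hi]; omega)
    have hkK : k ∉ K := fun e => hk (Finset.mem_of_mem_erase (hK e))
    have hiK : i ∉ K := fun e => by simpa using hK e
    have hik : i ≠ k := by rintro rfl; exact hk hi
    have hI : (insert k K).card = 2 * 2 := by rw [Finset.card_insert_of_notMem hkK, hK3]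
    obtain ⟨g, hg, G⟩ := h.exists_sign (sg_mem hY) 2 _ hI
    have k0 := not_not.1 (mt (H k).1 hk)
    have r := hY _ (isR_sub hik)
    have y := (hx.map hg).map r.2
    have e1 : polar Q x ((refl Q (e i - e k)).1 (g.1 x)) = 1 := by
      rw [r.app, polar_sub_right, h.polar_sign hx.1 (G x), Finset.sum_insert hkK, k0,
        sm x K fun j hj => (H j).2 (Finset.mem_of_mem_erase (hK hj)), hK3]
      simp [G, hik, hiK, k0, polar_comm Q x, (h.sq_three h3 _).resolve_left ((H i).2 hi)]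
      linear_combination -2 * h3
    refine h.five (by omega) h3 hY (hx.refl y) (J := insert i (insert k K)) (by
      rw [Finset.card_insert_of_notMem (by simp [hik, hiK]), hI]) fun j => ?_
    rw [e1, r.app]
    by_cases h1 : j = i
    · simp [h1, h.on, G, hik, hiK, k0, (H i).2 hi]
    by_cases h4 : j = k
    · simp [h4, h.on, G, hik, hik.symm, hiK, k0, (H i).2 hi]
    by_cases h5 : j ∈ K
    · simpa [h1, h4, h5, h.on, G, sub_eq_add_neg, ← neg_add, ← two_mul, h2] using
        (H j).2 (Finset.mem_of_mem_erase (hK h5))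
    · simp [h1, h4, h5, h.on, G]
  obtain ⟨J, H⟩ : ∃ J : Finset ι, ∀ i, polar Q (e i) x ≠ 0 ↔ i ∈ J := by
    classical exact ⟨Finset.univ.filter fun i => polar Q (e i) x ≠ 0, by simp⟩
  have e1 : (J.card : F) = 2 := by
    rw [← sm x J fun i => (H i).2, ← h.Q_eq.1 hx.1, h.polar_eq x x, ← Finset.sum_compl_add_sum J,
      Finset.sum_eq_zero (s := Jᶜ) fun i hi => by rw [not_not.1 (mt (H i).1 (by simpa using hi)), zero_mul]]
    simp [_root_.sq]
  have e2 : J.card % 3 = 2 := by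
    rw [← Nat.div_add_mod J.card 3] at e1
    have : J.card % 3 = 0 ∨ J.card % 3 = 1 ∨ J.card % 3 = 2 := by omega
    rcases this with e | e | e
    · simp [e, h3, h2.symm] at e1
    · simp [e, h3] at e1; exact absurd (by linear_combination -e1) (one_ne_zero (α := F))
    · exact e
  rcases (show J.card = 2 ∨ J.card = 5 ∨ J.card = 8 ∨ 8 < J.card by omega) with e | e | e | e
  · obtain ⟨i, j, hij, rfl⟩ := Finset.card_eq_two.1 e
    refine Or.inl ⟨i, j, hij, _, _, (h.sq_three h3 _).resolve_left ((H i).2 (by simp)),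
      (h.sq_three h3 _).resolve_left ((H j).2 (by simp)), h.ext fun k => ?_⟩
    by_cases h1 : k = i
    · simp [h1, h.on, hij]
    by_cases h4 : k = j
    · simp [h4, h.on, hij.symm]
    · simpa [h.on, h1, h4] using mt (H k).1 (by simp [h1, h4])
  · exact Or.inr (h.five (by omega) h3 hY hx e H)
  · exact Or.inr (eight x hx J e H)
  obtain ⟨I, hI, hI8⟩ := Finset.exists_subset_card_eq e.le
  obtain ⟨g, hg, G⟩ := h.exists_sign (sg_mem hY) 4 _ hI8
  refine Or.inr (eight _ (hx.refl (hx.map hg)) I hI8 fun j => ?_)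
  rw [h.polar_sign hx.1 (G x), sm x I fun i hi => (H i).2 (hI hi), hI8,
    show (2 : F) - 2 * (8 : ℕ) = 1 by push_cast; linear_combination -5 * h3]
  by_cases h5 : j ∈ I
  · simpa [h5, G, sub_eq_add_neg, ← neg_add, ← two_mul, h2] using (H j).2 (hI h5)
  · simp [h5, G]

theorem polar_roots (h : Fm Q e) {a b : V} (ha : IsR (F := F) e a) (hb : IsR (F := F) e b) :
    polar Q a b * polar Q a b = 1 ∨ b = a ∨ b = -a ∨ (polar Q a b = 0 ∧
      ((∃ i, ∃ ε : F, ε * ε = 1 ∧ a + b = (2 * ε) • e i) ∨ ∀ k, polar Q (e k) a = 0 ∨ polar Q (e k) b = 0)) := by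
  have key : ∀ (i j : ι) (ε δ ε' δ' : F), i ≠ j → ε * ε = 1 → δ * δ = 1 → ε' * ε' = 1 → δ' * δ' = 1 →
      a = ε • e i + δ • e j → b = ε' • e i + δ' • e j → b = a ∨ b = -a ∨ (polar Q a b = 0 ∧
      ((∃ i, ∃ ε : F, ε * ε = 1 ∧ a + b = (2 * ε) • e i) ∨ ∀ k, polar Q (e k) a = 0 ∨ polar Q (e k) b = 0)) := by
    rintro i j ε δ ε' δ' hij h1 h2 h3 h4 rfl rfl
    rcases mul_self_eq_mul_self_iff.1 (h3.trans h1.symm) with rfl | rfl <;>
      rcases mul_self_eq_mul_self_iff.1 (h4.trans h2.symm) with rfl | rfl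
    · exact Or.inl rfl
    · exact Or.inr (Or.inr ⟨by simp [h.on, hij, hij.symm, h1, h2], Or.inl ⟨i, _, h1, by module⟩⟩)
    · exact Or.inr (Or.inr ⟨by simp [h.on, hij, hij.symm, h1, h2], Or.inl ⟨j, _, h2, by module⟩⟩)
    · exact Or.inr (Or.inl (by module))
  obtain ⟨i, j, hij, ε, δ, h1, h2, ea⟩ := ha
  obtain ⟨k, l, hkl, ε', δ', h3, h4, eb⟩ := hb
  by_cases a1 : i = k <;> by_cases a2 : j = l <;> by_cases a3 : i = l <;> by_cases a4 : j = k
  all_goals first
    | (exfalso; subst_vars; contradiction)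
    | (subst a1 a2; exact Or.inr (key _ _ _ _ _ _ hij h1 h2 h3 h4 ea eb))
    | (subst a3 a4; exact Or.inr (key _ _ _ _ _ _ hij h1 h2 h4 h3 ea (eb.trans (add_comm _ _))))
    | (left; subst_vars; simp [h.on, *]; grind)
    | skip
  refine Or.inr (Or.inr (Or.inr ⟨by simp [ea, eb, h.on, *], Or.inr fun m => ?_⟩))
  by_cases b1 : m = i
  · simp [eb, h.on, *]
  by_cases b2 : m = j
  · simp [eb, h.on, *]
  · simp [ea, h.on, *]

theorem mon_of_root (h : Fm Q e) (h5 : 5 ≤ Fintype.card ι) {g : OG Q}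
    (H : ∀ a, IsR (F := F) e a → IsR (F := F) e (g.1 a)) : Mon e g := fun i => by
  by_contra hc
  have h2 := h.two
  have key : ∀ j ≠ i, ∀ k, polar Q (e k) (g.1 (e i + e j)) = 0 ∨ polar Q (e k) (g.1 (e i - e j)) = 0 :=
    fun j hj => by
      have e0 : polar Q (g.1 (e i + e j)) (g.1 (e i - e j)) = 0 := by
        rw [OG.map_polar]; simp [h.on, hj, hj.symm]
      rcases h.polar_roots (H _ (isR_add hj.symm)) (H _ (isR_sub hj.symm)) with f | f | f | ⟨-, ⟨k, ε, f, f'⟩ | f⟩
      · rw [e0] at f; simp at f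
      · rw [f, h.Q_eq.1 (h.Q_root (H _ (isR_add hj.symm)))] at e0; exact absurd e0 h2
      · rw [f, polar_neg_right, h.Q_eq.1 (h.Q_root (H _ (isR_add hj.symm)))] at e0; simp [h2] at e0
      · exact absurd ⟨k, ε, f, smul_right_injective _ h2 (by
          simp only [smul_smul, ← f', map_add, map_sub]; module)⟩ hc
      · exact f
  obtain ⟨j, hj⟩ := exists_out_list [i] (by simp; omega)
  simp only [List.mem_singleton] at hj
  obtain ⟨a, b, -, ε, δ, -, -, e1⟩ := H _ (isR_add (Ne.symm hj))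
  obtain ⟨c, d, -, ε', δ', -, -, e2⟩ := H _ (isR_sub (Ne.symm hj))
  obtain ⟨k, hk⟩ := exists_out_list [a, b, c, d] (by simp; omega)
  simp only [List.mem_cons, List.not_mem_nil, or_false, not_or] at hk
  have e3 : polar Q (e k) (g.1 (e i)) = 0 := (mul_eq_zero.1 (by
    have := congrArg (polar Q (e k)) (congrArg₂ (· + ·) e1 e2)
    simp [h.on, hk] at this; linear_combination this)).resolve_left h2
  suffices (g⁻¹).1 (e k) = 0 from h.ne k (by rw [← OG.apply_inv_apply g (e k), this, map_zero])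
  refine h.ext fun m => ?_
  rw [OG.polar_inv_right, polar_zero_right, polar_comm]
  by_cases hm : m = i
  · exact hm ▸ e3
  · simpa [e3] using key m hm k

end Fm

end Cfsg.Agent.Root.Mx
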