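import Cfsg.Agent.Root.Dec2
import Cfsg.Agent.Root.Fr3

/-! Non-degenerate quadratic planes over finite fields (`Pl`): good reflections (`Pl.good`), the pigeonhole lemma `ph`,
additive irreducibility under the reflections (`Pl.ai`). -/

set_option autoImplicit false

namespace Cfsg.Agent.Root.Mx

open Cfsg.Agent.Geom Cfsg.Agent.AutCl Module QuadraticMap

variable {F : Type*} [Field F] {V : Type*} [AddCommGroup V] [Module F V] {Q : QuadraticForm F V}

theorem quad_roots {a b c : F} (h : a ≠ 0 ∨ b ≠ 0 ∨ c ≠ 0) :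
    ∃ r₁ r₂, ∀ s, a * s ^ 2 + b * s + c = 0 → s = r₁ ∨ s = r₂ := by
  by_cases h0 : ∃ r, a * r ^ 2 + b * r + c = 0
  · obtain ⟨r, hr⟩ := h0
    refine ⟨r, -b / a - r, fun s hs => or_iff_not_imp_left.2 fun h1 => ?_⟩
    have e : a * (s + r) + b = 0 := mul_left_cancel₀ (sub_ne_zero.2 h1) (by linear_combination hs - hr)
    have ha : a ≠ 0 := by rintro rfl; simp at e; simp [e] at hr; simp [e, hr] at h
    field_simp; linear_combination e
  · exact ⟨0, 0, fun s hs => absurd ⟨s, hs⟩ h0⟩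

theorem ph [Finite F] {φ ψ : F → F} (hφ : φ.Injective) (hψ : ψ.Injective) {a b c a' b' c' : F} (ha : a ≠ 0)
    (ha' : a' ≠ 0) (h : (2 : F) ≠ 0 ∨ ∃ v, (∀ s, φ (a * s ^ 2 + b * s + c) ≠ v) ∧ ∀ s, ψ (a' * s ^ 2 + b' * s + c') ≠ v) :
    ∃ s s', φ (a * s ^ 2 + b * s + c) = ψ (a' * s' ^ 2 + b' * s' + c') := by
  classical
  have := Fintype.ofFinite F
  have key : ∀ {φ : F → F}, φ.Injective → ∀ {a : F} (b c : F), a ≠ 0 →
      Fintype.card F ≤ 2 * (Finset.univ.image fun s => φ (a * s ^ 2 + b * s + c)).card := fun {φ} hφ a b c ha => by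
    have := FiniteField.card_image_polynomial_eval (p := Polynomial.C a * Polynomial.X ^ 2 + Polynomial.C b * Polynomial.X +
      Polynomial.C c) (by rw [Polynomial.degree_quadratic ha]; decide)
    rw [Polynomial.natDegree_quadratic ha, ← Finset.card_image_of_injective _ hφ, Finset.image_image] at this
    simpa [Function.comp_def] using this
  have h1 := key hφ b c ha
  have h2 := key hψ b' c' ha'
  by_contra! hc
  have hd : Disjoint (Finset.univ.image fun s => φ (a * s ^ 2 + b * s + c))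
      (Finset.univ.image fun s => ψ (a' * s ^ 2 + b' * s + c')) := Finset.disjoint_left.2 fun x h1 h2 => by
    obtain ⟨s, -, rfl⟩ := Finset.mem_image.1 h1
    obtain ⟨s', -, e⟩ := Finset.mem_image.1 h2
    exact hc s s' e.symm
  have h3 := Finset.card_union_of_disjoint hd
  rcases h with h | ⟨v, a1, a2⟩
  · have := FiniteField.odd_card_of_char_ne_two (F := F) fun h' => h (by
      have := ringChar.Nat.cast_ringChar (R := F); rwa [h'] at this)
    have := Finset.card_le_univ ((Finset.univ.image fun s => φ (a * s ^ 2 + b * s + c)) ∪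
      (Finset.univ.image fun s => ψ (a' * s ^ 2 + b' * s + c')))
    omega
  · have := Finset.card_lt_univ_of_notMem (s := (Finset.univ.image fun s => φ (a * s ^ 2 + b * s + c)) ∪
      (Finset.univ.image fun s => ψ (a' * s ^ 2 + b' * s + c'))) (x := v) (by simp [a1, a2])
    omega

theorem Q_line (b c : V) (s : F) : Q (s • b + c) = Q b * s ^ 2 + polar Q b c * s + Q c := by
  rw [quad_add, quad_smul, polar_smul_left, smul_eq_mul]; ring

/-- The field has more than `n` elements. -/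
def Big (F : Type*) (n : ℕ) : Prop := ∀ l : List F, l.length ≤ n → ∃ x, x ∉ l

/-- A non-degenerate plane, of minus type with `q ≠ 3` or of plus type with `q ≥ 7`. -/
structure Pl (Q : QuadraticForm F V) (W : Submodule F V) : Prop where
  hn : (Formed.ofQuad Q).Nondeg
  nd : ((Formed.ofQuad Q).restrict W).Nondeg
  rk : finrank F W = 2
  ty : ((∀ x ∈ W, Q x = 0 → x = 0) ∧ ((2 : F) = 0 ∨ Big F 4)) ∨
    ((∃ e ∈ W, ∃ f ∈ W, Q e = 0 ∧ Q f = 0 ∧ polar Q e f = 1) ∧ Big F 6)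

namespace Pl
variable [FiniteDimensional F V] {W : Submodule F V} (h : Pl Q W) {v v' w x b c : V}
include h

theorem exists_perp (x : V) : ∃ b ∈ W, b ≠ 0 ∧ polar Q b x = 0 := by
  obtain ⟨w, hw, w0⟩ := exists_notMem_of_lt (U := W ⊓ pf (Formed.ofQuad Q) ![x]) (R := ⊥) (by
    have := finrank_pf (Φ := Formed.ofQuad Q) ![x] W; have := h.rk; rw [finrank_bot]; omega)
  exact ⟨w, hw.1, w0, (polar_comm _ _ _).trans (mem_pf.1 hw.2 0)⟩

theorem span (hv : v ∈ W) (v0 : v ≠ 0) (hv' : v' ∈ W) (e : v' ∉ F ∙ v) (hw : w ∈ W) : ∃ a b : F, a • v + b • v' = w := by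
  have li : LinearIndependent F ![v, v'] :=
    (LinearIndependent.pair_iff' v0).2 fun a ha => e (Submodule.mem_span_singleton.2 ⟨a, ha⟩)
  have := Submodule.eq_of_le_of_finrank_eq (S₁ := Submodule.span F (Set.range ![v, v'])) (S₂ := W)
    (Submodule.span_le.2 (by rintro _ ⟨i, rfl⟩; fin_cases i <;> simpa)) (by rw [finrank_span_eq_card li, h.rk]; simp)
  rw [← this] at hw
  exact Submodule.mem_span_pair.1 (by simpa [Set.pair_comm] using hw)

theorem mem_span (hc : c ∈ W) (e : polar Q c x ≠ 0) (hb : b ∈ W) (b0 : b ≠ 0) (e1 : polar Q b x = 0) (hw : w ∈ W)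
    (e2 : polar Q w x = 0) : w ∈ F ∙ b := by
  by_contra hc'
  obtain ⟨s, r, rfl⟩ := h.span hb b0 hw hc' hc
  simp [e1, e2] at e

theorem perp (hv : v ∈ W) (v0 : v ≠ 0) (hv' : v' ∈ W) (e : v' ∉ F ∙ v) (e1 : polar Q v x = 0) (e2 : polar Q v' x = 0)
    (hw : w ∈ W) : polar Q w x = 0 := by
  obtain ⟨s, r, rfl⟩ := h.span hv v0 hv' e hw
  simp [e1, e2]

theorem np (hx : x ∈ W) (x0 : x ≠ 0) : ∃ y ∈ W, polar Q y x ≠ 0 := by
  by_contra! hc; exact x0 (eq_zero_of_nd h.nd hx hc)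

theorem frame (e : ∃ y ∈ W, polar Q y x ≠ 0) : ∃ b ∈ W, b ≠ 0 ∧ polar Q b x = 0 ∧ ∃ c ∈ W, polar Q c x = 1 :=
  let ⟨y, hy, e⟩ := e
  let ⟨b, h1, h2, h3⟩ := h.exists_perp x
  ⟨b, h1, h2, h3, (polar Q y x)⁻¹ • y, W.smul_mem _ hy, by simp [e]⟩

theorem nonsing (hx : x ∈ W) (x0 : Q x ≠ 0) (hb : b ∈ W) (b0 : b ≠ 0) (e : polar Q b x = 0) : Q b ≠ 0 := fun hc => by
  obtain ⟨y, hy, e1⟩ := h.np hb b0
  obtain ⟨s, rfl⟩ := Submodule.mem_span_singleton.1
    (h.mem_span hy e1 hb b0 (by simp [polar_self', hc]) hx (by rwa [polar_comm]))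
  simp [quad_smul, hc] at x0

theorem ns (e : ∃ y ∈ W, polar Q y x ≠ 0) : ∃ u ∈ W, Q u ≠ 0 ∧ polar Q u x ≠ 0 := by
  obtain ⟨b, hb, b0, e1, c, hc, e2⟩ := h.frame e
  rcases h.ty with ⟨h1, -⟩ | ⟨-, h1⟩
  · exact ⟨c, hc, fun e => by simp [h1 c hc e] at e2, by simp [e2]⟩
  obtain ⟨r₁, r₂, hr⟩ := quad_roots (a := Q b) (b := polar Q b c) (c := Q c) (by
    by_contra! H
    obtain ⟨y, hy, e3⟩ := h.np hb b0
    exact e3 (h.perp hb b0 hc (fun e => by
      obtain ⟨s, rfl⟩ := Submodule.mem_span_singleton.1 e; simp [e1] at e2) (by simp [polar_self', H.1])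
      (by rw [polar_comm, H.2.1]) hy))
  obtain ⟨s, hs⟩ := h1 [r₁, r₂] (by simp)
  exact ⟨s • b + c, add_mem (W.smul_mem _ hb) hc, fun e => hs (by simpa using hr s (Q_line b c s ▸ e)),
    by simp [e1, e2]⟩

theorem good (hx : x ∈ W) (x0 : Q x ≠ 0) :
    ∃ u ∈ W, Q u ≠ 0 ∧ polar Q u x = 1 ∧ u ∉ F ∙ x ∧ 2 * Q x * Q u ≠ 1 := by
  obtain ⟨b, hb, b0, e1, c, hc, e2⟩ := h.frame (h.np hx (by rintro rfl; simp at x0))
  have q := h.nonsing hx x0 hb b0 e1
  have m : ∀ s : F, s • b + c ∈ W := fun s => add_mem (W.smul_mem _ hb) hc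
  have p : ∀ s : F, polar Q (s • b + c) x = 1 := fun s => by simp [e1, e2]
  obtain ⟨r₁, r₂, hr⟩ := quad_roots (b := polar Q b c) (c := Q c) (Or.inl q)
  have an : (∀ x ∈ W, Q x = 0 → x = 0) → ∀ s : F, Q (s • b + c) ≠ 0 := fun H s e => by simpa [H _ (m s) e] using p s
  by_cases h2 : (2 : F) = 0
  · obtain ⟨s, hs⟩ : ∃ s : F, Q (s • b + c) ≠ 0 := by
      rcases h.ty with ⟨h1, -⟩ | ⟨-, h1⟩
      · exact ⟨0, an h1 0⟩
      obtain ⟨s, hs⟩ := h1 [r₁, r₂] (by simp)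
      exact ⟨s, fun e => hs (by simpa using hr s (Q_line b c s ▸ e))⟩
    refine ⟨_, m s, hs, p s, fun e => ?_, by simp [h2]⟩
    obtain ⟨r, hr⟩ := Submodule.mem_span_singleton.1 e
    simpa [← hr, polar_self', h2] using p s
  obtain ⟨r₃, r₄, hr'⟩ := quad_roots (b := 2 * Q x * polar Q b c) (c := 2 * Q x * Q c - 1)
    (Or.inl (mul_ne_zero (mul_ne_zero h2 x0) q))
  obtain ⟨s, a1, a2⟩ : ∃ s : F, Q (s • b + c) ≠ 0 ∧ s ∉ [r₃, r₄, -polar Q b c / (2 * Q b)] := by
    rcases h.ty with ⟨h1, h3⟩ | ⟨-, h1⟩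
    · obtain ⟨s, hs⟩ := h3.resolve_left h2 [r₃, r₄, -polar Q b c / (2 * Q b)] (by simp)
      exact ⟨s, an h1 s, hs⟩
    obtain ⟨s, hs⟩ := h1 [r₁, r₂, r₃, r₄, -polar Q b c / (2 * Q b)] (by simp)
    exact ⟨s, fun e => hs (by rcases hr s (Q_line b c s ▸ e) with e | e <;> simp [e]),
      fun e => hs (List.mem_cons_of_mem _ (List.mem_cons_of_mem _ e))⟩
  simp only [List.mem_cons, List.not_mem_nil, or_false, not_or] at a2
  refine ⟨_, m s, a1, p s, fun e => a2.2.2 ?_, fun e => ?_⟩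
  · obtain ⟨r, hr⟩ := Submodule.mem_span_singleton.1 e
    have := congrArg (polar Q b) hr
    simp only [polar_smul_right, e1, polar_add_right, polar_self', smul_eq_mul] at this
    field_simp; linear_combination -this
  · rw [Q_line] at e
    exact (hr' s (by linear_combination e)).elim a2.1 a2.2.1

/-- Two vectors of the same norm, neither parallel nor perpendicular. -/
theorem pair (hx : x ∈ W) (x0 : Q x ≠ 0) : ∃ v ∈ W, Q v = Q x ∧ v ∉ F ∙ x ∧ polar Q x v ≠ 0 := by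
  obtain ⟨u, hu, u0, e1, e2, e3⟩ := h.good hx x0
  have e0 : (refl Q u).1 x = x - (Q u)⁻¹ • u := by rw [refl_apply, e1, mul_one]
  refine ⟨x - (Q u)⁻¹ • u, sub_mem hx (W.smul_mem _ hu), e0 ▸ OG.map_Q _ _, fun e => e2 ?_, fun e => e3 ?_⟩
  · simpa [Submodule.smul_mem_iff _ (inv_ne_zero u0)] using sub_mem (Submodule.mem_span_singleton_self x) e
  · rw [polar_sub_right, polar_smul_right, polar_comm Q x u, e1, polar_self', smul_eq_mul] at e
    field_simp at e; linear_combination e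

theorem dec {e f : V} (he : e ∈ W) (hf : f ∈ W) (e0 : Q e = 0) (f0 : Q f = 0) (ef : polar Q e f = 1) (hx : x ∈ W) :
    x = polar Q f x • e + polar Q e x • f := by
  obtain ⟨a, b, rfl⟩ := h.span he (by rintro rfl; simp at ef) hf (fun H => by
    obtain ⟨s, rfl⟩ := Submodule.mem_span_singleton.1 H; simp [polar_self', e0] at ef) hx
  simp [polar_self', e0, f0, ef, polar_comm Q f e]

omit h [FiniteDimensional F V] in
theorem refl_ef {e f : V} (e0 : Q e = 0) (f0 : Q f = 0) (ef : polar Q e f = 1) {θ : F} (h0 : θ ≠ 0) (x : V) :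
    (refl Q (e - θ • f)).1 x = x + (θ⁻¹ * polar Q e x - polar Q f x) • e + (θ * polar Q f x - polar Q e x) • f := by
  rw [refl_apply, show Q (e - θ • f) = -θ by simp [quad_sub, quad_smul, e0, f0, ef], polar_sub_left, polar_smul_left,
    smul_eq_mul]
  match_scalars <;> field_simp <;> ring

/-- Additive subgroups invariant under the reflections contain the plane. -/
theorem ai [Finite F] (A : AddSubgroup V) (hA : ∀ u ∈ W, ∀ a ∈ W, a ∈ A → (refl Q u).1 a ∈ A) (hx : x ∈ W)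
    (x0 : x ≠ 0) (ha : x ∈ A) (hw : w ∈ W) : w ∈ A := by
  have hA' : ∀ u ∈ W, ∀ a ∈ W, a ∈ A → ((Q u)⁻¹ * polar Q u a) • u ∈ A := fun u hu a h1 h2 => by
    simpa [refl_apply] using sub_mem h2 (hA u hu a h1 h2)
  rcases h.ty with ⟨h1, -⟩ | ⟨⟨e, he, f, hf, e0, f0, ef⟩, h1⟩
  · have n0 : Q x ≠ 0 := fun e => x0 (h1 x hx e)
    obtain ⟨b, hb, b0, e1, c, hc, e2⟩ := h.frame (h.np hx x0)
    have q := h.nonsing hx n0 hb b0 e1
    have m : ∀ s : F, s • b + c ∈ W := fun s => add_mem (W.smul_mem _ hb) hc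
    have p : ∀ s : F, polar Q (s • b + c) x = 1 := fun s => by simp [e1, e2]
    have an : ∀ s : F, Q (s • b + c) ≠ 0 := fun s e => by simpa [h1 _ (m s) e] using p s
    have k1 : ∀ s : F, ((Q x)⁻¹ * (Q b * s ^ 2 + polar Q b c * s + Q c)⁻¹) • x ∈ A := fun s => by
      simpa [e1, e2, polar_comm Q x, Q_line] using hA' x hx _ (W.smul_mem _ (m s)) (hA' _ (m s) x hx ha)
    have k2 : ∀ r : F, r • x ∈ A := fun r => by
      by_cases H : ∃ s : F, (Q x)⁻¹ * (Q b * s ^ 2 + polar Q b c * s + Q c)⁻¹ = r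
      · obtain ⟨s, rfl⟩ := H; exact k1 s
      obtain ⟨s, s', e⟩ := ph (φ := fun y => (Q x)⁻¹ * y⁻¹) (ψ := fun y => r - (Q x)⁻¹ * y⁻¹) (b := polar Q b c)
        (c := Q c) (b' := polar Q b c) (c' := Q c) (fun a b e => by simpa [n0] using e)
        (fun a b e => by simpa [n0] using e) q q (Or.inr ⟨0, fun s => by simp [n0, ← Q_line, an],
          fun s e => H ⟨s, (sub_eq_zero.1 e).symm⟩⟩)
      simpa [← add_smul, eq_sub_iff_add_eq.1 e] using add_mem (k1 s) (k1 s')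
    have k3 : ∀ u ∈ W, polar Q u x ≠ 0 → u ∈ A := fun u hu e => by
      have u0 : Q u ≠ 0 := fun e' => by simp [h1 u hu e'] at e
      simpa [mul_assoc, u0, e] using hA' u hu _ (W.smul_mem (Q u * (polar Q u x)⁻¹) hx) (k2 _)
    by_cases e : polar Q w x = 0
    · simpa using sub_mem (k3 _ (add_mem hw hc) (by simp [e, e2])) (k3 c hc (by simp [e2]))
    · exact k3 w hw e
  have key : ∀ e ∈ W, ∀ f ∈ W, Q e = 0 → Q f = 0 → polar Q e f = 1 → ∀ x ∈ W, x ∈ A → ∀ θ : F, θ ≠ 0 →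
      (θ⁻¹ * polar Q e x) • e + (θ * polar Q f x) • f ∈ A := fun e he f hf e0 f0 ef x hx ha θ h0 => by
    convert hA _ (sub_mem he (W.smul_mem θ hf)) x hx ha using 1
    rw [refl_ef e0 f0 ef h0]; linear_combination (norm := module) -h.dec he hf e0 f0 ef hx
  have fe : polar Q f e = 1 := by rwa [polar_comm]
  have k1 : ∀ e ∈ W, ∀ f ∈ W, Q e = 0 → Q f = 0 → polar Q e f = 1 → ∀ κ : F, κ ≠ 0 → κ • e ∈ A → ∀ r : F, r • f ∈ A :=
    fun e he f hf e0 f0 ef κ k0 hk r => by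
      by_cases r0 : r = 0
      · simp [r0]
      simpa [polar_self', e0, polar_comm Q f e, ef, k0] using
        key e he f hf e0 f0 ef _ (W.smul_mem κ he) hk (r / κ) (div_ne_zero r0 k0)
  have k2 : ∀ e ∈ W, ∀ f ∈ W, Q e = 0 → Q f = 0 → polar Q e f = 1 → polar Q e x ≠ 0 → ∀ r : F, r • f ∈ A :=
    fun e he f hf e0 f0 ef h0 => by
      obtain ⟨r₁, r₂, hr⟩ := quad_roots (a := (1 : F)) (b := 1) (c := 1) (by simp)
      obtain ⟨θ, hθ⟩ := h1 [0, -1, r₁, r₂] (by simp)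
      simp only [List.mem_cons, List.not_mem_nil, or_false, not_or] at hθ
      have a1 : θ + 1 ≠ 0 := fun e => hθ.2.1 (eq_neg_of_add_eq_zero_left e)
      have := hθ.1
      refine k1 e he f hf e0 f0 ef ((θ⁻¹ + 1 - (θ + 1)⁻¹) * polar Q e x) (mul_ne_zero (fun e => ?_) h0) ?_
      · field_simp at e
        exact (hr θ (by linear_combination e)).elim hθ.2.2.1 hθ.2.2.2
      · convert sub_mem (add_mem (key e he f hf e0 f0 ef x hx ha θ hθ.1) (key e he f hf e0 f0 ef x hx ha 1 one_ne_zero))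
          (key e he f hf e0 f0 ef x hx ha _ a1) using 1
        module
  have k3 : (∀ r : F, r • e ∈ A) ∧ ∀ r : F, r • f ∈ A := by
    by_cases h0 : polar Q e x = 0
    · have := k2 f hf e he f0 e0 fe fun h' => x0 (by simpa [h0, h'] using h.dec he hf e0 f0 ef hx)
      exact ⟨this, k1 e he f hf e0 f0 ef 1 one_ne_zero (this 1)⟩
    · have := k2 e he f hf e0 f0 ef h0
      exact ⟨k1 f hf e he f0 e0 fe 1 one_ne_zero (this 1), this⟩
  exact h.dec he hf e0 f0 ef hw ▸ add_mem (k3.1 _) (k3.2 _)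

end Pl

end Cfsg.Agent.Root.Mx
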