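import Cfsg.Agent.Root.Dec3

/-! Orthogonal decompositions into planes (`PD`): the criterion `PX.win` for an overgroup of the stabiliser to contain
`Ω`, and the analysis `PD.core` of groups containing all reflections of the blocks and one further reflection. -/

set_option autoImplicit false

namespace Cfsg.Agent.Root.Mx

open Cfsg.Agent.Geom Cfsg.Agent.AutCl Module QuadraticMap

variable {F : Type*} [Field F] {V : Type*} [AddCommGroup V] [Module F V] {Q : QuadraticForm F V}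
  {t : ℕ} {D : Fin t → Submodule F V} {X Z : Subgroup (OG Q)}

/-- The vector data of the Eichler maps at `p`. -/
def aeS (Y : Subgroup (OG Q)) {p : V} (hp : Q p = 0) : AddSubgroup V where
  carrier := {a | Ae Y p a}
  zero_mem' := by simpa using ae_smul (Y := Y) hp 0
  add_mem' := Ae.add
  neg_mem' := Ae.neg

/-- Reflections of arbitrary norm. -/
def Rn (Y : Subgroup (OG Q)) (y : V) : Prop := Q y ≠ 0 ∧ refl Q y ∈ Y

theorem Rn.map {y : V} (h : Rn Z y) {g : OG Q} (hg : g ∈ Z) : Rn Z (g.1 y) :=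
  ⟨by rw [OG.map_Q]; exact h.1, conj_refl g y ▸ mul_mem (mul_mem hg h.2) (inv_mem hg)⟩

theorem Rn.ae {y p : V} (h : Rn Z y) (hz : Rn Z (y + p)) (e : Q (y + p) = Q y) (hp : Q p = 0) :
    Ae Z p ((Q y)⁻¹ • y) := by
  have h1 : polar Q p y = 0 := by rw [quad_add, hp] at e; rw [polar_comm]; linear_combination e
  exact ⟨hp, by simp [h1], refl_mul_eich hp h1 h.1 ▸ mul_mem hz.2 h.2⟩

/-- An orthogonal decomposition into at least five isometric planes. -/
structure PD (Q : QuadraticForm F V) {t : ℕ} (D : Fin t → Submodule F V) : Prop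
    extends ODec (Formed.ofQuad Q) 2 D where
  five : 5 ≤ t
  iso : ∀ i j, ∃ e, ((Formed.ofQuad Q).restrict (D i)).IsIso ((Formed.ofQuad Q).restrict (D j)) e
  ty : ((∀ i, ∀ x ∈ D i, Q x = 0 → x = 0) ∧ ((2 : F) = 0 ∨ Big F 4)) ∨
    ((∀ i, ∃ e ∈ D i, ∃ f ∈ D i, Q e = 0 ∧ Q f = 0 ∧ polar Q e f = 1) ∧ Big F 6)

/-- A non-zero component. -/
def NP (Q : QuadraticForm F V) (W : Submodule F V) (z : V) : Prop := ∃ y ∈ W, polar Q y z ≠ 0

/-- An Eichler map with centre supported on two blocks and a component outside. -/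
def Good (D : Fin t → Submodule F V) (Z : Subgroup (OG Q)) : Prop :=
  ∃ i j l, ∃ p₁ ∈ D i, ∃ p₂ ∈ D j, ∃ a, i ≠ j ∧ l ≠ i ∧ l ≠ j ∧ p₁ ≠ 0 ∧ Ae Z (p₁ + p₂) a ∧ NP Q (D l) a

theorem NP.smul {W : Submodule F V} {z : V} (h : NP Q W z) {c : F} (hc : c ≠ 0) : NP Q W (c • z) :=
  let ⟨y, h1, h2⟩ := h; ⟨y, h1, by simp [hc, h2]⟩

theorem NP.congr {W : Submodule F V} {z z' : V} (h : NP Q W z) (e : ∀ y ∈ W, polar Q y z' = polar Q y z) : NP Q W z' :=
  let ⟨y, h1, h2⟩ := h; ⟨y, h1, by rwa [e y h1]⟩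

variable [FiniteDimensional F V]

namespace PD
variable (h : PD Q D)
include h

omit [FiniteDimensional F V] in
theorem pl (i : Fin t) : Pl Q (D i) :=
  ⟨h.hn, h.nd i, h.rk i, h.ty.imp (fun a => ⟨a.1 i, a.2⟩) fun a => ⟨a.1 i, a.2⟩⟩

omit [FiniteDimensional F V] in
theorem out (a b c d : Fin t) : ∃ m, m ≠ a ∧ m ≠ b ∧ m ≠ c ∧ m ≠ d := by
  simpa using exists_out_list [a, b, c, d] (by have := h.five; simp; omega)

omit [FiniteDimensional F V] in
theorem o {i j : Fin t} (hij : i ≠ j) {x y : V} (hx : x ∈ D i) (hy : y ∈ D j) : polar Q x y = 0 :=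
  h.orth i j hij x hx y hy

theorem h5 : 5 ≤ finrank F V := by have := h.finrank_eq; have := h.five; omega

theorem refl_mem {i : Fin t} {u : V} (hu : u ∈ D i) : (refl Q u).1 ∈ dstab D :=
  h.mem_dstab_of_fix (refl Q u).2 (refl_mem_fix (Formed.le_perp_perp _ _ hu))

theorem good1 {j : Fin t} {p a : V} (hp : p ∈ D j) (p0 : p ≠ 0) (ha : Ae Z p a) (hj : a ∉ D j) : Good D Z := by
  obtain ⟨l, hl, H⟩ := h.exists_ne_perp hj
  obtain ⟨i, a1, a2, -⟩ := h.out j l l l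
  exact ⟨j, i, l, p, hp, 0, zero_mem _, a, a1.symm, hl, a2.symm, p0, by simpa, H⟩

/-- A root with a singular non-zero component. -/
theorem sing (hZ : ∀ i, ∀ u ∈ D i, ∀ v ∈ D i, ∀ s : F, s ≠ 0 → Q v ≠ 0 → Q u = s ^ 2 * Q v → refl Q u * refl Q v ∈ Z)
    (hb : Big F 6) {j : Fin t} {e f z : V} (he : e ∈ D j) (hf : f ∈ D j) (e0 : Q e = 0) (f0 : Q f = 0)
    (ef : polar Q e f = 1) (hz : Rn Z z) (hj : z ∉ D j) (h1 : polar Q f z = 0) (h2 : polar Q e z ≠ 0) : Good D Z := by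
  obtain ⟨s, hs⟩ := hb [0, 1, -1] (by simp)
  simp only [List.mem_cons, List.not_mem_nil, or_false, not_or] at hs
  have q : ∀ θ : F, Q (e - θ • f) = -θ := fun θ => by simp [quad_sub, quad_smul, e0, f0, ef]
  have := hz.map (hZ j _ (sub_mem he ((D j).smul_mem (s ^ 2) hf)) _ (sub_mem he ((D j).smul_mem 1 hf)) s hs.1
    (by rw [q]; simp) (by simp only [q]; ring))
  have e1 : (refl Q (e - s ^ 2 • f) * refl Q (e - (1 : F) • f)).1 z = z + ((s ^ 2 - 1) * polar Q e z) • f := by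
    rw [OG.mul_apply, Pl.refl_ef e0 f0 ef one_ne_zero, Pl.refl_ef e0 f0 ef (pow_ne_zero 2 hs.1)]
    simp only [polar_add_right, polar_smul_right, polar_self', e0, f0, ef, polar_comm Q f e, h1, smul_eq_mul]
    module
  exact h.good1 ((D j).smul_mem _ hf) (smul_ne_zero (mul_ne_zero (by simp [sub_eq_zero, hs]) h2)
    (by rintro rfl; simp at ef)) (hz.ae (e1 ▸ this) (e1 ▸ OG.map_Q _ _) (by simp [quad_smul, f0]))
    (by simpa [Submodule.smul_mem_iff _ (inv_ne_zero hz.1)])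

variable [Finite F] (hZ : ∀ i, ∀ u ∈ D i, refl Q u ∈ Z)
include hZ

theorem plusA (hb : Big F 6) {j : Fin t} {e f z : V} (he : e ∈ D j) (hf : f ∈ D j) (e0 : Q e = 0) (f0 : Q f = 0)
    (ef : polar Q e f = 1) (hz : Rn Z z) (hj : z ∉ D j) (h1 : NP Q (D j) z)
    (h2 : 2 * (polar Q e z * polar Q f z) ≠ Q z) : Good D Z := by
  have S := fun {e f z} => h.sing (fun i u hu v hv _ _ _ _ => mul_mem (hZ i u hu) (hZ i v hv)) hb (j := j) (e := e)
    (f := f) (z := z)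
  have fe : polar Q f e = 1 := by rwa [polar_comm]
  have f1 : f ≠ 0 := by rintro rfl; simp at ef
  by_cases a1 : polar Q f z = 0
  · refine S he hf e0 f0 ef hz hj a1 fun a2 => ?_
    obtain ⟨y, hy, e⟩ := h1
    rw [(h.pl j).dec he hf e0 f0 ef hy] at e
    simp [a1, a2] at e
  by_cases a2 : polar Q e z = 0
  · exact S hf he f0 e0 fe hz hj a2 a1
  have z0 := hz.1
  have q : ∀ a b : F, Q (a • e + b • f) = a * b := fun a b => by simp [quad_add, quad_smul, e0, f0, ef, mul_comm]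
  have m : ∀ a b : F, a • e + b • f ∈ D j := fun a b => add_mem ((D j).smul_mem _ he) ((D j).smul_mem _ hf)
  by_cases a3 : polar Q f z * polar Q e z = Q z
  · obtain ⟨y, hy⟩ : ∃ y, y = polar Q f z • e + polar Q e z • f := ⟨_, rfl⟩
    have yD : y ∈ D j := hy ▸ m _ _
    have y1 : Q y = Q z := by rw [hy, q, a3]
    have y2 : ∀ x ∈ D j, polar Q x (z - y) = 0 := fun x hx => by
      rw [(h.pl j).dec he hf e0 f0 ef hx]; simp [hy, polar_self', e0, f0, ef, fe]; ring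
    have y3 : Q (z - y) = 0 := by
      have := quad_add Q y (z - y)
      rw [add_sub_cancel, y1, y2 y yD] at this; linear_combination -this
    have := (h.pl j).ai (aeS Z y3) (fun u hu a _ ha => by
      have := Ae.map ha (hZ j u hu); rwa [refl_of_perp (y2 u hu)] at this) ((D j).smul_mem (Q y)⁻¹ yD)
      (smul_ne_zero (by simp [y1, z0]) (by rintro rfl; simp [z0.symm] at y1))
      (Rn.ae ⟨y1 ▸ z0, hZ j y yD⟩ (by simpa) (by simp [y1]) y3) hf
    exact h.good1 hf f1 (Ae.swap this f0) fun e => hj (by simpa using add_mem e yD)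
  have e1 : (refl Q z).1 (polar Q f z ^ 2 • e + (Q z - polar Q f z * polar Q e z) • f) =
      polar Q f z ^ 2 • e + (Q z - polar Q f z * polar Q e z) • f - polar Q f z • z := by
    rw [refl_apply]; simp only [polar_add_right, polar_smul_right, polar_comm Q z e, polar_comm Q z f, smul_eq_mul]
    congr 2; field_simp; ring
  refine S he hf e0 f0 ef (e1 ▸ Rn.map ⟨by simp [q, a1, sub_eq_zero, Ne.symm a3], hZ j _ (m _ _)⟩ hz.2)
    (fun H => hj (((D j).smul_mem_iff a1).1 (sub_sub_cancel _ (polar Q f z • z) ▸ sub_mem (m _ _) H))) ?_ fun H => h2 ?_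
  · simp [polar_self', f0, fe]; ring
  · simp [polar_self', e0, ef] at H; linear_combination -H

theorem plus (hb : Big F 6) (hp : ∀ i, ∃ e ∈ D i, ∃ f ∈ D i, Q e = 0 ∧ Q f = 0 ∧ polar Q e f = 1) {z : V} (hz : Rn Z z)
    (hD : ∀ j, z ∉ D j) : Good D Z := by
  obtain ⟨j, -, b1⟩ := h.exists_ne_perp (hD ⟨0, by have := h.five; omega⟩)
  obtain ⟨i, hi, b2⟩ := h.exists_ne_perp (hD j)
  obtain ⟨e, he, f, hf, e0, f0, ef⟩ := hp i
  obtain ⟨e', he', f', hf', e0', f0', ef'⟩ := hp j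
  by_cases a1 : 2 * (polar Q e z * polar Q f z) = Q z
  swap
  · exact h.plusA hZ hb he hf e0 f0 ef hz (hD i) b2 a1
  by_cases a2 : 2 * (polar Q e' z * polar Q f' z) = Q z
  swap
  · exact h.plusA hZ hb he' hf' e0' f0' ef' hz (hD j) b1 a2
  have z0 := hz.1
  have h2 : (2 : F) ≠ 0 := fun e => z0 (by rw [← a1, e, zero_mul])
  have α0 : polar Q f z ≠ 0 := fun e => z0 (by simp [← a1, e])
  have β0 : polar Q e z ≠ 0 := fun e => z0 (by simp [← a1, e])
  obtain ⟨r₁, r₂, hr⟩ := quad_roots (a := (1 : F)) (b := 0) (c := 1) (by simp)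
  obtain ⟨φ, hφ⟩ := hb [0, 1, -1, r₁, r₂] (by simp)
  simp only [List.mem_cons, List.not_mem_nil, or_false, not_or] at hφ
  have φ0 := hφ.1
  have φ1 : φ ^ 2 - 1 ≠ 0 := by simp [sub_eq_zero, hφ]
  have φ2 : φ ^ 2 + 1 ≠ 0 := fun e => (hr φ (by linear_combination e)).elim hφ.2.2.2.1 hφ.2.2.2.2
  have h1 := (hz.map (hZ i _ (sub_mem he ((D i).smul_mem (polar Q e z / polar Q f z * φ) hf)))).map hz.2
  have fe : polar Q f e = 1 := by rwa [polar_comm]
  obtain ⟨w, hw, w1⟩ : ∃ w ∈ D i, (refl Q z).1 ((refl Q (e - (polar Q e z / polar Q f z * φ) • f)).1 z) =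
      (-((φ ^ 2 + 1) / (2 * φ))) • z + w ∧ polar Q e w = polar Q e z * (φ - 1) ∧ polar Q f w = polar Q f z * (φ⁻¹ - 1) := by
    refine ⟨(polar Q f z * (φ⁻¹ - 1)) • e + (polar Q e z * (φ - 1)) • f,
      add_mem ((D i).smul_mem _ he) ((D i).smul_mem _ hf), ?_, by simp [polar_self', e0, ef], by simp [polar_self', f0, fe]⟩
    rw [Pl.refl_ef e0 f0 ef (by simp [*]), refl_apply]
    simp only [polar_add_right, polar_smul_right, polar_comm Q z e, polar_comm Q z f, polar_self', smul_eq_mul, ← a1]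
    match_scalars <;> field_simp <;> ring
  have q := OG.map_Q (refl Q z) ((refl Q (e - (polar Q e z / polar Q f z * φ) • f)).1 z)
  rw [w1.1, OG.map_Q] at q
  rw [w1.1] at h1
  have o : ∀ y ∈ D j, polar Q y w = 0 := fun y hy => h.o hi.symm hy hw
  refine h.plusA hZ hb he' hf' e0' f0' ef' h1 (fun H => ?_) ((NP.smul b1 (c := -((φ ^ 2 + 1) / (2 * φ))) (by simp [*])).congr fun y hy => by
    rw [polar_add_right, o y hy, add_zero]) fun H => ?_
  · have c1 := h.o hi he H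
    have c2 := h.o hi hf H
    simp only [polar_add_right, polar_smul_right, w1.2, smul_eq_mul] at c1 c2
    rw [mul_comm, ← mul_add, mul_eq_zero, or_iff_right (by assumption)] at c1 c2
    exact φ1 (by have := c1.trans c2.symm; rw [add_right_inj, sub_left_inj] at this; field_simp at this; linear_combination this)
  · simp only [polar_add_right, polar_smul_right, o _ he', o _ hf', smul_eq_mul, q, add_zero] at H
    rw [← a2] at H z0
    field_simp at H
    exact mul_ne_zero (mul_ne_zero φ1 φ1) (right_ne_zero_of_mul z0) (by linear_combination H)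

omit hZ in
theorem pigeon {i j : Fin t} {z b b' : V} (hi : NP Q (D i) z) (hj : NP Q (D j) z) (hb : b ∈ D i) (b0 : Q b ≠ 0)
    (b1 : polar Q b z = 0) (hb' : b' ∈ D j) (b0' : Q b' ≠ 0) (b1' : polar Q b' z = 0) {v : F}
    (H : (2 : F) ≠ 0 ∨ v = 0 ∧ ∀ i, ∀ x ∈ D i, Q x = 0 → x = 0) :
    ∃ u ∈ D i, ∃ u' ∈ D j, polar Q u z = 1 ∧ polar Q u' z = 1 ∧ (Q u)⁻¹ + (Q u')⁻¹ = v := by
  obtain ⟨-, -, -, -, c, hc, e⟩ := (h.pl i).frame hi
  obtain ⟨-, -, -, -, c', hc', e'⟩ := (h.pl j).frame hj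
  have m : ∀ s : F, s • b + c ∈ D i := fun s => add_mem ((D i).smul_mem _ hb) hc
  have m' : ∀ s : F, s • b' + c' ∈ D j := fun s => add_mem ((D j).smul_mem _ hb') hc'
  have p : ∀ s : F, polar Q (s • b + c) z = 1 := fun s => by simp [b1, e]
  have p' : ∀ s : F, polar Q (s • b' + c') z = 1 := fun s => by simp [b1', e']
  obtain ⟨s, s', e⟩ := ph (φ := fun y => y⁻¹) (ψ := fun y => v - y⁻¹) (b := polar Q b c)
    (c := Q c) (b' := polar Q b' c') (c' := Q c') inv_injective (fun a b e => by simpa using e) b0 b0'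
    (H.imp_right fun ⟨a, H⟩ => ⟨0, fun s e => by simpa [H _ _ (m s) (by simpa [Q_line] using e)] using p s,
      fun s e => by simpa [H _ _ (m' s) (by simpa [Q_line, a] using e)] using p' s⟩)
  exact ⟨_, m s, _, m' s', p s, p' s', by rw [Q_line, Q_line]; exact eq_sub_iff_add_eq.1 e⟩

omit hZ [FiniteDimensional F V] [Finite F] in
theorem refl_two {i j : Fin t} (hij : i ≠ j) {z u u' : V} (hu : u ∈ D i) (hu' : u' ∈ D j) (e : polar Q u z = 1)
    (e' : polar Q u' z = 1) : (refl Q u * refl Q u').1 z = z - ((Q u)⁻¹ • u + (Q u')⁻¹ • u') ∧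
      Q ((Q u)⁻¹ • u + (Q u')⁻¹ • u') = (Q u)⁻¹ + (Q u')⁻¹ := by
  have : ∀ a : F, (a ^ 2)⁻¹ * a = a⁻¹ := fun a => by by_cases a = 0 <;> simp [pow_two, *]
  refine ⟨?_, by simp [quad_add, quad_smul, h.o hij hu hu', this]⟩
  simp only [OG.mul_apply, refl_apply, polar_sub_right, polar_smul_right, h.o hij hu hu', e, e']
  module

theorem three (an : ∀ i, ∀ x ∈ D i, Q x = 0 → x = 0) {i j l : Fin t} (hij : i ≠ j) (hi : l ≠ i) (hj : l ≠ j) {z : V}
    (hz : Rn Z z) (a1 : NP Q (D i) z) (a2 : NP Q (D j) z) (a3 : NP Q (D l) z) : Good D Z := by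
  obtain ⟨b, hb, b0, b1⟩ := (h.pl i).exists_perp z
  obtain ⟨b', hb', b0', b1'⟩ := (h.pl j).exists_perp z
  obtain ⟨u, hu, u', hu', e, e', q⟩ := h.pigeon a1 a2 hb (fun e => b0 (an _ _ hb e)) b1 hb' (fun e => b0' (an _ _ hb' e)) b1'
    (v := 0) (Or.inr ⟨rfl, an⟩)
  obtain ⟨c1, c2⟩ := h.refl_two hij hu hu' e e'
  have := hz.map (mul_mem (hZ i u hu) (hZ j u' hu'))
  have c3 := OG.map_Q (refl Q u * refl Q u') z
  rw [c1] at this c3
  have u0 : u ≠ 0 := by rintro rfl; simp at e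
  exact ⟨i, j, l, _, (D i).smul_mem _ hu, _, (D j).smul_mem _ hu', _, hij, hi, hj,
    smul_ne_zero (inv_ne_zero fun e => u0 (an _ _ hu e)) u0, this.ae (by simpa) (by simpa using c3.symm) (c2.trans q),
    (a3.congr fun y hy => by simp [h.o hi hy hu, h.o hj hy hu']).smul (inv_ne_zero this.1)⟩

theorem core {m : Fin t} (hs : ∀ j l, j ≠ m → l ≠ m → j ≠ l → ∃ s ∈ Z, (∀ x ∈ D j, s.1 x ∈ D l) ∧
    ∀ i ≠ j, i ≠ l → ∀ x ∈ D i, s.1 x = x) {z : V} (hz : Rn Z z) (hD : ∀ j, z ∉ D j) : Good D Z := by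
  rcases h.ty with ⟨an, -⟩ | ⟨hp, hb⟩
  swap
  · exact h.plus hZ hb hp hz hD
  obtain ⟨i, j, hij, im, a1, a2⟩ : ∃ i j, i ≠ j ∧ i ≠ m ∧ NP Q (D i) z ∧ NP Q (D j) z := by
    obtain ⟨j, jm, b1⟩ := h.exists_ne_perp (hD m)
    obtain ⟨i, hi, b2⟩ := h.exists_ne_perp (hD j)
    exact ⟨j, i, hi.symm, jm, b1, b2⟩
  by_cases H : ∃ l, l ≠ i ∧ l ≠ j ∧ NP Q (D l) z
  · obtain ⟨l, b1, b2, b3⟩ := H; exact h.three hZ an hij b1 b2 hz a1 a2 b3
  obtain ⟨x, hx, e⟩ := exists_prj h.hn (h.nd i) z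
  change ∀ y ∈ D i, polar Q y x = polar Q y z at e
  obtain ⟨y, hy, rfl⟩ : ∃ y ∈ D j, z = x + y := ⟨z - x, h.mem_of_perp fun l hl w hw => by
    by_cases li : l = i
    · subst li; rw [map_sub, sub_eq_zero]; exact (e w hw).symm
    · rw [map_sub, h.orth l i li w hw x hx, sub_zero]; by_contra hc; exact H ⟨l, li, hl, w, hw, hc⟩, by simp⟩
  have x0 : x ≠ 0 := by rintro rfl; exact hD j (by simpa)
  have y0 : Q y ≠ 0 := fun e => hD i (by simpa [an j y hy e])
  obtain ⟨l, l1, l2, l3, -⟩ := h.out i j m m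
  obtain ⟨s, sZ, s1, s2⟩ := hs i l im l3 l1.symm
  obtain ⟨u, hu, u0, u1, u2, u3⟩ := (h.pl j).good hy y0
  have e1 : s.1 ((refl Q u).1 (x + y)) = s.1 x + (y - (Q u)⁻¹ • u) := by
    rw [map_add, refl_of_perp (h.o hij.symm hu hx), refl_apply, u1, mul_one, map_add,
      s2 j hij.symm l2.symm _ (sub_mem hy ((D j).smul_mem _ hu))]
  have e2 : polar Q (x + y) (s.1 x + (y - (Q u)⁻¹ • u)) = 2 * Q y - (Q u)⁻¹ := by
    simp [h.o l1.symm hx (s1 x hx), h.o hij hx hy, h.o hij hx hu, h.o l2.symm hy (s1 x hx), polar_self',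
      polar_comm Q y u, u1]
  have := ((hz.map (hZ j u hu)).map sZ).map hz.2
  rw [e1, refl_apply, e2] at this
  have k0 : (Q (x + y))⁻¹ * (2 * Q y - (Q u)⁻¹) ≠ 0 :=
    mul_ne_zero (inv_ne_zero hz.1) fun e => u3 (by field_simp at e; linear_combination e)
  generalize (Q (x + y))⁻¹ * (2 * Q y - (Q u)⁻¹) = κ at this k0
  refine h.three hZ an hij l1 l2 this (NP.smul ((h.pl i).np hx x0) (neg_ne_zero.2 k0) |>.congr fun w hw => by
    simp [h.o l1.symm hw (s1 x hx), h.o hij hw hy, h.o hij hw hu])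
    (NP.congr ((h.pl j).np (x := (1 - κ) • y - (Q u)⁻¹ • u) (sub_mem ((D j).smul_mem _ hy) ((D j).smul_mem _ hu))
      fun e => u2 ?_) fun w hw => by simp [h.o l2.symm hw (s1 x hx), h.o hij.symm hw hx]; ring)
    (NP.congr ((h.pl l).np (s1 x hx) (by simpa)) fun w hw => by simp [h.o l1 hw hx, h.o l2 hw hy, h.o l2 hw hu])
  rw [← Submodule.smul_mem_iff _ (inv_ne_zero u0), ← sub_eq_zero.1 e]
  exact Submodule.smul_mem _ _ (Submodule.mem_span_singleton_self _)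

end PD

end Cfsg.Agent.Root.Mx
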