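import Cfsg.Agent.Root.Dec4
import Cfsg.Agent.Geom.Disc

/-! Maximality in `Ω` of the stabiliser of an orthogonal decomposition into at least five isometric planes
(`PD.isMaximalIn`; minus type with `q ≠ 3`, plus type with `q ≥ 7`); all block sizes: `isMaximalIn_odec_omega`. -/

set_option autoImplicit false

namespace Cfsg.Agent.Root.Mx

open Cfsg.Agent.Geom Cfsg.Agent.AutCl Module QuadraticMap

variable {F : Type*} [Field F] {V : Type*} [AddCommGroup V] [Module F V] {Q : QuadraticForm F V}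
  {t : ℕ} {D : Fin t → Submodule F V} {X : Subgroup (OG Q)} [FiniteDimensional F V] [Finite F]

/-- A proper overgroup of the stabiliser. -/
structure PX (D : Fin t → Submodule F V) (X : Subgroup (OG Q)) : Prop extends PD Q D where
  le : ∀ g : OG Q, g.1 ∈ dstab D → g.1 ∈ EG (Formed.ofQuad Q) → g ∈ X
  le' : ∀ g ∈ X, g.1 ∈ EG (Formed.ofQuad Q)
  small : ¬ EG (Formed.ofQuad Q) ≤ X.map (OG Q).subtype

/-- The group generated by `Ω` and one reflection. -/
def InN (a : V) (g : OG Q) : Prop := g.1 ∈ EG (Formed.ofQuad Q) ∨ (refl Q a * g).1 ∈ EG (Formed.ofQuad Q)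

theorem InN.mul (hn : (Formed.ofQuad Q).Nondeg) (h5 : 5 ≤ finrank F V) {a : V} (ha : Q a ≠ 0) {g g' : OG Q}
    (h : InN a g ↔ InN a g') : InN a (g * g') := by
  have hx : NotExc Q := notExc_of_finrank (by omega)
  simp only [InN, mem_EG_quad hn h5, mem_commutator_iff hn hx, dick_mul hn hx, spin_mul hn hx, dick_refl hn ha] at h ⊢
  generalize dick g = a at *; generalize dick g' = b at *; generalize spin g = c at *; generalize spin g' = d at *
  generalize spin (refl Q _) = e at *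
  revert a b c d e; decide

omit [Finite F] in
theorem PD.mem_of_refl (h : PD Q D) {z : V} (h0 : Q z ≠ 0) (hz : (refl Q z).1 ∈ dstab D) : ∃ i, z ∈ D i := by
  obtain ⟨i, x, hx, e⟩ : ∃ i, ∃ x ∈ D i, polar Q x z ≠ 0 := by
    by_contra! H; exact h0 (by simp [h.eq_zero' H])
  obtain ⟨j, hj⟩ := exists_of_dstab hz i
  obtain ⟨b, hb, b0, e1⟩ := (h.pl i).exists_perp z
  obtain rfl : i = j := by_contra fun e =>
    b0 (h.eq_zero e hb (by simpa [refl_of_perp ((polar_comm _ _ _).trans e1)] using hj b hb))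
  exact ⟨i, by simpa [refl_apply, Submodule.smul_mem_iff, h0, polar_comm Q z, e] using sub_mem hx (hj x hx)⟩

namespace PX
variable (h : PX D X)
include h

theorem rr {i j : Fin t} {u v : V} (hu : u ∈ D i) (hv : v ∈ D j) {s : F} (hs : s ≠ 0) (h0 : Q v ≠ 0)
    (e : Q u = s ^ 2 * Q v) : refl Q u * refl Q v ∈ X :=
  h.le _ (mul_mem (h.refl_mem hu) (h.refl_mem hv))
    ((mem_EG_quad h.hn h.h5).2 (refl_mul_refl_mem_commutator h.hn h0 hs e))

theorem exists_Q (i : Fin t) (c : F) : ∃ v ∈ D i, Q v = c := Geom.exists_Q_eq Q _ (h.nd i) (h.rk i).ge c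

theorem comp {i : Fin t} {u : V} (hu : u ∈ D i) (n : Fin t) : ∃ v ∈ D n, refl Q u * refl Q v ∈ X := by
  by_cases h0 : Q u = 0
  · exact ⟨0, zero_mem _, by simp [refl_of_sing, h0]⟩
  obtain ⟨v, hv, e⟩ := h.exists_Q n (Q u)
  exact ⟨v, hv, h.rr hu hv one_ne_zero (e ▸ h0) (by simp [e])⟩

theorem sw {j l : Fin t} (hjl : j ≠ l) : ∃ s : OG Q, s.1 ∈ dstab D ∧ s ∈ X ∧ (∀ x ∈ D j, s.1 x ∈ D l) ∧
    ∀ i ≠ j, i ≠ l → ∀ x ∈ D i, s.1 x = x := by
  obtain ⟨e, he⟩ := h.iso j l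
  obtain ⟨g, hg, h1, -, h3⟩ := h.exists_swap hjl he
  obtain ⟨s, hs, h4, h5⟩ := adj_quad h.hn h.h5 (h.nd l) (h.rk l).ge g hg.2
  have := mul_mem (h.mem_dstab_of_fix hs h4) hg.1
  refine ⟨⟨s * g, mul_mem hs hg.2⟩, this, h.le _ this h5, fun y hy => mem_of_fix_perp h.hn hs h4 (h1 ⟨y, hy⟩ ▸ (e _).2),
    fun i hj hl x hx => ?_⟩
  have := fun y hy => h.orth _ _ hl.symm y hy x hx
  rw [LinearEquiv.mul_apply, h3 x (fun y hy => h.orth _ _ hj.symm y hy x hx) this, h4 x this]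

theorem rot (i : Fin t) {c : F} (hc : c ≠ 0) :
    ∃ v ∈ D i, ∃ v' ∈ D i, Q v = c ∧ Q v' = c ∧ v ≠ 0 ∧ v' ∉ F ∙ v ∧ polar Q v v' ≠ 0 := by
  obtain ⟨v, hv, rfl⟩ := h.exists_Q i c
  obtain ⟨v', h1, h2, h3, h4⟩ := (h.pl i).pair hv hc
  exact ⟨v, hv, v', h1, rfl, h2, by rintro rfl; simp at hc, h3, h4⟩

theorem gp {i j l : Fin t} {p₁ p₂ a : V} (h1 : p₁ ∈ D i) (h2 : p₂ ∈ D j) (ha : Ae X (p₁ + p₂) a) (li : l ≠ i)
    (lj : l ≠ j) (hl : NP Q (D l) a) {m : Fin t} (mi : m ≠ i) (mj : m ≠ j) {x : V} (hx : x ∈ D m) :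
    Ae X (p₁ + p₂) x := by
  have o : ∀ n ≠ i, n ≠ j → ∀ u ∈ D n, polar Q u (p₁ + p₂) = 0 := fun n a b u hu => by simp [h.o a hu h1, h.o b hu h2]
  obtain ⟨n, n1, n2, n3, -⟩ := h.out i j l l
  have key : ∀ x ∈ D l, Ae X (p₁ + p₂) x := fun x hx => by
    obtain ⟨v, hv, v', hv', q, q', v0, e1, -⟩ := h.rot l one_ne_zero
    have := ha.sub (ha.map (h.rr hv hv' one_ne_zero (by simp [q']) (by simp [q, q'])) |> fun H => by
      rwa [OG.mul_apply, refl_of_perp (o l li lj _ hv'), refl_of_perp (o l li lj _ hv)] at H)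
    rw [OG.mul_apply, refl_apply, refl_apply, sub_sub, sub_sub_cancel] at this
    refine (h.pl l).ai (aeS X ha.1) (fun u hu a h3 ha => ?_) (add_mem ((D l).smul_mem _ hv') ((D l).smul_mem _ hv))
      (fun e => ?_) this hx
    · obtain ⟨w, hw, e⟩ := h.comp hu n
      have := Ae.map ha e
      rwa [OG.mul_apply, OG.mul_apply, refl_of_perp (o n n1 n2 w hw), refl_of_perp (o l li lj u hu),
        refl_of_perp (h.o n3 hw h3)] at this
    · have e2 : polar Q v' a = 0 := by_contra fun e2 => e1 (by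
        rw [← Submodule.smul_mem_iff _ (mul_ne_zero (inv_ne_zero (q' ▸ one_ne_zero)) e2), eq_neg_of_add_eq_zero_left e]
        exact neg_mem (Submodule.smul_mem _ _ (Submodule.mem_span_singleton_self _)))
      obtain ⟨y, hy, e3⟩ := hl
      exact e3 ((h.pl l).perp hv v0 hv' e1 (by simpa [e2, q, v0] using e) e2 hy)
  by_cases ml : m = l
  · exact key x (ml ▸ hx)
  obtain ⟨s, -, sX, s1, s2⟩ := h.sw ml
  have := (key _ (s1 x hx)).map (inv_mem sX)
  have e : s.1 (p₁ + p₂) = p₁ + p₂ := by rw [map_add, s2 i mi.symm li.symm _ h1, s2 j mj.symm lj.symm _ h2]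
  rwa [OG.inv_apply_apply, ← e, OG.inv_apply_apply] at this

theorem win : ¬ Good D X := by
  rintro ⟨i, j, l, p₁, h1, p₂, h2, a, hij, li, lj, p0, ha, hl⟩
  have A := @gp _ _ _ _ _ _ _ _ _ _ _ h _ _ _ _ _ _ h1 h2 ha li lj hl
  obtain ⟨k, k1, k2, k3, -⟩ := h.out i j l l
  obtain ⟨n, n1, n2, n3, n4⟩ := h.out i j l k
  obtain ⟨s, -, sX, s1, s2⟩ := h.sw k1.symm
  obtain ⟨s', -, sX', s1', s2'⟩ := h.sw n2.symm
  obtain ⟨b, hb, b0⟩ := h.exists_ne l
  have a1 := ((A li lj hb).map sX).map sX'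
  rw [map_add s.1, s2 j hij.symm k2.symm _ h2, s2 l li k3.symm _ hb, map_add s'.1, s2' k k2 n4.symm _ (s1 _ h1),
    s2' l lj n3.symm _ hb] at a1
  have A' := @gp _ _ _ _ _ _ _ _ _ _ _ h _ _ _ _ _ _ (s1 _ h1) (s1' _ h2) a1 k3.symm n3.symm ((h.pl l).np hb b0)
  obtain ⟨-, -, -, -, c, hc, e⟩ := (h.pl k).frame ((h.pl k).np (s1 _ h1) (by simpa))
  have full : ∀ v, polar Q (p₁ + p₂) v = 0 → Ae X (p₁ + p₂) v := fun v hv => by
    obtain ⟨π, m, -, rfl⟩ := h.exists_sum v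
    have r : Ae X (p₁ + p₂) (∑ m ∈ Finset.univ \ {i, j}, π m) :=
      sum_mem (S := aeS X ha.1) fun x hx => A (by simp_all) (by simp_all) (m x)
    rw [← Finset.sum_sdiff (Finset.subset_univ {i, j}), Finset.sum_pair hij] at hv ⊢
    rw [polar_add_right, r.2.1, zero_add] at hv
    have b1 := (A' k1.symm n1.symm (m i)).add (A' k2.symm n2.symm (m j))
    have b2 := (A k1 k2 hc).map b1.2.2
    rw [eich_apply b1.1 b1.2.1, eich_apply b1.1 b1.2.1 c, polar_comm, hv, show polar Q (s.1 p₁ + s'.1 p₂) (p₁ + p₂) = 0 by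
      simp [h.o k1 (s1 _ h1) h1, h.o k2 (s1 _ h1) h2, h.o n1 (s1' _ h2) h1, h.o n2 (s1' _ h2) h2],
      show polar Q (s.1 p₁ + s'.1 p₂) c = 1 by simp [polar_comm Q _ c, e, h.o n4.symm hc (s1' _ h2)]] at b2
    simp only [mul_zero, sub_zero, zero_smul, add_zero, one_smul] at b2
    generalize polar Q (π i + π j) c - _ = κ at b2
    convert r.add (((A k1 k2 hc).add ((A k1 k2 ((D k).smul_mem κ (s1 _ h1))).add
      (A n1 n2 ((D n).smul_mem κ (s1' _ h2))))).sub b2) using 2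
    module
  obtain ⟨u, hu, u0, u1⟩ := (h.pl i).ns ((h.pl i).np h1 p0)
  obtain ⟨w, hw, e⟩ := h.comp hu l
  refine h.small (EG_le_of_full' h.hn (p := p₁ + p₂) ⟨Formed.sing_ofQuad.2 ha.1, fun v d g hg =>
    ⟨_, (full v hg.pa).2.2, (IsE_eq_eich hg).symm⟩⟩ ⟨_, e, rfl⟩ (refl Q u * refl Q w).2 ?_)
  change polar Q _ ((refl Q u * refl Q w).1 _) ≠ 0
  rw [OG.mul_apply, refl_of_perp (x := p₁ + p₂) (by simp [h.o li hw h1, h.o lj hw h2]), refl_apply, polar_sub_right,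
    polar_self', ha.1, polar_smul_right, polar_comm Q (p₁ + p₂) u]
  simp [h.o hij hu h2, u0, u1]

theorem dstab_of {c : OG Q} {ν : F} (h0 : ν ≠ 0) (H : ∀ i, ∀ y ∈ D i, Q y = ν → ∃ j, c.1 y ∈ D j) : c.1 ∈ dstab D :=
  h.mem_dstab fun i => by
    obtain ⟨v, hv, v', hv', q, q', v0, e1, e2⟩ := h.rot i h0
    obtain ⟨j, hj⟩ := H i v hv q
    obtain ⟨l, hl⟩ := H i v' hv' q'
    obtain rfl : j = l := by_contra fun e => e2 ((OG.map_polar c _ _).symm.trans (h.o e hj hl))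
    refine ⟨j, fun x hx => ?_⟩
    obtain ⟨a, b, rfl⟩ := (h.pl i).span hv v0 hv' e1 hx
    simpa using add_mem ((D j).smul_mem a hj) ((D j).smul_mem b hl)

/-- An element stabilising a block permutes the blocks. -/
theorem kb {c : OG Q} (hc : c ∈ X) {m : Fin t} (hm : ∀ x ∈ D m, c.1 x ∈ D m) : c.1 ∈ dstab D := by
  let Z : Subgroup (OG Q) :=
    { carrier := {g | g.1 ∈ stab (D m) ∧ ∃ k : OG Q, k.1 ∈ fix ((Formed.ofQuad Q).perp (D m)) ∧ g * k ∈ X}
      one_mem' := ⟨one_mem _, 1, one_mem _, by simp⟩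
      mul_mem' := fun {g g'} ⟨a1, k, a2, a3⟩ ⟨b1, k', b2, b3⟩ => ⟨mul_mem a1 b1, g'⁻¹ * k * g' * k',
        mul_mem (fun v hv => by
          change (g'⁻¹).1 (k.1 (g'.1 v)) = v
          rw [a2 _ ((Formed.perp_mem_stab g'.2 b1 v).1 hv), OG.inv_apply_apply]) b2,
        by simpa [mul_assoc] using mul_mem a3 b3⟩
      inv_mem' := fun {g} ⟨a1, k, a2, a3⟩ => ⟨inv_mem a1, g * k⁻¹ * g⁻¹, fun v hv => by
          change g.1 ((k⁻¹).1 ((g⁻¹).1 v)) = v
          rw [show (k⁻¹).1 _ = _ from inv_mem a2 _ ((Formed.perp_mem_stab (g⁻¹).2 (inv_mem a1) v).1 hv),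
            OG.apply_inv_apply],
        by simpa [mul_assoc] using inv_mem a3⟩ }
  have hZ : ∀ i, ∀ u ∈ D i, refl Q u ∈ Z := fun i u hu =>
    let ⟨v, hv, e⟩ := h.comp hu m
    ⟨mem_stab_of_le fun x hx => by
      by_cases e : i = m
      · rw [refl_apply]; exact sub_mem hx ((D m).smul_mem _ (e ▸ hu))
      · rwa [refl_of_perp (h.o e hu hx)], _, refl_mem_fix (Formed.le_perp_perp _ _ hv), e⟩
  have cZ : c ∈ Z := ⟨mem_stab_of_le hm, 1, one_mem _, by simpa⟩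
  refine h.dstab_of one_ne_zero fun i y hy e => by_contra fun H => h.win ?_
  obtain ⟨i, j, l, p₁, h1, p₂, h2, a, b1, b2, b3, b4, ⟨c1, c2, -, k, c3, c4⟩, b5⟩ := h.core hZ (m := m) (fun j l a b e =>
    let ⟨s, _, s1, s2, s3⟩ := h.sw e
    ⟨s, ⟨mem_stab_of_le fun x hx => by rwa [s3 m a.symm b.symm x hx], 1, one_mem _, by simpa⟩, s2, s3⟩)
    (Rn.map ⟨by simp [e], hZ i y hy⟩ cZ) (not_exists.1 H)
  refine ⟨i, j, l, p₁, h1, p₂, h2, a, b1, b2, b3, b4, ⟨c1, c2, ?_⟩, b5⟩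
  simpa using mul_mem c4 (inv_mem (h.le k (h.mem_dstab_of_fix k.2 c3)
    (by simpa using mul_mem (inv_mem (IsE_mem_EG (isE_eich c1 c2))) (h.le' _ c4))))

theorem exists_Y {j : Fin t} {a : V} (ha : a ∈ D j) : ∃ Y : Subgroup (OG Q), (∀ g, g.1 ∈ dstab D → InN a g → g ∈ Y) ∧
    (∀ g, refl Q a * g ∈ X → g * refl Q a ∈ X → g ∈ Y) ∧ ∀ g ∈ Y, g ∈ X ∨ refl Q a * g ∈ X := by
  have rD := h.refl_mem ha
  have nm : ∀ g : OG Q, g.1 ∈ EG (Formed.ofQuad Q) → (refl Q a * g * refl Q a).1 ∈ EG (Formed.ofQuad Q) := fun g hg => by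
    simpa using (mem_EG_quad h.hn h.h5).2 (Subgroup.Normal.conj_mem inferInstance _ ((mem_EG_quad h.hn h.h5).1 hg) (refl Q a))
  have rc := refl_mul_cancel Q a
  have rr := refl_mul_self Q a
  have ri := refl_inv Q a
  unfold InN
  generalize refl Q a = r at *
  refine ⟨{ carrier := {g | (g ∈ X ∧ r * g * r ∈ X) ∨ (r * g ∈ X ∧ g * r ∈ X)}
            one_mem' := Or.inl ⟨one_mem _, by simp [rr]⟩
            mul_mem' := ?_
            inv_mem' := ?_ }, fun g hg => ?_, fun g a b => Or.inr ⟨a, b⟩, fun g hg => hg.imp And.left And.left⟩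
  · rintro g g' (⟨a1, a2⟩ | ⟨a1, a2⟩) (⟨b1, b2⟩ | ⟨b1, b2⟩)
    · exact Or.inl ⟨mul_mem a1 b1, by simpa [mul_assoc, rc] using mul_mem a2 b2⟩
    · exact Or.inr ⟨by simpa [mul_assoc, rc] using mul_mem a2 b1, by simpa [mul_assoc] using mul_mem a1 b2⟩
    · exact Or.inr ⟨by simpa [mul_assoc] using mul_mem a1 b1, by simpa [mul_assoc, rc] using mul_mem a2 b2⟩
    · exact Or.inl ⟨by simpa [mul_assoc, rc] using mul_mem a2 b1, by simpa [mul_assoc] using mul_mem a1 b2⟩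
  · rintro g (⟨a1, a2⟩ | ⟨a1, a2⟩)
    · exact Or.inl ⟨inv_mem a1, by simpa [ri, mul_assoc] using inv_mem a2⟩
    · exact Or.inr ⟨by simpa [ri] using inv_mem a2, by simpa [ri] using inv_mem a1⟩
  · rintro (H | H)
    · exact Or.inl ⟨h.le _ hg H, h.le _ (mul_mem (mul_mem rD hg) rD) (nm _ H)⟩
    · exact Or.inr ⟨h.le _ (mul_mem rD hg) H, h.le _ (mul_mem hg rD) (by have := nm _ H; rwa [rc] at this)⟩

theorem noroot {j : Fin t} {a : V} (ha : a ∈ D j) (a0 : Q a ≠ 0) {Y : Subgroup (OG Q)}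
    (Y1 : ∀ g, g.1 ∈ dstab D → InN a g → g ∈ Y) (Y3 : ∀ g ∈ Y, g ∈ X ∨ refl Q a * g ∈ X) {z : V} (hz : Rn Y z)
    (q : Q z = Q a) : ∃ m, z ∈ D m := by
  by_contra! hD
  have hx : NotExc Q := notExc_of_finrank (by have := h.h5; omega)
  have Y4 : ∀ g ∈ Y, g.1 ∈ EG (Formed.ofQuad Q) → g ∈ X := fun g hg H => (Y3 g hg).resolve_right fun e => by
    have : (refl Q a).1 ∈ EG (Formed.ofQuad Q) := by simpa using mul_mem (h.le' _ e) (inv_mem H)
    simpa [dick_refl h.hn a0] using ((mem_commutator_iff h.hn hx _).1 ((mem_EG_quad h.hn h.h5).1 this)).1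
  have W : ¬ Good D Y := fun ⟨i, j, l, p₁, h1, p₂, h2, a, b1, b2, b3, b4, ⟨c1, c2, c3⟩, b5⟩ =>
    h.win ⟨i, j, l, p₁, h1, p₂, h2, a, b1, b2, b3, b4, ⟨c1, c2, Y4 _ c3 (IsE_mem_EG (isE_eich c1 c2))⟩, b5⟩
  have E : ∀ {u v : V} {s : F}, s ≠ 0 → Q v ≠ 0 → Q u = s ^ 2 * Q v → (refl Q u * refl Q v).1 ∈ EG (Formed.ofQuad Q) :=
    fun hs h0 e => (mem_EG_quad h.hn h.h5).2 (refl_mul_refl_mem_commutator h.hn h0 hs e)
  by_cases h2 : (2 : F) = 0
  · refine W (h.core (m := j) (fun i u hu => Y1 _ (h.refl_mem hu) ?_) (fun j l _ _ e =>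
      let ⟨s, s0, s1, s2⟩ := h.sw e; ⟨s, Y1 s s0 (Or.inl (h.le' s s1)), s2⟩) hz hD)
    by_cases u0 : Q u = 0
    · exact Or.inl (by simp [refl_of_sing u0])
    obtain ⟨s, s0, e⟩ := exists_Q_smul h2 u0 a0
    exact Or.inr (E s0 u0 (by rw [← e, quad_smul]))
  have zero : ∀ z, Rn Y z → Q z = Q a → (∀ m, z ∉ D m) → ∀ m, NP Q (D m) z := fun z hz q hD m => by
    by_contra hc
    obtain ⟨y, hy, e⟩ := h.exists_Q m (Q a)
    have y0 : Q y ≠ 0 := e ▸ a0
    have := h.kb (m := m) (Y4 _ (mul_mem hz.2 (Y1 _ (h.refl_mem hy) (Or.inr (E one_ne_zero y0 (by simp [e])))))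
      (E one_ne_zero y0 (by simp [e, q]))) fun x hx => by
        have : (refl Q y).1 x ∈ D m := by rw [refl_apply]; exact sub_mem hx ((D m).smul_mem _ hy)
        rwa [OG.mul_apply, refl_of_perp ((polar_comm _ _ _).trans (by_contra fun e => hc ⟨_, this, e⟩))]
    obtain ⟨i, hi⟩ := h.mem_of_refl hz.1 (by
      have := mul_mem this (h.refl_mem hy); rwa [← Subgroup.coe_mul, mul_assoc, refl_mul_self, mul_one] at this)
    exact hD i hi
  have np := zero z hz q hD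
  choose b b1 b2 b3 using fun i => (h.pl i).exists_perp z
  have b4 : ∀ i, Q (b i) ≠ 0 := fun i e => by
    rcases h.ty with ⟨an, -⟩ | ⟨-, hb⟩
    · exact b2 i (an i _ (b1 i) e)
    obtain ⟨r, hr, hp⟩ := exists_pair_mem h.hn (h.nd i) (b1 i) (b2 i) (Formed.sing_ofQuad.2 e)
    obtain ⟨-, r0, p⟩ := isPair_quad.1 hp
    obtain ⟨y, hy, e1⟩ := np i
    rw [(h.pl i).dec (b1 i) hr e r0 p hy] at e1
    exact W (h.sing (fun i u hu v hv s a b c => Y1 _ (mul_mem (h.refl_mem hu) (h.refl_mem hv)) (Or.inl (E a b c))) hb hr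
      (b1 i) r0 e (by rwa [polar_comm]) hz (hD i) (b3 i) fun e => by simp [e, b3] at e1)
  choose! u u1 v v1 u2 v2 uv using fun i j => h.pigeon (np i) (np j) (b1 i) (b4 i) (b3 i) (b1 j) (b4 j) (b3 j)
    (v := Q z / 2) (Or.inl h2)
  have key : ∀ i j k l m : Fin t, [i, j, k, l, m].Nodup → ¬ (InN a (refl Q (u i j) * refl Q (v i j)) ↔
      InN a (refl Q (u k l) * refl Q (v k l))) := fun i j k l m hn H => by
    simp only [List.nodup_cons, List.mem_cons, List.not_mem_nil, or_false, not_or] at hn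
    obtain ⟨⟨ij, ik, il, im⟩, ⟨jk, jl, jm⟩, ⟨kl, km⟩, lm, -⟩ := hn
    obtain ⟨c1, c2⟩ := h.refl_two ij (u1 i j) (v1 i j) (u2 i j) (v2 i j)
    obtain ⟨c3, c4⟩ := h.refl_two kl (u1 k l) (v1 k l) (u2 k l) (v2 k l)
    have gY := Y1 _ (mul_mem (mul_mem (h.refl_mem (u1 i j)) (h.refl_mem (v1 i j)))
      (mul_mem (h.refl_mem (u1 k l)) (h.refl_mem (v1 k l)))) (InN.mul h.hn h.h5 a0 H)
    have o : ∀ i j n, n ≠ i → n ≠ j → ∀ x ∈ D n, polar Q x ((Q (u i j))⁻¹ • u i j + (Q (v i j))⁻¹ • v i j) = 0 :=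
      fun i j n a b x hx => by simp [h.o a hx (u1 i j), h.o b hx (v1 i j)]
    have o1 := o i j
    have o2 := o k l
    have o3 : polar Q ((Q (u i j))⁻¹ • u i j + (Q (v i j))⁻¹ • v i j) ((Q (u k l))⁻¹ • u k l + (Q (v k l))⁻¹ • v k l) = 0 := by
      rw [polar_add_left, polar_smul_left, polar_smul_left, o2 i ik il _ (u1 i j), o2 j jk jl _ (v1 i j)]; simp
    have o4 : ∀ i j n, n ≠ i → n ≠ j → ∀ x ∈ D n, polar Q ((Q (u i j))⁻¹ • u i j + (Q (v i j))⁻¹ • v i j) x = 0 :=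
      fun i j n a b x hx => (polar_comm _ _ _).trans (o i j n a b x hx)
    have r1 := hz.map gY
    have q1 := OG.map_Q (refl Q (u i j) * refl Q (v i j) * (refl Q (u k l) * refl Q (v k l))) z
    rw [OG.mul_apply, c3, map_sub, c1, OG.mul_apply, refl_of_perp (o2 j jk jl _ (v1 i j)),
      refl_of_perp (o2 i ik il _ (u1 i j)), sub_sub] at r1 q1
    have o5 := o4 i j
    have o6 := o4 k l
    rw [uv] at c2 c4
    generalize (Q (u i j))⁻¹ • u i j + (Q (v i j))⁻¹ • v i j = δ at *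
    generalize (Q (u k l))⁻¹ • u k l + (Q (v k l))⁻¹ • v k l = δ' at *
    have q2 : Q (δ + δ') = Q z := by rw [quad_add, c2, c4, o3]; field_simp; ring
    have z0 := hz.1
    have r2 := r1.map hz.2
    rw [refl_apply, polar_sub_right, polar_self', show polar Q z (δ + δ') = Q z by
      rw [quad_sub, q2] at q1; linear_combination -q1, show (Q z)⁻¹ * (2 * Q z - Q z) = 1 by field_simp; ring,
      one_smul, sub_sub_cancel_left] at r2
    obtain ⟨y, hy, e⟩ := zero _ r2 (by rw [QuadraticMap.map_neg, q2, q]) (fun n hn => by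
      rw [neg_mem_iff] at hn
      by_cases H' : n ≠ i ∧ n ≠ j
      · have := o5 n H'.1 H'.2 _ hn
        rw [polar_add_right, o3, polar_self', c2] at this
        exact z0 (by field_simp at this; simpa using this)
      · have := o6 n (fun e => H' ⟨e ▸ Ne.symm ik, e ▸ Ne.symm jk⟩) (fun e => H' ⟨e ▸ Ne.symm il, e ▸ Ne.symm jl⟩) _ hn
        rw [polar_add_right, polar_comm, o3, polar_self', c4] at this
        exact z0 (by field_simp at this; simpa using this)) m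
    simp [o1 m (Ne.symm im) (Ne.symm jm) y hy, o2 m (Ne.symm km) (Ne.symm lm) y hy] at e
  obtain ⟨k, k1, -⟩ := h.out j j j j
  obtain ⟨l, l1, l2, -⟩ := h.out j k k k
  obtain ⟨m, m1, m2, m3, -⟩ := h.out j k l l
  obtain ⟨n, n1, n2, n3, n4⟩ := h.out j k l m
  have := k1.symm; have := l1.symm; have := l2.symm; have := m1.symm; have := m2.symm; have := m3.symm
  have := n1.symm; have := n2.symm; have := n3.symm; have := n4.symm
  have := key j k l m n (by simp [*]); have := key l m n j k (by simp [*]); have := key n j k l m (by simp [*])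
  have := key k l m n j (by simp [*]); have := key m n j k l (by simp [*])
  tauto

theorem k2 {c : OG Q} (hc : c ∈ X) {i j : Fin t} {a : V} (ha : a ∈ D i) (a0 : Q a ≠ 0) (hj : c.1 a ∈ D j) :
    c.1 ∈ dstab D := by
  obtain ⟨Y, Y1, Y2, Y3⟩ := h.exists_Y hj
  refine h.dstab_of a0 fun l y hy e => ?_
  have : refl Q (c.1 a) * refl Q (c.1 y) ∈ X := by
    simpa [← conj_refl, mul_assoc] using
      mul_mem (mul_mem hc (h.rr ha hy one_ne_zero (e ▸ a0) (by simp [e]))) (inv_mem hc)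
  exact h.noroot hj (by rwa [OG.map_Q]) Y1 Y3 ⟨by rwa [OG.map_Q, e], Y2 _ this (by simpa using inv_mem this)⟩
    (by simp [OG.map_Q, e])

theorem tor {j : Fin t} {e f : V} (he : e ∈ D j) (hf : f ∈ D j) (e0 : Q e = 0) (f0 : Q f = 0) (ef : polar Q e f = 1)
    {s : F} (hs : s ≠ 0) : ∃ ρ ∈ X, ∀ x, ρ.1 x =
      x + (((s ^ 2)⁻¹ - 1) * polar Q f x) • e + ((s ^ 2 - 1) * polar Q e x) • f := by
  have q : ∀ θ : F, Q (e - θ • f) = -θ := fun θ => by simp [quad_sub, quad_smul, e0, f0, ef]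
  refine ⟨_, h.rr (sub_mem he ((D j).smul_mem (s ^ 2) hf)) (sub_mem he ((D j).smul_mem 1 hf)) hs
    (by rw [q]; simp) (by simp only [q]; ring), fun x => ?_⟩
  rw [OG.mul_apply, Pl.refl_ef e0 f0 ef one_ne_zero, Pl.refl_ef e0 f0 ef (pow_ne_zero 2 hs)]
  simp only [polar_add_right, polar_smul_right, polar_self', e0, f0, ef, polar_comm Q f e, smul_eq_mul]
  module

/-- An element mapping a non-zero vector of a block into a block permutes the blocks. -/
theorem k {c : OG Q} (hc : c ∈ X) {i j : Fin t} {e : V} (he : e ∈ D i) (h0 : e ≠ 0) (hj : c.1 e ∈ D j) :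
    c.1 ∈ dstab D := by
  by_cases e0 : Q e = 0
  swap
  · exact h.k2 hc he e0 hj
  rcases h.ty with ⟨an, -⟩ | ⟨-, hb⟩
  · exact absurd (an i e he e0) h0
  have e0' : Q (c.1 e) = 0 := by rwa [OG.map_Q]
  obtain ⟨f, hf, hp⟩ := exists_pair_mem h.hn (h.nd i) he h0 (Formed.sing_ofQuad.2 e0)
  obtain ⟨f', hf', hp'⟩ := exists_pair_mem h.hn (h.nd j) hj (by simpa) (Formed.sing_ofQuad.2 e0')
  obtain ⟨-, f0, ef⟩ := isPair_quad.1 hp
  obtain ⟨-, f0', ef'⟩ := isPair_quad.1 hp'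
  obtain ⟨s, hs⟩ := hb [0, 1, -1] (by simp)
  simp only [List.mem_cons, List.not_mem_nil, or_false, not_or] at hs
  have s0 := hs.1
  obtain ⟨ρ, ρX, hρ⟩ := h.tor he hf e0 f0 ef s0
  obtain ⟨τ, τX, hτ⟩ := h.tor hj hf' e0' f0' ef' (inv_ne_zero s0)
  obtain ⟨a, ha, d, hE⟩ := exists_isE_of_trivial h.hn hp (c⁻¹ * τ * c * ρ).2 (by
    simp only [OG.mul_apply, hρ, polar_self', e0, polar_comm Q f e, ef, mul_zero, zero_smul, add_zero, map_add, map_smul,
      hτ, e0', polar_comm Q f', ef', OG.inv_apply_apply]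
    match_scalars; field_simp; ring) fun w hw => ⟨((s⁻¹ ^ 2)⁻¹ - 1) * polar Q f' (c.1 w), by
      obtain ⟨w1, w2⟩ := mem_pairPerp_quad.1 hw
      rw [OG.mul_apply, OG.mul_apply, OG.mul_apply, hρ, w1, w2, mul_zero, mul_zero, zero_smul, zero_smul, add_zero,
        add_zero, hτ, OG.map_polar, w1, mul_zero, zero_smul, add_zero, map_add, map_smul, OG.inv_apply_apply,
        OG.inv_apply_apply]⟩
  have dX := mul_mem (mul_mem (mul_mem (inv_mem hc) τX) hc) ρX
  have dE : c⁻¹ * τ * c * ρ = eich Q e a := Subtype.ext (IsE_eq_eich hE)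
  obtain ⟨a1, a2⟩ := mem_pairPerp_quad.1 ha
  by_cases H : a ∈ D i
  swap
  · exact absurd (h.good1 he h0 ⟨e0, a1, dE ▸ dX⟩ H) h.win
  obtain rfl : a = 0 := by simpa [a1, a2] using (h.pl i).dec he hf e0 f0 ef H
  have e1 : c.1 (e + f) = τ.1 (c.1 (ρ.1 (e + f))) := by
    have := congrArg (fun g : OG Q => (c * g).1 (e + f)) dE
    simpa [mul_assoc, OG.mul_apply] using this.symm
  have s1 : s ^ 2 - 1 ≠ 0 := by simp [sub_eq_zero, hs]
  refine h.k2 hc (i := i) (j := j) (a := ρ.1 (e + f) - (e + f)) ?_ ?_ ?_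
  · rw [hρ, add_assoc, add_sub_cancel_left]; exact add_mem ((D i).smul_mem _ he) ((D i).smul_mem _ hf)
  · rw [hρ, add_assoc, add_sub_cancel_left]
    simp [quad_add, quad_smul, e0, f0, ef, polar_comm Q f e, hs, sub_eq_zero]
  · rw [map_sub, e1, hτ, add_assoc, sub_add_cancel_left]
    exact neg_mem (add_mem ((D j).smul_mem _ hj) ((D j).smul_mem _ hf'))

theorem zrot {u v : V} (u0 : Q u ≠ 0) (q : Q v = Q u) (e1 : v ∉ F ∙ u) (e2 : polar Q u v ≠ 0)
    (H : (refl Q u * refl Q v).1 ∈ dstab D) : ∃ i, ∃ a b : F, a • u + b • v ∈ D i ∧ a • u + b • v ≠ 0 := by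
  by_contra! hc
  have ap : ∀ u v x, (refl Q u * refl Q v).1 x = x + (-((Q u)⁻¹ * (polar Q u x - (Q v)⁻¹ * polar Q v x * polar Q u v))) • u +
      (-((Q v)⁻¹ * polar Q v x)) • v := fun u v x => by
    simp only [OG.mul_apply, refl_apply, polar_sub_right, polar_smul_right, smul_eq_mul]; module
  have v0 : Q v ≠ 0 := q ▸ u0
  have li : ∀ a b : F, a • u + b • v = 0 → a = 0 ∧ b = 0 := fun a b e => by
    have hb : b = 0 := by_contra fun hb => e1 (by
      rw [← Submodule.smul_mem_iff _ hb, eq_neg_of_add_eq_zero_right e]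
      exact neg_mem (Submodule.smul_mem _ _ (Submodule.mem_span_singleton_self _)))
    exact ⟨by simpa [hb, show u ≠ 0 by rintro rfl; simp at u0] using e, hb⟩
  obtain ⟨i, x, hx, e⟩ : ∃ i, ∃ x ∈ D i, polar Q x v ≠ 0 := by
    by_contra! H; exact v0 (by simp [h.eq_zero' H])
  obtain ⟨j, hj⟩ := exists_of_dstab H i
  obtain ⟨l, hl⟩ := exists_of_dstab (inv_mem H) i
  have hl' : ∀ x ∈ D i, (refl Q v * refl Q u).1 x ∈ D l := fun x hx => by
    have := hl x hx; rwa [← Subgroup.coe_inv, mul_inv_rev, refl_inv, refl_inv] at this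
  have ij : i ≠ j := by
    rintro rfl
    have := sub_mem (hj x hx) hx
    rw [ap, add_assoc, add_sub_cancel_left] at this
    simpa [v0, polar_comm Q v, e] using (li _ _ (hc i _ _ this)).2
  have il : i ≠ l := by
    rintro rfl
    obtain ⟨y, hy, y0⟩ := h.exists_ne i
    have := sub_mem (hl' y hy) hy
    rw [ap, add_assoc, add_sub_cancel_left, add_comm] at this
    have e3 := hc i _ _ this
    have e4 : (refl Q v * refl Q u).1 y = y := by rw [ap, add_assoc, add_comm (_ • v), e3, add_zero]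
    have := hj y hy
    rw [← e4, ← OG.mul_apply] at this
    exact y0 (h.eq_zero ij hy (by simpa [mul_assoc, refl_mul_cancel] using this))
  obtain ⟨y, hy, y0, y1⟩ := (h.pl i).exists_perp v
  obtain ⟨z, hz, z0, z1⟩ := (h.pl i).exists_perp u
  obtain ⟨w, hw, w1⟩ := (h.pl i).np hy y0
  have a1 := h.o ij hw (hj y hy)
  have a2 := h.o ij hw (hj z hz)
  have a3 := h.o il hw (hl' z hz)
  have a4 : polar Q v z ≠ 0 := fun e => z0 (h.eq_zero ij hz (by
    have := hj z hz; rw [ap] at this; simpa [e, polar_comm Q u, z1] using this))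
  rw [ap] at a1 a2 a3
  simp only [polar_add_right, polar_smul_right, polar_comm Q u z, polar_comm Q v y, y1, z1, smul_eq_mul] at a1 a2 a3
  have : (Q u)⁻¹ * ((Q v)⁻¹ * polar Q v z * polar Q u v) * polar Q w u = 0 := by linear_combination a2 - a3
  exact w1 (by simpa [show polar Q w u = 0 by simpa [u0, v0, a4, e2] using this] using a1)

theorem mem {g : OG Q} (hg : g ∈ X) : g.1 ∈ dstab D := by
  by_contra hc
  have s1 : ∀ g ∈ X, g.1 ∉ dstab D → ∀ j m, ∀ x ∈ D m, x ≠ 0 → ∃ y ∈ D j, polar Q x (g.1 y) ≠ 0 :=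
    fun g hg hc j m x hx x0 => by
      by_contra! H
      obtain ⟨v, hv, v', hv', q, q', -, e1, e2⟩ := h.rot j one_ne_zero
      have : refl Q (g.1 v) * refl Q (g.1 v') ∈ X := by
        simpa [← conj_refl, mul_assoc] using
          mul_mem (mul_mem hg (h.rr hv hv' one_ne_zero (by simp [q']) (by simp [q, q']))) (inv_mem hg)
      obtain ⟨i, a, b, a1, a2⟩ := h.zrot (by simp [OG.map_Q, q]) (by simp [OG.map_Q, q, q']) (fun e => e1 (by
        obtain ⟨s, e⟩ := Submodule.mem_span_singleton.1 e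
        exact Submodule.mem_span_singleton.2 ⟨s, g.1.injective (by simpa using e)⟩)) (by rwa [OG.map_polar])
        (h.k this hx x0 (j := m) (by
          rwa [OG.mul_apply, refl_of_perp ((polar_comm _ _ _).trans (H _ hv')), refl_of_perp ((polar_comm _ _ _).trans (H _ hv))]))
      exact hc (h.k hg (add_mem ((D j).smul_mem a hv) ((D j).smul_mem b hv')) (fun e => a2 (by
        rw [← map_smul, ← map_smul, ← map_add, e, map_zero])) (j := i) (by simpa using a1))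
  have s2 : ∀ j m, ∀ x ∈ D j, x ≠ 0 → NP Q (D m) (g.1 x) := fun j m x hx x0 => by
    obtain ⟨y, hy, e⟩ := s1 g⁻¹ (inv_mem hg) (fun e => hc (by simpa using inv_mem e)) m j x hx x0
    exact ⟨y, hy, by rwa [OG.polar_inv_right, polar_comm] at e⟩
  obtain ⟨i⟩ : Nonempty (Fin t) := ⟨⟨0, by have := h.five; omega⟩⟩
  obtain ⟨j, j1, -⟩ := h.out i i i i
  obtain ⟨l, l1, l2, -⟩ := h.out i j j j
  obtain ⟨x, hx, x0, H⟩ : ∃ x ∈ D i, x ≠ 0 ∧ ∀ m ∈ [i, j, l], ∃ y ∈ D m, Q y ≠ 0 ∧ polar Q y (g.1 x) = 0 := by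
    rcases h.ty with ⟨an, -⟩ | ⟨-, hb⟩
    · obtain ⟨x, hx, x0⟩ := h.exists_ne i
      exact ⟨x, hx, x0, fun m _ => let ⟨b, b1, b2, b3⟩ := (h.pl m).exists_perp (g.1 x)
        ⟨b, b1, fun e => b2 (an m b b1 e), b3⟩⟩
    obtain ⟨v, hv, v', hv', -, -, v0, e1, -⟩ := h.rot i one_ne_zero
    have n0 : ∀ s : F, s • v + v' ≠ 0 := fun s e => e1 (by
      rw [eq_neg_of_add_eq_zero_right e]; exact neg_mem (Submodule.smul_mem _ _ (Submodule.mem_span_singleton_self _)))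
    have : ∀ m, ∃ r₁ r₂ : F, ∀ s : F, s ≠ r₁ → s ≠ r₂ → ∃ y ∈ D m, Q y ≠ 0 ∧ polar Q y (g.1 (s • v + v')) = 0 := fun m => by
      obtain ⟨b, hb, b0, b1, c, hc, c1⟩ := (h.pl m).frame (s2 i m v hv v0)
      obtain ⟨b', hb', b0', b1', -⟩ := (h.pl m).frame (s2 i m v' hv' (by simpa using n0 0))
      have k1 : polar Q b (g.1 v') ≠ 0 := fun e => by
        obtain ⟨y, hy, e2⟩ := s1 g hg ‹_› i m b hb b0
        obtain ⟨r, r', rfl⟩ := (h.pl i).span hv v0 hv' e1 hy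
        simp [b1, e] at e2
      have k2 : polar Q b' (g.1 v) ≠ 0 := fun e => by
        obtain ⟨y, hy, e2⟩ := s1 g hg ‹_› i m b' hb' b0'
        obtain ⟨r, r', rfl⟩ := (h.pl i).span hv v0 hv' e1 hy
        simp [b1', e] at e2
      obtain ⟨r₁, r₂, hr⟩ := quad_roots (a := Q (polar Q b' (g.1 v) • b))
        (b := polar Q (polar Q b' (g.1 v) • b) (-polar Q b (g.1 v') • b')) (c := Q (-polar Q b (g.1 v') • b')) (by
          by_contra! H
          simp only [quad_smul, polar_smul_left, polar_smul_right, smul_eq_mul, mul_eq_zero, pow_eq_zero_iff, k1, k2,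
            false_or, neg_eq_zero, ne_eq, OfNat.ofNat_ne_zero, not_false_eq_true] at H
          obtain ⟨y, hy, e⟩ := (h.pl m).np hb b0
          obtain ⟨r, rfl⟩ := Submodule.mem_span_singleton.1 ((h.pl m).mem_span hy e hb b0 (by simp [polar_self', H.1]) hb'
            (by rw [polar_comm, H.2.1]))
          simp [b1] at k2)
      exact ⟨r₁, r₂, fun s a1 a2 => ⟨s • polar Q b' (g.1 v) • b + -polar Q b (g.1 v') • b', add_mem ((D m).smul_mem s ((D m).smul_mem _ hb)) ((D m).smul_mem _ hb'),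
        fun e => (hr s ((Q_line _ _ s).symm.trans e)).elim a1 a2, by simp [b1, b1']; ring⟩⟩
    choose r r' hr using this
    obtain ⟨s, hs⟩ := hb [r i, r' i, r j, r' j, r l, r' l] (by simp)
    exact ⟨_, add_mem ((D i).smul_mem s hv) hv', n0 s, fun m hm => hr m s (fun e => hs (by grind)) fun e => hs (by grind)⟩
  have key : ∀ m ∈ [i, j, l], ∀ n ∈ [i, j, l], m ≠ n → ∀ y ∈ D m, ∀ z ∈ D n, Q y ≠ 0 → Q z ≠ 0 → polar Q y (g.1 x) = 0 →
      polar Q z (g.1 x) = 0 → sqSign (Q y) ≠ sqSign (Q z) := fun m _ n _ mn y hy z hz y0 z0 y1 z1 e => by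
    obtain ⟨s, s0, e⟩ := exists_sq_mul_of_sqSign_eq y0 z0 e
    have sX := mul_mem (mul_mem (inv_mem hg) (h.rr hy hz s0 z0 e)) hg
    have ap : ∀ w, (g⁻¹ * (refl Q y * refl Q z) * g).1 w = w - (g⁻¹).1 (((Q y)⁻¹ * polar Q y (g.1 w)) • y +
        ((Q z)⁻¹ * polar Q z (g.1 w)) • z) := fun w => by
      simp only [OG.mul_apply, refl_apply, polar_sub_right, polar_smul_right, h.o mn hy hz, map_sub, map_add,
        OG.inv_apply_apply]
      simp; abel
    obtain ⟨i', hi⟩ := exists_of_dstab (h.k sX hx x0 (j := i) (by rw [ap]; simpa [y1, z1])) i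
    obtain rfl : i = i' := by_contra fun e => x0 (h.eq_zero e hx (by have := hi x hx; rw [ap] at this; simpa [y1, z1] using this))
    obtain ⟨w, hw, e1⟩ := s1 g hg hc i m y hy (by rintro rfl; simp at y0)
    obtain ⟨o, o1, o2, -⟩ := h.out m n n n
    have := sub_mem hw (hi w hw)
    rw [ap, sub_sub_cancel] at this
    obtain ⟨w', hw', e2⟩ := s2 i o _ this fun e => by
      exact smul_ne_zero (mul_ne_zero (inv_ne_zero y0) e1) (by rintro rfl; simp at y0) <| h.eq_zero mn ((D m).smul_mem _ hy)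
        (eq_neg_of_add_eq_zero_left ((map_eq_zero_iff _ (g⁻¹).1.injective).1 e) ▸ neg_mem ((D n).smul_mem _ hz))
    simp [h.o o1 hw' hy, h.o o2 hw' hz] at e2
  obtain ⟨a, a1, a2, a3⟩ := H i (by simp)
  obtain ⟨b, b1, b2, b3⟩ := H j (by simp)
  obtain ⟨c, c1, c2, c3⟩ := H l (by simp)
  have := key i (by simp) j (by simp) j1.symm a a1 b b1 a2 b2 a3 b3
  have := key i (by simp) l (by simp) l1.symm a a1 c c1 a2 c2 a3 c3
  have := key j (by simp) l (by simp) l2.symm b b1 c c1 b2 c2 b3 c3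
  generalize sqSign (Q a) = a at *; generalize sqSign (Q b) = b at *; generalize sqSign (Q c) = c at *
  revert a b c; decide

end PX

theorem PD.isMaximalIn (h : PD Q D) : Geo.IsMaximalIn (EG (Formed.ofQuad Q)) (dstab D ⊓ EG (Formed.ofQuad Q)) := by
  refine max_crit inf_le_right ?_ fun X h1 h2 g hg hg' => by_contra fun hc => ?_
  · obtain ⟨i⟩ : Nonempty (Fin t) := ⟨⟨0, by have := h.five; omega⟩⟩
    obtain ⟨j, j1, -⟩ := h.out i i i i
    obtain ⟨l, l1, l2, -⟩ := h.out i j j j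
    choose x x1 x2 using fun i c => Geom.exists_Q_eq Q _ (h.nd i) (h.rk i).ge c
    have q : Q (x i 1 + x j 1 + x l (-1)) = 1 := by
      simp [quad_add, x2, h.o j1.symm (x1 i _) (x1 j _), h.o l1.symm (x1 i _) (x1 l _), h.o l2.symm (x1 j _) (x1 l _)]
    refine ⟨_, (mem_EG_quad h.hn h.h5).2 (refl_mul_refl_mem_commutator h.hn (u := x i 1 + x j 1 + x l (-1)) (v := x i 1)
      (by simp [x2]) one_ne_zero (by simp [q, x2])), fun hc => ?_⟩
    obtain ⟨m, hm⟩ := h.mem_of_refl (z := x i 1 + x j 1 + x l (-1)) (by simp [q]) (by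
      have := mul_mem hc.1 (h.refl_mem (x1 i 1)); rwa [← Subgroup.coe_mul, mul_assoc, refl_mul_self, mul_one] at this)
    have n0 : ∀ i, x i 1 ≠ 0 := fun i e => by simpa [e] using x2 i 1
    by_cases e : i = m
    · obtain ⟨u, hu, e1⟩ := (h.pl j).np (x1 j 1) (n0 j)
      exact e1 (by simpa [h.o j1 hu (x1 i _), h.o l2.symm hu (x1 l _)] using h.o (e ▸ j1) hu hm)
    · obtain ⟨u, hu, e1⟩ := (h.pl i).np (x1 i 1) (n0 i)
      exact e1 (by simpa [h.o j1.symm hu (x1 j _), h.o l1.symm hu (x1 l _)] using h.o e hu hm)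
  have H : PX D (X.comap (OG Q).subtype) := ⟨h, fun g a b => h1 ⟨a, b⟩, fun g a => h2 a,
    fun H => hc (H.trans (Subgroup.map_comap_le _ _))⟩
  exact hg' ⟨H.mem (g := ⟨g, EG_le_isom (h2 hg)⟩) hg, h2 hg⟩

theorem big_of_lt {K : Type*} [Fintype K] {n : ℕ} (h : n < Fintype.card K) : Big K n := fun l hl => by
  classical exact exists_out_list l (by omega)

omit [Finite F] in
theorem plus_of_iso {ι : Type} {Q : (ι → F) → F} {W W' : Submodule F (ι → F)} (e : Geo.AreIsometricFor Q W W')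
    {U : Submodule F (ι → F)} (h1 : U ≤ W) (h2 : ∀ x ∈ U, Q x = 0) (h3 : 2 * finrank F U = finrank F W) :
    Geo.IsPlusTypeOn Q W' := by
  obtain ⟨e, he⟩ := e
  refine ⟨((U.comap W.subtype).map e.toLinearMap).map W'.subtype, Submodule.map_subtype_le _ _, ?_, ?_⟩
  · rintro _ ⟨_, ⟨x, hx, rfl⟩, rfl⟩; exact (he x).trans (h2 _ hx)
  · rw [Submodule.finrank_map_subtype_eq, LinearEquiv.finrank_map_eq, (Submodule.comapSubtypeEquivOfLe h1).finrank_eq, h3,
      e.finrank_eq]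

omit [Finite F] in
theorem isMaximalIn_odec_omega [Fintype F] {ι : Type} [Fintype ι] [DecidableEq ι] {Q : (ι → F) → F}
    (hQ : Geo.IsNondegenerateQuadraticForm Q) (h5 : 5 ≤ Fintype.card ι) {t k : ℕ} (hk : 2 ≤ k)
    {D : Fin t → Submodule F (ι → F)} (hD : Geo.IsOrthogonalMDecomposition Q k D) (ht : k = 2 → 5 ≤ t)
    (hko : k = 3 → Odd (Fintype.card F)) (hex : ¬ ((k = 2 ∧ (Fintype.card F = 3 ∨ ((∀ i, Geo.IsPlusTypeOn Q (D i)) ∧
      (Fintype.card F = 2 ∨ Fintype.card F = 4 ∨ Fintype.card F = 5)))) ∨ (k = 3 ∧ Fintype.card F = 3) ∨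
      (k = 4 ∧ Fintype.card F = 2 ∧ ∀ i, Geo.IsPlusTypeOn Q (D i)))) :
    Geo.IsMaximalIn (Geo.omegaGL Q) (Geo.decompositionStabilizer D ⊓ Geo.omegaGL Q) := by
  obtain ⟨Q, rfl, h1⟩ := exists_quad hQ
  have h := odec_of h1 hD.1 fun _ _ => Iff.rfl
  have h5' : 5 ≤ finrank F (ι → F) := by simpa
  have iso : ∀ i j, ∃ e, ((Formed.ofQuad Q).restrict (D i)).IsIso ((Formed.ofQuad Q).restrict (D j)) e := fun i j =>
    let ⟨e, he⟩ := hD.2 i j
    ⟨e, Formed.isIso_ofQuad (Q := Q.comp (D i).subtype) (Q' := Q.comp (D j).subtype) he⟩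
  have sw := h.sw (fun i => adj_quad h1 h5' (h.nd i) (by rw [h.rk]; omega)) iso
  have c1 := Fintype.one_lt_card (α := F)
  have c2 : (2 : F) ≠ 0 → Fintype.card F % 2 = 1 := fun h2 => FiniteField.odd_card_of_char_ne_two fun h' => h2 (by
    have := ringChar.Nat.cast_ringChar (R := F); rwa [h'] at this)
  refine isMaximalIn_inf (glEquiv _ F) ?_ (fun g => mem_omegaGL h1 h5) fun g => mem_decompositionStabilizer
  by_cases k5 : 5 ≤ k
  · exact h.isMaximalIn_five sw k5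
  by_cases k2 : k = 2
  · subst k2
    refine PD.isMaximalIn ⟨h, ht rfl, iso, ?_⟩
    by_cases an : ∀ i, ∀ x ∈ D i, Q x = 0 → x = 0
    · exact Or.inl ⟨an, or_iff_not_imp_left.2 fun h2 => big_of_lt (by have := c2 h2; omega)⟩
    push Not at an
    obtain ⟨i, x, hx, x1, x0⟩ := an
    have P : ∀ j, Geo.IsPlusTypeOn Q (D j) := fun j => plus_of_iso (hD.2 i j) ((Submodule.span_singleton_le_iff_mem _ _).2 hx)
      (fun y hy => by obtain ⟨s, rfl⟩ := Submodule.mem_span_singleton.1 hy; simp [quad_smul, x1])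
      (by rw [finrank_span_singleton x0, h.rk])
    have : Fintype.card F ≠ 6 := fun e6 => absurd (e6 ▸ Fintype.isPrimePow_card_of_field (α := F)) (by decide)
    refine Or.inr ⟨fun j => ?_, big_of_lt (by simp only [P, implies_true, true_and, not_or] at hex; omega)⟩
    obtain ⟨U, u1, u2, u3⟩ := P j
    obtain ⟨e, he, e0⟩ := exists_notMem_of_lt (U := U) (R := ⊥) (by rw [h.rk] at u3; rw [finrank_bot]; omega)
    obtain ⟨f, hf, hp⟩ := exists_pair_mem h1 (h.nd j) (u1 he) e0 (Formed.sing_ofQuad.2 (u2 e he))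
    exact ⟨e, u1 he, f, hf, isPair_quad.1 hp⟩
  by_cases h2 : (2 : F) = 0
  swap
  · exact h.isMaximalIn_quad_odd sw h2 h5' (by omega) fun e => by
      simpa using big_of_lt (K := F) (n := 3) (by have := c2 h2; omega) [0, 1, -1] le_rfl
  obtain rfl : k = 4 := by
    by_contra e; exact two_ne_zero_of_odd_card (hko (by omega)) h2
  refine h.isMaximalIn_quad_even sw h2 le_rfl (or_iff_not_imp_left.2 fun H i x hx y hy x1 y1 e x0 => by_contra fun hc =>
    hex (Or.inr (Or.inr ⟨rfl, by_contra fun e => H (exists_ne_zero_ne_one (by rwa [Nat.card_eq_fintype_card])), fun j =>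
      plus_of_iso (hD.2 i j) (U := Submodule.span F (Set.range ![x, y]))
        (Submodule.span_le.2 (by rintro _ ⟨i, rfl⟩; fin_cases i <;> simpa)) (fun z hz => ?_) ?_⟩)))
  · obtain ⟨a, b, rfl⟩ := Submodule.mem_span_pair.1 (show z ∈ Submodule.span F {x, y} by simpa [Set.pair_comm] using hz)
    simp [quad_add, quad_smul, x1, y1, e]
  · rw [finrank_span_eq_card ((LinearIndependent.pair_iff' x0).2 fun a ha => hc (Submodule.mem_span_singleton.2 ⟨a, ha⟩)), h.rk]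
    simp

end Cfsg.Agent.Root.Mx
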