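import Cfsg.Agent.Root.Fr1
import Cfsg.Agent.Classical.PGL2Dih

/-! Three roots of a reflection group: by Dickson's theorem they generate a group containing an
Eichler map or their inner products are those of the root systems `A₃`, `B₃`, `H₃` (`RG.rank3`). -/

set_option autoImplicit false

namespace Cfsg.Agent.Root.Mx

open Cfsg.Agent.Geom Cfsg.Agent.AutCl Module QuadraticMap Cfsg.Agent.Classical Matrix
open scoped MatrixGroups

variable {F : Type*} [Field F] {V : Type*} [AddCommGroup V] [Module F V] {Q : QuadraticForm F V}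
  {Y : Subgroup (OG Q)}

/-- `Y` contains a non-trivial Eichler map. -/
def NE (Y : Subgroup (OG Q)) : Prop := ∃ p a, Ae Y p a ∧ p ≠ 0 ∧ a ∉ F ∙ p

theorem Ro.ne {y z : V} (h : Ro Y y) (hz : Ro Y z) (e : polar Q y z = 2) (hne : z ≠ y) : NE Y :=
  ⟨_, _, h.ae hz e, sub_ne_zero.2 hne, fun hc => by
    obtain ⟨c, hc⟩ := Submodule.mem_span_singleton.1 hc
    have := h.1
    rw [← hc, quad_smul, (h.ae hz e).1] at this
    simp at this⟩

theorem exists_eich [Finite F] [FiniteDimensional F V] (hn : (Formed.ofQuad Q).Nondeg) (h2 : (2 : F) ≠ 0)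
    (ℓ : ℕ) [Fact ℓ.Prime] [CharP F ℓ] {W : Submodule F V} (hW : ((Formed.ofQuad Q).restrict W).Nondeg)
    (h3 : finrank F W ≤ 3) {g : OG Q} (hg : g ∈ Y) (hp : g ^ ℓ = 1) (h1 : g ≠ 1)
    (hm : ∀ v, g.1 v - v ∈ W) : NE Y := by
  have hu : Unip ℓ g.1 := ⟨1, by rw [pow_one]; exact congrArg Subtype.val hp⟩
  obtain ⟨v, hv⟩ : ∃ v, v - g.1 v ≠ 0 := by
    by_contra! hc; exact h1 (OG.ext fun v => (sub_eq_zero.1 (hc v)).symm)
  obtain ⟨p, ⟨w₀, hw₀⟩, hp0, hp⟩ := hu.exists_fixed (U := mov g.1)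
    (by rintro _ ⟨x, rfl⟩; exact ⟨g.1 x, by simp⟩) (sub_mem_mov g.1 v) hv
  have e0 : ∀ x, polar Q p (g.1 x - x) = 0 := fun x => by
    rw [polar_sub_right]; nth_rw 1 [← hp]; rw [OG.map_polar, sub_self]
  have hw₀' : p = -(g.1 w₀ - w₀) := by rw [← hw₀]; simp
  have hpW : p ∈ W := hw₀' ▸ neg_mem (hm _)
  have hQ : Q p = 0 := by
    have := e0 w₀
    rw [← neg_eq_iff_eq_neg.2 hw₀', polar_neg_right, polar_self', neg_eq_zero] at this
    exact (mul_eq_zero.1 this).resolve_left h2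
  obtain ⟨r, -, hr⟩ := exists_pair_mem hn (nondeg_top hn) trivial hp0 (Formed.sing_ofQuad.2 hQ)
  obtain ⟨a, ha, d, hE⟩ := exists_isE_of_trivial hn hr g.2 hp fun w hw => by
    by_contra! hc
    have hy : g.1 w - w ∉ F ∙ p := fun h => by
      obtain ⟨c, h⟩ := Submodule.mem_span_singleton.1 h
      exact hc c (by rw [h]; abel)
    have h4 := finrank_inf_perp hn hW ((Submodule.span_singleton_le_iff_mem _ _).2 hpW)
    rw [finrank_span_singleton hp0] at h4
    have h5 : (F ∙ p) ⊔ F ∙ (g.1 w - w) = W ⊓ (Formed.ofQuad Q).perp (F ∙ p) := by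
      refine Submodule.eq_of_le_of_finrank_le (sup_le ?_ ?_) ?_
      · exact (Submodule.span_singleton_le_iff_mem _ _).2 ⟨hpW, (Formed.mem_perp_span_singleton _).2 (by
          rw [ofQuad_B_apply, polar_self', hQ, mul_zero])⟩
      · exact (Submodule.span_singleton_le_iff_mem _ _).2 ⟨hm w, (Formed.mem_perp_span_singleton _).2 (e0 w)⟩
      · have := Submodule.finrank_lt_finrank_of_lt (lt_of_le_of_ne (le_sup_left (a := F ∙ p)
          (b := F ∙ (g.1 w - w))) fun h => hy (h ▸ Submodule.mem_sup_right (Submodule.mem_span_singleton_self _)))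
        rw [finrank_span_singleton hp0] at this; omega
    have h6 : ∀ x ∈ W, polar Q p x = 0 → ∃ c e : F, x = c • p + e • (g.1 w - w) := fun x hx hx' => by
      have : x ∈ (F ∙ p) ⊔ F ∙ (g.1 w - w) := h5 ▸ ⟨hx, (Formed.mem_perp_span_singleton _).2 hx'⟩
      obtain ⟨_, h1, _, h2, rfl⟩ := Submodule.mem_sup.1 this
      obtain ⟨c, rfl⟩ := Submodule.mem_span_singleton.1 h1
      obtain ⟨e, rfl⟩ := Submodule.mem_span_singleton.1 h2
      exact ⟨c, e, rfl⟩
    obtain ⟨y, hy'⟩ : ∃ y, y = g.1 w - w := ⟨_, rfl⟩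
    rw [← hy'] at hy h6
    obtain ⟨c, e, h7⟩ := h6 _ (hm y) (e0 y)
    have h8 : 1 + e = 1 := hu.eig (U := F ∙ p) (fun u hu => by
      obtain ⟨c, rfl⟩ := Submodule.mem_span_singleton.1 hu
      rw [map_smul, hp]; exact hu) hy (by
        rw [show g.1 y - (1 + e) • y = c • p by rw [eq_add_of_sub_eq h7]; module]
        exact Submodule.smul_mem _ _ (Submodule.mem_span_singleton_self _))
    have h9 : polar Q y y = 0 := by
      have e1 : polar Q (g.1 y) (g.1 w) = polar Q y w := OG.map_polar g _ _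
      have e2 : polar Q p (g.1 w) = 0 := by
        have := e0 w
        rwa [polar_sub_right, (mem_pairPerp_quad.1 hw).1, sub_zero] at this
      rw [eq_add_of_sub_eq h7, show e = 0 by linear_combination h8] at e1
      simp only [polar_add_left, polar_smul_left, e2, smul_zero, zero_smul, add_zero, zero_add] at e1
      nth_rw 2 [hy']; rw [polar_sub_right, e1, sub_self]
    obtain ⟨x, hx, hx', e1⟩ := sep hn hW ((Submodule.span_singleton_le_iff_mem _ _).2 hpW) (hy' ▸ hm w) hy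
    obtain ⟨c, e, rfl⟩ := h6 x hx ((Formed.mem_perp_span_singleton _).1 hx')
    rw [ofQuad_B_apply, polar_add_right, polar_smul_right, polar_smul_right, h9, polar_comm, hy', e0] at e1
    simp at e1
  have e := IsE_eq_eich hE
  refine ⟨p, a, ⟨hQ, hE.pa, (Subtype.ext e : g = _) ▸ hg⟩, hp0, fun h => h1 (Subtype.ext ?_)⟩
  obtain ⟨c, rfl⟩ := Submodule.mem_span_singleton.1 h
  rw [e, eich_smul_self hQ]

/-- The squares of the inner products in the root systems `A₃`, `B₃`, `H₃`. -/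
def G3 (s : F) : Prop := (s = 0 ∨ s = 1 ∨ s = 2 ∨ s ^ 2 - 3 * s + 1 = 0) ∧ s ≠ 4

theorem dihedral_three {n : ℕ} {x y z : DihedralGroup n} (hx : x ^ 2 = 1) (hy : y ^ 2 = 1) (hz : z ^ 2 = 1) :
    (x * z) ^ 2 = 1 ∨ (y * z) ^ 2 = 1 ∨ (x * y * z) ^ 2 = 1 := by
  have c : ∀ i, (DihedralGroup.r i : DihedralGroup n) ^ 2 = 1 → i + i = 0 := fun i h => by
    simpa [_root_.sq, DihedralGroup.one_def, -DihedralGroup.r_zero] using h
  rcases x with i | i <;> rcases y with j | j <;> rcases z with k | k <;>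
    simp [_root_.sq, DihedralGroup.one_def, -DihedralGroup.r_zero]
  · left; linear_combination c _ hx + c _ hz

theorem g3_of_dickson [Finite F] (ℓ : ℕ) [Fact ℓ.Prime] [CharP F ℓ] {S : Subgroup PGL(2, F)}
    (hS : ¬ ℓ ∣ Nat.card S) {x y z : PGL(2, F)} (hx : x ∈ S) (hy : y ∈ S) (hz : z ∈ S) (hx2 : x ^ 2 = 1)
    (hy2 : y ^ 2 = 1) (hz2 : z ^ 2 = 1) (h1 : (x * z) ^ 2 ≠ 1) (h2 : (y * z) ^ 2 ≠ 1)
    (h3 : kap (x * y * z) ≠ 0) {m : PGL(2, F)} (hm : m ∈ S) (hm1 : m ≠ 1) : G3 (kap m) := by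
  replace h3 : (x * y * z) ^ 2 ≠ 1 := fun h => (pgl_sq_eq_one_iff.1 h).elim h3 fun h => h1 (by
    rw [eq_inv_of_mul_eq_one_right h, show (x * (x * y)⁻¹) ^ 2 = x * (y ^ 2)⁻¹ * x⁻¹ by
      simp [_root_.sq, mul_assoc], hy2]; simp)
  refine ⟨?_, kap_ne_four_of_coprime ℓ hm1 fun h => hS (h.trans (S.orderOf_dvd_natCard hm))⟩
  have key : ∀ {K : Type} [Group K] (e : S ≃* K), (∀ g : K, g ^ 3 = 1 ∨ g ^ 4 = 1 ∨ g ^ 5 = 1) →
      kap m = 0 ∨ kap m = 1 ∨ kap m = 2 ∨ kap m ^ 2 - 3 * kap m + 1 = 0 := fun e h => by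
    have := h (e ⟨m, hm⟩)
    simp only [← map_pow, EmbeddingLike.map_eq_one_iff, Subtype.ext_iff, Subgroup.coe_pow, Subgroup.coe_one,
      pgl_pow_three_eq_one_iff, pgl_pow_four_eq_one_iff, pgl_pow_five_eq_one_iff, pgl_sq_eq_one_iff] at this
    tauto
  obtain h | ⟨k, -, ⟨e⟩⟩ | ⟨⟨e⟩⟩ | ⟨⟨e⟩⟩ | ⟨⟨e⟩⟩ := dickson_coprime S.subtype S.subtype_injective
    (by rwa [Ne, CharP.cast_eq_zero_iff F ℓ])
  · have hc : Commute x z := congrArg Subtype.val
      ((IsCyclic.commGroup (α := S)).mul_comm ⟨x, hx⟩ ⟨z, hz⟩)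
    exact absurd (by rw [hc.mul_pow, hx2, hz2, one_mul]) h1
  · have f : ∀ g : S, e g ^ 2 = 1 ↔ g.1 ^ 2 = 1 := fun g => by
      rw [← map_pow, EmbeddingLike.map_eq_one_iff, Subtype.ext_iff]; rfl
    have := dihedral_three ((f ⟨x, hx⟩).2 hx2) ((f ⟨y, hy⟩).2 hy2) ((f ⟨z, hz⟩).2 hz2)
    simp only [← map_mul, f, Subgroup.coe_mul] at this
    tauto
  · exact key e (by decide +kernel)
  · exact key e (by decide +kernel)
  · exact key e (by decide +kernel)

/-- A Clifford map for an orthogonal triple. -/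
theorem exists_cliff [Finite F] (h2 : (2 : F) ≠ 0) {a b c : V} (ha : Q a = 1) (hb : Q b = 1) (hc : Q c ≠ 0)
    (hab : polar Q a b = 0) (hac : polar Q a c = 0) (hbc : polar Q b c = 0) :
    ∃ (μ : V →ₗ[F] M2 F) (N : F), N ≠ 0 ∧ (∀ z, (μ z).trace = 0) ∧
      (∀ w ∈ Submodule.span F {a, b, c}, ∀ z, μ w * μ z + μ z * μ w = (N * polar Q w z) • 1) ∧
      (∀ w ∈ Submodule.span F {a, b, c}, μ w = 0 → w = 0) ∧
      (∀ M : M2 F, (∀ z, μ z * M = M * μ z) → IsScal M) ∧ (μ a * μ b * μ c).trace ≠ 0 := by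
  obtain ⟨u, v, h⟩ := exists_bin h2 hc hc (-1)
  have hN : u ^ 2 + v ^ 2 ≠ 0 := fun e => by
    rw [← mul_add, e] at h; simp at h
  let μ : V →ₗ[F] M2 F := (Q.polarBilin a).smulRight !![u, v; v, -u] +
    (Q.polarBilin b).smulRight !![v, -u; -u, -v] + (Q.polarBilin c).smulRight ((Q c)⁻¹ • !![0, 1; -1, 0])
  have hμ : ∀ z, μ z = !![polar Q a z * u + polar Q b z * v, polar Q a z * v - polar Q b z * u +
      polar Q c z / Q c; polar Q a z * v - polar Q b z * u - polar Q c z / Q c,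
      -(polar Q a z * u + polar Q b z * v)] := fun z => by
    ext i j; fin_cases i <;> fin_cases j <;> simp [μ] <;> ring
  have hw : ∀ α β γ : F, μ (α • a + β • b + γ • c) = (2 : F) • !![α * u + β * v, α * v - β * u + γ;
      α * v - β * u - γ, -(α * u + β * v)] := fun α β γ => by
    rw [hμ]
    simp only [polar_add_right, polar_smul_right, polar_self', ha, hb, hab, hac, hbc, polar_comm Q b a,
      polar_comm Q c a, polar_comm Q c b, smul_eq_mul]
    ext i j; fin_cases i <;> fin_cases j <;> simp <;> field_simp <;> ring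
  have ea := hw 1 0 0
  have eb := hw 0 1 0
  have ec := hw 0 0 1
  simp only [one_smul, zero_smul, add_zero, zero_add] at ea eb ec
  refine ⟨μ, 4 * (u ^ 2 + v ^ 2), mul_ne_zero (fun e => mul_ne_zero h2 h2 (by linear_combination e)) hN,
    fun z => by simp [hμ, trace_fin_two], fun w hw' z => ?_, fun w hw' e => ?_, fun M hM => ?_, ?_⟩
  · obtain ⟨α, β, γ, rfl⟩ := Submodule.mem_span_triple.1 hw'
    rw [hw, hμ]
    simp only [polar_add_left, polar_smul_left, smul_eq_mul]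
    obtain ⟨t, ht⟩ : ∃ t, polar Q c z = Q c * t := ⟨polar Q c z / Q c, by field_simp⟩
    rw [ht, mul_div_cancel_left₀ _ hc]
    ext i j; fin_cases i <;> fin_cases j <;> simp [Matrix.mul_apply, Fin.sum_univ_two]
    · linear_combination (-4 * γ * t) * h
    · ring
    · ring
    · linear_combination (-4 * γ * t) * h
  · obtain ⟨α, β, γ, rfl⟩ := Submodule.mem_span_triple.1 hw'
    rw [hw, smul_eq_zero_iff_right h2] at e
    have e1 := congrFun (congrFun e 0) 0
    have e2 := congrFun (congrFun e 0) 1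
    have e3 := congrFun (congrFun e 1) 0
    simp at e1 e2 e3
    obtain rfl : γ = 0 := (mul_eq_zero.1 (by linear_combination e2 - e3)).resolve_left h2
    obtain rfl : α = 0 := (mul_eq_zero.1 (by linear_combination u * e1 + v * e2)).resolve_left hN
    obtain rfl : β = 0 := (mul_eq_zero.1 (by linear_combination v * e1 - u * e2)).resolve_left hN
    simp
  · have e1 := hM a
    have e2 := hM b
    have e3 := hM c
    rw [ea] at e1; rw [eb] at e2; rw [ec] at e3
    simp only [smul_mul_assoc, mul_smul_comm] at e1 e2 e3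
    replace e1 := smul_right_injective _ h2 e1
    replace e2 := smul_right_injective _ h2 e2
    replace e3 := smul_right_injective _ h2 e3
    have f1 := congrFun (congrFun e1 0) 0
    have f2 := congrFun (congrFun e2 0) 0
    have f3 := congrFun (congrFun e3 0) 0
    have f4 := congrFun (congrFun e3 0) 1
    simp only [Matrix.mul_apply, Fin.sum_univ_two, of_apply, cons_val', cons_val_zero, cons_val_one,
      cons_val_fin_one] at f1 f2 f3 f4
    have f5 : M 0 1 - M 1 0 = 0 := (mul_eq_zero.1 (by linear_combination -v * f1 + u * f2)).resolve_left hN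
    have f6 : M 0 1 = 0 := (mul_eq_zero.1 (by linear_combination f5 + f3)).resolve_left h2
    exact ⟨f6, by linear_combination f6 - f5, by linear_combination -f4⟩
  · rw [ea, eb, ec]
    simp [trace_fin_two, Matrix.mul_apply, Fin.sum_univ_two]
    exact fun e => mul_ne_zero (pow_ne_zero 4 h2) hN (by linear_combination e)

theorem rank3 [Finite F] [FiniteDimensional F V] (hn : (Formed.ofQuad Q).Nondeg) (h2 : (2 : F) ≠ 0)
    {a b x : V} (ha : Ro Y a) (hb : Ro Y b) (hx : Ro Y x) (hab : polar Q a b = 0) (hax : polar Q a x ≠ 0)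
    (hbx : polar Q b x ≠ 0) (hx' : x ∉ Submodule.span F {a, b}) (hN : ¬ NE Y) :
    G3 (polar Q a x ^ 2) ∧ G3 (polar Q b x ^ 2) ∧ G3 (polar Q a x ^ 2 * polar Q b x ^ 2) := by
  obtain ⟨c, hc⟩ : ∃ c, x = (polar Q a x / 2) • a + (polar Q b x / 2) • b + c := ⟨_, (add_sub_cancel _ _).symm⟩
  have hac : polar Q a c = 0 := by
    have := congrArg (polar Q a) hc
    simp only [polar_add_right, polar_smul_right, polar_self', ha.1, hab, smul_eq_mul] at this
    field_simp at this; exact (mul_eq_zero.1 (by linear_combination -this)).resolve_left h2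
  have hbc : polar Q b c = 0 := by
    have := congrArg (polar Q b) hc
    simp only [polar_add_right, polar_smul_right, polar_self', hb.1, hab, polar_comm Q b a, smul_eq_mul] at this
    field_simp at this; exact (mul_eq_zero.1 (by linear_combination -this)).resolve_left h2
  obtain ⟨s, hs⟩ : ∃ s, polar Q a x = 2 * s := ⟨polar Q a x / 2, by field_simp⟩
  obtain ⟨t, ht⟩ : ∃ t, polar Q b x = 2 * t := ⟨polar Q b x / 2, by field_simp⟩
  rw [hs, ht, mul_div_cancel_left₀ _ h2, mul_div_cancel_left₀ _ h2] at hc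
  have hs0 : s ≠ 0 := by rintro rfl; simp [hs] at hax
  have ht0 : t ≠ 0 := by rintro rfl; simp [ht] at hbx
  have hc0 : c ≠ 0 := by
    rintro rfl; exact hx' (Submodule.mem_span_pair.2 ⟨s, t, by rw [hc, add_zero]⟩)
  have hQ : Q c ≠ 0 := fun e => hN (by
    have h1 := (ha.refl (hb.refl hx)).neg
    rw [polar_sub_right, polar_smul_right, hab, hs, ht, smul_zero, sub_zero,
      show -(x - (2 * t) • b - (2 * s) • a) = x - (2 : F) • c by rw [hc]; module] at h1
    refine hx.ne h1 ?_ (by simp [h2, hc0])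
    rw [polar_sub_right, polar_self', hx.1, polar_smul_right, hc]
    simp [hac, hbc, polar_self', e])
  obtain ⟨μ, N, hN0, tr, cl, inj, cen, tri⟩ := exists_cliff h2 ha.1 hb.1 hQ hab hac hbc
  obtain ⟨W, hW⟩ : ∃ W, W = Submodule.span F {a, b, c} := ⟨_, rfl⟩
  rw [← hW] at cl inj
  have aW : a ∈ W := hW ▸ Submodule.subset_span (by simp)
  have bW : b ∈ W := hW ▸ Submodule.subset_span (by simp)
  have cW : c ∈ W := hW ▸ Submodule.subset_span (by simp)
  have xW : x ∈ W := hc ▸ add_mem (add_mem (W.smul_mem _ aW) (W.smul_mem _ bW)) cW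
  have sq' : ∀ w ∈ W, μ w * μ w = (N * Q w) • 1 := fun w hw => smul_right_injective _ h2 (by
    have := cl w hw w
    rw [polar_self'] at this
    simp only [two_smul, this]; module)
  have hdet : ∀ w ∈ W, (μ w).det = -(N * Q w) := fun w hw => by
    have := congrFun (congrFun (sq' w hw) 0) 0
    have h0 := tr w
    simp [Matrix.mul_apply, Fin.sum_univ_two, trace_fin_two] at this h0
    rw [det_fin_two]; linear_combination μ w 0 0 * h0 - this
  have nd : ((Formed.ofQuad Q).restrict W).Nondeg := (Formed.ofQuad Q).restrict_nondeg_iff'.2 fun w hw h => by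
    obtain ⟨α, β, γ, rfl⟩ := Submodule.mem_span_triple.1 (hW ▸ hw)
    have e1 := h a aW
    have e2 := h b bW
    have e3 := h c cW
    simp [polar_self', ha.1, hb.1, hab, hac, hbc, polar_comm Q b a, polar_comm Q c a, polar_comm Q c b, h2, hQ]
      at e1 e2 e3
    simp [e1, e2, e3]
  let Δ : Subgroup (OG Q × GL (Fin 2) F) :=
    { carrier := {g | g.1 ∈ Y ∧ (∃ ε : F, ε * ε = 1 ∧ ∀ z, μ (g.1.1 z) * g.2.1 = ε • (g.2.1 * μ z)) ∧
        ∀ z, g.1.1 z - z ∈ W}
      one_mem' := ⟨one_mem _, ⟨1, by simp, by simp⟩, by simp⟩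
      mul_mem' := fun {g g'} ⟨h1, ⟨ε, e1, e2⟩, h3⟩ ⟨h1', ⟨ε', e1', e2'⟩, h3'⟩ =>
        ⟨mul_mem h1 h1', ⟨ε * ε', by linear_combination ε' * ε' * e1 + e1', fun z => by
          rw [Prod.fst_mul, OG.mul_apply, Prod.snd_mul, Units.val_mul, ← mul_assoc, e2, smul_mul_assoc,
            mul_assoc, e2', mul_smul_comm, smul_smul, mul_assoc]⟩, fun z => by
          simpa using add_mem (h3 (g'.1.1 z)) (h3' z)⟩
      inv_mem' := fun {g} ⟨h1, ⟨ε, e1, e2⟩, h3⟩ => ⟨inv_mem h1, ⟨ε, e1, fun z => by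
          have := congrArg (fun m => ε • ((g.2⁻¹).1 * m * (g.2⁻¹).1)) (e2 ((g.1⁻¹).1 z))
          simp only [OG.apply_inv_apply, mul_assoc, Units.mul_inv, mul_one, mul_smul_comm, smul_mul_assoc,
            Units.inv_mul_cancel_left, smul_smul, e1, one_smul] at this
          exact this.symm⟩, fun z => by simpa using neg_mem (h3 ((g.1⁻¹).1 z))⟩ }
  let π : OG Q × GL (Fin 2) F →* PGL(2, F) := ProjGenLinGroup.mk.comp (MonoidHom.snd _ _)
  obtain ⟨ℓ, hℓ⟩ := CharP.exists F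
  have : Fact ℓ.Prime := ⟨CharP.char_is_prime F ℓ⟩
  have hS : ¬ ℓ ∣ Nat.card (Δ.map π) := fun h => hN (by
    obtain ⟨⟨m, hm'⟩, hm⟩ := exists_prime_orderOf_dvd_card' ℓ h
    rw [Subgroup.orderOf_mk] at hm
    obtain ⟨⟨g, M⟩, hg, rfl⟩ := hm'
    obtain ⟨k, hk⟩ := isScal_iff.1 (pgl_mk_eq_one_iff'.1 (show ProjGenLinGroup.mk (M ^ ℓ) = 1 by
      rw [map_pow, ← hm]; exact pow_orderOf_eq_one _))
    obtain ⟨h1, ⟨ε, e1, e2⟩, h3⟩ := Δ.pow_mem hg ℓ
    obtain ⟨-, ⟨δ, d1, d2⟩, -⟩ := id hg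
    have hk0 : k ≠ 0 := by
      rintro rfl; simpa [hk] using gl_det_ne (M ^ ℓ)
    refine exists_eich hn h2 ℓ nd (by
      have := finrank_span_fam (F := F) ![a, b, c]
      rwa [show Set.range ![a, b, c] = {a, b, c} by ext; simp; tauto, ← hW] at this) (Δ.pow_mem hg 2).1 (OG.ext fun z => ?_) (fun e => ?_) (Δ.pow_mem hg 2).2.2
    · have e3 : ∀ z, μ ((g ^ ℓ).1 z) = ε • μ z := fun z => smul_right_injective _ hk0 (by
        have := e2 z
        simp only [Prod.pow_fst, Prod.pow_snd, hk] at this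
        simpa [smul_comm k ε] using this)
      refine sub_eq_zero.1 (inj _ ((Δ.pow_mem (Δ.pow_mem hg 2) ℓ).2.2 z) ?_)
      change μ (((g ^ 2) ^ ℓ).1 z - z) = 0
      rw [← pow_mul, mul_comm, pow_mul, _root_.sq, map_sub, OG.mul_apply, e3, e3,
        smul_smul, e1, one_smul, sub_self]
    · have e3 : π (g, M) ^ 2 = 1 := by
        rw [← map_pow]
        refine pgl_mk_eq_one_iff'.2 (cen _ fun z => ?_)
        have : g.1 (g.1 z) = z := by rw [← OG.mul_apply, ← _root_.sq]; exact congrArg (·.1 z) e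
        simp only [MonoidHom.coe_snd, _root_.sq, Prod.snd_mul, Units.val_mul] at d2 ⊢
        nth_rw 1 [← this]
        rw [← mul_assoc, d2, smul_mul_assoc, mul_assoc, d2, mul_smul_comm, smul_smul, d1, one_smul, mul_assoc]
      have := (Nat.prime_dvd_prime_iff_eq this.out Nat.prime_two).1 (hm ▸ orderOf_dvd_of_pow_eq_one e3)
      exact h2 (by simpa [this] using CharP.cast_eq_zero F ℓ))
  have ex : ∀ w ∈ W, Ro Y w → ∃ M : GL (Fin 2) F, M.1 = μ w ∧ ProjGenLinGroup.mk M ∈ Δ.map π ∧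
      ProjGenLinGroup.mk M ^ 2 = 1 := fun w hw h => by
    obtain ⟨M, hM⟩ : ∃ M : GL (Fin 2) F, M.1 = μ w :=
      ⟨GeneralLinearGroup.mkOfDetNeZero (μ w) (by simp [hdet w hw, h.1, hN0]), rfl⟩
    refine ⟨M, hM, ⟨(refl Q w, M), ⟨h.2, ⟨-1, by simp, fun z => ?_⟩, fun z => ?_⟩, rfl⟩,
      pgl_sq_eq_one_iff.2 (Or.inl (by simp [kap_mk, hM, tr]))⟩
    · simp only [h.app, hM, map_sub, map_smul, sub_mul, smul_mul_assoc, sq' w hw, h.1]
      rw [eq_sub_of_add_eq' (cl w hw z)]; module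
    · simp only [h.app]; simpa using W.smul_mem _ hw
  have kp : ∀ y ∈ W, ∀ z ∈ W, Q y = 1 → Q z = 1 → ∀ M M' : GL (Fin 2) F, M.1 = μ y → M'.1 = μ z →
      kap (ProjGenLinGroup.mk M * ProjGenLinGroup.mk M') = polar Q y z ^ 2 ∧
      (z ∉ F ∙ y → ProjGenLinGroup.mk M * ProjGenLinGroup.mk M' ≠ 1) := fun y hy z hz qy qz M M' e e' => by
    rw [← map_mul, kap_mk, Ne, pgl_mk_eq_one_iff', Units.val_mul, e, e', det_mul, hdet y hy, hdet z hz, qy, qz]
    refine ⟨?_, fun h1 h3 => h1 ?_⟩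
    · have := congrArg trace (cl y hy z)
      rw [trace_add, trace_mul_comm (μ z), trace_smul, trace_one] at this
      rw [show (μ y * μ z).trace = N * polar Q y z from mul_left_cancel₀ h2 (by simpa [two_mul, mul_two] using this)]
      field_simp
    · obtain ⟨k, hk⟩ := isScal_iff.1 h3
      refine Submodule.mem_span_singleton.2 ⟨N⁻¹ * k, (sub_eq_zero.1 (inj _ (sub_mem (W.smul_mem _ hy) hz) ?_))⟩
      have := congrArg (fun m => N⁻¹ • (μ y * m)) hk
      simp only [← mul_assoc, sq' y hy, qy, mul_one, smul_mul_assoc, one_mul, smul_smul, inv_mul_cancel₀ hN0,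
        one_smul, mul_smul_comm] at this
      rw [map_sub, map_smul, this, sub_self]
  obtain ⟨A, A1, A2, A3⟩ := ex a aW ha
  obtain ⟨B, B1, B2, B3⟩ := ex b bW hb
  obtain ⟨C, C1, C2, C3⟩ := ex x xW hx
  obtain ⟨D, D1, D2, D3⟩ := ex _ (sub_mem aW (W.smul_mem _ xW)) (hx.refl ha)
  have na : x ∉ F ∙ a := fun h => hx' (Submodule.span_mono (by simp) h)
  have nb : x ∉ F ∙ b := fun h => hx' (Submodule.span_mono (by simp) h)
  obtain ⟨k1, n1⟩ := kp a aW x xW ha.1 hx.1 A C A1 C1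
  obtain ⟨k2, n2⟩ := kp b bW x xW hb.1 hx.1 B C B1 C1
  obtain ⟨k3, n3⟩ := kp b bW _ (sub_mem aW (W.smul_mem _ xW)) hb.1 (hx.refl ha).1 B D B1 D1
  have G := fun m => g3_of_dickson ℓ hS A2 B2 C2 A3 B3 C3
    (by simp [pgl_sq_eq_one_iff, k1, hax, n1 na]) (by simp [pgl_sq_eq_one_iff, k2, hbx, n2 nb]) (by
      have e1 : μ a * μ b * μ x = (s * -N) • μ b + (t * N) • μ a + μ a * μ b * μ c := by
        have := cl a aW b
        rw [hab, mul_zero, zero_smul, add_eq_zero_iff_eq_neg] at this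
        nth_rw 1 [hc]
        simp only [map_add, map_smul, mul_add, mul_smul_comm]
        rw [mul_assoc (μ a) (μ b) (μ b), sq' b bW, this, neg_mul, mul_assoc, sq' a aW, ha.1, hb.1]
        simp only [mul_smul_comm, mul_one]; module
      rw [← map_mul, ← map_mul, kap_mk, Units.val_mul, Units.val_mul, A1, B1, C1, Ne, div_eq_zero_iff]
      nth_rw 1 [e1]
      simp [tr, tri, hdet, aW, bW, xW, ha.1, hb.1, hx.1, hN0]) (m := m)
  refine ⟨k1 ▸ G _ (mul_mem A2 C2) (n1 na), k2 ▸ G _ (mul_mem B2 C2) (n2 nb), ?_⟩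
  have := G _ (mul_mem B2 D2) (n3 fun h => hx' ?_)
  · rw [k3, polar_sub_right, polar_smul_right, polar_comm Q b a, hab, polar_comm Q x a] at this
    convert this using 1; simp; ring
  · obtain ⟨k, hk⟩ := Submodule.mem_span_singleton.1 h
    rw [polar_comm] at hk
    exact Submodule.mem_span_pair.2 ⟨(polar Q a x)⁻¹, -((polar Q a x)⁻¹ * k), by
      rw [neg_smul, mul_smul, hk]; match_scalars <;> field_simp; ring⟩

/-- Admissible squares of inner products of a root with two perpendicular roots. -/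
def A2 (s t : F) : Prop := s ≠ 4 ∧ t ≠ 4 ∧ (s = t → s = 1) ∧ (s = 1 ∨ t = 1 ∨ s + t = 3)

theorem a2_of_g3 (h2 : (2 : F) ≠ 0) (h3 : (3 : F) ≠ 0) {s t : F} (hs : s ≠ 0) (ht : t ≠ 0) (h : G3 s)
    (h' : G3 t) (h'' : G3 (s * t)) : A2 s t := by
  have mix : ∀ g : F, g ^ 2 - 3 * g + 1 = 0 → ¬ G3 (2 * g) := fun g e ⟨f, _⟩ => by
    rcases f with f | f | f | f
    · exact h2 (by linear_combination 2 * e + (3 - g) * f)
    · exact one_ne_zero (α := F) (by linear_combination -4 * e - (5 - 2 * g) * f)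
    · exact h2 (by linear_combination -2 * e - (2 - g) * f)
    · exact h3 (by linear_combination (8 - 8 * g) * e - (5 - 2 * g) * f)
  have eq : s = t → s = 1 := fun e => by
    subst e
    rcases h.1 with f | f | f | f
    · exact absurd f hs
    · exact f
    · exact absurd (by rw [f]; norm_num) h''.2
    rcases h''.1 with g | g | g | g
    · exact absurd (by simpa using g) hs
    · refine absurd ((mul_eq_zero.1 ?_).resolve_left h3) (sub_ne_zero.2 h.2)
      linear_combination (3 + 6 * s) * f + (15 - 6 * s) * g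
    · exact absurd (by linear_combination -(1 + s) * f - (2 - s) * g) h3
    · exact absurd (by linear_combination (-4 - 9 * s + s ^ 2 + 3 * s ^ 3) * f + (8 - 3 * s) * g)
        (mul_ne_zero h2 h2)
  refine ⟨h.2, h'.2, eq, ?_⟩
  by_contra! hc
  rcases h.1 with f | f | f | f
  · exact hs f
  · exact hc.1 f
  · rcases h'.1 with g | g | g | g
    · exact ht g
    · exact hc.2.1 g
    · exact hc.1 (eq (f.trans g.symm))
    · exact mix t g (f ▸ h'')
  · rcases h'.1 with g | g | g | g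
    · exact ht g
    · exact hc.2.1 g
    · exact mix s f (by rwa [mul_comm, ← g])
    · exact hc.1 (eq (sub_eq_zero.1 ((mul_eq_zero.1 (by linear_combination f - g)).resolve_left
        (sub_ne_zero.2 hc.2.2))))

end Cfsg.Agent.Root.Mx
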