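import Cfsg.Agent.Root.Fr3
import Cfsg.Agent.Root.Sub4
import Cfsg.Agent.Root.Max5

/-! Maximality of the stabiliser of an orthonormal frame in `Ω_n(p)`, `n ≥ 10`
(`ODec.isMaximalIn_frame`). -/

set_option autoImplicit false

namespace Cfsg.Agent.Root.Mx

open Cfsg.Agent.Geom Cfsg.Agent.AutCl Module QuadraticMap

variable {F : Type*} [Field F] {V : Type*} [AddCommGroup V] [Module F V] {Q : QuadraticForm F V}
  {X : Subgroup (OG Q)} {ι : Type*} [Fintype ι] [DecidableEq ι] {e : ι → V}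

attribute [-simp] QuadraticMap.polar_self

theorem odd_swap {G : Type*} [Group G] {a b : G} (ha : a * a = 1) (hb : b * b = 1) (h : Odd (orderOf (a * b))) :
    ∃ j : ℕ, ((a * b) ^ j * a * ((a * b) ^ j)⁻¹) * a * ((a * b) ^ j * a * ((a * b) ^ j)⁻¹)⁻¹ = b := by
  obtain ⟨r, hr⟩ := h
  have e1 : ∀ j : ℕ, a * ((a * b) ^ j)⁻¹ = (a * b) ^ j * a := fun j => by
    have : a * (a * b)⁻¹ * a⁻¹ = a * b := by
      rw [mul_inv_rev, inv_eq_of_mul_eq_one_right ha, inv_eq_of_mul_eq_one_right hb, mul_assoc, mul_assoc, ha,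
        mul_one]
    rw [← inv_pow]; nth_rw 2 [← this]; rw [conj_pow]; simp
  refine ⟨r * (r + 1), ?_⟩
  rw [mul_assoc (_ ^ _) a, e1, ← mul_assoc, ← pow_add, mul_inv_rev, mul_assoc, mul_assoc, mul_inv_cancel_left, e1,
    ← mul_assoc, ← pow_add]
  have : (a * b) ^ (r * (r + 1) + r * (r + 1) + (r * (r + 1) + r * (r + 1))) * (a * b) = 1 := by
    rw [← pow_succ, show r * (r + 1) + r * (r + 1) + (r * (r + 1) + r * (r + 1)) + 1 = (2 * r + 1) * (2 * r + 1) by
      ring, pow_mul, ← hr, pow_orderOf_eq_one, one_pow]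
  rw [eq_inv_of_mul_eq_one_left this, mul_inv_rev, inv_eq_of_mul_eq_one_right hb, inv_mul_cancel_right]

/-- The dimension of the moved space. -/
noncomputable def rk (g : OG Q) : ℕ := finrank F (mov g.1)

section Rk
variable [FiniteDimensional F V]

theorem rk_mul (g g' : OG Q) : rk (g * g') ≤ rk g + rk g' :=
  (Submodule.finrank_mono (mov_mul_le g.1 g'.1)).trans (Submodule.finrank_add_le_finrank_add_finrank _ _)

omit [FiniteDimensional F V] in
theorem rk_conj (g d : OG Q) : rk (g * d * g⁻¹) = rk d :=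
  (congrArg (fun W : Submodule F V => finrank F W) (mov_conj g.1 d.1)).trans (LinearEquiv.finrank_map_eq _ _)

theorem rk_pow (g : OG Q) (n : ℕ) : rk (g ^ n) ≤ rk g := Submodule.finrank_mono (by
  induction n with
  | zero => simp
  | succ n ih => rw [pow_succ]; exact (mov_mul_le _ _).trans (sup_le ih le_rfl))

theorem rk_refl (v : V) : rk (refl Q v) ≤ 1 :=
  (Submodule.finrank_mono (mov_refl_le v)).trans (by simpa using finrank_span_le_card (R := F) {v})

omit [Fintype ι] [DecidableEq ι] in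
theorem rk_sg (Q : QuadraticForm F V) (e : ι → V) (k l : ι) : rk (Fm.sg Q e k l) ≤ 2 :=
  (rk_mul _ _).trans (add_le_add (rk_refl _) (rk_refl _))

theorem Fm.exists_supp (h : Fm Q e) {g : OG Q} (hg : Mon e g) (h4 : rk g ≤ 4) :
    ∃ S : Finset ι, S.card ≤ 8 ∧ ∀ x ∈ mov g.1, ∀ k ∉ S, polar Q (e k) x = 0 := by
  have e1 : Submodule.span F (Set.range fun i => e i - g.1 (e i)) = mov g.1 := by
    refine le_antisymm (Submodule.span_le.2 (by rintro _ ⟨i, rfl⟩; exact sub_mem_mov _ _)) ?_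
    rintro _ ⟨v, rfl⟩
    rw [← h.sum v, map_sum]
    exact Submodule.sum_mem _ fun i _ => by
      rw [map_smul]; exact Submodule.smul_mem _ _ (Submodule.subset_span ⟨i, rfl⟩)
  obtain ⟨f, h1, h2, -⟩ := Submodule.exists_fun_fin_finrank_span_eq F (Set.range fun i => e i - g.1 (e i))
  choose u hu using h1
  choose π ε _ h3 using hg
  refine ⟨Finset.univ.image u ∪ Finset.univ.image (π ∘ u), (Finset.card_union_le _ _).trans
    ((add_le_add Finset.card_image_le Finset.card_image_le).trans (by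
      simp only [Finset.card_univ, Fintype.card_fin]; rw [e1]; exact add_le_add h4 h4)),
    fun x hx k hk => ?_⟩
  rw [← e1, ← h2] at hx
  simp only [Finset.mem_union, Finset.mem_image, Finset.mem_univ, true_and, not_or, not_exists] at hk
  refine (Submodule.span_le.2 ?_ : _ ≤ LinearMap.ker (polarBilin Q (e k))) hx
  rintro _ ⟨i, rfl⟩
  simp [← hu, h3, h.on, Ne.symm (hk.1 i), show k ≠ π (u i) from Ne.symm (hk.2 i)]

end Rk

/-- An overgroup of the frame stabiliser in `Ω`. -/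
structure OvF (e : ι → V) (X : Subgroup (OG Q)) : Prop extends Fm Q e where
  ten : 10 ≤ Fintype.card ι
  five : 5 ≤ finrank F V
  le : ∀ g, Mon e g → g.1 ∈ EG (Formed.ofQuad Q) → g ∈ X
  le' : ∀ g ∈ X, g.1 ∈ EG (Formed.ofQuad Q)
  small : ¬ ∀ g : OG Q, g.1 ∈ EG (Formed.ofQuad Q) → g ∈ X

namespace OvF
variable [Finite F] [FiniteDimensional F V]

theorem refl_mem (h : OvF e X) {a b : V} (ha : Q a = 1) (hb : Q b = 1) (ha' : Mon e (refl Q a))
    (hb' : Mon e (refl Q b)) : refl Q a * refl Q b ∈ X :=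
  h.le _ (ha'.mul hb') ((mem_EG_quad h.hn h.five).2
    (refl_mul_refl_mem_commutator h.hn (by simp [hb]) one_ne_zero (by simp [ha, hb])))

theorem root_mem (h : OvF e X) {a b : V} (ha : IsR (F := F) e a) (hb : IsR (F := F) e b) :
    refl Q a * refl Q b ∈ X := h.refl_mem (h.Q_root ha) (h.Q_root hb) (h.mon_refl ha) (h.mon_refl hb)

theorem sg_mem (h : OvF e X) {k l : ι} (hkl : k ≠ l) : Fm.sg Q e k l ∈ X := h.root_mem (isR_add hkl) (isR_sub hkl)

theorem no_refl (h : OvF e X) {g : OG Q} (hg : g.1 ∈ EG (Formed.ofQuad Q)) {p : V}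
    (H : ∀ v, g.1 v - v ∈ F ∙ p) (v : V) : Q (g.1 v - v) = 0 := noRefl_quad h.hn h.five _ hg p H v

theorem K2 (h : OvF e X) {c : OG Q} (hc : c ∈ X) {a : V} (ha : Q a = 1) (h1 : Mon e (refl Q a))
    (h2 : Mon e (refl Q (c.1 a))) : Mon e c := by
  obtain ⟨r, hr⟩ : ∃ r, r = refl Q (c.1 a) := ⟨_, rfl⟩
  have rr : r * r = 1 := hr ▸ refl_mul_self _ _
  have ri : r⁻¹ = r := inv_eq_of_mul_eq_one_right rr
  have rc : ∀ g, r * (r * g) = g := fun g => by rw [← mul_assoc, rr, one_mul]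
  let Y : Subgroup (OG Q) :=
    { carrier := {g | (g ∈ X ∧ r * g * r ∈ X) ∨ (r * g ∈ X ∧ g * r ∈ X)}
      one_mem' := Or.inl ⟨one_mem _, by simp [rr]⟩
      mul_mem' := by
        rintro g g' (⟨a1, a2⟩ | ⟨a1, a2⟩) (⟨b1, b2⟩ | ⟨b1, b2⟩)
        · exact Or.inl ⟨mul_mem a1 b1, by simpa [mul_assoc, rc] using mul_mem a2 b2⟩
        · exact Or.inr ⟨by simpa [mul_assoc, rc] using mul_mem a2 b1, by simpa [mul_assoc] using mul_mem a1 b2⟩
        · exact Or.inr ⟨by simpa [mul_assoc] using mul_mem a1 b1, by simpa [mul_assoc, rc] using mul_mem a2 b2⟩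
        · exact Or.inl ⟨by simpa [mul_assoc, rc] using mul_mem a2 b1, by simpa [mul_assoc] using mul_mem a1 b2⟩
      inv_mem' := by
        rintro g (⟨a1, a2⟩ | ⟨a1, a2⟩)
        · exact Or.inl ⟨inv_mem a1, by simpa [ri, mul_assoc] using inv_mem a2⟩
        · exact Or.inr ⟨by simpa [ri] using inv_mem a2, by simpa [ri] using inv_mem a1⟩ }
  have key : ∀ y, Q y = 1 → r * refl Q y ∈ X → Ro Y y := fun y h1 h2 =>
    ⟨h1, Or.inr ⟨h2, by simpa [ri] using inv_mem h2⟩⟩
  have qa : Q (c.1 a) = 1 := by rw [OG.map_Q, ha]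
  have hY : ∀ y, IsR (F := F) e y → Ro Y y := fun y hy =>
    key y (h.Q_root hy) (hr ▸ h.refl_mem qa (h.Q_root hy) h2 (h.mon_refl hy))
  have hY' : ∀ y, IsR (F := F) e y → Ro Y (c.1 y) := fun y hy => key _ (by rw [OG.map_Q, h.Q_root hy]) (by
    have := mul_mem (mul_mem hc (h.refl_mem ha (h.Q_root hy) h1 (h.mon_refl hy))) (inv_mem hc)
    rw [hr, ← conj_refl, ← conj_refl]; simpa [mul_assoc] using this)
  have hE : ¬ EG (Formed.ofQuad Q) ≤ Y.map (OG Q).subtype := fun H => h.small fun g hg => by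
    obtain ⟨g', hg', e⟩ := H hg
    obtain rfl : g' = g := Subtype.ext e
    refine (hg'.resolve_right fun ⟨h3, _⟩ => ?_).1
    have h4 : r.1 ∈ EG (Formed.ofQuad Q) := by simpa using mul_mem (h.le' _ h3) (inv_mem hg)
    have := h.no_refl h4 (p := c.1 a) (fun v => by
      rw [hr, refl_apply]; simpa using Submodule.smul_mem _ _ (Submodule.mem_span_singleton_self _)) (c.1 a)
    rw [hr, refl_self (by simp [qa]), ← neg_add', QuadraticMap.map_neg, ← two_smul F, quad_smul, qa] at this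
    simp [h.two] at this
  have h10 := h.ten
  refine h.mon_of_root (by omega) fun y hy => ?_
  by_cases h3 : (3 : F) = 0
  · exact (h.three (by omega) h3 hY (hY' y hy)).resolve_right hE
  have hN : ¬ NE Y := fun ⟨_, _, a1, a2, a3⟩ => hE ((h.rg (by omega) hY).EG_le h3 a1 a2 a3)
  refine (h.thmA (by omega) h3 hY hN (hY' y hy)).resolve_right fun ⟨m, hm⟩ => ?_
  obtain ⟨i, j, hij, ε, δ, e1, e2, rfl⟩ := id hy
  obtain ⟨k, hk⟩ := exists_out_list [i, j] (by simp; omega)
  simp only [List.mem_cons, List.not_mem_nil, or_false, not_or] at hk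
  have hz : IsR (F := F) e (ε • e i + e k) := ⟨i, k, Ne.symm hk.1, ε, 1, e1, by simp, by simp⟩
  have e3 : polar Q (c.1 (ε • e i + δ • e j)) (c.1 (ε • e i + e k)) = 1 := by
    rw [OG.map_polar]; simp [h.on, hij.symm, Ne.symm hk.1, Ne.symm hk.2, e1]
  obtain ⟨t, ht⟩ := Submodule.mem_span_singleton.1 hm
  have sq : ∀ {t : F} {m : ι} {y : V}, IsR (F := F) e y → t • e m = c.1 y → t * t = 2 := fun hy ht => by
    have := h.Q_eq.1 (hY' _ hy).1
    simpa [← ht, h.on] using this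
  have e4 := sq hy ht
  rw [← ht, polar_smul_left, smul_eq_mul] at e3
  rcases h.thmA (by omega) h3 hY hN (hY' _ hz) with ⟨u, v, huv, ε', δ', f1, f2, f3⟩ | ⟨n, hn⟩
  · rw [f3] at e3
    by_cases b1 : m = u
    · simp [h.on, b1, huv] at e3
      exact one_ne_zero (α := F) (by linear_combination (t * ε' + 1) * e3 - e4 - t * t * f1)
    by_cases b2 : m = v
    · simp [h.on, b2, huv.symm] at e3
      exact one_ne_zero (α := F) (by linear_combination (t * δ' + 1) * e3 - e4 - t * t * f2)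
    · simp [h.on, b1, b2] at e3
  · obtain ⟨s, hs⟩ := Submodule.mem_span_singleton.1 hn
    have e5 := sq hz hs
    rw [← hs] at e3
    by_cases b1 : m = n
    · simp [h.on, b1] at e3
      exact h3 (by linear_combination (t * s + 1) * e3 - s * s * e4 - 2 * e5)
    · simp [h.on, b1] at e3

theorem exists_root (h : OvF e X) {g : OG Q} (hg : g ∈ X) (hm : Mon e g) (h1 : g ≠ 1) :
    ∃ a ∈ mov g.1, IsR (F := F) e a := by
  by_contra! hc
  have d : ∀ i, g.1 (e i) = e i ∨ g.1 (e i) = -e i := fun i => by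
    obtain ⟨j, ε, e1, e2⟩ := hm i
    by_cases hij : i = j
    · subst hij
      rcases mul_self_eq_one_iff.1 e1 with rfl | rfl
      · exact Or.inl (by simpa using e2)
      · exact Or.inr (by simpa using e2)
    · exact absurd ⟨i, j, hij, 1, -ε, by simp, by simpa using e1, by rw [e2]; module⟩ (hc _ (sub_mem_mov g.1 (e i)))
  obtain ⟨i, hi⟩ : ∃ i, g.1 (e i) = -e i := by
    by_contra! H
    exact h1 (OG.ext fun v => by
      rw [← h.sum v]; simp [map_sum, fun i => (d i).resolve_right (H i)])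
  have o : ∀ j ≠ i, g.1 (e j) = e j := fun j hj => (d j).resolve_right fun H => hc _
    (((mov g.1).smul_mem_iff h.two).1 (by
      convert add_mem (sub_mem_mov g.1 (e j)) (sub_mem_mov g.1 (e i)) using 1; rw [H, hi]; module)) (isR_add hj)
  have := h.no_refl (h.le' g hg) (p := e i) (fun v => by
    rw [← h.sum v, map_sum, ← Finset.sum_sub_distrib]
    refine Submodule.sum_mem _ fun j _ => ?_
    by_cases hj : j = i
    · rw [hj, map_smul, hi, ← smul_sub]
      exact Submodule.smul_mem _ _ (sub_mem (neg_mem (Submodule.mem_span_singleton_self _))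
        (Submodule.mem_span_singleton_self _))
    · simp [o j hj]) (e i)
  have e1 := h.on i i
  rw [hi, ← neg_add', QuadraticMap.map_neg, ← two_smul F, quad_smul] at this
  rw [polar_self', (mul_eq_zero.1 this).resolve_left (pow_ne_zero _ h.two)] at e1
  simp at e1

omit [Finite F] [FiniteDimensional F V] in
theorem sg_ne (h : OvF e X) {k l : ι} (hkl : k ≠ l) : Fm.sg Q e k l ≠ 1 := fun H => by
  have := h.co_sg hkl (e k) k
  simp [H, h.on] at this
  exact h.two (by linear_combination this)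

theorem plane (h : OvF e X) {g : OG Q} (hg : g ∈ X) {k l : ι} (hkl : k ≠ l) (H : Mon e (g⁻¹ * Fm.sg Q e k l * g)) :
    ∃ α β : F, IsR (F := F) e ((g⁻¹).1 (α • e k + β • e l)) := by
  obtain ⟨_, ⟨v, rfl⟩, ha⟩ := h.exists_root (mul_mem (mul_mem (inv_mem hg) (h.sg_mem hkl)) hg) H
    (by simpa [mul_assoc, inv_mul_eq_one] using h.sg_ne hkl)
  refine ⟨2 * polar Q (e k) (g.1 v), 2 * polar Q (e l) (g.1 v), ?_⟩
  convert ha using 1
  simp [h.sg_apply hkl]; abel

theorem Z (h : OvF e X) {g : OG Q} (hg : g ∈ X) {k l : ι} (hkl : k ≠ l) (H : Mon e (g⁻¹ * Fm.sg Q e k l * g)) :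
    Mon e g := by
  have h10 := h.ten
  obtain ⟨α₀, β₀, h0⟩ := h.plane hg hkl H
  have fx : ∀ s ∈ X, s.1 (e k) = e k → s.1 (e l) = e l → Mon e (g⁻¹ * s * g) := fun s hs e1 e2 =>
    h.K2 (mul_mem (mul_mem (inv_mem hg) hs) hg) (h.Q_root h0) (h.mon_refl h0) (by
      rw [OG.mul_apply, OG.mul_apply, OG.apply_inv_apply, map_add s.1, map_smul, map_smul, e1, e2]
      exact h.mon_refl h0)
  obtain ⟨i, hi⟩ := exists_out_list [k, l] (by simp; omega)
  obtain ⟨j, hj⟩ := exists_out_list [k, l, i] (by simp; omega)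
  obtain ⟨m, hm⟩ := exists_out_list [k, l, i, j] (by simp; omega)
  obtain ⟨n, hn⟩ := exists_out_list [k, l, i, j, m] (by simp; omega)
  simp only [List.mem_cons, List.not_mem_nil, or_false, not_or] at hi hj hm hn
  obtain ⟨α, β, h1⟩ := h.plane hg (Ne.symm hj.2.2) (fx _ (h.sg_mem (Ne.symm hj.2.2))
    (by simp [h.sg_apply (Ne.symm hj.2.2), h.on, *]) (by simp [h.sg_apply (Ne.symm hj.2.2), h.on, *]))
  have q : α * α + β * β = 2 := by
    have := h.Q_eq.1 (h.Q_root h1)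
    rw [OG.map_polar] at this
    simpa [h.on, hj.2.2, Ne.symm hj.2.2] using this
  have fin : Mon e (refl Q (α • e i + β • e j)) → Mon e g := fun H => by
    simpa using h.K2 hg (h.Q_root h1) (h.mon_refl h1) (by rwa [OG.apply_inv_apply])
  have fr : ∀ (i : ι) (α : F), α ≠ 0 → Mon e (refl Q (α • e i)) := fun i α hα j => by
    have : (Q (e i))⁻¹ = 2 := inv_eq_of_mul_eq_one_left (by simpa [polar_self'] using h.on i i)
    rw [refl_smul hα, refl_apply, this, h.on]
    by_cases hij : i = j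
    · exact ⟨i, -1, by simp, by simp only [hij, if_true]; module⟩
    · exact ⟨j, 1, by simp, by simp [hij]⟩
  by_cases hα : α = 0
  · exact fin (by simpa [hα] using fr j β (by rintro rfl; simp [hα, h.two.symm] at q))
  by_cases hβ : β = 0
  · exact fin (by simpa [hβ] using fr i α hα)
  have key : ∀ (i j : ι) (α β : F), i ∉ [k, l, m, n] → j ∉ [k, l, m, n] → i ≠ j → α ≠ 0 → β ≠ 0 →
      IsR (F := F) e ((g⁻¹).1 (α • e i + β • e j)) → α * α * (α * α) = 1 := fun i j α β hi hj hij hα hβ h1 => by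
    simp only [List.mem_cons, List.not_mem_nil, or_false, not_or] at hi hj
    have r1 := isR_sub (F := F) (e := e) hj.2.2.1
    have r2 := isR_sub (F := F) (e := e) (Ne.symm hn.2.2.2.2)
    have ap : ∀ u, u ≠ m → u ≠ n → (refl Q (e j - e m) * refl Q (e m - e n)).1 (e u) =
        if u = j then e m else e u := fun u h1 h2 => by
      rw [OG.mul_apply, refl_of_perp (x := e u) (by simp [h.on, h1.symm, h2.symm]), refl_apply, h.Q_root r1]
      by_cases h3 : u = j
      · simp [h.on, h3, Ne.symm hj.2.2.1]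
      · simp [h.on, h3, Ne.symm h3, h1.symm]
    have h2 := Fm.Mon.root h.toFm (fx _ (h.root_mem r1 r2) (by rw [ap k (Ne.symm hm.1) (Ne.symm hn.1), if_neg (Ne.symm hj.1)])
      (by rw [ap l (Ne.symm hm.2.1) (Ne.symm hn.2.1), if_neg (Ne.symm hj.2.1)])) h1
    rw [OG.mul_apply, OG.mul_apply, OG.apply_inv_apply, map_add (_ * _ : OG Q).1, map_smul, map_smul,
      ap i hi.2.2.1 hi.2.2.2, ap j hj.2.2.1 hj.2.2.2, if_neg hij, if_pos rfl] at h2
    have e0 : polar Q ((g⁻¹).1 (α • e i + β • e j)) ((g⁻¹).1 (α • e i + β • e m)) = α * α := by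
      rw [OG.map_polar]; simp [h.on, hi, hj, hij.symm]
    rcases h.polar_roots h1 h2 with f | f | f | ⟨f, -⟩
    · rwa [e0] at f
    · simpa [h.on, Ne.symm hi.2.2.1, Ne.symm hj.2.2.1, hβ] using congrArg (polar Q (e m)) ((g⁻¹).1.injective f)
    · rw [← map_neg] at f
      simpa [h.on, Ne.symm hi.2.2.1, Ne.symm hj.2.2.1, hβ] using congrArg (polar Q (e m)) ((g⁻¹).1.injective f)
    · rw [e0] at f; simp [hα] at f
  have a1 := key i j α β (by simp [hi, Ne.symm hm.2.2.1, Ne.symm hn.2.2.1])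
    (by simp [hj, Ne.symm hm.2.2.2, Ne.symm hn.2.2.2.1]) (Ne.symm hj.2.2) hα hβ h1
  have a2 := key j i β α (by simp [hj, Ne.symm hm.2.2.2, Ne.symm hn.2.2.2.1])
    (by simp [hi, Ne.symm hm.2.2.1, Ne.symm hn.2.2.1]) hj.2.2 hβ hα (by rwa [add_comm])
  have a3 : α * α = 1 := (mul_eq_zero.1 (show (2 * 2 : F) * (α * α - 1) = 0 by
    linear_combination a1 - a2 + (β * β - α * α + 2) * q)).resolve_left (mul_ne_zero h.two h.two) |> sub_eq_zero.1
  exact fin (h.mon_refl ⟨i, j, Ne.symm hj.2.2, α, β, a3, by linear_combination q - a3, rfl⟩)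

theorem fin (h : OvF e X) {g d : OG Q} (hg : g ∈ X) (hd : d ∈ X) (h1 : d ≠ 1) (hm : Mon e d)
    (hm' : Mon e (g⁻¹ * d * g)) (h4 : rk d ≤ 4) : Mon e g := by
  have h10 := h.ten
  obtain ⟨a, ha, hr⟩ := h.exists_root hd hm h1
  obtain ⟨S, hS, H⟩ := h.toFm.exists_supp hm' (by simpa using (rk_conj g⁻¹ d).trans_le h4)
  obtain ⟨k, hk⟩ := exists_out S (by omega)
  obtain ⟨l, hl⟩ := exists_out (insert k S) (by rw [Finset.card_insert_of_notMem hk]; omega)
  simp only [Finset.mem_insert, not_or] at hl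
  have ha' : (g⁻¹).1 a ∈ mov (g⁻¹ * d * g).1 := by
    obtain ⟨v, rfl⟩ := ha
    exact ⟨(g⁻¹).1 v, by simp⟩
  have hc := h.K2 (mul_mem (mul_mem hg (h.sg_mem (Ne.symm hl.1))) (inv_mem hg)) (h.Q_root hr) (h.mon_refl hr) (by
    rw [OG.mul_apply, OG.mul_apply, h.sg_apply (Ne.symm hl.1), H _ ha' k hk, H _ ha' l hl.2]
    simpa using h.mon_refl hr)
  simpa using Fm.Mon.inv h.toFm (h.Z (inv_mem hg) (Ne.symm hl.1) (by simpa using hc))

theorem mon (h : OvF e X) {g : OG Q} (hg : g ∈ X) : Mon e g := by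
  by_contra hc
  have h10 := h.ten
  have : Finite V := Module.finite_of_finite F
  have : Finite (V ≃ₗ[F] V) := Finite.of_injective _ (DFunLike.coe_injective (F := V ≃ₗ[F] V))
  obtain ⟨i, -⟩ := exists_out_list ([] : List ι) (by simp; omega)
  obtain ⟨j, hj⟩ := exists_out_list [i] (by simp; omega)
  obtain ⟨k, hk⟩ := exists_out_list [i, j] (by simp; omega)
  simp only [List.mem_cons, List.not_mem_nil, or_false, not_or] at hj hk
  have sq : ∀ {k l : ι}, k ≠ l → Fm.sg Q e k l * Fm.sg Q e k l = 1 := fun hkl => OG.ext fun x => h.ext fun m => by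
    rw [OG.mul_apply, h.co_sg hkl, h.co_sg hkl]; split_ifs <;> simp
  have ms : ∀ {k l : ι}, k ≠ l → Mon e (Fm.sg Q e k l) := fun hkl =>
    (h.mon_refl (isR_add hkl)).mul (h.mon_refl (isR_sub hkl))
  obtain ⟨t, ht⟩ : ∃ t, t = g * Fm.sg Q e i j * g⁻¹ := ⟨_, rfl⟩
  have tX : t ∈ X := ht ▸ mul_mem (mul_mem hg (h.sg_mem (Ne.symm hj))) (inv_mem hg)
  have t2 : t * t = 1 := by rw [ht, conj_mul, sq (Ne.symm hj)]; simp
  have key : ∀ l, i ≠ l → ∃ u ∈ X, u * u = 1 ∧ rk u ≤ 2 ∧ u * Fm.sg Q e i l * u⁻¹ = t ∧ Mon e (g⁻¹ * u) :=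
    fun l hl => by
      have sX := h.sg_mem hl
      rcases Nat.even_or_odd (orderOf (Fm.sg Q e i l * t)) with ho | ho
      · obtain ⟨h1, h2, h3⟩ := Invol.half_pow_spec (sq hl) t2 ho
        have zX := pow_mem (mul_mem sX tX) (orderOf (Fm.sg Q e i l * t) / 2)
        refine absurd (h.fin hg zX (Invol.ne_one_of h1) (h.Z zX hl ?_)
          (h.Z (mul_mem (mul_mem (inv_mem hg) zX) hg) (Ne.symm hj) ?_) ((rk_pow _ _).trans ((rk_mul _ _).trans ?_))) hc
        · rw [mul_assoc, ← h2.eq, inv_mul_cancel_left]; exact ms hl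
        · generalize (Fm.sg Q e i l * t) ^ (orderOf (Fm.sg Q e i l * t) / 2) = z at h3
          rw [show (g⁻¹ * z * g)⁻¹ * Fm.sg Q e i j * (g⁻¹ * z * g) = g⁻¹ * (z⁻¹ * (t * z)) * g by rw [ht]; group,
            ← h3.eq, inv_mul_cancel_left, ht]
          simpa [mul_assoc] using ms (Ne.symm hj)
        · have := rk_sg Q e i l; have := rk_sg Q e i j; rw [ht, rk_conj]; omega
      obtain ⟨n, hn⟩ := odd_swap (sq hl) t2 ho
      have zX := pow_mem (mul_mem sX tX) n
      generalize (Fm.sg Q e i l * t) ^ n = z at hn zX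
      have uX := mul_mem (mul_mem zX sX) (inv_mem zX)
      refine ⟨_, uX, by rw [conj_mul, sq hl]; simp, (rk_conj _ _).trans_le (rk_sg ..), hn,
        h.Z (mul_mem (inv_mem hg) uX) (Ne.symm hj) ?_⟩
      generalize z * _ * z⁻¹ = u at hn
      rw [show (g⁻¹ * u)⁻¹ * Fm.sg Q e i j * (g⁻¹ * u) = u⁻¹ * t * u by rw [ht]; group, ← hn]
      simpa [mul_assoc] using ms hl
  obtain ⟨u, a1, a2, a3, a4, a5⟩ := key j (Ne.symm hj)
  obtain ⟨v, b1, b2, b3, b4, b5⟩ := key k (Ne.symm hk.1)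
  have ui := inv_eq_of_mul_eq_one_right a2
  have vi := inv_eq_of_mul_eq_one_right b2
  refine hc (h.fin hg (mul_mem a1 b1) (fun e0 => ?_) ?_ ?_ ((rk_mul _ _).trans (by omega)))
  · obtain rfl : u = v := by rw [← ui, inv_eq_of_mul_eq_one_right e0]
    have e1 := h.co_sg (Ne.symm hj) (e k) k
    rw [mul_left_cancel (mul_right_cancel (a4.trans b4.symm)), h.co_sg (Ne.symm hk.1)] at e1
    simp [h.on, hk] at e1
    exact h.two (by linear_combination -e1)
  · simpa [mul_assoc, ui] using (Fm.Mon.inv h.toFm a5).mul b5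
  · simpa [mul_assoc, vi] using a5.mul (Fm.Mon.inv h.toFm b5)

end OvF

theorem Fm.isMaximalIn [Finite F] [FiniteDimensional F V] (h : Fm Q e) (h10 : 10 ≤ Fintype.card ι)
    (h5 : 5 ≤ finrank F V) {H : Subgroup (V ≃ₗ[F] V)} (hH : ∀ g : OG Q, g.1 ∈ H ↔ Mon e g) :
    Geo.IsMaximalIn (EG (Formed.ofQuad Q)) (H ⊓ EG (Formed.ofQuad Q)) := by
  refine max_crit inf_le_right ?_ fun X h1 h2 g hg hg' => ?_
  · obtain ⟨u, v, huv⟩ := exists_bin h.two one_ne_zero one_ne_zero (-1 : F)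
    obtain ⟨J, -, hJ⟩ := Finset.exists_subset_card_eq (s := (Finset.univ : Finset ι)) (n := 3) (by simp; omega)
    obtain ⟨i, j, k, hij, hik, hjk, -⟩ := Finset.card_eq_three.1 hJ
    obtain ⟨l, hl⟩ := exists_out_list [i, j, k] (by simp; omega)
    obtain ⟨m, hm⟩ := exists_out_list [i, j, k, l] (by simp; omega)
    simp only [List.mem_cons, List.not_mem_nil, or_false, not_or] at hl hm
    obtain ⟨y, hy⟩ : ∃ y, y = e i + e j + e k + u • e l + v • e m := ⟨_, rfl⟩
    have c : polar Q (e i) y = 1 ∧ polar Q (e j) y = 1 ∧ polar Q (e k) y = 1 ∧ polar Q (e l) y = u ∧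
        polar Q (e m) y = v := by
      simp [hy, h.on, hij, hik, hjk, hij.symm, hik.symm, hjk.symm, hl, hm, Ne.symm hl.1, Ne.symm hl.2.1,
        Ne.symm hl.2.2, Ne.symm hm.1, Ne.symm hm.2.1, Ne.symm hm.2.2.1, Ne.symm hm.2.2.2]
    have q : Q y = 1 := h.Q_eq.2 (by nth_rw 1 [hy]; simp [c]; linear_combination huv)
    have r := isR_add (F := F) (e := e) hij
    refine ⟨_, (mem_EG_quad h.hn h5).2 (refl_mul_refl_mem_commutator h.hn (u := e i + e j) (v := y)
      (by simp [q]) one_ne_zero (by simp [q, h.Q_root r])), fun hc => ?_⟩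
    obtain ⟨n, ε, -, e1⟩ := (h.mon_refl r).mul ((hH _).1 hc.1) i
    rw [refl_mul_cancel, refl_apply, q, polar_comm, c.1] at e1
    have e2 := congrArg (polar Q (e j)) e1
    have e3 := congrArg (polar Q (e k)) e1
    by_cases hn : j = n
    · simp [c, h.on, hik.symm, ← hn, hjk.symm] at e3
    · simp [c, h.on, hij.symm, hn] at e2
  by_contra hc
  have H : OvF e (X.comap (OG Q).subtype) := ⟨h, h10, h5, fun g a b => h1 ⟨(hH g).2 a, b⟩, fun g a => h2 a,
    fun H => hc fun g hg => H ⟨g, EG_le_isom hg⟩ hg⟩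
  exact hg' ⟨(hH ⟨g, EG_le_isom (h2 hg)⟩).2 (H.mon hg), h2 hg⟩

theorem EG_smul (Q : QuadraticForm F V) {c : F} (hc : c ≠ 0) :
    EG (Formed.ofQuad (c • Q)) = EG (Formed.ofQuad Q) := by
  rw [← EG_scale (Φ := Formed.ofQuad Q) (η := 1) (h1 := by simp) (h2 := by simp) (h3 := by simp) (h4 := by simp) hc]
  unfold scale Formed.ofQuad
  congr
  · ext x y; simp [polar, mul_sub]
  · simp

theorem ODec.isMaximalIn_frame [Finite F] [FiniteDimensional F V] {t : ℕ} {D : Fin t → Submodule F V}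
    (h : ODec (Formed.ofQuad Q) 1 D) (h2 : (2 : F) ≠ 0) (hp : (Nat.card F).Prime) (h10 : 10 ≤ finrank F V)
    (iso : ∀ i j, ∃ f : D i ≃ₗ[F] D j, ∀ x, Q (f x) = Q x) :
    Geo.IsMaximalIn (EG (Formed.ofQuad Q)) (dstab D ⊓ EG (Formed.ofQuad Q)) := by
  have ht : finrank F V = t := by simpa using h.finrank_eq
  obtain ⟨i₀⟩ : Nonempty (Fin t) := ⟨⟨0, by omega⟩⟩
  obtain ⟨x, hx, hx0⟩ := h.exists_ne i₀
  choose f hf using iso i₀
  obtain ⟨e, he⟩ : ∃ e : Fin t → V, ∀ i, e i = f i ⟨x, hx⟩ := ⟨_, fun _ => rfl⟩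
  have m : ∀ i, e i ∈ D i := fun i => he i ▸ (f i _).2
  have sp : ∀ i, ∀ y ∈ D i, ∃ c : F, c • e i = y := fun i y hy => by
    obtain ⟨c, hc⟩ := (finrank_eq_one_iff_of_nonzero' (f i ⟨x, hx⟩) (by simpa using hx0)).1 (h.rk i) ⟨y, hy⟩
    exact ⟨c, he i ▸ congrArg Subtype.val hc⟩
  have q : ∀ i, polar Q (e i) (e i) = 2 * Q x := fun i => by rw [polar_self', he, hf]
  have hc : 2 * Q x ≠ 0 := fun e0 => hx0 (h.eq_zero' fun i y hy => by
    rcases eq_or_ne i i₀ with rfl | hi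
    · obtain ⟨c, rfl⟩ := sp _ y hy
      obtain ⟨d, hd⟩ := sp _ x hx
      nth_rw 1 [← hd]; simp [q, e0]
    · exact h.orth _ _ hi y hy x hx)
  rw [← EG_smul Q (inv_ne_zero hc)]
  have ps : ∀ u v, polar ((2 * Q x)⁻¹ • Q :) u v = (2 * Q x)⁻¹ * polar Q u v := fun u v => by simp [polar, mul_sub]
  generalize (2 * Q x)⁻¹ • Q = Q' at ps
  have on : ∀ i j, polar Q' (e i) (e j) = if i = j then 1 else 0 := fun i j => by
    rw [ps]
    split_ifs with hij
    · rw [hij, q, inv_mul_cancel₀ hc]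
    · rw [show polar Q (e i) (e j) = 0 from h.orth i j hij _ (m i) _ (m j), mul_zero]
  have H : Fm Q' e := by
    refine ⟨h2, fun c => ?_, on, fun v => ?_⟩
    · have : Fact (Nat.card F).Prime := ⟨hp⟩
      obtain ⟨n, hn⟩ := mem_powers_of_prime_card (G := Multiplicative F) (p := Nat.card F) rfl
        (g := Multiplicative.ofAdd 1) (g' := Multiplicative.ofAdd c) (by simp)
      exact ⟨n, by simpa [← ofAdd_nsmul] using hn⟩
    · obtain ⟨π, h1, -, rfl⟩ := h.exists_sum v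
      choose c hc using fun i => sp i _ (h1 i)
      simp only [← hc, ← polarBilin_apply_apply, map_sum]
      simp [on]
  refine H.isMaximalIn (by simpa [← ht]) (by omega) fun g => ⟨fun ⟨s, hs⟩ i => ?_, fun hg => h.mem_dstab fun i => ?_⟩
  · obtain ⟨c, hc⟩ := sp (s i) (g.1 (e i)) (hs i ▸ ⟨_, m i, rfl⟩)
    exact ⟨s i, c, by simpa [← hc, on] using OG.map_polar g (e i) (e i), hc.symm⟩
  · obtain ⟨j, ε, -, e1⟩ := hg i
    refine ⟨j, fun y hy => ?_⟩
    obtain ⟨c, rfl⟩ := sp i y hy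
    rw [map_smul, e1]
    exact (D j).smul_mem _ ((D j).smul_mem _ (m j))

end Cfsg.Agent.Root.Mx
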