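import Cfsg.Agent.Root.Mon2
import Cfsg.Agent.Root.Sub5
import Cfsg.Agent.Root.Max5

/-! Maximality of the imprimitive subgroups `GL_k ≀ S_t ∩ SL` (`isMaximalIn_dstab_SL`), with block projections
`Prj` and the standing hypotheses `IX` on an overgroup. -/

set_option autoImplicit false

namespace Cfsg.Agent.Root.Mx

open Cfsg.Agent.Geom Cfsg.Agent.AutCl Module

variable {F : Type*} [Field F] {V : Type*} [AddCommGroup V] [Module F V] {t k : ℕ} {D : Fin t → Submodule F V}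
  {X : Subgroup (V ≃ₗ[F] V)} {π : Fin t → End F V}

theorem hasL_sum {κ : Type*} (S : Finset κ) {y : V} {φ : κ → Dual F V} (h0 : ∀ i, φ i y = 0)
    (h : ∀ i, HasL X (rk1 y (φ i))) : HasL X (rk1 y (∑ i ∈ S, φ i)) := by
  classical
  induction S using Finset.induction_on with
  | empty => exact HasL.zero.congr (by simp)
  | insert b S hb ih =>
    exact ((h b).add ih (rk1_mul_zero (h0 b))).congr fun v => by simp [Finset.sum_insert hb, add_smul]

theorem hasL_SLg_mul [FiniteDimensional F V] {A B : End F V} (h : B * A = 0) : HasL (SLg F V) (A * B) := by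
  have e1 : A * B * (A * B) = 0 := by rw [mul_assoc, ← mul_assoc B, h]; simp
  refine ⟨LinearEquiv.ofLinearMap (1 + A * B) (1 - A * B) ?_ ?_, mem_SLg.2 ?_, rfl⟩
  · change (1 + A * B) * (1 - A * B) = 1
    rw [add_mul, mul_sub, mul_sub, e1]; simp
  · change (1 - A * B) * (1 + A * B) = 1
    rw [sub_mul, mul_add, mul_add, e1]; simp
  · change LinearMap.det (1 + A * B) = 1
    rw [← LinearMap.det_toMatrix (finBasis F V), map_add, LinearMap.toMatrix_mul, LinearMap.toMatrix_one,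
      Matrix.det_one_add_mul_comm, ← LinearMap.toMatrix_mul, h]; simp

theorem hasL_hom [FiniteDimensional F V] {a b : V} {α β : Dual F V} (h1 : α a = 1) (h2 : β b = 1) (h3 : α b = 0)
    {θ : F} (h0 : θ ≠ 0) : HasL (SLg F V) (rk1 ((θ - 1) • a) α + rk1 ((θ⁻¹ - 1) • b) β) := by
  have e1 : 1 + α ((θ - 1) • a) = θ := by simp [h1]
  have e2 : 1 + β ((θ⁻¹ - 1) • b) = θ⁻¹ := by simp [h2]
  refine .of_apply (g := LinearEquiv.dilatransvection (by rw [e1]; exact h0.isUnit : IsUnit (1 + α ((θ - 1) • a))) *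
    LinearEquiv.dilatransvection (by rw [e2]; exact (inv_ne_zero h0).isUnit : IsUnit (1 + β ((θ⁻¹ - 1) • b)))) (mem_SLg.2 ?_)
    fun v => ?_
  · change LinearMap.det (LinearMap.transvection α _ * LinearMap.transvection β _) = 1
    rw [map_mul, LinearMap.transvection.det, LinearMap.transvection.det, e1, e2, mul_inv_cancel₀ h0]
  · simp [LinearEquiv.dilatransvection.apply, h3]; module

/-- The projections onto the blocks. -/
structure Prj (k : ℕ) (D : Fin t → Submodule F V) (π : Fin t → End F V) : Prop extends Dec k D where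
  mem : ∀ i v, π i v ∈ D i
  self : ∀ {i x}, x ∈ D i → π i x = x
  ne : ∀ {i j x}, x ∈ D i → j ≠ i → π j x = 0
  sum : ∀ v, ∑ i, π i v = v

theorem Dec.exists_prj (h : Dec k D) : ∃ π, Prj k D π := by
  have c : ∀ i, IsCompl (D i) (⨆ j ≠ i, D j) := fun i => ⟨h.indep i, codisjoint_iff.2 (top_le_iff.1 (by
    rw [← h.top]
    refine iSup_le fun j => ?_
    by_cases hj : j = i
    exacts [hj ▸ le_sup_left, le_sup_of_le_right (le_iSup₂_of_le j hj le_rfl)]))⟩
  have e1 : ∀ {i j x}, x ∈ D i → j ≠ i → (D j).projection _ (c j) x = 0 := fun {i j x} hx hj =>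
    (Submodule.projection_apply_eq_zero_iff _).2 (Submodule.mem_iSup_of_mem i (Submodule.mem_iSup_of_mem hj.symm hx))
  refine ⟨fun i => (D i).projection _ (c i), h, fun i v => Submodule.projection_apply_mem _ _,
    Submodule.projection_apply_of_mem_left _, e1, fun v => ?_⟩
  refine Submodule.iSup_induction D (motive := fun v => ∑ i, (D i).projection _ (c i) v = v)
    (h.top ▸ Submodule.mem_top) (fun i x hx => ?_) (by simp) fun x y a b => by simp [Finset.sum_add_distrib, a, b]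
  rw [Finset.sum_eq_single i (fun j _ hj => e1 hx hj) (by simp), Submodule.projection_apply_of_mem_left _ hx]

/-- Functionals supported on one block. -/
def InB (D : Fin t → Submodule F V) (j : Fin t) (χ : Dual F V) : Prop := ∀ i ≠ j, ∀ x ∈ D i, χ x = 0

namespace Prj

theorem apply (h : Prj k D π) {j : Fin t} {χ : Dual F V} (hχ : InB D j χ) (v : V) : χ (π j v) = χ v := by
  conv_rhs => rw [← h.sum v, map_sum]
  exact (Finset.sum_eq_single j (fun i _ hi => hχ i hi _ (h.mem i v)) (by simp)).symm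

theorem exists_in (h : Prj k D π) {j : Fin t} {w : V} (hw : w ∈ D j) {S : Submodule F V} (hS : w ∉ S) :
    ∃ χ, InB D j χ ∧ χ w = 1 ∧ ∀ v, π j v ∈ S → χ v = 0 := by
  obtain ⟨φ, h1, h2⟩ := exists_fun hS
  exact ⟨φ ∘ₗ π j, fun i hi x hx => by simp [h.ne hx hi.symm], by simp [h.self hw, h1], fun v hv => h2 _ hv⟩

theorem exists_ne' (h : Prj k D π) {ψ : Dual F V} (h0 : ψ ≠ 0) : ∃ j, ∃ y ∈ D j, ψ y ≠ 0 := by
  by_contra! hc
  exact h0 (LinearMap.ext fun v => by rw [← h.sum v, map_sum]; simp [hc _ _ (h.mem _ v)])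

theorem exists_out (h : Prj k D π) [FiniteDimensional F V] {g : V ≃ₗ[F] V} (hg : g ∉ dstab D) :
    ∃ i, ∃ y ∈ D i, ∀ j, g y ∉ D j := by
  by_contra! hc
  refine hg (h.mem_dstab fun i => ?_)
  obtain ⟨y, hy, y0⟩ := h.exists_ne i
  obtain ⟨j, hj⟩ := hc i y hy
  refine ⟨j, fun x hx => by_contra fun hx' => ?_⟩
  obtain ⟨l, hl⟩ := hc i x hx
  obtain ⟨m, hm⟩ := hc i _ (add_mem hx hy)
  rw [map_add] at hm
  have e1 := h.ne hm (j := j) (by rintro rfl; exact hx' ((add_mem_cancel_right hj).1 hm))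
  rw [map_add, h.ne hl (by rintro rfl; exact hx' hl), h.self hj, zero_add] at e1
  exact y0 (g.map_eq_zero_iff.1 e1)

end Prj

variable [FiniteDimensional F V]

/-- An overgroup of the stabiliser of the decomposition in `SL`. -/
structure IX (k : ℕ) (D : Fin t → Submodule F V) (π : Fin t → End F V) (X : Subgroup (V ≃ₗ[F] V)) : Prop
    extends Prj k D π where
  le : dstab D ⊓ SLg F V ≤ X

namespace IX

theorem hasL (h : IX k D π X) {α : End F V} (H : HasL (SLg F V) α) (hD : ∀ i, ∃ j, ∀ x ∈ D i, x + α x ∈ D j) :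
    HasL X α := by
  obtain ⟨g, hg, e1⟩ := H.exists_apply
  exact .of_apply (h.le ⟨h.mem_dstab (by simpa only [e1]), hg⟩) e1

theorem bt (h : IX k D π X) {j : Fin t} {y : V} {χ : Dual F V} (hy : y ∈ D j) (hχ : InB D j χ) (e0 : χ y = 0) :
    HasL X (rk1 y χ) := h.hasL (hasL_tv e0 (tv_mem_SLg e0)) fun i => ⟨i, fun x hx => add_mem hx (by
  by_cases hi : i = j
  · exact hi ▸ (D j).smul_mem _ hy
  · simp [hχ i hi x hx])⟩

theorem bh (h : IX k D π X) {j l : Fin t} (hjl : j ≠ l) {a b : V} {α β : Dual F V} (ha : a ∈ D j) (hα : InB D j α)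
    (h1 : α a = 1) (hb : b ∈ D l) (hβ : InB D l β) (h2 : β b = 1) {θ : F} (h0 : θ ≠ 0) :
    ∃ s ∈ X, ∀ v, s v = v + ((θ - 1) * α v) • a + ((θ⁻¹ - 1) * β v) • b := by
  obtain ⟨s, hs, e1⟩ := (h.hasL (hasL_hom h1 h2 (hα l hjl.symm b hb) h0) fun i => ⟨i, fun x hx => add_mem hx (by
    refine add_mem ?_ ?_
    · by_cases hi : i = j
      · exact hi ▸ (D j).smul_mem _ ((D j).smul_mem _ ha)
      · simp [hα i hi x hx]
    · by_cases hi : i = l
      · exact hi ▸ (D l).smul_mem _ ((D l).smul_mem _ hb)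
      · simp [hβ i hi x hx])⟩).exists_apply
  exact ⟨s, hs, fun v => by simp [e1]; module⟩

theorem sw0 (h : IX k D π X) {a b : Fin t} (hab : a ≠ b) (f : D a ≃ₗ[F] D b) : ∃ s ∈ X, (∀ x : D a, s x = f x) ∧
    (∀ x : D b, s x = -f.symm x) ∧ ∀ i ≠ a, i ≠ b → ∀ x ∈ D i, s x = x := by
  let A : End F V := (D b).subtype ∘ₗ f.toLinearMap ∘ₗ (π a).codRestrict _ (h.mem a)
  let B : End F V := (D a).subtype ∘ₗ f.symm.toLinearMap ∘ₗ (π b).codRestrict _ (h.mem b)
  have A1 : ∀ x : D a, A x = f x := fun x => congrArg (fun y => (f y : V)) (Subtype.ext (h.self x.2))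
  have B1 : ∀ x : D b, B x = f.symm x := fun x => congrArg (fun y => (f.symm y : V)) (Subtype.ext (h.self x.2))
  have A0 : ∀ i ≠ a, ∀ x ∈ D i, A x = 0 := fun i hi x hx =>
    (congrArg (fun y => (f y : V)) (a₂ := 0) (Subtype.ext (h.ne hx hi.symm))).trans (by simp)
  have B0 : ∀ i ≠ b, ∀ x ∈ D i, B x = 0 := fun i hi x hx =>
    (congrArg (fun y => (f.symm y : V)) (a₂ := 0) (Subtype.ext (h.ne hx hi.symm))).trans (by simp)
  have HA := hasL_SLg_mul (A := A) (B := π a) (LinearMap.ext fun v => h.ne (f _).2 hab)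
  have HB := hasL_SLg_mul (A := -B) (B := π b) (LinearMap.ext fun v => h.ne (neg_mem (f.symm _).2) hab.symm)
  obtain ⟨g, hg, e1⟩ := HA.exists_apply
  obtain ⟨g', hg', e2⟩ := HB.exists_apply
  have c1 : ∀ x : D a, (g * g' * g) x = f x := fun x => by
    simp [e1, e2, h.self x.2, h.self (f x).2, h.ne x.2 hab.symm, h.ne (f x).2 hab, A1, B1]
  have c2 : ∀ x : D b, (g * g' * g) x = -f.symm x := fun x => by
    simp [e1, e2, h.self x.2, h.self (f.symm x).2, h.ne x.2 hab, A1, B1]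
  have c3 : ∀ i ≠ a, i ≠ b → ∀ x ∈ D i, (g * g' * g) x = x := fun i a1 a2 x hx => by
    simp [e1, e2, h.ne hx a1.symm, h.ne hx a2.symm]
  refine ⟨_, h.le ⟨h.mem_dstab fun i => ?_, mul_mem (mul_mem hg hg') hg⟩, c1, c2, c3⟩
  by_cases a1 : i = a
  · exact ⟨b, fun x hx => by rw [c1 ⟨x, a1 ▸ hx⟩]; exact (f _).2⟩
  by_cases a2 : i = b
  · exact ⟨a, fun x hx => by rw [c2 ⟨x, a2 ▸ hx⟩]; exact neg_mem (f.symm _).2⟩
  · exact ⟨i, fun x hx => by rwa [c3 i a1 a2 x hx]⟩

theorem sw (h : IX k D π X) (a b : Fin t) : ∃ s ∈ X, ∀ i, ∀ x ∈ D i, s x ∈ D (Equiv.swap a b i) := by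
  by_cases hab : a = b
  · exact ⟨1, one_mem _, by simp [hab]⟩
  obtain ⟨s, hs, c1, c2, c3⟩ := h.sw0 hab (LinearEquiv.ofFinrankEq _ _ (by rw [h.rk, h.rk]))
  refine ⟨s, hs, fun i x hx => ?_⟩
  by_cases a1 : i = a
  · subst a1; rw [c1 ⟨x, hx⟩, Equiv.swap_apply_left]; exact Subtype.coe_prop _
  by_cases a2 : i = b
  · subst a2; rw [c2 ⟨x, hx⟩, Equiv.swap_apply_right]; exact neg_mem (Subtype.coe_prop _)
  · rwa [c3 i a1 a2 x hx, Equiv.swap_apply_of_ne_of_ne a1 a2]

theorem out (h : IX k D π X) (h2 : 2 ≤ k) (i : Fin t) (y : V) : ∃ z ∈ D i, z ∉ F ∙ y :=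
  exists_notMem_of_lt (by have := finrank_span_one (F := F) y; rw [h.rk]; omega)

theorem cross (h : IX k D π X) (h2 : 2 ≤ k) {i j : Fin t} (hij : i ≠ j) {y : V} {χ : Dual F V} (hy : y ∈ D i)
    (y0 : y ≠ 0) (hχ : InB D j χ) (χ0 : χ ≠ 0) (H : HasL X (rk1 y χ)) :
    ∀ y ∈ D i, ∀ χ, InB D j χ → HasL X (rk1 y χ) := by
  have s1 : ∀ z ∈ D i, z ∉ F ∙ y → HasL X (rk1 z χ) := fun z hz hz' => by
    obtain ⟨φ, a1, a2, a3⟩ := h.exists_in hy (notMem_symm hz' y0)
    have a4 := a3 z (by rw [h.self hz]; exact Submodule.mem_span_singleton_self z)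
    simpa [rk1_mul, a2] using (h.bt hz a1 a4).comm H (rk1_mul_zero a4) (rk1_mul_zero (hχ i hij y hy))
      (rk1_mul_zero (hχ i hij z hz))
  have s2 : ∀ z ∈ D i, HasL X (rk1 z χ) := fun z hz => by
    by_cases hz' : z ∈ F ∙ y
    · obtain ⟨w, hw, hw'⟩ := h.out h2 i y
      exact ((s1 _ (add_mem hz hw) (by rwa [add_mem_cancel_left hz'])).add (s1 _ (neg_mem hw) (by simpa))
        (rk1_mul_zero (hχ i hij _ (neg_mem hw)))).congr fun v => by simp
    · exact s1 z hz hz'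
  intro z hz ψ hψ
  obtain ⟨l, w, hw, w0⟩ := h.exists_ne' χ0
  obtain rfl : l = j := by_contra fun hl => w0 (hχ l hl w hw)
  have a1 : InB D l (ψ - (ψ w / χ w) • χ) := fun m hm x hx => by simp [hψ m hm x hx, hχ m hm x hx]
  have a2 : (ψ - (ψ w / χ w) • χ) w = 0 := by simp [w0]
  exact (((s2 _ ((D i).smul_mem (χ w)⁻¹ hz)).comm (h.bt hw a1 a2) (rk1_mul_zero (by simp [hχ i hij z hz]))
    (rk1_mul_zero a2) (rk1_mul_zero (by simp [a1 i hij z hz]))).add (s2 _ ((D i).smul_mem (ψ w / χ w) hz))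
    (by rw [rk1_mul]; exact rk1_mul_zero (by simp [a1 i hij z hz]))).congr fun v => by
      simp [smul_smul]; match_scalars; field_simp; ring

theorem win (h : IX k D π X) (h2 : 2 ≤ k) {i j : Fin t} (hij : i ≠ j) {y : V} {χ : Dual F V} (hy : y ∈ D i)
    (y0 : y ≠ 0) (hχ : InB D j χ) (χ0 : χ ≠ 0) (H : HasL X (rk1 y χ)) (p : V) : p ∈ centres X := by
  let C : Fin t → Fin t → Prop := fun i j => ∀ y ∈ D i, ∀ χ, InB D j χ → HasL X (rk1 y χ)
  have mv : ∀ a b i j, C (Equiv.swap a b i) (Equiv.swap a b j) → i ≠ j → C i j := fun a b i j H hij => by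
    obtain ⟨s, hs, e1⟩ := h.sw a b
    obtain ⟨y, hy, y0⟩ := h.exists_ne (Equiv.swap a b j)
    obtain ⟨z, hz, z0⟩ := h.exists_ne i
    obtain ⟨χ, a1, a2, -⟩ := h.exists_in hy (S := ⊥) y0
    refine h.cross h2 hij hz z0 (χ := χ ∘ₗ s.toLinearMap) (fun l hl x hx => a1 _ (by simpa) _ (e1 l x hx))
      (fun e2 => by simpa [a2] using LinearMap.congr_fun e2 (s.symm y)) ?_
    exact (H _ (e1 i z hz) χ a1).conj (inv_mem hs) fun v => by simp
  have all : ∀ l m, l ≠ m → C l m := fun l m hlm => by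
    have c1 : C l (Equiv.swap l i j) := mv l i _ _ (by simpa using h.cross h2 hij hy y0 hχ χ0 H)
      fun e1 => hij (by simpa using congrArg (Equiv.swap l i) e1)
    have c2 : l ≠ Equiv.swap l i j := fun e1 => hij (by simpa using congrArg (Equiv.swap l i) e1)
    exact mv m (Equiv.swap l i j) _ _ (by rwa [Equiv.swap_apply_left, Equiv.swap_apply_of_ne_of_ne hlm c2]) hlm
  rw [← h.sum p]
  refine Submodule.sum_mem _ fun l _ φ hφ => (hasL_sum Finset.univ (y := π l p) (φ := fun m => φ ∘ₗ π m) (fun m => ?_)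
    fun m => ?_).congr fun v => by simp [← map_sum, h.sum]
  · by_cases hm : m = l
    · simpa [hm, h.self (h.mem l p)]
    · simp [h.ne (h.mem l p) hm]
  have : InB D m (φ ∘ₗ π m) := fun a ha x hx => by simp [h.ne hx ha.symm]
  by_cases hm : m = l
  · subst hm; exact h.bt (h.mem m p) this (by simpa [h.self (h.mem m p)])
  · exact all l m (Ne.symm hm) _ (h.mem l p) _ this

theorem winB (h : IX k D π X) (h2 : 2 ≤ k) {j : Fin t} {p : V} {χ : Dual F V} (hp : p ∉ D j) (hχ : InB D j χ)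
    (χ0 : χ ≠ 0) (e0 : χ p = 0) (H : HasL X (rk1 p χ)) : ∀ p, p ∈ centres X := by
  obtain ⟨i, hij, hi⟩ : ∃ i ≠ j, π i p ≠ 0 := by
    by_contra! hc
    exact hp (by rw [← h.sum p, Finset.sum_eq_single j (fun i _ => hc i) (by simp)]; exact h.mem j p)
  obtain ⟨y, hy, hy'⟩ := h.out h2 i (π i p)
  obtain ⟨φ, a1, a2, a3⟩ := h.exists_in (h.mem i p) (notMem_symm hy' hi)
  have a4 := a3 y (by rw [h.self hy]; exact Submodule.mem_span_singleton_self y)
  rw [h.apply a1] at a2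
  exact h.win h2 hij hy (by rintro rfl; simp at hy') hχ χ0 (by
    simpa [rk1_mul, a2] using (h.bt hy a1 a4).comm H (rk1_mul_zero a4) (rk1_mul_zero e0)
      (rk1_mul_zero (hχ i hij y hy)))

theorem winA (h : IX k D π X) (h2 : 2 ≤ k) (h3 : k = 2 → 3 ≤ t ∧ ∃ θ : F, θ ≠ 0 ∧ θ ≠ 1) {p : V} {ψ : Dual F V}
    (hp : ∀ j, p ∉ D j) (ψ0 : ψ ≠ 0) (e0 : ψ p = 0) (H : HasL X (rk1 p ψ)) : ∀ p, p ∈ centres X := by
  obtain ⟨j, y, hy, y0⟩ := h.exists_ne' ψ0
  by_cases hc : ∃ w ∈ D j, w ∉ (F ∙ y) ⊔ F ∙ π j p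
  · obtain ⟨w, hw, hw'⟩ := hc
    obtain ⟨χ, a1, a2, a3⟩ := h.exists_in hw hw'
    have a4 := a3 y (by rw [h.self hy]; exact Submodule.mem_sup_left (Submodule.mem_span_singleton_self y))
    have a5 := a3 p (mem_sup_self _ _)
    exact h.winB h2 (p := ψ y • p) (by rw [(D j).smul_mem_iff y0]; exact hp j) a1 (by rintro rfl; simp at a2)
      (by simp [a5]) (by
        simpa only [rk1_mul] using H.comm (h.bt hy a1 a4) (rk1_mul_zero e0) (rk1_mul_zero a4) (rk1_mul_zero a5))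
  push Not at hc
  obtain ⟨t3, θ, t0, t1⟩ := h3 (by
    have := Submodule.finrank_mono (show D j ≤ _ from hc)
    have := finrank_sup_one (F ∙ y) (π j p)
    have := finrank_span_one (F := F) y
    have := h.rk j
    omega)
  have ex : ∀ l, ∀ a ∈ D l, a ∉ F ∙ π l p → ∃ α, InB D l α ∧ α a = 1 ∧ α p = 0 := fun l a ha ha' =>
    (h.exists_in ha ha').imp fun α hα => ⟨hα.1, hα.2.1, hα.2.2 p (Submodule.mem_span_singleton_self _)⟩
  obtain ⟨α, a1, a2, a3⟩ := ex j y hy fun hy' => by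
    obtain ⟨w, hw, hw'⟩ := h.out h2 j (π j p)
    exact hw' (sup_le ((Submodule.span_singleton_le_iff_mem _ _).2 hy') le_rfl (hc w hw))
  have st : ∀ l, j ≠ l → ∃ β, InB D l β ∧ β p = 0 ∧ ∃ b ∈ D l, ∀ ψ : Dual F V, ψ p = 0 → HasL X (rk1 p ψ) →
      HasL X (rk1 p (((θ - 1) * ψ y) • α + ((θ⁻¹ - 1) * ψ b) • β)) := fun l hl => by
    obtain ⟨b, hb, hb'⟩ := h.out h2 l (π l p)
    obtain ⟨β, b1, b2, b3⟩ := ex l b hb hb'
    obtain ⟨s, hs, e1⟩ := h.bh hl hy a1 a2 hb b1 b2 t0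
    have : s.symm p = p := s.symm_apply_eq.2 (by simp [e1, a3, b3])
    exact ⟨β, b1, b3, b, hb, fun ψ e0 H => ((H.conj (β := rk1 p (ψ ∘ₗ s.toLinearMap)) (inv_mem hs) fun v => by
      simp [this]).add (H.neg (rk1_mul_zero e0)) (LinearMap.ext fun v => by simp [e1, a3, b3, e0])).congr
        fun v => by simp [e1]; module⟩
  classical
  obtain ⟨l, hl⟩ := exists_out_list [j] (by simp; omega)
  obtain ⟨m, hm⟩ := exists_out_list [j, l] (by simp; omega)
  simp only [List.mem_cons, List.not_mem_nil, or_false, not_or] at hl hm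
  obtain ⟨β, b1, b2, b, hb, H1⟩ := st l (Ne.symm hl)
  obtain ⟨γ, -, -, c, hc', H2⟩ := st m (Ne.symm hm.1)
  refine h.winB h2 (hp j) (χ := ((θ - 1) * ((θ - 1) * ψ y)) • α) (fun i hi x hx => by simp [a1 i hi x hx])
    (fun e1 => by simpa [a2, y0, sub_eq_zero, t1] using LinearMap.congr_fun e1 y) (by simp [a3])
    ((H2 _ (by simp [a3, b2]) (H1 ψ e0 H)).congr fun v => ?_)
  simp [a2, b1 j (Ne.symm hl) y hy, a1 m hm.1 c hc', b1 m hm.2 c hc']

theorem one [Fintype F] (h : IX 1 D π X) (h7 : 7 ≤ t) (h5 : 5 ≤ Fintype.card F) {g : V ≃ₗ[F] V} (hg : g ∈ X)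
    (hg' : g ∉ dstab D) : SLg F V ≤ X := by
  classical
  choose b hb b0 using h.exists_ne
  choose c c1 c2 c3 using fun i => h.exists_in (hb i) (S := ⊥) (b0 i)
  have sp : ∀ i, ∀ x ∈ D i, x = c i x • b i := fun i x hx => by
    obtain ⟨a, ha⟩ := (finrank_eq_one_iff_of_nonzero' (⟨b i, hb i⟩ : D i) (by simpa using b0 i)).1 (h.rk i) ⟨x, hx⟩
    obtain rfl : a • b i = x := congrArg Subtype.val ha
    simp [c2]
  have c4 : ∀ i j, c i (b j) = if j = i then 1 else 0 := fun i j => by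
    split_ifs with a
    exacts [a ▸ c2 j, c1 i j a _ (hb j)]
  let E : (Fin t → F) ≃ₗ[F] V := LinearEquiv.ofLinearMap (Fintype.linearCombination F b) (LinearMap.pi c)
    (LinearMap.ext fun v => by
      simp only [LinearMap.comp_apply, Fintype.linearCombination_apply, LinearMap.pi_apply, LinearMap.id_apply]
      conv_rhs => rw [← h.sum v]
      exact Finset.sum_congr rfl fun i _ => by rw [← h.apply (c1 i), ← sp i _ (h.mem i v)])
    (LinearMap.ext fun v => funext fun i => by simp [Fintype.linearCombination_apply, c4])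
  have E1 : ∀ i, E (Pi.single i 1) = b i := fun i => by simp [E]
  have E2 : ∀ i, E.symm (b i) = Pi.single i 1 := fun i => E.symm_apply_eq.2 (E1 i).symm
  have E3 : ∀ v i, c i (E v) = v i := fun v i => congrFun (E.symm_apply_apply v) i
  have av : ∀ n, n < Fintype.card F → ∀ l : List F, l.length ≤ n → ∃ x, x ∉ l := fun n hn l hl =>
    exists_out_list l (by omega)
  have M : MX (X.comap (autCongr E).toMonoidHom) := by
    refine ⟨fun {i j} hij θ h0 => ?_, fun {i j} hij => ?_, av 4 h5, ?_, by simp; omega⟩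
    · obtain ⟨s, hs, e1⟩ := h.bh hij (hb i) (c1 i) (c2 i) (hb j) (c1 j) (c2 j) h0
      exact ⟨(autCongr E).symm s, by simpa using hs, fun v => by simp [e1, E2, E3]⟩
    · let f : D i ≃ₗ[F] D j := LinearEquiv.ofLinearMap ((c i ∘ₗ (D i).subtype).smulRight ⟨b j, hb j⟩)
        ((c j ∘ₗ (D j).subtype).smulRight ⟨b i, hb i⟩) (by ext x; simp [c2, ← sp j x x.2])
        (by ext x; simp [c2, ← sp i x x.2])
      obtain ⟨s, hs, e1, e2, e3⟩ := h.sw0 hij f
      refine ⟨(autCongr E).symm s, by simpa using hs, fun v => ?_⟩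
      have : ∀ l, E.symm (s (E (Pi.single l 1))) = Pi.single l 1 + (Pi.single l 1 : Fin t → F) i •
          ((Pi.single j 1 : Fin t → F) - Pi.single i 1) - (Pi.single l 1 : Fin t → F) j •
          ((Pi.single i 1 : Fin t → F) + Pi.single j 1) := fun l => by
        rw [E1]
        by_cases a1 : l = i
        · rw [a1, e1 ⟨_, hb i⟩]; simp [f, c2, E2, hij.symm]
        by_cases a2 : l = j
        · rw [a2, e2 ⟨_, hb j⟩]; simp [f, c2, E2, hij]
        · simp [e3 l a1 a2 _ (hb l), E2, Ne.symm a1, Ne.symm a2]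
      conv_lhs => rw [← sum_e v]; simp only [autCongr_symm_apply, map_sum, map_smul, this]
      simp only [smul_add, smul_sub, Finset.sum_add_distrib, Finset.sum_sub_distrib, sum_e, smul_smul,
        ← Finset.sum_smul]
      simp [Pi.single_apply]
    · by_cases e5 : Fintype.card F = 5
      · exact .inl (by simpa [e5] using FiniteField.cast_card_eq_zero F)
      refine .inr (av 6 ?_)
      have : Fintype.card F ≠ 6 := fun e6 => absurd (e6 ▸ Fintype.isPrimePow_card_of_field (α := F)) (by decide)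
      omega
  rcases M.mon_or (by simpa) with H | H
  · exact fun s hs => by
      simpa using H (x := (autCongr E).symm s) (by
        rwa [SLg, MonoidHom.mem_ker, ← det_autCongr E, MulEquiv.apply_symm_apply])
  · refine absurd (h.mem_dstab fun i => ?_) hg'
    obtain ⟨j, hj⟩ := H ((autCongr E).symm g) (by simpa) i
    refine ⟨j, fun x hx => ?_⟩
    have := congrArg E (eq_smul_e hj)
    simp only [autCongr_symm_apply, LinearEquiv.apply_symm_apply, map_smul, E1] at this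
    rw [sp i x hx, map_smul, this]
    exact (D j).smul_mem _ ((D j).smul_mem _ (hb j))

end IX

theorem isMaximalIn_dstab_SL [Fintype F] {ι : Type} [Fintype ι] [DecidableEq ι] {D : Fin t → Submodule F (ι → F)}
    (h : Dec k D) (h1 : k = 1 → 7 ≤ t ∧ 5 ≤ Fintype.card F) (h2 : k = 2 → 3 ≤ t ∧ Fintype.card F ≠ 2) :
    Geo.IsMaximalIn (SLg F (ι → F)) (dstab D ⊓ SLg F (ι → F)) := by
  classical
  obtain ⟨π, P⟩ := h.exists_prj
  have := h.two_le
  refine max_crit inf_le_right ?_ fun X a1 a2 g hg hg' => ?_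
  · let i : Fin t := ⟨0, by omega⟩
    let j : Fin t := ⟨1, by omega⟩
    have ij : i ≠ j := by simp [i, j]
    obtain ⟨w, hw, w0⟩ := h.exists_ne i
    obtain ⟨y, hy, y0⟩ := h.exists_ne j
    obtain ⟨χ, b1, b2, -⟩ := P.exists_in hw (S := ⊥) w0
    refine ⟨_, tv_mem_SLg (b1 j ij.symm y hy), fun H => ?_⟩
    obtain ⟨l, hl⟩ := exists_of_dstab H.1 i
    have := hl w hw
    rw [LinearEquiv.transvection.apply, b2, one_smul] at this
    by_cases b3 : l = i
    · exact y0 (h.eq_zero ij ((add_mem_cancel_left hw).1 (b3 ▸ this)) hy)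
    · exact w0 (by simpa [P.self hw, P.ne hy ij] using P.ne this (Ne.symm b3))
  have H : IX k D π X := ⟨P, a1⟩
  replace hg' : g ∉ dstab D := fun e => hg' ⟨e, a2 hg⟩
  by_cases k1 : k = 1
  · subst k1; exact H.one (h1 rfl).1 (h1 rfl).2 hg hg'
  have k2 : 2 ≤ k := by have := h.pos; omega
  obtain ⟨i, y, hy, hy'⟩ := P.exists_out hg'
  obtain ⟨w, hw, hw'⟩ := H.out k2 i y
  obtain ⟨χ, b1, b2, b3⟩ := P.exists_in hw hw'
  have b4 := b3 y (by rw [P.self hy]; exact Submodule.mem_span_singleton_self y)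
  refine SLg_le (H.winA k2 (fun e => ⟨(h2 e).1, ?_⟩) hy' (fun e => ?_) (by simpa) ((H.bt hy b1 b4).conj_rk1 hg))
  · have := Fintype.one_lt_card (α := F)
    have := (h2 e).2
    simpa using exists_out_list [(0 : F), 1] (by simp; omega)
  · simpa [b2] using LinearMap.congr_fun e (g w)

end Cfsg.Agent.Root.Mx
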