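import Cfsg.Agent.Root.Max2

/-! McLaughlin's theorem over a prime field, combinatorial part: abstract systems `RT β R` of transvection
subgroups (pairs centre/axis for a pairing `β`), common opposites `D` (an equivalence relation),
classes `Cl` (centres and axes form subspaces `Vc`), and the dichotomy `RT.full` (all transvections, or
the transvections of an alternating form). -/

set_option autoImplicit false
namespace Cfsg.Agent.Root.McL
open Module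

variable {F : Type*} [Field F] {M N : Type*} [AddCommGroup M] [Module F M] [AddCommGroup N] [Module F N]

/-- Abstract systems of transvection subgroups. -/
structure RT (β : M →ₗ[F] N →ₗ[F] F) (R : M → N → Prop) : Prop where
  two : (2 : F) ≠ 0
  ne1 : ∀ {v φ}, R v φ → v ≠ 0
  ne2 : ∀ {v φ}, R v φ → φ ≠ 0
  zero : ∀ {v φ}, R v φ → β v φ = 0
  smul : ∀ {v φ} {c d : F}, R v φ → c ≠ 0 → d ≠ 0 → R (c • v) (d • φ)
  addL : ∀ {v w φ}, R v φ → R w φ → v + w ≠ 0 → R (v + w) φ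
  addR : ∀ {v φ ψ}, R v φ → R v ψ → φ + ψ ≠ 0 → R v (φ + ψ)
  conj : ∀ {v φ w ψ} (c : F), R v φ → R w ψ → R (w + (c * β w φ) • v) (ψ - (c * β v ψ) • φ)
  eich : ∀ {v φ w ψ u χ}, R v φ → R w ψ → R u χ → β w φ = 0 → β v ψ = 0 → β v χ = β w χ →
    β u φ = β u ψ → β v χ ≠ 0 → β u φ ≠ 0 → v ≠ w → φ ≠ ψ → R (v - w) (φ - ψ)
  opp : ∀ {v φ}, R v φ → ∃ u χ, R u χ ∧ β v χ ≠ 0 ∧ β u φ ≠ 0

/-- A common opposite. -/
def D (β : M →ₗ[F] N →ₗ[F] F) (R : M → N → Prop) (v : M) (φ : N) (w : M) (ψ : N) : Prop :=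
  ∃ u χ, R u χ ∧ β v χ ≠ 0 ∧ β u φ ≠ 0 ∧ β w χ ≠ 0 ∧ β u ψ ≠ 0

variable {β : M →ₗ[F] N →ₗ[F] F} {R : M → N → Prop} {v w u x : M} {φ ψ χ α : N}

theorem D.symm (h : D β R v φ w ψ) : D β R w ψ v φ :=
  let ⟨u, χ, h0, h1, h2, h3, h4⟩ := h; ⟨u, χ, h0, h3, h4, h1, h2⟩

theorem D.flip (h : D β R v φ w ψ) : D β.flip (fun φ v => R v φ) φ v ψ w :=
  let ⟨u, χ, h0, h1, h2, h3, h4⟩ := h; ⟨χ, u, h0, h2, h1, h4, h3⟩

theorem D.of_flip (h : D β.flip (fun φ v => R v φ) φ v ψ w) : D β R v φ w ψ :=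
  let ⟨χ, u, h0, h1, h2, h3, h4⟩ := h; ⟨u, χ, h0, h2, h1, h4, h3⟩

theorem exists_ne_ne (h2 : (2 : F) ≠ 0) (a b : F) : ∃ c, c ≠ a ∧ c ≠ b := by
  by_contra! h
  have h0 := h 0
  have h1 := h 1
  have h3 := h (-1)
  have h4 : (1 : F) ≠ -1 := fun e => h2 (by linear_combination e)
  by_cases e0 : 0 = a
  · subst e0; exact h4 ((h1 one_ne_zero).trans (h3 (by simp)).symm)
  by_cases e1 : 1 = a
  · subst e1; exact absurd ((h0 e0).trans (h3 h4.symm).symm) (by simp)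
  · exact absurd ((h0 e0).trans (h1 e1).symm) (by simp)

namespace RT
variable (h : RT β R)
include h

theorem flip : RT β.flip (fun φ v => R v φ) where
  two := h.two
  ne1 := h.ne2
  ne2 := h.ne1
  zero := h.zero
  smul := fun a b c => h.smul a c b
  addL := h.addR
  addR := h.addL
  conj := fun c a b => by simpa [sub_eq_add_neg] using h.conj (-c) a b
  eich := fun a b c h1 h2 h3 h4 h5 h6 h7 h8 => h.eich a b c h2 h1 h4 h3 h6 h5 h8 h7
  opp := fun a => let ⟨u, χ, h1, h2, h3⟩ := h.opp a; ⟨χ, u, h1, h3, h2⟩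

theorem smulL {c : F} (a : R v φ) (hc : c ≠ 0) : R (c • v) φ := by simpa using h.smul a hc one_ne_zero

theorem smulR {c : F} (a : R v φ) (hc : c ≠ 0) : R v (c • φ) := by simpa using h.smul a one_ne_zero hc

theorem linL {c d : F} (a : R v φ) (b : R w φ) (hc : c • v + d • w ≠ 0) : R (c • v + d • w) φ := by
  by_cases h1 : c = 0
  · subst h1
    rw [zero_smul, zero_add] at hc ⊢
    exact h.smulL b fun e => hc (by simp [e])
  by_cases h2 : d = 0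
  · subst h2; simpa using h.smulL a h1
  exact h.addL (h.smulL a h1) (h.smulL b h2) hc

theorem linR {c d : F} (a : R v φ) (b : R v ψ) (hc : c • φ + d • ψ ≠ 0) : R v (c • φ + d • ψ) :=
  h.flip.linL a b hc

theorem comm (a : R v φ) (b : R w ψ) (h1 : β w φ ≠ 0) (h2 : β v ψ = 0) : R v ψ := by
  have h3 := h.conj 1 a b
  rw [h2, mul_zero, zero_smul, sub_zero, one_mul] at h3
  have e : (β w φ)⁻¹ • (w + β w φ • v) + (-(β w φ)⁻¹) • w = v := by
    match_scalars <;> field_simp; ring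
  exact e ▸ h.linL h3 b (e.symm ▸ h.ne1 a)

theorem fixL (a : R x α) (b : R w φ) (h1 : β x φ ≠ 0) (h2 : β w χ ≠ 0) :
    ∃ c d : F, R (x + c • w) (α - d • φ) ∧ β (x + c • w) χ ≠ 0 := by
  by_cases h3 : β x χ = 0
  · exact ⟨_, _, h.conj 1 b a, by simp [h1, h2, h3]⟩
  · exact ⟨0, 0, by simpa, by simpa⟩

theorem fixR (a : R x α) (b : R v ψ) (h1 : β v α ≠ 0) (h2 : β u ψ ≠ 0) :
    ∃ c d : F, R (x - d • v) (α + c • ψ) ∧ β u (α + c • ψ) ≠ 0 :=
  h.flip.fixL a b h1 h2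

theorem D_refl (a : R v φ) : D β R v φ v φ :=
  let ⟨u, χ, h1, h2, h3⟩ := h.opp a; ⟨u, χ, h1, h2, h3, h2, h3⟩

theorem D_one (a : R v φ) (b : R w ψ) (h1 : β w φ ≠ 0) : D β R v φ w ψ := by
  have ha := h.zero a
  have hb := h.zero b
  by_cases h2 : β v ψ = 0
  · obtain ⟨u, χ, c, h3, h4⟩ := h.opp (h.comm a b h1 h2)
    obtain ⟨c1, d1, c', h5⟩ := h.fixL c b h4 h1
    obtain ⟨c2, d2, c'', h6⟩ := h.fixR c' a (by simpa [h2]) h1
    exact ⟨_, _, c'', by simpa [h2, ha], by simpa [ha] using h5, h6, by simpa [h2, hb]⟩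
  · exact ⟨_, _, h.conj 1 a b, by simpa [ha], by simpa [ha], by simp [hb, h1, h2], by simp [hb, h1, h2]⟩

theorem D_nc (a : R v φ) (b : R w ψ) (h1 : β w φ ≠ 0 ∨ β v ψ ≠ 0) : D β R v φ w ψ :=
  h1.elim (h.D_one a b) fun h2 => (h.D_one b a h2).symm

theorem D_half (a : R v φ) (b : R w ψ) (c : R u χ) (hD : D β R v φ w ψ) (h1 : β w χ ≠ 0) (h2 : β u ψ ≠ 0)
    (h3 : β u φ = 0) (h4 : β v χ = 0) (h5 : β v ψ ≠ 0) (h6 : β w φ = 0) : D β R v φ u χ := by
  obtain ⟨x, α, d, e1, e2, e3, e4⟩ := hD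
  have hw := h.comm b a h5 h6
  have ha := h.zero a
  have st : ∀ {x α}, R x α → β v α ≠ 0 → β x φ ≠ 0 → β u α ≠ 0 → D β R v φ u χ := fun d e1 e2 e3 => by
    obtain ⟨c1, d1, d', h7⟩ := h.fixL d hw e2 h1
    exact ⟨_, _, d', by simpa [ha], by simpa [h6], by simpa [h3], h7⟩
  by_cases h7 : β u α = 0
  · have s0 := h.conj (β v ψ / (β x ψ * β v α)) d b
    have e0 : β v (ψ - (β v ψ / (β x ψ * β v α) * β x ψ) • α) = 0 := by
      simp only [map_sub, map_smul, smul_eq_mul]; field_simp; ring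
    have s1 := h.comm a s0 (by simp [h6, h5, e1, e2, e3, e4]) e0
    refine st (h.conj 1 s1 d) ?_ (by simpa [ha]) (by simp [h7, e1, h2])
    rw [map_sub, map_smul, e0]; simpa
  · exact st d e1 e2 h7

theorem D_step (a : R v φ) (b : R w ψ) (c : R u χ) (hD : D β R v φ w ψ) (h1 : β w χ ≠ 0)
    (h2 : β u ψ ≠ 0) : D β R v φ u χ := by
  by_cases h3 : β u φ ≠ 0 ∨ β v χ ≠ 0
  · exact h.D_nc a c h3
  push Not at h3
  by_cases h5 : β v ψ = 0 <;> by_cases h6 : β w φ = 0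
  · obtain ⟨x, α, d, e1, e2, e3, e4⟩ := hD
    obtain ⟨k, k1, k2⟩ := exists_ne_ne h.two (β u α / (β w α * β u ψ)) (-β x χ / (β x ψ * β w χ))
    refine ⟨_, _, h.conj k b d, by simpa [h5], by simpa [h6], fun e => k1 ?_, fun e => k2 ?_⟩
    · simp only [map_sub, map_smul, smul_eq_mul] at e
      field_simp; linear_combination -e
    · simp only [map_add, map_smul, smul_eq_mul, LinearMap.add_apply, LinearMap.smul_apply] at e
      field_simp; linear_combination e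
  · exact (h.flip.D_half a b c hD.flip h2 h1 h3.2 h3.1 h6 h5).of_flip
  · exact h.D_half a b c hD h1 h2 h3.1 h3.2 h5 h6
  · exact ⟨w, ψ, b, h5, h6, h2, h1⟩

theorem D_trans (a : R v φ) (b : R w ψ) (c : R u χ) (h1 : D β R v φ w ψ) (h2 : D β R w ψ u χ) :
    D β R v φ u χ :=
  let ⟨_, _, d, e1, e2, e3, e4⟩ := h2; h.D_step a d c (h.D_step a b d h1 e1 e2) e4 e3

theorem cen (a : R v φ) (b : R w ψ) (hD : D β R v φ w ψ) (h0 : v + w ≠ 0) : ∃ ζ, R (v + w) ζ := by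
  by_cases h1 : β w φ = 0; swap
  · have := h.conj (β w φ)⁻¹ a b
    rw [inv_mul_cancel₀ h1, one_smul, add_comm] at this
    exact ⟨_, this⟩
  by_cases h2 : β v ψ = 0; swap
  · have := h.conj (β v ψ)⁻¹ b a
    rw [inv_mul_cancel₀ h2, one_smul] at this
    exact ⟨_, this⟩
  obtain ⟨u, χ, c, e1, e2, e3, e4⟩ := hD
  by_cases h3 : β v χ + β w χ = 0
  · have b' := h.smul b (neg_ne_zero.2 one_ne_zero) (div_ne_zero e2 e4)
    by_cases h4 : φ = (β u φ / β u ψ) • ψ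
    · exact ⟨φ, h.addL a (h4 ▸ h.smulR b (div_ne_zero e2 e4)) h0⟩
    · have := h.eich a b' c (by simp [h1]) (by simp [h2]) (by simp; linear_combination h3)
        (by simp [e4]) e1 e2 (fun e => h0 (by simp [e])) h4
      exact ⟨_, by simpa using this⟩
  · have := h.conj (-(β v χ + β w χ)⁻¹) c (h.conj (β u ψ)⁻¹ b (h.conj (β u φ)⁻¹ a c))
    have hc := h.zero c
    refine ⟨_, (congrArg (R · _) ?_).mp this⟩
    simp only [map_add, map_smul, LinearMap.add_apply, LinearMap.smul_apply, smul_eq_mul, h2, hc]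
    match_scalars <;> field_simp <;> ring

theorem share (a : R v φ) (b : R w φ) (c : R w ψ) (h1 : β v ψ = 0) (hD : D β R v φ w φ) : R v ψ := by
  obtain ⟨u, χ, d, e1, e2, e3, -⟩ := hD
  have hc := h.zero c
  by_cases h2 : (1 : F) • v + (-(β v χ / β w χ)) • w = 0
  · have : v = (β v χ / β w χ) • w := by linear_combination (norm := module) h2
    exact this ▸ h.smulL c (div_ne_zero e1 e3)
  · have h3 := h.conj (β v χ)⁻¹ (h.comm (h.linL a b h2) d e2 (by simp [e3]))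
      (h.smulL c (div_ne_zero e1 e3))
    simpa [h1, hc, e1, e3] using h3

/-- `v` is the centre of two independent transvections. -/
def Two (R : M → N → Prop) (F : Type*) [Field F] [Module F N] (v : M) : Prop :=
  ∃ φ ψ, R v φ ∧ R v ψ ∧ ∀ c : F, ψ ≠ c • φ

theorem Two_kill (t : Two R F v) (u : M) : ∃ φ, R v φ ∧ β u φ = 0 := by
  obtain ⟨φ, ψ, a, b, hn⟩ := t
  by_cases h1 : β u φ = 0
  · exact ⟨φ, a, h1⟩
  · refine ⟨_, h.linR (c := 1) (d := -(β u ψ / β u φ)) b a fun e => hn (β u ψ / β u φ) ?_, by simp [h1]⟩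
    linear_combination (norm := module) e

theorem Two_step (t : Two R F v) (b : R w ψ) (h1 : β v ψ ≠ 0) : Two R F w := by
  obtain ⟨φ, a, h2⟩ := h.Two_kill t w
  refine ⟨φ, ψ, h.comm b a h1 h2, b, fun c e => h1 ?_⟩
  simp [e, h.zero a]

variable (hD : ∀ {v φ w ψ}, R v φ → R w ψ → D β R v φ w ψ) (hc : ∀ v, v ≠ 0 → ∃ φ, R v φ)
  (ha : ∀ φ, φ ≠ 0 → ∃ v, R v φ)
include hD hc ha

theorem all_of_two (t : Two R F x) (hv : v ≠ 0) (hψ : ψ ≠ 0) (h0 : β v ψ = 0) : R v ψ := by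
  obtain ⟨φ, a⟩ := hc v hv
  obtain ⟨w, b⟩ := ha ψ hψ
  have tv : Two R F v := by
    obtain ⟨u, χ, c, e1, -, -, e4⟩ := hD t.choose_spec.choose_spec.1 a
    exact h.Two_step (h.Two_step t c e1) a e4
  obtain ⟨u, χ, c, e1, e2, e3, e4⟩ := hD a b
  obtain ⟨φ', a', h1⟩ := h.Two_kill tv u
  by_cases h2 : β w φ' = 0
  · have b' := h.comm b (h.comm c a' e1 h1) e4 h2
    exact h.share a' b' b h0 (hD a' b')
  · exact h.comm a' b h2 h0

theorem full : (∀ v φ, v ≠ 0 → φ ≠ 0 → β v φ = 0 → R v φ) ∨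
    ∃ η : M →ₗ[F] N, (∀ x y, β x (η y) = -β y (η x)) ∧ (∀ v, v ≠ 0 → R v (η v)) ∧
      ∀ v φ, R v φ → ∃ c : F, φ = c • η v := by
  by_cases t : ∃ x, Two R F x
  · exact Or.inl fun v φ => h.all_of_two hD hc ha t.choose_spec
  by_cases h0 : ∀ v : M, v = 0
  · exact Or.inl fun v φ hv => absurd (h0 v) hv
  right
  push Not at t h0
  have uq : ∀ {v φ ψ}, R v φ → R v ψ → ∃ c : F, ψ = c • φ := fun {v φ ψ} a b => by
    by_contra! hn; exact t v ⟨φ, ψ, a, b, hn⟩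
  have sy : ∀ {v φ w ψ}, R v φ → R w ψ → β v ψ = 0 → β w φ = 0 := fun {v φ w ψ} a b h1 => by
    by_contra h2
    obtain ⟨c, e⟩ := uq (h.comm a b h2 h1) a
    exact h2 (by simp [e, h.zero b])
  obtain ⟨x, hx⟩ := h0
  obtain ⟨ξ, r0⟩ := hc x hx
  obtain ⟨y0, -, -, -, hy0⟩ := h.opp r0
  have ext : ∀ {φ ψ : N}, (∀ w, β w ξ ≠ 0 → β w φ = β w ψ) → φ = ψ := fun {φ ψ} e => by
    by_contra hn
    obtain ⟨v, a⟩ := ha _ (sub_ne_zero.2 hn)
    obtain ⟨u, -, -, -, h1⟩ := h.opp a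
    refine h1 ?_
    rw [map_sub, sub_eq_zero]
    by_cases h2 : β u ξ = 0
    · have := e (u + y0) (by simpa [h2])
      simpa [e y0 hy0] using this
    · exact e u h2
  have ex : ∀ y, ∃ φ, β y ξ ≠ 0 → R y φ ∧ β x φ = -β y ξ := fun y => by
    by_cases hy : β y ξ = 0
    · exact ⟨0, fun e => absurd hy e⟩
    obtain ⟨φ, a⟩ := hc y (by rintro rfl; simp at hy)
    have h1 : β x φ ≠ 0 := fun e => hy (sy r0 a e)
    exact ⟨_, fun _ => ⟨h.smulR a (div_ne_zero (neg_ne_zero.2 hy) h1), by simp [h1]⟩⟩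
  choose η hη using ex
  have tri : ∀ y z, β y ξ ≠ 0 → β z ξ ≠ 0 → β z (η y) = -β y (η z) := fun y z hy hz => by
    by_cases h1 : β z (η y) = 0
    · rw [h1, sy (hη z hz).1 (hη y hy).1 h1, neg_zero]
    have h2 := sy (h.conj (-β z ξ / (β y ξ * β z (η y))) (hη y hy).1 (hη z hz).1) r0 (by
      simp only [map_add, map_smul, smul_eq_mul, LinearMap.add_apply, LinearMap.smul_apply]
      field_simp; ring)
    simp only [map_sub, map_smul, smul_eq_mul, (hη y hy).2, (hη z hz).2] at h2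
    field_simp at h2
    exact mul_left_cancel₀ hz (by linear_combination -h2)
  have ex2 : ∀ z, ∃ φ, ∀ w, β w ξ ≠ 0 → β w φ = -β z (η w) := fun z => by
    refine ⟨η (z + (1 - β z ξ / β y0 ξ) • y0) - (1 - β z ξ / β y0 ξ) • η y0, fun w hw => ?_⟩
    rw [map_sub, map_smul, tri _ w (by simpa [hy0, sub_mul]) hw, tri _ w hy0 hw]
    simp
  choose η' hη' using ex2
  let L : M →ₗ[F] N :=
    { toFun := η'
      map_add' := fun a b => ext fun w hw => by simp [hη' _ w hw]; ring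
      map_smul' := fun c a => ext fun w hw => by simp [hη' _ w hw] }
  have hL : ∀ z w, β w ξ ≠ 0 → β w (L z) = -β z (η w) := hη'
  have e1 : ∀ w, β w ξ ≠ 0 → L w = η w := fun w hw => ext fun z hz => by rw [hL _ z hz, tri _ z hw hz]
  have e2 : ∀ a b, β a (L b) = -β b (L a) := fun a b => by
    by_cases h1 : β a ξ = 0
    · have h2 := hL b (a + y0) (by simpa [h1])
      rw [← e1 _ (by simpa [h1])] at h2
      simpa [hL b y0 hy0, e1 y0 hy0, add_comm] using h2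
    · rw [hL _ _ h1, e1 _ h1]
  have e3 : ∀ v φ, R v φ → ∃ c : F, φ = c • L v := fun v φ a => by
    by_cases h1 : β v ξ = 0; swap
    · exact e1 v h1 ▸ uq (hη v h1).1 a
    obtain ⟨w, hw, h2⟩ : ∃ w, β w ξ ≠ 0 ∧ β w φ ≠ 0 := by
      by_contra! hn; exact h.ne2 a (ext (by simpa using hn))
    have h3 : β v (η w) ≠ 0 := fun e => h2 (sy a (hη w hw).1 e)
    have hw' : β (w + (1 * β w φ) • v) ξ ≠ 0 := by simpa [h1]
    obtain ⟨d, hd⟩ := uq (hη _ hw').1 (h.conj 1 a (hη w hw).1)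
    have h4 := congrArg (β x) hd
    simp only [map_sub, map_smul, (hη _ hw').2, (hη _ hw).2, sy a r0 h1, map_add, LinearMap.add_apply,
      LinearMap.smul_apply, h1, smul_eq_mul, mul_zero, add_zero, sub_zero] at h4
    obtain rfl : d = 1 := mul_right_cancel₀ (neg_ne_zero.2 hw) (by rw [← h4, one_mul])
    rw [← e1 _ hw', map_add, map_smul, e1 _ hw] at hd
    refine ⟨-β w φ / β v (η w), smul_right_injective N h3 ?_⟩
    simp only [smul_smul, mul_div_cancel₀ _ h3]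
    linear_combination (norm := module) -hd
  refine ⟨L, e2, fun v hv => ?_, e3⟩
  obtain ⟨φ, a⟩ := hc v hv
  obtain ⟨c, rfl⟩ := e3 v φ a
  have h1 : c ≠ 0 := by rintro rfl; exact h.ne2 a (by simp)
  simpa [h1] using h.smulR a (inv_ne_zero h1)

end RT

/-- A class of transvection subgroups. -/
structure Cl (β : M →ₗ[F] N →ₗ[F] F) (R C : M → N → Prop) : Prop where
  rt : RT β R
  sub : ∀ {v φ}, C v φ → R v φ
  D : ∀ {v φ w ψ}, C v φ → C w ψ → D β R v φ w ψ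
  nc : ∀ {v φ w ψ}, C v φ → R w ψ → β w φ ≠ 0 ∨ β v ψ ≠ 0 → C w ψ

namespace Cl
variable {C : M → N → Prop} (h : Cl β R C)
include h

theorem flip : Cl β.flip (fun φ v => R v φ) (fun φ v => C v φ) :=
  ⟨h.rt.flip, h.sub, fun a b => (h.D a b).flip, fun a b e => h.nc a b e.symm⟩

theorem of_forall (a : R v φ) (e : ∀ χ, β v χ ≠ 0 → ∃ w ψ, C w ψ ∧ β w χ ≠ 0) : C v φ := by
  obtain ⟨u, χ, c, h1, -⟩ := h.rt.opp a
  obtain ⟨w, ψ, b, h2⟩ := e χ h1
  exact h.nc (h.nc b c (Or.inr h2)) a (Or.inl h1)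

/-- The centres of a class form a subspace. -/
def Vc : Submodule F M where
  carrier := {v | v = 0 ∨ ∃ φ, C v φ}
  zero_mem' := Or.inl rfl
  smul_mem' := by
    rintro c v (rfl | ⟨φ, a⟩)
    · simp
    by_cases hc : c = 0
    · simp [hc]
    exact Or.inr ⟨φ, h.of_forall (h.rt.smulL (h.sub a) hc) fun χ e => ⟨v, φ, a, fun e' => e (by simp [e'])⟩⟩
  add_mem' := by
    rintro v w (rfl | ⟨φ, a⟩) hw
    · simpa using hw
    obtain rfl | ⟨ψ, b⟩ := hw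
    · exact Or.inr ⟨φ, by simpa⟩
    by_cases h0 : v + w = 0
    · exact Or.inl h0
    obtain ⟨ζ, c⟩ := h.rt.cen (h.sub a) (h.sub b) (h.D a b) h0
    refine Or.inr ⟨ζ, h.of_forall c fun χ e => ?_⟩
    by_cases h1 : β v χ = 0
    · exact ⟨w, ψ, b, by simpa [h1] using e⟩
    · exact ⟨v, φ, a, h1⟩

theorem mem (a : C v φ) : v ∈ h.Vc := Or.inr ⟨φ, a⟩

theorem of_mem (a : R v φ) (hv : v ∈ h.Vc) : C v φ :=
  hv.elim (fun e => absurd e (h.rt.ne1 a)) fun ⟨ψ, b⟩ => h.of_forall a fun _ e => ⟨v, ψ, b, e⟩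

theorem of_ne (a : R w ψ) (hv : v ∈ h.Vc) (e : β v ψ ≠ 0) : C w ψ :=
  hv.elim (fun e' => absurd (by simp [e']) e) fun ⟨_, b⟩ => h.nc b a (Or.inr e)

theorem sep (hv : v ∈ h.Vc) (e : ∀ φ ∈ h.flip.Vc, β v φ = 0) : v = 0 :=
  hv.elim id fun ⟨_, a⟩ =>
    let ⟨_, _, c, h1, _⟩ := h.rt.opp (h.sub a); absurd (e _ (h.flip.mem (h.nc a c (Or.inr h1)))) h1

theorem restrict : RT (β.domRestrict₁₂ h.Vc h.flip.Vc) (fun v φ => R v φ) where
  two := h.rt.two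
  ne1 := fun a e => h.rt.ne1 a (by simp [e])
  ne2 := fun a e => h.rt.ne2 a (by simp [e])
  zero := h.rt.zero
  smul := h.rt.smul
  addL := fun a b e => h.rt.addL a b fun e' => e (Subtype.ext e')
  addR := fun a b e => h.rt.addR a b fun e' => e (Subtype.ext e')
  conj := h.rt.conj
  eich := fun a b c h1 h2 h3 h4 h5 h6 h7 h8 =>
    h.rt.eich a b c h1 h2 h3 h4 h5 h6 (fun e => h7 (Subtype.ext e)) fun e => h8 (Subtype.ext e)
  opp := fun {v _} a => by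
    obtain ⟨u, χ, c, h1, h2⟩ := h.rt.opp a
    have := h.of_ne c v.2 h1
    exact ⟨⟨u, h.mem this⟩, ⟨χ, h.flip.mem this⟩, c, h1, h2⟩

theorem full : (∀ v ∈ h.Vc, ∀ φ ∈ h.flip.Vc, v ≠ 0 → φ ≠ 0 → β v φ = 0 → C v φ) ∨
    ∃ η : h.Vc →ₗ[F] h.flip.Vc, (∀ x y : h.Vc, β x (η y) = -β y (η x)) ∧
      (∀ v : h.Vc, v ≠ 0 → C v (η v)) ∧ ∀ (v : h.Vc) φ, C v φ → ∃ c : F, φ = c • η v := by
  refine (h.restrict.full (fun {v φ w ψ} a b => ?_) (fun v hv => ?_) fun φ hφ => ?_).imp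
    (fun e v hv φ hφ h1 h2 h3 => h.of_mem (e ⟨v, hv⟩ ⟨φ, hφ⟩ (by simpa) (by simpa) h3) hv)
    fun ⟨η, h1, h2, h3⟩ => ⟨η, h1, fun v hv => h.of_mem (h2 v hv) v.2, fun v φ a =>
      (h3 v ⟨φ, h.flip.mem a⟩ (h.sub a)).imp fun c e => congrArg Subtype.val e⟩
  · obtain ⟨u, χ, c, h1, h2⟩ := h.D (h.of_mem a v.2) (h.of_mem b w.2)
    have := h.of_ne c v.2 h1
    exact ⟨⟨u, h.mem this⟩, ⟨χ, h.flip.mem this⟩, c, h1, h2⟩
  · obtain e | ⟨φ, a⟩ := v.2
    · exact absurd (Subtype.ext e) hv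
    · exact ⟨⟨φ, h.flip.mem a⟩, h.sub a⟩
  · obtain e | ⟨v, a⟩ := φ.2
    · exact absurd (Subtype.ext e) hφ
    · exact ⟨⟨v, h.mem a⟩, h.sub a⟩

end Cl

/-- The equivalence relation of having a common opposite. -/
def RT.setoid (h : RT β R) : Setoid (M × N) where
  r a b := a = b ∨ (R a.1 a.2 ∧ R b.1 b.2 ∧ D β R a.1 a.2 b.1 b.2)
  iseqv := ⟨fun _ => Or.inl rfl, fun e => e.imp Eq.symm fun e => ⟨e.2.1, e.1, e.2.2.symm⟩, by
    rintro a b c (rfl | e) e'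
    · exact e'
    obtain rfl | e' := e'
    · exact Or.inr e
    exact Or.inr ⟨e.1, e'.2.1, h.D_trans e.1 e.2.1 e'.2.1 e.2.2 e'.2.2⟩⟩

theorem RT.cl (h : RT β R) (i : Quotient h.setoid) :
    Cl β R fun v φ => R v φ ∧ Quotient.mk h.setoid (v, φ) = i where
  rt := h
  sub := And.left
  D := fun a b => by
    obtain e | e := Quotient.exact (a.2.trans b.2.symm)
    · obtain ⟨rfl, rfl⟩ := Prod.ext_iff.1 e
      exact h.D_refl a.1
    · exact e.2.2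
  nc := fun a b e => ⟨b, (Quotient.sound (Or.inr ⟨b, a.1, (h.D_nc a.1 b e).symm⟩)).trans a.2⟩

end Cfsg.Agent.Root.McL
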