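import Cfsg.Agent.Root.McL1
import Cfsg.Agent.Solv.Core

/-! McLaughlin's theorem over a prime field, linear part: the transvections `Rt H` of a group generated by
transvections with `O_p = 1` form a system `RT` (`rt`); generation of `SL(V)` and `Sp(V)` by transvections
for arbitrary `V` (`SLg_le'`, `sp_le`). -/

set_option autoImplicit false
namespace Cfsg.Agent.Root.McL
open Module Cfsg.Agent.Geom Cfsg.Agent.Root.Mx

section
variable {F : Type*} [Field F] {V : Type*} [AddCommGroup V] [Module F V]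

theorem SLg_le' [FiniteDimensional F V] {X : Subgroup (V ≃ₗ[F] V)} (h : ∀ p, p ∈ centres X) :
    SLg F V ≤ X := fun g hg => by
  let e := (finBasis F V).equivFun
  have := SLg_le (X := X.comap (autCongr e).symm.toMonoidHom) (fun p φ h0 => by
    obtain ⟨s, hs, e1⟩ := (h (e.symm p) (φ ∘ₗ e.toLinearMap) (by simpa)).exists_apply
    exact HasL.of_apply (g := autCongr e s) (by simpa) fun v => by simp [e1])
    (show autCongr e g ∈ SLg F _ from (det_autCongr e g).trans hg)
  simpa using this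

theorem sp_le [FiniteDimensional F V] {B : LinearMap.BilinForm F V} (hA : B.IsAlt) (hn : B.Nondegenerate)
    {X : Subgroup (V ≃ₗ[F] V)} (h : ∀ (v : V) (c : F), HasL X (rk1 v (c • B v))) {g : V ≃ₗ[F] V}
    (hg : ∀ x y, B (g x) (g y) = B x y) : g ∈ X := by
  have : (Formed.ofAlt B hA).isom ≤ X := by
    rw [← ((Formed.nondeg_iff _).2 hn : (Formed.ofAlt B hA).Nondeg).elemFix_bot_eq_isom]
    refine (Subgroup.closure_le _).2 ?_
    rintro g ⟨-, ⟨p, -, c, e⟩ | ⟨p, -, a, -, d, -, -, h1, -, -, e⟩⟩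
    · exact (h p c).mem fun x => e x
    · have h1 : B p a = 0 := h1
      have h2 : B a p = 0 := by rw [← hA.neg_eq, h1, neg_zero]
      have h3 := hA p
      have h4 := hA a
      refine (((h (p + a) 1).add (h p (-1 - d)) (rk1_mul_zero (by simp [h2, h3]))).add (h a (-1))
        (by ext x; simp [h1, h4])).mem fun x => (e x).trans ?_
      simp [Formed.ofAlt]
      module
  exact this ⟨hg, fun _ => rfl⟩

/-- The transvections in `H`. -/
def Rt (H : Subgroup (V ≃ₗ[F] V)) (v : V) (φ : Dual F V) : Prop :=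
  v ≠ 0 ∧ φ ≠ 0 ∧ φ v = 0 ∧ HasL H (rk1 v φ)

end

variable {p : ℕ} [Fact p.Prime] {V : Type*} [AddCommGroup V] [Module (ZMod p) V]
  {H : Subgroup (V ≃ₗ[ZMod p] V)}

theorem hasL_smul {α : Module.End (ZMod p) V} (h : HasL H α) (e : α * α = 0) (c : ZMod p) :
    HasL H (c • α) := by
  rw [← ZMod.natCast_zmod_val c]
  induction c.val with
  | zero => simpa using HasL.zero
  | succ n ih => simpa [add_smul] using ih.add h (by simp [e])

theorem Rt.conj {v w : V} {φ ψ : Dual (ZMod p) V} (c : ZMod p) (a : Rt H v φ) (b : Rt H w ψ) :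
    Rt H (w + (c * φ w) • v) (ψ - (c * ψ v) • φ) := by
  obtain ⟨-, -, a3, a4⟩ := a
  obtain ⟨b1, b2, b3, b4⟩ := b
  obtain ⟨s, hs, e⟩ := (hasL_smul a4 (rk1_mul_zero a3) c).exists_apply
  refine ⟨fun h => b1 ?_, fun h => b2 ?_, by simp [a3, b3]; ring, b4.conj hs fun x => ?_⟩
  · have := congrArg φ h
    simp only [map_add, map_smul, a3, smul_zero, add_zero, map_zero] at this
    simpa [this] using h
  · have := LinearMap.congr_fun h v
    simp only [LinearMap.sub_apply, LinearMap.smul_apply, a3, smul_zero, sub_zero,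
      LinearMap.zero_apply] at this
    simpa [this] using h
  · simp [e, a3]
    module

theorem opp [Finite V] {T : Set (V ≃ₗ[ZMod p] V)} (hH : H = Subgroup.closure T)
    (hT : ∀ t ∈ T, ∃ v φ, Rt H v φ ∧ ∀ x, t x = x + φ x • v) (hO : Cfsg.pCore p ↥H = ⊥)
    {v : V} {φ : Dual (ZMod p) V} (a : Rt H v φ) : ∃ u χ, Rt H u χ ∧ χ v ≠ 0 ∧ φ u ≠ 0 := by
  by_contra! hn
  let U : Submodule (ZMod p) V :=
    { carrier := {x | ∀ u χ, Rt H u χ → φ u ≠ 0 → χ x = 0}
      zero_mem' := fun _ _ _ _ => map_zero _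
      add_mem' := fun ha hb u χ c e => by rw [map_add, ha u χ c e, hb u χ c e, add_zero]
      smul_mem' := fun c x hx u χ d e => by rw [map_smul, hx u χ d e, smul_zero] }
  have hU : H ≤ stab U := by
    conv_lhs => rw [hH]
    refine (Subgroup.closure_le _).2 fun t ht => mem_stab_of_le fun x hx u χ c h1 => ?_
    obtain ⟨w, ψ, b, e⟩ := hT t ht
    rw [e, map_add, map_smul, hx u χ c h1, zero_add, smul_eq_mul]
    by_contra h2
    by_cases h3 : φ w = 0
    · have := hx _ _ (c.conj 1 b) (by simp [h1, h3, (mul_ne_zero_iff.1 h2).2])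
      exact (mul_ne_zero_iff.1 h2).1 (by simpa [hx u χ c h1] using this)
    · exact (mul_ne_zero_iff.1 h2).1 (hx w ψ b h3)
  have hv : v ∈ U := fun u χ c e => by_contra fun e' => e (hn u χ c e')
  have h0 : ∀ g ∈ H, φ (g v) = 0 := fun g hg => by
    by_contra e
    have := (hU (H.mul_mem hg hg) v).1 hv (g v) (φ ∘ₗ g.symm.toLinearMap)
      ⟨by simp [a.1], fun e' => a.2.1 (by ext x; simpa using LinearMap.congr_fun e' (g x)),
        by simp [a.2.2.1], a.2.2.2.conj_rk1 hg⟩ e
    exact e (by simpa using this)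
  let Z : Submodule (ZMod p) V :=
    { carrier := {x | ∀ g ∈ H, φ (g x) = 0}
      zero_mem' := fun _ _ => by simp
      add_mem' := fun ha hb g hg => by simp [ha g hg, hb g hg]
      smul_mem' := fun c x hx g hg => by simp [hx g hg] }
  have hZ : ∀ g ∈ H, ∀ x ∈ Z, g x ∈ Z := fun g hg x hx k hk => hx _ (H.mul_mem hk hg)
  let K : Subgroup H :=
    { carrier := {g | (∀ x ∈ Z, g.1 x = x) ∧ ∀ x, g.1 x - x ∈ Z}
      one_mem' := ⟨fun _ _ => rfl, fun x => by simp⟩
      mul_mem' := fun {a b} ha hb => ⟨fun x hx => by simp [ha.1 x hx, hb.1 x hx], fun x => by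
        simpa using Z.add_mem (ha.2 (b.1 x)) (hb.2 x)⟩
      inv_mem' := fun {a} ha => ⟨fun x hx => (LinearEquiv.symm_apply_eq a.1).2 (ha.1 x hx).symm,
        fun x => by simpa using Z.neg_mem (ha.2 (a.1.symm x))⟩ }
  haveI : K.Normal := ⟨fun k hk g => ⟨fun x hx => by
      simpa using congrArg g.1 (hk.1 _ (hZ _ (H.inv_mem g.2) x hx)), fun x => by
      simpa using hZ _ g.2 _ (hk.2 (g.1.symm x))⟩⟩
  have hK : IsPGroup p K := fun k => ⟨1, Subtype.ext (Subtype.ext (LinearEquiv.ext fun x => by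
    have : ∀ n : ℕ, (k.1.1 ^ n) x = x + (n : ZMod p) • (k.1.1 x - x) := fun n => by
      induction n with
      | zero => simp
      | succ n ih =>
        rw [pow_succ', LinearEquiv.mul_apply, ih, map_add, map_smul, k.2.1 _ (k.2.2 x)]
        push_cast; module
    simpa using this p))⟩
  obtain ⟨t, ht, e⟩ := a.2.2.2.exists_apply
  have h1 : (⟨t, ht⟩ : H) ∈ K := ⟨fun x hx => by simpa [e] using Or.inl (hx 1 H.one_mem), fun x => by
    simpa [e] using Z.smul_mem _ h0⟩
  have h2 : (⟨t, ht⟩ : H) = 1 := Subgroup.mem_bot.1 (hO ▸ Solv.le_pCore hK h1)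
  refine a.2.1 (LinearMap.ext fun x => ?_)
  have := e x
  rw [show t = 1 from congrArg Subtype.val h2] at this
  simpa [a.1] using this

theorem rt [Finite V] (hp : Odd p) {T : Set (V ≃ₗ[ZMod p] V)} (hH : H = Subgroup.closure T)
    (hT : ∀ t ∈ T, ∃ v φ, Rt H v φ ∧ ∀ x, t x = x + φ x • v) (hO : Cfsg.pCore p ↥H = ⊥) :
    RT (Dual.eval (ZMod p) V) (Rt H) := by
  have h2 : (2 : ZMod p) ≠ 0 := fun e => by
    have := (Nat.prime_dvd_prime_iff_eq Fact.out Nat.prime_two).1
      ((ZMod.natCast_eq_zero_iff 2 p).1 (by exact_mod_cast e))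
    subst this; exact absurd hp (by decide)
  exact
  { two := h2
    ne1 := And.left
    ne2 := fun a => a.2.1
    zero := fun a => a.2.2.1
    smul := fun {v φ c d} a hc hd => ⟨smul_ne_zero hc a.1, smul_ne_zero hd a.2.1, by simp [a.2.2.1],
      (hasL_smul a.2.2.2 (rk1_mul_zero a.2.2.1) (c * d)).congr fun x => by simp; module⟩
    addL := fun a b e => ⟨e, a.2.1, by simp [a.2.2.1, b.2.2.1],
      (a.2.2.2.add b.2.2.2 (rk1_mul_zero b.2.2.1)).congr fun x => by simp⟩
    addR := fun a b e => ⟨a.1, e, by simp [a.2.2.1, b.2.2.1],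
      (a.2.2.2.add b.2.2.2 (rk1_mul_zero a.2.2.1)).congr fun x => by simp [add_smul]⟩
    conj := Rt.conj
    eich := fun {v φ w ψ u χ} a b c h1 h3 h4 h5 h6 h7 h8 h9 => by
      simp only [Dual.eval_apply] at h1 h3 h4 h5 h6 h7
      obtain ⟨-, -, a3, a4⟩ := a
      obtain ⟨-, -, b3, b4⟩ := b
      obtain ⟨-, -, c3, c4⟩ := c
      refine ⟨sub_ne_zero.2 h8, sub_ne_zero.2 h9, by simp [*], ?_⟩
      have g1 := a4.add (b4.neg (rk1_mul_zero b3)) (by ext x; simp [h1])
      obtain ⟨s, hs, e⟩ := c4.exists_apply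
      have g2 : HasL H (rk1 v φ + -rk1 w ψ + (rk1 (χ v • u) (φ - ψ) - rk1 (φ u • (v - w)) χ)) :=
        g1.conj hs fun x => by simp [e, c3, h4, h5]; module
      have g3 := (g1.mul g2).mul ((g1.neg (by ext x; simp [*])).mul (g2.neg (by ext x; simp [*]; module)))
      refine (hasL_smul (g3.congr (β := (2 * χ v * φ u) • rk1 (v - w) (φ - ψ)) fun x => ?_)
        (by ext x; simp [*]) (2 * χ v * φ u)⁻¹).congr fun x => by
          rw [smul_smul, inv_mul_cancel₀ (by simp [h2, h6, h7]), one_smul]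
      simp [a3, b3, c3, h1, h3, h4, h5]
      module
    opp := opp hH hT hO }

end Cfsg.Agent.Root.McL
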