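import Cfsg.Agent.Root.MinS3

/-! Minimal index in `Sp_n(q)`, `q` even, I: duality for additive subgroups (`HA.dual`), covering (`HA.cov`), points
whose Eichler maps have all vector data (`OA`). -/

set_option autoImplicit false
set_option linter.unusedSectionVars false

namespace Cfsg.Agent.Root.MinS

open Cfsg.Agent.Geom Cfsg.Agent.AutCl Module Mx MulAction MinU

variable {F : Type*} [Field F] [Fintype F] {V : Type*} [AddCommGroup V] [Module F V] {Φ : Formed (RingHom.id F) V}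
  {H : Subgroup (V ≃ₗ[F] V)} {D : Submodule F V} {W : AddSubgroup V}

/-- The annihilator in `D` of an additive subgroup. -/
def annB (Φ : Formed (RingHom.id F) V) (D : Submodule F V) (W : AddSubgroup V) : AddSubgroup V where
  carrier := {w | w ∈ D ∧ ∀ a ∈ W, MinD.psi F (Φ.B a w) = 1}
  zero_mem' := ⟨D.zero_mem, fun a _ => by simp⟩
  add_mem' := fun hx hy => ⟨D.add_mem hx.1 hy.1, fun a ha => by
    rw [map_add, AddChar.map_add_eq_mul, hx.2 a ha, hy.2 a ha, one_mul]⟩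
  neg_mem' := fun hx => ⟨D.neg_mem hx.1, fun a ha => by rw [map_neg, AddChar.map_neg_eq_inv, hx.2 a ha, inv_one]⟩

/-- All vectors perpendicular to `p` occur in Eichler maps of `H` at `p`. -/
def OA (Φ : Formed (RingHom.id F) V) (H : Subgroup (V ≃ₗ[F] V)) (p : V) : Prop := ∀ a, Φ.B p a = 0 → ∃ d, HasE Φ H p a d

variable (h : HA Φ) [FiniteDimensional F V] [Finite V]
include h

theorem HA.card_annB (hD : (Φ.restrict D).Nondeg) (hW : ∀ a ∈ W, a ∈ D) :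
    Nat.card W * Nat.card (annB Φ D W) = Nat.card D := by
  classical
  have := Fintype.ofFinite V
  let χ : V → AddChar W ℂ := fun w => (MinD.psi F).compAddMonoidHom
    ((AddMonoidHom.mk' (fun a => Φ.B a w) fun a b => by simp).comp W.subtype)
  let χ' : V → AddChar D ℂ := fun a => (MinD.psi F).compAddMonoidHom (AddMonoidHom.mk' (fun w => Φ.B a w) fun a b => by simp)
  have h1 : ∀ w : D, ∑ a : W, MinD.psi F (Φ.B a w) = if w.1 ∈ annB Φ D W then (Fintype.card W : ℂ) else 0 := fun w =>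
    (χ w).sum_eq_ite.trans (if_congr ⟨fun h => ⟨w.2, fun a ha => by simpa [χ] using DFunLike.congr_fun h ⟨a, ha⟩⟩,
      fun h => by ext a; simpa [χ] using h.2 a a.2⟩ rfl rfl)
  have h2 : ∀ a : W, ∑ w : D, MinD.psi F (Φ.B a w) = if a = 0 then (Fintype.card D : ℂ) else 0 := fun a => by
    refine (χ' a).sum_eq_ite.trans (if_congr ⟨fun e => by_contra fun a0 => ?_, fun h => by ext w; simp [χ', h]⟩ rfl rfl)
    obtain ⟨v, hv, e1⟩ := h.exB hD (hW _ a.2) fun c => a0 (Subtype.ext c)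
    exact one_ne_zero (MinD.eq_zero_of_psi (x := (1 : F)) fun c => by
      simpa [χ', e1] using DFunLike.congr_fun e ⟨c • v, D.smul_mem c hv⟩)
  have h3 : ∑ w : D, ∑ a : W, MinD.psi F (Φ.B a w) = ∑ a : W, ∑ w : D, MinD.psi F (Φ.B a w) := Finset.sum_comm
  simp only [h1, h2, Finset.sum_ite_eq', Finset.mem_univ, if_true] at h3
  rw [← Finset.sum_filter, Finset.sum_const, nsmul_eq_mul] at h3
  rw [← Nat.card_congr (⟨fun x => ⟨x.1.1, x.2⟩, fun x => ⟨⟨x.1, x.2.1⟩, x.2⟩, fun _ => rfl, fun _ => rfl⟩ :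
    {w : D // w.1 ∈ annB Φ D W} ≃ annB Φ D W), Nat.card_eq_fintype_card, Nat.card_eq_fintype_card,
    Nat.card_eq_fintype_card, mul_comm, Fintype.card_subtype]
  exact_mod_cast h3

theorem HA.annB_annB (hD : (Φ.restrict D).Nondeg) (hW : ∀ a ∈ W, a ∈ D) : annB Φ D (annB Φ D W) = W := by
  have h1 := h.card_annB hD hW
  have h2 := h.card_annB hD (W := annB Φ D W) fun _ => And.left
  refine (AddSubgroup.eq_of_le_of_card_ge (H := W) (K := annB Φ D (annB Φ D W))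
    (fun a ha => ⟨hW a ha, fun w hw => ?_⟩) (le_of_eq ?_)).symm
  · rw [h.anti, AddChar.map_neg_eq_inv, hw.2 a ha, inv_one]
  rw [← h1, mul_comm] at h2
  exact Nat.eq_of_mul_eq_mul_right Nat.card_pos h2

variable [Finite (V ≃ₗ[F] V)]

theorem HA.dual (hD : (Φ.restrict D).Nondeg) (hW : ∀ a ∈ W, a ∈ D) {v : V} (hv : v ∈ D) (hv' : v ∉ W) :
    ∃ e, 0 < e ∧ Nat.card W * (e + 1) = Nat.card F ^ finrank F D ∧
      Nat.card F ^ finrank F D ≤ (stabA F W).relIndex (LL Φ D) * e + 1 ∧ Nat.card W ≤ (stabA F W).relIndex (LL Φ D) ∧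
      ((stabA F W).relIndex (LL Φ D) < 2 * Nat.card W → W ≠ ⊥ → ∃ w ∈ D, w ≠ 0 ∧ ∀ v ∈ D, Φ.B w v = 0 → v ∈ W) := by
  have h1 := h.card_annB hD hW
  have h2 := h.annB_annB hD hW
  have h3 : (stabA F (annB Φ D W)).relIndex (LL Φ D) ≤ (stabA F W).relIndex (LL Φ D) := by
    have key : ∀ g ∈ stabA F W ⊓ LL Φ D, ∀ v ∈ annB Φ D W, g v ∈ annB Φ D W := fun g hg v hv =>
      ⟨LL_map h.nd hg.2 hv.1, fun a ha => by
        rw [← g.apply_symm_apply a, (EG_le_isom hg.2.1).1]; exact hv.2 _ (((stabA F W).inv_mem hg.1 a).2 ha)⟩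
    exact (Subgroup.relIndex_le_of_le_left (H := stabA F W ⊓ LL Φ D) (K := stabA F (annB Φ D W)) (fun g hg v =>
      ⟨fun c => by simpa using key _ (inv_mem hg) _ c, key g hg v⟩) Subgroup.index_ne_zero_of_finite).trans_eq
      (Subgroup.inf_relIndex_right _ _)
  have hA : ∀ a ∈ annB Φ D W, a ∈ D := fun _ => And.left
  have A0 : annB Φ D W ≠ ⊥ := fun c => hv' (by rw [← h2, c]; exact ⟨hv, by simp⟩)
  have AD : W ≠ ⊥ → ¬ ∀ a ∈ D, a ∈ annB Φ D W := fun W0 c => by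
    obtain ⟨⟨a, ha⟩, a0⟩ := (AddSubgroup.ne_bot_iff_exists_ne_zero).1 W0
    obtain ⟨v, hv, e1⟩ := h.exB hD (hW a ha) fun c => a0 (Subtype.ext c)
    exact one_ne_zero (MinD.eq_zero_of_psi (x := (1 : F)) fun t => by simpa [e1] using (c _ (D.smul_mem t hv)).2 a ha)
  have hle : ∀ w, annB Φ D W ≤ (F ∙ w).toAddSubgroup → ∀ v ∈ D, Φ.B w v = 0 → v ∈ W := fun w c v hv e =>
    h2.le ⟨hv, fun a ha => by
      obtain ⟨t, rfl⟩ := Submodule.mem_span_singleton.1 (c ha)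
      simp [e]⟩
  rw [Module.natCard_eq_pow_finrank (K := F) (V := D)] at h1
  generalize annB Φ D W = A at *
  have s7 := card_nz D
  have s8 : ((A : Set V) \ {0}).ncard + 1 = Nat.card A := Set.ncard_sdiff_singleton_add_one A.zero_mem
  have e2 : 2 ≤ Nat.card A := (AddSubgroup.one_lt_card_iff_ne_bot A).2 A0
  have s6 : ∀ w ∈ A, w ≠ 0 → _ := fun w hw w0 => (dc (stabA F A) (LL Φ D) w (C := {v | v ∈ D ∧ v ≠ 0}) (D := A \ {0})
    (fun v hv => h.trans hD (hA w hw) w0 hv.1 hv.2) fun g _ hg => ⟨(hg w).2 hw, by simpa⟩).trans (Nat.mul_le_mul_right _ h3)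
  have s9 : ∀ w : V, (stabA F A).relIndex (LL Φ D ⊓ stabilizer _ w) ≠ 0 := fun w => Subgroup.index_ne_zero_of_finite
  obtain ⟨⟨w, hw⟩, w0⟩ := (AddSubgroup.ne_bot_iff_exists_ne_zero).1 A0
  replace w0 : w ≠ 0 := fun c => w0 (Subtype.ext c)
  have e0 : 0 < Nat.card W := Nat.card_pos
  generalize ((A : Set V) \ {0}).ncard = e at *
  generalize {v | v ∈ D ∧ v ≠ 0}.ncard = m at *
  rw [← s8, ← s7] at h1
  have s10 := (Nat.le_mul_of_pos_right m (Nat.pos_of_ne_zero (s9 w))).trans (s6 w hw w0)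
  refine ⟨e, by omega, by omega, by omega, Nat.le_of_mul_le_mul_right (c := e) (by nlinarith) (by omega),
    fun c W0 => ⟨w, hA w hw, w0, hle w fun v hv => by_contra fun c' => AD W0 ?_⟩⟩
  have key : ∀ w ∈ A, w ≠ 0 → ∀ v ∈ A, v ∉ F ∙ w → ∀ x ∈ D, Φ.B w x = 0 → x ∈ A := fun w hw w0 v hv e x hx e' => by
    have s11 : (stabA F A).relIndex (LL Φ D ⊓ stabilizer _ w) = 1 := by_contra fun c' => by
      have := (Nat.mul_le_mul_left m (show 2 ≤ (stabA F A).relIndex (LL Φ D ⊓ stabilizer _ w) by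
        have := s9 w; omega)).trans (s6 w hw w0)
      nlinarith
    have k : ∀ x ∈ D, Φ.B w x = 0 → Φ.B x v ≠ 0 → x ∈ A := fun x hx e' c => by
      obtain ⟨g, hg⟩ := h.exE (p := x) (map_zero _) (Φ.B x v)⁻¹
      have := sub_mem hv ((Subgroup.relIndex_eq_one.1 s11 ⟨isE_mem_LL hg hx (Submodule.zero_mem _), show g w = w by
        simp [h.tv hg, h.anti w x, e']⟩ v).2 hv)
      rwa [h.tv hg, sub_sub_cancel, inv_mul_cancel₀ c, one_smul] at this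
    by_cases c : Φ.B x v = 0
    · obtain ⟨y, hy, y1, y2⟩ := sep h.nd hD (S := F ∙ w) (by simpa using hA w hw) (hA v hv) e
      replace y1 := Φ.mem_perp_span_singleton.1 y1
      simpa using sub_mem (k _ (add_mem hx hy) (by simp [e', y1]) (by simp [c, h.anti v y, y2]))
        (k y hy y1 (by simp [h.anti v y, y2]))
    · exact k x hx e' c
  intro y hy
  obtain ⟨x, hx, x1, x2⟩ := sep h.nd hD (S := F ∙ w) (by simpa using hA w hw) (hA v hv) c'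
  simpa using add_mem (key v hv (by rintro rfl; exact c' (zero_mem _)) w hw (fun e => c' (by
      obtain ⟨t, rfl⟩ := Submodule.mem_span_singleton.1 e
      exact Submodule.mem_span_singleton.2 ⟨t⁻¹, inv_smul_smul₀ (by rintro rfl; simp at w0) v⟩))
    (y - Φ.B v y • x) (sub_mem hy (D.smul_mem _ hx)) (by simp [x2]))
    (key w hw w0 v hv c' (Φ.B v y • x) (D.smul_mem _ hx) (by simp [Φ.mem_perp_span_singleton.1 x1]))

theorem HA.cnt (hH : H ≤ EG Φ) {p r : V} (hr : Φ.IsPair p r) {A R : Subgroup (V ≃ₗ[F] V)}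
    (hQ : EG Φ ⊓ QP Φ p hr.se ≤ A) (h1 : H ⊓ A ≤ R) (h2 : EG Φ ⊓ QP Φ p hr.se ≤ R) :
    R.relIndex A * (Nat.card F ^ finrank F (Φ.pairPerp p r) * Nat.card F) ≤ H.relIndex A *
      (Nat.card ↥(AE Φ H hr.se ⊓ (Φ.pairPerp p r).toAddSubgroup) * Nat.card (ZE Φ H hr.se)) := by
  have h3 := h.card_Q hr hH
  rw [Module.natCard_eq_pow_finrank (K := F)] at h3
  refine (Nat.mul_le_mul_left _ h3).trans ?_
  rw [← mul_assoc]
  exact Nat.mul_le_mul_right _ (chain h1 (le_inf hQ h2) le_rfl)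

theorem HA.cov (hH : H ≤ EG Φ) {p r : V} (hr : Φ.IsPair p r) {A R : Subgroup (V ≃ₗ[F] V)}
    (hA : A ≤ EG Φ ⊓ stab (F ∙ p)) (hQ : EG Φ ⊓ QP Φ p hr.se ≤ A) (h1 : H ⊓ A ≤ R) (h2 : EG Φ ⊓ QP Φ p hr.se ≤ R)
    (hN : H.relIndex A * (Nat.card ↥(AE Φ H hr.se ⊓ (Φ.pairPerp p r).toAddSubgroup) * Nat.card (ZE Φ H hr.se)) <
      2 * R.relIndex A * (Nat.card F ^ finrank F (Φ.pairPerp p r) * Nat.card F))
    {g : V ≃ₗ[F] V} (hg : g ∈ A) (hg' : g ∈ R) : ∃ a d u, IsE Φ p a d u ∧ u * g ∈ H := by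
  have cj : ∀ a ∈ A, ∀ v ∈ QP Φ p hr.se, a * v * a⁻¹ ∈ QP Φ p hr.se := fun a ha v hv =>
    conj_QP _ (EG_le_isom (hA ha).1) (exists_smul_of_stab (hA ha).2).choose_spec.symm hv
  let C : Subgroup (V ≃ₗ[F] V) := ⟨⟨⟨{g | g ∈ A ∧ ∃ u ∈ QP Φ p hr.se, u * g ∈ H},
    fun {a b} ⟨a1, u, a2, a3⟩ ⟨b1, v, b2, b3⟩ => ⟨mul_mem a1 b1, _, mul_mem a2 (cj a a1 v b2),
      by simpa [mul_assoc] using mul_mem a3 b3⟩⟩, one_mem _, 1, one_mem _, by simp⟩,
    fun {a} ⟨a1, u, a2, a3⟩ => ⟨inv_mem a1, _, cj _ (inv_mem a1) _ (inv_mem a2), by simpa [mul_assoc] using inv_mem a3⟩⟩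
  have c3 := (h.cnt hH hr (R := C) hQ (fun g hg => ⟨hg.2, 1, one_mem _, by simpa using hg.1⟩)
    fun g hg => ⟨hQ hg, _, inv_mem hg.2, by simp⟩).trans_lt hN
  have c4 : C ≤ R ⊓ A := fun g ⟨g1, u, u1, u2⟩ => ⟨by
    have hu : u ∈ EG Φ ⊓ QP Φ p hr.se := ⟨let ⟨_, _, c⟩ := u1; IsE_mem_EG c, u1⟩
    simpa using mul_mem (inv_mem (h2 hu)) (h1 ⟨u2, mul_mem (hQ hu) g1⟩), g1⟩
  have c5 := Subgroup.relIndex_mul_relIndex _ _ _ c4 inf_le_right
  rw [Subgroup.inf_relIndex_right] at c5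
  have : C.relIndex (R ⊓ A) ≠ 0 := Subgroup.index_ne_zero_of_finite
  have c6 := Nat.lt_of_mul_lt_mul_right (c5 ▸ Nat.lt_of_mul_lt_mul_right c3)
  obtain ⟨-, u, ⟨a, d, hu⟩, e⟩ := Subgroup.relIndex_eq_one.1 (show C.relIndex (R ⊓ A) = 1 by omega) ⟨hg', hg⟩
  exact ⟨a, d, u, hu, e⟩

theorem HA.le_v {p : V} : EG Φ ⊓ QP Φ p (h.sing p) ≤ EG Φ ⊓ stabilizer _ p := fun _ ⟨g1, _, _, g2⟩ => ⟨g1, g2.apply_p⟩

theorem HA.s1 (hH : H ≤ EG Φ) {p : V} : H ⊓ (EG Φ ⊓ stabilizer _ p) ≤ stabA F (AE Φ H (h.sing p)) :=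
  fun g ⟨g1, g3, g2⟩ v => ⟨fun hv => by
    simpa using map_mem_AE (inv_mem g1) (EG_le_isom (inv_mem g3)) (g.symm_apply_eq.2 g2.symm) hv,
    map_mem_AE g1 (EG_le_isom g3) g2⟩

theorem HA.s2 {p : V} : EG Φ ⊓ QP Φ p (h.sing p) ≤ stabA F (AE Φ H (h.sing p)) := fun g ⟨_, a, d, g2⟩ v => by
  by_cases e : Φ.B p v = 0
  · rw [g2.apply_perp e]; exact add_mem_cancel_right (smul_mem_AE _ _)
  · exact ⟨fun ⟨_, c⟩ => (e (g2.B_p v ▸ c.pa)).elim, fun ⟨_, c⟩ => (e c.pa).elim⟩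

theorem HA.s3 {p r : V} : (stabA F (AE Φ H (h.sing p) ⊓ (Φ.pairPerp p r).toAddSubgroup)).relIndex (LL Φ (Φ.pairPerp p r)) ≤
    (stabA F (AE Φ H (h.sing p))).relIndex (EG Φ ⊓ stabilizer _ p) :=
  ((Subgroup.relIndex_le_of_le_left (H := stabA F (AE Φ H (h.sing p)) ⊓ LL Φ (Φ.pairPerp p r))
    (K := stabA F (AE Φ H (h.sing p) ⊓ (Φ.pairPerp p r).toAddSubgroup)) (fun g hg v => and_congr (hg.1 v) ⟨fun c => by simpa using LL_map h.nd (inv_mem hg.2) c,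
      LL_map h.nd hg.2⟩) Subgroup.index_ne_zero_of_finite).trans_eq (Subgroup.inf_relIndex_right _ _)).trans
    (relIndex_mono _ fun g hg => ⟨hg.1, hg.2 p fun u hu => Φ.B_eq_zero_symm (Φ.mem_pairPerp.1 hu).1⟩)

omit [Finite (V ≃ₗ[F] V)] in
theorem HA.notOA {p r : V} (hr : Φ.IsPair p r) (hp : ¬ OA Φ H p) :
    ∃ v ∈ Φ.pairPerp p r, v ∉ AE Φ H hr.se ⊓ (Φ.pairPerp p r).toAddSubgroup := by
  by_contra! c
  refine hp fun a ha => ?_
  obtain ⟨d, hd⟩ := (c (a + Φ.B r a • p) (by simpa [ha] using h.dec hr a)).1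
  exact ⟨_, (h.shift hd (-Φ.B r a)).congr (by module) rfl⟩

/-- If `p` is not of type `OA`, then the index is large. -/
theorem HA.big (hH : H ≤ EG Φ) {p r : V} (hr : Φ.IsPair p r) (hp : ¬ OA Φ H p) :
    Nat.card F ^ finrank F (Φ.pairPerp p r) * Nat.card F ≤
      H.relIndex (EG Φ ⊓ stabilizer _ p) * Nat.card (ZE Φ H hr.se) := by
  obtain ⟨v, hv, hv'⟩ := h.notOA hr hp
  obtain ⟨-, -, -, -, h1, -⟩ := h.dual (hr.nondeg_pairPerp h.nd) (fun _ => And.right) hv hv'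
  have := (Nat.mul_le_mul_right _ (h1.trans h.s3)).trans (h.cnt hH hr h.le_v (h.s1 hH) h.s2)
  rw [mul_left_comm (H.relIndex _)] at this
  exact Nat.le_of_mul_le_mul_left this Nat.card_pos

omit [Finite (V ≃ₗ[F] V)]
variable (hH : H ≤ Φ.isom) (h2 : (2 : F) = 0)
include hH h2

theorem HA.conj2 {p v : V} {β γ : F} (hp : OA Φ H p) (e : Φ.B p v = 0) (hv : v ∉ F ∙ p) (hE : HasE Φ H v (β • p) γ)
    (c : F) : HasE Φ H p ((γ * c) • v) (γ * c ^ 2) := by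
  obtain ⟨b, b1, b2⟩ := h.nd.exists_perp_eq_one' hv
  obtain ⟨d, k, k1, k2⟩ := hp (-c • b) (by simp [Φ.mem_perp_span_singleton.1 b1])
  obtain ⟨g, g1, g2⟩ := hE
  have g3 := g2.conj (hH k1)
  rw [map_smul, k2.apply_p, k2.apply_perp e] at g3
  refine ⟨_, mul_mem (mul_mem (mul_mem k1 g1) (inv_mem k1)) g1, h.isE (by simp [e]) fun x => ?_⟩
  rw [LinearEquiv.mul_apply, h.app g3, h.app g2]
  simp only [map_add, map_smul, map_sub, LinearMap.add_apply, LinearMap.smul_apply, h.alt, e, h.anti p v, h.anti v b, b2,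
    smul_eq_mul, RingHom.id_apply, Φ.B_smul_left]
  match_scalars
  · rfl
  · linear_combination (β * Φ.B p x - γ * Φ.B v x - γ * c * Φ.B p x) * h2
  · linear_combination (β * Φ.B v x + β * c * Φ.B p x - γ * c * Φ.B v x) * h2

theorem HA.os0 (h4 : 4 ≤ finrank F V) {p r : V} (hr : Φ.IsPair p r) (hp : OA Φ H p) :
    ∃ a ∈ Φ.pairPerp p r, a ≠ 0 ∧ ∃ d ≠ 0, HasE Φ H p a d := by
  have := hr.finrank_pairPerp h.nd
  obtain ⟨a, ha, a0⟩ := exists_notMem_of_lt (U := Φ.pairPerp p r) (R := ⊥) (by rw [finrank_bot]; omega)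
  replace a0 : a ≠ 0 := by simpa using a0
  obtain ⟨b, hb, e⟩ := h.exB (hr.nondeg_pairPerp h.nd) ha a0
  obtain ⟨d, hd⟩ := hp a (Φ.mem_pairPerp.1 ha).1
  obtain ⟨d', hd'⟩ := hp b (Φ.mem_pairPerp.1 hb).1
  by_contra! c
  refine c _ (add_mem ha hb) (fun c => ?_) _ ?_ (h.mul hd hd')
  · simpa [h.alt, e] using congrArg (Φ.B a) c
  · rw [by_contra fun d0 => c a ha a0 d d0 hd, by_contra fun d0 => c b hb (by rintro rfl; simp at e) d' d0 hd', e]
    simp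

end Cfsg.Agent.Root.MinS
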