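import Cfsg.Agent.Root.MinE1

/-! Minimal index in `Sp_n(2)`, `n ≥ 6`: a subgroup of small index preserves a quadratic form (`HA.qf`), indices of the
orthogonal groups (`HA.index_SQ`), the result `psp_two`. -/

set_option autoImplicit false
set_option linter.unusedSectionVars false

namespace Cfsg.Agent.Root.MinS

open Cfsg.Agent.Geom Cfsg.Agent.AutCl Module Mx MulAction MinU

variable {F : Type*} [Field F] [Fintype F] {V : Type*} [AddCommGroup V] [Module F V] {Φ : Formed (RingHom.id F) V}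
  {H : Subgroup (V ≃ₗ[F] V)} {Q : V → F}

/-- Quadratic functions with polar form `Φ.B`. -/
def QF (Φ : Formed (RingHom.id F) V) (Q : V → F) : Prop := ∀ u v, Q (u + v) = Q u + Q v + Φ.B u v

/-- The stabiliser of a function. -/
def SQ (F : Type*) [Field F] [Module F V] (Q : V → F) : Subgroup (V ≃ₗ[F] V) where
  carrier := {g | ∀ x, Q (g x) = Q x}
  mul_mem' := fun {_ _} ha hb v => (ha _).trans (hb v)
  one_mem' := fun _ => rfl
  inv_mem' := fun {a} ha v => by simpa using (ha (a.symm v)).symm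

open scoped _root_.Classical in
/-- The sign character of the field with two elements. -/
noncomputable def sg (x : F) : ℤ := if x = 0 then 1 else -1

theorem QF.zero (hQ : QF Φ Q) : Q 0 = 0 := by simpa using hQ 0 0

variable (h : HA Φ) [FiniteDimensional F V] [Fintype V]
include h

theorem HA.oa6 (h6 : 6 ≤ finrank F V) {p a : V} (hp : OA Φ H p) (ha : OA Φ H a) (e : Φ.B p a = 0) :
    HasE Φ H p a 0 ∨ p ∈ F ∙ a := by
  refine or_iff_not_imp_right.2 fun e' => ?_
  have e1 := h.nd.finrank_add_finrank_perp (Submodule.span F {p, a})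
  have e2 := MinD.finrank_span_pair (F := F) p a
  obtain ⟨c, c1, c2⟩ := exists_notMem_of_lt (U := Φ.perp (Submodule.span F {p, a})) (R := Submodule.span F {p, a})
    (by omega)
  obtain ⟨b, b1, b2⟩ := h.nd.exists_perp_eq_one' c2
  rw [Φ.mem_perp_span] at c1 b1
  obtain ⟨d, hd⟩ := ha (-b) (by simp [b1 a])
  obtain ⟨d', hd'⟩ := hp c (c1 p (by simp))
  simpa [h.anti c b, b2] using hd.move hd' (Φ.B_eq_zero_symm e) (by simp [h.anti p b, b1 p]) (c1 a (by simp))

variable (hq : Nat.card F = 2)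
include hq

omit h in
theorem cases2 (x : F) : x = 0 ∨ x = 1 := by
  obtain ⟨y, -, hy⟩ := (Nat.card_eq_two_iff' (0 : F)).1 hq
  exact or_iff_not_imp_left.2 fun c => (hy x c).trans (hy 1 one_ne_zero).symm

omit h in
theorem two0 : (2 : F) = 0 := (cases2 hq 2).resolve_right fun c => one_ne_zero (by linear_combination c : (1 : F) = 0)

omit h in
theorem sg_add (x y : F) : sg (x + y) = sg x * sg y := by
  have := two0 hq
  rcases cases2 hq x with rfl | rfl <;> rcases cases2 hq y with rfl | rfl <;> simp [sg, one_add_one_eq_two, this]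

theorem HA.sum_shift (hQ : QF Φ Q) (v : V) : ∑ x, sg (Q x + Φ.B v x) = sg (Q v) * ∑ x, sg (Q x) := by
  rw [← Equiv.sum_comp (Equiv.addLeft v) fun x => sg (Q x), Finset.mul_sum]
  refine Finset.sum_congr rfl fun x _ => ?_
  rw [← sg_add hq, Equiv.coe_addLeft, hQ]
  congr 1
  linear_combination -Q v * two0 hq

theorem HA.sum_sq (hQ : QF Φ Q) : (∑ x, sg (Q x)) ^ 2 = Nat.card V := by
  classical
  have h2 := two0 hq
  have h1 : ∀ v, sg (Q v) * ∑ x, sg (Q x) = ∑ x, sg (Q x) * sg (Φ.B v x) := fun v => by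
    rw [← h.sum_shift hq hQ]; simp only [sg_add hq]
  have h3 : ∀ x, ∑ v, sg (Φ.B v x) = if x = 0 then (Nat.card V : ℤ) else 0 := fun x => by
    split_ifs with c
    · simp [c, sg]
    obtain ⟨u, hu⟩ := h.nd.exists_eq_one c
    have := Equiv.sum_comp (Equiv.addLeft u) fun v => sg (Φ.B v x)
    simp only [Equiv.coe_addLeft, map_add, LinearMap.add_apply, sg_add hq, ← Finset.mul_sum] at this
    rw [show sg (Φ.B u x) = -1 by simp [sg, h.anti x u, hu]] at this
    omega
  rw [sq, Finset.sum_mul]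
  simp only [h1]
  rw [Finset.sum_comm]
  simp only [← Finset.mul_sum, h3]
  simp [hQ.zero, sg]

omit h hq in
theorem sum_sg (Q : V → F) : ∑ x, sg (Q x) = 2 * {x | Q x = 0}.ncard - Nat.card V := by
  classical
  have : ∀ x, sg (Q x) = 2 * (if Q x = 0 then 1 else 0) - 1 := fun x => by unfold sg; split_ifs <;> rfl
  simp only [this, Finset.sum_sub_distrib, ← Finset.mul_sum]
  simp [Set.ncard_eq_toFinset_card']

theorem HA.qT (hQ : QF Φ Q) {v : V} (hv : Q v = 0) {t : V ≃ₗ[F] V} (ht : IsE Φ v 0 1 t) (x : V) :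
    Q (t⁻¹ x) = Q x + Φ.B v x := by
  rw [h.tv (ht.inv.congr neg_zero rfl), h.ε]
  rcases cases2 hq (Φ.B v x) with e | e
  · simp [e]
  · simp [e, hQ x v, hv, h.anti v x, neg_eq_iff_add_eq_zero, one_add_one_eq_two, two0 hq]

variable [Finite (V ≃ₗ[F] V)]

theorem HA.index_SQ (hQ : QF Φ Q) : (SQ F Q).relIndex (EG Φ) = {x | Q x = 0}.ncard := by
  have h2 := two0 hq
  have ex := fun v => h.exE (p := v) (map_zero _) 1
  choose T hT using ex
  rw [← Nat.card_coe_set_eq]
  refine le_antisymm (Nat.card_le_card_of_surjective (β := EG Φ ⧸ (SQ F Q).subgroupOf (EG Φ))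
    (fun v : {x | Q x = 0} => QuotientGroup.mk ⟨T v, IsE_mem_EG (hT v)⟩) fun g => ?_)
    (fam (fun v : {x | Q x = 0} => T v) (fun v => IsE_mem_EG (hT v)) fun u v e => Subtype.ext (sub_eq_zero.1
      (h.nd _ fun x => ?_)))
  · obtain ⟨⟨g, hg⟩, rfl⟩ := QuotientGroup.mk_surjective g
    have hg' : QF Φ fun x => Q (g⁻¹ x) := fun u v => by
      simp only [map_add, hQ _ _, (EG_le_isom (inv_mem hg)).1]
    obtain ⟨v, hv⟩ := h.nd.exists_eq_B ⟨⟨fun x => Q (g⁻¹ x) - Q x, fun u v => by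
      linear_combination hg' u v - hQ u v⟩, fun c x => by
      rcases cases2 hq c with rfl | rfl <;> simp [hQ.zero]⟩
    replace hv : ∀ x, Q (g⁻¹ x) = Q x + Φ.B v x := fun x => by rw [hv]; simp
    have h1 := h.sum_shift hq hQ v
    simp only [← hv] at h1
    replace h1 := (Equiv.sum_comp (g⁻¹).toEquiv fun x => sg (Q x)).symm.trans h1
    have h3 := h.sum_sq hq hQ
    have h4 : 0 < Nat.card V := Nat.card_pos
    have v0 : Q v = 0 := by_contra fun c => by
      rw [sg, if_neg c] at h1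
      rw [show ∑ x, sg (Q x) = 0 by omega] at h3
      omega
    exact ⟨⟨v, v0⟩, QuotientGroup.eq.2 fun x => (h.qT hq hQ v0 (hT v) (g x)).trans (by rw [← hv]; simp)⟩
  · have := e ((T v)⁻¹ x)
    rw [LinearEquiv.mul_apply, h.qT hq hQ v.2 (hT v), show T v ((T v)⁻¹ x) = x from (T v).apply_symm_apply x,
      h.qT hq hQ u.2 (hT u)] at this
    rw [map_sub, LinearMap.sub_apply]
    linear_combination this

theorem HA.qf (hH : H ≤ EG Φ) (h6 : 6 ≤ finrank F V) (hne : ¬ EG Φ ≤ H) (hN : 2 * H.relIndex (EG Φ) < Nat.card V) :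
    ∃ Q, QF Φ Q ∧ H ≤ SQ F Q := by
  classical
  have h2 := two0 hq
  have hI := hH.trans EG_le_isom
  have Z0 : ∀ p, ¬ S Φ H p → ∀ d, HasE Φ H p 0 d → d = 0 := fun p hp d hd => (cases2 hq d).resolve_right fun e =>
    hp fun d' => (cases2 hq d').elim (fun c => c ▸ hasE_one H (h.sing p)) fun c => c ▸ e ▸ hd
  have oa : ∀ p ≠ 0, ¬ S Φ H p → OA Φ H p := fun p p0 hp => by_contra fun c => by
    obtain ⟨r, hr⟩ := h.nd.exists_isPair p0 (h.sing p)
    have h1 := h.big hH hr c
    have h3 := relIndex_mono H (inf_le_left : EG Φ ⊓ stabilizer _ p ≤ EG Φ)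
    rw [show ZE Φ H hr.se = ⊥ from eq_bot_iff.2 (Z0 p hp), AddSubgroup.card_bot, hq] at h1
    rw [Module.natCard_eq_pow_finrank (K := F), ← hr.finrank_pairPerp h.nd, hq, pow_add] at hN
    omega
  let Q : V → F := fun v => if S Φ H v ∧ v ≠ 0 then 1 else 0
  have q1 : ∀ p ≠ 0, ¬ S Φ H p → ∀ a, Φ.B p a = 0 → HasE Φ H p a (Q a) := fun p p0 hp a e => by
    by_cases a0 : a = 0
    · simpa [a0, Q] using hasE_one H (h.sing p)
    have ap : a ∈ F ∙ p → a = p := fun c => by
      obtain ⟨t, rfl⟩ := Submodule.mem_span_singleton.1 c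
      rcases cases2 hq t with rfl | rfl <;> simp at a0 ⊢
    by_cases c : S Φ H a
    · simpa [Q, c, a0] using h.conj2 hI h2 (oa p p0 hp) e (fun c' => hp (ap c' ▸ c)) ((c 1).congr (zero_smul F p).symm rfl) 1
    rcases h.oa6 h6 (oa p p0 hp) (oa a a0 c) e with c' | c'
    · simpa [Q, c]
    obtain ⟨t, rfl⟩ := Submodule.mem_span_singleton.1 c'
    obtain rfl : t = 1 := (cases2 hq t).resolve_left (by rintro rfl; simp at p0)
    simpa [Q, c, h2] using h.shift (hasE_one H (h.sing a)) 1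
  have q2 : ∀ p ≠ 0, ¬ S Φ H p → ∀ a b, Φ.B p a = 0 → Φ.B p b = 0 → Q (a + b) = Q a + Q b + Φ.B a b :=
    fun p p0 hp a b ha hb => by
      linear_combination Z0 p hp _ (h.dif (q1 p p0 hp _ (by simp [ha, hb])) (h.mul (q1 p p0 hp a ha) (q1 p p0 hp b hb))) -
        Φ.B a b * h2
  obtain ⟨p, hp⟩ : ∃ p, ¬ S Φ H p := not_forall.1 fun hS => hne (EG_le fun p a d g hg => by
    have h1 := h.tv_mul (p := p) (a := -a) (c := 1) (hS _ _) (hS _ _) (by simp [hg.pa])
    exact ((h.mul h1 (hS p (d - 1))).congr (by simp) (by simp)).mem hg)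
  have p0 : p ≠ 0 := by rintro rfl; exact hp fun d => ⟨1, one_mem _, h.isE (by simp) (by simp)⟩
  refine ⟨Q, fun u v => ?_, fun g hg x => if_congr (and_congr ⟨fun c => by simpa using c.map hI (inv_mem hg),
    fun c => c.map hI hg⟩ (by simp)) rfl rfl⟩
  obtain ⟨y, hy, y0, hy'⟩ : ∃ y ∈ ⊤ ⊓ pf Φ ![p, u, v], y ≠ 0 ∧ ¬ S Φ H y := by
    by_contra! c
    have h1 := finrank_pf (Φ := Φ) ![p, u, v] ⊤
    rw [finrank_top] at h1
    have hU : ∀ y ∈ ⊤ ⊓ pf Φ ![p, u, v], Φ.B p y = 0 := fun y hy => mem_pf.1 hy.2 0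
    generalize ⊤ ⊓ pf Φ ![p, u, v] = U at *
    have k : ∀ a ∈ U, ∀ b ∈ U, a ≠ 0 → b ∉ F ∙ a → Φ.B a b = 1 := fun a ha b hb a0 e => by
      have b0 : b ≠ 0 := by rintro rfl; exact e (zero_mem _)
      have b1 : a + b ≠ 0 := fun e' => e (by
        rw [← neg_eq_iff_add_eq_zero.2 e']; exact neg_mem (Submodule.mem_span_singleton_self a))
      have := q2 p p0 hp a b (hU a ha) (hU b hb)
      simp only [Q, c _ ha a0, c _ hb b0, c _ (add_mem ha hb) b1, ne_eq, a0, b0, b1, not_false_eq_true, and_self,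
        if_true] at this
      linear_combination -this - h2
    obtain ⟨a, ha, a0⟩ := exists_notMem_of_lt (U := U) (R := ⊥) (by rw [finrank_bot]; omega)
    replace a0 : a ≠ 0 := by simpa using a0
    obtain ⟨b, hb, b0⟩ := exists_notMem_of_lt (U := U) (R := F ∙ a) (by rw [finrank_span_singleton a0]; omega)
    obtain ⟨d, hd, d0⟩ := exists_notMem_of_lt (U := U) (R := Submodule.span F {a, b})
      (by have := MinD.finrank_span_pair (F := F) a b; omega)
    have le : F ∙ a ≤ Submodule.span F {a, b} := Submodule.span_mono (by simp)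
    have := k a ha _ (add_mem hb hd) a0 fun e => d0 ((Submodule.add_mem_iff_right _ (Submodule.subset_span (by simp))).1 (le e))
    rw [map_add, k a ha b hb a0 b0, k a ha d hd a0 fun e => d0 (le e)] at this
    simp at this
  exact q2 y y0 hy' u v (Φ.B_eq_zero_symm (mem_pf.1 hy.2 1)) (Φ.B_eq_zero_symm (mem_pf.1 hy.2 2))

theorem HA.zeros {m : ℕ} (hm : finrank F V = 2 * m) (hQ : QF Φ Q) :
    2 * {x | Q x = 0}.ncard + 2 ^ m = 2 ^ (2 * m) ∨ ∑ x, sg (Q x) = 2 ^ m := by
  have h1 := h.sum_sq hq hQ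
  have h2 := sum_sg Q
  rw [Module.natCard_eq_pow_finrank (K := F), hm, hq] at h1 h2
  rcases sq_eq_sq_iff_eq_or_eq_neg.1 (h1.trans (by push_cast; rw [mul_comm, pow_mul] : _ = ((2 : ℤ) ^ m) ^ 2)) with e | e
  · exact Or.inr e
  · refine Or.inl ?_
    zify at h2 ⊢
    linarith

theorem HA.two_bound (hH : H ≤ EG Φ) {m : ℕ} (hm : finrank F V = 2 * m) (h3 : 3 ≤ m) (hne : ¬ EG Φ ≤ H) :
    2 ^ (2 * m) ≤ 2 * H.relIndex (EG Φ) + 2 ^ m := by
  have e : Nat.card V = 2 ^ (2 * m) := by rw [Module.natCard_eq_pow_finrank (K := F), hm, hq]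
  by_contra! c
  obtain ⟨Q, hQ, h1⟩ := h.qf hq hH (by omega) hne (e ▸ lt_of_le_of_lt (Nat.le_add_right _ _) c)
  have h2 := (h.index_SQ hq hQ).ge.trans (Subgroup.relIndex_le_of_le_left h1 Subgroup.index_ne_zero_of_finite)
  rcases h.zeros hq hm hQ with e' | e'
  · omega
  · rw [sum_sg, e] at e'
    zify at c h2 e'
    have : (0 : ℤ) < 2 ^ m := by positivity
    linarith

theorem HA.two_ex {m : ℕ} (hm : finrank F V = 2 * m) (h3 : 1 ≤ m) (hQ : QF Φ Q) :
    ∃ Q, QF Φ Q ∧ 2 * (SQ F Q).relIndex (EG Φ) + 2 ^ m = 2 ^ (2 * m) := by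
  rcases h.zeros hq hm hQ with e | e
  · exact ⟨Q, hQ, by rwa [h.index_SQ hq hQ]⟩
  obtain ⟨v, hv⟩ : ∃ v, Q v ≠ 0 := by
    by_contra! c
    simp only [c, sg, if_true, Finset.sum_const, Finset.card_univ, nsmul_eq_mul, mul_one] at e
    rw [← Nat.card_eq_fintype_card, Module.natCard_eq_pow_finrank (K := F), hm, hq] at e
    have := Nat.pow_right_injective le_rfl (by exact_mod_cast e : 2 ^ (2 * m) = 2 ^ m)
    omega
  have hQ' : QF Φ fun x => Q x + Φ.B v x := fun a b => by simp only [hQ a b, map_add]; ring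
  refine ⟨_, hQ', h.index_SQ hq hQ' ▸ (h.zeros hq hm hQ').resolve_right fun c => ?_⟩
  rw [h.sum_shift hq hQ, e, sg, if_neg hv] at c
  have : (0 : ℤ) < 2 ^ m := by positivity
  linarith

omit h hq

theorem psp_lb (F : Type*) [Field F] [Fintype F] {m : ℕ} (P : ℕ → Prop)
    (hP : ∀ H ≤ EG (sympFormed m F), ¬ EG (sympFormed m F) ≤ H → P (H.relIndex (EG (sympFormed m F))))
    (H : Subgroup (PSp m F)) (hH : H ≠ ⊤) : P H.index := by
  let φ := (sympFormed m F).isom.subtype.comp (spEquiv m F).toMonoidHom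
  have hφ : Function.Injective φ := Subtype.val_injective.comp (spEquiv m F).injective
  have hr : φ.range = _ := range_sp F m
  have i := H.index_comap_of_surjective (QuotientGroup.mk'_surjective _)
  rw [← i, ← Subgroup.comap_map_eq_self_of_injective hφ (H.comap _), Subgroup.index_comap, hr]
  refine hP _ (hr ▸ Subgroup.map_le_range _ _) fun c => hH (Subgroup.index_eq_one.1 ?_)
  rw [← i, ← Subgroup.comap_map_eq_self_of_injective hφ (H.comap _), Subgroup.index_comap, hr,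
    Subgroup.relIndex_eq_one.2 c]

theorem psp_two (F : Type*) [Field F] [Fintype F] (hq : Nat.card F = 2) {m : ℕ} (hm : 3 ≤ m) :
    (∀ H : Subgroup (PSp m F), H ≠ ⊤ → 2 ^ (2 * m) ≤ 2 * H.index + 2 ^ m) ∧
      ∃ H : Subgroup (PSp m F), 2 * H.index + 2 ^ m = 2 ^ (2 * m) := by
  have : Finite ((Fin m ⊕ Fin m → F) ≃ₗ[F] (Fin m ⊕ Fin m → F)) := DFunLike.finite _
  have hk : finrank F (Fin m ⊕ Fin m → F) = 2 * m := by simp [two_mul]
  refine ⟨psp_lb F (fun N => 2 ^ (2 * m) ≤ 2 * N + 2 ^ m) fun H hH => (ha_symp F m).two_bound hq hH hk hm, ?_⟩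
  let φ := (sympFormed m F).isom.subtype.comp (spEquiv m F).toMonoidHom
  have hr : φ.range = _ := range_sp F m
  obtain ⟨Q, hQ, e⟩ := (ha_symp F m).two_ex hq hk (by omega) (Q := fun v => ∑ i, v (.inl i) * v (.inr i)) fun u v => by
    rw [sympFormed_B, sympForm_apply, ← Finset.sum_add_distrib, ← Finset.sum_add_distrib]
    exact Finset.sum_congr rfl fun i _ => by
      simp only [Pi.add_apply]
      linear_combination u (.inl i) * v (.inr i) * two0 hq
  refine ⟨((SQ F Q).comap φ).map (QuotientGroup.mk' _), ?_⟩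
  rw [← Subgroup.index_comap_of_surjective _ (QuotientGroup.mk'_surjective _), Subgroup.comap_map_eq_self,
    Subgroup.index_comap, hr, e]
  rw [QuotientGroup.ker_mk']
  intro z hz x
  by_cases x0 : x = 0
  · simp [x0]
  obtain ⟨c, hc⟩ := Submodule.mem_span_singleton.1 ((ha_symp F m).central_pt (g := φ z) (fun t ht => by
    obtain ⟨t, rfl⟩ := hr.ge ht
    rw [← map_mul, ← map_mul, Subgroup.mem_center_iff.1 hz]) x0)
  rcases cases2 hq c with rfl | rfl
  · exact (x0 (by simpa using hc.symm)).elim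
  · rw [← hc, one_smul]

end Cfsg.Agent.Root.MinS
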