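import Cfsg.Agent.Root.MinE2

/-! Minimal index in `Sp_n(q)`, `q ≥ 4` even: trichotomy for points (`HA.tri2`), the lower bound (`psp_even`). -/

set_option autoImplicit false
set_option linter.unusedSectionVars false

namespace Cfsg.Agent.Root.MinS

open Cfsg.Agent.Geom Cfsg.Agent.AutCl Module Mx MulAction MinU

variable {F : Type*} [Field F] [Fintype F] {V : Type*} [AddCommGroup V] [Module F V] {Φ : Formed (RingHom.id F) V}
  {H : Subgroup (V ≃ₗ[F] V)}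

theorem sq_inj (h2 : (2 : F) = 0) : Function.Injective fun c : F => c * c := fun a b (e : a * a = b * b) =>
  sub_eq_zero.1 (mul_self_eq_zero.1 (by linear_combination e + (b * b - a * b) * h2))

theorem kap2 (h2 : (2 : F) = 0) {Z : AddSubgroup F} (Z0 : Z ≠ ⊥) {t : F} (tZ : t ∉ Z) :
    {c : F | c ≠ 0 ∧ ∀ d ∈ Z, d * (c * c) ∈ Z}.ncard * Nat.card Z + 2 ≤ Nat.card F := by
  let K := {y : F | ∀ d ∈ Z, d * y ∈ Z}
  have h1 : Nat.card K * Nat.card Z ≤ Nat.card F := by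
    rw [← Nat.card_prod]
    refine Nat.card_le_card_of_injective (fun x => t * x.1.1 + x.2.1) fun x y e => ?_
    replace e : t * x.1.1 + x.2.1 = t * y.1.1 + y.2.1 := e
    by_cases c : x.1.1 - y.1.1 = 0
    · exact Prod.ext (Subtype.ext (sub_eq_zero.1 c)) (Subtype.ext (by linear_combination e - t * c))
    obtain ⟨d, hd⟩ := Finite.surjective_of_injective (f := fun d : Z => (⟨d * (x.1.1 - y.1.1), mul_sub d.1 _ _ ▸
      sub_mem (x.1.2 _ d.2) (y.1.2 _ d.2)⟩ : Z)) (fun a b e => Subtype.ext (mul_right_cancel₀ c (congrArg Subtype.val e)))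
      (y.2 - x.2)
    replace hd : d.1 * (x.1.1 - y.1.1) = y.2.1 - x.2.1 := congrArg Subtype.val hd
    exact (tZ ((mul_right_cancel₀ c (by linear_combination hd - e) : d.1 = t) ▸ d.2)).elim
  have h3 : 2 ≤ Nat.card Z := (AddSubgroup.one_lt_card_iff_ne_bot Z).2 Z0
  have h4 : (K \ {0}).ncard + 1 = Nat.card K := Set.ncard_sdiff_singleton_add_one (by simp [K])
  have h6 := Set.ncard_le_ncard_of_injOn (s := {c : F | c ≠ 0 ∧ ∀ d ∈ Z, d * (c * c) ∈ Z}) (t := K \ {0}) (fun c => c * c)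
    (fun c hc => ⟨hc.2, by simpa using hc.1⟩) (sq_inj h2).injOn
  rw [← h4] at h1
  nlinarith [Nat.mul_le_mul_right (Nat.card Z) h6]

theorem arK {c J N s z x : ℕ} (h1 : c * J ≤ N * s) (h2 : s * z + 2 ≤ c + 1) (h3 : x * (c + 1) ≤ J * z)
    (h4 : N * c + 1 < x * (c + 1) ^ 2) : False := by
  have a1 : x * (c + 1) * c ≤ N * (s * z) := by nlinarith [Nat.mul_le_mul_right c h3, Nat.mul_le_mul_right z h1]
  have a2 : x * (c + 1) * c + N ≤ N * c := by nlinarith [Nat.mul_le_mul_left N h2]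
  have a3 : x * (c + 1) * c * c + N * c ≤ N * c * c := by nlinarith [Nat.mul_le_mul_right c a2]
  obtain ⟨k, rfl⟩ : ∃ k, c = k + 1 := ⟨c - 1, by omega⟩
  nlinarith [Nat.mul_le_mul_right k h4.le, Nat.zero_le (x * k), Nat.zero_le x]

theorem arL {c J N a o x : ℕ} (c0 : 0 < c) (h1 : J ≤ N) (h2 : a ≤ o) (a0 : 0 < a) (h4 : N * c + 1 < x * (c + 1) ^ 2) :
    J * (a * 1) < 2 * o * (x * (c + 1)) := by
  refine Nat.lt_of_mul_lt_mul_right (a := c) ?_
  have a1 : J * c < x * (c + 1) * (2 * c) := by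
    nlinarith [Nat.mul_le_mul_right c h1, Nat.mul_le_mul_left (x * (c + 1)) (show c + 1 ≤ 2 * c by omega)]
  nlinarith [Nat.mul_lt_mul_of_pos_right a1 a0, Nat.mul_le_mul_left (x * (c + 1) * (2 * c)) h2]

theorem arM {c J N a o x : ℕ} (h1 : J ≤ N) (h2 : o * (x * (c + 1)) ≤ J * (a * 1)) (a0 : 0 < a)
    (h4 : N * c + 1 < x * (c + 1) ^ 2) : o * c < (c + 1) * a := by
  refine Nat.lt_of_mul_lt_mul_right (a := x * (c + 1)) ?_
  nlinarith [Nat.mul_le_mul_right c h2, Nat.mul_le_mul_right (a * c) h1, Nat.mul_lt_mul_of_pos_right h4 a0]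

theorem arN {c a o e : ℕ} (e0 : 0 < e) (h1 : a * (e + 1) = (c + 1) ^ 2) (h2 : (c + 1) ^ 2 ≤ o * e + 1)
    (h3 : o * c < (c + 1) * a) (h4 : c + 1 ≤ a) : a = c + 1 ∧ c + 1 + 1 ≤ o := by
  obtain rfl : a = c + 1 := le_antisymm (by_contra fun h => by
    nlinarith [Nat.mul_lt_mul_of_pos_right h3 e0, Nat.mul_le_mul_right c h2,
      Nat.mul_le_mul_left (c + 1) (show c + 2 ≤ a by omega)]) h4
  obtain rfl : e = c := by nlinarith
  exact ⟨rfl, Nat.le_of_mul_le_mul_right (by nlinarith) e0⟩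

variable (h : HA Φ) [FiniteDimensional F V] [Finite V] (h2 : (2 : F) = 0) {b : F} (b0 : b ≠ 0) (b1 : b ≠ 1)
include h h2 b0 b1

section
variable (hH : H ≤ Φ.isom)
include hH

theorem HA.os1 {p v : V} (hp : OA Φ H p) (e : Φ.B p v = 0) (hv : v ∉ F ∙ p) (hE : ∀ γ, ∃ β : F, HasE Φ H v (β • p) γ) :
    S Φ H p := fun d => by
  have k : ∀ c ≠ 0, HasE Φ H p v c := fun c c0 =>
    (h.conj2 hH h2 hp e hv (hE c⁻¹).choose_spec c).congr (by simp [c0]) (by field_simp)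
  by_cases d0 : d = 0
  · exact d0 ▸ hasE_one H (h.sing p)
  · exact (h.dif (k _ (mul_ne_zero b0 d0)) (k _ (mul_ne_zero (sub_ne_zero.2 b1) d0))).congr rfl (by ring)

theorem HA.os2 (h4 : 4 ≤ finrank F V) {p s : V} (p0 : p ≠ 0) (hp : OA Φ H p) (s0 : s ≠ 0) (hs : S Φ H s) : S Φ H p := by
  have k : ∀ s, S Φ H s → Φ.B p s = 0 → s ∉ F ∙ p → S Φ H p := fun s hs e e' =>
    h.os1 h2 b0 b1 hH hp e e' fun γ => ⟨0, (hs γ).congr (zero_smul F p).symm rfl⟩
  by_cases e : Φ.B p s = 0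
  · by_cases e' : s ∈ F ∙ p
    · obtain ⟨c, rfl⟩ := Submodule.mem_span_singleton.1 e'
      exact h.of_smul hs (by rintro rfl; simp at s0)
    · exact k s hs e e'
  have hr := h.pair (p := p) (r := (Φ.B p s)⁻¹ • s) (by simp [e])
  replace hs := h.smul hs (Φ.B p s)⁻¹
  generalize (Φ.B p s)⁻¹ • s = r at hr hs
  obtain ⟨a, ha, a0, d, d0, g, g1, g2⟩ := h.os0 hH h2 h4 hr hp
  obtain ⟨a1, a2⟩ := Φ.mem_pairPerp.1 ha
  have := h.line hH hs (hs.map hH g1) (by simp [g2.apply_r hr a2, h.alt, a2, h.anti p r, hr.ef, d0]) (-1)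
  refine k _ this (by simp [g2.B_p]) fun c => a0 ?_
  obtain ⟨c, hc⟩ := Submodule.mem_span_singleton.1 c
  rw [g2.apply_r hr a2, h.ε] at hc
  have e1 : a = (c + d) • p := by linear_combination (norm := module) -hc
  rw [e1, map_smul, h.anti p r, hr.ef] at a2
  rw [e1, show c + d = 0 by rw [smul_eq_mul] at a2; linear_combination -a2, zero_smul]

theorem HA.os3 (h4 : 4 ≤ finrank F V) (hp : ∀ p ≠ 0, OA Φ H p) : ∃ s ≠ 0, S Φ H s := by
  obtain ⟨p, -, p0⟩ := exists_notMem_of_lt (U := (⊤ : Submodule F V)) (R := ⊥) (by rw [finrank_bot, finrank_top]; omega)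
  replace p0 : p ≠ 0 := by simpa using p0
  obtain ⟨r, hr⟩ := h.nd.exists_isPair p0 (h.sing p)
  obtain ⟨a, ha, a0, d, d0, hd⟩ := h.os0 hH h2 h4 hr (hp p p0)
  obtain ⟨a1, a2⟩ := Φ.mem_pairPerp.1 ha
  refine ⟨p, p0, h.os1 h2 b0 b1 hH (hp p p0) a1 (fun c => ?_) fun γ => ?_⟩
  · obtain ⟨c, rfl⟩ := Submodule.mem_span_singleton.1 c
    simp [h.anti p r, hr.ef] at a2
    simp [a2] at a0
  obtain ⟨c, hc⟩ := Finite.surjective_of_injective (sq_inj h2) (γ / d)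
  refine ⟨_, (h.conj2 hH h2 (hp a a0) (Φ.B_eq_zero_symm a1) (fun c => ?_) (hd.congr (one_smul F a).symm rfl) c).congr rfl
    (by rw [sq, show c * c = _ from hc]; field_simp)⟩
  obtain ⟨c, e⟩ := Submodule.mem_span_singleton.1 c
  simpa [← e, h.anti r a, a2] using hr.ef

theorem HA.reg2 {p w : V} (p0 : p ≠ 0) (Z0 : ∀ d, HasE Φ H p 0 d → d = 0)
    (hA : ∀ v, v ∈ AE Φ H (h.sing p) ↔ v ∈ Submodule.span F {p, w})
    (hc : ∀ g ∈ Φ.isom, g p ∈ F ∙ p → g w ∈ Submodule.span F {p, w} → ∃ a d u, IsE Φ p a d u ∧ u * g ∈ H) :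
    ∃ r, Φ.IsPair p r ∧ ∀ g ∈ Φ.isom, g p = p → g r = r → g w ∈ Submodule.span F {p, w} → g ∈ H := by
  obtain ⟨r₀, hr₀⟩ := h.nd.exists_isPair p0 (h.sing p)
  have pw : Φ.B p w = 0 := ((hA w).2 (Submodule.subset_span (by simp))).choose_spec.pa
  obtain ⟨a, d, u, hu, h0⟩ := hc _ (hr₀.torus (Units.mk0 b b0)).2 (by
    rw [hr₀.torus_left]; exact Submodule.smul_mem _ _ (Submodule.mem_span_singleton_self p))
    (Submodule.mem_span_pair.2 ⟨(b - 1) * Φ.ε * Φ.B r₀ w, 1, by rw [hr₀.torus_apply, pw]; simp [add_comm]⟩)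
  obtain ⟨a, ha, d, hu⟩ := hu.exists_perp hr₀
  obtain ⟨a1, a2⟩ := Φ.mem_pairPerp.1 ha
  have b2 : b - 1 ≠ 0 := sub_ne_zero.2 b1
  have b3 : b * b - 1 ≠ 0 := sub_ne_zero.2 fun e => b1 (sq_inj h2 (e.trans (mul_one 1).symm))
  have kv : ∀ v, (u * (hr₀.torus (Units.mk0 b b0)).1) v = v + ((b - 1) * -Φ.B r₀ v + Φ.B a v - d * b⁻¹ * Φ.B p v) • p +
      ((b⁻¹ - 1) * Φ.B p v) • r₀ + (b⁻¹ * Φ.B p v) • a := fun v => by
    simp only [LinearEquiv.mul_apply, h.app hu, hr₀.torus_apply, map_add, map_smul, h.alt, hr₀.ef, h.ε, h.anti p a,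
      h.anti r₀ a, a1, a2, smul_eq_mul, RingHom.id_apply, Units.val_mk0]
    module
  generalize u * (hr₀.torus (Units.mk0 b b0)).1 = k at h0 kv
  obtain ⟨α, hα⟩ : ∃ α, α * (b - 1) = 1 := ⟨_, inv_mul_cancel₀ b2⟩
  obtain ⟨β, hβ⟩ : ∃ β, β * (b * b - 1) = d := ⟨_, div_mul_cancel₀ d b3⟩
  have hr : Φ.IsPair p (r₀ - α • a + β • p) := h.pair (by simp [hr₀.ef, a1, h.alt])
  have k1 : k p = b • p := by simp [kv, h.alt, h.anti p a, a1, h.anti p r₀, hr₀.ef, sub_smul]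
  have k2 : k (r₀ - α • a + β • p) = b⁻¹ • (r₀ - α • a + β • p) := by
    rw [map_add, map_sub, map_smul, map_smul, k1, kv, kv a]
    simp only [h.alt, a1, a2, h.anti r₀ a, hr₀.ef]
    match_scalars
    · ring
    · field_simp; linear_combination hβ
    · field_simp; linear_combination -hα
  generalize r₀ - α • a + β • p = r at hr k2
  have k3 : ∀ x ∈ Φ.pairPerp p r, k x = x := fun x hx => by
    obtain ⟨x1, x2⟩ := Φ.mem_pairPerp.1 hx
    have e1 := (hH h0).1 r x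
    rw [k2, kv x, x1] at e1
    simp only [mul_zero, zero_smul, add_zero, map_add, map_smul, LinearMap.smul_apply, x2, h.anti p r, hr.ef, smul_eq_mul,
      RingHom.id_apply, zero_add, mul_eq_zero, inv_eq_zero, b0, false_or, neg_eq_zero, one_ne_zero, or_false] at e1
    rw [kv x, x1]
    simp only [mul_zero, zero_smul, add_zero, e1]
  refine ⟨r, hr, fun g hg g1 g2 g3 => ?_⟩
  obtain ⟨a, d, z, hz, h1⟩ := hc g hg (g1.symm ▸ Submodule.mem_span_singleton_self p) g3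
  obtain ⟨a, ha, d, hz⟩ := hz.exists_perp hr
  have c1 : k * g = g * k := isom_ext_pair hr (by simp [g1, k1]) (by simp [g2, k2]) fun x hx => by
    rw [LinearEquiv.mul_apply, LinearEquiv.mul_apply, k3 x hx, k3 _ (map_mem_pairPerp hg one_ne_zero one_ne_zero
      (g1.trans (one_smul _ _).symm) (g2.trans (one_smul _ _).symm) hx)]
  have key : ∀ {d z}, IsE Φ p a d z → IsE Φ p ((b - 1) • a) (d * (b * b - 1)) (k * z * k⁻¹ * z⁻¹) := fun {d z} hz => by
    have := hz.conj (hH h0)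
    rw [k1, k3 a ha] at this
    exact ((this.of_smul (h.sing p) b0).mul hz.inv).congr (by simp only [RingHom.id_apply]; module)
      (by simp [h.ε, h.alt]; ring)
  have c3 : k * z * k⁻¹ * z⁻¹ ∈ H := by
    have := mul_mem (mul_mem (mul_mem h0 h1) (inv_mem h0)) (inv_mem h1)
    rw [← mul_assoc k, mul_assoc (k * z), show g * k⁻¹ = k⁻¹ * g by
      rw [mul_inv_eq_iff_eq_mul, mul_assoc, ← c1]; simp] at this
    simpa [mul_assoc] using this
  obtain ⟨d', z', z1, z2⟩ := (hA a).2 ((Submodule.smul_mem_iff _ b2).1 ((hA _).1 ⟨_, _, c3, key hz⟩))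
  obtain rfl : d = d' := mul_right_cancel₀ b3 (sub_eq_zero.1 (Z0 _ (h.dif ⟨_, c3, key hz⟩
    ⟨_, mul_mem (mul_mem (mul_mem h0 z1) (inv_mem h0)) (inv_mem z1), key z2⟩)))
  exact (H.mul_mem_cancel_left (hz.ext z2 ▸ z1)).1 h1

variable (h4 : 4 ≤ finrank F V)
include h4

theorem HA.full2 {p r d u : V} (hr : Φ.IsPair p r) (hD : ∀ x ∈ Φ.pairPerp p r, S Φ H x) (hd : d ∈ Φ.pairPerp p r)
    (d0 : d ≠ 0) (hu : u ∈ Submodule.span F {p, r}) (u0 : u ≠ 0) (hs : S Φ H (d + u)) : Full Φ H u := by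
  have hn := hr.nondeg_pairPerp h.nd
  obtain ⟨α, β, rfl⟩ := Submodule.mem_span_pair.1 hu
  have uD : ∀ x ∈ Φ.pairPerp p r, Φ.B (α • p + β • r) x = 0 := fun x hx => by simp [Φ.mem_pairPerp.1 hx]
  have h1 : d ∈ AE Φ H (h.sing (α • p + β • r)) :=
    ⟨_, (h.tv_mul (hs (-1)) (hD d hd _) (uD d hd)).congr (by simp) rfl⟩
  have h3 : ∀ x ∈ Φ.pairPerp p r, Φ.B x d ≠ 0 → x ∈ AE Φ H (h.sing (α • p + β • r)) := fun x hx e => by
    obtain ⟨g, g1, g2⟩ := hD x hx (Φ.B x d)⁻¹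
    have := sub_mem h1 (map_mem_AE g1 (hH g1) (by rw [h.tv g2, Φ.B_eq_zero_symm (uD x hx)]; simp) h1)
    rwa [h.tv g2, inv_mul_cancel₀ e, one_smul, sub_sub_cancel] at this
  obtain ⟨e, he, e1⟩ := h.exB hn hd d0
  suffices k : ∀ a, Φ.B (α • p + β • r) a = 0 → a ∈ AE Φ H (h.sing (α • p + β • r)) from
    full_of_AE (h.sing _) k fun c g hg => (h.os2 h2 b0 b1 hH h4 u0 k d0 (hD d hd) c).mem hg
  intro a ha
  have h5 := h.dec hr a
  have h6 : a + Φ.B r a • p - Φ.B p a • r ∈ AE Φ H (h.sing (α • p + β • r)) := by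
    by_cases c : Φ.B (a + Φ.B r a • p - Φ.B p a • r) d = 0
    · simpa using sub_mem (h3 _ (add_mem h5 he) (by rw [map_add, LinearMap.add_apply, c, h.anti, e1]; simp))
        (h3 e he (by rw [h.anti, e1]; simp))
    · exact h3 _ h5 c
  simp only [map_add, LinearMap.add_apply, Φ.B_smul_left, RingHom.id_apply] at ha
  by_cases c : α = 0
  · have c' : β ≠ 0 := by rintro rfl; simp [c] at u0
    convert add_mem h6 (smul_mem_AE (h.sing _) (Φ.B p a / β)) using 1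
    rw [c, zero_mul, zero_add, mul_eq_zero, or_iff_right c'] at ha
    rw [c, ha]
    match_scalars <;> field_simp <;> ring
  · convert add_mem h6 (smul_mem_AE (h.sing _) (-Φ.B r a / α)) using 1
    match_scalars
    · rfl
    · field_simp; ring
    · field_simp; linear_combination ha

theorem HA.dich2 (hd : ∀ p, p ≠ 0 → ¬ S Φ H p → (∀ a d, HasE Φ H p a d → a ∈ F ∙ p) ∧
    ∃ r, Φ.IsPair p r ∧ ∀ x ∈ Φ.pairPerp p r, S Φ H x) : EG Φ ≤ H ∨ ∃ u : V, u ≠ 0 ∧ ∀ g ∈ H, g u ∈ F ∙ u := by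
  have S0 : S Φ H 0 := fun d => ⟨1, one_mem _, h.isE (by simp) (by simp)⟩
  have all : (∀ x, S Φ H x) → EG Φ ≤ H := fun hS => EG_le fun p a d g hg => by
    have h1 := h.tv_mul (p := p) (a := -a) (c := 1) (hS _ _) (hS _ _) (by simp [hg.pa])
    exact ((h.mul h1 (hS p (d - 1))).congr (by simp) (by simp)).mem hg
  by_cases hS : ∀ x, S Φ H x
  · exact Or.inl (all hS)
  push Not at hS
  obtain ⟨p, hp⟩ := hS
  have p0 : p ≠ 0 := by rintro rfl; exact hp S0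
  obtain ⟨-, r, hr, hD⟩ := hd p p0 hp
  have hn := hr.nondeg_pairPerp h.nd
  obtain ⟨d, hd', u, hu, d0, u0, hs⟩ : ∃ d ∈ Φ.pairPerp p r, ∃ u ∈ Submodule.span F {p, r}, d ≠ 0 ∧ u ≠ 0 ∧
      S Φ H (d + u) := by
    have := hr.finrank_pairPerp h.nd
    obtain ⟨d, hd', d0⟩ := exists_notMem_of_lt (U := Φ.pairPerp p r) (R := ⊥) (by rw [finrank_bot]; omega)
    replace d0 : d ≠ 0 := by simpa using d0
    obtain ⟨d1, d2⟩ := Φ.mem_pairPerp.1 hd'
    by_cases c : S Φ H (d + p)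
    · exact ⟨d, hd', p, Submodule.subset_span (by simp), d0, p0, c⟩
    have c0 : d + p ≠ 0 := by rintro e; exact c (e ▸ S0)
    obtain ⟨-, r', hr', hD'⟩ := hd _ c0 c
    obtain ⟨e, he, e1⟩ := h.exB hn hd' d0
    obtain ⟨e2, e3⟩ := Φ.mem_pairPerp.1 he
    have := hD' _ (h.dec hr' (e - r))
    refine ⟨e + Φ.B r' (e - r) • d, add_mem he (Submodule.smul_mem _ _ hd'), Φ.B r' (e - r) • p + (-1 : F) • r,
      Submodule.mem_span_pair.2 ⟨_, _, rfl⟩, fun c => ?_, fun c => ?_, ?_⟩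
    · simpa [e1, h.alt] using congrArg (Φ.B d) c
    · simpa [hr.ef, h.alt] using congrArg (Φ.B p) c
    · convert this using 1
      simp only [map_sub, map_add, LinearMap.add_apply, e1, e2, hr.ef, h.anti r d, d2]
      module
  have hu := h.full2 h2 b0 b1 hH h4 hr hD hd' d0 hu u0 hs
  refine or_iff_not_imp_right.2 fun c => all ?_
  push Not at c
  obtain ⟨g, g1, g2⟩ := c u u0
  have key : ∀ u, u ≠ 0 → Full Φ H u → ∀ y, Φ.B u y = 0 → S Φ H y := fun u u0 hu y hy => by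
    by_cases c : u ∈ F ∙ y
    · obtain ⟨c, rfl⟩ := Submodule.mem_span_singleton.1 c
      exact h.of_smul (fun d => hu.hasE h.nd (by simp) (by simp [h.τ, h.Q]) (by simp [h.ε])) (by rintro rfl; simp at u0)
    by_cases y0 : y = 0
    · exact y0 ▸ S0
    refine by_contra fun hy' => c ?_
    simpa [h.ε] using (hd y y0 hy').1 _ _ (hu.hasE h.nd hy (by simp [h.τ, h.Q]) (by simp [h.ε, h.alt]) (d := 0)).swap
  have k1 := key u u0 hu
  have k2 := key (g u) (by simpa) (hu.map g1 (hH g1))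
  obtain ⟨y, y1, y2⟩ := h.nd.exists_perp_eq_one' g2
  replace y1 : Φ.B u y = 0 := Φ.mem_perp_span_singleton.1 y1
  intro v
  by_cases c : Φ.B u v = 0
  · exact k1 v c
  by_cases c' : Φ.B (g u) v = 0
  · exact k2 v c'
  by_cases e : Φ.B u (g u) = 0
  · obtain ⟨t, ht⟩ : ∃ t : F, Φ.B (Φ.B (g u) v • y + t • u) v ≠ 0 := by
      by_contra! c''
      exact c (by simpa [show Φ.B (g u) v * Φ.B y v = 0 by simpa using c'' 0] using c'' 1)
    simpa using h.line hH (k1 (Φ.B (g u) v • y + t • u) (by simp [y1, h.alt]))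
      (k2 (v - (Φ.B (g u) v • y + t • u)) (by simp [y2, h.anti u (g u), e])) (by rwa [map_sub, h.alt, sub_zero]) 1
  · exact fun d => let ⟨t, ht⟩ := h.exE (p := v) (map_zero _) d
      ⟨t, EG_le_of_full' h.nd hu g1 (hH g1) e (IsE_mem_EG ht), ht⟩

end

variable [Finite (V ≃ₗ[F] V)]

theorem HA.tri2 (hH : H ≤ EG Φ) {j : ℕ} (hj : finrank F V = j + 4) (he : j = 0 ∨ 2 ≤ j)
    (hN : H.relIndex (EG Φ) * (Nat.card F - 1) + 1 < Nat.card F ^ finrank F V) {p : V} (p0 : p ≠ 0) (hp : ¬ S Φ H p)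
    (ho : ¬ OA Φ H p) : (∀ d, HasE Φ H p 0 d → d = 0) ∧ ∃ w, (∀ v, v ∈ AE Φ H (h.sing p) ↔ v ∈ Submodule.span F {p, w}) ∧
      (∀ g ∈ Φ.isom, g p ∈ F ∙ p → g w ∈ Submodule.span F {p, w} → ∃ a d u, IsE Φ p a d u ∧ u * g ∈ H) ∧
      (w = 0 ∨ j = 0 ∧ w ∉ F ∙ p ∧ (Nat.card F + 1) * Nat.card F ^ 2 ≤ H.relIndex (EG Φ ⊓ stabilizer _ p)) := by
  obtain ⟨t, tZ⟩ : ∃ t, t ∉ ZE Φ H (h.sing p) := not_forall.1 hp
  obtain ⟨r, hr⟩ := h.nd.exists_isPair p0 (h.sing p)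
  have hD := hr.nondeg_pairPerp h.nd
  have hI := hH.trans EG_le_isom
  have q1 : 1 < Nat.card F := Finite.one_lt_card
  obtain ⟨c, hc⟩ := Nat.exists_eq_add_of_lt (Nat.zero_lt_of_lt q1)
  rw [zero_add] at hc
  have hk := hr.finrank_pairPerp h.nd
  rw [← hk, pow_add] at hN
  have hv : EG Φ ⊓ stabilizer _ p ≤ EG Φ ⊓ stab (F ∙ p) :=
    fun g hg => ⟨hg.1, mem_stab_pt ((show g p = p from hg.2).symm ▸ Submodule.mem_span_singleton_self p)⟩
  have Z0 : ZE Φ H hr.se = ⊥ := by_contra fun Z0 => by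
    have h5 := dc H (EG Φ ⊓ stab (F ∙ p)) p (C := {v | v ∈ F ∙ p ∧ v ≠ 0})
      (D := (· • p) '' {c : F | c ≠ 0 ∧ ∀ d ∈ ZE Φ H (h.sing p), d * (c * c) ∈ ZE Φ H (h.sing p)}) (fun v hv => by
        obtain ⟨g, hg, e⟩ := h.trans (nondeg_top h.nd) trivial p0 trivial hv.2
        exact ⟨g, ⟨hg.1, mem_stab_pt (e ▸ hv.1 :)⟩, e⟩) fun g hg hg' => by
        obtain ⟨c, hc⟩ := exists_smul_of_stab hg.2
        have c0 : c ≠ 0 := by rintro rfl; exact p0 (by simpa using hc.symm)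
        exact ⟨c, ⟨c0, fun d hd => (HasE.of_smul (hc ▸ HasE.conj hd hg' (hI hg')) c0).congr (by simp) rfl⟩, hc⟩
    have h6 := relIndex_mono H (A := EG Φ ⊓ stabilizer _ p) (B := EG Φ ⊓ stab (F ∙ p) ⊓ stabilizer _ p)
      fun g hg => ⟨hv hg, hg.2⟩
    have h7 := card_nz (F ∙ p)
    rw [finrank_span_singleton p0, pow_one] at h7
    rw [Set.ncard_image_of_injective _ (smul_left_injective F p0), Nat.eq_sub_of_add_eq h7] at h5
    have h8 := (Nat.mul_le_mul_left _ h6).trans (h5.trans (Nat.mul_le_mul_right _ (relIndex_mono H inf_le_left)))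
    have h9 := kap2 h2 Z0 tZ
    have h10 := h.big hH hr ho
    generalize Nat.card F ^ finrank F (Φ.pairPerp p r) = x at *
    rw [hc] at hN h8 h9 h10
    exact arK h8 h9 h10 hN
  refine ⟨fun d hd => Z0.le hd, ?_⟩
  obtain ⟨v, v1, v2⟩ := h.notOA hr ho
  obtain ⟨e, e0, e1, e2, e3, e4⟩ := h.dual hD (fun _ => And.right) v1 v2
  have s3 := h.s3 (H := H) (p := p) (r := r)
  have s4 := h.cnt hH hr h.le_v (h.s1 hH) h.s2
  have cv := fun A R a1 a2 a3 a4 a5 g => h.cov hH hr (A := A) (R := R) a1 a2 a3 a4 a5 (g := g)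
  rw [Z0, AddSubgroup.card_bot] at s4 cv
  set W := AE Φ H hr.se ⊓ (Φ.pairPerp p r).toAddSubgroup
  have a0 : 0 < Nat.card W := Nat.card_pos
  generalize hx : Nat.card F ^ finrank F (Φ.pairPerp p r) = x at hN e1 e2 s4 cv
  rw [hc] at hN s4 cv
  rw [Nat.add_sub_cancel] at hN
  have hJ := relIndex_mono H (inf_le_left : EG Φ ⊓ stabilizer _ p ≤ EG Φ)
  have s5 : (stabA F (AE Φ H hr.se)).relIndex (EG Φ ⊓ stabilizer _ p) * c < (c + 1) * Nat.card W :=
    arM hJ s4 a0 hN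
  have hW : ∀ a d, HasE Φ H p a d → a + Φ.B r a • p ∈ W := fun a d ha =>
    ⟨⟨_, h.shift ha _⟩, by simpa [ha.pa] using h.dec hr a⟩
  obtain ⟨w, hWe, hw⟩ : ∃ w, W = (F ∙ w).toAddSubgroup ∧
      (w = 0 ∨ j = 0 ∧ w ≠ 0 ∧ (Nat.card F + 1) * Nat.card F ^ 2 ≤ H.relIndex (EG Φ ⊓ stabilizer _ p)) := by
    by_cases W0 : W = ⊥
    · exact ⟨0, by simp [W0], Or.inl rfl⟩
    obtain ⟨w, hw, w0, w1⟩ := e4 (s3.trans_lt (Nat.lt_of_mul_lt_mul_right (a := c) (by
      nlinarith [Nat.mul_le_mul_right (Nat.card W) (show c + 1 ≤ 2 * c by omega)]))) W0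
    rcases he with rfl | he
    · have hle : (F ∙ w).toAddSubgroup ≤ W := fun v hv => by
        obtain ⟨t, rfl⟩ := Submodule.mem_span_singleton.1 hv
        exact w1 _ (Submodule.smul_mem _ _ hw) (by simp [h.alt])
      have cw : Nat.card (F ∙ w).toAddSubgroup = Nat.card F :=
        (Nat.card_congr (LinearEquiv.toSpanNonzeroSingleton F V w w0).toEquiv).symm
      rw [show finrank F (Φ.pairPerp p r) = 2 by omega, hc] at hx
      subst hx
      obtain ⟨s6, s7⟩ := arN e0 e1 e2 ((Nat.mul_le_mul_right _ s3).trans_lt s5)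
        (hc ▸ cw ▸ AddSubgroup.card_le_of_le hle)
      refine ⟨w, (AddSubgroup.eq_of_le_of_card_ge hle (by omega)).symm, Or.inr ⟨rfl, w0, ?_⟩⟩
      have := (Nat.mul_le_mul_right _ (s7.trans s3)).trans s4
      rw [s6, mul_one, ← mul_assoc] at this
      exact hc ▸ Nat.le_of_mul_le_mul_right this (by omega)
    have := finrank_pf (Φ := Φ) ![w] (Φ.pairPerp p r)
    obtain ⟨u, ⟨hu, hu'⟩, u0⟩ := exists_notMem_of_lt (U := Φ.pairPerp p r ⊓ pf Φ ![w]) (R := F ∙ w)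
      (by rw [finrank_span_singleton w0]; omega)
    replace hu' : Φ.B w u = 0 := mem_pf.1 hu' 0
    obtain ⟨a, ha, a1, a2⟩ := sep h.nd hD (by simpa) hu u0
    replace a1 := Φ.mem_perp_span_singleton.1 a1
    have up := Φ.B_eq_zero_symm (Φ.mem_pairPerp.1 hu).1
    have key : ∀ s : F, s ≠ 0 → HasE Φ H p (-u) (-s) := fun s s0 => by
      obtain ⟨T, hT⟩ := h.exE (p := u) (map_zero _) s⁻¹
      have T1 : T p = p := by simp [h.tv hT, up]
      obtain ⟨a', d', z, hz, h1⟩ := cv _ _ hv h.le_v (h.s1 hH) h.s2 (arL (by omega) hJ (e3.trans s3) a0 hN) T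
        ⟨IsE_mem_EG hT, T1⟩ fun v => by
          rw [h.tv hT, sub_eq_add_neg]
          exact add_mem_cancel_right (neg_mem (show _ ∈ AE Φ H hr.se from
            (w1 _ (Submodule.smul_mem _ (s⁻¹ * Φ.B u v) hu) (by simp [hu'])).1))
      obtain ⟨d, hd⟩ := (w1 _ (Submodule.smul_mem _ s ha) (by simp [a1])).1
      have h3 := hd.conj h1 (hI h1)
      rw [LinearEquiv.mul_apply, T1, hz.apply_p, LinearEquiv.mul_apply, h.tv hT, hz.apply_perp
        (by simp [Φ.mem_pairPerp.1 ha, Φ.mem_pairPerp.1 hu])] at h3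
      refine (h.mul (h.shift h3 (-Φ.B a' (s • a - (s⁻¹ * Φ.B u (s • a)) • u))) (h.inv hd)).congr ?_ ?_
      · simp [a2, s0]; module
      · simp [a2, s0, h.alt, h2, Φ.mem_pairPerp.1 ha]
    have : -1 - -b = 0 := Z0.le (h.dif (key 1 one_ne_zero) (key b b0))
    exact (b1 (by linear_combination this)).elim
  have hwD : w ∈ Φ.pairPerp p r := (hWe.ge (Submodule.mem_span_singleton_self w)).2
  have hAE : ∀ v, v ∈ AE Φ H hr.se ↔ v ∈ Submodule.span F {p, w} := fun v => ⟨fun ⟨d, hv⟩ => by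
    obtain ⟨c, hc⟩ := Submodule.mem_span_singleton.1 (hWe.le (hW v d hv))
    exact Submodule.mem_span_pair.2 ⟨-Φ.B r v, c, by rw [hc]; module⟩, fun hv => by
    obtain ⟨a, b, rfl⟩ := Submodule.mem_span_pair.1 hv
    exact add_mem (smul_mem_AE _ _) (hWe.ge (Submodule.smul_mem _ b (Submodule.mem_span_singleton_self w))).1⟩
  have hs : stabA F (AE Φ H hr.se) = stab (Submodule.span F {p, w}) := Subgroup.ext fun g =>
    forall_congr' fun v => by rw [hAE, hAE]; exact Iff.comm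
  refine ⟨w, hAE, fun g hg g1 g2 => cv (EG Φ ⊓ stab (F ∙ p)) (stab (Submodule.span F {p, w})) le_rfl (h.le_v.trans hv)
    (fun g ⟨g1, g2, g3⟩ => mem_stab_of_le fun v hv => ?_) (hs ▸ h.s2) (arL (by omega) (relIndex_mono H inf_le_left)
      (e3.trans (s3.trans (hs ▸ relIndex_mono _ hv))) a0 hN) g
    ⟨h.gen hg, mem_stab_pt g1⟩ (mem_stab_of_le fun v hv => ?_), hw.imp_right fun ⟨e, w0, e'⟩ => ⟨e, fun c => ?_, e'⟩⟩
  · obtain ⟨c, hc⟩ := exists_smul_of_stab g3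
    have c0 : c ≠ 0 := by rintro rfl; exact p0 (by simpa using hc.symm)
    obtain ⟨d, hd⟩ := (hAE v).2 hv
    exact (Submodule.smul_mem_iff _ c0).1 ((hAE _).1 ⟨_, HasE.of_smul (hc ▸ hd.conj g1 (hI g1)) c0⟩)
  · obtain ⟨a, b, rfl⟩ := Submodule.mem_span_pair.1 hv
    rw [map_add, map_smul, map_smul]
    exact add_mem (Submodule.smul_mem _ _ (Submodule.span_mono (by simp) g1)) (Submodule.smul_mem _ _ g2)
  · obtain ⟨c, rfl⟩ := Submodule.mem_span_singleton.1 c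
    have := (Φ.mem_pairPerp.1 hwD).2
    simp [h.anti p r, hr.ef] at this
    simp [this] at w0

theorem HA.bound2 {j : ℕ} (hj : finrank F V = j + 4) (he : j = 0 ∨ 2 ≤ j) (hH : H ≤ EG Φ) (hne : ¬ EG Φ ≤ H) :
    Nat.card F ^ finrank F V ≤ H.relIndex (EG Φ) * (Nat.card F - 1) + 1 := by
  by_contra! hN
  have hI := hH.trans EG_le_isom
  have q1 : 1 < Nat.card F := Finite.one_lt_card
  obtain ⟨m, hm⟩ := Nat.exists_eq_add_of_lt (Nat.zero_lt_of_lt hN)
  have key : ∀ p ≠ 0, ∀ T : Set V, (∀ g ∈ H, g p ∈ T) →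
      H.relIndex (EG Φ ⊓ stabilizer _ p) * (Nat.card F - 1) < T.ncard := fun p p0 T hT =>
    arT (h.orb hH p0 hT (m := m) (by omega)) (by omega) ((Set.ncard_pos).2 ⟨_, hT 1 (one_mem _)⟩)
  have pt : ∀ u ≠ 0, ¬ ∀ g ∈ H, g u ∈ F ∙ u := fun u u0 hu => by
    have h1 := key u u0 {v | v ∈ F ∙ u ∧ v ≠ 0} fun g hg => ⟨hu g hg, by simpa⟩
    have h3 := card_nz (F ∙ u)
    rw [finrank_span_singleton u0, pow_one] at h3
    have h4 : H.relIndex (EG Φ ⊓ stabilizer _ u) ≠ 0 := Subgroup.index_ne_zero_of_finite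
    have := Nat.le_mul_of_pos_left (Nat.card F - 1) (Nat.pos_of_ne_zero h4)
    omega
  have reg : ∀ p ≠ 0, ¬ S Φ H p → ¬ OA Φ H p → ∃ r, Φ.IsPair p r ∧ ∃ w,
      (∀ v, v ∈ AE Φ H (h.sing p) ↔ v ∈ Submodule.span F {p, w}) ∧ (∀ x ∈ Φ.pairPerp p r, Φ.B x w = 0 → S Φ H x) ∧
      (w = 0 ∨ j = 0 ∧ w ∉ F ∙ p ∧ (Nat.card F + 1) * Nat.card F ^ 2 ≤ H.relIndex (EG Φ ⊓ stabilizer _ p)) :=
    fun p p0 hp ho => by
      obtain ⟨Z0, w, h1, h3, h4⟩ := h.tri2 h2 b0 b1 hH hj he hN p0 hp ho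
      obtain ⟨r, hr, h5⟩ := h.reg2 h2 b0 b1 hI p0 Z0 h1 h3
      refine ⟨r, hr, w, h1, fun x hx e d => ?_, h4⟩
      obtain ⟨T, hT⟩ := h.exE (p := x) (map_zero _) d
      exact ⟨T, h5 T hT.mem_isom (by simp [h.tv hT, h.anti p x, Φ.mem_pairPerp.1 hx])
        (by simp [h.tv hT, h.anti r x, Φ.mem_pairPerp.1 hx]) (by
          rw [h.tv hT, e, mul_zero, zero_smul, sub_zero]; exact Submodule.subset_span (by simp)), hT⟩
  obtain ⟨x, x0, hx⟩ : ∃ s ≠ 0, S Φ H s := by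
    by_contra! c
    obtain ⟨p, p0, ho⟩ : ∃ p ≠ 0, ¬ OA Φ H p := by
      by_contra! c'
      obtain ⟨s, s0, hs⟩ := h.os3 h2 b0 b1 hI (by omega) c'
      exact c s s0 hs
    obtain ⟨r, hr, w, h1, h3, h4⟩ := reg p p0 (c p p0) ho
    have pw : Φ.B p w = 0 := ((h1 w).2 (Submodule.subset_span (by simp))).choose_spec.pa
    rcases h4 with rfl | ⟨-, h4, -⟩
    · have := hr.finrank_pairPerp h.nd
      obtain ⟨d, hd', d0⟩ := exists_notMem_of_lt (U := Φ.pairPerp p r) (R := ⊥) (by rw [finrank_bot]; omega)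
      exact c d (by simpa using d0) (h3 d hd' (map_zero _))
    · refine c (w + Φ.B r w • p) (fun e => h4 (Submodule.mem_span_singleton.2 ⟨-Φ.B r w, ?_⟩))
        (h3 _ (by simpa [pw] using h.dec hr w) (by simp [h.alt, pw]))
      rw [neg_smul, neg_eq_iff_add_eq_zero, add_comm, e]
  replace reg := fun p p0 hp => reg p p0 hp fun c => hp (h.os2 h2 b0 b1 hI (by omega) p0 c x0 hx)
  obtain ⟨p, p0, hp, rfl, h3⟩ : ∃ p ≠ 0, ¬ S Φ H p ∧ j = 0 ∧
      (Nat.card F + 1) * Nat.card F ^ 2 ≤ H.relIndex (EG Φ ⊓ stabilizer _ p) := by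
    by_contra c
    obtain ⟨u, u0, hu⟩ := (h.dich2 h2 b0 b1 hI (by omega) fun p p0 hp => by
      obtain ⟨r, hr, w, h1, h3, rfl | h4⟩ := reg p p0 hp
      · exact ⟨fun a d ha => by simpa [Set.pair_comm p] using (h1 a).1 ⟨d, ha⟩, r, hr, fun x hx => h3 x hx (map_zero _)⟩
      · exact (c ⟨p, p0, hp, h4.1, h4.2.2⟩).elim).resolve_left hne
    exact pt u u0 hu
  have nS : ∀ g ∈ H, ¬ S Φ H (g p) := fun g hg c => hp (by simpa using c.map hI (inv_mem hg))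
  obtain ⟨c, hc⟩ := Nat.exists_eq_add_of_lt (Nat.zero_lt_of_lt q1)
  rw [zero_add] at hc
  replace key := key p p0
  rw [hc, Nat.add_sub_cancel] at key
  rw [hc] at h3
  obtain ⟨x, y, x0, hy, hU⟩ : ∃ x y : V, x ≠ 0 ∧ y ∉ F ∙ x ∧ ((∀ g ∈ H, g p ∈ Submodule.span F {x, y}) ∨
      ∀ g ∈ H, g p ∉ Submodule.span F {x, y}) := by
    by_cases c : ∃ y, S Φ H y ∧ Φ.B x y ≠ 0
    · obtain ⟨y, hy, e⟩ := c
      refine ⟨x, y, x0, fun c => ?_, Or.inr fun g hg c => nS g hg ?_⟩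
      · obtain ⟨c, rfl⟩ := Submodule.mem_span_singleton.1 c
        simp [h.alt] at e
      obtain ⟨α, β, c⟩ := Submodule.mem_span_pair.1 c
      rw [← c]
      by_cases β0 : β = 0
      · simpa [β0] using h.smul hx α
      · convert h.smul (h.line hI hx hy e (α / β)) β using 1
        match_scalars <;> field_simp
    push Not at c
    have := pt x x0
    push Not at this
    obtain ⟨k, hk, e⟩ := this
    have inv : ∀ g ∈ H, ∀ v ∈ Submodule.span F {x, k x}, g v ∈ Submodule.span F {x, k x} := fun g hg v hv => by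
      have : ∀ g ∈ H, g x ∈ Submodule.span F {x, k x} := fun g hg => h.perp4 hj x0 e (c _ (hx.map hI hk))
        (c _ (hx.map hI hg)) (by
          rw [← (hI (inv_mem hk)).1]
          simpa using c _ (hx.map hI (mul_mem (inv_mem hk) hg)))
      obtain ⟨α, β, rfl⟩ := Submodule.mem_span_pair.1 hv
      rw [map_add, map_smul, map_smul]
      exact add_mem (Submodule.smul_mem _ _ (this g hg)) (Submodule.smul_mem _ _ (this _ (mul_mem hg hk)))
    refine ⟨x, k x, x0, e, ?_⟩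
    by_cases c' : p ∈ Submodule.span F {x, k x}
    · exact Or.inl fun g hg => inv g hg p c'
    · exact Or.inr fun g hg c => c' (by simpa using inv _ (inv_mem hg) _ c)
  have e2 : (Submodule.span F {x, y} : Set V).ncard = (c + 1) ^ 2 := by
    rw [← hc, ← Nat.card_coe_set_eq]
    refine (Module.natCard_eq_pow_finrank (K := F) (V := Submodule.span F {x, y})).trans ?_
    rw [Submodule.span_insert, MinD.finrank_sup_span hy, finrank_span_singleton x0]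
  rcases hU with c | c
  · exact arV (key _ c) (Or.inl e2) h3 (by omega)
  · refine arV (key (Submodule.span F {x, y} : Set V)ᶜ c) (Or.inr ?_) h3 (by omega)
    rw [← e2, Set.ncard_add_ncard_compl, Module.natCard_eq_pow_finrank (K := F), hj, hc]

omit h h2 b0 b1

theorem psp_even (F : Type*) [Field F] [Fintype F] (h2 : (2 : F) = 0) {b : F} (b0 : b ≠ 0) (b1 : b ≠ 1) {m : ℕ}
    (hm : 2 ≤ m) (H : Subgroup (PSp m F)) (hH : H ≠ ⊤) : Nat.card F ^ (2 * m) ≤ H.index * (Nat.card F - 1) + 1 := by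
  have : Finite ((Fin m ⊕ Fin m → F) ≃ₗ[F] (Fin m ⊕ Fin m → F)) := DFunLike.finite _
  have hk : finrank F (Fin m ⊕ Fin m → F) = 2 * m := by simp [two_mul]
  exact psp_lb F (fun N => Nat.card F ^ (2 * m) ≤ N * (Nat.card F - 1) + 1) (fun H hH hne =>
    hk ▸ (ha_symp F m).bound2 h2 b0 b1 (j := 2 * m - 4) (by omega) (by omega) hH hne) H hH

end Cfsg.Agent.Root.MinS
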