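import Cfsg.Agent.Root.MinU4

/-! Minimal index in `Sp_n(q)`, `q` odd, I: the geometry of the centres of full transvection groups of a subgroup. -/

set_option autoImplicit false
set_option linter.unusedSectionVars false

namespace Cfsg.Agent.Root.MinS

open Cfsg.Agent.Geom Cfsg.Agent.AutCl Module Mx MulAction MinU

variable {F : Type*} [Field F] {V : Type*} [AddCommGroup V] [Module F V] {Φ : Formed (RingHom.id F) V}
  {H : Subgroup (V ≃ₗ[F] V)} {D : Submodule F V}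

/-- Non-degenerate symplectic spaces. -/
structure HA (Φ : Formed (RingHom.id F) V) : Prop where
  nd : Φ.Nondeg
  τ : Φ.τ = 0
  Q : ∀ x, Φ.Q x = 0
  ε : Φ.ε = -1
  alt : ∀ x, Φ.B x x = 0
  gen : Φ.isom ≤ EG Φ

/-- All transvections with centre `p` lie in `H`. -/
def S (Φ : Formed (RingHom.id F) V) (H : Subgroup (V ≃ₗ[F] V)) (p : V) : Prop := ∀ d, HasE Φ H p 0 d

variable (h : HA Φ)
include h

theorem HA.sing (x : V) : Φ.Sing x := ⟨h.Q x, h.alt x⟩

theorem HA.anti (x y : V) : Φ.B y x = -Φ.B x y := by rw [Φ.symm x y, h.ε]; simp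

theorem HA.app {p a : V} {d : F} {g : V ≃ₗ[F] V} (hg : IsE Φ p a d g) (x : V) :
    g x = x + (Φ.B a x - d * Φ.B p x) • p + Φ.B p x • a := by rw [hg.app, h.ε]; module

theorem HA.isE {p a : V} {d : F} {g : V ≃ₗ[F] V} (ha : Φ.B p a = 0)
    (hg : ∀ x, g x = x + (Φ.B a x - d * Φ.B p x) • p + Φ.B p x • a) : IsE Φ p a d g :=
  ⟨h.sing p, ha, by simp [h.τ, h.Q], by simp [h.ε, h.alt], fun x => by rw [hg, h.ε]; module⟩

theorem HA.tv {p : V} {d : F} {g : V ≃ₗ[F] V} (hg : IsE Φ p 0 d g) (x : V) : g x = x - (d * Φ.B p x) • p := by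
  rw [h.app hg]; simp [sub_eq_add_neg]

theorem HA.pair {p r : V} (e : Φ.B p r = 1) : Φ.IsPair p r := ⟨h.sing p, h.sing r, e⟩

theorem HA.shift {p a : V} {d : F} (hE : HasE Φ H p a d) (c : F) : HasE Φ H p (a + c • p) (d + 2 * c) :=
  (hE.add_smul c).congr rfl (by rw [h.ε]; simp; ring)

theorem HA.mul {p a b : V} {d e : F} (h1 : HasE Φ H p a d) (h2 : HasE Φ H p b e) :
    HasE Φ H p (a + b) (d + e - Φ.B a b) := (h1.mul h2).congr rfl (by rw [h.ε]; ring)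

theorem HA.inv {p a : V} {d : F} (h1 : HasE Φ H p a d) : HasE Φ H p (-a) (-d) :=
  h1.inv.congr rfl (by rw [h.ε]; simp)

theorem HA.dif {p a : V} {d e : F} (h1 : HasE Φ H p a d) (h2 : HasE Φ H p a e) : HasE Φ H p 0 (d - e) :=
  (h.mul h1 (h.inv h2)).congr (add_neg_cancel a) (by simp [h.alt]; ring)

theorem HA.smul {p : V} (hp : S Φ H p) (c : F) : S Φ H (c • p) := fun d => by
  by_cases e : c = 0
  · exact ⟨1, one_mem _, h.isE (by simp) (by simp [e])⟩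
  · exact ((hp (d * (c * c))).smul e).congr (by simp) (by simp; field_simp)

theorem HA.of_smul {p : V} {c : F} (hp : S Φ H (c • p)) (hc : c ≠ 0) : S Φ H p := by
  simpa [hc] using h.smul hp c⁻¹

theorem HA.of_mul {p : V} {c : F} (hc : c ≠ 0) (hp : ∀ t, HasE Φ H p 0 (c * t)) : S Φ H p := fun d =>
  (hp (d / c)).congr rfl (by field_simp)

theorem HA.tv_mul {p a : V} {c : F} (h1 : HasE Φ H (a + p) 0 c) (h2 : HasE Φ H a 0 (-c)) (e : Φ.B p a = 0) :
    HasE Φ H p (-c • a) c :=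
  let ⟨_, g1, g2⟩ := h1
  let ⟨_, g3, g4⟩ := h2
  ⟨_, mul_mem g1 g3, h.isE (by simp [e]) fun x => by
    simp only [LinearEquiv.mul_apply, h.tv g2, h.tv g4, map_sub, map_smul, map_add, LinearMap.add_apply, h.alt, e,
      LinearMap.smul_apply, smul_eq_mul]
    module⟩

variable [FiniteDimensional F V]

theorem HA.exE {p a : V} (ha : Φ.B p a = 0) (d : F) : ∃ g, IsE Φ p a d g :=
  ⟨Formed.eichler h.nd p a d (h.alt p) ha (by simp [h.ε, h.alt]), h.sing p, ha, by simp [h.τ, h.Q],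
    by simp [h.ε, h.alt], fun _ => rfl⟩

theorem HA.trans (hD : (Φ.restrict D).Nondeg) {u v : V} (hu : u ∈ D) (u0 : u ≠ 0) (hv : v ∈ D) (v0 : v ≠ 0) :
    ∃ g ∈ LL Φ D, g u = v := by
  have k : ∀ u ∈ D, u ≠ 0 → u ∉ Φ.perp D := fun u hu u0 c =>
    u0 (Submodule.disjoint_def.1 (Φ.restrict_nondeg_iff.1 hD) u hu c)
  obtain ⟨g, hg, e⟩ := h.nd.step (k u hu u0) (k v hv v0) (Φ.le_perp_perp D (sub_mem hv hu)) (by simp [h.Q])
    (by rw [h.alt, h.alt])
  exact ⟨g, ⟨h.gen (Φ.elemFix_le_isom _ hg), Φ.elemFix_fix hg⟩, e⟩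

theorem HA.exB (hD : (Φ.restrict D).Nondeg) {u : V} (hu : u ∈ D) (u0 : u ≠ 0) : ∃ v ∈ D, Φ.B u v = 1 :=
  let ⟨v, hv, e⟩ := exists_pair_mem h.nd hD hu u0 (h.sing u); ⟨v, hv, e.ef⟩

theorem HA.dec {p r : V} (hr : Φ.IsPair p r) (v : V) : v + Φ.B r v • p - Φ.B p v • r ∈ Φ.pairPerp p r := by
  simp [Φ.mem_pairPerp, h.alt, hr.ef, h.anti p r]

variable (hH : H ≤ Φ.isom)
include hH

omit h [FiniteDimensional F V] in
theorem S.map {p : V} (hp : S Φ H p) {g : V ≃ₗ[F] V} (hg : g ∈ H) : S Φ H (g p) := fun d =>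
  ((hp d).conj hg (hH hg)).congr (map_zero _) rfl

omit [FiniteDimensional F V] in
theorem HA.line {x y : V} (hx : S Φ H x) (hy : S Φ H y) (e : Φ.B x y ≠ 0) (t : F) : S Φ H (y + t • x) := by
  obtain ⟨g, g1, g2⟩ := hx (-t / Φ.B x y)
  convert hy.map hH g1 using 1
  rw [h.tv g2, div_mul_cancel₀ _ e]; module

omit [FiniteDimensional F V] in
theorem HA.of_hasE {y w : V} {d : F} (hy : HasE Φ H y 0 d) (d0 : d ≠ 0) (hw : S Φ H w) (e : Φ.B y w ≠ 0) :
    S Φ H y := by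
  obtain ⟨g, g1, g2⟩ := hy
  have h1 := h.line hH hw (hw.map hH g1) (by simp [h.tv g2, h.alt, d0, e, h.anti y w]) (-1)
  refine h.of_smul (c := -(d * Φ.B y w)) ?_ (by simp [d0, e])
  convert h1 using 1
  rw [h.tv g2]; module

variable [Finite F] (h2 : (2 : F) ≠ 0) (h4 : 4 ≤ finrank F V)
include h2 h4

theorem HA.all (hS : ∀ x, S Φ H x) : EG Φ ≤ H := EG_le fun p a d g hg => by
  have h1 := h.tv_mul (p := p) (a := -a) (c := 1) (hS _ _) (hS _ _) (by simp [hg.pa])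
  exact ((h.mul h1 (hS p (d - 1))).congr (by simp) (by simp)).mem hg

theorem HA.full {p r d u : V} (hr : Φ.IsPair p r) (hD : ∀ x ∈ Φ.pairPerp p r, S Φ H x) (hd : d ∈ Φ.pairPerp p r)
    (d0 : d ≠ 0) (hu : u ∈ Submodule.span F {p, r}) (u0 : u ≠ 0) (hs : S Φ H (d + u)) : Full Φ H u := by
  have hn := hr.nondeg_pairPerp h.nd
  obtain ⟨α, β, rfl⟩ := Submodule.mem_span_pair.1 hu
  have uD : ∀ x ∈ Φ.pairPerp p r, Φ.B (α • p + β • r) x = 0 := fun x hx => by simp [Φ.mem_pairPerp.1 hx]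
  have h1 : d ∈ AE Φ H (h.sing (α • p + β • r)) :=
    ⟨_, (h.tv_mul (hs (-1)) (hD d hd _) (uD d hd)).congr (by simp) rfl⟩
  have h3 : ∀ x ∈ Φ.pairPerp p r, Φ.B x d ≠ 0 → x ∈ AE Φ H (h.sing (α • p + β • r)) := fun x hx e => by
    obtain ⟨g, g1, g2⟩ := hD x hx (Φ.B x d)⁻¹
    have := sub_mem h1 (map_mem_AE g1 (hH g1) (by rw [h.tv g2, Φ.B_eq_zero_symm (uD x hx)]; simp) h1)
    rwa [h.tv g2, inv_mul_cancel₀ e, one_smul, sub_sub_cancel] at this
  obtain ⟨e, he, e1⟩ := h.exB hn hd d0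
  refine full_of_AE' h.nd (by omega) (notSp2_of_two h2) u0 (h.sing _) fun a ha => ?_
  have h5 := h.dec hr a
  have h6 : a + Φ.B r a • p - Φ.B p a • r ∈ AE Φ H (h.sing (α • p + β • r)) := by
    by_cases c : Φ.B (a + Φ.B r a • p - Φ.B p a • r) d = 0
    · simpa using sub_mem (h3 _ (add_mem h5 he) (by rw [map_add, LinearMap.add_apply, c, h.anti, e1]; simp))
        (h3 e he (by rw [h.anti, e1]; simp))
    · exact h3 _ h5 c
  simp only [map_add, LinearMap.add_apply, Φ.B_smul_left, RingHom.id_apply] at ha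
  by_cases c : α = 0
  · have c' : β ≠ 0 := by rintro rfl; simp [c] at u0
    convert add_mem h6 (smul_mem_AE (h.sing _) (Φ.B p a / β)) using 1
    rw [c, zero_mul, zero_add, mul_eq_zero, or_iff_right c'] at ha
    rw [c, ha]
    match_scalars <;> field_simp <;> ring
  · convert add_mem h6 (smul_mem_AE (h.sing _) (-Φ.B r a / α)) using 1
    match_scalars
    · rfl
    · field_simp; ring
    · field_simp; linear_combination ha

/-- Regular points. -/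
def TR (Φ : Formed (RingHom.id F) V) (H : Subgroup (V ≃ₗ[F] V)) (p : V) : Prop :=
  (∀ a d, HasE Φ H p a d → a ∈ F ∙ p) ∧ ∀ g ∈ Φ.isom, g p = p → ∃ a d u, IsE Φ p a d u ∧ u * g ∈ H

theorem HA.reg (hb : (∃ b : F, b ≠ 0 ∧ b ^ 2 ≠ 1) ∨ 6 ≤ finrank F V) {p : V} (p0 : p ≠ 0) (hp : TR Φ H p) :
    ∃ r, Φ.IsPair p r ∧ ∀ x ∈ Φ.pairPerp p r, S Φ H x := by
  obtain ⟨r₀, hr₀⟩ := h.nd.exists_isPair p0 (h.sing p)
  obtain ⟨a, d, u, hu, h0⟩ := hp.2 ((hr₀.torus (-1)).1 * LinearEquiv.neg F) (mul_mem (hr₀.torus (-1)).2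
    ⟨fun x y => by simp, fun x => by simp [h.Q]⟩) (by simp [hr₀.torus_left])
  obtain ⟨a, ha, d, hu⟩ := hu.exists_perp hr₀
  obtain ⟨a1, a2⟩ := Φ.mem_pairPerp.1 ha
  set k := u * ((hr₀.torus (-1)).1 * LinearEquiv.neg F) with hk
  have hr : Φ.IsPair p (r₀ + (2 : F)⁻¹ • a) := h.pair (by simp [hr₀.ef, a1])
  have kv : ∀ v, k v = -v + (2 * Φ.B p v) • (r₀ + (2 : F)⁻¹ • a) -
      (2 * Φ.B (r₀ + (2 : F)⁻¹ • a) v + d * Φ.B p v) • p := fun v => by
    simp only [hk, LinearEquiv.mul_apply, h.app hu, hr₀.torus_apply, LinearEquiv.neg_apply, map_add, map_neg, map_smul,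
      h.alt, hr₀.ef, h.ε, h.anti p a, h.anti r₀ a, a1, a2, LinearMap.add_apply, LinearMap.smul_apply, smul_eq_mul,
      RingHom.id_apply, Units.val_neg, Units.val_one, inv_neg, inv_one]
    match_scalars <;> field_simp <;> ring
  generalize r₀ + (2 : F)⁻¹ • a = r at hr kv
  refine ⟨r, hr, ?_⟩
  have hn := hr.nondeg_pairPerp h.nd
  have fx : ∀ g ∈ LL Φ (Φ.pairPerp p r), g p = p ∧ g r = r := fun g hg =>
    ⟨hg.2 p fun u hu => Φ.B_eq_zero_symm (Φ.mem_pairPerp.1 hu).1,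
      hg.2 r fun u hu => Φ.B_eq_zero_symm (Φ.mem_pairPerp.1 hu).2⟩
  have key : ∀ g ∈ LL Φ (Φ.pairPerp p r), ∃ e z, IsE Φ p 0 e z ∧ z * g ∈ H := fun g hg => by
    obtain ⟨g1, g2⟩ := fx g hg
    have gi := EG_le_isom hg.1
    obtain ⟨b, e, z, hz, h1⟩ := hp.2 g gi g1
    obtain ⟨b, hb, e, hz⟩ := hz.exists_perp hr
    obtain ⟨b1, b2⟩ := Φ.mem_pairPerp.1 hb
    have c1 : k * g = g * k := LinearEquiv.ext fun v => by
      simp only [LinearEquiv.mul_apply, kv, map_add, map_sub, map_neg, map_smul, g1, g2]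
      conv_lhs => rw [← g1, ← g2, gi.1, gi.1, g1, g2]
    have c2 := hz.conj (hH h0)
    rw [kv p, kv b, b1, b2, h.alt, h.anti p r, hr.ef] at c2
    have c3 : z * (k * z * k⁻¹)⁻¹ ∈ H := by
      have := mul_mem h1 (inv_mem (mul_mem (mul_mem h0 h1) (inv_mem h0)))
      rw [← mul_assoc k, mul_assoc (k * z), show g * k⁻¹ = k⁻¹ * g by
        rw [mul_inv_eq_iff_eq_mul, mul_assoc, ← c1]; simp] at this
      simpa [mul_assoc] using this
    simp only [mul_zero, zero_smul, add_zero, sub_zero] at c2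
    rw [show -p - (2 * -1 : F) • p = p by module] at c2
    obtain ⟨c, hc⟩ := Submodule.mem_span_singleton.1 (hp.1 _ _ ⟨_, c3, hz.mul c2.inv⟩)
    have c4 := congrArg (Φ.B r) hc
    simp [b2, h.anti p r, hr.ef] at c4
    rw [c4, zero_smul, neg_neg, ← two_smul F, eq_comm, smul_eq_zero, or_iff_right h2] at hc
    exact ⟨e, z, hc ▸ hz, h1⟩
  have K : ∀ x ∈ Φ.pairPerp p r, x ≠ 0 → ∀ y ∈ Φ.pairPerp p r, y ≠ 0 → ∀ γ t t', IsE Φ x 0 γ t → IsE Φ y 0 γ t' →
      t' * t⁻¹ ∈ H := fun x hx x0 y hy y0 γ t t' ht ht' => by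
    obtain ⟨g, hg, rfl⟩ := h.trans hn hx x0 hy y0
    have tL := isE_mem_LL ht hx (Submodule.zero_mem _)
    obtain ⟨e, z, z1, z2⟩ := key g hg
    obtain ⟨e', z', z1', z2'⟩ := key t tL
    have cm : ∀ {e z g}, IsE Φ p 0 e z → g ∈ LL Φ (Φ.pairPerp p r) → Commute g z := fun {e z g} z1 hg => by
      have := z1.conj (EG_le_isom hg.1)
      rw [(fx g hg).1, map_zero] at this
      exact mul_inv_eq_iff_eq_mul.1 (this.ext z1)
    have cz : Commute z z' := (z1.mul z1').ext ((z1'.mul z1).congr rfl (by ring))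
    rw [ht'.ext ((ht.conj (EG_le_isom hg.1)).congr (map_zero _) rfl)]
    have := mul_mem (mul_mem (mul_mem z2 z2') (inv_mem z2)) (inv_mem z2')
    have e1 : z * g * (z' * t) = g * t * (z * z') := by
      rw [mul_assoc, ← mul_assoc g, (cm z1' hg).eq, mul_assoc, ← mul_assoc z,
        ((cm z1 (mul_mem hg tL)).mul_right (cm z1' (mul_mem hg tL))).eq]
    have e2 : z' * t * (z * g) = t * g * (z * z') := by
      rw [mul_assoc, ← mul_assoc t, (cm z1 tL).eq, mul_assoc, ← mul_assoc z', ← cz.eq,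
        ((cm z1 (mul_mem tL hg)).mul_right (cm z1' (mul_mem tL hg))).eq]
    rw [mul_assoc, ← mul_inv_rev, e1, e2] at this
    simpa [mul_assoc] using this
  intro x hx
  by_cases x0 : x = 0
  · exact fun d => ⟨1, one_mem _, h.isE (by simp) (by simp [x0])⟩
  rcases hb with ⟨b, b0, b1⟩ | h6
  · refine h.of_mul (sub_ne_zero.2 b1) fun γ => ?_
    obtain ⟨t, ht⟩ := h.exE (p := x) (map_zero _) γ
    obtain ⟨t', ht'⟩ := h.exE (p := b • x) (map_zero _) γ
    exact ⟨_, K x hx x0 _ (Submodule.smul_mem _ _ hx) (smul_ne_zero b0 x0) γ t t' ht ht',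
      ((ht'.of_smul (h.sing x) b0).mul ht.inv).congr (by simp) (by simp [h.ε]; ring)⟩
  have := hr.finrank_pairPerp h.nd
  have := finrank_pf (Φ := Φ) ![x] (Φ.pairPerp p r)
  obtain ⟨y, ⟨hy, hy'⟩, y0⟩ := exists_notMem_of_lt (U := Φ.pairPerp p r ⊓ pf Φ ![x]) (R := F ∙ x)
    (by rw [finrank_span_singleton x0]; omega)
  have xy : Φ.B x y = 0 := mem_pf.1 hy' 0
  have ne : ∀ c : F, y + c • x ≠ 0 := fun c e =>
    y0 (Submodule.mem_span_singleton.2 ⟨-c, by rw [neg_smul, neg_eq_iff_add_eq_zero, add_comm, e]⟩)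
  refine h.of_mul h2 fun γ => ?_
  have ex := fun v => h.exE (p := v) (map_zero _) γ
  choose T hT using ex
  have k := fun c : F => K y hy (by simpa using ne 0) _ (add_mem hy (Submodule.smul_mem _ c hx)) (ne c) γ _ _ (hT _) (hT _)
  refine ⟨_, mul_mem (k 1) (k (-1)), h.isE (map_zero _) fun v => ?_⟩
  simp only [LinearEquiv.mul_apply, h.tv (hT _), h.tv ((hT y).inv.congr neg_zero rfl), map_sub, map_add, map_smul,
    LinearMap.add_apply, LinearMap.smul_apply, h.alt, xy, h.anti x y, h.ε, RingHom.id_apply, smul_eq_mul, map_zero,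
    LinearMap.zero_apply]
  module

/-- A subgroup all of whose points are centres of full transvection groups or regular fixes a point. -/
theorem HA.dich (hb : (∃ b : F, b ≠ 0 ∧ b ^ 2 ≠ 1) ∨ 6 ≤ finrank F V)
    (hd : ∀ p, p ≠ 0 → S Φ H p ∨ TR Φ H p) : EG Φ ≤ H ∨ ∃ u : V, u ≠ 0 ∧ ∀ g ∈ H, g u ∈ F ∙ u := by
  have S0 : S Φ H 0 := fun d => ⟨1, one_mem _, h.isE (by simp) (by simp)⟩
  by_cases hS : ∀ x, S Φ H x
  · exact Or.inl (h.all hH h2 h4 hS)
  push Not at hS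
  obtain ⟨p, hp⟩ := hS
  have p0 : p ≠ 0 := by rintro rfl; exact hp S0
  obtain ⟨r, hr, hD⟩ := h.reg hH h2 h4 hb p0 ((hd p p0).resolve_left hp)
  have hn := hr.nondeg_pairPerp h.nd
  obtain ⟨d, hd', u, hu, d0, u0, hs⟩ : ∃ d ∈ Φ.pairPerp p r, ∃ u ∈ Submodule.span F {p, r}, d ≠ 0 ∧ u ≠ 0 ∧
      S Φ H (d + u) := by
    have := hr.finrank_pairPerp h.nd
    obtain ⟨d, hd', d0⟩ := exists_notMem_of_lt (U := Φ.pairPerp p r) (R := ⊥) (by rw [finrank_bot]; omega)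
    replace d0 : d ≠ 0 := by simpa using d0
    obtain ⟨d1, d2⟩ := Φ.mem_pairPerp.1 hd'
    by_cases c : S Φ H (d + p)
    · exact ⟨d, hd', p, Submodule.subset_span (by simp), d0, p0, c⟩
    have c0 : d + p ≠ 0 := by rintro e; exact c (e ▸ S0)
    obtain ⟨r', hr', hD'⟩ := h.reg hH h2 h4 hb c0 ((hd _ c0).resolve_left c)
    obtain ⟨e, he, e1⟩ := h.exB hn hd' d0
    obtain ⟨e2, e3⟩ := Φ.mem_pairPerp.1 he
    have := hD' _ (h.dec hr' (e - r))
    refine ⟨e + Φ.B r' (e - r) • d, add_mem he (Submodule.smul_mem _ _ hd'), Φ.B r' (e - r) • p + (-1 : F) • r,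
      Submodule.mem_span_pair.2 ⟨_, _, rfl⟩, fun c => ?_, fun c => ?_, ?_⟩
    · simpa [e1, h.alt] using congrArg (Φ.B d) c
    · simpa [hr.ef, h.alt] using congrArg (Φ.B p) c
    · convert this using 1
      simp only [map_sub, map_add, LinearMap.add_apply, e1, e2, hr.ef, h.anti r d, d2]
      module
  have hu := h.full hH h2 h4 hr hD hd' d0 hu u0 hs
  refine or_iff_not_imp_right.2 fun c => h.all hH h2 h4 ?_
  push Not at c
  obtain ⟨g, g1, g2⟩ := c u u0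
  have key : ∀ u, u ≠ 0 → Full Φ H u → ∀ y, Φ.B u y = 0 → S Φ H y := fun u u0 hu y hy => by
    by_cases c : u ∈ F ∙ y
    · obtain ⟨c, rfl⟩ := Submodule.mem_span_singleton.1 c
      exact h.of_smul (fun d => hu.hasE h.nd (by simp) (by simp [h.τ, h.Q]) (by simp [h.ε])) (by rintro rfl; simp at u0)
    by_cases y0 : y = 0
    · exact y0 ▸ S0
    refine (hd y y0).resolve_right fun hy' => c ?_
    simpa [h.ε] using hy'.1 _ _ (hu.hasE h.nd hy (by simp [h.τ, h.Q]) (by simp [h.ε, h.alt]) (d := 0)).swap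
  have k1 := key u u0 hu
  have k2 := key (g u) (by simpa) (hu.map g1 (hH g1))
  obtain ⟨y, y1, y2⟩ := h.nd.exists_perp_eq_one' g2
  replace y1 : Φ.B u y = 0 := Φ.mem_perp_span_singleton.1 y1
  intro v
  by_cases c : Φ.B u v = 0
  · exact k1 v c
  by_cases c' : Φ.B (g u) v = 0
  · exact k2 v c'
  by_cases e : Φ.B u (g u) = 0
  · obtain ⟨t, ht⟩ : ∃ t : F, Φ.B (Φ.B (g u) v • y + t • u) v ≠ 0 := by
      by_contra! c''
      exact c (by simpa [show Φ.B (g u) v * Φ.B y v = 0 by simpa using c'' 0] using c'' 1)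
    simpa using h.line hH (k1 (Φ.B (g u) v • y + t • u) (by simp [y1, h.alt]))
      (k2 (v - (Φ.B (g u) v • y + t • u)) (by simp [y2, h.anti u (g u), e])) (by rwa [map_sub, h.alt, sub_zero]) 1
  · exact fun d => let ⟨t, ht⟩ := h.exE (p := v) (map_zero _) d
      ⟨t, EG_le_of_full' h.nd hu g1 (hH g1) e (IsE_mem_EG ht), ht⟩

end Cfsg.Agent.Root.MinS
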