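import Cfsg.Agent.Root.MinS1
import Cfsg.Agent.MinD.Hs

/-! Minimal index in `Sp_n(q)`, `q` odd, II: points of line type, index counting, the trichotomy for points. -/

set_option autoImplicit false
set_option linter.unusedSectionVars false

namespace Cfsg.Agent.Root.MinS

open Cfsg.Agent.Geom Cfsg.Agent.AutCl Module Mx MulAction MinU

variable {F : Type*} [Field F] {V : Type*} [AddCommGroup V] [Module F V] {Φ : Formed (RingHom.id F) V}
  {H X : Subgroup (V ≃ₗ[F] V)} {D : Submodule F V}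

/-- Points of line type. -/
def TL (Φ : Formed (RingHom.id F) V) (H : Subgroup (V ≃ₗ[F] V)) (p w : V) : Prop :=
  w ∉ F ∙ p ∧ (∀ t : F, ∃ d, HasE Φ H p (t • w) d) ∧
    ∀ g ∈ Φ.isom, g p = p → g w ∈ Submodule.span F {p, w} → ∃ a d u, IsE Φ p a d u ∧ u * g ∈ H

theorem kapS [Finite F] {Z : AddSubgroup F} (Z0 : Z ≠ ⊥) {t : F} (tZ : t ∉ Z) :
    {c : F | c ≠ 0 ∧ ∀ d ∈ Z, d * (c * c) ∈ Z}.ncard * Nat.card Z * Nat.card F ≤ 2 * (Nat.card F - 1) ^ 2 ∧
      2 * Nat.card Z ≤ Nat.card F := by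
  let K := {y : F | ∀ d ∈ Z, d * y ∈ Z}
  have h2 : Nat.card K * Nat.card Z ≤ Nat.card F := by
    rw [← Nat.card_prod]
    refine Nat.card_le_card_of_injective (fun x => t * x.1.1 + x.2.1) fun x y e => ?_
    replace e : t * x.1.1 + x.2.1 = t * y.1.1 + y.2.1 := e
    by_cases c : x.1.1 - y.1.1 = 0
    · exact Prod.ext (Subtype.ext (sub_eq_zero.1 c)) (Subtype.ext (by linear_combination e - t * c))
    obtain ⟨d, hd⟩ := Finite.surjective_of_injective (f := fun d : Z => (⟨d * (x.1.1 - y.1.1), mul_sub d.1 _ _ ▸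
      sub_mem (x.1.2 _ d.2) (y.1.2 _ d.2)⟩ : Z)) (fun a b e => Subtype.ext (mul_right_cancel₀ c (congrArg Subtype.val e)))
      (y.2 - x.2)
    replace hd : d.1 * (x.1.1 - y.1.1) = y.2.1 - x.2.1 := congrArg Subtype.val hd
    exact (tZ ((mul_right_cancel₀ c (by linear_combination hd - e) : d.1 = t) ▸ d.2)).elim
  have h3 : 2 ≤ Nat.card Z := (AddSubgroup.one_lt_card_iff_ne_bot Z).2 Z0
  have h4 : (K \ {0}).ncard + 1 = Nat.card K := Set.ncard_sdiff_singleton_add_one (by simp [K])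
  have h5 : 0 < (K \ {0}).ncard := (Set.ncard_pos).2 ⟨1, by simp [K]⟩
  have h6 := MinD.double_count (fun c y : F => c * c = y) {c : F | c ≠ 0 ∧ ∀ d ∈ Z, d * (c * c) ∈ Z} (K \ {0}) 1 2
    (fun c hc => (Set.ncard_pos).2 ⟨c * c, ⟨hc.2, by simpa using hc.1⟩, rfl⟩) fun y _ => by
      by_cases e : ∃ c : F, c * c = y
      · obtain ⟨c, rfl⟩ := e
        exact (Set.ncard_le_ncard (t := {c, -c}) fun x hx => mul_self_eq_mul_self_iff.1 hx.2).trans
          ((Set.ncard_insert_le _ _).trans (by simp))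
      · exact (Set.ncard_le_ncard (t := ∅) fun x hx => e ⟨x, hx.2⟩).trans (by simp)
  rw [← h4] at h2
  generalize (K \ {0}).ncard = k at *
  obtain ⟨m, hm⟩ := Nat.exists_eq_add_of_lt (Nat.card_pos (α := F))
  rw [hm] at h2 ⊢
  simp only [zero_add, Nat.add_sub_cancel, mul_one] at *
  refine ⟨?_, by nlinarith⟩
  have h7 : k * Nat.card Z + 1 ≤ m := by nlinarith
  nlinarith [Nat.mul_le_mul_right (Nat.card Z * (m + 1)) h6, Nat.mul_le_mul_right (m + 1) h7]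

variable (h : HA Φ) [FiniteDimensional F V] [Fintype F] [Finite V]
include h

theorem HA.perp4 (h4 : finrank F V = 4) {p w a : V} (p0 : p ≠ 0) (w0 : w ∉ F ∙ p) (pw : Φ.B p w = 0)
    (h1 : Φ.B p a = 0) (h2 : Φ.B w a = 0) : a ∈ Submodule.span F {p, w} := by
  have e1 := h.nd.finrank_add_finrank_perp (Submodule.span F {p, w})
  have e2 : finrank F (Submodule.span F {p, w}) = 2 := by
    rw [Submodule.span_insert, MinD.finrank_sup_span w0, finrank_span_singleton p0]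
  rw [Submodule.eq_of_le_of_finrank_le (show Submodule.span F {p, w} ≤ Φ.perp (Submodule.span F {p, w}) from
    (Φ.totSing_span (by rintro x (e | e) y (e' | e') <;> simp [e, show y = _ from e', h.alt, pw, h.anti p w, Set.mem_singleton_iff.1 e]) fun _ _ => h.Q _).le_perp)
    (by omega)]
  exact Φ.mem_perp_span.2 (by rintro x (rfl | rfl) <;> assumption)

theorem HA.lin (hH : H ≤ Φ.isom) (h2 : (2 : F) ≠ 0) (h4 : finrank F V = 4) {b : F} (b0 : b ≠ 0) (b1 : b ^ 2 ≠ 1)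
    {p w : V} (p0 : p ≠ 0) (hp : ¬ S Φ H p) (hw : TL Φ H p w) : ∃ w' ≠ 0, S Φ H w' := by
  obtain ⟨w0, hA, hc⟩ := hw
  have pw : Φ.B p w = 0 := by simpa using (hA 1).choose_spec.pa
  have cov : ∀ c : F, ∀ g ∈ Φ.isom, g p = p → ∀ s : F, g (w + c • p) = s • (w + c • p) →
      ∃ a d u, IsE Φ p a d u ∧ u * g ∈ H ∧ (u * g) p = p ∧
        (u * g) (w + c • p) = s • (w + c • p) + (s * Φ.B a w) • p := fun c g hg g1 s g2 => by
    obtain ⟨a, d, u, hu, e⟩ := hc g hg g1 (Submodule.mem_span_pair.2 ⟨s * c - c, s, by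
      rw [map_add, map_smul, g1] at g2; linear_combination (norm := module) -g2⟩)
    refine ⟨a, d, u, hu, e, by rw [LinearEquiv.mul_apply, g1, hu.apply_p], ?_⟩
    rw [LinearEquiv.mul_apply, g2, hu.apply_perp (by simp [pw, h.alt])]
    simp [hu.ap]
  have tor : ∀ c s : F, s ≠ 0 → ∃ k ∈ H, k p = p ∧ ∃ e : F, k (w + c • p) = s • (w + c • p) + e • p := fun c s s0 => by
    obtain ⟨y, y1, y2⟩ := h.nd.exists_perp_eq_one' (x := w + c • p) (H := F ∙ p) fun e => w0 (by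
      simpa using sub_mem e (Submodule.smul_mem _ c (Submodule.mem_span_singleton_self p)))
    obtain ⟨a, d, u, -, h1, h3, h5⟩ := cov c _ ((h.pair y2).torus (Units.mk0 s s0)).2 ((h.pair y2).torus_perp _
      (Φ.mem_pairPerp.2 ⟨by simp [h.alt, h.anti p w, pw], Φ.B_eq_zero_symm (Φ.mem_perp_span_singleton.1 y1)⟩)) s
      ((h.pair y2).torus_left _)
    exact ⟨_, h1, h3, _, h5⟩
  obtain ⟨k, k1, k2, c, k3⟩ := tor 0 2 h2
  rw [zero_smul, add_zero] at k3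
  have hX : ∀ t : F, HasE Φ H p (t • (w + c • p)) 0 := fun t => by
    obtain ⟨d, hd⟩ := hA t
    have e1 := hd.conj k1 (hH k1)
    rw [k2, map_smul, k3] at e1
    have e2 := h.dif ((h.shift e1 (-(t * c))).congr (b := t • w + t • w) (by module) rfl) (h.mul hd hd)
    exact (h.shift (h.mul hd e2) (t * c)).congr (by module) (by simp [h.alt])
  have nz : ∀ k ∈ H, k p = p → ∀ s e : F, k (w + c • p) = s • (w + c • p) + e • p → e = 0 := fun k k1 k2 s e k3 => by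
    by_contra e0
    refine hp (h.of_mul (c := -2 * e) (by simp [h2, e0]) fun t => ?_)
    have e1 := (hX t).conj k1 (hH k1)
    rw [k2, map_smul, k3] at e1
    exact (h.dif ((h.shift e1 (-(t * e))).congr (by module) rfl) (hX (t * s))).congr rfl (by ring)
  have w0' : w + c • p ∉ F ∙ p := fun e => w0 (by
    simpa using sub_mem e (Submodule.smul_mem _ c (Submodule.mem_span_singleton_self p)))
  refine ⟨w + c • p, fun e => w0' (e ▸ Submodule.zero_mem _), h.of_mul (sub_ne_zero.2 b1) fun γ => ?_⟩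
  obtain ⟨g, hg⟩ := h.exE (p := w + c • p) (map_zero _) γ
  obtain ⟨a, d, u, hu, h1, h3, h5⟩ := cov c g hg.mem_isom (by rw [h.tv hg]; simp [h.alt, h.anti p w, pw]) 1
    (by rw [hg.apply_p, one_smul])
  have e1 := nz _ h1 h3 _ _ h5
  obtain ⟨α, β, rfl⟩ := Submodule.mem_span_pair.1 (h.perp4 h4 p0 w0' (by simp [pw, h.alt]) hu.pa
    (by rw [map_add, LinearMap.add_apply, h.anti, Φ.B_smul_left, hu.pa, ← one_mul (Φ.B a w), e1]; simp))
  obtain ⟨v, v1, v2⟩ := hX (-β)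
  have hz := ((v2.mul hu).sub_smul α).congr (b := 0) (by module) rfl
  obtain ⟨k', k1', k2', e, k3'⟩ := tor c b b0
  rw [nz _ k1' k2' _ _ k3', zero_smul, add_zero] at k3'
  have e2 := hz.conj (hH k1')
  have e3 := hg.conj (hH k1')
  rw [k2', map_zero] at e2
  rw [k3', map_zero] at e3
  have e4 : v * u * g ∈ H := by rw [mul_assoc]; exact mul_mem v1 h1
  refine ⟨g⁻¹ * (k' * g * k'⁻¹), ?_, (hg.inv.mul (e3.of_smul (h.sing _) b0)).congr (by simp) (by simp [h.ε]; ring)⟩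
  have := mul_mem (inv_mem e4) (mul_mem (mul_mem k1' e4) (inv_mem k1'))
  rwa [show k' * (v * u * g) * k'⁻¹ = k' * (v * u) * k'⁻¹ * (k' * g * k'⁻¹) by group, e2.ext hz,
    show (v * u * g)⁻¹ * (v * u * (k' * g * k'⁻¹)) = g⁻¹ * (k' * g * k'⁻¹) by group] at this

theorem HA.step0 (hD : (Φ.restrict D).Nondeg) (W : AddSubgroup V) (hW : ∀ a ∈ W, a ∈ D)
    (Z : AddSubgroup F) {t κ : F} (tZ : t ∉ Z) (κ0 : κ ≠ 0) (H : ∀ a ∈ W, ∀ b ∈ W, κ * Φ.B a b ∈ Z) :
    Nat.card W * Nat.card W ≤ Nat.card D := by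
  obtain ⟨ψ, hψ⟩ := (AddChar.exists_apply_ne_zero (α := F ⧸ Z) (a := t)).2 (by rwa [Ne, QuotientAddGroup.eq_zero_iff])
  let W' := W.addSubgroupOf D.toAddSubgroup
  let f : V → D.toAddSubgroup →+ F := fun w => ⟨⟨fun x => κ * Φ.B w x, by simp⟩, fun x y => by simp; ring⟩
  have := Nat.card_le_card_of_injective (fun w : W => ψ.compAddMonoidHom
    (QuotientAddGroup.map W' Z (f w) fun x hx => H _ w.2 _ hx)) fun w w' e => by
      by_contra c
      obtain ⟨x, hx, h1⟩ := h.exB hD (sub_mem (hW _ w.2) (hW _ w'.2)) fun e => c (Subtype.ext (sub_eq_zero.1 e))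
      have e1 := DFunLike.congr_fun e (QuotientAddGroup.mk ⟨(t / κ) • x, D.smul_mem _ hx⟩)
      simp only [AddChar.compAddMonoidHom_apply] at e1
      refine hψ (mul_left_cancel₀ (ψ.val_isUnit _).ne_zero (((AddChar.map_add_eq_mul _ _ _).symm.trans ?_).trans
        (e1.trans (mul_one _).symm)))
      change ψ ((f w' ⟨(t / κ) • x, D.smul_mem _ hx⟩ + t : F) : F ⧸ Z) = ψ ((f w ⟨(t / κ) • x, D.smul_mem _ hx⟩ : F) : F ⧸ Z)
      rw [map_sub, LinearMap.sub_apply] at h1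
      congr 2
      simp [f]
      field_simp
      linear_combination -t * h1
  have _ := Fintype.ofFinite (D.toAddSubgroup ⧸ W')
  rw [Nat.card_eq_fintype_card (α := AddChar _ _), AddChar.card_eq, ← Nat.card_eq_fintype_card] at this
  rw [show Nat.card D = _ from AddSubgroup.card_eq_card_quotient_mul_card_addSubgroup W',
    Nat.card_congr (AddSubgroup.addSubgroupOfEquivOfLe (K := D.toAddSubgroup) hW).toEquiv]
  exact Nat.mul_le_mul_right _ this

variable [Finite (V ≃ₗ[F] V)]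

theorem HA.card_Q {p r : V} (hr : Φ.IsPair p r) (hH : H ≤ EG Φ) :
    Nat.card (Φ.pairPerp p r) * Nat.card F ≤ H.relIndex (EG Φ ⊓ QP Φ p hr.se) *
      (Nat.card ↥(AE Φ H hr.se ⊓ (Φ.pairPerp p r).toAddSubgroup) * Nat.card (ZE Φ H hr.se)) := by
  have h1 : ∀ a : Φ.pairPerp p r × F, ∃ g, IsE Φ p a.1 a.2 g := fun a => h.exE (Φ.mem_pairPerp.1 a.1.2).1 _
  choose g hg using h1
  rw [← Nat.card_prod]
  refine (Nat.card_le_card_of_injective (β := ↥(EG Φ ⊓ QP Φ p hr.se))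
    (fun a => ⟨g a, IsE_mem_EG (hg a), _, _, hg a⟩) fun a b e => ?_).trans ((relIndex_mul_card H _).symm.trans_le
    (Nat.mul_le_mul_left _ (by rw [← inf_assoc, inf_eq_left.2 hH]; exact card_Q_le hr)))
  obtain ⟨h1, h2⟩ := (hg a).unique hr (hg b) (Φ.mem_pairPerp.1 a.1.2).2 (Φ.mem_pairPerp.1 b.1.2).2
    (by rw [show g a = g b from congrArg Subtype.val e])
  exact Prod.ext (Subtype.ext h1) h2

omit h [Finite (V ≃ₗ[F] V)] in
theorem card_nz (D : Submodule F V) : {v | v ∈ D ∧ v ≠ 0}.ncard + 1 = Nat.card F ^ finrank F D := by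
  rw [← Module.natCard_eq_pow_finrank]
  exact Set.ncard_sdiff_singleton_add_one (s := (D : Set V)) D.zero_mem

theorem HA.orb (hH : H ≤ EG Φ) {p : V} (p0 : p ≠ 0) {T : Set V} (hT : ∀ g ∈ H, g p ∈ T) {m : ℕ}
    (hm : m + 1 = Nat.card F ^ finrank F V) :
    m * H.relIndex (EG Φ ⊓ stabilizer _ p) ≤ H.relIndex (EG Φ) * T.ncard := by
  have := card_nz (⊤ : Submodule F V)
  rw [finrank_top, ← hm, add_left_inj] at this
  rw [← this]
  exact dc H (EG Φ) p (fun v hv => let ⟨g, hg, e⟩ := h.trans (nondeg_top h.nd) trivial p0 trivial hv.2; ⟨g, hg.1, e⟩)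
    fun g _ hg => hT g hg

omit h in
theorem arS {q J N s z y : ℕ} (h1 : (q - 1) * J ≤ N * s) (h2 : s * z * q ≤ 2 * (q - 1) ^ 2) (hq : 1 < q)
    (hN : N * (q - 1) + 1 < y * q * q) : J * z < 2 * (y * q) := by
  obtain ⟨m, rfl⟩ := Nat.exists_eq_add_of_lt hq
  rw [show 1 + m + 1 - 1 = m + 1 by omega] at *
  refine Nat.lt_of_mul_lt_mul_left (a := (m + 1) * (1 + m + 1)) ?_
  nlinarith [Nat.mul_le_mul_right (z * (1 + m + 1)) h1, Nat.mul_le_mul_left N h2,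
    Nat.mul_lt_mul_of_pos_left hN (show 0 < m + 1 by omega)]

theorem HA.small (hH : H ≤ EG Φ) {p : V} (p0 : p ≠ 0) {t : F} (tZ : t ∉ ZE Φ H (h.sing p)) {y : ℕ}
    (hN : H.relIndex (EG Φ) * (Nat.card F - 1) + 1 < y * Nat.card F * Nat.card F) :
    H.relIndex (EG Φ ⊓ stabilizer _ p) * Nat.card (ZE Φ H (h.sing p)) < 2 * (y * Nat.card F) := by
  have q1 : 1 < Nat.card F := Finite.one_lt_card
  by_cases Z0 : ZE Φ H (h.sing p) = ⊥
  · rw [Z0, AddSubgroup.card_bot, mul_one]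
    refine (relIndex_mono H inf_le_left).trans_lt ?_
    obtain ⟨m, hm⟩ := Nat.exists_eq_add_of_lt q1
    rw [hm, show 1 + m + 1 - 1 = m + 1 by omega] at hN
    rw [hm]
    refine Nat.lt_of_mul_lt_mul_right (a := m + 1) ?_
    nlinarith [Nat.zero_le (y * m * m), Nat.zero_le (y * m)]
  have h5 := dc H (EG Φ ⊓ stab (F ∙ p)) p (C := {v | v ∈ F ∙ p ∧ v ≠ 0})
    (D := (· • p) '' {c : F | c ≠ 0 ∧ ∀ d ∈ ZE Φ H (h.sing p), d * (c * c) ∈ ZE Φ H (h.sing p)}) (fun v hv => by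
      obtain ⟨g, hg, e⟩ := h.trans (nondeg_top h.nd) trivial p0 trivial hv.2
      exact ⟨g, ⟨hg.1, mem_stab_pt (e ▸ hv.1 :)⟩, e⟩) fun g hg hg' => by
      obtain ⟨c, hc⟩ := exists_smul_of_stab hg.2
      have c0 : c ≠ 0 := by rintro rfl; exact p0 (by simpa using hc.symm)
      exact ⟨c, ⟨c0, fun d hd => (HasE.of_smul (hc ▸ HasE.conj hd hg' (EG_le_isom (hH hg'))) c0).congr (by simp) rfl⟩, hc⟩
  have h6 := relIndex_mono H (A := EG Φ ⊓ stabilizer _ p) (B := EG Φ ⊓ stab (F ∙ p) ⊓ stabilizer _ p)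
    fun g hg => ⟨⟨hg.1, mem_stab_pt ((show g p = p from hg.2).symm ▸ Submodule.mem_span_singleton_self p)⟩, hg.2⟩
  have h7 := card_nz (F ∙ p)
  rw [finrank_span_singleton p0, pow_one] at h7
  rw [Set.ncard_image_of_injective _ (smul_left_injective F p0), Nat.eq_sub_of_add_eq h7] at h5
  exact arS ((Nat.mul_le_mul_left _ h6).trans (h5.trans (Nat.mul_le_mul_right _ (relIndex_mono H inf_le_left))))
    (kapS Z0 tZ).1 q1 hN

/-- Elements of the vector stabiliser covered by `H`. -/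
def Cov (h : HA Φ) (H : Subgroup (V ≃ₗ[F] V)) (p : V) : Subgroup (V ≃ₗ[F] V) where
  carrier := {g | g ∈ EG Φ ⊓ stabilizer _ p ∧ ∃ u ∈ QP Φ p (h.sing p), u * g ∈ H}
  mul_mem' := fun {a b} ⟨a1, u, a2, a3⟩ ⟨b1, v, b2, b3⟩ => ⟨mul_mem a1 b1, _, mul_mem a2 (conj_QP _ (EG_le_isom a1.1)
    (c := 1) (a1.2.trans (one_smul _ _).symm) b2), by simpa [mul_assoc] using mul_mem a3 b3⟩
  one_mem' := ⟨one_mem _, 1, one_mem _, by simp⟩
  inv_mem' := fun {a} ⟨a1, u, a2, a3⟩ => ⟨inv_mem a1, _, conj_QP _ (EG_le_isom (inv_mem a1.1)) (c := 1)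
    ((inv_mem a1).2.trans (one_smul _ _).symm) (inv_mem a2), by simpa [mul_assoc] using inv_mem a3⟩

theorem HA.tri (h2 : (2 : F) ≠ 0) (hH : H ≤ EG Φ) {j : ℕ} (hj : finrank F V = j + 4) (he : j = 0 ∨ 2 ≤ j)
    (hN : H.relIndex (EG Φ) * (Nat.card F - 1) + 1 < Nat.card F ^ finrank F V) {p : V} (p0 : p ≠ 0) (hp : ¬ S Φ H p) :
    TR Φ H p ∨ j = 0 ∧ (∃ w, TL Φ H p w) ∧ (Nat.card F + 1) * Nat.card F ^ 2 ≤
      H.relIndex (EG Φ ⊓ stabilizer _ p) * Nat.card (ZE Φ H (h.sing p)) := by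
  obtain ⟨t, tZ⟩ : ∃ t, t ∉ ZE Φ H (h.sing p) := not_forall.1 hp
  obtain ⟨r, hr⟩ := h.nd.exists_isPair p0 (h.sing p)
  have hD := hr.nondeg_pairPerp h.nd
  have hk : finrank F (Φ.pairPerp p r) = j + 2 := by have := hr.finrank_pairPerp h.nd; omega
  have q1 : 1 < Nat.card F := Finite.one_lt_card
  have h0 := h.small hH p0 tZ (y := Nat.card F ^ (j + 2)) (by rwa [← pow_succ, ← pow_succ, ← hj])
  have h1 := h.card_Q hr hH
  rw [Module.natCard_eq_pow_finrank (K := F), hk] at h1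
  set W := AE Φ H hr.se ⊓ (Φ.pairPerp p r).toAddSubgroup
  have iso : ∀ g ∈ H, g ∈ Φ.isom := fun g hg => EG_le_isom (hH hg)
  have hQ : EG Φ ⊓ QP Φ p hr.se ≤ EG Φ ⊓ stabilizer _ p := fun g ⟨g1, _, _, g2⟩ => ⟨g1, g2.apply_p⟩
  have h3 : ∀ R : Subgroup (V ≃ₗ[F] V), H ⊓ (EG Φ ⊓ stabilizer _ p) ≤ R → EG Φ ⊓ QP Φ p hr.se ≤ R →
      R.relIndex (EG Φ ⊓ stabilizer _ p) * (Nat.card F ^ (j + 2) * Nat.card F) ≤
        H.relIndex (EG Φ ⊓ stabilizer _ p) * Nat.card (ZE Φ H hr.se) * Nat.card W := fun R a b => by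
    have := Nat.mul_le_mul_right (Nat.card W * Nat.card (ZE Φ H hr.se)) (chain a (le_inf hQ b) le_rfl)
    nlinarith [Nat.mul_le_mul_left (R.relIndex (EG Φ ⊓ stabilizer _ p)) h1]
  have e0 : 0 < Nat.card W := Nat.card_pos
  have h4 : ∀ R : Subgroup (V ≃ₗ[F] V), H ⊓ (EG Φ ⊓ stabilizer _ p) ≤ R → EG Φ ⊓ QP Φ p hr.se ≤ R →
      R.relIndex (EG Φ ⊓ stabilizer _ p) < 2 * Nat.card W := fun R a b =>
    Nat.lt_of_mul_lt_mul_right (a := Nat.card F ^ (j + 2) * Nat.card F) ((h3 R a b).trans_lt (by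
      nlinarith [Nat.mul_lt_mul_of_pos_right h0 e0]))
  have c1 : H ⊓ (EG Φ ⊓ stabilizer _ p) ≤ Cov h H p := fun g hg => ⟨hg.2, 1, one_mem _, by simpa using hg.1⟩
  have c2 : EG Φ ⊓ QP Φ p hr.se ≤ Cov h H p := fun g hg => ⟨hQ hg, _, inv_mem hg.2, by simp⟩
  have c3 := h4 _ c1 c2
  have hW : ∀ a d, HasE Φ H p a d → a + Φ.B r a • p ∈ W := fun a d ha =>
    ⟨⟨_, h.shift ha _⟩, by simpa [ha.pa] using h.dec hr a⟩
  by_cases W0 : W = ⊥
  · refine Or.inl ⟨fun a d ha => Submodule.mem_span_singleton.2 ⟨-Φ.B r a, ?_⟩, fun g hg e => ?_⟩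
    · rw [neg_smul, neg_eq_iff_add_eq_zero, add_comm]; exact W0.le (hW a d ha)
    rw [W0, AddSubgroup.card_bot] at c3
    have : (Cov h H p).relIndex (EG Φ ⊓ stabilizer _ p) ≠ 0 := Subgroup.index_ne_zero_of_finite
    obtain ⟨-, u, ⟨a, d, hu⟩, e⟩ := Subgroup.relIndex_eq_one.1
      (show (Cov h H p).relIndex (EG Φ ⊓ stabilizer _ p) = 1 by omega) ⟨h.gen hg, e⟩
    exact ⟨a, d, u, hu, e⟩
  have s1 : H ⊓ (EG Φ ⊓ stabilizer _ p) ≤ stabA F (AE Φ H hr.se) := fun g ⟨g1, _, g2⟩ v => ⟨fun hv => by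
    simpa using map_mem_AE (inv_mem g1) (iso _ (inv_mem g1)) (g.symm_apply_eq.2 g2.symm) hv, map_mem_AE g1 (iso _ g1) g2⟩
  have s2 : EG Φ ⊓ QP Φ p hr.se ≤ stabA F (AE Φ H hr.se) := fun g ⟨g1, a, d, g2⟩ v => by
    by_cases e : Φ.B p v = 0
    · rw [g2.apply_perp e]; exact add_mem_cancel_right (smul_mem_AE _ _)
    · exact ⟨fun ⟨_, c⟩ => (e (g2.B_p v ▸ c.pa)).elim, fun ⟨_, c⟩ => (e c.pa).elim⟩
  have s3 : (stabA F W).relIndex (LL Φ (Φ.pairPerp p r)) ≤ (stabA F (AE Φ H hr.se)).relIndex (EG Φ ⊓ stabilizer _ p) :=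
    ((Subgroup.relIndex_le_of_le_left (H := stabA F (AE Φ H hr.se) ⊓ LL Φ (Φ.pairPerp p r))
      (K := stabA F W) (fun g hg v => and_congr (hg.1 v) ⟨fun c => by simpa using LL_map h.nd (inv_mem hg.2) c,
        LL_map h.nd hg.2⟩) Subgroup.index_ne_zero_of_finite).trans_eq (Subgroup.inf_relIndex_right _ _)).trans
      (relIndex_mono _ fun g hg => ⟨hg.1, hg.2 p fun u hu => Φ.B_eq_zero_symm (Φ.mem_pairPerp.1 hu).1⟩)
  have s4 := h4 _ s1 s2
  have isot : ∀ a ∈ W, ∀ b ∈ W, 2 * Φ.B a b ∈ ZE Φ H hr.se := fun a ⟨⟨d, ha⟩, _⟩ b ⟨⟨d', hb⟩, _⟩ =>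
    (h.dif (h.mul hb ha) ((h.mul ha hb).congr (add_comm a b) rfl)).congr rfl (by rw [h.anti a b]; ring)
  have s5 := h.step0 hD W (fun _ => And.right) _ tZ h2 isot
  obtain ⟨⟨w, hw⟩, w0⟩ := (AddSubgroup.ne_bot_iff_exists_ne_zero).1 W0
  replace w0 : w ≠ 0 := fun c => w0 (Subtype.ext c)
  have s6 := dc (stabA F W) (LL Φ (Φ.pairPerp p r)) w (C := {v | v ∈ Φ.pairPerp p r ∧ v ≠ 0}) (D := W \ {0})
    (fun v hv => h.trans hD hw.2 w0 hv.1 hv.2) fun g _ hg => ⟨(hg w).2 hw, by simpa⟩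
  have s7 := card_nz (Φ.pairPerp p r)
  have s8 : ((W : Set V) \ {0}).ncard + 1 = Nat.card W := Set.ncard_sdiff_singleton_add_one W.zero_mem
  rw [Module.natCard_eq_pow_finrank (K := F) (V := Φ.pairPerp p r), hk] at s5
  rw [hk] at s7
  have s9 : (stabA F W).relIndex (LL Φ (Φ.pairPerp p r) ⊓ stabilizer _ w) ≠ 0 := Subgroup.index_ne_zero_of_finite
  have e2 : 2 ≤ Nat.card W := (AddSubgroup.one_lt_card_iff_ne_bot W).2 W0
  have s10 := s6.trans (Nat.mul_le_mul_right _ (s3.trans (Nat.le_sub_one_of_lt s4)))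
  generalize ((W : Set V) \ {0}).ncard = e at *
  generalize {v | v ∈ Φ.pairPerp p r ∧ v ≠ 0}.ncard = m at *
  rw [← s8, show 2 * (e + 1) - 1 = 2 * e + 1 by omega] at s10
  have s11 : (stabA F W).relIndex (LL Φ (Φ.pairPerp p r) ⊓ stabilizer _ w) = 1 := by
    by_contra c
    have := Nat.mul_le_mul_left m (show 2 ≤ _ by omega : 2 ≤ (stabA F W).relIndex (LL Φ (Φ.pairPerp p r) ⊓ stabilizer _ w))
    rw [← s8, ← s7] at s5
    nlinarith
  rw [s11, mul_one] at s6 s10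
  have hle : W ≤ (F ∙ w).toAddSubgroup := fun v hv => by
    by_contra c
    obtain ⟨x, hx, x1, x2⟩ := sep h.nd hD (S := F ∙ w) (by simpa using hw.2) hv.2 c
    refine tZ ?_
    obtain ⟨g, hg⟩ := h.exE (p := x) (map_zero _) (t / 2)
    have := sub_mem hv ((Subgroup.relIndex_eq_one.1 s11 ⟨isE_mem_LL hg hx (Submodule.zero_mem _), show g w = w by
      simp [h.tv hg, h.anti w x, Φ.mem_perp_span_singleton.1 x1]⟩ v).2 hv)
    rw [h.tv hg, sub_sub_cancel] at this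
    convert isot _ this _ hv using 1
    simp [h.anti v x, x2]
    field_simp
  have s12 := AddSubgroup.card_dvd_of_le hle
  rw [show Nat.card (F ∙ w).toAddSubgroup = Nat.card F from
    (Nat.card_congr (LinearEquiv.toSpanNonzeroSingleton F V w w0).toEquiv).symm] at s12
  have s13 := Nat.le_of_dvd (by omega) s12
  obtain rfl : j = 0 := he.resolve_right fun c => by
    have : Nat.card F ^ 2 * Nat.card F ^ 2 ≤ Nat.card F ^ (j + 2) := by
      rw [← pow_add]; exact Nat.pow_le_pow_right (by omega) (by omega)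
    have : 4 ≤ Nat.card F ^ 2 := by nlinarith
    have : e * e ≤ Nat.card F ^ 2 := by nlinarith
    nlinarith
  have s14 : Nat.card W = Nat.card F := by
    obtain ⟨k, hk⟩ := s12
    rcases (show k = 0 ∨ k = 1 ∨ 2 ≤ k by omega) with rfl | rfl | c
    · omega
    · omega
    · have := Nat.mul_le_mul_left (Nat.card W) c
      rw [← hk, ← s8] at this
      rw [zero_add, pow_two] at s7
      nlinarith [Nat.mul_le_mul this this]
  have hWe : W = (F ∙ w).toAddSubgroup := AddSubgroup.eq_of_le_of_card_ge hle (by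
    rw [s14]; exact (Nat.card_congr (LinearEquiv.toSpanNonzeroSingleton F V w w0).toEquiv).ge)
  have s15 : Nat.card F + 1 ≤ (stabA F (AE Φ H hr.se)).relIndex (EG Φ ⊓ stabilizer _ p) :=
    le_trans (Nat.le_of_mul_le_mul_right (c := e) (le_trans (by nlinarith) s6) (by omega)) s3
  have hAE : ∀ v, v ∈ AE Φ H hr.se ↔ v ∈ Submodule.span F {p, w} := fun v => ⟨fun ⟨d, hv⟩ => by
    obtain ⟨c, hc⟩ := Submodule.mem_span_singleton.1 (hle (hW v d hv))
    exact Submodule.mem_span_pair.2 ⟨-Φ.B r v, c, by rw [hc]; module⟩, fun hv => by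
    obtain ⟨a, b, rfl⟩ := Submodule.mem_span_pair.1 hv
    exact add_mem (smul_mem_AE _ _) (hWe.ge (Submodule.smul_mem _ b (Submodule.mem_span_singleton_self w))).1⟩
  refine Or.inr ⟨rfl, ⟨w, fun c => ?_, fun t => (hWe.ge (Submodule.smul_mem _ t (Submodule.mem_span_singleton_self w))).1,
    fun g hg g1 g2 => ?_⟩, Nat.le_of_mul_le_mul_right (c := Nat.card F) ?_ (by omega)⟩
  · obtain ⟨c, rfl⟩ := Submodule.mem_span_singleton.1 c
    have := (Φ.mem_pairPerp.1 hw.2).2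
    simp [h.anti p r, hr.ef] at this
    simp [this] at w0
  · have c4 : Cov h H p ≤ stabA F (AE Φ H hr.se) ⊓ (EG Φ ⊓ stabilizer _ p) := fun g ⟨g1, u, u1, u2⟩ => ⟨by
      have hu : u ∈ EG Φ ⊓ QP Φ p hr.se := ⟨let ⟨_, _, c⟩ := u1; IsE_mem_EG c, u1⟩
      simpa using mul_mem (inv_mem (s2 hu)) (s1 ⟨u2, mul_mem (hQ hu) g1⟩), g1⟩
    have c5 := Subgroup.relIndex_mul_relIndex _ _ _ c4 inf_le_right
    rw [Subgroup.inf_relIndex_right] at c5
    have : (Cov h H p).relIndex (stabA F (AE Φ H hr.se) ⊓ (EG Φ ⊓ stabilizer _ p)) ≠ 0 := Subgroup.index_ne_zero_of_finite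
    obtain ⟨-, u, ⟨a, d, hu⟩, e⟩ := Subgroup.relIndex_eq_one.1
      (show (Cov h H p).relIndex (stabA F (AE Φ H hr.se) ⊓ (EG Φ ⊓ stabilizer _ p)) = 1 from by_contra fun c => by
      have := Nat.mul_le_mul (show 2 ≤ (Cov h H p).relIndex (stabA F (AE Φ H hr.se) ⊓ (EG Φ ⊓ stabilizer _ p)) by omega) s15
      omega) ⟨fun v => by
        rw [hAE, hAE]
        refine (mem_stab_of_le (fun v hv => ?_) v).symm
        obtain ⟨a, b, rfl⟩ := Submodule.mem_span_pair.1 hv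
        rw [map_add, map_smul, map_smul, g1]
        exact add_mem (Submodule.smul_mem _ _ (Submodule.subset_span (by simp))) (Submodule.smul_mem _ _ g2), h.gen hg, g1⟩
    exact ⟨a, d, u, hu, e⟩
  · have := (Nat.mul_le_mul_right _ s15).trans (h3 _ s1 s2)
    rwa [s14, ← mul_assoc] at this

end Cfsg.Agent.Root.MinS
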