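import Cfsg.Agent.Root.MinS2

/-! Minimal index in `Sp_n(q)`, III: the lower bound for `q` odd (`HA.bound`, `psp_odd`), point stabilisers (`psp_ex`). -/

set_option autoImplicit false
set_option linter.unusedSectionVars false

namespace Cfsg.Agent.Root.MinS

open Cfsg.Agent.Geom Cfsg.Agent.AutCl Module Mx MulAction MinU

variable {F : Type*} [Field F] {V : Type*} [AddCommGroup V] [Module F V] {Φ : Formed (RingHom.id F) V}
  {H : Subgroup (V ≃ₗ[F] V)}

theorem arT {m J N c t : ℕ} (h1 : m * J ≤ N * t) (h2 : N * c < m) (t0 : 0 < t) : J * c < t :=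
  Nat.lt_of_mul_lt_mul_left (a := m) (by nlinarith [Nat.mul_le_mul_right c h1, Nat.mul_lt_mul_of_pos_right h2 t0])

theorem arU {c J z t : ℕ} (h1 : J * c < t) (h2 : t + 1 = (c + 1) ^ 3) (h3 : 2 * z ≤ c + 1)
    (h4 : (c + 1 + 1) * (c + 1) ^ 2 ≤ J * z) (c0 : 0 < c) : False := by
  have a1 : J < (c + 1) ^ 2 + (c + 1) + 1 := Nat.lt_of_mul_lt_mul_right (a := c) (by nlinarith)
  have a2 : 2 * (c + 1 + 1) * (c + 1) ≤ J := Nat.le_of_mul_le_mul_right (c := c + 1) (by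
    nlinarith [Nat.mul_le_mul_left J h3]) (by omega)
  nlinarith

theorem arV {c J t : ℕ} (h1 : J * c < t) (h2 : t = (c + 1) ^ 2 ∨ (c + 1) ^ 2 + t = (c + 1) ^ 4)
    (h4 : (c + 1 + 1) * (c + 1) ^ 2 ≤ J) (c0 : 0 < c) : False := by
  have := Nat.mul_le_mul_right c h4
  rcases h2 with e | e
  · nlinarith [Nat.mul_le_mul_left ((c + 1 + 1) * (c + 1) ^ 2) c0, Nat.zero_le ((c + 1) ^ 3)]
  · nlinarith

variable (h : HA Φ) [FiniteDimensional F V] [Fintype F] [Finite V] [Finite (V ≃ₗ[F] V)]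
include h

theorem HA.bound (h2 : (2 : F) ≠ 0) {j : ℕ} (hj : finrank F V = j + 4) (he : j = 0 ∨ 2 ≤ j)
    (hb : (∃ b : F, b ≠ 0 ∧ b ^ 2 ≠ 1) ∨ 6 ≤ finrank F V) (hH : H ≤ EG Φ) (hne : ¬ EG Φ ≤ H) :
    Nat.card F ^ finrank F V ≤ H.relIndex (EG Φ) * (Nat.card F - 1) + 1 := by
  by_contra! hN
  have hI := hH.trans EG_le_isom
  have q1 : 1 < Nat.card F := Finite.one_lt_card
  obtain ⟨m, hm⟩ := Nat.exists_eq_add_of_lt (Nat.zero_lt_of_lt hN)
  have key : ∀ p ≠ 0, ∀ T : Set V, (∀ g ∈ H, g p ∈ T) →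
      H.relIndex (EG Φ ⊓ stabilizer _ p) * (Nat.card F - 1) < T.ncard := fun p p0 T hT =>
    arT (h.orb hH p0 hT (m := m) (by omega)) (by omega) ((Set.ncard_pos).2 ⟨_, hT 1 (one_mem _)⟩)
  have pt : ∀ u ≠ 0, ¬ ∀ g ∈ H, g u ∈ F ∙ u := fun u u0 hu => by
    have h1 := key u u0 {v | v ∈ F ∙ u ∧ v ≠ 0} fun g hg => ⟨hu g hg, by simpa⟩
    have h3 := card_nz (F ∙ u)
    rw [finrank_span_singleton u0, pow_one] at h3
    have h4 : H.relIndex (EG Φ ⊓ stabilizer _ u) ≠ 0 := Subgroup.index_ne_zero_of_finite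
    have := Nat.le_mul_of_pos_left (Nat.card F - 1) (Nat.pos_of_ne_zero h4)
    omega
  obtain ⟨p, p0, hp, hr⟩ : ∃ p ≠ 0, ¬ S Φ H p ∧ ¬ TR Φ H p := by
    by_contra! c
    obtain ⟨u, u0, hu⟩ := (h.dich hI h2 (by omega) hb fun p p0 => or_iff_not_imp_left.2 (c p p0)).resolve_left hne
    exact pt u u0 hu
  obtain ⟨rfl, ⟨w, hw⟩, h3⟩ := (h.tri h2 hH hj he hN p0 hp).resolve_left hr
  obtain ⟨b, b0, b1⟩ := hb.resolve_right (by omega)
  obtain ⟨x, x0, hx⟩ := h.lin hI h2 hj b0 b1 p0 hp hw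
  have nS : ∀ g ∈ H, ¬ S Φ H (g p) := fun g hg c => hp (by simpa using c.map hI (inv_mem hg))
  obtain ⟨c, hc⟩ := Nat.exists_eq_add_of_lt (Nat.zero_lt_of_lt q1)
  rw [zero_add] at hc
  replace key := key p p0
  rw [hc, Nat.add_sub_cancel] at key
  by_cases Z0 : ZE Φ H (h.sing p) = ⊥
  swap
  · obtain ⟨t, tZ⟩ : ∃ t, t ∉ ZE Φ H (h.sing p) := not_forall.1 hp
    obtain ⟨⟨d, hd⟩, d0⟩ := (AddSubgroup.ne_bot_iff_exists_ne_zero).1 Z0
    have h4 := card_nz (Φ.perp (F ∙ x))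
    have h5 := h.nd.finrank_add_finrank_perp (F ∙ x)
    rw [finrank_span_singleton x0] at h5
    rw [show finrank F (Φ.perp (F ∙ x)) = 3 by omega, hc] at h4
    refine arU (key {v | v ∈ Φ.perp (F ∙ x) ∧ v ≠ 0} fun g hg => ⟨Φ.mem_perp_span_singleton.2 (Φ.B_eq_zero_symm (by_contra fun e => nS g hg ?_)),
      by simpa⟩) h4 (hc ▸ (kapS Z0 tZ).2) (hc ▸ h3) (by omega)
    exact h.of_hasE hI ((HasE.conj hd hg (hI hg)).congr (map_zero _) rfl) (fun e => d0 (Subtype.ext e)) hx e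
  rw [Z0, AddSubgroup.card_bot, mul_one, hc] at h3
  obtain ⟨x, y, x0, hy, hU⟩ : ∃ x y : V, x ≠ 0 ∧ y ∉ F ∙ x ∧ ((∀ g ∈ H, g p ∈ Submodule.span F {x, y}) ∨
      ∀ g ∈ H, g p ∉ Submodule.span F {x, y}) := by
    by_cases c : ∃ y, S Φ H y ∧ Φ.B x y ≠ 0
    · obtain ⟨y, hy, e⟩ := c
      refine ⟨x, y, x0, fun c => ?_, Or.inr fun g hg c => nS g hg ?_⟩
      · obtain ⟨c, rfl⟩ := Submodule.mem_span_singleton.1 c
        simp [h.alt] at e
      obtain ⟨α, β, c⟩ := Submodule.mem_span_pair.1 c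
      rw [← c]
      by_cases β0 : β = 0
      · simpa [β0] using h.smul hx α
      · convert h.smul (h.line hI hx hy e (α / β)) β using 1
        match_scalars <;> field_simp
    push Not at c
    have := pt x x0
    push Not at this
    obtain ⟨k, hk, e⟩ := this
    have inv : ∀ g ∈ H, ∀ v ∈ Submodule.span F {x, k x}, g v ∈ Submodule.span F {x, k x} := fun g hg v hv => by
      have : ∀ g ∈ H, g x ∈ Submodule.span F {x, k x} := fun g hg => h.perp4 hj x0 e (c _ (hx.map hI hk))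
        (c _ (hx.map hI hg)) (by
          rw [← (hI (inv_mem hk)).1]
          simpa using c _ (hx.map hI (mul_mem (inv_mem hk) hg)))
      obtain ⟨α, β, rfl⟩ := Submodule.mem_span_pair.1 hv
      rw [map_add, map_smul, map_smul]
      exact add_mem (Submodule.smul_mem _ _ (this g hg)) (Submodule.smul_mem _ _ (this _ (mul_mem hg hk)))
    refine ⟨x, k x, x0, e, ?_⟩
    by_cases c' : p ∈ Submodule.span F {x, k x}
    · exact Or.inl fun g hg => inv g hg p c'
    · exact Or.inr fun g hg c => c' (by simpa using inv _ (inv_mem hg) _ c)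
  have e2 : (Submodule.span F {x, y} : Set V).ncard = (c + 1) ^ 2 := by
    rw [← hc, ← Nat.card_coe_set_eq]
    refine (Module.natCard_eq_pow_finrank (K := F) (V := Submodule.span F {x, y})).trans ?_
    rw [Submodule.span_insert, MinD.finrank_sup_span hy, finrank_span_singleton x0]
  rcases hU with c | c
  · exact arV (key _ c) (Or.inl e2) h3 (by omega)
  · refine arV (key (Submodule.span F {x, y} : Set V)ᶜ c) (Or.inr ?_) h3 (by omega)
    rw [← e2, Set.ncard_add_ncard_compl, Module.natCard_eq_pow_finrank (K := F), hj, hc]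

theorem HA.index_pt {u : V} (u0 : u ≠ 0) :
    (stab (F ∙ u)).relIndex (EG Φ) * (Nat.card F - 1) + 1 = Nat.card F ^ finrank F V := by
  have h1 := Subgroup.relIndex_mul_relIndex (stabilizer _ u ⊓ (stab (F ∙ u) ⊓ EG Φ)) (stab (F ∙ u) ⊓ EG Φ) (EG Φ)
    inf_le_right inf_le_right
  rw [Subgroup.inf_relIndex_right, Subgroup.inf_relIndex_right, ← inf_assoc, Subgroup.inf_relIndex_right, inf_eq_left.2
    (show stabilizer (V ≃ₗ[F] V) u ≤ stab (F ∙ u) from
    fun g hg => mem_stab_pt ((show g u = u from hg).symm ▸ Submodule.mem_span_singleton_self u)), relIndex_stab,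
    relIndex_stab, mul_comm] at h1
  have h3 := card_nz (F ∙ u)
  have h4 := card_nz (⊤ : Submodule F V)
  rw [finrank_span_singleton u0, pow_one] at h3
  rw [← finrank_top, ← h4, ← h3, Nat.add_sub_cancel, add_left_inj]
  have tr : ∀ v ≠ 0, ∃ g ∈ EG Φ, g • u = v := fun v v0 =>
    let ⟨g, hg, e⟩ := h.trans (nondeg_top h.nd) trivial u0 trivial v0; ⟨g, hg.1, e⟩
  convert h1 using 3 <;> ext v
  · refine ⟨fun hv => ?_, fun ⟨g, hg, e⟩ => e ▸ ⟨(hg.1 u).1 (Submodule.mem_span_singleton_self u), by simpa⟩⟩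
    obtain ⟨g, hg, e⟩ := tr v hv.2
    exact ⟨g, ⟨mem_stab_pt (e ▸ hv.1 :), hg⟩, e⟩
  · exact ⟨fun hv => tr v hv.2, fun ⟨g, hg, e⟩ => e ▸ ⟨trivial, by simpa⟩⟩

theorem HA.central_pt {g : V ≃ₗ[F] V} (hc : ∀ t ∈ EG Φ, t * g = g * t) {x : V} (x0 : x ≠ 0) : g x ∈ F ∙ x := by
  obtain ⟨t, ht⟩ := h.exE (p := x) (map_zero _) 1
  obtain ⟨v, hv⟩ := h.nd.exists_eq_one x0
  have := congrArg (fun s : V ≃ₗ[F] V => s (g.symm v)) (hc t (IsE_mem_EG ht))
  simp only [LinearEquiv.mul_apply, h.tv ht, LinearEquiv.apply_symm_apply, hv, map_sub, map_smul] at this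
  replace this : x = Φ.B x (g.symm v) • g x := by linear_combination (norm := module) -this
  by_cases c0 : Φ.B x (g.symm v) = 0
  · exact (x0 (by rw [this, c0, zero_smul])).elim
  exact (Submodule.smul_mem_iff _ c0).1 (this ▸ Submodule.mem_span_singleton_self x)

omit h

theorem ha_symp (F : Type*) [Field F] (m : ℕ) : HA (sympFormed m F) :=
  ⟨sympFormed_nondeg m F, rfl, fun _ => rfl, rfl, sympB_isAlt m F, (EG_symp m).ge⟩

theorem range_sp (F : Type*) [Field F] (m : ℕ) :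
    ((sympFormed m F).isom.subtype.comp (spEquiv m F).toMonoidHom).range = EG (sympFormed m F) := by
  rw [EG_symp, MonoidHom.range_comp, MonoidHom.range_eq_top.2 (spEquiv m F).surjective, ← MonoidHom.range_eq_map,
    Subgroup.range_subtype]

theorem psp_odd (F : Type*) [Field F] [Fintype F] (h2 : (2 : F) ≠ 0) {m : ℕ} (hm : 2 ≤ m)
    (hb : (∃ b : F, b ≠ 0 ∧ b ^ 2 ≠ 1) ∨ 3 ≤ m) (H : Subgroup (PSp m F)) (hH : H ≠ ⊤) :
    Nat.card F ^ (2 * m) ≤ H.index * (Nat.card F - 1) + 1 := by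
  let φ := (sympFormed m F).isom.subtype.comp (spEquiv m F).toMonoidHom
  have hφ : Function.Injective φ := Subtype.val_injective.comp (spEquiv m F).injective
  have hr : φ.range = _ := range_sp F m
  have : Finite ((Fin m ⊕ Fin m → F) ≃ₗ[F] (Fin m ⊕ Fin m → F)) := DFunLike.finite _
  have hk : finrank F (Fin m ⊕ Fin m → F) = 2 * m := by simp [two_mul]
  have i := H.index_comap_of_surjective (QuotientGroup.mk'_surjective _)
  rw [← i, ← Subgroup.comap_map_eq_self_of_injective hφ (H.comap _), Subgroup.index_comap, hr, ← hk]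
  refine (ha_symp F m).bound h2 (j := 2 * m - 4) (by omega) (by omega) (hb.imp_right (by omega))
    (hr ▸ Subgroup.map_le_range _ _) fun c => hH (Subgroup.index_eq_one.1 ?_)
  rw [← i, ← Subgroup.comap_map_eq_self_of_injective hφ (H.comap _), Subgroup.index_comap, hr,
    Subgroup.relIndex_eq_one.2 c]

theorem psp_ex (F : Type*) [Field F] [Fintype F] {m : ℕ} (hm : 1 ≤ m) :
    ∃ H : Subgroup (PSp m F), H.index * (Nat.card F - 1) + 1 = Nat.card F ^ (2 * m) := by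
  let φ := (sympFormed m F).isom.subtype.comp (spEquiv m F).toMonoidHom
  have hr : φ.range = _ := range_sp F m
  have : Finite ((Fin m ⊕ Fin m → F) ≃ₗ[F] (Fin m ⊕ Fin m → F)) := DFunLike.finite _
  have hk : finrank F (Fin m ⊕ Fin m → F) = 2 * m := by simp [two_mul]
  have u0 : (fun _ => 1 : Fin m ⊕ Fin m → F) ≠ 0 := fun e => one_ne_zero (congrFun e (.inl ⟨0, hm⟩))
  refine ⟨((stab (F ∙ fun _ => 1)).comap φ).map (QuotientGroup.mk' _), ?_⟩
  rw [← Subgroup.index_comap_of_surjective _ (QuotientGroup.mk'_surjective _), Subgroup.comap_map_eq_self,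
    Subgroup.index_comap, hr, ← hk, (ha_symp F m).index_pt u0]
  rw [QuotientGroup.ker_mk']
  refine fun z hz => mem_stab_pt ((ha_symp F m).central_pt (fun t ht => ?_) u0)
  obtain ⟨t, rfl⟩ := hr.ge ht
  rw [← map_mul, ← map_mul, Subgroup.mem_center_iff.1 hz]

end Cfsg.Agent.Root.MinS
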