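import Cfsg.Agent.Root.Un3

/-! Minimal index in `SU_n(q)`, I: subgroups `X` of a unitary group such that every isotropic point is either a centre
of a full transvection group of `X` (`SS`) or regular (`Reg`): `X` is everything or fixes a point (`Di.main`). -/

set_option autoImplicit false

namespace Cfsg.Agent.Root.MinU

open Cfsg.Agent.Geom Cfsg.Agent.AutCl Module Mx

variable {F : Type*} [Field F] {σ : F →+* F} {V : Type*} [AddCommGroup V] [Module F V] {Φ : Formed σ V}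
  {X : Subgroup (V ≃ₗ[F] V)} {W : Submodule F V}

theorem isE_tv (h : HD Φ) {p : V} {d : F} {g : V ≃ₗ[F] V} (hg : IsE Φ p 0 d g) (x : V) :
    g x = x - (d * Φ.B p x) • p := by rw [hg.app]; simp; module

theorem isE_app (h : HD Φ) {p a : V} {d : F} {g : V ≃ₗ[F] V} (hg : IsE Φ p a d g) (x : V) :
    g x = x + (Φ.B a x - d * Φ.B p x) • p - Φ.B p x • a := by rw [hg.app, h.ε, one_mul]

theorem isE_tr (h : HD Φ) {p a : V} {d : F} {g : V ≃ₗ[F] V} (hg : IsE Φ p a d g) : d + σ d = Φ.B a a := by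
  simpa [h.ε] using hg.hB

theorem sing_iff (h : HD Φ) {x : V} : Φ.Sing x ↔ Φ.B x x = 0 := by simp [Formed.Sing, h.Q]

theorem conj_QP {p : V} (hp : Φ.Sing p) {s g : V ≃ₗ[F] V} (hs : s ∈ Φ.isom) {c : F} (e : s p = c • p)
    (hg : g ∈ QP Φ p hp) : s * g * s⁻¹ ∈ QP Φ p hp := by
  obtain ⟨a, d, hg⟩ := hg
  by_cases hc : c = 0
  · obtain rfl : p = 0 := by simpa [hc] using e
    exact ⟨_, _, by simpa using hg.conj hs⟩
  exact ⟨_, _, IsE.of_smul hp hc (e ▸ hg.conj hs)⟩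

theorem mem_of_isE_one (h : HD Φ) {z a : V} {d : F} (z0 : z ≠ 0) (hz : IsE Φ z a d 1) : a ∈ F ∙ z := by
  obtain ⟨v, hv⟩ := h.nd.exists_eq_one z0
  have := isE_app h hz v
  rw [hv] at this
  exact Submodule.mem_span_singleton.2 ⟨Φ.B a v - d * 1, by
    simp only [LinearEquiv.coe_one, id] at this; linear_combination (norm := module) -this⟩

variable [FiniteDimensional F V]

theorem exists_E (h : HD Φ) {p a : V} {d : F} (hp : Φ.Sing p) (ha : Φ.B p a = 0) (hd : d + σ d = Φ.B a a) :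
    ∃ g, IsE Φ p a d g := exists_isE h.nd hp ha (by simp [h.τ, h.Q]) (by simpa [h.ε])

theorem nd_pair (hn : Φ.Nondeg) (hW : (Φ.restrict W).Nondeg) {a b : V} (ha : a ∈ W) (hb : b ∈ W) (hab : Φ.IsPair a b) :
    (Φ.restrict (W ⊓ Φ.pairPerp a b)).Nondeg ∧ finrank F ↥(W ⊓ Φ.pairPerp a b) + 2 = finrank F W := by
  have hl : (F ∙ a) ⊔ (F ∙ b) ≤ W := by simp [ha, hb]
  exact ⟨nondeg_inf_perp hn hW hab.nondeg_span hl, hab.finrank_span ▸ finrank_inf_perp hn hW hl⟩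

theorem nd_pt (hn : Φ.Nondeg) (hW : (Φ.restrict W).Nondeg) {a : V} (ha : a ∈ W) (a0 : Φ.B a a ≠ 0) :
    (Φ.restrict (W ⊓ Φ.perp (F ∙ a))).Nondeg ∧ finrank F ↥(W ⊓ Φ.perp (F ∙ a)) + 1 = finrank F W := by
  have hl : (F ∙ a) ≤ W := by simpa
  exact ⟨nondeg_inf_perp hn hW (Φ.nondeg_span_singleton a0) hl,
    finrank_span_singleton (K := F) (v := a) (by rintro rfl; simp at a0) ▸ finrank_inf_perp hn hW hl⟩

variable [Finite F]

theorem pair2 (h : HU Φ) (hW : (Φ.restrict W).Nondeg) (h2 : 2 ≤ finrank F W) : ∃ a ∈ W, ∃ b ∈ W, Φ.IsPair a b :=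
  let ⟨a, ha, a0, hs⟩ := Mx.exists_sing_herm h.ne h.ε h.Q h2
  ⟨a, ha, exists_pair_mem h.nd hW ha a0 hs⟩

theorem g0 (h : HU Φ) (hW : (Φ.restrict W).Nondeg) (h2 : 2 ≤ finrank F W) {v w : V} (hw : w ∈ W) (e : Φ.B v w ≠ 0) :
    ∃ x ∈ W, Φ.Sing x ∧ Φ.B v x ≠ 0 := by
  by_contra! hc
  obtain ⟨a, ha, b, hb, hab⟩ := pair2 h hW h2
  exact e (sing_ind ha hb hab (LinearMap.ker (Φ.B v)).toAddSubgroup hc w hw)

theorem g1 (h : HU Φ) (hW : (Φ.restrict W).Nondeg) (h4 : 4 ≤ finrank F W) {a u : V} (ha : a ∈ W) (a0 : a ≠ 0)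
    (hs : Φ.Sing a) (hu : u ∈ W) (e : Φ.B a u = 0) (e' : u ∉ F ∙ a) :
    ∃ b ∈ W, Φ.Sing b ∧ Φ.B a b = 0 ∧ Φ.B u b ≠ 0 := by
  obtain ⟨a', ha', hp⟩ := exists_pair_mem h.nd hW ha a0 hs
  obtain ⟨h1, h2⟩ := nd_pair h.nd hW ha ha' hp
  have h3 := hp.sub_mem_pairPerp u
  rw [e, zero_smul, sub_zero] at h3
  obtain ⟨w, hw, e1⟩ : ∃ w ∈ W ⊓ Φ.pairPerp a a', Φ.B (u - (Φ.ε * Φ.B a' u) • a) w ≠ 0 := by
    by_contra! hc
    exact e' (sub_eq_zero.1 (Φ.restrict_nondeg_iff'.1 h1 _ ⟨sub_mem hu (W.smul_mem _ ha), h3⟩ hc) ▸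
      Submodule.smul_mem _ _ (Submodule.mem_span_singleton_self _))
  obtain ⟨x, hx, e2, e3⟩ := g0 h h1 (by omega) hw (v := u) (by simpa [(Φ.mem_pairPerp.1 hw.2).1] using e1)
  exact ⟨x, hx.1, e2, (Φ.mem_pairPerp.1 hx.2).1, e3⟩

theorem g2 (h : HU Φ) (hW : (Φ.restrict W).Nondeg) (h4 : 4 ≤ finrank F W) {u v : V} (hu : u ∈ W) (hv : v ∈ W)
    (u0 : u ≠ 0) (e : v ∉ F ∙ u) : ∃ a ∈ W, ∃ b ∈ W, Φ.Sing a ∧ Φ.Sing b ∧ Φ.B a b = 0 ∧
      ∀ α β : F, Φ.B u (α • a + β • b) = 0 → Φ.B v (α • a + β • b) = 0 → α = 0 ∧ β = 0 := by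
  let D := (F ∙ u) ⊔ F ∙ v
  have hD : D ≤ W := by simp [D, hu, hv]
  have uD : u ∈ D := Submodule.mem_sup_left (Submodule.mem_span_singleton_self _)
  have vD : v ∈ D := Submodule.mem_sup_right (Submodule.mem_span_singleton_self _)
  obtain ⟨a, ha, as, a1, a2⟩ : ∃ a ∈ W, Φ.Sing a ∧ a ∉ D ∧ a ∉ Φ.perp D := by
    obtain ⟨w, hw, e1⟩ : ∃ w ∈ W, Φ.B u w ≠ 0 := by
      by_contra! hc
      exact u0 (Φ.restrict_nondeg_iff'.1 hW _ hu hc)
    obtain ⟨x, hx, xs, e2⟩ := g0 h hW (by omega) hw e1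
    obtain ⟨y, hy, ys, e3⟩ : ∃ y ∈ W, Φ.Sing y ∧ y ∉ D := by
      by_contra! hc
      obtain ⟨a, ha, b, hb, hab⟩ := pair2 h hW (by omega)
      have h1 : finrank F W ≤ finrank F D := Submodule.finrank_mono (sing_ind ha hb hab D.toAddSubgroup hc)
      have h2 := Submodule.finrank_add_le_finrank_add_finrank (F ∙ u) (F ∙ v)
      have := finrank_span_one (F := F) u
      have := finrank_span_one (F := F) v
      simp only [D] at h1
      omega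
    by_cases c1 : x ∈ D
    · by_cases c2 : y ∈ Φ.perp D
      · exact ⟨x + y, add_mem hx hy, sing_add_of_perp xs ys (c2 x c1), fun c => e3 ((D.add_mem_iff_right c1).1 c),
          fun c => e2 (by simpa [c2 u uD] using c u uD)⟩
      · exact ⟨y, hy, ys, e3, c2⟩
    · exact ⟨x, hx, xs, c1, fun c => e2 (c u uD)⟩
  have a3 : ¬ (Φ.B u a = 0 ∧ Φ.B v a = 0) := fun c => a2 (Φ.mem_pairPerp.2 c)
  have zD : σ (Φ.B v a) • u - σ (Φ.B u a) • v ∈ D := sub_mem (D.smul_mem _ uD) (D.smul_mem _ vD)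
  obtain ⟨b, hb, bs, b1, b2⟩ := g1 h hW h4 ha (by rintro rfl; exact a1 D.zero_mem) as (hD zD)
    (Φ.B_eq_zero_symm (by simp [Φ.σσ]; ring)) (fun c => by
      obtain ⟨t, ht⟩ := Submodule.mem_span_singleton.1 c
      by_cases t0 : t = 0
      · have e1 : Φ.B u a = 0 := by
          by_contra e1
          refine e (Submodule.mem_span_singleton.2 ⟨σ (Φ.B v a) / σ (Φ.B u a), ?_⟩)
          have : σ (Φ.B u a) ≠ 0 := by simpa
          rw [t0] at ht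
          rw [div_eq_inv_mul, mul_smul, inv_smul_eq_iff₀ this]
          linear_combination (norm := module) -ht
        exact a3 ⟨e1, by rw [t0, e1] at ht; simpa [u0] using ht.symm⟩
      · exact a1 ((D.smul_mem_iff t0).1 (ht ▸ zD)))
  refine ⟨a, ha, b, hb, as, bs, b1, fun α β e1 e2 => ?_⟩
  simp [Φ.σσ] at b2 e1 e2
  obtain rfl : β = 0 := by
    by_contra b0
    exact b2 (mul_left_cancel₀ b0 (by linear_combination Φ.B v a * e1 - Φ.B u a * e2))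
  exact ⟨by_contra fun c => a3 ⟨by simpa [c] using e1, by simpa [c] using e2⟩, rfl⟩

/-- No Eichler map at `p` lies in `X`, and `X` covers the Levi factor of the stabiliser of `p`. -/
def Reg (Φ : Formed σ V) (X : Subgroup (V ≃ₗ[F] V)) (p : V) : Prop :=
  (∀ a d g, IsE Φ p a d g → g ∈ X → g = 1) ∧ ∀ g ∈ EG Φ, ∀ c : F, g p = c • p → ∃ a d u, IsE Φ p a d u ∧ u * g ∈ X

/-- All transvections at the singular vector `p` lie in `X`. -/
def SS (Φ : Formed σ V) (X : Subgroup (V ≃ₗ[F] V)) (p : V) : Prop := Φ.Sing p ∧ FullT Φ X p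

/-- The dichotomy for isotropic points. -/
structure Di (Φ : Formed σ V) (X : Subgroup (V ≃ₗ[F] V)) : Prop where
  hu : HU Φ
  le : X ≤ EG Φ
  five : 5 ≤ finrank F V
  di : ∀ p, p ≠ 0 → Φ.Sing p → FullT Φ X p ∨ Reg Φ X p

omit [FiniteDimensional F V] [Finite F] in
theorem SS.smul {p : V} (h : SS Φ X p) (c : F) : SS Φ X (c • p) := ⟨h.1.smul c, fun d g hg => by
  by_cases hc : c = 0
  · obtain rfl : g = 1 := LinearEquiv.ext fun x => by simp [hg.app, hc]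
    exact one_mem _
  exact h.2 _ g ((hg.of_smul h.1 hc).congr (smul_zero _) rfl)⟩

omit [FiniteDimensional F V] [Finite F] in
theorem SS.of_smul {p : V} {c : F} (h : SS Φ X (c • p)) (hc : c ≠ 0) : SS Φ X p := by
  simpa [hc] using h.smul c⁻¹

omit [FiniteDimensional F V] [Finite F] in
theorem SS.map {p : V} (h : SS Φ X p) {s : V ≃ₗ[F] V} (hs : s ∈ X) (hs' : s ∈ Φ.isom) : SS Φ X (s p) :=
  ⟨h.1.map hs', fun d g hg => by
    have := mul_mem (mul_mem hs (h.2 d (s⁻¹ * g * s) (by simpa using hg.conj (inv_mem hs')))) (inv_mem hs)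
    rwa [show s * (s⁻¹ * g * s) * s⁻¹ = g by group] at this⟩

omit [Finite F] in
theorem SS.hasE (hd : HD Φ) {p : V} (h : SS Φ X p) {d : F} (e : d + σ d = 0) : HasE Φ X p 0 d :=
  let ⟨g, hg⟩ := exists_E hd h.1 (map_zero _) (d := d) (by simpa); ⟨g, h.2 d g hg, hg⟩

omit [FiniteDimensional F V] [Finite F] in
theorem tv_mul (h : HD Φ) {x y : V} {d : F} {g g' : V ≃ₗ[F] V} (hg : IsE Φ x 0 d g) (hg' : IsE Φ y 0 (-d) g')
    (e : Φ.B x y = 0) : IsE Φ (x + y) (d • x) (-d) (g * g') := by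
  have e1 : σ d = -d := by linear_combination isE_tr h hg + map_zero (Φ.B 0)
  have e2 := Φ.B_eq_zero_symm e
  refine ⟨sing_add_of_perp hg.sp hg'.sp e, by simp [hg.sp.2, e2], by simp [h.τ, h.Q], by simp [h.ε, e1, hg.sp.2],
    fun v => ?_⟩
  simp [isE_tv h hg, isE_tv h hg', h.ε, e, e1]
  module

namespace Di
variable (h : Di Φ X)
include h

theorem hd : HD Φ := h.hu.toHD

theorem nd : Φ.Nondeg := h.hu.nd

theorem iso {g : V ≃ₗ[F] V} (hg : g ∈ X) : g ∈ Φ.isom := EG_le_isom (h.le hg)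

theorem reg {p : V} (hp : Φ.Sing p) (e : ¬ SS Φ X p) : p ≠ 0 ∧ Reg Φ X p := by
  have p0 : p ≠ 0 := by
    rintro rfl
    exact e ⟨hp, fun d g hg => (LinearEquiv.ext fun x => by simp [hg.app] : g = 1) ▸ one_mem X⟩
  exact ⟨p0, (h.di p p0 hp).resolve_left fun c => e ⟨hp, c⟩⟩

theorem of_mem {z a : V} {d : F} {g : V ≃ₗ[F] V} (hg : g ∈ X) (hz : IsE Φ z a d g) (e : g ≠ 1) : SS Φ X z :=
  by_contra fun c => e ((h.reg hz.sp c).2.1 _ _ _ hz hg)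

theorem of_hasE {z a : V} {d : F} (hz : HasE Φ X z a d) (e : a ∉ F ∙ z) : SS Φ X z := by
  by_contra c
  obtain ⟨g, hg, hz⟩ := hz
  exact c (h.of_mem hg hz fun c' => e (mem_of_isE_one h.hd (h.reg hz.sp c).1 (c' ▸ hz)))

theorem exT : ∃ d : F, d ≠ 0 ∧ d + σ d = 0 :=
  let ⟨d, a, _, b⟩ := exists_TP h.hu.ne h.hd.τ h.hd.ε; ⟨d, a, by simpa [h.hd.ε] using b⟩

theorem add {x y : V} (hx : SS Φ X x) (hy : SS Φ X y) (e : Φ.B x y = 0) : SS Φ X (x + y) := by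
  obtain ⟨d, d0, hd⟩ := h.exT
  obtain ⟨g, g1, g2⟩ := hx.hasE h.hd hd
  obtain ⟨g', g1', g2'⟩ := hy.hasE h.hd (d := -d) (by rw [map_neg]; linear_combination -hd)
  by_cases c : x ∈ F ∙ (x + y)
  · obtain ⟨c, hc⟩ := Submodule.mem_span_singleton.1 c
    by_cases c0 : c = 0
    · rw [c0, zero_smul] at hc
      rwa [← hc, zero_add]
    · exact (hc ▸ hx).of_smul c0
  exact h.of_hasE ⟨_, mul_mem g1 g1', tv_mul h.hd g2 g2' e⟩ fun c' => c ((Submodule.smul_mem_iff _ d0).1 c')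

theorem ae {x y : V} (hx : SS Φ X x) (hy : SS Φ X y) (e : Φ.B x y = 0) : y ∈ AE Φ X hx.1 := by
  obtain ⟨d, d0, hd⟩ := h.exT
  have hd' : -d + σ (-d) = 0 := by rw [map_neg]; linear_combination -hd
  have e' : Φ.B x (d⁻¹ • y) = 0 := by simp [e]
  obtain ⟨g, g1, g2⟩ := hx.hasE h.hd hd
  obtain ⟨g', g1', g2'⟩ := (hy.smul d⁻¹).hasE h.hd hd'
  have h1 := (HasE.mul ⟨_, mul_mem g1 g1', tv_mul h.hd g2 g2' e'⟩
    ((h.add hx (hy.smul _) e').hasE h.hd hd)).congr (add_zero _) (d' := 0) (by simp)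
  have h2 : _ ∈ AE Φ X hx.1 := ⟨_, h1.swap.of_smul d0⟩
  have e1 : σ d = -d := by linear_combination hd
  convert sub_mem h2 (smul_mem_AE hx.1 d) using 1
  simp [h.hd.ε, e1, smul_smul, d0]

theorem of_ae {x a : V} (hx : SS Φ X x) (ha : a ∈ AE Φ X hx.1) (hs : Φ.Sing a) (e : x ∉ F ∙ a) : SS Φ X a := by
  obtain ⟨d, hd⟩ := ha
  have h1 := (hd.mul (hx.hasE h.hd (d := -d) (by
    have := hd.hB
    rw [h.hd.ε, hs.2] at this
    rw [map_neg]; linear_combination -this))).congr (add_zero _) (d' := 0) (by simp)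
  exact h.of_hasE h1.swap (by simpa [h.hd.ε])

theorem comm {p a b : V} {d e c s : F} {t u g : V ≃ₗ[F] V} (p0 : p ≠ 0) (hp : Reg Φ X p) (ht : IsE Φ a 0 d t)
    (hu : IsE Φ p b e u) (hx : u * t ∈ X) (pa : Φ.B p a = 0) (hg : g ∈ EG Φ) (gp : g p = c • p) (ga : g a = s • a)
    (hs : s * σ s = 1) : ∃ α β : F, σ c • g b = b + α • p + β • a := by
  obtain ⟨b', e', u', hu', hx'⟩ := hp.2 g hg c gp
  have gi := EG_le_isom hg
  have e1 : g * t * g⁻¹ = t := (((ga ▸ ht.conj gi).of_smul ht.sp (by rintro rfl; simp at hs)).congr (by simp)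
    (by rw [hs, mul_one])).ext ht
  have tp : t p = p := by simp [isE_tv h.hd ht, Φ.B_eq_zero_symm pa]
  have h1 := ((hu'.mul ((gp ▸ hu.conj gi).of_smul hu.sp (by rintro rfl; simp [p0] at gp))).mul
    (tp ▸ hu'.inv.conj ht.mem_isom :)).mul hu.inv
  have h2 := hp.1 _ _ _ h1 (by
    convert mul_mem (mul_mem (mul_mem hx' hx) (inv_mem hx')) (inv_mem hx) using 1
    nth_rw 1 [← e1]; group)
  obtain ⟨α, hα⟩ := Submodule.mem_span_singleton.1 (mem_of_isE_one h.hd p0 (h2 ▸ h1))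
  rw [isE_tv h.hd ht] at hα
  exact ⟨α, d * Φ.B a (-b'), by linear_combination (norm := module) -hα⟩

theorem tau (h5 : finrank F V = 5) {p r : V} (hr : Φ.IsPair p r) : ∃ g ∈ EG Φ, ∃ c s : F, c ≠ 1 ∧ s * σ s = 1 ∧
    g p = (c * s) • p ∧ ∀ a ∈ Φ.pairPerp p r, g a = s • a := by
  obtain ⟨c, s, c0, c1, hs, e⟩ : ∃ c s : F, c ≠ 0 ∧ c ≠ 1 ∧ s * σ s = 1 ∧ s ^ 5 * (c * (σ c)⁻¹) = 1 := by
    obtain ⟨η, a, b⟩ := exists_mu h.hu.ne Φ.σσ
    have η0 : η ≠ 0 := by rintro rfl; simp at a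
    have e : σ η = η⁻¹ := eq_inv_of_mul_eq_one_right a
    by_cases h5 : η ^ 5 = 1
    · have η1 : η - 1 ≠ 0 := fun c => b (by rw [sub_eq_zero.1 c, map_one])
      have e1 : (η + σ η) ^ 2 + (η + σ η) = 1 := by
        rw [e]; field_simp
        exact mul_left_cancel₀ η1 (by linear_combination h5)
      have e2 : η + σ η ≠ 0 := fun c => by simp [c] at e1
      exact ⟨η + σ η, 1, e2, fun c => by simp [c] at e1, by simp, by rw [map_add, Φ.σσ, add_comm (σ η)]; field_simp⟩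
    · exact ⟨η ^ 5, (σ η) ^ 2, by simpa, h5, by rw [map_pow, Φ.σσ, ← mul_pow, mul_comm, a, one_pow],
        by rw [map_pow, e]; field_simp⟩
  have s0 : s ≠ 0 := by rintro rfl; simp at hs
  let t := hr.torus (Units.mk0 c c0)
  refine ⟨LinearEquiv.smulOfNeZero F V s s0 * t.1, h.hu.seg ⟨mul_mem ⟨fun x y => ?_, fun x => by simp [h.hd.Q]⟩ t.2,
    mem_SLg.2 ?_⟩, c, s, c1, hs, ?_, fun a ha => ?_⟩
  · simp; linear_combination Φ.B x y * hs
  · rw [show ((LinearEquiv.smulOfNeZero F V s s0 * t.1 : V ≃ₗ[F] V) : V →ₗ[F] V) = s • (t.1 : V →ₗ[F] V) from rfl,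
      LinearMap.det_smul, hr.det_torus, h5]
    exact e
  · simp [t, hr.torus_left, smul_smul, mul_comm]
  · simp [t, hr.torus_perp _ ha]

theorem line {p a : V} (hp : Φ.Sing p) (hs : ¬ SS Φ X p) (ha : Φ.Sing a) (pa : Φ.B p a = 0) (e : a ∉ F ∙ p) :
    ∃ c : F, SS Φ X (a + c • p) := by
  obtain ⟨p0, hr⟩ := h.reg hp hs
  have ap := Φ.B_eq_zero_symm pa
  have a0 : a ≠ 0 := by rintro rfl; simp at e
  obtain ⟨r, r1, r2, r3, r4⟩ := h.nd.exists_hyperbolic_partner (H := F ∙ a) (p := p) (fun hc => by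
    obtain ⟨c, rfl⟩ := Submodule.mem_span_singleton.1 hc
    have c0 : c ≠ 0 := fun c0 => by simp [c0] at p0
    exact e (Submodule.mem_span_singleton.2 ⟨c⁻¹, by simp [c0]⟩)) (Φ.mem_perp_span_singleton.2 ap) hp.1 hp.2
  have hpr : Φ.IsPair p r := ⟨hp, ⟨r2, r3⟩, r4⟩
  have aW : a ∈ Φ.pairPerp p r := Φ.mem_pairPerp.2 ⟨pa, Φ.B_eq_zero_symm (Φ.mem_perp_span_singleton.1 r1)⟩
  obtain ⟨d, d0, hd⟩ := h.exT
  obtain ⟨t, ht⟩ := exists_E h.hd ha (map_zero _) (d := d) (by simpa)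
  obtain ⟨b, e₀, u, hu, hx⟩ := hr.2 t (IsE_mem_EG ht) 1 (by simp [isE_tv h.hd ht, ap])
  obtain ⟨w, hw, e₁, hu⟩ := hu.exists_perp hpr
  obtain ⟨β, rfl⟩ : ∃ β : F, β • a = w := by
    rw [← Submodule.mem_span_singleton]
    have rp : Φ.B r p = 1 := by rw [hpr.fe, h.hd.ε]
    have key : ∀ (x : V) (c α β : F), x ∈ Φ.pairPerp p r → c • x = α • p + β • a → c ≠ 0 → x ∈ F ∙ a := by
      intro x c α β hx e c0
      have := congrArg (Φ.B r) e
      simp [(Φ.mem_pairPerp.1 hx).2, (Φ.mem_pairPerp.1 aW).2, rp] at this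
      rw [← this, zero_smul, zero_add] at e
      exact (Submodule.smul_mem_iff _ c0).1 (e ▸ Submodule.smul_mem _ _ (Submodule.mem_span_singleton_self _))
    rcases h.five.eq_or_lt with h5 | h5
    · obtain ⟨g, hg, c, s, c1, hs, gp, ga⟩ := h.tau h5.symm hpr
      obtain ⟨α, β, e⟩ := h.comm p0 hr ht hu hx pa hg gp (ga a aW) hs
      refine key w (σ c - 1) α β hw ?_ (fun c' => c1 (by rw [← Φ.σσ c, sub_eq_zero.1 c', map_one]))
      rw [ga w hw, map_mul] at e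
      linear_combination (norm := module) e - (σ c * hs) • w
    have hW := hpr.nondeg_pairPerp h.nd
    have h4 : 4 ≤ finrank F (Φ.pairPerp p r) := by have := hpr.finrank_pairPerp h.nd; omega
    have k2 : ∀ x ∈ Φ.pairPerp p r, Φ.Sing x → Φ.B a x = 0 → x ∉ F ∙ a → Φ.B x w = 0 := by
      intro x hx' xs xa e
      obtain ⟨g, hg⟩ := exists_E h.hd xs (map_zero _) (d := d) (by simpa)
      obtain ⟨α, β, e'⟩ := h.comm p0 hr ht hu hx pa (IsE_mem_EG hg) (c := 1) (s := 1)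
        (by simp [isE_tv h.hd hg, Φ.B_eq_zero_symm (Φ.mem_pairPerp.1 hx').1])
        (by simp [isE_tv h.hd hg, Φ.B_eq_zero_symm xa]) (by simp)
      by_contra c
      refine e (key x (-(d * Φ.B x w)) α β hx' ?_ (by simp [c, d0]))
      rw [isE_tv h.hd hg, map_one] at e'
      linear_combination (norm := module) e'
    by_contra c
    have k3 : ∀ u ∈ Φ.pairPerp p r, Φ.B a u = 0 → u ∉ F ∙ a → ∃ x ∈ Φ.pairPerp p r, Φ.Sing x ∧ Φ.B a x = 0 ∧
        Φ.B u x ≠ 0 ∧ x ∉ F ∙ a := fun u hu e1 e2 => by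
      obtain ⟨x, x1, x2, x3, x4⟩ := g1 h.hu hW h4 aW a0 ha hu e1 e2
      refine ⟨x, x1, x2, x3, x4, fun c => x4 ?_⟩
      obtain ⟨c, rfl⟩ := Submodule.mem_span_singleton.1 c
      simp [Φ.B_eq_zero_symm e1]
    have aw : Φ.B a w = 0 := by
      have := finrank_pf (Φ := Φ) ![a] (Φ.pairPerp p r)
      have := finrank_span_one (F := F) a
      obtain ⟨u, ⟨u1, u2⟩, u3⟩ := exists_notMem_of_lt (U := Φ.pairPerp p r ⊓ pf Φ ![a]) (R := F ∙ a) (by omega)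
      obtain ⟨x, x1, x2, x3, -, x5⟩ := k3 u u1 (mem_pf.1 u2 0) u3
      simpa [k2 x x1 x2 x3 x5] using k2 (a + x) (add_mem aW x1) (sing_add_of_perp ha x2 x3) (by simp [x3, ha.2])
        fun c => x5 ((Submodule.add_mem_iff_right _ (Submodule.mem_span_singleton_self _)).1 c)
    obtain ⟨x, x1, x2, x3, x4, x5⟩ := k3 w hw aw c
    exact x4 (Φ.B_eq_zero_symm (k2 x x1 x2 x3 x5))
  have e1 : σ d = -d := by linear_combination hd
  have e2 : σ e₁ = -e₁ := by have := isE_tr h.hd hu; simp [ha.2] at this; linear_combination this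
  obtain ⟨c, rfl⟩ : ∃ c, β = d * σ c := ⟨σ (β / d), by rw [Φ.σσ]; field_simp⟩
  obtain ⟨c', hc'⟩ := exists_norm_eq h.hu.ne Φ.σσ (a := σ c * c - e₁ / d) (by simp [Φ.σσ, e1, e2]; ring)
  refine ⟨c + c', h.of_mem hx (a := d • (a + c • p)) (d := -d) ⟨sing_add_of_perp ha (hp.smul _) (by simp [ap]),
    by simp [ha.2, hp.2, ap, pa], by simp [h.hd.τ, h.hd.Q], by simp [h.hd.ε, e1, ha.2, hp.2, ap, pa], fun v => ?_⟩
    fun hc => ?_⟩
  · obtain rfl : e₁ = d * (σ c * c - σ c' * c') := by field_simp at hc'; linear_combination hc'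
    simp [isE_app h.hd hu, isE_tv h.hd ht, h.hd.ε, e1, ha.2, pa, Φ.σσ]
    module
  · obtain ⟨v, v1, v2⟩ := h.nd.exists_perp_eq_one' e
    have := congrArg (fun g : V ≃ₗ[F] V => g v) hc
    simp [isE_app h.hd hu, isE_tv h.hd ht, ha.2, pa, v2, Φ.mem_perp_span_singleton.1 v1] at this
    exact e ((Submodule.smul_mem_iff _ d0).1 (Submodule.mem_span_singleton.2 ⟨σ d * σ (σ c), by
      linear_combination (norm := module) this⟩))

theorem meet (hW : (Φ.restrict W).Nondeg) (h4 : 4 ≤ finrank F W) {u v : V} (hu : u ∈ W) (hv : v ∈ W)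
    (u0 : u ≠ 0) (e : v ∉ F ∙ u) : ∃ s ∈ W, SS Φ X s ∧ ¬ (Φ.B u s = 0 ∧ Φ.B v s = 0) := by
  obtain ⟨a, ha, b, hb, as, bs, ab, k⟩ := g2 h.hu hW h4 hu hv u0 e
  by_cases c : SS Φ X a
  · exact ⟨a, ha, c, fun c' => one_ne_zero (k 1 0 (by simp [c'.1]) (by simp [c'.2])).1⟩
  obtain ⟨t, ht⟩ := h.line as c bs ab fun c' => by
    obtain ⟨t, rfl⟩ := Submodule.mem_span_singleton.1 c'
    simpa using (k t (-1) (by simp) (by simp)).2
  exact ⟨_, add_mem hb (W.smul_mem _ ha), ht, fun c' =>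
    one_ne_zero (k t 1 (by simpa [add_comm] using c'.1) (by simpa [add_comm] using c'.2)).2⟩

theorem four : 4 ≤ finrank F (⊤ : Submodule F V) := by have := h.five; simp; omega

theorem exists_out {u : V} (u0 : u ≠ 0) {g : V ≃ₗ[F] V} (hg : g ∈ X) (e : g u ∉ F ∙ u) : ∃ s, SS Φ X s ∧ Φ.B u s ≠ 0 := by
  obtain ⟨s, -, hs, e'⟩ := h.meet (nondeg_top h.nd) h.four trivial trivial u0 e
  by_contra! c
  refine e' ⟨c s hs, ?_⟩
  rw [← c _ (hs.map (inv_mem hg) (h.iso (inv_mem hg))), ← (h.iso hg).1 u]; simp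

theorem of_full {x : V} (x0 : x ≠ 0) (hx : Full Φ X x) {g : V ≃ₗ[F] V} (hg : g ∈ X) (e : g x ∉ F ∙ x) : EG Φ ≤ X := by
  by_cases c : Φ.B x (g x) = 0
  swap
  · exact EG_le_of_full' h.nd hx hg (h.iso hg) c
  have hy := hx.map hg (h.iso hg)
  obtain ⟨s, -, s1, s2, s3⟩ := g1 h.hu (nondeg_top h.nd) h.four trivial x0 hx.1 trivial c e
  have hs : SS Φ X s := h.of_ae ⟨hx.1, fun _ _ => hx.2 _ _ _⟩
    ⟨_, hx.hasE h.nd s2 (d := 0) (by simp [s1.1]) (by simp [s1.2])⟩ s1 fun c' => by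
      obtain ⟨t, rfl⟩ := Submodule.mem_span_singleton.1 c'
      have t0 : t ≠ 0 := fun t0 => by simp [t0] at x0
      exact s3 (Φ.B_eq_zero_symm (by simpa [t0] using c))
  have all : ∀ z, Φ.Sing z → Φ.B (g x) z ≠ 0 → SS Φ X z := fun z hz e' => by
    obtain ⟨a, -, d, k, hk, e1⟩ := exists_isE_apply h.nd (isPair_smul hy.1 s1 s3) (isPair_smul hy.1 hz e')
    exact (e1 ▸ (hs.smul _).map (hy.2 _ _ _ hk) hk.mem_isom).of_smul (inv_ne_zero e')
  refine EG_le_of_full h.nd hy (full_of_AE s1 (fun a ha => ?_) hs.2) s3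
  have hp := isPair_smul s1 hy.1 (fun c => s3 (Φ.B_eq_zero_symm c))
  obtain ⟨α, β, w, hw, rfl⟩ := hp.exists_decomp a
  obtain rfl : β = 0 := by simpa [s1.2, hp.ef, (Φ.mem_pairPerp.1 hw).1, -map_smul] using ha
  obtain ⟨b, hb, b', hb', hp'⟩ := pair2 h.hu (hp.nondeg_pairPerp h.nd) (by
    have := hp.finrank_pairPerp h.nd; have := h.five; omega)
  simp only [zero_smul, add_zero]
  refine add_mem (smul_mem_AE _ _) (sing_ind hb hb' hp' _ (fun y hy ys => ?_) w hw)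
  obtain ⟨y1, y2⟩ := Φ.mem_pairPerp.1 hy
  have y3 : Φ.B (g x) y = 0 := by
    have : Φ.B s (g x) ≠ 0 := fun c => s3 (Φ.B_eq_zero_symm c)
    simpa [this] using y2
  simpa using sub_mem (h.ae hs (all (s + y) (sing_add_of_perp s1 ys y1) (by simpa [y3])) (by simp [s1.2, y1]))
    (smul_mem_AE s1 1)

omit h [FiniteDimensional F V] [Finite F] in
theorem mem_of_ae {x a : V} {d : F} {k : V ≃ₗ[F] V} (hx : SS Φ X x) (ha : a ∈ AE Φ X hx.1) (hk : IsE Φ x a d k) :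
    k ∈ X := by
  obtain ⟨d', k', h1, h2⟩ := ha
  simpa using mul_mem (hx.2 _ _ ((hk.mul h2.inv).congr (add_neg_cancel _) rfl)) h1

theorem hyp {x y u s : V} (hx : SS Φ X x) (hy : SS Φ X y) (hp : Φ.IsPair x y) (hu : u ∈ Φ.pairPerp x y)
    (hA : ∀ a ∈ Φ.pairPerp x y, Φ.B u a = 0 → a ∈ AE Φ X hx.1 ∧ a ∈ AE Φ X hy.1) (hs : SS Φ X s) (e : Φ.B u s ≠ 0) :
    ∃ z ≠ 0, Full Φ X z := by
  obtain ⟨xu, yu⟩ := Φ.mem_pairPerp.1 hu
  have ux := Φ.B_eq_zero_symm xu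
  have uy := Φ.B_eq_zero_symm yu
  have yx : Φ.B y x = 1 := by rw [hp.fe, h.hd.ε]
  have fin : ∀ z (hz : SS Φ X z), z ≠ 0 → Φ.B z s = 0 → (∀ a, Φ.B z a = 0 → Φ.B u a = 0 → a ∈ AE Φ X hz.1) →
      ∃ z ≠ 0, Full Φ X z := fun z hz z0 zs H => ⟨z, z0, full_of_AE hz.1 (fun a ha => by
    simpa using add_mem (H (a - (Φ.B u a / Φ.B u s) • s) (by simp [ha, zs]) (by simp [e]))
      (h.ae hz (hs.smul (Φ.B u a / Φ.B u s)) (by simp [zs]))) hz.2⟩
  by_cases c : Φ.B x s = 0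
  · refine fin x hx hp.left_ne_zero c fun a h1 h2 => ?_
    obtain ⟨α, β, w, hw, rfl⟩ := hp.exists_decomp a
    obtain rfl : β = 0 := by simpa [hx.1.2, hp.ef, (Φ.mem_pairPerp.1 hw).1] using h1
    simpa using add_mem (smul_mem_AE hx.1 α) (hA w hw (by simpa [ux] using h2)).1
  have su : Φ.B s u ≠ 0 := fun c => e (Φ.B_eq_zero_symm c)
  obtain ⟨t, ht⟩ := exists_adjust hs.1 su
  have hq := isPair_smul hs.1 ht (by simpa [hs.1.2])
  have hD := hq.nondeg_pairPerp h.nd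
  obtain ⟨w, hw, e1⟩ : ∃ w ∈ Φ.pairPerp s ((Φ.B s (u + t • s))⁻¹ • (u + t • s)), Φ.B x w ≠ 0 := by
    by_contra! hc
    obtain ⟨α, β, w, hw, e1⟩ := hq.exists_decomp x
    obtain rfl := Φ.restrict_nondeg_iff'.1 hD w hw fun v hv => by
      have := hc v hv
      rwa [e1, Φ.B_add_left, Φ.B_add_left, Φ.B_smul_left, Φ.B_smul_left β, (Φ.mem_pairPerp.1 hv).1,
        (Φ.mem_pairPerp.1 hv).2, mul_zero, mul_zero, zero_add, zero_add] at this
    obtain ⟨α', β', e2⟩ : ∃ α' β' : F, x = α' • s + β' • u := 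
      ⟨α + β * (Φ.B s (u + t • s))⁻¹ * t, β * (Φ.B s (u + t • s))⁻¹, by rw [e1]; module⟩
    have e3 := congrArg (Φ.B x) e2
    have e4 := congrArg (Φ.B y) e2
    simp [hx.1.2, xu, c] at e3
    simp [yx, yu, e3] at e4
  obtain ⟨z, hz, zs, e2⟩ := g0 h.hu hD (by have := hq.finrank_pairPerp h.nd; have := h.five; omega) hw e1
  obtain ⟨z1, z2⟩ := Φ.mem_pairPerp.1 hz
  have uz : Φ.B u z = 0 := by simpa [z1, hs.1.2, su] using z2
  have hz' := isPair_smul hx.1 zs e2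
  obtain ⟨a, ha, d, k, hk, e3⟩ := exists_isE_apply h.nd hp hz'
  have ua : Φ.B u a = 0 := by
    have := congrArg (Φ.B u) (e3.symm.trans (hk.apply_r hp (Φ.mem_pairPerp.1 ha).2))
    simpa [uz, ux, uy, h.hd.ε] using this
  have kX := mem_of_ae hx (hA a ha ua).1 hk
  have ku : k u = u := by simp [hk.app, xu, Φ.B_eq_zero_symm ua]
  refine fin _ (hy.map kX hk.mem_isom) (e3 ▸ hz'.right_ne_zero) (by simp [e3, Φ.B_eq_zero_symm z1]) fun a h1 h2 => ?_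
  obtain ⟨a, rfl⟩ := k.surjective a
  rw [hk.mem_isom.1] at h1
  rw [← ku, hk.mem_isom.1] at h2
  obtain ⟨α, β, w, hw, rfl⟩ := hp.exists_decomp a
  obtain rfl : α = 0 := by simpa [hy.1.2, yx, (Φ.mem_pairPerp.1 hw).2] using h1
  obtain ⟨d, hd⟩ := add_mem (smul_mem_AE hy.1 β) (hA w hw (by simpa [uy] using h2)).2
  exact ⟨d, by simpa using hd.conj kX hk.mem_isom⟩

theorem hyp2 (out : ∀ u ≠ 0, ∃ s, SS Φ X s ∧ Φ.B u s ≠ 0) {x y : V} (hx : SS Φ X x) (hy : SS Φ X y) (hp : Φ.IsPair x y)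
    (H : ∀ u ∈ Φ.pairPerp x y, ∀ v ∈ Φ.pairPerp x y, (∀ s ∈ Φ.pairPerp x y, SS Φ X s → Φ.B u s = 0 ∧ Φ.B v s = 0) →
      u ≠ 0 → v ∈ F ∙ u) : ∃ z ≠ 0, Full Φ X z := by
  let U := Submodule.span F {a | a ∈ Φ.pairPerp x y ∧ SS Φ X a}
  have hU : ∀ a ∈ U, ∀ c : F, c • a ∈ AE Φ X hx.1 ∧ c • a ∈ AE Φ X hy.1 := fun a ha => by
    induction ha using Submodule.span_induction with
    | mem a ha => exact fun c => ⟨h.ae hx (ha.2.smul c) (by simp [(Φ.mem_pairPerp.1 ha.1).1]),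
        h.ae hy (ha.2.smul c) (by simp [(Φ.mem_pairPerp.1 ha.1).2])⟩
    | zero => simp
    | add a b _ _ h1 h2 => exact fun c => smul_add c a b ▸ ⟨add_mem (h1 c).1 (h2 c).1, add_mem (h1 c).2 (h2 c).2⟩
    | smul t a _ h1 => exact fun c => smul_smul c t a ▸ h1 _
  obtain ⟨u, hu, u0, H'⟩ : ∃ u ∈ Φ.pairPerp x y, u ≠ 0 ∧ ∀ w ∈ Φ.pairPerp x y, w ∈ Φ.perp U → w ∈ F ∙ u := by
    by_cases c : ∃ u ∈ Φ.pairPerp x y, u ∈ Φ.perp U ∧ u ≠ 0
    · obtain ⟨u, u1, u2, u0⟩ := c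
      exact ⟨u, u1, u0, fun w w1 w2 => H u u1 w w1 (fun s s1 s2 => ⟨Φ.B_eq_zero_symm (u2 s (Submodule.subset_span ⟨s1, s2⟩)),
        Φ.B_eq_zero_symm (w2 s (Submodule.subset_span ⟨s1, s2⟩))⟩) u0⟩
    push Not at c
    obtain ⟨u, u1, u0⟩ := exists_notMem_of_lt (U := Φ.pairPerp x y) (R := ⊥) (by
      have := hp.finrank_pairPerp h.nd; have := h.five; simp; omega)
    exact ⟨u, u1, u0, fun w w1 w2 => by simp [c w w1 w2]⟩
  obtain ⟨s, hs, e⟩ := out u u0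
  refine h.hyp hx hy hp hu (fun a ha ua => ?_) hs e
  by_cases c : a ∈ U
  · simpa using hU a c 1
  obtain ⟨w, w1, w2, w3⟩ := sep h.nd (hp.nondeg_pairPerp h.nd) (S := U) (Submodule.span_le.2 fun _ => And.left) ha c
  obtain ⟨t, rfl⟩ := Submodule.mem_span_singleton.1 (H' w w1 w2)
  simp [Φ.B_eq_zero_symm ua] at w3

theorem hyp3 (out : ∀ u ≠ 0, ∃ s, SS Φ X s ∧ Φ.B u s ≠ 0) (h5 : finrank F V = 5) {z x y : V} (hz : SS Φ X z) (z0 : z ≠ 0)
    (hx : SS Φ X x) (hy : SS Φ X y) (hp : Φ.IsPair x y) (zx : Φ.B z x = 0) (zy : Φ.B z y = 0) : ∃ z ≠ 0, Full Φ X z := by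
  obtain ⟨s, hs, e⟩ := out z z0
  have hq := isPair_smul hz.1 hs.1 e
  replace hs := hs.smul (Φ.B z s)⁻¹
  generalize (Φ.B z s)⁻¹ • s = s at hq hs
  have hm := Φ.mem_pairPerp.1 (hp.sub_mem_pairPerp s)
  obtain ⟨d, k, hk⟩ := exists_isE' h.nd hz.1 (a := (Φ.ε * Φ.B y s) • x + Φ.B x s • y) (by simp [zx, zy])
  have kX := mem_of_ae hz (add_mem (h.ae hz (hx.smul _) (by simp [zx])) (h.ae hz (hy.smul _) (by simp [zy]))) hk
  have hq' : Φ.IsPair z (k s) := ⟨hz.1, hs.1.map hk.mem_isom, by rw [hk.B_p, hq.ef]⟩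
  have xW : x ∈ Φ.pairPerp z (k s) := Φ.mem_pairPerp.2 ⟨zx, Φ.B_eq_zero_symm (by
    rw [isE_app h.hd hk, hq.ef]; simp [Φ.B_eq_zero_symm zx] at hm ⊢; linear_combination hm.1)⟩
  have yW : y ∈ Φ.pairPerp z (k s) := Φ.mem_pairPerp.2 ⟨zy, Φ.B_eq_zero_symm (by
    rw [isE_app h.hd hk, hq.ef]; simp [Φ.B_eq_zero_symm zy] at hm ⊢; linear_combination hm.2)⟩
  refine h.hyp2 out hz (hs.map kX hk.mem_isom) hq' fun u hu v hv H u0 => ?_
  have h1 := (nd_pair h.nd (hq'.nondeg_pairPerp h.nd) xW yW hp).2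
  have h2 := hq'.finrank_pairPerp h.nd
  rw [Submodule.eq_of_le_of_finrank_eq (S₁ := F ∙ u) (S₂ := Φ.pairPerp z (k s) ⊓ Φ.pairPerp x y) (by
    simpa using ⟨hu, Φ.mem_pairPerp.2 ⟨Φ.B_eq_zero_symm (H x xW hx).1, Φ.B_eq_zero_symm (H y yW hy).1⟩⟩)
    (by rw [finrank_span_singleton u0]; omega)]
  exact ⟨hv, Φ.mem_pairPerp.2 ⟨Φ.B_eq_zero_symm (H x xW hx).2, Φ.B_eq_zero_symm (H y yW hy).2⟩⟩

theorem exists_full (out : ∀ u ≠ 0, ∃ s, SS Φ X s ∧ Φ.B u s ≠ 0) : ∃ z ≠ 0, Full Φ X z := by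
  obtain ⟨x, -, y, -, hxy⟩ := pair2 h.hu (nondeg_top h.nd) (by have := h.four; omega)
  rcases h.five.eq_or_lt with h5 | h5
  swap
  · obtain ⟨x, hx, e⟩ := out x hxy.left_ne_zero
    obtain ⟨y, hy, e'⟩ := out x (by rintro rfl; simp at e)
    have hp := isPair_smul hx.1 hy.1 e'
    refine h.hyp2 out hx (hy.smul _) hp fun u hu v hv H u0 => by_contra fun c => ?_
    obtain ⟨s, s1, s2, s3⟩ := h.meet (hp.nondeg_pairPerp h.nd) (by have := hp.finrank_pairPerp h.nd; omega) hu hv u0 c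
    exact s3 (H s s1 s2)
  by_cases c : ∀ p, Φ.Sing p → SS Φ X p
  · obtain ⟨a, ha, b, hb, hab⟩ := pair2 h.hu (hxy.nondeg_pairPerp h.nd) (by have := hxy.finrank_pairPerp h.nd; omega)
    exact h.hyp3 out h5.symm (c x hxy.se) hxy.left_ne_zero (c a hab.se) (c b hab.sf) hab (Φ.mem_pairPerp.1 ha).1
      (Φ.mem_pairPerp.1 hb).1
  push Not at c
  obtain ⟨p, hp, hs⟩ := c
  obtain ⟨p0, hr⟩ := h.reg hp hs
  obtain ⟨r, hpr⟩ := h.nd.exists_isPair p0 hp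
  obtain ⟨g, hg, c, s, c1, s1, gp, ga⟩ := h.tau h5.symm hpr
  obtain ⟨b, e, u, hu, hx⟩ := hr.2 g hg _ gp
  have s0 : s ≠ 0 := by rintro rfl; simp at s1
  have cs : s * (1 - c) ≠ 0 := mul_ne_zero s0 (sub_ne_zero.2 c1.symm)
  let D := Φ.perp (F ∙ p) ⊓ LinearMap.ker (((u * g : V ≃ₗ[F] V) : V →ₗ[F] V) - s • LinearMap.id)
  have mD : ∀ a, a ∈ D ↔ Φ.B p a = 0 ∧ u (g a) = s • a := fun a => by
    simp [D, Φ.mem_perp_span_singleton, sub_eq_zero]
  have tp : u (g p) = (c * s) • p := by rw [gp, map_smul, hu.apply_p]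
  have hD : ∀ a, Φ.B p a = 0 → ∃ t : F, a + t • p ∈ D := fun a ha => by
    obtain ⟨α, β, w, hw, rfl⟩ := hpr.exists_decomp a
    have pw := (Φ.mem_pairPerp.1 hw).1
    obtain rfl : β = 0 := by simpa [hp.2, hpr.ef, pw] using ha
    refine ⟨s * Φ.B b w / (s * (1 - c)) - α, (mD _).2 ⟨by simp [hp.2, pw], ?_⟩⟩
    simp only [map_add, map_smul, tp, ga w hw, hu.apply_perp pw]
    match_scalars <;> field_simp <;> ring
  have pD : ∀ t : F, t • p ∈ D → t = 0 := fun t ht => by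
    have := ((mD _).1 ht).2
    rw [map_smul, map_smul, tp, smul_smul, smul_smul] at this
    exact mul_left_cancel₀ cs (by linear_combination -smul_left_injective F p0 this)
  have sD : ∀ a ∈ D, Φ.Sing a → SS Φ X a := fun a ha as => by
    obtain ⟨a1, a2⟩ := (mD a).1 ha
    by_cases e : a ∈ F ∙ p
    · obtain ⟨t, rfl⟩ := Submodule.mem_span_singleton.1 e
      obtain ⟨s, hs, -⟩ := out p p0
      simpa [pD t ha] using hs.smul 0
    obtain ⟨t, ht⟩ := h.line hp hs as a1 e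
    by_cases t0 : t = 0
    · simpa [t0] using ht
    have h1 := h.add (ht.smul s) ((ht.map hx (h.iso hx)).smul (-1)) (by
      simp [a2, tp, as.2, hp.2, a1, Φ.B_eq_zero_symm a1])
    refine (hs (SS.of_smul (c := s * (1 - c) * t) ?_ (mul_ne_zero cs t0))).elim
    convert h1 using 1
    simp only [LinearEquiv.mul_apply, map_add, map_smul, a2, tp]
    module
  obtain ⟨y, hy, py⟩ := out p p0
  obtain ⟨x, ⟨xD, xy⟩, x0, xs⟩ := Mx.exists_sing_herm h.hu.ne h.hd.ε h.hd.Q (T := D ⊓ pf Φ ![y]) (by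
    have h1 := finrank_pf (Φ := Φ) ![y] D
    have h2 : finrank F (Φ.perp (F ∙ p)) ≤ finrank F ↥(D ⊔ F ∙ p) := Submodule.finrank_mono fun a ha => by
      obtain ⟨t, ht⟩ := hD a (Φ.mem_perp_span_singleton.1 ha)
      simpa using sub_mem (Submodule.mem_sup_left ht : _ ∈ D ⊔ F ∙ p)
        (Submodule.mem_sup_right (Submodule.smul_mem _ t (Submodule.mem_span_singleton_self p)))
    have h3 := finrank_sup_one D p
    have h4 := h.nd.finrank_add_finrank_perp (F ∙ p)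
    rw [finrank_span_singleton p0] at h4
    omega)
  replace xy : Φ.B y x = 0 := mem_pf.1 xy 0
  have px := ((mD x).1 xD).1
  obtain ⟨a, -, as, pa, xa⟩ := g1 h.hu (nondeg_top h.nd) h.four trivial p0 hp trivial px fun c => by
    obtain ⟨t, rfl⟩ := Submodule.mem_span_singleton.1 c
    simp [pD t xD] at x0
  obtain ⟨t, ht⟩ := hD a pa
  have h1 := sD _ ht (sing_add_of_perp as (hp.smul t) (by simp [Φ.B_eq_zero_symm pa]))
  have h2 : Φ.B x (a + t • p) ≠ 0 := by simpa [Φ.B_eq_zero_symm px]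
  generalize a + t • p = a at h1 h2
  have h3 : Φ.B a x ≠ 0 := fun c => h2 (Φ.B_eq_zero_symm c)
  refine h.hyp3 out h5.symm (h.add hy ((sD x xD xs).smul (-(Φ.B a y / Φ.B a x))) (by simp [xy])) (fun c => py ?_)
    (sD x xD xs) (h1.smul _) (isPair_smul xs h1.1 h2) (by simp [xy, xs.2]) (Φ.B_eq_zero_symm (by simp [h3]))
  simpa [px] using congrArg (Φ.B p) c

/-- A subgroup satisfying the dichotomy is everything or fixes a point. -/
theorem main : EG Φ ≤ X ∨ ∃ u : V, u ≠ 0 ∧ ∀ g ∈ X, g u ∈ F ∙ u := by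
  by_contra! c
  obtain ⟨z, z0, hz⟩ := h.exists_full fun u u0 => let ⟨_, hg, e⟩ := c.2 u u0; h.exists_out u0 hg e
  obtain ⟨g, hg, e⟩ := c.2 z z0
  exact c.1 (h.of_full z0 hz hg e)

end Di

end Cfsg.Agent.Root.MinU
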