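import Cfsg.Agent.Root.MinU1
import Mathlib.Analysis.Fourier.FiniteAbelian.PontryaginDuality

/-! Minimal index in `SU_n(q)`, II: index counting (`dc`, `fam`, `chain`), the order of `X ∩ Q_p` (`card_Q`), additive
subgroups isotropic modulo a proper subgroup of the trace zero elements (`step0`), numbers of vectors of given norm. -/

set_option autoImplicit false

namespace Cfsg.Agent.Root.MinU

open Cfsg.Agent.Geom Cfsg.Agent.AutCl Module Mx MulAction

section Grp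
variable {Γ α : Type*} [Group Γ] [Finite Γ] [MulAction Γ α] {H A B L R : Subgroup Γ}

omit [Finite Γ] in
theorem relIndex_stab (A : Subgroup Γ) (x : α) : (stabilizer Γ x).relIndex A = {y | ∃ g ∈ A, g • x = y}.ncard := by
  rw [Subgroup.relIndex, show (stabilizer Γ x).subgroupOf A = stabilizer A x from rfl, index_stabilizer]
  congr 1
  ext y
  exact ⟨fun ⟨g, hg⟩ => ⟨g.1, g.2, hg⟩, fun ⟨g, h1, h2⟩ => ⟨⟨g, h1⟩, h2⟩⟩

theorem relIndex_mono (H : Subgroup Γ) (h : A ≤ B) : H.relIndex A ≤ H.relIndex B :=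
  Subgroup.relIndex_le_of_le_right h Subgroup.index_ne_zero_of_finite

theorem dc [Finite α] (H A : Subgroup Γ) (x : α) {C D : Set α} (hC : ∀ c ∈ C, ∃ g ∈ A, g • x = c)
    (hD : ∀ g ∈ A, g ∈ H → g • x ∈ D) : C.ncard * H.relIndex (A ⊓ stabilizer Γ x) ≤ H.relIndex A * D.ncard := by
  have h1 := Subgroup.relIndex_mul_relIndex (H ⊓ A ⊓ stabilizer Γ x) (H ⊓ A) A inf_le_left inf_le_right
  have h2 := Subgroup.relIndex_mul_relIndex (H ⊓ A ⊓ stabilizer Γ x) (A ⊓ stabilizer Γ x) A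
    (by rw [inf_assoc]; exact inf_le_right) inf_le_left
  rw [Subgroup.inf_relIndex_left, Subgroup.inf_relIndex_right, relIndex_stab] at h1
  rw [← h1, inf_assoc, Subgroup.inf_relIndex_right, Subgroup.inf_relIndex_left, relIndex_stab] at h2
  calc _ ≤ _ := Nat.mul_le_mul_right _ (Set.ncard_le_ncard hC)
    _ = _ := (mul_comm _ _).trans h2
    _ ≤ _ := by rw [mul_comm]; exact Nat.mul_le_mul_left _ (Set.ncard_le_ncard fun _ ⟨g, hg, e⟩ => e ▸ hD g hg.2 hg.1)

theorem fam {ι : Type*} (g : ι → Γ) (hg : ∀ i, g i ∈ A) (h : ∀ i j, (g i)⁻¹ * g j ∈ H → i = j) :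
    Nat.card ι ≤ H.relIndex A :=
  Nat.card_le_card_of_injective (fun i => ((⟨g i, hg i⟩ : A) : A ⧸ H.subgroupOf A)) fun i j e =>
    h i j (QuotientGroup.eq (s := H.subgroupOf A).1 e)

theorem chain (h : H ⊓ A ≤ R) (hB : B ≤ A ⊓ R) (hL : L ≤ A) : R.relIndex L * H.relIndex B ≤ H.relIndex A := by
  have h1 := Subgroup.relIndex_mul_relIndex (H ⊓ A) (A ⊓ R) A (le_inf inf_le_right h) inf_le_left
  rw [Subgroup.inf_relIndex_right, Subgroup.inf_relIndex_left, ← Subgroup.inf_relIndex_right _ (A ⊓ R), ← inf_assoc,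
    inf_assoc H, inf_idem, inf_assoc, Subgroup.inf_relIndex_right] at h1
  rw [← h1, mul_comm]
  exact Nat.mul_le_mul (relIndex_mono _ hB) (relIndex_mono _ hL)

omit [Finite Γ] in
theorem relIndex_mul_card (H A : Subgroup Γ) : H.relIndex A * Nat.card ↥(H ⊓ A) = Nat.card A := by
  rw [← Subgroup.inf_relIndex_right, ← Nat.card_congr (Subgroup.subgroupOfEquivOfLe (inf_le_right (a := H))).toEquiv]
  exact Subgroup.index_mul_card _

end Grp

variable {F : Type*} [Field F] {σ : F →+* F} {V : Type*} [AddCommGroup V] [Module F V] {Φ : Formed σ V}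
  {X : Subgroup (V ≃ₗ[F] V)} {D : Submodule F V}

/-- The parameters of the transvections at `p` lying in `X`. -/
def ZE (Φ : Formed σ V) (X : Subgroup (V ≃ₗ[F] V)) {p : V} (hp : Φ.Sing p) : AddSubgroup F where
  carrier := {d | HasE Φ X p 0 d}
  zero_mem' := hasE_one X hp
  add_mem' := fun h h' => (h.mul h').congr (add_zero _) (by simp)
  neg_mem' := fun {d} h => h.inv.congr neg_zero (by
    have := h.hB
    rw [map_zero] at this
    linear_combination Φ.ε * this - d * Φ.εε)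

/-- The trace zero elements. -/
def TT (σ : F →+* F) : AddSubgroup F := (AddMonoidHom.id F + σ.toAddMonoidHom).ker

theorem mem_TT {d : F} : d ∈ TT σ ↔ d + σ d = 0 := Iff.rfl

theorem ZE_le (h : HD Φ) {p : V} (hp : Φ.Sing p) : ZE Φ X hp ≤ TT σ := fun _ ⟨_, _, hg⟩ =>
  (isE_tr h hg).trans (map_zero _)

theorem step0 [Finite V] [Finite F] (h : HU Φ) (hD : (Φ.restrict D).Nondeg) (W : AddSubgroup V) (hW : ∀ a ∈ W, a ∈ D)
    (Z : AddSubgroup F) {t κ : F} (ht : t ∈ TT σ) (tZ : t ∉ Z) (κ0 : κ ≠ 0) (κ1 : σ κ = κ)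
    (H : ∀ a ∈ W, ∀ b ∈ W, κ * (Φ.B a b - Φ.B b a) ∈ Z) : Nat.card W * Nat.card W ≤ Nat.card D := by
  obtain ⟨ψ, hψ⟩ := (AddChar.exists_apply_ne_zero (α := F ⧸ Z) (a := t)).2 (by rwa [Ne, QuotientAddGroup.eq_zero_iff])
  let W' := W.addSubgroupOf D.toAddSubgroup
  let f : V → D.toAddSubgroup →+ F := fun w => ⟨⟨fun x => κ * (Φ.B x w - Φ.B w x), by simp⟩, fun x y => by simp; ring⟩
  have := Nat.card_le_card_of_injective (fun w : W => ψ.compAddMonoidHom
    (QuotientAddGroup.map W' Z (f w) fun x hx => H _ hx _ w.2)) fun w w' e => by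
      by_contra c
      obtain ⟨x, hx⟩ := hD.exists_eq_one (x := ⟨w - w', sub_mem (hW _ w.2) (hW _ w'.2)⟩)
        fun e => c (Subtype.ext (sub_eq_zero.1 (congrArg Subtype.val e)))
      obtain ⟨s, hs⟩ := exists_trace_one h.ne Φ.σσ
      have e1 := DFunLike.congr_fun e (QuotientAddGroup.mk ⟨-(s * t / κ) • x.1, D.smul_mem _ x.2⟩)
      simp only [AddChar.compAddMonoidHom_apply] at e1
      refine hψ (mul_left_cancel₀ (ψ.val_isUnit _).ne_zero (((AddChar.map_add_eq_mul _ _ _).symm.trans ?_).trans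
        (e1.trans (mul_one _).symm)))
      change ψ ((f w' ⟨-(s * t / κ) • x.1, D.smul_mem _ x.2⟩ + t : F) : F ⧸ Z) =
        ψ ((f w ⟨-(s * t / κ) • x.1, D.smul_mem _ x.2⟩ : F) : F ⧸ Z)
      have h1 : Φ.B w x - Φ.B w' x = 1 := by simpa using hx
      have h2 : Φ.B x w - Φ.B x w' = 1 := by rw [← h.toHD.symm w, ← h.toHD.symm w', ← map_sub, h1, map_one]
      have h3 : σ t = -t := by linear_combination mem_TT.1 ht
      congr 2
      simp [f, κ1, h3]
      field_simp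
      linear_combination -σ s * t * h2 - s * t * h1 - t * hs
  have _ := Fintype.ofFinite (D.toAddSubgroup ⧸ W')
  rw [Nat.card_eq_fintype_card (α := AddChar _ _), AddChar.card_eq, ← Nat.card_eq_fintype_card] at this
  rw [show Nat.card D = _ from AddSubgroup.card_eq_card_quotient_mul_card_addSubgroup W',
    Nat.card_congr (AddSubgroup.addSubgroupOfEquivOfLe (K := D.toAddSubgroup) hW).toEquiv]
  exact Nat.mul_le_mul_right _ this

theorem card_Q_le [Finite V] [Finite F] {p r : V} (hr : Φ.IsPair p r) : Nat.card ↥(X ⊓ QP Φ p hr.se) ≤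
    Nat.card ↥(AE Φ X hr.se ⊓ (Φ.pairPerp p r).toAddSubgroup) * Nat.card (ZE Φ X hr.se) := by
  have h1 : ∀ g : ↥(X ⊓ QP Φ p hr.se), ∃ a ∈ Φ.pairPerp p r, ∃ d, IsE Φ p a d g := fun g =>
    let ⟨_, _, hg⟩ := g.2.2; hg.exists_perp hr
  choose a ha d hd using h1
  have h2 : ∀ w : ↥(AE Φ X hr.se ⊓ (Φ.pairPerp p r).toAddSubgroup), ∃ d, HasE Φ X p w d := fun w => w.2.1
  choose e he using h2
  rw [← Nat.card_prod]
  let φ := fun g : ↥(X ⊓ QP Φ p hr.se) =>
    (⟨a g, ⟨_, _, g.2.1, hd g⟩, ha g⟩ : ↥(AE Φ X hr.se ⊓ (Φ.pairPerp p r).toAddSubgroup))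
  refine Nat.card_le_card_of_injective (fun g => (φ g, ⟨d g - e (φ g), ?_⟩)) fun g g' h => ?_
  · refine (HasE.mul ⟨_, g.2.1, hd g⟩ (he (φ g)).inv).congr (add_neg_cancel _) ?_
    have := (he (φ g)).hB
    rw [map_neg]
    change _ = Φ.B (a g) (a g) at this
    change _ + Φ.ε * -Φ.B (a g) (a g) = _
    linear_combination Φ.ε * this - e (φ g) * Φ.εε
  · obtain ⟨h1, h2⟩ := Prod.ext_iff.1 h
    replace h2 := congrArg Subtype.val h2
    simp only at h1 h2
    rw [h1, sub_left_inj] at h2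
    exact Subtype.ext ((hd g).ext ((hd g').congr (congrArg Subtype.val h1).symm h2.symm))

theorem le_card_Q [FiniteDimensional F V] [Finite (V ≃ₗ[F] V)] (h : HD Φ) {p r : V} (hr : Φ.IsPair p r)
    (hD : D ≤ Φ.pairPerp p r) (hX : ∀ a ∈ D, ∀ d g, IsE Φ p a d g → g ∈ X) :
    Nat.card D * Nat.card (TT σ) ≤ Nat.card ↥(X ⊓ QP Φ p hr.se) := by
  have h1 : ∀ a : D × TT σ, ∃ g, IsE Φ p a.1 ((Φ.trace a.1).choose + a.2) g := fun a =>
    exists_E h hr.se (Φ.mem_pairPerp.1 (hD a.1.2)).1 (by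
      have := (Φ.trace a.1).choose_spec.2
      rw [map_add]; linear_combination this + mem_TT.1 a.2.2 - (Φ.trace a.1).choose * h.ε)
  choose g hg using h1
  rw [← Nat.card_prod]
  refine Nat.card_le_card_of_injective (fun a => ⟨g a, hX _ a.1.2 _ _ (hg a), _, _, hg a⟩) fun a b e => ?_
  obtain ⟨h1, h2⟩ := (hg a).unique hr (hg b) (Φ.mem_pairPerp.1 (hD a.1.2)).2 (Φ.mem_pairPerp.1 (hD b.1.2)).2
    (by rw [show g a = g b from congrArg Subtype.val e])
  exact Prod.ext (Subtype.ext h1) (Subtype.ext (by simpa [h1] using h2))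

theorem card_Q [Finite V] [Finite F] [FiniteDimensional F V] [Finite (V ≃ₗ[F] V)] (h : HD Φ) {p r : V} (hr : Φ.IsPair p r)
    (hD : D ≤ Φ.pairPerp p r) (hX : ∀ a ∈ D, ∀ d g, IsE Φ p a d g → g ∈ X) (H : Subgroup (V ≃ₗ[F] V)) :
    Nat.card D * Nat.card (TT σ) ≤ H.relIndex (X ⊓ QP Φ p hr.se) *
      (Nat.card ↥(AE Φ (H ⊓ X) hr.se ⊓ (Φ.pairPerp p r).toAddSubgroup) * Nat.card (ZE Φ (H ⊓ X) hr.se)) :=
  (le_card_Q h hr hD hX).trans ((relIndex_mul_card H _).symm.trans_le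
    (Nat.mul_le_mul_left _ (inf_assoc H X _ ▸ card_Q_le hr)))

/-- The non-zero vectors of `D` of norm `c`. -/
def vN (Φ : Formed σ V) (D : Submodule F V) (c : F) : Set V := {x | x ∈ D ∧ x ≠ 0 ∧ Φ.B x x = c}

theorem vN_smul {t : F} (t0 : t ≠ 0) (c : F) : (vN Φ D (σ t * t * c)).ncard = (vN Φ D c).ncard := by
  rw [← Set.ncard_image_of_injective (vN Φ D c) (smul_right_injective V t0)]
  congr 1
  ext x
  have : σ t ≠ 0 := by simpa
  refine ⟨fun ⟨a, b, e⟩ => ⟨t⁻¹ • x, ⟨D.smul_mem _ a, by simp [t0, b], by simp [e]; field_simp⟩, by simp [t0]⟩, ?_⟩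
  rintro ⟨x, ⟨a, b, e⟩, rfl⟩
  exact ⟨D.smul_mem _ a, by simp [t0, b], by simp [e]; ring⟩

section Card
universe u
variable [Fintype F] {q : ℕ} (hF : Fintype.card F = q ^ 2)

theorem nsing_U (n : ℕ) : ∀ {V : Type u} [AddCommGroup V] [Module F V] [FiniteDimensional F V]
    {Φ : Formed (frobq hF) V}, Φ.ε = 1 → Φ.Nondeg → finrank F V = n →
      (q * Φ.nsing : ℤ) = q + (q ^ n - (-1) ^ n) * (q ^ n + (-1) ^ n * q) := by
  induction n using Nat.twoStepInduction with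
  | zero => exact fun _ hn h => by rw [nsing_herm_of_le_one hF hn (by omega)]; simp
  | one => exact fun _ hn h => by rw [nsing_herm_of_le_one hF hn (by omega)]; simp
  | more n ih _ =>
    intro V _ _ _ Φ hΦ hn h
    obtain ⟨e, h1, h2⟩ := Geom.exists_sing_herm hF hn hΦ (by omega)
    obtain ⟨f, hp⟩ := hn.exists_isPair h1 h2
    have h3 := ih (Φ := Φ.restrict _) hΦ (hp.nondeg_pairPerp hn) (by have := hp.finrank_pairPerp hn; omega)
    have h4 : ((-1 : ℤ) ^ n) ^ 2 = 1 := by rw [← pow_mul, mul_comm, pow_mul]; simp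
    rw [nsing_herm_step hF hn hΦ h hp]
    have := two_le_of_card_eq_sq hF
    push_cast [Nat.cast_pred (show 0 < q ^ 2 by positivity)]
    linear_combination q ^ 2 * h3 + (q - q ^ 3) * h4

include hF in
theorem card_sub [FiniteDimensional F V] (D : Submodule F V) : Nat.card D = (q ^ finrank F D) ^ 2 := by
  rw [Module.natCard_eq_pow_finrank (K := F), Nat.card_eq_fintype_card, hF, ← pow_mul, ← pow_mul, mul_comm]

theorem card_TT : Nat.card (TT (frobq hF)) = q :=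
  haveI := Fact.mk hF
  Classical.card_trace_fiber (c := (0 : F)) Classical.zero_pow_q

variable {hF} {Φ : Formed (frobq hF) V} [FiniteDimensional F V]

theorem card_vN0 (h : HD Φ) (hD : (Φ.restrict D).Nondeg) {k : ℕ} (hk : finrank F D = k) :
    (q * (vN Φ D 0).ncard : ℤ) = (q ^ k - (-1) ^ k) * (q ^ k + (-1) ^ k * q) := by
  have : Finite V := Module.finite_of_finite F
  have h1 := nsing_U hF k (Φ := Φ.restrict D) h.ε hD hk
  have h2 : (vN Φ D 0).ncard + 1 = (Φ.restrict D).nsing := by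
    rw [← Formed.card_sing_ne_zero, ← Nat.card_coe_set_eq]
    exact congrArg (· + 1) (Nat.card_congr ⟨fun x => ⟨⟨x.1, x.2.1⟩, fun c => x.2.2.1 (congrArg Subtype.val c), h.Q _, x.2.2.2⟩,
      fun x => ⟨x.1.1, x.1.2, fun c => x.2.1 (Subtype.ext c), x.2.2.2⟩, fun _ => rfl, fun _ => rfl⟩)
  rw [← h2] at h1
  push_cast at h1
  linear_combination h1

theorem card_vN (h : HD Φ) (hD : (Φ.restrict D).Nondeg) {k : ℕ} (hk : finrank F D = k) {c : F} (c0 : c ≠ 0)
    (hc : frobq hF c = c) : (q * (vN Φ D c).ncard : ℤ) = q ^ k * (q ^ k - (-1) ^ k) := by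
  have : Finite V := Module.finite_of_finite F
  haveI := Fact.mk hF
  have h1 := nsing_U hF k (Φ := Φ.restrict D) h.ε hD hk
  have h2 := card_eq_mul_of_fiber (fun x : {x : D // ¬ (Φ.restrict D).Sing x} =>
    (⟨⟨Φ.B x x, h.symm _ _⟩, fun e => x.2 ⟨h.Q _, congrArg Subtype.val e⟩⟩ :
      {y : {y : F // y ^ q = y} // ¬ y = ⟨0, Classical.zero_pow_q⟩})) (vN Φ D c).ncard fun y => by
    obtain ⟨t, ht⟩ := exists_norm_eq (frobq_ne_id hF) Φ.σσ (a := y.1.1 / c) (by rw [map_div₀, hc, frobq_apply, y.1.2])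
    have y0 : y.1.1 ≠ 0 := fun e => y.2 (Subtype.ext e)
    rw [← vN_smul (t := t) (by rintro rfl; simp [c0, y0, eq_comm] at ht), ht, div_mul_cancel₀ _ c0, ← Nat.card_coe_set_eq]
    exact Nat.card_congr ⟨fun x => ⟨x.1.1.1, x.1.1.2, fun e => x.1.2 ((Subtype.ext e : x.1.1 = 0) ▸ Formed.sing_zero _),
      congrArg (·.1.1) x.2⟩, fun x => ⟨⟨⟨x.1, x.2.1⟩, fun e => y0 (x.2.2.2.symm.trans e.2)⟩,
        Subtype.ext (Subtype.ext x.2.2.2)⟩, fun _ => rfl, fun _ => rfl⟩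
  have h3 := card_subtype_add_card_not (Φ.restrict D).Sing
  have h4 := card_subtype_add_card_not fun y : {y : F // y ^ q = y} => y = ⟨0, Classical.zero_pow_q⟩
  rw [Classical.card_fixed, Nat.card_unique] at h4
  rw [h2, card_sub hF, hk] at h3
  have h5 : ((-1 : ℤ) ^ k) ^ 2 = 1 := by rw [← pow_mul, mul_comm, pow_mul]; simp
  have h6 : (q : ℤ) - 1 ≠ 0 := by have := two_le_of_card_eq_sq hF; omega
  change (Φ.restrict D).nsing + _ = _ at h3
  zify at h3 h4
  exact mul_left_cancel₀ h6 (by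
    linear_combination q * h3 - h1 - q * (vN Φ D c).ncard * h4 + q * h5)

end Card

end Cfsg.Agent.Root.MinU
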