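import Cfsg.Agent.Root.MinU2

/-! Minimal index in `SU_n(q)`, III: lower bound for the number of conjugates of an additive subgroup `W` which is
isotropic modulo a proper subgroup of the trace zero elements (`lemW`). -/

set_option autoImplicit false

namespace Cfsg.Agent.Root.MinU

open Cfsg.Agent.Geom Cfsg.Agent.AutCl Module Mx MulAction

theorem ar0 {a b e f o k c : ℤ} (h1 : c ≤ o * (e - 1)) (h2 : 2 ≤ e) (h3 : e ≤ f) (ha : 0 ≤ a) (hk : 0 ≤ k)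
    (h4 : a * (f * (f - 1)) ≤ k * c) (hb : b = a * e) : b ≤ k * o := by
  by_contra! h
  have h5 : e * (e - 1) ≤ f * (f - 1) := by nlinarith
  nlinarith [mul_le_mul_of_nonneg_left h1 hk, mul_le_mul_of_nonneg_left h5 ha, mul_lt_mul_of_pos_right h (show 0 < e - 1 by omega)]

variable {F : Type*} [Field F] {σ : F →+* F} {V : Type*} [AddCommGroup V] [Module F V] {Φ : Formed σ V}
  {D : Submodule F V} {W : AddSubgroup V}

/-- The elements of `EG Φ` supported on `D`. -/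
def LL (Φ : Formed σ V) (D : Submodule F V) : Subgroup (V ≃ₗ[F] V) := EG Φ ⊓ fix (Φ.perp D)

/-- The stabiliser of an additive subgroup. -/
def stabA (F : Type*) [Field F] [Module F V] (W : AddSubgroup V) : Subgroup (V ≃ₗ[F] V) where
  carrier := {g | ∀ v, g v ∈ W ↔ v ∈ W}
  mul_mem' := fun {_ _} ha hb v => (ha _).trans (hb v)
  one_mem' := fun _ => Iff.rfl
  inv_mem' := fun {a} ha v => by simpa using (ha (a.symm v)).symm

theorem isE_mem_LL {x a : V} {d : F} {g : V ≃ₗ[F] V} (hg : IsE Φ x a d g) (hx : x ∈ D) (ha : a ∈ D) : g ∈ LL Φ D :=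
  ⟨IsE_mem_EG hg, fun v hv => by simp [hg.app, hv x hx, hv a ha]⟩

theorem three_term [Finite V] (h2 : (2 : F) ≠ 0) {u : V} (hu : u ∈ W) (u0 : Φ.B u u ≠ 0) :
    3 * ((W : Set V) ∩ vN Φ D (Φ.B u u)).ncard ≤ 2 * Nat.card W := by
  have h1 := Set.ncard_sdiff_add_ncard_of_subset (Set.inter_subset_left (s := (W : Set V)) (t := vN Φ D (Φ.B u u)))
  set N := (W : Set V) \ (W ∩ vN Φ D (Φ.B u u))
  have h3 : (W : Set V).ncard ≤ (N ∪ (· + u) '' N ∪ (· - u) '' N).ncard := Set.ncard_le_ncard fun v hv => by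
    by_contra c
    simp only [Set.mem_union, not_or] at c
    have a1 : Φ.B v v = _ := by_contra fun e => c.1.1 ⟨hv, fun c => e c.2.2.2⟩
    have a2 : Φ.B (v - u) (v - u) = _ := by_contra fun e => c.1.2 ⟨_, ⟨sub_mem hv hu, fun c => e c.2.2.2⟩, by simp⟩
    have a3 : Φ.B (v + u) (v + u) = _ := by_contra fun e => c.2 ⟨_, ⟨add_mem hv hu, fun c => e c.2.2.2⟩, by simp⟩
    simp only [map_add, map_sub, LinearMap.add_apply, LinearMap.sub_apply] at a2 a3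
    exact u0 (mul_left_cancel₀ h2 (by linear_combination a2 + a3 - 2 * a1))
  have h4 := Set.ncard_union_le (N ∪ (· + u) '' N) ((· - u) '' N)
  have h5 := Set.ncard_union_le N ((· + u) '' N)
  have h6 := Set.ncard_image_le (s := N) (f := (· + u))
  have h7 := Set.ncard_image_le (s := N) (f := (· - u))
  rw [show Nat.card W = (W : Set V).ncard from Nat.card_coe_set_eq _]
  omega

theorem inter_lt [Finite V] (c : F) : ((W : Set V) ∩ vN Φ D c).ncard + 1 ≤ Nat.card W :=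
  (Set.ncard_lt_ncard (t := (W : Set V)) ⟨Set.inter_subset_left, fun h => (h W.zero_mem).2.2.1 rfl⟩).trans_eq
    (Nat.card_coe_set_eq _).symm

variable [FiniteDimensional F V]

theorem LL_map (hn : Φ.Nondeg) {g : V ≃ₗ[F] V} (hg : g ∈ LL Φ D) {a : V} (ha : a ∈ D) : g a ∈ D := by
  rw [← hn.perp_perp D]
  exact fun u hu => by rw [← hg.2 u hu, (EG_le_isom hg.1).1, Φ.B_eq_zero_symm (hu a ha)]

theorem mem_of_LL (hn : Φ.Nondeg) {x a : V} {d : F} {g : V ≃ₗ[F] V} (h : IsE Φ x a d g) (hg : g ∈ LL Φ D) (hx : x ∈ D)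
    (x0 : x ≠ 0) : a ∈ D := by
  rw [← hn.perp_perp D]
  exact fun u hu => Φ.B_eq_zero_symm (by simpa [x0] using (hg.2 u hu).symm.trans (h.apply_perp (hu x hx)))

variable [Finite F]

theorem exists_unit (h : HU Φ) (hD : (Φ.restrict D).Nondeg) (h3 : 3 ≤ finrank F D) {v : V} (hv : v ∈ D) (v0 : v ≠ 0) :
    ∃ a ∈ D, Φ.B a v = 0 ∧ Φ.B a a = 1 := by
  by_cases c : Φ.B v v = 0
  · obtain ⟨w, hw, hp⟩ := exists_pair_mem h.nd hD hv v0 ⟨h.Q v, c⟩
    obtain ⟨h1, h2⟩ := nd_pair h.nd hD hv hw hp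
    obtain ⟨a, ha, e⟩ := h.exists_unit h1 (by omega)
    exact ⟨a, ha.1, Φ.B_eq_zero_symm (Φ.mem_pairPerp.1 ha.2).1, e⟩
  obtain ⟨h1, h2⟩ := nd_pt h.nd hD hv c
  obtain ⟨a, ha, e⟩ := h.exists_unit h1 (by omega)
  exact ⟨a, ha.1, Φ.B_eq_zero_symm (Φ.mem_perp_span_singleton.1 ha.2), e⟩

theorem trans_vN (h : HU Φ) (hD : (Φ.restrict D).Nondeg) (h3 : 3 ≤ finrank F D) {c : F} {u v : V} (hu : u ∈ vN Φ D c)
    (hv : v ∈ vN Φ D c) : ∃ g ∈ LL Φ D, g u = v := by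
  have k : ∀ u ∈ vN Φ D c, u ∉ Φ.perp D := fun u hu c =>
    hu.2.1 (Submodule.disjoint_def.1 (Φ.restrict_nondeg_iff.1 hD) u hu.1 c)
  obtain ⟨g, hg, e⟩ := h.nd.step (k u hu) (k v hv) (Φ.le_perp_perp D (sub_mem hv.1 hu.1)) (by simp [h.Q])
    (hv.2.2.trans hu.2.2.symm)
  obtain ⟨a, ha, e1, e2⟩ := exists_unit h hD h3 hv.1 hv.2.1
  obtain ⟨s, -, s1, s2⟩ := h.adj _ (Φ.nondeg_span_singleton (v := a) (by simp [e2]))
    (finrank_span_singleton (by rintro rfl; simp at e2)).ge g (Φ.elemFix_le_isom _ hg)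
  refine ⟨s * g, ⟨s2, fun x hx => ?_⟩, ?_⟩
  · rw [LinearEquiv.mul_apply, Φ.elemFix_fix hg x hx, s1 x (Φ.mem_perp_span_singleton.2 (hx a ha))]
  · rw [LinearEquiv.mul_apply, e, s1 v (Φ.mem_perp_span_singleton.2 e1)]

variable [Finite V] [Finite (V ≃ₗ[F] V)]

theorem base (h : HU Φ) (hD : (Φ.restrict D).Nondeg) (h3 : 3 ≤ finrank F D) (hW : ∀ a ∈ W, a ∈ D) {w : V} (hw : w ∈ W)
    (w0 : w ≠ 0) : (vN Φ D (Φ.B w w)).ncard * (stabA F W).relIndex (LL Φ D ⊓ stabilizer _ w) ≤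
      (stabA F W).relIndex (LL Φ D) * ((W : Set V) ∩ vN Φ D (Φ.B w w)).ncard :=
  dc _ _ w (fun _ hc => trans_vN h hD h3 ⟨hW w hw, w0, rfl⟩ hc) fun g hg hg' =>
    ⟨(hg' w).2 hw, LL_map h.nd hg (hW w hw), by simpa, (EG_le_isom hg.1).1 w w⟩

omit [Finite F] [Finite V] in
theorem fam_tv (h : HD Φ) (hs : ∀ w ∈ W, Φ.B w w = 0 → ∀ v ∈ W, Φ.B w v = 0) {x u v : V} (hx : x ∈ D) (xs : Φ.Sing x)
    (hv : v ∈ W) (xv : Φ.B x v ≠ 0) (xu : Φ.B x u = 0) : ∃ g : TT σ → V ≃ₗ[F] V, (∀ d, IsE Φ x 0 d.1 (g d)) ∧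
      (∀ d, g d ∈ LL Φ D ⊓ stabilizer _ u) ∧ ∀ d d', (g d)⁻¹ * g d' ∈ stabA F W → d = d' := by
  have h1 : ∀ d : TT σ, ∃ g, IsE Φ x 0 d.1 g := fun d => exists_E h xs (map_zero _) (by simpa using mem_TT.1 d.2)
  choose g hg using h1
  refine ⟨g, hg, fun d => ⟨isE_mem_LL (hg d) hx D.zero_mem, ?_⟩, fun d d' e => Subtype.ext ?_⟩
  · change g d u = u
    simp [isE_tv h (hg d), xu]
  have h2 := ((hg d).inv.mul (hg d')).congr (b := 0) (d' := d'.1 - d.1) (by simp) (by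
    simp [h.ε]; linear_combination mem_TT.1 d.2)
  have h3 := sub_mem hv ((e v).2 hv)
  rw [isE_tv h h2, sub_sub_cancel] at h3
  have := hs _ h3 (by simp [xs.2]) v hv
  rw [Φ.B_smul_left] at this
  exact (sub_eq_zero.1 ((mul_eq_zero.1 (Formed.σ_eq_zero.1 ((mul_eq_zero.1 this).resolve_right xv))).resolve_right xv)).symm

omit [Finite V] in
theorem m2 (h : HU Φ) (hD : (Φ.restrict D).Nondeg) (h3 : 3 ≤ finrank F D) (hW : ∀ a ∈ W, a ∈ D)
    (hs : ∀ w ∈ W, Φ.B w w = 0 → ∀ v ∈ W, Φ.B w v = 0) {u v : V} (hu : u ∈ W) (u0 : Φ.B u u ≠ 0) (hv : v ∈ W)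
    (e : v ∉ F ∙ u) : Nat.card (TT σ) ≤ (stabA F W).relIndex (LL Φ D ⊓ stabilizer _ u) := by
  obtain ⟨h1, h2⟩ := nd_pt h.nd hD (hW u hu) u0
  obtain ⟨w, hw, e1⟩ : ∃ w ∈ D ⊓ Φ.perp (F ∙ u), Φ.B v w ≠ 0 := by
    by_contra! c
    refine e (Submodule.mem_span_singleton.2 ⟨Φ.B u v / Φ.B u u, (sub_eq_zero.1 (Φ.restrict_nondeg_iff'.1 h1 _
      ⟨sub_mem (hW v hv) (D.smul_mem _ (hW u hu)), Φ.mem_perp_span_singleton.2 (by simp [u0])⟩ fun w hw => ?_)).symm⟩)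
    simp [c w hw, Φ.mem_perp_span_singleton.1 hw.2]
  obtain ⟨x, hx, xs, e2⟩ := g0 h h1 (by omega) hw e1
  obtain ⟨g, -, g1, g2⟩ := fam_tv h.toHD hs hx.1 xs hv (fun c => e2 (Φ.B_eq_zero_symm c))
    (Φ.B_eq_zero_symm (Φ.mem_perp_span_singleton.1 hx.2))
  exact fam g g1 g2

omit [Finite V] in
theorem m3 (h : HU Φ) (hD : (Φ.restrict D).Nondeg) (hW : ∀ a ∈ W, a ∈ D) (hs : ∀ w ∈ W, ∀ v ∈ W, Φ.B w v = 0) {u v : V}
    (hu : u ∈ W) (hv : v ∈ W) (e : v ∉ F ∙ u) :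
    Nat.card (TT σ) + 1 ≤ (stabA F W).relIndex (LL Φ D ⊓ stabilizer _ u) := by
  obtain ⟨y, hy, y1, y2⟩ := sep h.nd hD (S := F ∙ u) (by simpa using hW u hu) (hW v hv) e
  have vs : Φ.Sing v := ⟨h.Q v, hs v hv v hv⟩
  obtain ⟨c, xs⟩ := exists_adjust vs (x := y) (by simp [y2])
  have hx : y + c • v ∈ D := add_mem hy (D.smul_mem _ (hW v hv))
  have vx : Φ.B v (y + c • v) = 1 := by simp [y2, vs.2]
  have xu : Φ.B (y + c • v) u = 0 := Φ.B_eq_zero_symm (by simp [Φ.mem_perp_span_singleton.1 y1, hs u hu v hv])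
  generalize y + c • v = x at xs hx vx xu
  have xv : Φ.B x v = 1 := by rw [← h.toHD.symm, vx, map_one]
  obtain ⟨g, g0, g1, g2⟩ := fam_tv h.toHD (fun w hw _ => hs w hw) hx xs hv (by simp [xv]) xu
  obtain ⟨d, d0, -, hd⟩ := exists_TP h.ne h.τ h.ε
  rw [h.ε, one_mul] at hd
  have e1 : σ d = -d := by linear_combination hd
  obtain ⟨s, s1⟩ := exists_E h.toHD vs (map_zero _) (d := -d⁻¹) (by simp [e1])
  have s2 : s * g ⟨d, hd⟩ ∈ LL Φ D ⊓ stabilizer _ u := mul_mem ⟨isE_mem_LL s1 (hW v hv) D.zero_mem, by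
    change s u = u
    simp [isE_tv h.toHD s1, hs v hv u hu]⟩ (g1 _)
  have s3 : (s * g ⟨d, hd⟩) v = -d • x := by
    simp [isE_tv h.toHD s1, isE_tv h.toHD (g0 _), xv, vx, vs.2, d0]
  have key : ∀ t, (g t)⁻¹ * (s * g ⟨d, hd⟩) ∉ stabA F W := fun t c => by
    have := hs v hv _ ((c v).2 hv)
    rw [LinearEquiv.mul_apply, s3, ← (g0 t).mem_isom.1,
      show g t ((g t)⁻¹ (-d • x)) = -d • x from (g t).apply_symm_apply _] at this
    simp [isE_tv h.toHD (g0 t), vx, xs.2, d0] at this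
  have := Fintype.ofFinite (TT σ)
  simpa using fam (ι := Option (TT σ)) (fun i => i.elim (s * g ⟨d, hd⟩) g) (fun i => by cases i; exacts [s2, g1 _])
    fun i j c => by
      cases i <;> cases j
      exacts [rfl, (key _ (by simpa using inv_mem c)).elim, (key _ c).elim, congrArg _ (g2 _ _ c)]

section Card
variable [Fintype F] {q : ℕ} {hF : Fintype.card F = q ^ 2} {Φ : Formed (frobq hF) V} {Z : AddSubgroup F} {t : F}

theorem m1 (h : HU Φ) (hD : (Φ.restrict D).Nondeg) {j : ℕ} (hk : finrank F D = j + 3) (hW : ∀ a ∈ W, a ∈ D)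
    (ht : t ∈ TT (frobq hF)) (tZ : t ∉ Z) (H1 : ∀ a ∈ W, ∀ b ∈ W, Φ.B a b - Φ.B b a ∈ Z)
    (H2 : (2 : F) = 0 → ∀ a ∈ W, Φ.B a a ∈ Z) {w v : V} (hw : w ∈ W) (ws : Φ.B w w = 0) (hv : v ∈ W) (e : Φ.B w v ≠ 0) :
    q ≤ (stabA F W).relIndex (LL Φ D ⊓ stabilizer _ w) ∧
      (Z = ⊥ → q ^ 2 ≤ (stabA F W).relIndex (LL Φ D ⊓ stabilizer _ w)) := by
  have w0 : w ≠ 0 := by rintro rfl; simp at e
  obtain ⟨w', hw', hp⟩ := exists_pair_mem h.nd hD (hW w hw) w0 ⟨h.Q w, ws⟩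
  obtain ⟨h1, h2⟩ := nd_pair h.nd hD (hW w hw) hw' hp
  have h3 := (card_Q h.toHD hp (D := D ⊓ Φ.pairPerp w w') (X := LL Φ D) inf_le_right
    (fun a ha _ _ hg => isE_mem_LL hg (hW w hw) ha.1) (stabA F W)).trans (Nat.mul_le_mul_right _ (relIndex_mono _
      (B := LL Φ D ⊓ stabilizer _ w) (inf_le_inf_left _ fun g ⟨_, _, hg⟩ => hg.apply_p)))
  set A := AE Φ (stabA F W ⊓ LL Φ D) hp.se ⊓ (Φ.pairPerp w w').toAddSubgroup
  have e0 : frobq hF (Φ.B w v) * Φ.B w v ≠ 0 := mul_ne_zero (mt Formed.σ_eq_zero.1 e) e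
  have hA : ∀ a ∈ A, a ∈ D ⊓ Φ.pairPerp w w' ∧ ∃ c : F, Φ.B w v • a + c • w ∈ W := fun a ⟨⟨d, g, hg, hg'⟩, ha⟩ =>
    ⟨⟨mem_of_LL h.nd hg' hg.2 (hW w hw) w0, ha⟩, -(Φ.B a v - d * Φ.B w v), by
      convert sub_mem hv ((hg.1 v).2 hv) using 1
      rw [isE_app h.toHD hg']; module⟩
  have hB : ∀ a ∈ A, ∀ b ∈ A, ∃ a' ∈ W, ∃ b' ∈ W, Φ.B a' b' = frobq hF (Φ.B w v) * Φ.B w v * Φ.B a b ∧
      Φ.B b' a' = frobq hF (Φ.B w v) * Φ.B w v * Φ.B b a ∧ (a = b → a' = b') := fun a ha b hb => by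
    choose c hc using fun a ha => (hA a ha).2
    have a1 := (Φ.mem_pairPerp.1 ha.2).1
    have b1 := (Φ.mem_pairPerp.1 hb.2).1
    refine ⟨_, hc a ha, _, hc b hb, ?_, ?_, by rintro rfl; rfl⟩ <;>
    simp only [map_add, LinearMap.add_apply, Φ.B_smul_left, Φ.B_smul_right, ws, a1, b1, Φ.B_eq_zero_symm a1,
      Φ.B_eq_zero_symm b1] <;> ring
  have h4 := step0 h h1 A (fun a ha => (hA a ha).1) Z ht tZ e0 (by rw [map_mul, Φ.σσ, mul_comm]) fun a ha b hb => by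
    obtain ⟨a', ha', b', hb', e1, e2, -⟩ := hB a ha b hb
    rw [mul_sub, ← e1, ← e2]
    exact H1 _ ha' _ hb'
  have h5 := AddSubgroup.card_le_of_le (ZE_le (X := stabA F W ⊓ LL Φ D) h.toHD hp.se)
  rw [card_sub hF, show finrank F ↥(D ⊓ Φ.pairPerp w w') = j + 1 by omega] at h3 h4
  rw [card_TT] at h3 h5
  rw [sq, Nat.mul_self_le_mul_self_iff] at h4
  have q2 := two_le_of_card_eq_sq hF
  have q3 : q ≤ q ^ (j + 1) := Nat.le_self_pow (by omega) _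
  generalize (stabA F W).relIndex (LL Φ D ⊓ stabilizer _ w) = m at h3 ⊢
  have h6 : q ^ (j + 1) ≤ m := Nat.le_of_mul_le_mul_right (c := q ^ (j + 1) * q)
    (by nlinarith [Nat.mul_le_mul_left m (Nat.mul_le_mul h4 h5)]) (by positivity)
  refine ⟨q3.trans h6, fun hZ => ?_⟩
  subst hZ
  rcases j with _ | j
  swap
  · exact (Nat.pow_le_pow_right (by omega) (by omega)).trans h6
  simp only [zero_add, pow_one] at h3 h4
  by_cases c : (2 : F) = 0
  · rw [show A = ⊥ from eq_bot_iff.2 fun a ha => by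
      obtain ⟨a', ha', b', hb', e1, -, e2⟩ := hB a ha a ha
      rw [← e2 rfl, H2 c _ ha'] at e1
      have h7 := finrank_inf_perp h.nd h1 (U := F ∙ a) (by simpa using (hA a ha).1)
      by_contra a0
      rw [finrank_span_singleton a0] at h7
      exact a0 ((Submodule.finrank_eq_zero.1 (by omega) : _ ⊓ Φ.perp (F ∙ a) = ⊥).le
        ⟨(hA a ha).1, Φ.mem_perp_span_singleton.2 ((mul_eq_zero.1 e1.symm).resolve_left e0)⟩), AddSubgroup.card_bot] at h3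
    exact Nat.le_of_mul_le_mul_right (c := q) (by nlinarith [Nat.mul_le_mul_left m h5]) (by omega)
  rw [show ZE Φ (stabA F W ⊓ LL Φ D) hp.se = ⊥ from eq_bot_iff.2 fun d ⟨g, hg, hg'⟩ => by
    have h7 := sub_mem hv ((hg.1 v).2 hv)
    rw [isE_tv h.toHD hg', sub_sub_cancel] at h7
    have h8 := H1 _ h7 _ hv
    have h9 := isE_tr h.toHD hg'
    rw [AddSubgroup.mem_bot, Φ.B_smul_left, Φ.B_smul_right, ← h.toHD.symm w v, map_mul] at h8
    rw [map_zero] at h9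
    exact mul_left_cancel₀ (mul_ne_zero c e0) (by
      linear_combination frobq hF (Φ.B w v) * Φ.B w v * h9 - h8), AddSubgroup.card_bot] at h3
  exact Nat.le_of_mul_le_mul_right (c := q) (by nlinarith [Nat.mul_le_mul_left m h4]) (by omega)

omit [Finite F] [Finite V] [Finite (V ≃ₗ[F] V)] in
theorem vN_val (h : HD Φ) (hD : (Φ.restrict D).Nondeg) {j : ℕ} (hk : finrank F D = j + 1) :
    ((vN Φ D 0).ncard : ℤ) = (q * q ^ j - (-1) ^ (j + 1)) * (q ^ j + (-1) ^ (j + 1)) ∧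
      ∀ c ≠ 0, frobq hF c = c → ((vN Φ D c).ncard : ℤ) = q ^ j * (q * q ^ j - (-1) ^ (j + 1)) := by
  have q0 : (q : ℤ) ≠ 0 := by have := two_le_of_card_eq_sq hF; omega
  exact ⟨mul_left_cancel₀ q0 (by rw [card_vN0 h hD hk]; ring), fun c c0 hc =>
    mul_left_cancel₀ q0 (by rw [card_vN h hD hk c0 hc]; ring)⟩

theorem lemW (h : HU Φ) (hD : (Φ.restrict D).Nondeg) {j : ℕ} (hk : finrank F D = j + 3) (hW : ∀ a ∈ W, a ∈ D)
    (ht : t ∈ TT (frobq hF)) (tZ : t ∉ Z) (H1 : ∀ a ∈ W, ∀ b ∈ W, Φ.B a b - Φ.B b a ∈ Z)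
    (H2 : (2 : F) = 0 → ∀ a ∈ W, Φ.B a a ∈ Z) (W0 : W ≠ ⊥) :
    (q + 1) * Nat.card W ≤ q * (stabA F W).relIndex (LL Φ D) ∨
      Z ≠ ⊥ ∧ (q + 1) * Nat.card W ≤ (q + 2) * (stabA F W).relIndex (LL Φ D) := by
  have q2 := two_le_of_card_eq_sq hF
  have e1 := step0 h hD W hW Z ht tZ one_ne_zero (map_one _) (by simpa using H1)
  rw [card_sub hF, hk, sq, Nat.mul_self_le_mul_self_iff, pow_succ'] at e1
  have e2 : 2 ≤ Nat.card W := (AddSubgroup.one_lt_card_iff_ne_bot W).2 W0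
  obtain ⟨v1, v2⟩ := vN_val h.toHD hD (j := j + 2) hk
  have x1 : q ^ 2 ≤ q ^ (j + 2) := Nat.pow_le_pow_right (by omega) (by omega)
  have hs := neg_one_pow_eq_or ℤ (j + 2 + 1)
  have bs : ∀ w ∈ W, w ≠ 0 → ∀ m : ℕ, m ≤ (stabA F W).relIndex (LL Φ D ⊓ stabilizer _ w) →
      (vN Φ D (Φ.B w w)).ncard * m ≤ (stabA F W).relIndex (LL Φ D) * ((W : Set V) ∩ vN Φ D (Φ.B w w)).ncard :=
    fun w hw w0 m hm => (Nat.mul_le_mul_left _ hm).trans (base h hD (by omega) hW hw w0)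
  have bs' : ∀ w ∈ W, w ≠ 0 → ∀ m : ℕ, m ≤ (stabA F W).relIndex (LL Φ D ⊓ stabilizer _ w) →
      ((vN Φ D (Φ.B w w)).ncard : ℤ) * m ≤ (stabA F W).relIndex (LL Φ D) * ((Nat.card W : ℤ) - 1) :=
    fun w hw w0 m hm => by
      have a1 := bs w hw w0 m hm
      have a2 := inter_lt (Φ := Φ) (D := D) (W := W) (Φ.B w w)
      zify at a1 a2
      exact a1.trans (mul_le_mul_of_nonneg_left (by omega) (by positivity))
  have ex : ¬ (Nat.card W : ℤ) ≤ q ^ (j + 2) → ∀ u : V, ∃ v ∈ W, v ∉ F ∙ u := fun c u => by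
    norm_cast at c
    by_contra! c'
    have a1 := AddSubgroup.card_le_of_le (H := W) (K := (F ∙ u).toAddSubgroup) c'
    have a2 := card_sub hF (F ∙ u)
    have a3 := Nat.pow_le_pow_left (Nat.pow_le_pow_right (show 0 < q by omega) (finrank_span_one (F := F) u)) 2
    change _ ≤ Nat.card (F ∙ u) at a1
    rw [pow_one] at a3
    omega
  have ev : ¬ (Nat.card W : ℤ) ≤ q ^ (j + 2) → (∀ w ∈ W, ∀ v ∈ W, Φ.B w v = 0) → (-1 : ℤ) ^ (j + 2 + 1) = 1 := fun c c' => by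
    norm_cast at c
    have a1 := AddSubgroup.card_le_of_le (H := W) (K := (Submodule.span F (W : Set V)).toAddSubgroup) Submodule.subset_span
    have a2 := card_sub hF (Submodule.span F (W : Set V))
    have a3 := finrank_inf_perp h.nd hD (U := Submodule.span F (W : Set V)) (Submodule.span_le.2 hW)
    have a4 := Submodule.finrank_mono (le_inf (Submodule.span_le.2 hW) (Φ.totSing_span c' fun _ _ => h.Q _).le_perp)
    change _ ≤ Nat.card (Submodule.span F (W : Set V)) at a1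
    rw [← pow_mul] at a2
    have a5 := (Nat.pow_lt_pow_iff_right (show 1 < q by omega)).1 ((not_le.1 c).trans_le (a1.trans_eq a2))
    exact Even.neg_one_pow ⟨finrank F (Submodule.span F (W : Set V)), by omega⟩
  have q3 : (2 : F) ≠ 0 → 3 ≤ q := fun c => by
    by_contra c'
    have a1 := FiniteField.cast_card_eq_zero F
    rw [hF, show q = 2 by omega] at a1
    exact c (pow_eq_zero_iff two_ne_zero |>.1 (by exact_mod_cast a1))
  have tt := card_TT hF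
  generalize (stabA F W).relIndex (LL Φ D) = o at bs bs' ⊢
  zify at e1 e2 x1 q2 ⊢
  generalize (q : ℤ) ^ (j + 2) = x at *
  have x0 : 0 ≤ x - 1 := by nlinarith
  have x2 : 0 ≤ x := by omega
  have cm : ∀ w : V, (q * x + 1) * (x - 1) ≤ (vN Φ D (Φ.B w w)).ncard := fun w => by
    by_cases c : Φ.B w w = 0
    · rw [c, v1]; rcases hs with hs | hs <;> rw [hs] <;> nlinarith
    · rw [v2 _ c (h.toHD.symm w w)]; rcases hs with hs | hs <;> rw [hs] <;> nlinarith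
  have gen : ∀ w ∈ W, w ≠ 0 → ∀ m k : ℕ, m ≤ (stabA F W).relIndex (LL Φ D ⊓ stabilizer _ w) → (q : ℤ) * (q + 2) ≤ k * m →
      ((q : ℤ) + 1) * Nat.card W ≤ k * o := fun w hw w0 m k hm hk =>
    ar0 ((mul_le_mul_of_nonneg_right (cm w) (by positivity)).trans (bs' w hw w0 m hm)) e2 e1 (by positivity)
      (by positivity) (by
        have a1 : (q + 1) * x ≤ (q + 2) * (x - 1) := by nlinarith
        have a2 : 0 ≤ (q * x + 1) * (x - 1) := by positivity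
        have a3 : 0 ≤ q * x := by nlinarith
        nlinarith [mul_le_mul_of_nonneg_left hk a2, mul_le_mul_of_nonneg_left a1 (show 0 ≤ q * (q * x + 1) by positivity)]) rfl
  by_cases c : (Nat.card W : ℤ) ≤ x
  · obtain ⟨⟨w, hw⟩, w0⟩ := (AddSubgroup.ne_bot_iff_exists_ne_zero).1 W0
    replace w0 : w ≠ 0 := fun c => w0 (Subtype.ext c)
    refine Or.inl (ar0 ((cm w).trans (by simpa using bs' w hw w0 1 (Nat.pos_of_ne_zero Subgroup.index_ne_zero_of_finite)))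
      e2 c (by positivity) (by positivity) ?_ rfl)
    nlinarith [mul_le_mul_of_nonneg_left (show (q + 1) * x ≤ q * (q * x + 1) by nlinarith) x0]
  by_cases c1 : ∃ w ∈ W, Φ.B w w = 0 ∧ ∃ v ∈ W, Φ.B w v ≠ 0
  · obtain ⟨w, hw, ws, v, hv, e⟩ := c1
    have w0 : w ≠ 0 := by rintro rfl; simp at e
    obtain ⟨a1, a2⟩ := m1 h hD hk hW ht tZ H1 H2 hw ws hv e
    by_cases hZ : Z = ⊥
    · exact Or.inl (gen w hw w0 _ q (a2 hZ) (by push_cast; nlinarith))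
    · exact Or.inr ⟨hZ, by simpa using gen w hw w0 _ (q + 2) a1 (by push_cast; nlinarith)⟩
  push Not at c1
  by_cases c2 : ∃ u ∈ W, Φ.B u u ≠ 0
  · obtain ⟨u, hu, u0⟩ := c2
    obtain ⟨v, hv, e⟩ := ex c u
    have a1 := tt ▸ m2 h hD (by omega) hW c1 hu u0 hv e
    have u1 : u ≠ 0 := by rintro rfl; simp at u0
    by_cases hZ : Z = ⊥
    swap
    · exact Or.inr ⟨hZ, by simpa using gen u hu u1 _ (q + 2) a1 (by push_cast; nlinarith)⟩
    have a2 : (2 : F) ≠ 0 := fun c => u0 (by simpa [hZ] using H2 c u hu)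
    have a3 := three_term (D := D) a2 hu u0
    have a4 := bs u hu u1 _ a1
    have a5 := q3 a2
    zify at a3 a4 a5
    rw [v2 _ u0 (h.toHD.symm u u)] at a4
    left
    by_contra! a6
    have a7 : x * (q * x - 1) * q * 3 ≤ o * (2 * Nat.card W) := by
      rcases hs with hs | hs <;> rw [hs] at a4 <;> nlinarith
    have a8 : (Nat.card W : ℤ) * Nat.card W ≤ q * x * (q * x) := mul_self_le_mul_self (by omega) e1
    have a9 : 2 * (q + 1) * x ≤ 3 * (q * x - 1) := by nlinarith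
    nlinarith [mul_lt_mul_of_pos_right a6 (show (0 : ℤ) < Nat.card W by omega), mul_le_mul_of_nonneg_left a7 (show (0 : ℤ) ≤ q by omega),
      mul_le_mul_of_nonneg_left a8 (show (0 : ℤ) ≤ q + 1 by omega),
      mul_le_mul_of_nonneg_left a9 (show (0 : ℤ) ≤ q * (q * x) by positivity)]
  push Not at c2
  obtain ⟨u, hu, u0⟩ := ex c 0
  obtain ⟨v, hv, e⟩ := ex c u
  have a1 := bs' u hu (by simpa using u0) _ (m3 h hD hW (fun w hw => c1 w hw (c2 w hw)) hu hv e)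
  rw [c2 u hu, v1, ev c fun w hw => c1 w hw (c2 w hw), tt] at a1
  refine Or.inl (ar0 a1 e2 e1 (by positivity) (by positivity) ?_ rfl)
  push_cast
  nlinarith [mul_nonneg (mul_nonneg (show (0 : ℤ) ≤ q + 1 by omega) (show (0 : ℤ) ≤ q by omega)) (show 0 ≤ q * x - 1 by nlinarith)]

end Card

end Cfsg.Agent.Root.MinU
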