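import Cfsg.Agent.Root.MinU3

/-! Minimal index in `SU_n(q)`, `n ≥ 5`, IV: subgroups of small index satisfy the dichotomy (`dich`), the lower bound
`bound`, indices of point stabilisers (`index_pt`), transfer to `PSU` (`psu_of`). -/

set_option autoImplicit false

namespace Cfsg.Agent.Root.MinU

open Cfsg.Agent.Geom Cfsg.Agent.AutCl Module Mx MulAction

theorem arA {q y o I J J' N N' e z s c : ℕ} (h1 : y * q ≤ I * (e * z)) (h2 : o * I ≤ J) (h6 : J ≤ J') (h7 : c + 1 = q ^ 2)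
    (h5 : c * J' ≤ N' * (s * (q + 1))) (h3 : N' ≤ N) (s2 : (q + 2) * (s * z) + q ≤ q * q) (h8 : (q + 1) * e ≤ (q + 2) * o)
    (e0 : 0 < e) (s0 : 0 < s) (z0 : 0 < z) : y * (q + 1) ≤ N := by
  obtain ⟨m, rfl⟩ : ∃ m, q = m + 1 := ⟨q - 1, by rcases q with _ | q <;> simp at h7 ⊢⟩
  obtain rfl : c = m * (m + 1 + 1) := by nlinarith
  have a1 : m * J ≤ N * s := Nat.le_of_mul_le_mul_right (c := m + 1 + 1) (by
    nlinarith [Nat.mul_le_mul_left (m * (m + 1 + 1)) h6, Nat.mul_le_mul_right (s * (m + 1 + 1)) h3]) (by omega)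
  have a2 : y * (m + 1) * o ≤ J * (e * z) := by nlinarith [Nat.mul_le_mul_right o h1, Nat.mul_le_mul_right (e * z) h2]
  have a3 : y * o * (m + 1 + 2) ≤ N * e := Nat.le_of_mul_le_mul_right (c := s * z) (by
    nlinarith [Nat.mul_le_mul_left (y * o) s2, Nat.mul_le_mul_left m a2, Nat.mul_le_mul_right (e * z) a1]) (by positivity)
  exact Nat.le_of_mul_le_mul_right (by nlinarith [Nat.mul_le_mul_left y h8]) e0

theorem arB {q y o I N e : ℕ} (h1 : y * q ≤ I * e) (h2 : o * I ≤ N) (h8 : (q + 1) * e ≤ q * o) (e0 : 0 < e) :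
    y * (q + 1) ≤ N := Nat.le_of_mul_le_mul_right (by
  nlinarith [Nat.mul_le_mul_left y h8, Nat.mul_le_mul_right e h2, Nat.mul_le_mul_left o h1]) e0

theorem arC {q y I N r : ℕ} (h1 : y * q ≤ I) (h2 : r * I ≤ N) (h8 : 2 ≤ r) (q0 : 0 < q) : y * (q + 1) ≤ N := by
  nlinarith [Nat.mul_le_mul_right I h8, Nat.mul_le_mul_left y q0]

variable {F : Type*} [Field F] [Fintype F] {q : ℕ} {hF : Fintype.card F = q ^ 2} {V : Type*} [AddCommGroup V] [Module F V]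
  {Φ : Formed (frobq hF) V} {H : Subgroup (V ≃ₗ[F] V)}

theorem kap {Z : AddSubgroup F} (hZ : Z ≤ TT (frobq hF)) (Z0 : Z ≠ ⊥) {t : F} (ht : t ∈ TT (frobq hF)) (tZ : t ∉ Z) :
    ∃ s, 0 < s ∧ {c : F | c ≠ 0 ∧ ∀ d ∈ Z, d * (c * frobq hF c) ∈ Z}.ncard = s * (q + 1) ∧
      (q + 2) * (s * Nat.card Z) + q ≤ q * q := by
  have := Fact.mk hF
  let S := {y : F // frobq hF y = y ∧ ∀ d ∈ Z, d * y ∈ Z}
  have h1 := card_subtype_add_card_not fun y : S => y = ⟨0, map_zero _, by simp⟩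
  rw [Nat.card_unique] at h1
  have h2 : Nat.card S * Nat.card Z ≤ q := by
    rw [← Nat.card_prod]
    refine (Nat.card_le_card_of_injective (fun x => ⟨t * x.1.1 + x.2.1, add_mem (mem_TT.2 (by
      rw [map_mul, x.1.2.1]; linear_combination x.1.1 * mem_TT.1 ht)) (hZ x.2.2)⟩) fun x y e => ?_).trans_eq (card_TT hF)
    replace e : t * x.1.1 + x.2.1 = t * y.1.1 + y.2.1 := congrArg Subtype.val e
    by_cases c : x.1.1 - y.1.1 = 0
    · exact Prod.ext (Subtype.ext (sub_eq_zero.1 c)) (Subtype.ext (by linear_combination e - t * c))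
    obtain ⟨d, hd⟩ := Finite.surjective_of_injective (f := fun d : Z => (⟨d * (x.1.1 - y.1.1), mul_sub d.1 _ _ ▸
      sub_mem (x.1.2.2 _ d.2) (y.1.2.2 _ d.2)⟩ : Z)) (fun a b e => Subtype.ext (mul_right_cancel₀ c (congrArg Subtype.val e)))
      (y.2 - x.2)
    replace hd : d.1 * (x.1.1 - y.1.1) = y.2.1 - x.2.1 := congrArg Subtype.val hd
    exact (tZ ((mul_right_cancel₀ c (by linear_combination hd - e) : d.1 = t) ▸ d.2)).elim
  obtain ⟨d, d0⟩ := (AddSubgroup.ne_bot_iff_exists_ne_zero).1 Z0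
  have h3 : Nat.card S ≤ Nat.card Z := Nat.card_le_card_of_injective (fun x => ⟨_, x.2.2 _ d.2⟩) fun x y e =>
    Subtype.ext (mul_left_cancel₀ (fun c => d0 (Subtype.ext c)) (congrArg Subtype.val e))
  have h4 : 0 < Nat.card {y : S // ¬ y = ⟨0, map_zero _, by simp⟩} :=
    Nat.card_pos_iff.2 ⟨⟨⟨⟨1, map_one _, by simp⟩, fun c => one_ne_zero (congrArg Subtype.val c)⟩⟩, inferInstance⟩
  refine ⟨_, h4, card_eq_mul_of_fiber (fun c : {c : F | c ≠ 0 ∧ ∀ d ∈ Z, d * (c * frobq hF c) ∈ Z} => ⟨⟨c * frobq hF c,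
    nrm_fix (frobq_frobq hF) _, c.2.2⟩, fun e => nrm_ne c.2.1 (congrArg Subtype.val e)⟩) _ fun y => ?_, ?_⟩
  · have y0 : y.1.1 ≠ 0 := fun c => y.2 (Subtype.ext c)
    rw [← Classical.card_norm_fiber y0 y.1.2.1]
    exact Nat.card_congr ⟨fun c => ⟨c.1.1, congrArg (·.1.1) c.2⟩, fun c => ⟨⟨c.1, fun e => y0 (by rw [← c.2, e, zero_mul]),
      fun d hd => (c.2 ▸ y.1.2.2 d hd :)⟩, Subtype.ext (Subtype.ext c.2)⟩, fun _ => rfl, fun _ => rfl⟩
  rw [← h1] at h2 h3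
  generalize Nat.card {y : S // ¬ y = ⟨0, map_zero _, by simp⟩} = s at *
  rcases (show Nat.card Z = 2 ∨ 3 ≤ Nat.card Z by omega) with c | c
  · obtain rfl : s = 1 := by omega
    rw [c] at h2 ⊢
    nlinarith
  · nlinarith

theorem exists_smul_of_stab {p : V} {g : V ≃ₗ[F] V} (hg : g ∈ stab (F ∙ p)) : ∃ c : F, c • p = g p :=
  Submodule.mem_span_singleton.1 ((hg p).1 (Submodule.mem_span_singleton_self p))

theorem mem_stab_pt {p : V} {g : V ≃ₗ[F] V} (h : g p ∈ F ∙ p) : g ∈ stab (F ∙ p) := mem_stab_of_le fun v hv => by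
  obtain ⟨c, rfl⟩ := Submodule.mem_span_singleton.1 hv
  exact map_smul g c p ▸ Submodule.smul_mem _ _ h

variable [FiniteDimensional F V] [Finite V] [Finite (V ≃ₗ[F] V)]

omit [Finite (V ≃ₗ[F] V)] in
theorem card_pt {p : V} (p0 : p ≠ 0) (hp : Φ.B p p = 0) : (vN Φ (F ∙ p) 0).ncard + 1 = q ^ 2 := by
  have := card_ne_zero_submodule (F ∙ p)
  rw [card_sub hF, finrank_span_singleton p0, pow_one] at this
  rw [← this, ← Nat.card_coe_set_eq]
  exact congrArg (· + 1) (Nat.card_congr (Equiv.subtypeEquivRight fun x => ⟨fun c => ⟨c.1, c.2.1⟩, fun c => ⟨c.1, c.2, by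
    obtain ⟨t, rfl⟩ := Submodule.mem_span_singleton.1 c.1
    simp [hp]⟩⟩))

omit [Finite V] [Finite (V ≃ₗ[F] V)] in
theorem trans_top (h : HU Φ) (h3 : 3 ≤ finrank F V) {u v : V} (u0 : u ≠ 0) (hv : v ∈ vN Φ ⊤ (Φ.B u u)) :
    ∃ g ∈ EG Φ, g • u = v :=
  let ⟨g, hg, e⟩ := trans_vN h (nondeg_top h.nd) (by simpa) ⟨trivial, u0, rfl⟩ hv; ⟨g, hg.1, e⟩

theorem dich (h : HU Φ) {j : ℕ} (hk : finrank F V = j + 5) (hH : H ≤ EG Φ)
    (hN : H.relIndex (EG Φ) < (q ^ (j + 3)) ^ 2 * (q + 1)) : Di Φ H := ⟨h, hH, by omega, fun p p0 hp => by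
  refine or_iff_not_imp_left.2 fun c => ?_
  simp only [FullT, not_forall] at c
  obtain ⟨t, g₀, hg₀, c⟩ := c
  have tZ : t ∉ ZE Φ H hp := fun c' => c (HasE.mem c' hg₀)
  have ht : t ∈ TT (frobq hF) := (isE_tr h.toHD hg₀).trans (map_zero _)
  obtain ⟨r, hr⟩ := h.nd.exists_isPair p0 hp
  have hD := hr.nondeg_pairPerp h.nd
  have hk' : finrank F (Φ.pairPerp p r) = j + 3 := by have := hr.finrank_pairPerp h.nd; omega
  have q2 := two_le_of_card_eq_sq hF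
  have h1 := card_Q h.toHD hr le_rfl (X := EG Φ) (fun _ _ _ _ => IsE_mem_EG) H
  rw [inf_eq_left.2 hH, card_sub hF, hk', card_TT] at h1
  set W := AE Φ H hp ⊓ (Φ.pairPerp p r).toAddSubgroup
  have iso : ∀ g ∈ H, g ∈ Φ.isom := fun g hg => EG_le_isom (hH hg)
  have h2 := chain (H := H) (A := EG Φ ⊓ stabilizer _ p) (R := stabA F (AE Φ H hp)) (B := EG Φ ⊓ QP Φ p hp)
    (L := LL Φ (Φ.pairPerp p r)) (fun g ⟨g1, _, g2⟩ v => ⟨fun hv => by
      simpa using map_mem_AE (inv_mem g1) (iso _ (inv_mem g1)) (g.symm_apply_eq.2 g2.symm) hv,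
      map_mem_AE g1 (iso _ g1) g2⟩)
    (fun g ⟨g1, a, d, g2⟩ => ⟨⟨g1, g2.apply_p⟩, fun v => by
      by_cases e : Φ.B p v = 0
      · rw [g2.apply_perp e]; exact add_mem_cancel_right (smul_mem_AE hp _)
      · exact ⟨fun ⟨_, c⟩ => (e (g2.B_p v ▸ c.pa)).elim, fun ⟨_, c⟩ => (e c.pa).elim⟩⟩)
    fun g hg => ⟨hg.1, hg.2 p fun u hu => Φ.B_eq_zero_symm (Φ.mem_pairPerp.1 hu).1⟩
  replace h2 := (Nat.mul_le_mul_right _ ((Subgroup.relIndex_le_of_le_left (H := stabA F (AE Φ H hp) ⊓ LL Φ (Φ.pairPerp p r))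
    (K := stabA F W) (fun g hg v => and_congr (hg.1 v) ⟨fun c => by simpa using LL_map h.nd (inv_mem hg.2) c,
      LL_map h.nd hg.2⟩) Subgroup.index_ne_zero_of_finite).trans_eq (Subgroup.inf_relIndex_right _ _))).trans h2
  have h3 := relIndex_mono H (inf_le_left : EG Φ ⊓ stab (F ∙ p) ≤ EG Φ)
  have h4 := relIndex_mono H (inf_le_left : EG Φ ⊓ stabilizer _ p ≤ EG Φ)
  have hW := fun W0 => lemW h hD hk' (W := W) (fun _ => And.right) ht tZ (fun a ⟨⟨d, ha⟩, _⟩ b ⟨⟨d', hb⟩, _⟩ => by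
      have := (hb.mul ha).hB
      refine ((ha.mul hb).mul (hb.mul ha).inv).congr (by abel) ?_
      rw [map_neg, add_comm a b, ← this, h.ε]; ring)
    (fun c a ⟨⟨d, ha⟩, _⟩ => (ha.mul ha).congr (by rw [← two_smul F, c, zero_smul]) (by
      rw [h.ε]; linear_combination d * c)) W0
  have e0 : 0 < Nat.card W := Nat.card_pos
  have o0 : 0 < (stabA F W).relIndex (LL Φ (Φ.pairPerp p r)) := Nat.pos_of_ne_zero Subgroup.index_ne_zero_of_finite
  have Z0 : ZE Φ H hp = ⊥ := by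
    by_contra Z0
    obtain ⟨s, s0, s1, s2⟩ := kap (ZE_le h.toHD hp) Z0 ht tZ
    have h5 := dc H (EG Φ ⊓ stab (F ∙ p)) p (C := vN Φ (F ∙ p) 0)
      (D := (· • p) '' {c : F | c ≠ 0 ∧ ∀ d ∈ ZE Φ H hp, d * (c * frobq hF c) ∈ ZE Φ H hp}) (fun v hv => by
        obtain ⟨g, hg, e⟩ := trans_top h (by omega) p0 (v := v) ⟨trivial, hv.2.1, hv.2.2.trans hp.2.symm⟩
        exact ⟨g, ⟨hg, mem_stab_pt (e ▸ hv.1 :)⟩, e⟩) fun g hg hg' => by
        obtain ⟨c, hc⟩ := exists_smul_of_stab hg.2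
        have c0 : c ≠ 0 := by rintro rfl; exact p0 (by simpa using hc.symm)
        exact ⟨c, ⟨c0, fun d hd => (HasE.of_smul (hc ▸ HasE.conj hd hg' (iso g hg')) c0).congr (by simp) rfl⟩, hc⟩
    rw [Set.ncard_image_of_injective _ (smul_left_injective F p0), s1] at h5
    have h6 := relIndex_mono H (A := EG Φ ⊓ stabilizer _ p) (B := EG Φ ⊓ stab (F ∙ p) ⊓ stabilizer _ p)
      fun g hg => ⟨⟨hg.1, mem_stab_pt ((show g p = p from hg.2).symm ▸ Submodule.mem_span_singleton_self p)⟩, hg.2⟩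
    have h8 : (q + 1) * Nat.card W ≤ (q + 2) * (stabA F W).relIndex (LL Φ (Φ.pairPerp p r)) := by
      by_cases W0 : W = ⊥
      · rw [show Nat.card W = 1 by rw [W0, AddSubgroup.card_bot]]; exact Nat.mul_le_mul (by omega) o0
      · exact (hW W0).elim (fun c => c.trans (Nat.mul_le_mul_right _ (by omega))) And.right
    exact hN.not_ge (arA h1 h2 h6 (card_pt p0 hp.2) h5 h3 s2 h8 e0 s0 Nat.card_pos)
  rw [Z0, AddSubgroup.card_bot, mul_one] at h1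
  have W0 : W = ⊥ := by_contra fun W0 => hN.not_ge (arB h1 (h2.trans h4) ((hW W0).resolve_right fun c => c.1 Z0) e0)
  rw [W0, AddSubgroup.card_bot, mul_one] at h1
  refine ⟨fun a d g hg hg' => ?_, fun g hg c e => ?_⟩
  · obtain ⟨w, hw, d, hg⟩ := hg.exists_perp hr
    obtain rfl : w = 0 := W0.le ⟨⟨_, _, hg', hg⟩, hw⟩
    obtain rfl : d = 0 := Z0.le ⟨_, hg', hg⟩
    exact hg.ext (isE_one hp)
  let R : Subgroup (V ≃ₗ[F] V) := ⟨⟨⟨{g | g ∈ EG Φ ⊓ stab (F ∙ p) ∧ ∃ u ∈ QP Φ p hp, u * g ∈ H},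
    fun {a b} ⟨a1, u, a2, a3⟩ ⟨b1, v, b2, b3⟩ => ⟨mul_mem a1 b1, _, mul_mem a2 (conj_QP hp (EG_le_isom a1.1)
      (exists_smul_of_stab a1.2).choose_spec.symm b2), by simpa [mul_assoc] using mul_mem a3 b3⟩⟩,
    one_mem _, 1, one_mem _, by simp⟩, fun {a} ⟨a1, u, a2, a3⟩ => ⟨inv_mem a1, _, conj_QP hp (EG_le_isom (inv_mem a1.1))
      (exists_smul_of_stab (inv_mem a1.2)).choose_spec.symm (inv_mem a2), by simpa [mul_assoc] using inv_mem a3⟩⟩
  have hQ : EG Φ ⊓ QP Φ p hp ≤ EG Φ ⊓ stab (F ∙ p) := fun g ⟨g1, _, _, g2⟩ =>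
    ⟨g1, mem_stab_pt (g2.apply_p.symm ▸ Submodule.mem_span_singleton_self p)⟩
  have h5 := chain (H := H) (R := R) (B := EG Φ ⊓ QP Φ p hp) (fun g hg => ⟨hg.2, 1, one_mem _, by simpa using hg.1⟩)
    (fun g hg => ⟨hQ hg, hQ hg, _, inv_mem hg.2, by simp⟩) le_rfl
  have h6 : R.relIndex (EG Φ ⊓ stab (F ∙ p)) ≠ 0 := Subgroup.index_ne_zero_of_finite
  have h7 : R.relIndex (EG Φ ⊓ stab (F ∙ p)) = 1 :=
    by_contra fun c => hN.not_ge (arC h1 (h5.trans h3) (by omega) (by omega))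
  obtain ⟨-, u, ⟨a, d, hu⟩, e⟩ := Subgroup.relIndex_eq_one.1 h7
    ⟨hg, mem_stab_pt (e ▸ Submodule.smul_mem _ _ (Submodule.mem_span_singleton_self p))⟩
  exact ⟨a, d, u, hu, e⟩⟩

omit [Finite (V ≃ₗ[F] V)] [Finite V] in
theorem card_pt' (h : HD Φ) {p : V} (hp : Φ.B p p ≠ 0) : (vN Φ (F ∙ p) (Φ.B p p)).ncard = q + 1 := by
  have := (vN_val h (Φ.nondeg_span_singleton hp) (j := 0) (finrank_span_singleton (by rintro rfl; simp at hp))).2 _ hp
    (h.symm p p)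
  simp at this
  exact_mod_cast this

theorem bound (h : HU Φ) {j : ℕ} (hk : finrank F V = j + 5) (hH : H ≤ EG Φ) (hne : ¬ EG Φ ≤ H) :
    (q ^ (j + 3)) ^ 2 * (q + 1) ≤ H.relIndex (EG Φ) ∨ ∃ u : V, u ≠ 0 ∧
      (vN Φ ⊤ (Φ.B u u)).ncard ≤ H.relIndex (EG Φ) * (vN Φ (F ∙ u) (Φ.B u u)).ncard := by
  refine or_iff_not_imp_left.2 fun c => ?_
  obtain ⟨u, u0, hu⟩ := (dich h hk hH (not_le.1 c)).main.resolve_left hne
  exact ⟨u, u0, (Nat.le_mul_of_pos_right _ (Nat.pos_of_ne_zero Subgroup.index_ne_zero_of_finite)).trans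
    (dc H (EG Φ) u (fun v => trans_top h (by omega) u0) fun g hg hg' => ⟨hu g hg', by simpa, (EG_le_isom hg).1 u u⟩)⟩

omit [Finite V] [Finite (V ≃ₗ[F] V)] in
theorem index_pt (h : HU Φ) (h3 : 3 ≤ finrank F V) {u : V} (u0 : u ≠ 0) :
    (stab (F ∙ u)).relIndex (EG Φ) * (vN Φ (F ∙ u) (Φ.B u u)).ncard = (vN Φ ⊤ (Φ.B u u)).ncard := by
  have h1 := Subgroup.relIndex_mul_relIndex (stabilizer _ u ⊓ (stab (F ∙ u) ⊓ EG Φ)) (stab (F ∙ u) ⊓ EG Φ) (EG Φ)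
    inf_le_right inf_le_right
  rw [Subgroup.inf_relIndex_right, Subgroup.inf_relIndex_right, ← inf_assoc, Subgroup.inf_relIndex_right, inf_eq_left.2
    (show stabilizer (V ≃ₗ[F] V) u ≤ stab (F ∙ u) from
    fun g hg => mem_stab_pt ((show g u = u from hg).symm ▸ Submodule.mem_span_singleton_self u)), relIndex_stab,
    relIndex_stab, mul_comm] at h1
  convert h1 using 3 <;> ext v
  · refine ⟨fun hv => ?_, fun ⟨g, hg, e⟩ => e ▸ ⟨(hg.1 u).1 (Submodule.mem_span_singleton_self u), by simpa,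
      (EG_le_isom hg.2).1 u u⟩⟩
    obtain ⟨g, hg, e⟩ := trans_top h h3 u0 ⟨trivial, hv.2⟩
    exact ⟨g, ⟨mem_stab_pt (e ▸ hv.1 :), hg⟩, e⟩
  · exact ⟨trans_top h h3 u0, fun ⟨g, hg, e⟩ => e ▸ ⟨trivial, by simpa, (EG_le_isom hg).1 u u⟩⟩

omit [Finite V] [Finite (V ≃ₗ[F] V)] in
theorem central_pt (h : HU Φ) (h3 : 3 ≤ finrank F V) {g : V ≃ₗ[F] V} (hg : g ∈ Φ.isom) (hc : ∀ t ∈ EG Φ, t * g = g * t)
    (u : V) : g u ∈ F ∙ u := by
  have key : ∀ x, Φ.Sing x → ∃ c : F, x = c • g x := fun x hx => by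
    by_cases x0 : x = 0
    · exact ⟨0, by simp [x0]⟩
    obtain ⟨d, d0, -, hd⟩ := exists_TP h.ne h.τ h.ε
    obtain ⟨t, ht⟩ := exists_E h.toHD hx (map_zero _) (d := d) (by simpa [h.ε] using hd)
    obtain ⟨v, hv⟩ := h.nd.exists_eq_one x0
    have := congrArg (fun s : V ≃ₗ[F] V => s (g.symm v)) (hc t (IsE_mem_EG ht))
    simp only [LinearEquiv.mul_apply, isE_tv h.toHD ht, LinearEquiv.apply_symm_apply, hv, map_sub, map_smul] at this
    exact ⟨Φ.B x (g.symm v), smul_right_injective V d0 (by linear_combination (norm := module) -this)⟩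
  by_cases c : Φ.B u u = 0
  · obtain ⟨c, hc⟩ := key u ⟨h.Q u, c⟩
    by_cases c0 : c = 0
    · simp [hc.trans (c0 ▸ zero_smul F _ : c • g u = 0)]
    exact (Submodule.smul_mem_iff _ c0).1 (hc ▸ Submodule.mem_span_singleton_self u)
  rw [← h.nd.perp_perp (F ∙ u)]
  obtain ⟨h1, h2⟩ := nd_pt h.nd (nondeg_top h.nd) trivial c
  refine fun w hw => Φ.B_eq_zero_symm (by_contra fun e => ?_)
  obtain ⟨x, hx, xs, e⟩ := g0 h h1 (by simp at h2 ⊢; omega) ⟨trivial, hw⟩ e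
  obtain ⟨c, hc⟩ := key x xs
  exact e (by rw [hc, map_smul, hg.1, Φ.mem_perp_span_singleton.1 hx.2, smul_zero])

theorem psu_of (hF : Fintype.card F = q ^ 2) {n b : ℕ} (hn : 4 ≤ n)
    (h1 : ∀ H ≤ EG (hermFormed hF n), ¬ EG (hermFormed hF n) ≤ H → b ≤ H.relIndex (EG (hermFormed hF n)))
    (h2 : ∃ u : Fin n → F, (stab (F ∙ u)).relIndex (EG (hermFormed hF n)) = b) :
    (∀ H : Subgroup (PSU n F q), H ≠ ⊤ → b ≤ H.index) ∧ ∃ H : Subgroup (PSU n F q), H.index = b := by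
  let φ := (glEquiv _ F).toMonoidHom.comp (Matrix.SpecialLinearGroup.toGL.comp (SU n F q).subtype)
  have hφ : Function.Injective φ := (glEquiv _ F).injective.comp
    (Matrix.SpecialLinearGroup.toGL_injective.comp Subtype.val_injective)
  have hr : φ.range = EG (hermFormed hF n) := by
    ext g
    obtain ⟨g, rfl⟩ := (glEquiv _ F).surjective g
    rw [← mem_suGL hF hn]
    exact ⟨fun ⟨s, e⟩ => (glEquiv _ F).injective e ▸ ⟨s.2, Units.ext s.1.2⟩,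
      fun hg => ⟨⟨⟨g.1, congrArg Units.val hg.2⟩, hg.1⟩, congrArg (glEquiv _ F) (Units.ext rfl)⟩⟩
  refine ⟨fun H hH => ?_, ?_⟩
  · have i := H.index_comap_of_surjective (QuotientGroup.mk'_surjective _)
    rw [← i, ← Subgroup.comap_map_eq_self_of_injective hφ (H.comap _), Subgroup.index_comap, hr]
    refine h1 _ (hr ▸ Subgroup.map_le_range _ _) fun c => hH (Subgroup.index_eq_one.1 ?_)
    rw [← i, ← Subgroup.comap_map_eq_self_of_injective hφ (H.comap _), Subgroup.index_comap, hr,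
      Subgroup.relIndex_eq_one.2 c]
  obtain ⟨u, rfl⟩ := h2
  refine ⟨((stab (F ∙ u)).comap φ).map (QuotientGroup.mk' _), ?_⟩
  rw [← Subgroup.index_comap_of_surjective _ (QuotientGroup.mk'_surjective _), Subgroup.comap_map_eq_self,
    Subgroup.index_comap, hr]
  rw [QuotientGroup.ker_mk']
  refine fun z hz => mem_stab_pt (central_pt (hu_herm hF hn) (by simp; omega) (EG_le_isom (hr.le ⟨z, rfl⟩)) (fun t ht => ?_) u)
  obtain ⟨t, rfl⟩ := hr.ge ht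
  rw [← map_mul, ← map_mul, Subgroup.mem_center_iff.1 hz]

theorem minI (hF : Fintype.card F = q ^ 2) (j : ℕ) (hc : Odd (j + 5) ∨ 3 ≤ q) : ∃ b : ℕ, (b : ℤ) * (q ^ 2 - 1) =
    (q * q ^ (j + 4) - (-1) ^ (j + 5)) * (q ^ (j + 4) + (-1) ^ (j + 5)) ∧
    (∀ H : Subgroup (PSU (j + 5) F q), H ≠ ⊤ → b ≤ H.index) ∧ ∃ H : Subgroup (PSU (j + 5) F q), H.index = b := by
  have h := hu_herm hF (n := j + 5) (by omega)
  have : Finite ((Fin (j + 5) → F) ≃ₗ[F] (Fin (j + 5) → F)) := DFunLike.finite _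
  obtain ⟨v1, v2⟩ := vN_val h.toHD (nondeg_top h.nd) (j := j + 4) (by simp)
  obtain ⟨u, -, u0, hu⟩ := Mx.exists_sing_herm h.ne h.ε h.Q (T := ⊤) (by simp)
  have h1 := index_pt h (by simp) u0
  have h2 := card_pt u0 hu.2
  have q2 := two_le_of_card_eq_sq hF
  rw [hu.2] at h1
  zify at h1 h2 q2
  rw [eq_sub_of_add_eq h2, v1] at h1
  refine ⟨_, h1, psu_of hF (by omega) (fun H hH hne => ?_) ⟨u, rfl⟩⟩
  have q3 : (0 : ℤ) < q ^ 2 - 1 := by nlinarith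
  have y1 : (q : ℤ) ^ 3 ≤ q ^ (j + 3) := pow_le_pow_right₀ (by omega) (by omega)
  zify
  refine le_of_mul_le_mul_right (h1 ▸ ?_) q3
  have hs : (-1 : ℤ) ^ (j + 4 + 1) = -1 ∨ (-1 : ℤ) ^ (j + 4 + 1) = 1 ∧ (3 : ℤ) ≤ q ∨ (-1 : ℤ) ^ (j + 4 + 1) = -1 := by
    rcases hc with c | c
    · exact Or.inl c.neg_one_pow
    · exact Or.inr ((neg_one_pow_eq_or ℤ _).imp_left fun e => ⟨e, by omega⟩)
  rcases bound h (j := j) (by simp) hH hne with c | ⟨v, v0, c⟩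
  · zify at c
    refine le_trans ?_ (mul_le_mul_of_nonneg_right c q3.le)
    rw [pow_succ' _ (j + 3)]
    generalize (q : ℤ) ^ (j + 3) = y at *
    have a1 : 0 ≤ (q : ℤ) ^ 2 - q - 1 := by nlinarith
    have a2 : (q : ℤ) ^ 2 ≤ y := by nlinarith
    have a3 : 0 ≤ y := by nlinarith
    rcases neg_one_pow_eq_or ℤ (j + 4 + 1) with e | e <;> rw [e] <;>
      nlinarith [mul_le_mul_of_nonneg_left a2 a3, mul_nonneg (mul_nonneg a3 a3) (show 0 ≤ (q : ℤ) ^ 2 - q - 2 by nlinarith)]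
  by_cases e : (hermFormed hF (j + 5)).B v v = 0
  · have h3 := card_pt v0 e
    rw [e] at c
    zify at c h3
    rwa [v1, eq_sub_of_add_eq h3] at c
  rw [card_pt' h.toHD e] at c
  zify at c
  rw [v2 _ e (h.toHD.symm v v)] at c
  refine le_trans ?_ ((mul_le_mul_of_nonneg_right c (show (0 : ℤ) ≤ q - 1 by omega)).trans_eq (by ring))
  have a3 : (q : ℤ) ^ 3 ≤ q ^ (j + 4) := pow_le_pow_right₀ (by omega) (by omega)
  generalize (q : ℤ) ^ (j + 4) = x at *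
  have a4 : 1 ≤ x := by nlinarith
  have a5 : 1 ≤ q * x := by nlinarith
  have a6 : 0 ≤ x * (q - 2) := mul_nonneg (by omega) (by omega)
  rcases hs with e | ⟨e, e'⟩ | e <;> rw [e]
  · nlinarith [mul_nonneg a6 (show 0 ≤ q * x + 1 by omega)]
  · nlinarith [mul_nonneg (show 0 ≤ x * (q - 2) - 1 by nlinarith) (show 0 ≤ q * x - 1 by omega)]
  · nlinarith [mul_nonneg a6 (show 0 ≤ q * x + 1 by omega)]

theorem minC (hF : Fintype.card F = 2 ^ 2) (j : ℕ) (hc : Even (j + 5)) : ∃ b : ℕ, (b : ℤ) * 3 =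
    2 ^ (j + 4) * (2 * 2 ^ (j + 4) - 1) ∧
    (∀ H : Subgroup (PSU (j + 5) F 2), H ≠ ⊤ → b ≤ H.index) ∧ ∃ H : Subgroup (PSU (j + 5) F 2), H.index = b := by
  have h := hu_herm hF (n := j + 5) (by omega)
  have : Finite ((Fin (j + 5) → F) ≃ₗ[F] (Fin (j + 5) → F)) := DFunLike.finite _
  obtain ⟨v1, v2⟩ := vN_val h.toHD (nondeg_top h.nd) (j := j + 4) (by simp)
  rw [hc.neg_one_pow] at v1 v2
  obtain ⟨u, -, hu⟩ := h.exists_unit (nondeg_top h.nd) (by simp)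
  have u1 : (hermFormed hF (j + 5)).B u u ≠ 0 := by simp only [hu]; simp
  have h1 := index_pt h (by simp) (u := u) (by rintro rfl; simp at u1)
  rw [card_pt' h.toHD u1] at h1
  zify at h1
  rw [v2 _ u1 (h.toHD.symm u u)] at h1
  refine ⟨_, h1, psu_of hF (by omega) (fun H hH hne => ?_) ⟨u, rfl⟩⟩
  zify
  refine le_of_mul_le_mul_right (h1.trans_le ?_) (by norm_num)
  have a3 : (0 : ℤ) < 2 ^ (j + 3) := by positivity
  rcases bound h (j := j) (by simp) hH hne with c | ⟨v, v0, c⟩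
  · zify at c
    push_cast
    rw [pow_succ' _ (j + 3)]
    nlinarith
  by_cases e : (hermFormed hF (j + 5)).B v v = 0
  · have h3 := card_pt v0 e
    rw [e, show (vN (hermFormed hF (j + 5)) (F ∙ v) 0).ncard = 3 by omega] at c
    zify at c
    rw [v1] at c
    push_cast at c ⊢
    rw [pow_succ' _ (j + 3)] at c ⊢
    nlinarith
  rw [card_pt' h.toHD e] at c
  zify at c
  rwa [v2 _ e (h.toHD.symm v v)] at c

end Cfsg.Agent.Root.MinU
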