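import Cfsg.Agent.Root.Fr3
import Cfsg.Agent.Root.Max3

/-! Overgroups of the monomial group in `GL_n(q)`, `q ≥ 5` (`MX`: tori `d2` and signed swaps): a transvection with
coordinate centre or axis gives an elementary one (`tvA`, `tvB`) and then `SL` (`MX.SLg_le`); if all coordinate
homologies are present every element is monomial or `SL ≤ X` (`MX.mon_of_hom`, homology groups `Hp`). -/

set_option autoImplicit false

namespace Cfsg.Agent.Root.Mx

open Cfsg.Agent.Geom Cfsg.Agent.AutCl Module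

variable {F : Type*} [Field F] {ι : Type} [Fintype ι] [DecidableEq ι] {X : Subgroup ((ι → F) ≃ₗ[F] (ι → F))}

local notation "e" i:max => (Pi.single i (1 : F) : ι → F)
local notation "ε" i:max => (LinearMap.proj i : Dual F (ι → F))

/-- `X` contains the monomial maps of determinant one. -/
structure MX (X : Subgroup ((ι → F) ≃ₗ[F] (ι → F))) : Prop where
  d2 : ∀ {i j : ι}, i ≠ j → ∀ {θ : F}, θ ≠ 0 → ∃ t ∈ X, ∀ v, t v = v + ((θ - 1) * v i) • (Pi.single i 1 : ι → F) +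
    ((θ⁻¹ - 1) * v j) • (Pi.single j 1 : ι → F)
  swap : ∀ {i j : ι}, i ≠ j → ∃ w ∈ X, ∀ v, w v = v + v i • ((Pi.single j 1 : ι → F) - Pi.single i 1) -
    v j • ((Pi.single i 1 : ι → F) + Pi.single j 1)
  five : ∀ l : List F, l.length ≤ 4 → ∃ x, x ∉ l
  seven : (5 : F) = 0 ∨ ∀ l : List F, l.length ≤ 6 → ∃ x, x ∉ l
  four : 4 ≤ Fintype.card ι

/-- `X` contains an elementary transvection. -/
def ET (X : Subgroup ((ι → F) ≃ₗ[F] (ι → F))) : Prop :=
  ∃ l i s, l ≠ i ∧ s ≠ 0 ∧ HasL X (rk1 (Pi.single l s) (LinearMap.proj i))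

/-- Monomial maps. -/
def MonL (c : (ι → F) ≃ₗ[F] (ι → F)) : Prop := ∀ r, ∃ i, ∀ j ≠ i, c (Pi.single r 1) j = 0

/-- The homology group with centre `a` and axis `ker α` lies in `X`. -/
def Hp (X : Subgroup ((ι → F) ≃ₗ[F] (ι → F))) (a : ι → F) (α : Dual F (ι → F)) : Prop :=
  α a = 1 ∧ ∀ η : F, η ≠ 0 → HasL X (rk1 ((η - 1) • a) α)

omit [Fintype ι] in
theorem single_eq (i : ι) (s : F) : (Pi.single i s : ι → F) = s • e i := by simp [← Pi.single_smul]

theorem sum_e (v : ι → F) : ∑ i, v i • e i = v := by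
  simp [← Pi.single_smul, Finset.univ_sum_single]

theorem exists_e_ne {ψ : Dual F (ι → F)} (h : ψ ≠ 0) : ∃ i, ψ (e i) ≠ 0 := by
  by_contra! hc
  exact h (LinearMap.ext fun v => by rw [← sum_e v]; simp [hc])

omit [Fintype ι] [DecidableEq ι] in
theorem Hp.conj {a : ι → F} {α β : Dual F (ι → F)} (h : Hp X a α) {s : (ι → F) ≃ₗ[F] (ι → F)} (hs : s ∈ X)
    (hβ : ∀ v, β (s v) = α v) : Hp X (s a) β :=
  ⟨by rw [hβ, h.1], fun η hη => (h.2 η hη).conj hs fun v => by simp [hβ]⟩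

omit [Fintype ι] [DecidableEq ι] in
theorem Hp.act {a b : ι → F} {α β : Dual F (ι → F)} (h : Hp X a α) (h' : Hp X b β) {η : F} (hη : η ≠ 0) :
    Hp X (b + ((η - 1) * α b) • a) (β + ((η⁻¹ - 1) * β a) • α) := by
  obtain ⟨G, hG, e1⟩ := (h.2 η hη).exists_apply
  have := h'.conj (β := β + ((η⁻¹ - 1) * β a) • α) hG fun v => by simp [e1, h.1]; field_simp; ring
  rwa [e1, show rk1 ((η - 1) • a) α b = ((η - 1) * α b) • a by simp [smul_smul, mul_comm]] at this

namespace MX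

omit [DecidableEq ι] in
theorem out (h : 4 ≤ Fintype.card ι) (a b c : ι) : ∃ m, m ≠ a ∧ m ≠ b ∧ m ≠ c := by
  classical
  obtain ⟨m, hm⟩ := exists_out_list [a, b, c] (by simp; omega)
  exact ⟨m, by simpa [not_or] using hm⟩

theorem two (h : MX X) : ∃ θ : F, θ ≠ 0 ∧ θ - 1 ≠ 0 ∧ θ⁻¹ - 1 ≠ 0 := by
  obtain ⟨x, hx⟩ := h.five [0, 1] (by simp)
  simp only [List.mem_cons, List.not_mem_nil, or_false, not_or] at hx
  exact ⟨x, hx.1, sub_ne_zero.2 hx.2, by simpa [sub_eq_zero] using hx.2⟩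

theorem tvA (h : MX X) {p : ι → F} {i : ι} (hp : p ≠ 0) (h0 : p i = 0) (H : HasL X (rk1 p (ε i))) : ET X := by
  obtain ⟨θ, t0, t1, -⟩ := h.two
  have st : ∀ {p : ι → F} {l m : ι}, p i = 0 → l ≠ m → i ≠ l → i ≠ m → HasL X (rk1 p (ε i)) →
      HasL X (rk1 (((θ - 1) * p l) • e l + ((θ⁻¹ - 1) * p m) • e m) (ε i)) := fun {p l m} h0 a1 a2 a3 H => by
    obtain ⟨t, ht, e1⟩ := h.d2 a1 t0
    exact ((H.conj (β := rk1 (t p) (ε i)) ht fun v => by simp; simp [e1, a2, a3]).add (H.neg (rk1_mul_zero h0))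
      (LinearMap.ext fun v => by simp [h0])).congr fun v => by simp [e1]; module
  obtain ⟨l, hl⟩ := Function.ne_iff.1 hp
  have a1 : i ≠ l := by rintro rfl; exact hl h0
  obtain ⟨m, hm⟩ := out h.four i l l
  obtain ⟨n, hn⟩ := out h.four i l m
  refine ⟨l, i, (θ - 1) * ((θ - 1) * p l), a1.symm, by simpa [t1] using hl, (st (by simp [a1, Ne.symm hm.1])
    (Ne.symm hn.2.1) a1 (Ne.symm hn.1) (st h0 (Ne.symm hm.2.1) a1 (Ne.symm hm.1) H)).congr fun v => ?_⟩
  simp [hn, Ne.symm hm.2.1, single_eq l (_ * _)]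

theorem tvB (h : MX X) {ψ : Dual F (ι → F)} {i : ι} (hp : ψ ≠ 0) (h0 : ψ (e i) = 0) (H : HasL X (rk1 (e i) ψ)) :
    ET X := by
  obtain ⟨θ, t0, t1, -⟩ := h.two
  have st : ∀ {ψ : Dual F (ι → F)} {l m : ι}, ψ (e i) = 0 → l ≠ m → l ≠ i → m ≠ i → HasL X (rk1 (e i) ψ) →
      HasL X (rk1 (e i) (((θ - 1) * ψ (e l)) • ε l + ((θ⁻¹ - 1) * ψ (e m)) • ε m)) := fun {ψ l m} h0 a1 a2 a3 H => by
    obtain ⟨t, ht, e1⟩ := h.d2 a1 t0
    have : t.symm (e i) = e i := t.symm_apply_eq.2 (by simp [e1, a2, a3])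
    exact ((H.conj (β := rk1 (e i) (ψ ∘ₗ t.toLinearMap)) (inv_mem ht) fun v => by simp [this]).add
      (H.neg (rk1_mul_zero h0)) (LinearMap.ext fun v => by simp [e1, a2, a3, h0])).congr fun v => by
        simp [e1]; module
  obtain ⟨l, hl⟩ := exists_e_ne hp
  have a1 : l ≠ i := by rintro rfl; exact hl h0
  obtain ⟨m, hm⟩ := out h.four i l l
  obtain ⟨n, hn⟩ := out h.four i l m
  refine ⟨i, l, (θ - 1) * ((θ - 1) * ψ (e l)), a1.symm, by simpa [t1] using hl, (st (by simp [a1, hm.1])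
    (Ne.symm hn.2.1) a1 hn.1 (st h0 (Ne.symm hm.2.1) a1 hm.1 H)).congr fun v => ?_⟩
  simp [hm.2.1, Ne.symm hn.2.1, Ne.symm hn.2.2, single_eq i (_ * _), smul_smul, mul_comm]

theorem SLg_le (h : MX X) (H : ET X) : SLg F (ι → F) ≤ X := by
  obtain ⟨l, i, s, hli, s0, H⟩ := H
  let T : ι → ι → Prop := fun a b => ∀ c, HasL X (rk1 (Pi.single a c) (ε b))
  have T0 : T l i := fun c => by
    by_cases c0 : c = 0
    · exact HasL.zero.congr (by simp [c0])
    obtain ⟨m, m1, m2, -⟩ := out h.four l i i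
    obtain ⟨t, ht, e1⟩ := h.d2 m1.symm (θ := c / s) (by simp [c0, s0])
    exact H.conj ht fun v => by
      simp [e1, m1, m2.symm, hli.symm, single_eq l s, single_eq l c]; match_scalars; field_simp; ring
  have mA : ∀ {a b i}, a ≠ b → i ≠ a → i ≠ b → T a i → T b i := fun {a b i} a1 a2 a3 H c => by
    obtain ⟨w, hw, e1⟩ := h.swap a1
    exact (H c).conj hw fun v => by simp [e1, a2, a3, a1.symm, single_eq _ c]; module
  have mB : ∀ {a b i}, a ≠ b → i ≠ a → i ≠ b → T i a → T i b := fun {a b i} a1 a2 a3 H c => by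
    obtain ⟨w, hw, e1⟩ := h.swap a1
    exact (H c).conj hw fun v => by simp [e1, a2.symm, a3.symm, a1.symm, single_eq _ c]
  have mA' : ∀ {a b i}, i ≠ a → i ≠ b → T a i → T b i := fun {a b i} a2 a3 H => by
    by_cases a1 : a = b
    exacts [a1 ▸ H, mA a1 a2 a3 H]
  have mB' : ∀ {a b i}, i ≠ a → i ≠ b → T i a → T i b := fun {a b i} a2 a3 H => by
    by_cases a1 : a = b
    exacts [a1 ▸ H, mB a1 a2 a3 H]
  have all : ∀ a b, a ≠ b → T a b := fun a b ab => by
    obtain ⟨m, m1, m2, -⟩ := out h.four i b b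
    exact mA' m2.symm ab.symm (mB' m1 m2 (mA' hli.symm m1.symm T0))
  have ce : ∀ a, e a ∈ centres X := fun a φ hφ => by
    have : ∀ S : Finset ι, HasL X (rk1 (e a) (∑ b ∈ S, φ (e b) • ε b)) := fun S => by
      induction S using Finset.induction_on with
      | empty => exact HasL.zero.congr (by simp)
      | insert b S hb ih =>
        by_cases ab : a = b
        · exact ih.congr fun v => by simp [Finset.sum_insert hb, ← ab, hφ]
        · exact ((all a b ab (φ (e b))).add ih (rk1_mul_zero (by simp [Ne.symm ab]))).congr fun v => by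
            simp [Finset.sum_insert hb, single_eq a (φ _), add_smul, smul_smul, mul_comm]
    exact (this Finset.univ).congr fun v => by
      conv_rhs => rw [← sum_e v]
      simp [mul_comm, Finset.sum_smul, smul_smul]
  exact Mx.SLg_le fun p => by rw [← sum_e p]; exact Submodule.sum_mem _ fun a _ => Submodule.smul_mem _ _ (ce a)

variable {a : ι → F} {α : Dual F (ι → F)}

theorem hA (h : MX X) (hH : ∀ i, Hp X (e i) (ε i)) (hE : ¬ ET X) (H : Hp X a α) (i : ι) :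
    a i = 0 ↔ α (e i) = 0 := by
  obtain ⟨θ, t0, t1, t2⟩ := h.two
  have K := (hH i).act H t0
  have a0 : a ≠ 0 := by rintro rfl; simpa using H.1
  have α0 : α ≠ 0 := by rintro rfl; simpa using H.1
  have M := (K.2 θ t0).mul (H.2 θ⁻¹ (inv_ne_zero t0))
  refine ⟨fun h0 => by_contra fun h1 => hE (h.tvA (i := i) (p := ((θ - 1) * (θ⁻¹ - 1) * α (e i)) • a)
    (by simp [*]) (by simp [h0]) (M.congr fun v => ?_)), fun h0 => by_contra fun h1 => hE (h.tvB (i := i)
    (ψ := ((θ - 1) * θ⁻¹ * (θ - 1) * a i) • α) (by simp [*]) (by simp [h0]) (M.congr fun v => ?_))⟩ <;>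
  · simp [h0, H.1]; match_scalars <;> field_simp <;> ring

theorem hB (h : MX X) (hH : ∀ i, Hp X (e i) (ε i)) (hE : ¬ ET X) (H : Hp X a α) {j : ι} (hj : a j ≠ 0) :
    a j * α (e j) ≠ 0 ∧ (a j * α (e j) = 1 ∨ 2 * (a j * α (e j)) = 1) := by
  have t0 : a j * α (e j) ≠ 0 := mul_ne_zero hj (mt (h.hA hH hE H j).2 hj)
  refine ⟨t0, or_iff_not_imp_left.2 fun t1 => ?_⟩
  have e0 : 1 - (a j * α (e j))⁻¹ ≠ 0 := fun e3 => t1 (inv_eq_one.1 (sub_eq_zero.1 e3).symm)
  have := (h.hA hH hE (H.act (hH j) e0) j).1 (by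
    simp only [Pi.add_apply, Pi.smul_apply, Pi.single_eq_same, smul_eq_mul]
    have := (mul_ne_zero_iff.1 t0).2; field_simp; ring)
  simp only [LinearMap.add_apply, LinearMap.smul_apply, LinearMap.proj_apply, Pi.single_eq_same, smul_eq_mul,
    mul_assoc] at this
  generalize a j * α (e j) = t at *
  have t2 : t - 1 ≠ 0 := sub_ne_zero.2 t1
  rw [show 1 - t⁻¹ = (t - 1) / t by field_simp] at this
  field_simp at this
  linear_combination this

theorem hS (h : MX X) (hH : ∀ i, Hp X (e i) (ε i)) (hE : ¬ ET X) (H : Hp X a α) {i j : ι} (hij : i ≠ j)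
    (hi : a i ≠ 0) (hj : a j ≠ 0) {η : F} (h0 : η ≠ 0) (h1 : η ≠ 1) : ∃ k : F, (k = 1 ∨ k = 2) ∧
      k * ((η - 1) * (η⁻¹ - 1)) * ((a i * α (e i)) * (a j * α (e j))) = 1 := by
  have := (h.hB hH hE (H.act (hH j) h0) (j := i) (by
    simpa [hij, hi, sub_eq_zero, h1] using mt (h.hA hH hE H j).2 hj)).2
  simp only [Pi.add_apply, Pi.smul_apply, LinearMap.add_apply, LinearMap.smul_apply, LinearMap.proj_apply,
    Pi.single_eq_of_ne hij, Pi.single_eq_of_ne hij.symm, smul_eq_mul, zero_add] at this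
  rcases this with e1 | e1
  exacts [⟨1, .inl rfl, by linear_combination e1⟩, ⟨2, .inr rfl, by linear_combination e1⟩]

theorem hC (h : MX X) (hH : ∀ i, Hp X (e i) (ε i)) (hE : ¬ ET X) (H : Hp X a α) {i j : ι} (hij : i ≠ j)
    (hi : a i ≠ 0) (hj : a j ≠ 0) : (5 : F) = 0 ∧ 2 * (a i * α (e i)) = 1 := by
  have S := @hS _ _ _ _ _ _ _ _ h hH hE H i j hij hi hj
  have B1 := (h.hB hH hE H hi).2
  have B2 := (h.hB hH hE H hj).2
  generalize a i * α (e i) = s at *
  generalize a j * α (e j) = t at *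
  rcases h.seven with h5 | h7
  · have n1 : (1 : F) ≠ 0 := one_ne_zero
    obtain ⟨k, hk, e1⟩ := @S (-1) (by simp) fun e1 => n1 (by linear_combination h5 + 2 * e1)
    rw [inv_neg, inv_one] at e1
    refine ⟨h5, B1.resolve_left fun e2 => n1 ?_⟩
    subst e2
    rcases hk with rfl | rfl <;> rcases B2 with e2 | e2
    · linear_combination 2 * e1 - 8 * e2 - h5
    · linear_combination e1 - 2 * e2
    · linear_combination 3 * e1 - 24 * e2 - 4 * h5
    · linear_combination 2 * e1 - 8 * e2 - h5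
  · exfalso
    have key : ∀ {x y k : F}, x ≠ 0 → y ≠ 0 → k * ((x - 1) * (x⁻¹ - 1)) * (s * t) = 1 →
        k * ((y - 1) * (y⁻¹ - 1)) * (s * t) = 1 → y = x ∨ y = x⁻¹ := fun {x y k} x0 y0 e1 e2 => by
      have k0 : k * (s * t) ≠ 0 := fun e3 => by
        have : (1 : F) = 0 := by linear_combination (x - 1) * (x⁻¹ - 1) * e3 - e1
        simp at this
      have e3 : (x - 1) * (x⁻¹ - 1) = (y - 1) * (y⁻¹ - 1) := mul_left_cancel₀ k0 (by linear_combination e1 - e2)
      have : (y - x) * (y - x⁻¹) = 0 := by field_simp at e3 ⊢; linear_combination e3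
      simpa [sub_eq_zero] using this
    obtain ⟨x, hx⟩ := h7 [0, 1] (by simp)
    obtain ⟨y, hy⟩ := h7 [0, 1, x, x⁻¹] (by simp)
    obtain ⟨z, hz⟩ := h7 [0, 1, x, x⁻¹, y, y⁻¹] (by simp)
    simp only [List.mem_cons, List.not_mem_nil, or_false, not_or] at hx hy hz
    obtain ⟨k1, rfl | rfl, e1⟩ := S hx.1 hx.2 <;> obtain ⟨k2, rfl | rfl, e2⟩ := S hy.1 hy.2.1 <;>
      obtain ⟨k3, rfl | rfl, e3⟩ := S hz.1 hz.2.1 <;>
      first | (have := key hx.1 hy.1 e1 e2; tauto) | (have := key hx.1 hz.1 e1 e3; tauto) |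
        (have := key hy.1 hz.1 e2 e3; tauto)

theorem hD3 (h : MX X) (hH : ∀ i, Hp X (e i) (ε i)) (hE : ¬ ET X) (H : Hp X a α) {i j m : ι} (hij : i ≠ j)
    (him : i ≠ m) (hmj : m ≠ j) (hi : a i ≠ 0) (hj : a j ≠ 0) (hm : a m ≠ 0) : False := by
  obtain ⟨h5, e1⟩ := h.hC hH hE H hij hi hj
  have e2 := (h.hC hH hE H hij.symm hj hi).2
  have n2 : (-1 - 1 : F) ≠ 0 := fun e3 => one_ne_zero (α := F) (by linear_combination h5 + 2 * e3)
  have aj := mt (h.hA hH hE H j).2 hj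
  have := (h.hC hH hE (H.act (hH j) (η := -1) (by simp)) him (by simp [*]) (by simp [*])).2
  simp only [Pi.add_apply, Pi.smul_apply, LinearMap.add_apply, LinearMap.smul_apply, LinearMap.proj_apply,
    Pi.single_eq_of_ne hij, Pi.single_eq_of_ne hij.symm, smul_eq_mul, zero_add, inv_neg, inv_one] at this
  exact one_ne_zero (α := F) (by linear_combination this - 4 * (a j * α (e j)) * e1 - 2 * e2)

theorem hD2 (h : MX X) (hH : ∀ i, Hp X (e i) (ε i)) (hE : ¬ ET X) (H : Hp X a α) {i j : ι} (hij : i ≠ j)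
    (hi : a i ≠ 0) (hj : a j ≠ 0) : False := by
  obtain ⟨h5, e1⟩ := h.hC hH hE H hij hi hj
  obtain ⟨l, l1, l2, -⟩ := out h.four i j j
  have al : a l = 0 := by_contra fun hl => h.hD3 hH hE H hij l1.symm l2 hi hj hl
  have αl := (h.hA hH hE H l).1 al
  obtain ⟨w, hw, e2⟩ := h.swap l1.symm
  have n2 : (2 : F) ≠ 0 := fun e3 => one_ne_zero (α := F) (by linear_combination h5 - 2 * e3)
  have n3 : (3 : F) ≠ 0 := fun e3 => one_ne_zero (α := F) (by linear_combination 2 * e3 - h5)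
  have K := H.act (H.conj (β := α ∘ₗ w.symm.toLinearMap) hw fun v => by simp) n2
  have e3 : (2 - 1) * α (w a) = 3 := by
    simp only [e2, al, map_add, map_sub, map_smul, αl, H.1, smul_eq_mul]; linear_combination 2 * e1 - (a i * α (e i)) * h5
  rw [e3] at K
  refine h.hD3 hH hE K hij l1.symm l2 ?_ ?_ ?_
  · simp [e2, al, l1.symm, hi, n3]
  · simp only [e2, al, Pi.add_apply, Pi.sub_apply, Pi.smul_apply, Pi.single_eq_of_ne l2.symm,
      Pi.single_eq_of_ne hij.symm, smul_eq_mul]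
    exact fun e4 => hj (by linear_combination (a j) * h5 - e4)
  · simp [e2, al, l1, hi]

theorem mon_of_hom (h : MX X) (hH : ∀ i, Hp X (e i) (ε i)) (hE : ¬ ET X) {y : (ι → F) ≃ₗ[F] (ι → F)}
    (hy : y ∈ X) : MonL y := fun r => by
  have H := (hH r).conj (β := (ε r) ∘ₗ y.symm.toLinearMap) hy fun v => by simp
  by_cases hc : ∃ i, y (e r) i ≠ 0
  · obtain ⟨i, hi⟩ := hc
    exact ⟨i, fun j hj => by_contra fun hj' => h.hD2 hH hE H hj hj' hi⟩
  · exact ⟨r, fun j _ => by_contra fun hj' => hc ⟨j, hj'⟩⟩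

end MX

end Cfsg.Agent.Root.Mx
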