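import Cfsg.Agent.Root.Mon

/-! Overgroups of the monomial group in `SL_n(q)`, `q ≥ 5`, `n ≥ 7`: `MX.mon_or` (every element is monomial or
`SL ≤ X`), via the action `quo` on the quotient by a coordinate line (`par`) and elements of rank two. -/

set_option autoImplicit false

namespace Cfsg.Agent.Root.Mx

open Cfsg.Agent.Geom Cfsg.Agent.AutCl Module

variable {F : Type*} [Field F] {ι : Type} [Fintype ι] [DecidableEq ι] {X : Subgroup ((ι → F) ≃ₗ[F] (ι → F))}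

local notation "e" i:max => (Pi.single i (1 : F) : ι → F)
local notation "ε" i:max => (LinearMap.proj i : Dual F (ι → F))

/-- The action of the stabiliser of a coordinate line on the quotient. -/
def quo (X : Subgroup ((ι → F) ≃ₗ[F] (ι → F))) (o : ι) :
    Subgroup (({i // i ≠ o} → F) ≃ₗ[F] ({i // i ≠ o} → F)) where
  carrier := {y | ∃ c ∈ X, ∀ v (i : {i // i ≠ o}), c v i = y (fun j => v j) i}
  one_mem' := ⟨1, one_mem _, fun _ _ => rfl⟩
  mul_mem' := fun {a b} ⟨c, hc, e1⟩ ⟨d, hd, e2⟩ => ⟨c * d, mul_mem hc hd, fun v i => by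
    change c (d v) i = a (b _) i
    rw [e1, funext (e2 v)]⟩
  inv_mem' := fun {a} ⟨c, hc, e1⟩ => ⟨c⁻¹, inv_mem hc, fun v i => by
    have : a (fun j => c.symm v j) = fun j : {i // i ≠ o} => v j := funext fun j => by simp [← e1]
    change c.symm v i = a.symm _ i
    rw [← this, a.symm_apply_apply]⟩

theorem eq_smul_e {v : ι → F} {o : ι} (h : ∀ j ≠ o, v j = 0) : v = v o • e o :=
  funext fun j => by by_cases hj : j = o <;> simp [hj, h]

theorem col_ne (c : (ι → F) ≃ₗ[F] (ι → F)) {k o : ι} (h : ∀ j ≠ o, c (e k) j = 0) : c (e k) o ≠ 0 := fun h0 => by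
  have := eq_smul_e h
  rw [h0, zero_smul, c.map_eq_zero_iff] at this
  simpa using congrFun this k

theorem exists_quo {c : (ι → F) ≃ₗ[F] (ι → F)} (hc : c ∈ X) {o : ι} (ho : ∀ j ≠ o, c (e o) j = 0) :
    ∃ y ∈ quo X o, (∀ v (i : {i // i ≠ o}), c v i = y (fun j => v j) i) ∧
      ∀ w, ∃ v : ι → F, v o = 0 ∧ (fun j : {i // i ≠ o} => v j) = w := by
  let E : ({i // i ≠ o} → F) →ₗ[F] (ι → F) := LinearMap.pi fun j => if h : j = o then 0 else LinearMap.proj ⟨j, h⟩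
  have E1 : ∀ w (i : {i // i ≠ o}), E w i = w i := fun w i => by simp [E, i.2]
  have E2 : ∀ w, E w o = 0 := fun w => by simp [E]
  let y := LinearMap.funLeft F F (Subtype.val : {i // i ≠ o} → ι) ∘ₗ c.toLinearMap ∘ₗ E
  have hy : ∀ v (i : {i // i ≠ o}), c v i = y (fun j => v j) i := fun v i => by
    have : v = E (fun j => v j) + v o • e o := funext fun j => by
      by_cases hj : j = o
      · simp [hj, E2]
      · simp [hj, E1 _ ⟨j, hj⟩]
    conv_lhs => rw [this]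
    simp [y, ho _ i.2, LinearMap.funLeft_apply]
  have inj : Function.Injective y := (injective_iff_map_eq_zero y).2 fun w hw => funext fun i => by
    have e1 := eq_smul_e (v := c (E w)) (o := o) fun j hj => congrFun hw ⟨j, hj⟩
    have e2 : c (c (e o) o • E w) = c (c (E w) o • e o) := by
      rw [map_smul, map_smul, e1, eq_smul_e ho]; simp [smul_smul, mul_comm]
    simpa [col_ne c ho, i.2, E1] using congrFun (c.injective e2) i
  exact ⟨LinearEquiv.ofInjectiveEndo y inj, ⟨c, hc, hy⟩, hy, fun w => ⟨E w, E2 w, funext (E1 w)⟩⟩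

theorem MonL.row {y : (ι → F) ≃ₗ[F] (ι → F)} (h : MonL y) (m : ι) :
    ∃ m', (∀ j ≠ m', y (e m) j = 0) ∧ ∀ x ≠ m, y (e x) m' = 0 := by
  obtain ⟨m', h1⟩ := h m
  refine ⟨m', h1, fun x hx => by_contra fun h0 => ?_⟩
  obtain ⟨x', h2⟩ := h x
  obtain rfl : m' = x' := by_contra fun hc => h0 (h2 _ hc)
  have e2 : y (y (e m) m' • e x) = y (y (e x) m' • e m) := by
    rw [map_smul, map_smul, eq_smul_e h1, eq_smul_e h2]; simp [smul_smul, mul_comm]
  exact h0 (by simpa [hx.symm, eq_comm] using congrFun (y.injective e2) m)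

theorem out4 (h : 5 ≤ Fintype.card ι) (a b c d : ι) : ∃ m, m ≠ a ∧ m ≠ b ∧ m ≠ c ∧ m ≠ d := by
  obtain ⟨m, hm⟩ := exists_out_list [a, b, c, d] (by simp; omega)
  exact ⟨m, by simpa [not_or] using hm⟩

theorem out3x3 (h : 7 ≤ Fintype.card ι) (a b c d : ι) : ∃ x y z, x ≠ y ∧ x ≠ z ∧ y ≠ z ∧ ∀ m, m = x ∨ m = y ∨ m = z →
    m ≠ a ∧ m ≠ b ∧ m ≠ c ∧ m ≠ d := by
  obtain ⟨x, hx⟩ := exists_out_list [a, b, c, d] (by simp; omega)
  obtain ⟨y, hy⟩ := exists_out_list [x, a, b, c, d] (by simp; omega)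
  obtain ⟨z, hz⟩ := exists_out_list [x, y, a, b, c, d] (by simp; omega)
  simp only [List.mem_cons, List.not_mem_nil, or_false, not_or] at hx hy hz
  exact ⟨x, y, z, Ne.symm hy.1, Ne.symm hz.1, Ne.symm hz.2.1, by rintro m (rfl | rfl | rfl) <;> tauto⟩

/-- Maps of rank at most two. -/
def R2 (c : (ι → F) ≃ₗ[F] (ι → F)) : Prop := ∃ α β : Dual F (ι → F), ∀ v, α v = 0 → β v = 0 → c v = v

namespace MX

variable {c : (ι → F) ≃ₗ[F] (ι → F)} {o : ι}

theorem kill (h : MX X) (hE : ¬ ET X) (hc : c ∈ X) (ho : ∀ j ≠ o, c (e o) j = 0) {m m' r : ι} (a1 : m ≠ o)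
    (a2 : m' ≠ o) (H1 : ∀ j ≠ o, j ≠ m' → c (e m) j = 0) (H2 : ∀ x ≠ m, c (e x) m' = 0) (a3 : r ≠ o) (a4 : r ≠ m) :
    c (e r) o = 0 := by
  obtain ⟨θ, t0, -, t2⟩ := h.two
  obtain ⟨t, ht, e1⟩ := h.d2 a1 t0
  obtain ⟨t', ht', e2⟩ := h.d2 a2 t0
  obtain ⟨ρ, hρ, e3⟩ : ∃ ρ ∈ X, ∀ v, ρ (c (t v)) = t' (c v) :=
    ⟨t' * c * t⁻¹ * c⁻¹, mul_mem (mul_mem (mul_mem ht' hc) (inv_mem ht)) (inv_mem hc), fun v => by simp⟩
  have e4 : ∀ v, c v m' = v m * c (e m) m' := fun v => by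
    conv_lhs => rw [← sum_e v]
    simp only [map_sum, map_smul, Finset.sum_apply, Pi.smul_apply, smul_eq_mul]
    exact Finset.sum_eq_single m (fun x _ hx => by rw [H2 x hx, mul_zero]) (by simp)
  have e5 : ρ (e o) = e o := by
    have := e3 (e o)
    rw [e1, e2, eq_smul_e ho] at this
    simp [a1, a2] at this
    rw [eq_smul_e ho] at this
    have l0 := col_ne c ho
    generalize c (e o) o = l at *
    simp only [map_add, map_smul, smul_smul, ← add_smul, Pi.smul_apply, Pi.single_eq_same, smul_eq_mul,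
      mul_one] at this
    rw [show l + (θ⁻¹ - 1) * l = θ⁻¹ * l by ring] at this
    exact smul_right_injective _ (mul_ne_zero (inv_ne_zero t0) l0) this
  have H : HasL X (rk1 (e o) ((ε o) ∘ₗ ρ.toLinearMap - ε o)) := .of_apply hρ fun w => funext fun j => by
    obtain ⟨v, rfl⟩ := (t.trans c).surjective w
    by_cases hj : j = o
    · simp [hj]
    simp only [LinearEquiv.trans_apply, e3]
    by_cases hj' : j = m'
    · simp [e1, e2, hj', a2, e4 v, ho _ a2, mul_assoc]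
    · simp [e1, e2, hj', hj, ho _ hj, H1 _ hj hj']
  have := LinearMap.congr_fun (by_contra fun h0 => hE (h.tvB h0 (by simp [e5]) H) :
    (ε o) ∘ₗ ρ.toLinearMap - ε o = 0) (c (t (e r)))
  simp only [LinearMap.sub_apply, LinearMap.comp_apply, LinearEquiv.coe_coe, e3] at this
  simpa [e1, e2, a3.symm, a4.symm, a2.symm, t2] using this

theorem mx_quo (h : MX X) (h5 : 5 ≤ Fintype.card ι) (o : ι) : MX (quo X o) where
  d2 {i j} hij {θ} h0 := by
    obtain ⟨t, ht, e1⟩ := h.d2 (Subtype.val_injective.ne hij) h0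
    obtain ⟨y, hy, e2, e3⟩ := exists_quo ht (o := o) fun k hk => by simp [e1, hk, i.2, j.2]
    refine ⟨y, hy, fun w => funext fun k => ?_⟩
    obtain ⟨v, -, rfl⟩ := e3 w
    simp [← e2, e1, Pi.single_apply, Subtype.ext_iff]
  swap {i j} hij := by
    obtain ⟨t, ht, e1⟩ := h.swap (Subtype.val_injective.ne hij)
    obtain ⟨y, hy, e2, e3⟩ := exists_quo ht (o := o) fun k hk => by simp [e1, hk, i.2, j.2]
    refine ⟨y, hy, fun w => funext fun k => ?_⟩
    obtain ⟨v, -, rfl⟩ := e3 w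
    simp [← e2, e1, Pi.single_apply, Subtype.ext_iff]
  five := h.five
  seven := h.seven
  four := by simp; omega

theorem hp_quo (h : MX X) (o : ι) (i : {i // i ≠ o}) : Hp (quo X o) (Pi.single i 1) (LinearMap.proj i) := by
  refine ⟨by simp, fun θ h0 => ?_⟩
  obtain ⟨t, ht, e1⟩ := h.d2 i.2 h0
  obtain ⟨y, hy, e2, e3⟩ := exists_quo ht (o := o) fun k hk => by simp [e1, hk, i.2]
  refine .of_apply hy fun w => funext fun k => ?_
  obtain ⟨v, -, rfl⟩ := e3 w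
  simp [← e2, e1, Pi.single_apply, Subtype.ext_iff, k.2, mul_comm]

theorem not_ET_quo (h : MX X) (h5 : 5 ≤ Fintype.card ι) (hE : ¬ ET X) (o : ι) : ¬ ET (quo X o) := by
  rintro ⟨l, i, s, hli, s0, H⟩
  obtain ⟨y, ⟨τ, hτ, e1⟩, e2⟩ := H.exists_apply
  have e3 : ∀ v, ∀ j ≠ o, τ v j = v j + v i * (Pi.single l.1 s : ι → F) j := fun v j hj => by
    simp [e1 v ⟨j, hj⟩, e2, Pi.single_apply, Subtype.ext_iff]
  have ho : ∀ j ≠ o, τ (e o) j = 0 := fun j hj => by simp [e3 _ _ hj, hj, i.2]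
  have e4 : ∀ v, τ v o = v o * τ (e o) o := fun v => by
    conv_lhs => rw [← sum_e v]
    simp only [map_sum, map_smul, Finset.sum_apply, Pi.smul_apply, smul_eq_mul]
    refine Finset.sum_eq_single o (fun r _ hr => ?_) (by simp)
    obtain ⟨m, m1, m2, m3, m4⟩ := out4 h5 o l i r
    rw [h.kill hE hτ ho m1 m1 (fun j a b => by simp [e3 _ _ a, b, m3.symm]) (fun x a => by
      simp [e3 _ _ m1, a.symm, m2]) hr m4.symm, mul_zero]
  obtain ⟨θ, t0, t1, -⟩ := h.two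
  obtain ⟨m, m1, m2, m3⟩ := out h.four o l i
  obtain ⟨t, ht, e5⟩ := h.d2 m2.symm t0
  have li : (l : ι) ≠ i := Subtype.val_injective.ne hli
  refine hE ⟨l, i, (θ - 1) * s, li, by simp [*], .of_apply (g := t * τ * t⁻¹ * τ⁻¹)
    (mul_mem (mul_mem (mul_mem ht hτ) (inv_mem ht)) (inv_mem hτ)) fun w => funext fun j => ?_⟩
  obtain ⟨v, rfl⟩ := (t.trans τ).surjective w
  have := l.2
  simp only [LinearEquiv.trans_apply, LinearEquiv.mul_apply, LinearEquiv.coe_inv, LinearEquiv.symm_apply_apply]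
  by_cases hj : j = o
  · rw [hj, Pi.add_apply, e4 (t v)]; simp [e5 (τ v), e4 v, e5 v, this.symm, m1.symm]
  by_cases hl : j = l
  · simp [hl, e5 (τ v), e3 _ _ this, e3 _ _ i.2, e5 v, m2.symm, m3.symm, li.symm]; ring
  · simp [e5 (τ v), e3 _ _ hj, e3 _ _ m1, e5 v, hl, m2]

theorem par0 (h : MX X) (h5 : 5 ≤ Fintype.card ι) (hE : ¬ ET X) (hc : c ∈ X) (ho : ∀ j ≠ o, c (e o) j = 0) :
    MonL c := fun r => by
  by_cases hr : r = o
  · exact ⟨o, hr ▸ ho⟩
  obtain ⟨y, hy, e1, -⟩ := exists_quo hc ho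
  have M := (h.mx_quo h5 o).mon_of_hom (h.hp_quo o) (h.not_ET_quo h5 hE o) hy
  have e2 : ∀ x (hx : x ≠ o) j (hj : j ≠ o), c (e x) j = y (Pi.single ⟨x, hx⟩ 1) ⟨j, hj⟩ := fun x hx j hj => by
    rw [e1 _ ⟨j, hj⟩]; exact congrFun (congrArg y (funext fun k => by simp [Pi.single_apply, Subtype.ext_iff])) _
  obtain ⟨m, m1, m2, -⟩ := out h.four o r r
  obtain ⟨m', h1, h2⟩ := M.row ⟨m, m1⟩
  obtain ⟨i, hi⟩ := M ⟨r, hr⟩
  refine ⟨i, fun j hj => ?_⟩
  by_cases hj' : j = o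
  · refine hj' ▸ h.kill hE hc ho m1 m'.2 (fun j a b => ?_) (fun x a => ?_) hr m2.symm
    · rw [e2 _ m1 _ a]; exact h1 _ (by simpa [Subtype.ext_iff] using b)
    · by_cases hx : x = o
      · exact hx ▸ ho _ m'.2
      · rw [e2 _ hx _ m'.2]; exact h2 _ (by simpa [Subtype.ext_iff] using a)
  · rw [e2 _ hr _ hj']; exact hi _ (by simpa [Subtype.ext_iff] using hj)

theorem par (h : MX X) (h5 : 5 ≤ Fintype.card ι) (hE : ¬ ET X) (hc : c ∈ X) {k l : ι}
    (ho : ∀ j ≠ l, c (e k) j = 0) : MonL c := fun r => by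
  by_cases hk : l = k
  · exact h.par0 h5 hE hc (hk ▸ ho) r
  obtain ⟨w, hw, e1⟩ := h.swap hk
  have M := h.par0 h5 hE (mul_mem hc hw) (o := l) fun j hj => by simpa [e1, Ne.symm hk] using ho j hj
  by_cases r1 : r = k
  · exact ⟨l, r1 ▸ ho⟩
  by_cases r2 : r = l
  · simpa [e1, hk, r2] using M k
  · simpa [e1, Ne.symm r1, Ne.symm r2] using M r

theorem par_inv (h : MX X) (h5 : 5 ≤ Fintype.card ι) (hE : ¬ ET X) (hc : c ∈ X) (M : MonL c.symm) : MonL c := by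
  obtain ⟨k⟩ : Nonempty ι := Fintype.card_pos_iff.1 (by omega)
  obtain ⟨l, hl⟩ := M k
  refine h.par h5 hE hc (k := l) (l := k) fun j hj => ?_
  simpa [hj, col_ne _ hl] using congrFun (c.symm_apply_eq.1 (eq_smul_e hl)) j

theorem cj (h : MX X) (hc : c ∈ X) {i j : ι} (hij : i ≠ j) {η : F} (h0 : η ≠ 0) : ∃ d ∈ X, R2 d ∧ ∀ v,
    d v = v + ((η - 1) * c.symm v i) • c (e i) + ((η⁻¹ - 1) * c.symm v j) • c (e j) := by
  obtain ⟨t, ht, e1⟩ := h.d2 hij h0
  exact ⟨c * t * c⁻¹, mul_mem (mul_mem hc ht) (inv_mem hc), ⟨(ε i) ∘ₗ c.symm.toLinearMap,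
    (ε j) ∘ₗ c.symm.toLinearMap, fun v a b => by simp_all⟩, fun v => by simp [e1]⟩

theorem three (h : MX X) (h5 : 5 ≤ Fintype.card ι) (hE : ¬ ET X) (hc : c ∈ X) {k j l m : ι} (a1 : j ≠ l)
    (a2 : j ≠ m) (a3 : l ≠ m) (hz : ∀ x, x = j ∨ x = l ∨ x = m → c (e k) x = 0) : MonL c := by
  obtain ⟨k', hk⟩ := exists_e_ne (ψ := (ε j) ∘ₗ c.toLinearMap) fun h0 => by
    simpa using LinearMap.congr_fun h0 (c.symm (e j))
  replace hk : c (e k') j ≠ 0 := hk
  refine by_contra fun hM => ?_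
  obtain ⟨r, r1, r2⟩ : ∃ r ≠ j, c (e k') r ≠ 0 := by
    by_contra! hc'; exact hM (h.par h5 hE hc hc')
  obtain ⟨l, b1, b2, b3⟩ : ∃ l, j ≠ l ∧ r ≠ l ∧ c (e k) l = 0 := by
    by_cases hr : r = l
    exacts [⟨m, a2, hr ▸ a3, hz _ (by simp)⟩, ⟨l, a1, hr, hz _ (by simp)⟩]
  have key : ∀ η : F, η ≠ 0 → η ≠ 1 → η + η * (η - 1) * (c (e k') j * c.symm (e j) k') +
      (1 - η) * (c (e k') l * c.symm (e l) k') = 0 := fun η h0 h1 => by
    obtain ⟨d, hd, -, e1⟩ := h.cj (inv_mem hc) b1 h0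
    simp only [LinearEquiv.coe_inv, LinearEquiv.coe_inv, LinearEquiv.symm_symm, show c⁻¹ = c.symm from rfl] at e1
    obtain ⟨s, hs⟩ := h.par0 h5 hE hd (o := k) (fun x hx => by simp [e1, hz j, b3, hx]) k'
    have : d (e k') k' = 0 := hs _ fun e2 => by
      subst e2
      have e3 := congrArg c (eq_smul_e hs)
      generalize d (e k') k' = μ at e3
      simp only [e1, map_add, map_smul, LinearEquiv.apply_symm_apply] at e3
      have e4 := congrFun e3 r
      have e5 := congrFun e3 j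
      simp [r1, b2, b1] at e4 e5
      exact h1 (mul_right_cancel₀ (mul_ne_zero hk r2) (by linear_combination c (e k') r * e5 - c (e k') j * e4))
    simp [e1] at this
    field_simp at this
    linear_combination this
  obtain ⟨x, hx⟩ := h.five [0, 1] (by simp)
  obtain ⟨y, hy⟩ := h.five [0, 1, x] (by simp)
  obtain ⟨z, hz⟩ := h.five [0, 1, x, y] (by simp)
  simp only [List.mem_cons, List.not_mem_nil, or_false, not_or] at hx hy hz
  have e1 := key x hx.1 hx.2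
  have e2 := key y hy.1 hy.2.1
  have e3 := key z hz.1 hz.2.1
  generalize c (e k') j * c.symm (e j) k' = A at *
  generalize c (e k') l * c.symm (e l) k' = B at *
  have f1 : 1 + (x + y - 1) * A - B = 0 := mul_left_cancel₀ (sub_ne_zero.2 hy.2.2) (by linear_combination e2 - e1)
  have f2 : 1 + (x + z - 1) * A - B = 0 := mul_left_cancel₀ (sub_ne_zero.2 hz.2.2.1) (by linear_combination e3 - e1)
  have f3 : A = 0 := mul_left_cancel₀ (sub_ne_zero.2 hz.2.2.2) (by linear_combination f2 - f1)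
  exact one_ne_zero (α := F) (by linear_combination e1 + (1 - x) * f1 - (x * (x - 1) + (1 - x) * (x + y - 1)) * f3)

theorem zero (h : MX X) (h7 : 7 ≤ Fintype.card ι) (hE : ¬ ET X) (hc : c ∈ X) (hR : R2 c) {k l : ι}
    (hz : c (e k) l = 0) : MonL c := by
  refine by_contra fun hM => ?_
  obtain ⟨l', hl⟩ : ∃ l', ∀ x, x ≠ l → x ≠ l' → c (e k) x ≠ 0 := by
    by_cases hc' : ∃ l' ≠ l, c (e k) l' = 0
    · obtain ⟨l', a, b⟩ := hc'
      exact ⟨l', fun x x1 x2 x3 => hM (h.three (by omega) hE hc (k := k) x1 x2 a.symm (by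
        rintro _ (rfl | rfl | rfl) <;> assumption))⟩
    · exact ⟨l, fun x a _ b => hc' ⟨x, a, b⟩⟩
  obtain ⟨x, y, z, a1, a2, a3, a4⟩ := out3x3 h7 k l l' l'
  obtain ⟨α, β, hR⟩ := hR
  obtain ⟨u, hu, u0⟩ := (Submodule.ne_bot_iff _).1 (LinearMap.ker_ne_bot_of_finrank_lt
    (f := α.prod β ∘ₗ Fintype.linearCombination F ![e x, e y, e z]) (by simp))
  simp [Fintype.linearCombination_apply, Fin.sum_univ_three] at hu
  have fu := hR (u 0 • e x + u 1 • e y + u 2 • e z) (by simpa using hu.1) (by simpa using hu.2)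
  obtain ⟨τ, hτ⟩ := h.five [0, -c (e k) x / u 0, -c (e k) y / u 1, -c (e k) z / u 2] (by simp)
  simp only [List.mem_cons, List.not_mem_nil, or_false, not_or] at hτ
  have st : ∀ m s, m = x ∨ m = y ∨ m = z → τ ≠ -c (e k) m / s → ∃ t ∈ X, ∀ v : ι → F, v l = 0 → v m = c (e k) m →
      t v = v + (τ * s) • e m := fun m s hm hs => by
    obtain ⟨-, b1, b2, -⟩ := a4 m hm
    have b3 := hl m b1 b2
    obtain ⟨t, ht, e1⟩ := h.d2 b1 (θ := 1 + τ * s / c (e k) m) fun e1 => by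
      by_cases s0 : s = 0
      · simp [s0] at e1
      · exact hs (by field_simp at e1 ⊢; linear_combination e1)
    exact ⟨t, ht, fun v v1 v2 => by simp [e1, v1, v2, b3]⟩
  obtain ⟨t1, ht1, e1⟩ := st x _ (by simp) hτ.2.1
  obtain ⟨t2, ht2, e2⟩ := st y _ (by simp) hτ.2.2.1
  obtain ⟨t3, ht3, e3⟩ := st z _ (by simp) hτ.2.2.2
  have bx := a4 x (by simp)
  have by' := a4 y (by simp)
  have bz := a4 z (by simp)
  have e4 : (c⁻¹ * t3 * t2 * t1 * c) (e k) = e k + τ • (u 0 • e x + u 1 • e y + u 2 • e z) := by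
    change c.symm (t3 (t2 (t1 (c _)))) = _
    rw [e1 _ hz rfl, e2 _ (by simp [hz, bx.2.1.symm]) (by simp [a1.symm]), e3 _ (by
      simp [hz, bx.2.1.symm, by'.2.1.symm]) (by simp [a2.symm, a3.symm]), c.symm_apply_eq, map_add, map_smul, fu]
    module
  obtain ⟨x', y', z', c1, c2, c3, c4⟩ := out3x3 h7 k x y z
  obtain ⟨i, hi⟩ := h.three (by omega) hE (mul_mem (mul_mem (mul_mem (mul_mem (inv_mem hc) ht3) ht2) ht1) hc)
    (k := k) c1 c2 c3 (fun m hm => by simp only [e4]; simp [c4 m hm]) k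
  simp only [e4] at hi
  obtain rfl : k = i := by_contra fun hk => by simpa [bx.1.symm, by'.1.symm, bz.1.symm] using hi k hk
  have f1 := hi x bx.1
  have f2 := hi y by'.1
  have f3 := hi z bz.1
  simp [bx.1, by'.1, bz.1, a1, a2, a3, a1.symm, a2.symm, a3.symm, hτ.1] at f1 f2 f3
  exact u0 (funext fun a => by fin_cases a <;> simp [*])

theorem cjM (h : MX X) (hc : c ∈ X) {i j : ι} (hij : i ≠ j) {η : F} (h0 : η ≠ 0) (h1 : η ≠ 1) :
    ∃ d ∈ X, R2 d ∧ (∀ k m, m ≠ k → (d (e k) m = 0 ↔ η * (c.symm (e k) i * c (e i) m) = c.symm (e k) j * c (e j) m)) := by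
  obtain ⟨d, hd, hR, e1⟩ := h.cj hc hij h0
  refine ⟨d, hd, hR, fun k m hm => ?_⟩
  have : d (e k) m = (η - 1) / η * (η * (c.symm (e k) i * c (e i) m) - c.symm (e k) j * c (e j) m) := by
    simp [e1, hm]; field_simp; ring
  simp [this, h0, sub_eq_zero, h1]

theorem mon_R2 (h : MX X) (h7 : 7 ≤ Fintype.card ι) (hE : ¬ ET X) (hc : c ∈ X) (hR : R2 c) : MonL c := by
  refine by_contra fun hM => ?_
  have n1 : ∀ k l, c (e k) l ≠ 0 := fun k l hz => hM (h.zero h7 hE hc hR hz)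
  have n2 : ∀ k l, c.symm (e k) l ≠ 0 := fun k l hz => hM (h.par_inv (by omega) hE hc (h.zero h7 hE (inv_mem hc)
    (hR.imp fun α => Exists.imp fun β H v a b => c.symm_apply_eq.2 (H v a b).symm) hz))
  obtain ⟨i, j, hij⟩ := Fintype.exists_pair_of_one_lt_card (α := ι) (by omega)
  obtain ⟨η, h0, H⟩ : ∃ η : F, η ≠ 0 ∧ ∀ k, ∃ s, ∀ m ≠ s, m ≠ k →
      η * (c.symm (e k) i * c (e i) m) = c.symm (e k) j * c (e j) m := by
    by_cases hc' : ∀ k m, m ≠ k → c.symm (e k) i * c (e i) m = c.symm (e k) j * c (e j) m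
    · exact ⟨1, one_ne_zero, fun k => ⟨k, fun m _ hm => by rw [one_mul, hc' k m hm]⟩⟩
    push Not at hc'
    obtain ⟨k, m, a1, a2⟩ := hc'
    have h0 : c.symm (e k) j * c (e j) m / (c.symm (e k) i * c (e i) m) ≠ 0 := by simp [n1, n2]
    obtain ⟨d, hd, hR', e1⟩ := h.cjM hc hij h0 fun e1 => a2 (eq_of_div_eq_one e1).symm
    have M := h.zero h7 hE hd hR' ((e1 k m a1).2 (div_mul_cancel₀ _ (by simp [n1, n2])))
    exact ⟨_, h0, fun k => (M k).imp fun s hs m a b => (e1 k m b).1 (hs m a)⟩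
  refine n2 i j ?_
  have : c.symm (e i) j • ((ε i) ∘ₗ c.symm.toLinearMap) - c.symm (e i) i • ((ε j) ∘ₗ c.symm.toLinearMap) = 0 :=
    by_contra fun h1 => by
      obtain ⟨k, hk⟩ := exists_e_ne h1
      obtain ⟨s, hs⟩ := H k
      obtain ⟨s', hs'⟩ := H i
      obtain ⟨m, m1, m2, m3, m4⟩ := out4 (by omega) s k s' i
      refine hk (mul_left_cancel₀ (mul_ne_zero h0 (n1 i m)) ?_)
      simp only [LinearMap.sub_apply, LinearMap.smul_apply, LinearMap.comp_apply, LinearEquiv.coe_coe,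
        LinearMap.proj_apply, smul_eq_mul]
      linear_combination c.symm (e i) j * hs m m1 m2 - c.symm (e k) j * hs' m m3 m4
  simpa [hij.symm] using LinearMap.congr_fun this (c (e i))

theorem mon_or (h : MX X) (h7 : 7 ≤ Fintype.card ι) : SLg F (ι → F) ≤ X ∨ ∀ c ∈ X, MonL c := by
  refine or_iff_not_imp_left.2 fun hS c hc => ?_
  have hE := mt h.SLg_le hS
  obtain ⟨i, j, hij⟩ := Fintype.exists_pair_of_one_lt_card (α := ι) (by omega)
  obtain ⟨k, hk⟩ := exists_e_ne (ψ := (ε i) ∘ₗ c.symm.toLinearMap) fun h0 => by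
    simpa using LinearMap.congr_fun h0 (c (e i))
  replace hk : c.symm (e k) i ≠ 0 := hk
  obtain ⟨x, hx⟩ := h.five [0, 1] (by simp)
  obtain ⟨y, hy⟩ := h.five [0, 1, x] (by simp)
  simp only [List.mem_cons, List.not_mem_nil, or_false, not_or] at hx hy
  obtain ⟨d, hd, hR, e1⟩ := h.cjM hc hij hx.1 hx.2
  obtain ⟨d', hd', hR', e2⟩ := h.cjM hc hij hy.1 hy.2.1
  obtain ⟨s, hs⟩ := h.mon_R2 h7 hE hd hR k
  obtain ⟨s', hs'⟩ := h.mon_R2 h7 hE hd' hR' k
  obtain ⟨x', y', z', c1, c2, c3, c4⟩ := out3x3 h7 k s s' s'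
  refine h.three (by omega) hE hc (k := i) c1 c2 c3 fun m hm => ?_
  obtain ⟨a1, a2, a3, -⟩ := c4 m hm
  exact mul_left_cancel₀ (mul_ne_zero (sub_ne_zero.2 hy.2.2) hk)
    (by linear_combination (e2 k m a1).1 (hs' m a3) - (e1 k m a1).1 (hs m a2))

end MX

end Cfsg.Agent.Root.Mx
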