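import Cfsg.Agent.Root.Ten
import Cfsg.Agent.Root.Max6
import Cfsg.Agent.S5886

/-! The geometric maximal subgroups of `SL_n(q)` as matrix groups, with the weakest dimension bounds of the
library (`slSub`, `slDec`, `slExt`, `slFld`, `slQuad`, `slSp`, `slU`). -/

set_option autoImplicit false

namespace Cfsg.Agent.Root.Mx

open Cfsg.Agent.Geom Cfsg.Geo

variable {F : Type*} [Field F] [Fintype F] {n : ℕ}

omit [Fintype F] in
theorem slSub (W : Submodule F (Fin n → F)) (hW0 : W ≠ ⊥) (hW1 : W ≠ ⊤) :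
    IsMaximalIn (specialLinear (Fin n) F) (subspaceStabilizer W ⊓ specialLinear (Fin n) F) :=
  isMaximalIn_inf (glEquiv _ F) (isMaximalIn_stab_SL hW0 hW1) (fun _ => mem_specialLinear) fun _ => Iff.rfl

theorem slDec {t m : ℕ} (h1 : m = 1 → 7 ≤ t ∧ 5 ≤ Fintype.card F) (h2 : m = 2 → 3 ≤ t ∧ Fintype.card F ≠ 2)
    (D : Fin t → Submodule F (Fin n → F)) (hD : IsMDecomposition m D) :
    IsMaximalIn (specialLinear (Fin n) F) (decompositionStabilizer D ⊓ specialLinear (Fin n) F) :=
  isMaximalIn_inf (glEquiv _ F) (isMaximalIn_dstab_SL (dec_of hD) h1 h2) (fun _ => mem_specialLinear)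
    fun _ => mem_decompositionStabilizer

theorem slExt {r : ℕ} (hr : r.Prime) (hrn : r ∣ n) (hlt : r < n) (K : Subalgebra F (Matrix (Fin n) (Fin n) F))
    (hK : IsFieldSubalgebra r K) :
    IsMaximalIn (specialLinear (Fin n) F) (subalgebraNormalizer K ⊓ specialLinear (Fin n) F) :=
  (S5886.result n r hr hrn hlt K hK).2

theorem slFld (hn : 5 ≤ n) (F₀ : Subfield F) (r : ℕ) (P : GL (Fin n) F) (hr : r.Prime)
    (hcard : Fintype.card F = Nat.card F₀ ^ r) :
    IsMaximalIn (specialLinear (Fin n) F) (subfieldSubgroup F₀ P ⊓ specialLinear (Fin n) F) :=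
  isMaximalIn_inf (glEquiv _ F) (isMaximalIn_subSL (by simpa) hr hcard) (fun _ => mem_specialLinear)
    fun _ => mem_subfieldSubgroup_iff

theorem slSp (hn : 10 ≤ n) (f : (Fin n → F) → (Fin n → F) → F) (hf : IsSymplecticForm f) :
    IsMaximalIn (specialLinear (Fin n) F) (similarityGroup f ⊓ specialLinear (Fin n) F) := by
  obtain ⟨Φ, h1, h2⟩ := exists_symp hf
  refine isMaximalIn_of_equiv (glEquiv _ F) (fun g => mem_specialLinear) (fun g => ?_)
    (isMaximalIn_simB h1 (by simpa))
  refine and_congr ?_ mem_specialLinear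
  simp only [simB, h2]; rfl

theorem slU (hn : 10 ≤ n) (σ : F ≃+* F) (f : (Fin n → F) → (Fin n → F) → F) (hf : IsUnitaryForm σ f) :
    IsMaximalIn (specialLinear (Fin n) F) (similarityGroup f ⊓ specialLinear (Fin n) F) := by
  obtain ⟨Φ, h1, h2⟩ := exists_herm hf
  refine isMaximalIn_of_equiv (glEquiv _ F) (fun g => mem_specialLinear) (fun g => ?_)
    (isMaximalIn_simB h1 (by simpa))
  refine and_congr ?_ mem_specialLinear
  simp only [simB, h2]
  exact exists_congr fun c => forall_comm

theorem slQuad (hn : 10 ≤ n) (hodd : Odd (Fintype.card F)) (Q : (Fin n → F) → F)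
    (hQ : IsNondegenerateQuadraticForm Q) :
    IsMaximalIn (specialLinear (Fin n) F) (quadSimilarityGroup Q ⊓ specialLinear (Fin n) F) := by
  obtain ⟨Q, rfl, h1⟩ := exists_quad hQ
  have h2 : (2 : F) ≠ 0 := fun h => by
    have := FiniteField.even_card_iff_char_two.1 (ringChar.eq_iff.2 (CharTwo.of_one_ne_zero_of_two_eq_zero one_ne_zero h))
    exact absurd (Nat.odd_iff.1 hodd) (by omega)
  refine isMaximalIn_of_equiv (glEquiv _ F) (fun g => mem_specialLinear) (fun g => ?_)
    (isMaximalIn_simB h1 (by simpa))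
  refine and_congr (exists_congr fun c => ⟨fun h u v => ?_, fun h v => ?_⟩) mem_specialLinear
  · simp only [ofQuad_B_apply, QuadraticMap.polar, glEquiv_apply, ← Matrix.mulVec_add, h]; ring
  · have := h v v
    simp only [ofQuad_B_apply, polar_self', glEquiv_apply] at this
    exact mul_left_cancel₀ h2 (by linear_combination this)

end Cfsg.Agent.Root.Mx
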