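import Cfsg.Agent.Root.MinE3

/-! Irreducible subgroups of `Sp_n(q)`, `q` even, with a point all of whose perpendicular vectors occur in
Eichler maps: orbits `PS`, the trichotomy `PS.tri` (`Sp`, an orthogonal group, or `Sp₄(2)` with order `≥ 120`). -/

set_option autoImplicit false
set_option linter.unusedSectionVars false

namespace Cfsg.Agent.Root.MinS

open Cfsg.Agent.Geom Cfsg.Agent.AutCl Module Mx MulAction MinU QuadraticMap

variable {F : Type*} [Field F] [Fintype F] {V : Type*} [AddCommGroup V] [Module F V] {Φ : Formed (RingHom.id F) V}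
  {H : Subgroup (V ≃ₗ[F] V)} {P : V → Prop}

theorem hua (h2 : (2 : F) = 0) {A A' : F → F} (hA : ∀ a b, A (a + b) = A a + A b)
    (hA' : ∀ a b, A' (a + b) = A' a + A' b) (h0 : ∀ c, A c = 0 → c = 0) (h0' : ∀ c, A' c = 0 → c = 0)
    (h : ∀ c, A c ≠ 0 → A' ((A c)⁻¹ * c) = (A c)⁻¹) (c : F) : A c = c * c * A 1 := by
  have inj : ∀ {A : F → F}, (∀ a b, A (a + b) = A a + A b) → (∀ c, A c = 0 → c = 0) → Function.Injective A :=
    fun {A} hA h0 a b e => by
      have := h0 (a + b) (by rw [hA, e]; linear_combination A b * h2)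
      linear_combination this - b * h2
  have sj := Finite.surjective_of_injective (inj hA h0)
  obtain ⟨m, hm⟩ := sj 1
  have z : A 0 = 0 := by simpa using hA 0 0
  have m0 : m ≠ 0 := by rintro rfl; simp [z] at hm
  have k : ∀ a, A (a * m) = a * a := fun a => by
    by_cases a0 : a = 0
    · simp [a0, z]
    by_cases a1 : 1 + a = 0
    · rw [show a = 1 by linear_combination a1 - h2]; simpa
    obtain ⟨c, hc⟩ := sj a
    obtain ⟨d, hd⟩ := sj (a * a)
    have e1 := h c (by rwa [hc])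
    have e2 := h (m + c) (by rwa [hA, hm, hc])
    have e3 := h (c + d) (by rw [hA, hc, hd, ← mul_one_add]; exact mul_ne_zero a0 a1)
    rw [hA, hm, hc] at e2
    rw [hA, hc, hd, ← mul_one_add] at e3
    rw [hc] at e1
    have e4 := inj hA' h0' (e3.trans (show _ = A' (a⁻¹ * c + (1 + a)⁻¹ * (m + c)) by
      rw [hA', e1, e2]; field_simp; linear_combination -a * h2))
    field_simp at e4
    rw [show a * m = d by linear_combination -e4 - a * c * h2, hd]
  have e1 := k (c / m)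
  have e2 := k (1 / m)
  rw [div_mul_cancel₀ _ m0] at e1 e2
  rw [e1, e2]; ring

/-- An orbit of points of type `OA` which spans the space. -/
structure PS (Φ : Formed (RingHom.id F) V) (H : Subgroup (V ≃ₗ[F] V)) (P : V → Prop) : Prop where
  ha : HA Φ
  le : H ≤ Φ.isom
  two : (2 : F) = 0
  ne : ∀ {u}, P u → u ≠ 0
  oa : ∀ {u}, P u → OA Φ H u
  map : ∀ {u g}, P u → g ∈ H → P (g u)
  smul : ∀ {u} {c : F}, P u → c ≠ 0 → P (c • u)
  span : ∀ {v}, v ≠ 0 → ∃ u, P u ∧ Φ.B u v = 1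
  trans : ∀ {u v}, P u → P v → ∃ g ∈ H, ∃ c : F, c ≠ 0 ∧ v = c • g u

variable [FiniteDimensional F V] [Finite V]

theorem exists_ps (h : HA Φ) (hH : H ≤ Φ.isom) (h2 : (2 : F) = 0)
    (irr : ∀ W : Submodule F V, (∀ g ∈ H, ∀ w ∈ W, g w ∈ W) → W = ⊥ ∨ W = ⊤) {a : V} (a0 : a ≠ 0)
    (ha : OA Φ H a) : PS Φ H fun u => ∃ g ∈ H, ∃ c : F, c ≠ 0 ∧ u = c • g a where
  ha := h
  le := hH
  two := h2
  ne := by rintro _ ⟨g, -, c, c0, rfl⟩; simp [c0, a0]
  oa := by
    rintro _ ⟨g, hg, c, c0, rfl⟩ x hx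
    obtain ⟨x, rfl⟩ := g.surjective x
    obtain ⟨d, hd⟩ := ha (c • x) (by simpa [(hH hg).1, c0] using hx)
    exact ⟨_, ((hd.conj hg (hH hg)).smul c0).congr (by simp [c0]) rfl⟩
  map := by
    rintro _ k ⟨g, hg, c, c0, rfl⟩ hk
    exact ⟨k * g, mul_mem hk hg, c, c0, by simp⟩
  smul := by
    rintro _ d ⟨g, hg, c, c0, rfl⟩ d0
    exact ⟨g, hg, d * c, mul_ne_zero d0 c0, smul_smul _ _ _⟩
  span := fun {v} v0 => by
    let W : Submodule F V :=
      { carrier := {v | ∀ g ∈ H, Φ.B (g a) v = 0}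
        zero_mem' := fun _ _ => map_zero _
        add_mem' := fun ha hb g hg => by rw [map_add, ha g hg, hb g hg, add_zero]
        smul_mem' := fun c x hx g hg => by rw [map_smul, hx g hg, smul_zero] }
    obtain e | e := irr W fun k hk w hw g hg => by
      simpa [← (hH hk).1 (k.symm _)] using hw (k⁻¹ * g) (mul_mem (inv_mem hk) hg)
    · obtain ⟨g, hg, e'⟩ : ∃ g ∈ H, Φ.B (g a) v ≠ 0 := by
        by_contra! c; exact v0 (e.le c)
      exact ⟨_, ⟨g, hg, _, inv_ne_zero e', rfl⟩, by simp [e']⟩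
    · exact absurd (h.nd a fun y => e.ge Submodule.mem_top 1 H.one_mem) a0
  trans := by
    rintro _ _ ⟨g, hg, c, c0, rfl⟩ ⟨k, hk, d, d0, rfl⟩
    exact ⟨k * g⁻¹, mul_mem hk (inv_mem hg), d / c, div_ne_zero d0 c0, by simp [smul_smul, c0]⟩

namespace PS
variable (T : PS Φ H P) {p r a x v : V} {d t : F}
include T

theorem sy (x y : V) : Φ.B y x = Φ.B x y := by rw [T.ha.anti]; linear_combination -Φ.B x y * T.two

theorem pair (hp : P p) : ∃ r, P r ∧ Φ.IsPair p r :=
  let ⟨r, h1, h2⟩ := T.span (T.ne hp); ⟨r, h1, T.ha.pair (T.sy _ _ ▸ h2)⟩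

theorem add2 (x : V) : x + x = 0 := by rw [← two_smul F, T.two, zero_smul]

theorem shift (hE : HasE Φ H p (a + t • p) d) : HasE Φ H p a d :=
  (T.ha.shift hE (-t)).congr (by simp) (by simp [T.two])

theorem mv (hr : Φ.IsPair p r) (hx : Φ.B r x = 0) (hE : HasE Φ H p x d) (h : P (r + t • p)) :
    P (r + x + (t + d) • p) := by
  obtain ⟨g, g1, g2⟩ := hE
  have := T.map h g1
  rw [map_add, map_smul, g2.apply_p, g2.apply_r hr hx, T.ha.ε] at this
  convert this using 1
  match_scalars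
  · rfl
  · ring
  · linear_combination d * T.two

theorem eq_top {W : Submodule F V} (h : ∀ u, P u → u ∈ W) (v : V) : v ∈ W := by
  by_contra c
  obtain ⟨w, h1, h2⟩ := T.ha.nd.exists_perp_eq_one' c
  obtain ⟨u, h3, h4⟩ := T.span (v := w) (by rintro rfl; simp at h2)
  exact zero_ne_one ((h1 u (h u h3)).symm.trans h4)

theorem cover (hp : P p) (h : ∀ r, P r → Φ.IsPair p r → ∀ x, Φ.B p x = 0 → Φ.B r x = 0 → ∀ t : F, P (r + x + t • p))
    (v0 : v ≠ 0) : P v := by
  obtain ⟨u, hu, e⟩ := T.span v0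
  obtain ⟨g, hg, c, c0, rfl⟩ := T.trans hp hu
  obtain ⟨v, rfl⟩ := g.surjective v
  obtain ⟨r, hr, h1⟩ := T.pair hp
  have e1 : Φ.B p (c • v) = 1 := by simpa [(T.le hg).1] using e
  obtain ⟨h2, h3⟩ := Φ.mem_pairPerp.1 (T.ha.dec h1 (c • v))
  have := T.smul (h r hr h1 _ h2 h3 (-Φ.B r (c • v))) (inv_ne_zero c0)
  refine T.map (by convert this using 1; rw [e1]; match_scalars <;> simp [c0]) hg

theorem all (hp : P p) (hS : S Φ H p) : EG Φ ≤ H := by
  have k : ∀ v, S Φ H v := fun v => by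
    by_cases v0 : v = 0
    · simpa [v0] using T.ha.smul hS 0
    obtain ⟨g, hg, c, -, rfl⟩ := T.trans hp (T.cover hp (fun r hr h1 x h2 h3 t => by
      obtain ⟨d, hd⟩ := T.oa hp x h2
      simpa using T.mv h1 h3 ((T.ha.mul hd (hS (t - d))).congr (b := x) (d' := t) (by simp) (by simp))
        (t := 0) (by simpa)) v0)
    exact T.ha.smul (hS.map T.le hg) c
  refine EG_le fun p a d g hg => ?_
  have h1 := T.ha.tv_mul (p := p) (a := -a) (c := 1) (k _ _) (k _ _) (by simp [hg.pa])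
  exact ((T.ha.mul h1 (k p (d - 1))).congr (by simp) (by simp)).mem hg

theorem pp {b : F} (b0 : b ≠ 0) (b1 : b ≠ 1) (hp : P p) (ha : P a) (e : Φ.B p a = 0) (hv : a ∉ F ∙ p)
    (hE : HasE Φ H p (t • a) d) (d0 : d ≠ 0) : S Φ H p := fun s => by
  have hv' : p ∉ F ∙ a := fun c' => by
    obtain ⟨c, rfl⟩ := Submodule.mem_span_singleton.1 c'
    have c0 : c ≠ 0 := by rintro rfl; exact T.ne hp (by simp)
    exact hv (Submodule.mem_span_singleton.2 ⟨c⁻¹, by simp [c0]⟩)
  have k := T.ha.conj2 T.le T.two (T.oa ha) (Φ.B_eq_zero_symm e) hv' hE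
  have b2 : 1 - b ≠ 0 := sub_ne_zero.2 b1.symm
  obtain ⟨c, hc⟩ := Finite.surjective_of_injective (sq_inj T.two) (s * d)
  have k1 := T.ha.conj2 T.le T.two (T.oa hp) e hv (k 1) (c * b / (1 - b) / d)
  have k2 := T.ha.conj2 T.le T.two (T.oa hp) e hv (k b) (c / (1 - b) / b / d)
  refine (T.ha.dif k2 (k1.congr (congrArg (· • a) ?_) rfl)).congr rfl ?_
  · field_simp
  · replace hc : c * c = s * d := hc
    field_simp
    linear_combination (1 - b) ^ 2 * hc + c ^ 2 * (b - b ^ 2) * T.two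

variable (h4 : 4 ≤ finrank F V)
include h4

theorem caseA (hp : P p) (hE : HasE Φ H p 0 d) (d0 : d ≠ 0) : EG Φ ≤ H := by
  by_cases hq : Nat.card F = 2
  · refine T.all hp fun s => ?_
    obtain rfl | rfl := cases2 hq s
    · exact hasE_one H (T.ha.sing p)
    · exact hE.congr rfl ((cases2 hq d).resolve_left d0)
  obtain ⟨b, b0, b1⟩ := exists_ne_zero_ne_one hq
  obtain ⟨r, hr, h1⟩ := T.pair hp
  obtain ⟨a, ha, a0, -⟩ := T.ha.os0 T.le T.two h4 h1 (T.oa hp)
  obtain ⟨a1, a2⟩ := Φ.mem_pairPerp.1 ha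
  obtain ⟨c, c0, hc⟩ : ∃ c : F, c ≠ 0 ∧ HasE Φ H p (c • a) 0 := by
    choose δ hδ using fun c : F => T.oa hp (c • a) (by simp [a1])
    by_cases hi : Function.Injective δ
    · obtain ⟨c, hc⟩ := Finite.surjective_of_injective hi (δ 0 + d)
      refine ⟨c, by rintro rfl; exact d0 (by simpa using hc), ((T.ha.mul (T.ha.mul (hδ c)
        (T.ha.inv (hδ 0))) (T.ha.inv hE))).congr (by simp) (by simp [hc])⟩
    · obtain ⟨c, c', e, hc⟩ := Function.not_injective_iff.1 hi
      exact ⟨c - c', sub_ne_zero.2 hc, (T.ha.mul (hδ c) (T.ha.inv (hδ c'))).congr (by module)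
        (by simp [e, T.ha.alt])⟩
  have h2 : P (r + c • a) := by simpa using T.mv h1 (by simp [a2]) hc (t := 0) (by simpa)
  obtain ⟨g, hg, k, k0, e⟩ := T.trans hp hr
  have h3 := (hE.conj hg (T.le hg)).smul k0
  rw [← e] at h3
  refine T.all hr (T.pp b0 b1 hr h2 (by simp [T.ha.alt, a2]) (fun c' => ?_) (t := 0)
    (h3.congr (by simp) rfl) (by simp [d0, k0]))
  obtain ⟨s, hs⟩ := Submodule.mem_span_singleton.1 c'
  have := congrArg (Φ.B p) hs
  simp only [map_add, map_smul, h1.ef, a1, smul_eq_mul, mul_one, mul_zero, add_zero] at this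
  simp [this, c0, a0] at hs

variable (Z : ∀ {p d}, P p → HasE Φ H p 0 d → d = 0)
include Z

theorem uq {e : F} (hp : P p) (h1 : HasE Φ H p a d) (h2 : HasE Φ H p a e) : d = e :=
  sub_eq_zero.1 (Z hp (T.ha.dif h1 h2))

theorem caseB (he : finrank F V = 4 ∨ 6 ≤ finrank F V) (hp : P p) (ha : P a) (hE : HasE Φ H p a d)
    (d0 : d ≠ 0) : Nat.card F = 2 ∧ finrank F V = 4 ∧ 120 ≤ Nat.card H := by
  have e := hE.pa
  have hv : a ∉ F ∙ p := fun c => by
    obtain ⟨c, rfl⟩ := Submodule.mem_span_singleton.1 c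
    exact d0 (Z hp (T.shift (hE.congr (zero_add _).symm rfl)))
  have hq : Nat.card F = 2 := by
    by_contra hq
    obtain ⟨b, b0, b1⟩ := exists_ne_zero_ne_one hq
    exact one_ne_zero (Z hp (T.pp b0 b1 hp ha e hv (hE.congr (one_smul F a).symm rfl) d0 1))
  have hv' : p ∉ F ∙ a := fun c' => by
    obtain ⟨c, rfl⟩ := Submodule.mem_span_singleton.1 c'
    obtain rfl | rfl := cases2 hq c
    · exact T.ne hp (by simp)
    · exact hv (by simp)
  haveI := Fintype.ofFinite V
  have hd : finrank F V = 4 := he.resolve_right fun h6 =>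
    (T.ha.oa6 h6 (T.oa hp) (T.oa ha) e).elim (fun c => d0 (T.uq h4 Z hp hE c)) hv'
  obtain rfl := (cases2 hq d).resolve_left d0
  refine ⟨hq, hd, ?_⟩
  have ln : ∀ {p a}, P p → P a → Φ.B p a = 0 → a ∉ F ∙ p → ∀ t : F, P (a + t • p) := fun {p a} hp ha e hv t => by
    obtain ⟨b, b1, b2⟩ := T.ha.nd.exists_perp_eq_one' hv
    obtain ⟨d, g, g1, g2⟩ := T.oa hp (t • b) (by simp [Φ.mem_perp_span_singleton.1 b1])
    simpa [g2.apply_perp e, T.sy a b, b2] using T.map ha g1
  have all : ∀ v, v ≠ 0 → P v := fun v => T.cover hp fun r hr h1 x h2 h3 t => by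
    have h5 : Φ.B r (a + Φ.B r a • p) = 0 := by simp [T.ha.anti p r, h1.ef]
    have h6 := ln (ln hp ha e hv (Φ.B r a)) hr (Φ.B_eq_zero_symm h5) (fun c => by
      obtain ⟨c, hc⟩ := Submodule.mem_span_singleton.1 c
      simpa [e, T.ha.alt, h1.ef] using congrArg (Φ.B p) hc) 1
    have h7 : ∀ t : F, P (r + t • p) := fun t => by
      obtain rfl | rfl := cases2 hq t
      · simpa
      obtain ⟨g, g1, g2⟩ := T.ha.shift hE (Φ.B r a)
      have := T.map h6 g1
      rw [map_add, map_smul, g2.apply_r h1 h5, g2.apply_perp (by simp [e, T.ha.alt]), T.ha.alt, T.ha.ε] at this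
      convert this using 1
      match_scalars
      · rfl
      · linear_combination (1 - Φ.B r a + Φ.B r a) * T.two
      · linear_combination -T.two
    obtain ⟨d, hd⟩ := T.oa hp x h2
    simpa using T.mv h1 h3 hd (h7 (t - d))
  obtain ⟨r, hr, h1⟩ := T.pair hp
  haveI : Finite (V ≃ₗ[F] V) := DFunLike.finite _
  have c1 : Nat.card (Φ.pairPerp p r) = 4 := by
    have := h1.finrank_pairPerp T.ha.nd
    rw [Module.natCard_eq_pow_finrank (K := F), hq, show finrank F (Φ.pairPerp p r) = 2 by omega]; rfl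
  have c2 : 15 ≤ (stabilizer H p).index := by
    rw [index_stabilizer]
    have : {v : V | v ≠ 0} ⊆ orbit H p := fun v hv => by
      obtain ⟨g, hg, c, c0, rfl⟩ := T.trans hp (all v hv)
      exact ⟨⟨g, hg⟩, by simp [(cases2 hq c).resolve_left c0]⟩
    refine le_trans ?_ (Set.ncard_le_ncard this)
    rw [show {v : V | v ≠ 0} = Set.univ \ {0} by ext; simp, Set.ncard_sdiff_singleton_of_mem (Set.mem_univ _),
      Set.ncard_univ, Module.natCard_eq_pow_finrank (K := F), hq, hd]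
    norm_num
  have c3 : 8 ≤ Nat.card (stabilizer H p) := by
    choose δ g g1 g2 using fun x : Φ.pairPerp p r => T.oa hp x (Φ.mem_pairPerp.1 x.2).1
    obtain ⟨s, s1, s2⟩ := T.ha.conj2 T.le T.two (T.oa ha) (Φ.B_eq_zero_symm e) hv'
      (hE.congr (one_smul F a).symm rfl) 1
    have s3 : s p = p := by simp [s2.apply_perp (Φ.B_eq_zero_symm e), T.ha.alt]
    have gi : Function.Injective g := fun x y e => Subtype.ext ((g2 x).unique h1 (g2 y)
      (Φ.mem_pairPerp.1 x.2).2 (Φ.mem_pairPerp.1 y.2).2 (by rw [e])).1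
    have s4 : ∀ x y, g x ≠ s * g y := fun x y e' => by
      obtain ⟨b, b1, b2⟩ := T.ha.nd.exists_perp_eq_one' hv
      replace b1 := Φ.mem_perp_span_singleton.1 b1
      have := LinearEquiv.congr_fun e' b
      rw [LinearEquiv.mul_apply, (g2 x).apply_perp b1, (g2 y).apply_perp b1, map_add, map_smul, s3,
        T.ha.app s2] at this
      simp only [b1, b2, mul_one, one_pow, one_smul] at this
      exact hv (Submodule.mem_span_singleton.2 ⟨1 + Φ.B y b - Φ.B x b, by
        linear_combination (norm := module) -this⟩)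
    let f : Φ.pairPerp p r ⊕ Φ.pairPerp p r → stabilizer H p := Sum.elim
      (fun x => ⟨⟨g x, g1 x⟩, (g2 x).apply_p⟩) fun x => ⟨⟨s * g x, mul_mem s1 (g1 x)⟩, by
        change s (g x p) = p; rw [(g2 x).apply_p, s3]⟩
    have := Nat.card_le_card_of_injective f (by
      rintro (x | x) (y | y) e <;> replace e := congrArg (·.1.1) e
      · rw [gi e]
      · exact absurd e (s4 _ _)
      · exact absurd e.symm (s4 _ _)
      · rw [gi (mul_left_cancel e)])
    rwa [Nat.card_sum, c1] at this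
  rw [← (stabilizer H p).index_mul_card]
  exact Nat.mul_le_mul c2 c3

theorem caseC (st : ∀ {p a}, P p → P a → Φ.B p a = 0 → HasE Φ H p a 0) :
    ∃ Q : QuadraticForm F V, (∀ u v, polar Q u v = Φ.B u v) ∧ H ≤ OG Q ∧ ∀ p a, (eich Q p a).1 ∈ H := by
  have h := T.ha
  have ex : ∀ u x, ∃ d, P u → Φ.B u x = 0 → HasE Φ H u x d := fun u x => by
    by_cases c : P u ∧ Φ.B u x = 0
    · exact (T.oa c.1 x c.2).imp fun _ e _ _ => e
    · exact ⟨0, fun a b => absurd ⟨a, b⟩ c⟩
  choose δ hδ using ex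
  have dq : ∀ {u x d}, P u → HasE Φ H u x d → δ u x = d := fun hu e => T.uq h4 Z hu (hδ _ _ hu e.pa) e
  have ad : ∀ {u x y}, P u → Φ.B u x = 0 → Φ.B u y = 0 → δ u (x + y) = δ u x + δ u y - Φ.B x y :=
    fun hu hx hy => dq hu (h.mul (hδ _ _ hu hx) (hδ _ _ hu hy))
  have sw : ∀ {p r}, Φ.IsPair p r → Φ.IsPair r p := fun e => h.pair ((T.sy _ _).trans e.ef)
  have z1 : ∀ {r x}, P r → Φ.B r x = 0 → P (r + x) → ∀ c : F, δ r (c • x) = 0 := fun {r x} hr hx e c => by
    by_cases c0 : c = 0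
    · exact dq hr (by simpa [c0] using hasE_one H (h.sing r))
    · exact dq hr (T.shift ((st hr (T.smul e c0) (by simp [hx, h.alt])).congr (b := c • x + c • r) (by module) rfl))
  have z2 : ∀ {p r x}, P p → P r → Φ.IsPair p r → Φ.B p x = 0 → Φ.B r x = 0 → δ p x = 0 → ∀ c : F,
      δ r (c • x) = 0 := fun {p r x} hp hr h1 h2 h3 e =>
    z1 hr h3 (by simpa [e] using T.mv h1 h3 (hδ _ _ hp h2) (t := 0) (by simpa))
  have z3 : ∀ {p r x}, P p → P r → Φ.IsPair p r → Φ.B p x = 0 → Φ.B r x = 0 → δ p x ≠ 0 → ∀ c : F,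
      δ p (c • x) = 0 → c = 0 := fun {p r x} hp hr h1 h2 h3 e c e' => by
    by_contra c0
    have := z2 hp hr h1 (by simp [h2]) (by simp [h3]) e' c⁻¹
    rw [inv_smul_smul₀ c0] at this
    exact e (by simpa using z2 hr hp (sw h1) h3 h2 this 1)
  have al : ∀ {u x}, P u → Φ.B u x = 0 → ∀ a b : F, δ u ((a + b) • x) = δ u (a • x) + δ u (b • x) :=
    fun hu hx a b => by rw [add_smul, ad hu (by simp [hx]) (by simp [hx])]; simp [h.alt]
  have G : ∀ {p r x} {t : F}, P p → P r → Φ.IsPair p r → Φ.B p x = 0 → Φ.B r x = 0 → P (r + x + t • p) →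
      t = δ p x := fun {p r x t} hp hr h1 h2 h3 e => by
    obtain ⟨g, g1, g2⟩ := hδ _ _ hp h2
    have e1 := T.map e g1
    rw [map_add, map_add, map_smul, g2.apply_p, g2.apply_r h1 h3, g2.apply_perp h2, h.alt, h.ε,
      show r - δ p x • p - (-1 : F) • x + (x + (0 : F) • p) + t • p = r + (t - δ p x) • p by
        linear_combination (norm := module) T.add2 x] at e1
    rw [← sub_eq_zero]
    generalize t - δ p x = s at e1
    obtain ⟨a, ha, -, d, d0, hd⟩ := h.os0 T.le T.two h4 h1 (T.oa hp)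
    obtain ⟨a1, a2⟩ := Φ.mem_pairPerp.1 ha
    obtain ⟨c, hc⟩ := Finite.surjective_of_injective (f := fun c : F => δ p (c • a)) (fun c c' e => by
      have := z3 hp hr h1 a1 a2 (by rwa [dq hp hd]) (c + c') (by
        rw [al hp a1, show δ p (c • a) = _ from e]; linear_combination δ p (c' • a) * T.two)
      linear_combination this - c' * T.two) s
    have e2 := T.mv h1 (by simp [a2]) (hδ p (c • a) hp (by simp [a1])) e1
    rw [show s + δ p (c • a) = 0 by rw [← hc]; linear_combination δ p (c • a) * T.two, zero_smul, add_zero] at e2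
    have := z2 (x := c • a) hr hp (sw h1) (by simp [a2]) (by simp [a1]) (by simpa using z1 hr (by simp [a2]) e2 1) 1
    rw [← hc]; simpa using this
  obtain ⟨v, -, v0⟩ := exists_notMem_of_lt (U := (⊤ : Submodule F V)) (R := ⊥) (by rw [finrank_bot, finrank_top]; omega)
  obtain ⟨p, hp, -⟩ := T.span (v := v) (by simpa using v0)
  obtain ⟨r, hr, h1⟩ := T.pair hp
  have hom : ∀ x, Φ.B p x = 0 → Φ.B r x = 0 → ∀ c : F, δ p (c • x) = c * c * δ p x := fun x h2 h3 c => by
    by_cases e : δ p x = 0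
    · rw [e, mul_zero]
      exact z2 hr hp (sw h1) h3 h2 (by simpa using z2 hp hr h1 h2 h3 e 1) c
    have e' : δ r x ≠ 0 := fun e' => e (by simpa using z2 hr hp (sw h1) h3 h2 e' 1)
    simpa using hua T.two (al hp h2) (al hr h3) (z3 hp hr h1 h2 h3 e) (z3 hr hp (sw h1) h3 h2 e')
      (fun c c0 => by
        have e1 := T.smul (T.mv h1 (by simp [h3]) (hδ p (c • x) hp (by simp [h2])) (t := 0) (by simpa))
          (inv_ne_zero c0)
        refine (G hr hp (sw h1) (by simp [h3]) (by simp [h2]) ?_).symm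
        convert e1 using 1
        match_scalars <;> simp [c0]) c
  let π : V → V := fun v => v + Φ.B r v • p - Φ.B p v • r
  have π1 : ∀ v, Φ.B p (π v) = 0 := fun v => (Φ.mem_pairPerp.1 (h.dec h1 v)).1
  have π2 : ∀ v, Φ.B r (π v) = 0 := fun v => (Φ.mem_pairPerp.1 (h.dec h1 v)).2
  have qa : ∀ u v, δ p (π (u + v)) + Φ.B p (u + v) * Φ.B r (u + v) =
      (δ p (π u) + Φ.B p u * Φ.B r u) + (δ p (π v) + Φ.B p v * Φ.B r v) + Φ.B u v := fun u v => by
    rw [show π (u + v) = π u + π v by simp only [π, map_add]; module, ad hp (π1 u) (π1 v)]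
    have : Φ.B (π u) (π v) = Φ.B u v + Φ.B p u * Φ.B r v + Φ.B r u * Φ.B p v := by
      conv_lhs => enter [1, 2]; simp only [π]
      simp only [map_add, map_sub, LinearMap.add_apply, LinearMap.sub_apply, Φ.B_smul_left, π1, π2]
      simp only [π, map_add, map_sub, map_smul, smul_eq_mul, T.sy p u, T.sy r u]
      linear_combination -Φ.B p v * Φ.B r u * T.two
    rw [this, map_add, map_add]
    linear_combination -Φ.B u v * T.two
  let Q : QuadraticForm F V :=
    { toFun := fun v => δ p (π v) + Φ.B p v * Φ.B r v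
      toFun_smul := fun c v => by
        rw [show π (c • v) = c • π v by simp only [π, map_smul, smul_eq_mul]; module, hom _ (π1 v) (π2 v)]
        simp only [map_smul, smul_eq_mul]; ring
      exists_companion' := ⟨Φ.B, qa⟩ }
  have qp : ∀ u v, polar Q u v = Φ.B u v := fun u v => by
    rw [polar, show Q (u + v) = Q u + Q v + Φ.B u v from qa u v]; ring
  have q0 : ∀ u, P u → Q u = 0 := fun u hu => by
    by_cases e : Φ.B p u = 0
    · change δ p (π u) + Φ.B p u * Φ.B r u = 0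
      rw [dq hp (h.shift (st hp hu e) (Φ.B r u) |>.congr (b := π u) (by simp [π, e]) rfl), e, T.two]; simp
    · have hu' := T.smul hu (inv_ne_zero e)
      have e1 : Φ.B p ((Φ.B p u)⁻¹ • u) = 1 := by simp [e]
      have : Q ((Φ.B p u)⁻¹ • u) = 0 := by
        generalize (Φ.B p u)⁻¹ • u = w at hu' e1
        change δ p (π w) + Φ.B p w * Φ.B r w = 0
        rw [← G (t := -Φ.B r w) hp hr h1 (π1 w) (π2 w) (by convert hu' using 1; simp [π, e1]), e1]; simp
      simpa [quad_smul, e] using this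
  have le : H ≤ OG Q := fun g hg => Formed.mem_isom_ofQuad.2 (T.eq_top
    (W := { carrier := {x | Q (g x) = Q x}
            zero_mem' := by simp
            add_mem' := fun {x y} hx hy => by
              change Q (g (x + y)) = Q (x + y)
              rw [map_add, quad_add, quad_add, qp, qp, hx, hy, (T.le hg).1]
            smul_mem' := fun c x hx => by
              change Q (g (c • x)) = Q (c • x)
              rw [map_smul, quad_smul, quad_smul, hx] })
    fun u hu => (q0 _ (T.map hu hg)).trans (q0 u hu).symm)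
  have qe : ∀ {u w x d g}, Φ.IsPair u w → Q u = 0 → IsE Φ u x d g → Q (g w) = Q w → d = Q x :=
    fun {u w x d g} h2 h3 h5 e => by
      rw [h.app h5, h2.ef] at e
      simp only [quad_add, quad_smul, h3, one_smul, qp, map_add, LinearMap.add_apply, Φ.B_smul_left,
        Φ.B_smul_right, h5.pa, T.sy u w, T.sy x w, h2.ef, RingHom.id_apply] at e
      linear_combination e + (d - Q x - Φ.B x w) * T.two
  have ei : ∀ u x, P u → Φ.B u x = 0 → HasE Φ H u x (Q x) := fun u x hu hx => by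
    obtain ⟨w, -, h2⟩ := T.pair hu
    obtain ⟨g, g1, g2⟩ := hδ u x hu hx
    exact ⟨g, g1, g2.congr rfl (qe h2 (q0 u hu) g2 ((le g1).2 w))⟩
  refine ⟨Q, qp, le, fun s a => ?_⟩
  by_cases c : Q s = 0 ∧ polar Q s a = 0; swap
  · rw [eich_of_not c]; exact H.one_mem
  by_cases s0 : s = 0
  · rw [s0, eich_zero_left]; exact H.one_mem
  obtain ⟨u, hu, e⟩ := T.span s0
  obtain ⟨w, hw, h2⟩ := T.pair hu
  obtain ⟨x, -, d, g, g2, rfl⟩ := exists_isE_apply h.nd h2 (h.pair e)
  obtain rfl := qe h2 (q0 u hu) g2 (c.1.trans (q0 w hw).symm)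
  have e1 := qp _ _ ▸ c.2
  refine (ei _ a (T.map hw ((ei u x hu g2.pa).mem g2)) e1).mem (h.isE e1 fun y => ?_)
  rw [eich_apply c.1 c.2, qp, qp]
  linear_combination (norm := module) -T.add2 (Φ.B (g w) y • a)

omit Z in
theorem tri (he : finrank F V = 4 ∨ 6 ≤ finrank F V) : EG Φ ≤ H ∨
    (∃ Q : QuadraticForm F V, (∀ u v, polar Q u v = Φ.B u v) ∧ H ≤ OG Q ∧ ∀ p a, (eich Q p a).1 ∈ H) ∨
    Nat.card F = 2 ∧ finrank F V = 4 ∧ 120 ≤ Nat.card H := by
  refine or_iff_not_imp_left.2 fun c => ?_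
  have Z : ∀ {p d}, P p → HasE Φ H p 0 d → d = 0 := fun hp e => by_contra fun d0 => c (T.caseA h4 hp e d0)
  refine or_iff_not_imp_right.2 fun c' => T.caseC h4 Z fun {p a} hp ha e => ?_
  obtain ⟨d, hd⟩ := T.oa hp a e
  exact hd.congr rfl (by_contra fun d0 => c' (T.caseB h4 Z he hp ha hd d0))

end PS
end Cfsg.Agent.Root.MinS
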