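import Cfsg.Agent.Root.Imp
import Cfsg.Agent.Asch.Forms2

/-! Tensor decompositions `W ⊗ U`: contractions `cL`, the maps `tt w φ ρ = (w φ) ⊗ ρ`, invariant subalgebras
(`rk1_mem_of_inv`), and maximality of `GL(W) ⊗ GL(U) ∩ SL` for `dim U < dim W` (`isMaximalIn_tstab`). -/

set_option autoImplicit false

namespace Cfsg.Agent.Root.Mx

open Cfsg.Agent.Geom Cfsg.Agent.AutCl Module TensorProduct

variable {F : Type*} [Field F] {V W U : Type*} [AddCommGroup V] [Module F V] [AddCommGroup W] [Module F W]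
  [AddCommGroup U] [Module F U]

theorem hasL_SLg [FiniteDimensional F V] {α : End F V} (h : α * α = 0) : HasL (SLg F V) α := by
  obtain ⟨C, hC⟩ := (LinearMap.range α).exists_isCompl
  refine (hasL_SLg_mul (A := (LinearMap.range α).projection C hC) (B := α) (LinearMap.ext fun v => ?_)).congr
    fun v => Submodule.projection_apply_of_mem_left hC ⟨v, rfl⟩
  obtain ⟨x, hx⟩ := Submodule.projection_apply_mem hC v
  exact (congrArg α hx).symm.trans (LinearMap.congr_fun h x)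

theorem SLg_le' [FiniteDimensional F V] {X : Subgroup (V ≃ₗ[F] V)} (h : ∀ p, p ∈ centres X) : SLg F V ≤ X := by
  let E := (finBasis F V).equivFun.symm
  have := SLg_le (X := X.comap (autCongr E).toMonoidHom) fun p φ hφ => by
    obtain ⟨g, hg, e1⟩ := (h (E p) (φ ∘ₗ E.symm.toLinearMap) (by simpa)).exists_apply
    exact .of_apply (g := (autCongr E).symm g) (by simpa) fun v => by simp [e1]
  exact fun s hs => by
    simpa using this (x := (autCongr E).symm s) (by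
      rwa [SLg, MonoidHom.mem_ker, ← det_autCongr E, MulEquiv.apply_symm_apply])

theorem exists_fun2 [FiniteDimensional F W] (h : 3 ≤ finrank F W) (x y : W) :
    ∃ φ : Dual F W, (∃ z, φ z = 1) ∧ φ x = 0 ∧ φ y = 0 := by
  obtain ⟨z, -, hz⟩ := exists_notMem_of_lt (U := ⊤) (R := (F ∙ x) ⊔ F ∙ y) (by
    have := finrank_sup_one (F ∙ x) y
    have := finrank_span_one (F := F) x
    rw [finrank_top]; omega)
  obtain ⟨φ, h1, h2⟩ := exists_fun hz
  exact ⟨φ, ⟨z, h1⟩, h2 _ (Submodule.mem_sup_left (Submodule.mem_span_singleton_self x)), h2 _ (mem_sup_self _ _)⟩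

theorem exists_ker2 [FiniteDimensional F W] (h : 3 ≤ finrank F W) (φ ψ : Dual F W) :
    ∃ z, z ≠ 0 ∧ φ z = 0 ∧ ψ z = 0 := by
  obtain ⟨u, hu, u0⟩ := (Submodule.ne_bot_iff _).1 (LinearMap.ker_ne_bot_of_finrank_lt (f := φ.prod ψ) (by simp; omega))
  exact ⟨u, u0, by simpa using hu⟩

theorem exists_fun1 {x y : W} (h : x ∉ F ∙ y) : ∃ φ : Dual F W, φ x = 1 ∧ φ y = 0 :=
  (exists_fun h).imp fun _ h => ⟨h.1, h.2 _ (Submodule.mem_span_singleton_self y)⟩

theorem exists_fun0 {x : W} (h : x ≠ 0) : ∃ φ : Dual F W, φ x = 1 :=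
  (exists_fun (S := ⊥) h).imp fun _ h => h.1

theorem notMem_of_fun {x y : W} {φ : Dual F W} (h : φ x ≠ 0) (h' : φ y = 0) : x ∉ F ∙ y := fun e => by
  obtain ⟨c, rfl⟩ := Submodule.mem_span_singleton.1 e
  simp [h'] at h

theorem exists_notMem_of_not_scalar {ρ : End F U} (h : ∀ c : F, ρ ≠ c • 1) : ∃ u, ρ u ∉ F ∙ u := by
  by_contra! hc
  obtain ⟨c, e⟩ := LinearMap.exists_eq_smul_id_of_forall_notLinearIndependent (f := ρ) fun v hv => by
    obtain ⟨a, ha⟩ := Submodule.mem_span_singleton.1 (hc v)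
    simpa using (LinearIndependent.pair_iff.1 hv (-a) 1 (by simp [← ha])).2
  exact h c e

/-- A subalgebra of `End U` invariant under the transvections contains all rank one maps or only scalars. -/
theorem rk1_mem_of_inv [FiniteDimensional F U] (R : Submodule F (End F U)) (hm : ∀ a ∈ R, ∀ b ∈ R, a * b ∈ R)
    (hc : ∀ ρ ∈ R, ∀ x ν, ν x = 0 → (1 + rk1 x ν) * ρ * (1 - rk1 x ν) ∈ R)
    (h3 : 3 ≤ finrank F U ∨ ∃ θ : F, θ ≠ 0 ∧ θ ≠ 1) {ρ : End F U} (hρ : ρ ∈ R) (hs : ∀ c : F, ρ ≠ c • 1) (y : U)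
    (κ : Dual F U) : rk1 y κ ∈ R := by
  have cj : ∀ ρ ∈ R, ∀ x ν, ν x = 0 → rk1 x (ν ∘ₗ ρ) - rk1 (ρ x) ν - ν (ρ x) • rk1 x ν ∈ R := fun ρ h x ν e => by
    convert sub_mem (hc ρ h x ν e) h using 1
    ext v; simp; module
  obtain ⟨u, hu⟩ := exists_notMem_of_not_scalar hs
  obtain ⟨μ, m1, m2⟩ := exists_fun1 hu
  have u0 : u ≠ 0 := by rintro rfl; simp at hu
  obtain ⟨ν, ⟨x, n1⟩, n2, H⟩ : ∃ ν : Dual F U, (∃ x, ν x = 1) ∧ ν u = 0 ∧ rk1 u ν ∈ R := by
    rcases h3 with h3 | ⟨θ, t0, t1⟩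
    · obtain ⟨ν, a1, a2, a3⟩ := exists_fun2 h3 u (ρ u)
      refine ⟨ν, a1, a2, ?_⟩
      convert neg_mem (cj _ (cj ρ hρ u ν a2) u μ m2) using 1
      ext v; simp [a2, a3, m1, m2]
    · refine ⟨μ, ⟨_, m1⟩, m2, ?_⟩
      convert R.smul_mem (θ - θ * θ)⁻¹ (sub_mem (cj ρ hρ u (θ • μ) (by simp [m2])) (R.smul_mem θ (cj ρ hρ u μ m2)))
        using 1
      have : 1 - θ ≠ 0 := sub_ne_zero.2 t1.symm
      rw [show θ - θ * θ = θ * (1 - θ) by ring]
      ext v; simp [m1]; match_scalars <;> field_simp <;> ring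
  clear m1 m2 μ
  obtain ⟨μ, m1, m2⟩ := exists_fun1 (notMem_symm (notMem_of_fun (n1 ▸ one_ne_zero) n2) u0)
  have E : rk1 u μ ∈ R := by
    convert sub_mem H (hm _ H _ (cj _ H x μ m2)) using 1
    ext v; simp [m1, n1, n2]; module
  have E1 : rk1 y μ ∈ R := by
    convert add_mem (cj _ E (y - μ y • u) μ (by simp [m1])) (R.smul_mem (μ y) E) using 1
    ext v; simp [m1]; module
  have E2 : rk1 u κ ∈ R := by
    convert sub_mem (R.smul_mem (κ u) E) (cj _ E u (κ - κ u • μ) (by simp [m1])) using 1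
    ext v; simp [m1]; module
  simpa [rk1_mul, m1] using hm _ E1 _ E2

/-- Contraction with a functional on the first factor. -/
def cL : Dual F W →ₗ[F] W ⊗[F] U →ₗ[F] U := (TensorProduct.lift (LinearMap.smulRightₗ ∘ₗ Dual.eval F W)).flip

@[simp] theorem cL_tmul (φ : Dual F W) (w : W) (u : U) : cL φ (w ⊗ₜ[F] u) = φ w • u := rfl

/-- The map `(w φ) ⊗ ρ`. -/
def tt (w : W) (φ : Dual F W) (ρ : End F U) : End F (W ⊗[F] U) := TensorProduct.mk F W U w ∘ₗ ρ ∘ₗ cL φ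

@[simp] theorem tt_apply (w : W) (φ : Dual F W) (ρ : End F U) (v : W ⊗[F] U) :
    tt w φ ρ v = w ⊗ₜ ρ (cL φ v) := rfl

theorem tt_mul (w z : W) (φ ψ : Dual F W) (ρ ρ' : End F U) : tt w φ ρ * tt z ψ ρ' = tt (φ z • w) ψ (ρ * ρ') :=
  LinearMap.ext fun v => by simp [smul_tmul]

theorem tt_mul_zero {w z : W} {φ ψ : Dual F W} {ρ ρ' : End F U} (h : φ z = 0) : tt w φ ρ * tt z ψ ρ' = 0 :=
  LinearMap.ext fun v => by simp [h]

theorem tmul_inj {w : W} (h : w ≠ 0) {u u' : U} (e : w ⊗ₜ[F] u = w ⊗ₜ u') : u = u' := by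
  obtain ⟨φ, h1⟩ := exists_fun0 (F := F) h
  simpa [h1] using congrArg (cL φ) e

theorem sum_cL {ι : Type*} [Fintype ι] (b : Basis ι F W) (v : W ⊗[F] U) : ∑ i, b i ⊗ₜ cL (b.coord i) v = v := by
  induction v with
  | zero => simp
  | tmul w u => simp only [cL_tmul, ← smul_tmul, ← sum_tmul, Basis.coord_apply, Basis.sum_repr]
  | add x y a b => simp [tmul_add, Finset.sum_add_distrib, a, b]

theorem eq_of_cL [FiniteDimensional F W] {v v' : W ⊗[F] U} (h : ∀ φ, cL φ v = cL φ v') : v = v' := by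
  rw [← sum_cL (finBasis F W) v, ← sum_cL (finBasis F W) v']; simp [h]

/-- The stabiliser of the tensor decomposition. -/
def tstab (F W U : Type*) [Field F] [AddCommGroup W] [Module F W] [AddCommGroup U] [Module F U] :
    Subgroup (W ⊗[F] U ≃ₗ[F] W ⊗[F] U) where
  carrier := {g | ∃ (a : W ≃ₗ[F] W) (b : U ≃ₗ[F] U), ∀ w u, g (w ⊗ₜ u) = a w ⊗ₜ b u}
  one_mem' := ⟨1, 1, fun _ _ => rfl⟩
  mul_mem' := fun ⟨a, b, h⟩ ⟨c, d, h'⟩ => ⟨a * c, b * d, fun w u => by simp [h, h']⟩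
  inv_mem' := fun {g} ⟨a, b, h⟩ => ⟨a⁻¹, b⁻¹, fun w u => g.symm_apply_eq.2 (by simp [h])⟩

variable {X : Subgroup (W ⊗[F] U ≃ₗ[F] W ⊗[F] U)}

/-- All maps `1 + (w φ) ⊗ ρ` lie in `X`. -/
def RR (X : Subgroup (W ⊗[F] U ≃ₗ[F] W ⊗[F] U)) (ρ : End F U) : Prop := ∀ w φ, φ w = 0 → HasL X (tt w φ ρ)

variable [FiniteDimensional F W] [FiniteDimensional F U]

omit [FiniteDimensional F U] in
theorem RR.of_one (h1 : RR X 1) (h3 : 3 ≤ finrank F W) {w : W} {φ : Dual F W} {ρ : End F U} (w0 : w ≠ 0)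
    (φ0 : ∃ z, φ z = 1) (e : φ w = 0) (H : HasL X (tt w φ ρ)) : RR X ρ := by
  have s1 : ∀ {w φ}, w ≠ 0 → φ w = 0 → HasL X (tt w φ ρ) → ∀ z, φ z = 0 → HasL X (tt z φ ρ) := fun {w φ} w0 e H => by
    have s0 : ∀ z, φ z = 0 → z ∉ F ∙ w → HasL X (tt z φ ρ) := fun z a b => by
      obtain ⟨ψ, a1, a2⟩ := exists_fun1 (notMem_symm b w0)
      simpa [tt_mul, a1] using (h1 z ψ a2).comm H (tt_mul_zero a2) (tt_mul_zero e) (tt_mul_zero a)
    intro z a
    by_cases b : z ∈ F ∙ w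
    · obtain ⟨ψ, a1⟩ := exists_fun0 (F := F) w0
      obtain ⟨y, y0, y1, y2⟩ := exists_ker2 h3 φ ψ
      have y3 := notMem_symm (notMem_of_fun (a1 ▸ one_ne_zero) y2) y0
      exact ((s0 (z + y) (by simp [a, y1]) (by rwa [add_mem_cancel_left b])).add (s0 (-y) (by simpa) (by simpa))
        (tt_mul_zero (by simpa))).congr fun v => by simp [add_tmul, neg_tmul]
    · exact s0 z a b
  have s2 : ∀ {w φ}, w ≠ 0 → (∃ z, φ z = 1) → φ w = 0 → HasL X (tt w φ ρ) → ∀ ψ, ψ w = 0 → HasL X (tt w ψ ρ) := by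
    rintro w φ w0 ⟨z, a⟩ e H ψ b
    have c : (ψ - ψ z • φ) z = 0 := by simp [a]
    exact ((H.comm (h1 z _ c) (tt_mul_zero e) (tt_mul_zero c) (tt_mul_zero (by simp [b, e]))).add
      (s1 w0 e H (ψ z • w) (by simp [e])) (by rw [tt_mul]; exact tt_mul_zero (by simp [b, e]))).congr fun v => by
        simp [a, tmul_sub, smul_tmul]
  intro z ψ a
  obtain ⟨y, y0, y1, y2⟩ := exists_ker2 h3 φ ψ
  exact s1 y0 y2 (s2 y0 φ0 y1 (s1 w0 e H y y1) ψ y2) z a

/-- An overgroup of `SL(W) ⊗ SL(U)`. -/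
structure TX (X : Subgroup (W ⊗[F] U ≃ₗ[F] W ⊗[F] U)) : Prop where
  one : RR X 1
  r : ∀ x ν, ν x = 0 → HasL X ((rk1 x ν).lTensor W)
  three : 3 ≤ finrank F W
  ex : 3 ≤ finrank F U ∨ ∃ θ : F, θ ≠ 0 ∧ θ ≠ 1

namespace TX

theorem win (h : TX X) {w : W} {φ : Dual F W} {ρ : End F U} (w0 : w ≠ 0) (φ0 : ∃ z, φ z = 1) (e : φ w = 0)
    (H : HasL X (tt w φ ρ)) (hs : ∀ c : F, ρ ≠ c • 1) : SLg F _ ≤ X := by
  let R : Submodule F (End F U) :=
    { carrier := {ρ | RR X ρ}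
      zero_mem' := fun w φ _ => HasL.zero.congr (by simp)
      add_mem' := fun ha hb w φ e => ((ha w φ e).add (hb w φ e) (tt_mul_zero e)).congr fun v => by simp [tmul_add]
      smul_mem' := fun c ρ ha w φ e => (ha (c • w) φ (by simp [e])).congr fun v => by simp [smul_tmul] }
  have all : ∀ y κ, RR X (rk1 y κ) := rk1_mem_of_inv R (fun a ha b hb => by
      obtain ⟨z, z1⟩ := φ0
      obtain ⟨ψ, ⟨y, a1⟩, a2, a3⟩ := exists_fun2 h.three w z
      refine h.one.of_one h.three w0 ⟨y, a1⟩ a2 ?_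
      simpa [tt_mul, z1] using (ha w φ e).comm (hb z ψ a3) (tt_mul_zero e) (tt_mul_zero a3) (tt_mul_zero a2))
    (fun ρ ha x ν a w φ e => by
      obtain ⟨s, hs, e1⟩ := (h.r x ν a).exists_apply
      refine (ha w φ e).conj hs fun v => ?_
      have : cL φ (s v) = cL φ v + ν (cL φ v) • x := by
        rw [e1, map_add]; congr 1
        induction v with
        | zero => simp
        | tmul w u => simp [smul_smul, mul_comm]
        | add x y a b => simp [a, b, add_smul]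
      simp [this, e1 (_ ⊗ₜ _), a, tmul_add]) h.ex (h.one.of_one h.three w0 φ0 e H) hs
  refine SLg_le' fun p => ?_
  induction p with
  | zero => exact zero_mem _
  | add x y a b => exact add_mem a b
  | tmul w u =>
    intro Φ hΦ
    by_cases w0 : w = 0
    · exact HasL.zero.congr (by simp [w0])
    by_cases u0 : u = 0
    · exact HasL.zero.congr (by simp [u0])
    obtain ⟨φ, a1⟩ := exists_fun0 (F := F) w0
    obtain ⟨μ, a2⟩ := exists_fun0 (F := F) u0
    obtain ⟨z, z0, z1, -⟩ := exists_ker2 h.three φ φ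
    obtain ⟨χ, a3, a4⟩ := exists_fun1 (notMem_symm (notMem_of_fun (a1 ▸ one_ne_zero) z1) z0)
    let ν := Φ ∘ₗ TensorProduct.mk F W U w
    have H1 := (all u μ w χ a4).comm (all u ν z φ z1) (tt_mul_zero a4) (tt_mul_zero z1)
      (LinearMap.ext fun v => by simp [ν, hΦ])
    let b := finBasis F U
    let ψ := fun j => Φ ∘ₗ (TensorProduct.mk F W U).flip (b j) - ν (b j) • φ
    have a5 : ∀ j, ψ j w = 0 := fun j => by simp [ψ, ν, a1]
    have H2 := hasL_sum (X := X) Finset.univ (y := w ⊗ₜ[F] u) (φ := fun j => b.coord j ∘ₗ cL (ψ j))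
      (fun j => by simp [a5]) fun j => (all u (b.coord j) w _ (a5 j)).congr fun v => by simp
    refine (H1.add H2 (LinearMap.ext fun v => by simp [z1, a1, ν, hΦ])).congr fun v => ?_
    have : Φ v = ν (cL φ v) + ∑ j, b.coord j (cL (ψ j) v) := by
      induction v with
      | zero => simp
      | add x y a b => simp only [map_add, a, b, Finset.sum_add_distrib]; ring
      | tmul x y =>
        have e1 : ∀ f : Dual F U, ∑ j, b.repr y j * f (b j) = f y := fun f => by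
          conv_rhs => rw [← b.sum_repr y, map_sum]
          simp only [map_smul, smul_eq_mul]
        have e2 := e1 (Φ ∘ₗ TensorProduct.mk F W U x - φ x • ν)
        simp only [LinearMap.sub_apply, LinearMap.smul_apply, LinearMap.comp_apply, mk_apply, smul_eq_mul] at e2
        simp only [ψ, cL_tmul, map_smul, Basis.coord_apply, smul_eq_mul, LinearMap.sub_apply, LinearMap.smul_apply,
          LinearMap.comp_apply, LinearMap.flip_apply, mk_apply, mul_comm _ (b.repr y _), mul_comm (ν (b _)), e2]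
        ring
    simp [this, a2, a3, add_smul]

/-- An element mapping a point `w ⊗ U` into a point is a tensor product, unless `SL ≤ X`. -/
theorem par (h : TX X) (hS : ¬ SLg F _ ≤ X) {c : W ⊗[F] U ≃ₗ[F] W ⊗[F] U} (hc : c ∈ X) {w w' : W} (w0 : w ≠ 0)
    (hw : ∀ u, ∃ u', c (w ⊗ₜ u) = w' ⊗ₜ u') : c ∈ tstab F W U := by
  rcases subsingleton_or_nontrivial U with hU | hU
  · exact ⟨1, 1, fun w u => by simp [Subsingleton.elim u 0]⟩
  obtain ⟨u₀, u0⟩ := exists_ne (0 : U)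
  obtain ⟨μ, m1⟩ := exists_fun0 (F := F) u0
  have w1 : w' ≠ 0 := by
    rintro rfl
    obtain ⟨u', e⟩ := hw u₀
    rw [zero_tmul, c.map_eq_zero_iff] at e
    exact u0 (tmul_inj w0 (e.trans (tmul_zero _ _).symm))
  obtain ⟨χ, c1⟩ := exists_fun0 (F := F) w1
  let β₀ : End F U := cL χ ∘ₗ c.toLinearMap ∘ₗ TensorProduct.mk F W U w
  have b0 : ∀ u, c (w ⊗ₜ u) = w' ⊗ₜ β₀ u := fun u => by
    obtain ⟨u', e⟩ := hw u
    simp [β₀, e, c1]
  obtain ⟨β, b1⟩ : ∃ β : U ≃ₗ[F] U, ∀ u, c (w ⊗ₜ u) = w' ⊗ₜ β u :=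
    ⟨.ofInjectiveEndo β₀ fun u u' e => tmul_inj w0 (c.injective (by rw [b0, b0, e])), b0⟩
  have b2 : ∀ u, c.symm (w' ⊗ₜ u) = w ⊗ₜ β.symm u := fun u => c.symm_apply_eq.2 (by simp [b1])
  have key : ∀ z, ∃ z', ∀ u, c (z ⊗ₜ β.symm u) = z' ⊗ₜ u := fun z => by
    obtain ⟨φ, ⟨y, a1⟩, a2, a3⟩ := exists_fun2 h.three w z
    let Θ := β.toLinearMap ∘ₗ cL φ ∘ₗ c.symm.toLinearMap
    have H := (h.one w φ a2).conj (β := TensorProduct.mk F W U w' ∘ₗ Θ) hc fun v => by simp [Θ, b1]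
    let φ' := μ ∘ₗ Θ ∘ₗ (TensorProduct.mk F W U).flip u₀
    have t1 : ∀ x u, Θ (x ⊗ₜ u) = φ' x • u := fun x u => by
      obtain ⟨ψ, p1, p2, p3⟩ := exists_fun2 h.three w' x
      obtain ⟨k, hk⟩ : ∃ k : F, Θ ∘ₗ TensorProduct.mk F W U x = k • 1 := by
        by_contra! hk
        exact hS (h.win w1 p1 p2 ((H.comm (h.one x ψ p3) (LinearMap.ext fun v => by simp [Θ, b2, a2])
          (tt_mul_zero p3) (LinearMap.ext fun v => by simp [p2])).congr fun v => by simp) hk)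
      have := LinearMap.congr_fun hk
      simp only [LinearMap.comp_apply, mk_apply] at this
      simp [φ', this, m1]
    have t2 : ∀ v, Θ v = cL φ' v := fun v => by
      induction v with
      | zero => simp
      | tmul x u => simp [t1]
      | add x y a b => simp [a, b]
    have t3 : ∀ v, cL φ' (c v) = β (cL φ v) := fun v => by simp [← t2, Θ]
    have t4 : ∃ x, φ' x = 1 := by
      by_contra! hx
      have : φ' = 0 := LinearMap.ext fun x => by_contra fun e => hx ((φ' x)⁻¹ • x) (by simp [show φ' x ≠ 0 from e])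
      exact u0 (by simpa [this, a1] using (t3 (y ⊗ₜ u₀)).symm)
    let Λ := c.toLinearMap ∘ₗ TensorProduct.mk F W U z ∘ₗ β.symm.toLinearMap
    have H' := (h.one z φ a3).conj (β := Λ ∘ₗ cL φ') hc fun v => by simp [Λ, t3]
    have l1 : ∀ ψ, ∃ k : F, cL ψ ∘ₗ Λ = k • 1 := fun ψ => by
      obtain ⟨x, x0, p1, p2⟩ := exists_ker2 h.three ψ φ'
      by_contra! hk
      exact hS (h.win x0 t4 p2 (((h.one x ψ p1).comm H' (tt_mul_zero p1) (LinearMap.ext fun v => by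
        simp [Λ, t3, a3]) (LinearMap.ext fun v => by simp [p2])).congr fun v => by simp) hk)
    choose k hk using l1
    let b := finBasis F W
    refine ⟨∑ i, k (b.coord i) • b i, fun u => ?_⟩
    rw [← sum_cL b (c _), sum_tmul]
    exact Finset.sum_congr rfl fun i _ => by
      rw [smul_tmul]; exact congrArg _ (LinearMap.congr_fun (hk (b.coord i)) u)
  let a₀ : End F W := (TensorProduct.rid F W).toLinearMap ∘ₗ μ.lTensor W ∘ₗ c.toLinearMap ∘ₗ
    (TensorProduct.mk F W U).flip (β.symm u₀)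
  have a1 : ∀ z u, c (z ⊗ₜ u) = a₀ z ⊗ₜ β u := fun z u => by
    obtain ⟨z', e⟩ := key z
    simp [a₀, e, m1, ← e (β u)]
  refine ⟨.ofInjectiveEndo a₀ ((injective_iff_map_eq_zero _).2 fun z e => by_contra fun z0 => u0 (tmul_inj (F := F) z0 ?_)),
    β, a1⟩
  simpa [e] using a1 z u₀

theorem cj (h : TX X) (hS : ¬ SLg F _ ≤ X) (hlt : finrank F U < finrank F W) [Nontrivial U]
    {c : W ⊗[F] U ≃ₗ[F] W ⊗[F] U} (hc : c ∈ X) (hc' : c ∉ tstab F W U) {w : W} {φ : Dual F W} (w0 : w ≠ 0) (φ0 : φ ≠ 0)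
    (e : φ w = 0) : ∃ d ∈ X, d ∉ tstab F W U ∧ ∀ v, d v = v + c.symm (w ⊗ₜ cL φ (c v)) := by
  obtain ⟨d, hd, e1⟩ := ((h.one w φ e).conj (β := c.symm.toLinearMap ∘ₗ tt w φ 1 ∘ₗ c.toLinearMap) (inv_mem hc)
    fun v => by simp).exists_apply
  refine ⟨d, hd, fun ⟨a, b, e2⟩ => hc' ?_, e1⟩
  obtain ⟨k, hk⟩ : ∃ k : F, b.toLinearMap = k • 1 := by
    by_contra! hk
    obtain ⟨u, hu⟩ := exists_notMem_of_not_scalar hk
    obtain ⟨x, hx, x0⟩ := (Submodule.ne_bot_iff _).1 (LinearMap.ker_ne_bot_of_finrank_lt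
      (f := cL φ ∘ₗ c.toLinearMap ∘ₗ (TensorProduct.mk F W U).flip u) hlt)
    obtain ⟨ψ, p1⟩ := exists_fun0 (F := F) (a.map_ne_zero_iff.2 x0)
    have := congrArg (cL ψ) ((e2 x u).symm.trans (e1 _))
    simp [show cL φ (c (x ⊗ₜ u)) = 0 from hx, p1] at this
    exact hu (Submodule.mem_span_singleton.2 ⟨_, this.symm⟩)
  have e3 : ∀ x u, c ((k • a x - x) ⊗ₜ u) = w ⊗ₜ cL φ (c (x ⊗ₜ u)) := fun x u => by
    rw [← c.eq_symm_apply, sub_tmul, smul_tmul, sub_eq_iff_eq_add']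
    exact (congrArg _ (LinearMap.congr_fun hk u).symm).trans ((e2 x u).symm.trans (e1 _))
  obtain ⟨x, hx⟩ : ∃ x, k • a x - x ≠ 0 := by
    by_contra! hx
    have : ∀ v, cL φ (c v) = 0 := fun v => by
      induction v with
      | zero => simp
      | tmul x u => exact tmul_inj (F := F) w0 (by rw [← e3, hx]; simp)
      | add x y a b => simp [a, b]
    obtain ⟨u, hu⟩ := exists_ne (0 : U)
    exact φ0 (LinearMap.ext fun z => by simpa [hu] using this (c.symm (z ⊗ₜ u)))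
  exact h.par hS hc hx fun u => ⟨_, e3 x u⟩

theorem mem (h : TX X) (hS : ¬ SLg F _ ≤ X) (hlt : finrank F U < finrank F W) {c : W ⊗[F] U ≃ₗ[F] W ⊗[F] U}
    (hc : c ∈ X) : c ∈ tstab F W U := by
  rcases subsingleton_or_nontrivial U with hU | hU
  · exact ⟨1, 1, fun w u => by simp [Subsingleton.elim u 0]⟩
  have key : ∀ (n : ℕ) (A : Submodule F U), finrank F U ≤ finrank F A + n → ∀ x ∈ A, x ≠ 0 → ∀ c ∈ X, ∀ w, w ≠ 0 →
      (∀ u ∈ A, ∃ u', c (w ⊗ₜ u) = w ⊗ₜ u') → c ∈ tstab F W U := fun n => by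
    induction n with
    | zero => exact fun A hA x _ _ c hc w w0 H => h.par hS hc w0 fun u => H u (by
        rw [Submodule.eq_top_of_finrank_eq (le_antisymm A.finrank_le hA)]; trivial)
    | succ n ih =>
      intro A hA x hx x0 c hc w w0 H
      by_cases hA' : ∀ u, u ∈ A
      · exact h.par hS hc w0 fun u => H u (hA' u)
      obtain ⟨y, hy⟩ := not_forall.1 hA'
      obtain ⟨b, hb⟩ := H x hx
      obtain ⟨⟨φ, k⟩, hφ, φ0⟩ := (Submodule.ne_bot_iff _).1 (LinearMap.ker_ne_bot_of_finrank_lt (f :=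
        ((Dual.eval F W w).prod (cL.flip (c (w ⊗ₜ y)))).coprod ((0 : F →ₗ[F] F).prod
          (LinearMap.toSpanSingleton F U (-b)))) (by simp; omega))
      simp [add_neg_eq_zero] at hφ
      by_contra hc'
      obtain ⟨d, hd, hd', e1⟩ := h.cj hS hlt hc hc' w0 (φ := φ) (by
        rintro rfl
        have : b ≠ 0 := by
          rintro rfl
          exact x0 (tmul_inj (F := F) w0 (c.injective (by simpa using hb)))
        simp [this, eq_comm] at hφ
        exact φ0 (by simp [hφ])) hφ.1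
      refine hd' (ih (A ⊔ F ∙ y) ?_ x (Submodule.mem_sup_left hx) x0 d hd w w0 fun u hu => ?_)
      · have := Submodule.finrank_lt_finrank_of_lt (show A < A ⊔ F ∙ y from
          lt_of_le_of_ne le_sup_left fun e => hy (e ▸ mem_sup_self _ _))
        omega
      obtain ⟨a, ha, _, hz, rfl⟩ := Submodule.mem_sup.1 hu
      obtain ⟨t, rfl⟩ := Submodule.mem_span_singleton.1 hz
      obtain ⟨a', ha'⟩ := H a ha
      exact ⟨a + t • y + (t * k) • x, by simp [e1, tmul_add, ha', hφ, ← hb, smul_smul]⟩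
  have := h.three
  obtain ⟨w, w0, -⟩ := exists_ker2 h.three 0 0
  obtain ⟨x, x0⟩ := exists_ne (0 : U)
  obtain ⟨φ, hφ, φ0⟩ := (Submodule.ne_bot_iff _).1 (LinearMap.ker_ne_bot_of_finrank_lt
    (f := cL.flip (c (w ⊗ₜ x))) (by simpa))
  obtain ⟨w', w1, e, -⟩ := exists_ker2 h.three φ φ
  by_contra hc'
  obtain ⟨d, hd, hd', e1⟩ := h.cj hS hlt hc hc' w1 φ0 e
  refine hd' (key _ (F ∙ x) (Nat.le_add_left _ _) x (Submodule.mem_span_singleton_self x) x0 d hd w w0 fun u hu => ?_)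
  obtain ⟨t, rfl⟩ := Submodule.mem_span_singleton.1 hu
  exact ⟨t • x, by simp [e1, show cL φ (c (w ⊗ₜ x)) = 0 from hφ]⟩

end TX

theorem tx_of_le (hX : tstab F W U ⊓ SLg F _ ≤ X) (h3 : 3 ≤ finrank F W)
    (ex : 3 ≤ finrank F U ∨ ∃ θ : F, θ ≠ 0 ∧ θ ≠ 1) : TX X := by
  refine ⟨fun w φ e => ?_, fun x ν e => ?_, h3, ex⟩
  · obtain ⟨g, hg, e1⟩ := (hasL_SLg (tt_mul_zero (z := w) (ψ := φ) (ρ := (1 : End F U)) (ρ' := 1) e)).exists_apply
    exact .of_apply (hX ⟨⟨.transvection e, 1, fun y u => by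
      simp [e1, LinearMap.transvection.apply, add_tmul, smul_tmul]⟩, hg⟩) e1
  · obtain ⟨g, hg, e1⟩ := (hasL_SLg (α := (rk1 x ν).lTensor W) (by
      rw [← LinearMap.lTensor_mul, rk1_mul_zero e, LinearMap.lTensor_zero])).exists_apply
    exact .of_apply (hX ⟨⟨1, .transvection e, fun y u => by
      simp [e1, LinearMap.transvection.apply, tmul_add]⟩, hg⟩) e1

theorem isMaximalIn_tstab (h2 : 2 ≤ finrank F U) (hlt : finrank F U < finrank F W)
    (ex : 3 ≤ finrank F U ∨ ∃ θ : F, θ ≠ 0 ∧ θ ≠ 1) : Geo.IsMaximalIn (SLg F _) (tstab F W U ⊓ SLg F _) := by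
  refine max_crit inf_le_right ?_ fun X a1 a2 g hg hg' => by_contra fun hS =>
    hg' ⟨(tx_of_le a1 (by omega) ex).mem hS hlt hg, a2 hg⟩
  obtain ⟨w, w0, -⟩ := exists_ker2 (W := W) (F := F) (by omega) 0 0
  obtain ⟨φ, ⟨z, a1⟩, a2, -⟩ := exists_fun2 (W := W) (F := F) (by omega) w w
  obtain ⟨u, -, u0⟩ := exists_notMem_of_lt (U := (⊤ : Submodule F U)) (R := ⊥) (by simp; omega)
  obtain ⟨x, -, hx⟩ := exists_notMem_of_lt (U := ⊤) (R := F ∙ u) (by
    have := finrank_span_one (F := F) u; rw [finrank_top]; omega)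
  obtain ⟨ν, b1, b2⟩ := exists_fun1 hx
  obtain ⟨g, hg, e1⟩ := (hasL_SLg (tt_mul_zero (z := w) (ψ := φ) (ρ := rk1 x ν) (ρ' := rk1 x ν) a2)).exists_apply
  refine ⟨g, hg, fun ⟨⟨a, b, e2⟩, _⟩ => ?_⟩
  obtain ⟨ψ, p1, p2⟩ := exists_fun1 (notMem_symm (notMem_of_fun (a1 ▸ one_ne_zero) a2) w0)
  have c1 := fun χ => congrArg (cL χ) ((e2 z u).symm.trans (e1 _))
  have c2 := fun χ => congrArg (cL χ) ((e2 z x).symm.trans (e1 _))
  have d1 := c1 ψ
  have d2 := c2 ψ
  simp [p1, p2, a1, b1, b2] at d1 d2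
  rcases d1 with d1 | d1
  · simp [d1] at d2; simp [← d2] at b1
  · exact u0 d1

/-- The tensor product of coordinate spaces. -/
noncomputable def kE (F : Type*) [Field F] (κ μ : Type) [Fintype κ] [DecidableEq κ] [Fintype μ] [DecidableEq μ] :
    (μ → F) ⊗[F] (κ → F) ≃ₗ[F] (κ × μ → F) :=
  (((Pi.basisFun F μ).tensorProduct (Pi.basisFun F κ)).reindex (Equiv.prodComm _ _)).equivFun

theorem kE_tmul {κ μ : Type} [Fintype κ] [DecidableEq κ] [Fintype μ] [DecidableEq μ] (w : μ → F) (u : κ → F) :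
    kE F κ μ (w ⊗ₜ u) = Asch.kv u w := funext fun ⟨i, j⟩ => by
  rw [kE, Basis.equivFun_apply, Basis.repr_reindex_apply]; simp [Asch.kv]

theorem mem_tensor {ι : Type} [Fintype ι] [DecidableEq ι] {k m : ℕ} {e : ι ≃ Fin k × Fin m} {P g : GL ι F} :
    g ∈ Geo.tensorProductSubgroup k m e P ↔
      ((glEquiv ι F).trans (autCongr ((kE F _ _).trans (Asch.tv e P))).symm) g ∈ tstab F _ _ := by
  rw [Asch.mem_tensorProductSubgroup]
  constructor
  · rintro ⟨a, b, rfl⟩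
    refine ⟨glEquiv _ F b, glEquiv _ F a, fun w u => ?_⟩
    simp [Asch.tg_mulVec, kE_tmul, Asch.coe_kronecker, Asch.kron_mulVec_kv, LinearEquiv.symm_apply_eq]
  · rintro ⟨b, a, h⟩
    obtain ⟨a, rfl⟩ := (glEquiv _ F).surjective a
    obtain ⟨b, rfl⟩ := (glEquiv _ F).surjective b
    refine ⟨a, b, (glEquiv ι F).injective (LinearEquiv.ext fun v => ?_)⟩
    obtain ⟨v, rfl⟩ := ((kE F _ _).trans (Asch.tv e P)).surjective v
    induction v with
    | zero => simp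
    | add x y a b => simp only [map_add, a, b]
    | tmul w u =>
      simpa [Asch.tg_mulVec, kE_tmul, Asch.coe_kronecker, Asch.kron_mulVec_kv, LinearEquiv.symm_apply_eq] using h w u

theorem isMaximalIn_tensorSL [Fintype F] {ι : Type} [Fintype ι] [DecidableEq ι] {k m : ℕ} (h1 : 2 ≤ k) (h2 : k < m)
    (hex : ¬ (k = 2 ∧ Fintype.card F = 2)) (e : ι ≃ Fin k × Fin m) (P : GL ι F) :
    Geo.IsMaximalIn (Geo.specialLinear ι F) (Geo.tensorProductSubgroup k m e P ⊓ Geo.specialLinear ι F) := by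
  classical
  refine isMaximalIn_inf _ (isMaximalIn_tstab (by simpa) (by simpa) ?_) (fun g => ?_) fun g => mem_tensor
  · by_cases h3 : k = 2
    · have := Fintype.one_lt_card (α := F)
      exact .inr (by simpa using exists_out_list [(0 : F), 1] (by simp; omega))
    · exact .inl (by simp; omega)
  · rw [mem_specialLinear, SLg, SLg, MonoidHom.mem_ker, MonoidHom.mem_ker, MulEquiv.trans_apply,
      ← det_autCongr ((kE F _ _).trans (Asch.tv e P)) ((autCongr _).symm _), MulEquiv.apply_symm_apply]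

end Cfsg.Agent.Root.Mx
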