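import Cfsg.Agent.Root.Ten

/-! Subalgebras of `End U` normalised by the Eichler group of a formed space contain only scalars or all rank one
maps (`UOK.rk1_mem`), under the hypotheses `UOK` (instances `uok_T`, `uok_O`). -/

set_option autoImplicit false

namespace Cfsg.Agent.Root.Mx

open Cfsg.Agent.Geom Cfsg.Agent.AutCl Module

variable {F : Type*} [Field F] {σ : F →+* F} {U : Type*} [AddCommGroup U] [Module F U] {Ψ : Formed σ U}

/-- Parameters of transvections. -/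
def TP (Ψ : Formed σ U) (t : F) : Prop := t ≠ 0 ∧ Ψ.τ * t = 0 ∧ Ψ.ε * t + σ t = 0

/-- The flag `U > u^⊥ > u > 0`. -/
def Fl (Ψ : Formed σ U) (u : U) (i : ℕ) : Submodule F U where
  carrier := {x | (3 ≤ i → Ψ.B u x = 0) ∧ (4 ≤ i → x ∈ F ∙ u) ∧ (5 ≤ i → x = 0)}
  zero_mem' := by simp
  add_mem' := fun a b => ⟨fun h => by simp [a.1 h, b.1 h], fun h => add_mem (a.2.1 h) (b.2.1 h),
    fun h => by simp [a.2.2 h, b.2.2 h]⟩
  smul_mem' := fun c _ a => ⟨fun h => by simp [a.1 h], fun h => Submodule.smul_mem _ _ (a.2.1 h),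
    fun h => by simp [a.2.2 h]⟩

theorem IsE_sub_Fl {u a : U} {d : F} {g : U ≃ₗ[F] U} (h : IsE Ψ u a d g) {i : ℕ} {x : U} (hx : x ∈ Fl Ψ u i) :
    g x - x ∈ Fl Ψ u (i + 1) := by
  refine ⟨fun _ => by simp [h.B_p], fun e => ?_, fun e => ?_⟩
  · rw [h.apply_perp (hx.1 (by omega)), add_sub_cancel_left]
    exact Submodule.smul_mem _ _ (Submodule.mem_span_singleton_self u)
  · obtain ⟨c, rfl⟩ := Submodule.mem_span_singleton.1 (hx.2.1 (by omega))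
    simp [h.apply_p]

theorem Fl_anti {u : U} {i : ℕ} {x : U} (hx : x ∈ Fl Ψ u (i + 1)) : x ∈ Fl Ψ u i :=
  ⟨fun _ => hx.1 (by omega), fun _ => hx.2.1 (by omega), fun _ => hx.2.2 (by omega)⟩

/-- A non-scalar member of `R` on which the Eichler maps at `u` act trivially modulo scalars. -/
theorem exists_fixed_mod (R : Submodule F (End F U)) {u : U}
    (hc : ∀ a d g, IsE Ψ u a d g → ∀ ρ ∈ R, g.toLinearMap ∘ₗ ρ ∘ₗ g.symm.toLinearMap ∈ R) {ρ : End F U} (hρ : ρ ∈ R)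
    (hs : ∀ c : F, ρ ≠ c • 1) : ∃ ρ ∈ R, (∀ c : F, ρ ≠ c • 1) ∧
      ∀ a d g, IsE Ψ u a d g → ∃ c : F, ∀ x, g (ρ x) = ρ (g x) + c • g x := by
  have key : ∀ n k, k + n = 5 → ∀ ρ ∈ R, (∀ c : F, ρ ≠ c • 1) → (∀ i, ∀ x ∈ Fl Ψ u (i + 2), ρ x ∈ Fl Ψ u (i + k)) →
      ∃ ρ ∈ R, (∀ c : F, ρ ≠ c • 1) ∧ ∀ a d g, IsE Ψ u a d g → ∃ c : F, ∀ x, g (ρ x) = ρ (g x) + c • g x := fun n => by
    induction n with
    | zero => exact fun k hk ρ _ hs H => (hs 0 (LinearMap.ext fun x => by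
        simpa using (H 0 x ⟨by omega, by omega, by omega⟩).2.2 (by omega))).elim
    | succ n ih =>
      intro k hk ρ hρ hs H
      by_cases e : ∀ a d g, IsE Ψ u a d g → ∃ c : F, g.toLinearMap ∘ₗ ρ ∘ₗ g.symm.toLinearMap - ρ = c • 1
      · refine ⟨ρ, hρ, hs, fun a d g h => (e a d g h).imp fun c e x => ?_⟩
        simpa [sub_eq_iff_eq_add'] using LinearMap.congr_fun e (g x)
      push Not at e
      obtain ⟨a, d, g, h, e⟩ := e
      refine ih (k + 1) (by omega) _ (sub_mem (hc a d g h ρ hρ) hρ) e fun i x hx => ?_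
      have a1 := IsE_sub_Fl h.inv hx
      have a2 := IsE_sub_Fl h (H i (g⁻¹ x) (by simpa using add_mem (Fl_anti a1) hx))
      have a3 := H (i + 1) _ a1
      rw [Nat.add_right_comm] at a3
      rw [map_sub] at a3
      have := add_mem a2 a3
      rwa [sub_add_sub_cancel] at this
  exact key 5 0 rfl ρ hρ hs fun i x hx => ⟨fun _ => by simp [hx.2.2 (by omega)], fun _ => by simp [hx.2.2 (by omega)],
    fun _ => by simp [hx.2.2 (by omega)]⟩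

variable [FiniteDimensional F U]

theorem mem_of_pair (hn : Ψ.Nondeg) {u r : U} (h : Ψ.IsPair u r) {L : Submodule F U}
    (hu : u ∈ L) (hr : r ∈ L) (hL : ∀ a d g, IsE Ψ u a d g → g r ∈ L) (z : U) : z ∈ L := by
  obtain ⟨d, g, hg⟩ := exists_isE' hn h.1 (a := z - Ψ.B u z • r) (by simp [h.ef])
  have := hL _ _ _ hg
  rw [hg.app, h.ef, mul_one, mul_one, L.sub_mem_iff_right (add_mem hr (L.smul_mem _ hu)),
    L.smul_mem_iff Ψ.ε_ne_zero] at this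
  simpa using add_mem this (L.smul_mem (Ψ.B u z) hr)

theorem mem_span_of_perp (hn : Ψ.Nondeg) {u y : U} (h : ∀ a, Ψ.B u a = 0 → Ψ.B y a = 0) : y ∈ F ∙ u := by
  rw [← hn.perp_perp (F ∙ u), Formed.mem_perp']
  exact fun a ha => h a (Ψ.mem_perp_span_singleton.1 ha)

/-- The hypotheses on the second tensor factor and the group `G` acting on it. -/
structure UOK (Ψ : Formed σ U) (G : Subgroup (U ≃ₗ[F] U)) : Prop where
  nd : Ψ.Nondeg
  le : EG Ψ ≤ G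
  iso : G ≤ Ψ.isom
  ex : ∃ u r, Ψ.IsPair u r
  h1 : (∃ t, TP Ψ t ∧ (3 ≤ finrank F U ∨ ∃ t' ≠ t, TP Ψ t')) ∨ (σ = RingHom.id F ∧ Ψ.ε = 1 ∧ (2 : F) ≠ 0 ∧
    3 ≤ finrank F U ∧ (4 ≤ finrank F U ∨ ∃ θ : F, θ ≠ 0 ∧ θ * θ ≠ 1))
  h2 : ∀ u y, Ψ.Sing u → u ≠ 0 → Ψ.B u y = 0 → y ∉ F ∙ u → ∃ g ∈ G, g u = u ∧ Ψ.B (g y) y ≠ 0

theorem isE_T (hn : Ψ.Nondeg) {u : U} (hu : Ψ.Sing u) {t : F} (ht : TP Ψ t) : ∃ g, IsE Ψ u 0 t g :=
  exists_isE hn hu (by simp) (by simp [ht.2.1]) (by simp [ht.2.2])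

theorem exists_perp_notMem {u : U} {S : Submodule F U} (h : finrank F S + 2 ≤ finrank F U) :
    ∃ a, Ψ.B u a = 0 ∧ a ∉ S := by
  have := (Ψ.B u).finrank_range_add_finrank_ker
  have := (LinearMap.range (Ψ.B u)).finrank_le
  obtain ⟨a, ha, h⟩ := exists_notMem_of_lt (U := LinearMap.ker (Ψ.B u)) (R := S) (by simp at *; omega)
  exact ⟨a, ha, h⟩

namespace UOK

variable {G : Subgroup (U ≃ₗ[F] U)} (h : UOK Ψ G)
include h

theorem eig {u r : U} (hp : Ψ.IsPair u r) {ρ : End F U}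
    (H : ∀ a d g, IsE Ψ u a d g → ∃ c : F, ∀ x, g (ρ x) = ρ (g x) + c • g x) : ρ u ∈ F ∙ u := by
  have m := Submodule.mem_span_singleton_self (R := F) u
  have s1 : 3 ≤ finrank F U → Ψ.B u (ρ u) = 0 := fun h3 => by
    obtain ⟨a, ha, ha'⟩ := exists_perp_notMem (Ψ := Ψ) (u := u) (S := F ∙ u) (by
      have := finrank_span_one (F := F) u; omega)
    obtain ⟨d, g, hg⟩ := exists_isE' h.nd hp.1 ha
    obtain ⟨c, e⟩ := H _ _ _ hg
    have e := e u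
    rw [hg.apply_p, hg.app] at e
    by_contra e0
    refine ha' ((Submodule.smul_mem_iff _ (mul_ne_zero Ψ.ε_ne_zero e0)).1 ?_)
    convert Submodule.smul_mem _ (Ψ.B a (ρ u) - d * Ψ.B u (ρ u) - c) m using 1
    linear_combination (norm := module) -e
  rcases h.h1 with ⟨t, ht, h1⟩ | ⟨rfl, hε, h2, h3, h1⟩
  · have s2 : ∀ t, TP Ψ t → ρ u = -Ψ.B u (ρ u) • r + (Ψ.B u (ρ r) + t * Ψ.B u (ρ u)) • u := fun t ht => by
      obtain ⟨g, hg⟩ := isE_T h.nd hp.1 ht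
      obtain ⟨c, e⟩ := H _ _ _ hg
      have e1 := congrArg (Ψ.B r) (e u)
      have e2 := e r
      simp [hg.app, hp.se.2, hp.fe, hp.ef, Ψ.ε_ne_zero] at e1 e2
      refine smul_right_injective U ht.1 ?_
      simp only
      rw [show c = -(t * Ψ.B u (ρ u)) from mul_right_cancel₀ Ψ.ε_ne_zero (by linear_combination -e1)] at e2
      linear_combination (norm := module) e2
    have s3 : Ψ.B u (ρ u) = 0 := by
      rcases h1 with h1 | ⟨t', h1, ht'⟩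
      · exact s1 h1
      have := (s2 t ht).symm.trans (s2 t' ht')
      simpa [hp.left_ne_zero, h1.symm] using smul_left_injective F hp.left_ne_zero (add_left_cancel this)
    rw [s2 t ht, s3]; simpa using Submodule.smul_mem _ _ m
  have s1 := s1 h3
  have s2 : ∀ a d g, IsE Ψ u a d g → ∀ x, g (ρ x) = ρ (g x) + Ψ.B a (ρ u) • g x := fun a d g hg => by
    obtain ⟨c, e⟩ := H _ _ _ hg
    have e1 := congrArg (Ψ.B r) (e u)
    simp [hg.app, hp.se.2, hp.fe, hg.ap, s1, Ψ.ε_ne_zero] at e1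
    rwa [e1]
  have s3 : ∀ a, Ψ.B u a = 0 → (2 * Ψ.B a (ρ u)) • a + Ψ.B a a • ρ u ∈ F ∙ u := fun a ha => by
    obtain ⟨d, g, hg⟩ := exists_isE' h.nd hp.1 ha
    have e1 := congrArg (Ψ.B u) (s2 _ _ _ hg r)
    have e2 := s2 _ _ _ hg a
    simp [hg.app, hp.se.2, hp.ef, ha, s1, hε] at e1 e2
    convert Submodule.smul_mem _ (Ψ.B a (ρ a) - d * Ψ.B u (ρ a) - Ψ.B a (ρ u) * Ψ.B a a) m using 1
    rw [show Ψ.B u (ρ a) = Ψ.B a (ρ u) by linear_combination e1] at e2 ⊢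
    linear_combination (norm := module) -e2
  refine mem_span_of_perp h.nd fun a ha => Ψ.B_eq_zero_symm (by_contra fun e0 => ?_)
  rcases h1 with h1 | ⟨θ, t0, t1⟩
  · obtain ⟨b, hb, hb'⟩ := exists_perp_notMem (Ψ := Ψ) (u := u) (S := (F ∙ u) ⊔ F ∙ ρ u) (by
      have := finrank_span_one (F := F) u; have := finrank_sup_one (F ∙ u) (ρ u); omega)
    have s4 : ∀ a, Ψ.B u a = 0 → Ψ.B a (ρ u) ≠ 0 → a ∈ (F ∙ u) ⊔ F ∙ ρ u := fun a ha e =>
      (Submodule.smul_mem_iff _ (mul_ne_zero h2 e)).1 ((add_mem_cancel_right (Submodule.smul_mem _ _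
        (mem_sup_self _ _))).1 (Submodule.mem_sup_left (s3 a ha)))
    by_cases e : Ψ.B b (ρ u) = 0
    · exact hb' ((add_mem_cancel_left (s4 a ha e0)).1 (s4 (a + b) (by simp [ha, hb]) (by simpa [e])))
    · exact hb' (s4 b hb e)
  obtain ⟨a, ha, hr, e0⟩ : ∃ a, Ψ.B u a = 0 ∧ Ψ.B r a = 0 ∧ Ψ.B a (ρ u) ≠ 0 :=
    ⟨a - Ψ.B r a • u, by simp [ha, hp.se.2], by simp [hp.fe, hε], by simpa [s1]⟩
  obtain ⟨d, g, hg⟩ := exists_isE' h.nd hp.1 ha
  have hr' := Ψ.B_eq_zero_symm hr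
  have s4 : ∀ l : F, l * Ψ.B a (ρ r) - l * l * d * Ψ.B u (ρ r) =
      -(l * l * d * Ψ.B r (ρ u)) - l * Ψ.B r (ρ a) - l * Ψ.B a (ρ u) * (l * l * d) := fun l => by
    obtain ⟨g, hg⟩ := exists_isE h.nd hp.1 (a := l • a) (d := l * l * d) (by simp [ha])
      (by rw [Ψ.Q_smul, ← hg.hQ]; ring) (by have := hg.hB; simp at this ⊢; linear_combination l * l * this)
    have e1 := congrArg (Ψ.B r) (s2 _ _ _ hg r)
    simp [hg.app, hp.sf.2, hp.ef, hp.fe, hr, hr', hε] at e1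
    linear_combination e1
  have d0 : d = 0 := by
    have : 2 * θ * (θ * θ - 1) * Ψ.B a (ρ u) * d = 0 := by
      linear_combination 2 * s4 θ - (θ * θ + θ) * s4 1 - (θ * θ - θ) * s4 (-1)
    simpa [h2, t0, sub_eq_zero, t1, e0] using this
  have e1 : Ψ.B a a = 0 := by simpa [d0] using hg.hB.symm
  obtain ⟨c, rfl⟩ := Submodule.mem_span_singleton.1 ((Submodule.smul_mem_iff _ (mul_ne_zero h2 e0)).1
    (by simpa [e1] using s3 a ha))
  simp [s1] at e0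

theorem three_or : (∃ t, TP Ψ t) ∨ 3 ≤ finrank F U := h.h1.imp (fun ⟨t, a, _⟩ => ⟨t, a⟩) fun a => a.2.2.2.1

theorem exists_opp {u r : U} (hp : Ψ.IsPair u r) : ∃ g ∈ G, Ψ.B u (g u) ≠ 0 := by
  have e := hp.fe
  rcases h.h1 with ⟨t, ht, -⟩ | ⟨rfl, hε, h2, h3, -⟩
  · obtain ⟨g, hg⟩ := isE_T h.nd hp.2 ht
    exact ⟨g, h.le (IsE_mem_EG hg), by simp [hg.app, hp.se.2, hp.ef, e, ht.1, Ψ.ε_ne_zero]⟩
  obtain ⟨a, ha, a0⟩ : ∃ a ∈ Ψ.pairPerp u r, Ψ.B a a ≠ 0 := by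
    by_contra! hc
    have := hp.finrank_pairPerp h.nd
    obtain ⟨a, ha, a0⟩ := exists_notMem_of_lt (U := Ψ.pairPerp u r) (R := ⊥) (by simp; omega)
    refine a0 (Ψ.restrict_nondeg_iff'.1 (hp.nondeg_pairPerp h.nd) a ha fun b hb => mul_left_cancel₀ h2 ?_)
    have := hc _ (add_mem ha hb)
    simp [hc a ha, hc b hb, Ψ.symm a b, hε] at this
    linear_combination this
  obtain ⟨a1, a2⟩ := Ψ.mem_pairPerp.1 ha
  obtain ⟨d, g, hg⟩ := exists_isE' h.nd hp.2 a2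
  refine ⟨g, h.le (IsE_mem_EG hg), ?_⟩
  have := hg.hB
  simp [hg.app, hp.se.2, hp.ef, e, a1, Ψ.B_eq_zero_symm a1, Ψ.ε_ne_zero]
  rintro rfl
  simp [a0.symm] at this

variable (R : Submodule F (End F U)) (h1 : 1 ∈ R) (hm : ∀ a ∈ R, ∀ b ∈ R, a * b ∈ R)
  (hc : ∀ g ∈ G, ∀ ρ ∈ R, g.toLinearMap ∘ₗ ρ ∘ₗ g.symm.toLinearMap ∈ R)
include h1 hm hc

theorem beta_mem {u r : U} (hp : Ψ.IsPair u r) {ρ : End F U} (hρ : ρ ∈ R) (hs : ∀ c : F, ρ ≠ c • 1) :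
    rk1 u (Ψ.B u) ∈ R := by
  have m := Submodule.mem_span_singleton_self (R := F) u
  obtain ⟨ρ, hρ, hs, H⟩ := exists_fixed_mod R (u := u) (fun a d g hg => hc g (h.le (IsE_mem_EG hg))) hρ hs
  obtain ⟨c, e⟩ := Submodule.mem_span_singleton.1 (h.eig hp H)
  obtain ⟨ρ, hρ, r0, ru, H⟩ : ∃ ρ ∈ R, ρ ≠ 0 ∧ ρ u = 0 ∧ ∀ a d g, IsE Ψ u a d g → ∀ x, g (ρ x) = ρ (g x) := by
    refine ⟨ρ - c • 1, sub_mem hρ (R.smul_mem _ h1), sub_ne_zero.2 (hs c), by simp [e], fun a d g hg x => ?_⟩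
    obtain ⟨k, e1⟩ := H a d g hg
    have := e1 u
    rw [hg.apply_p, ← e, map_smul, hg.apply_p] at this
    simp [hp.left_ne_zero] at this
    simp [e1, this]
  have s0 : ∀ a d g, IsE Ψ u a d g → ∀ x, (Ψ.B a (ρ x) - d * Ψ.B u (ρ x)) • u - (Ψ.ε * Ψ.B u (ρ x)) • a =
      -(Ψ.ε * Ψ.B u x) • ρ a := fun a d g hg x => by
    have := H a d g hg x
    rw [hg.app, hg.app, map_sub, map_add, map_smul, map_smul, ru] at this
    linear_combination (norm := module) this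
  have s1 : ∀ x, Ψ.B u (ρ x) = 0 := by
    rcases h.three_or with ⟨t, ht⟩ | h3
    · obtain ⟨g, hg⟩ := isE_T h.nd hp.1 ht
      exact fun x => by simpa [ht.1, hp.left_ne_zero] using s0 _ _ _ hg x
    obtain ⟨a, ha, ha'⟩ := exists_perp_notMem (Ψ := Ψ) (u := u) (S := F ∙ u) (by
      have := finrank_span_one (F := F) u; omega)
    obtain ⟨d, g, hg⟩ := exists_isE' h.nd hp.1 ha
    have s2 : ∀ x, (Ψ.ε * Ψ.B u x) • ρ a ∈ F ∙ u → Ψ.B u (ρ x) = 0 := fun x e => by_contra fun e0 =>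
      ha' ((Submodule.smul_mem_iff _ (mul_ne_zero Ψ.ε_ne_zero e0)).1 (by
        convert add_mem (Submodule.smul_mem _ (Ψ.B a (ρ x) - d * Ψ.B u (ρ x)) m) e using 1
        linear_combination (norm := module) -s0 _ _ _ hg x))
    refine fun x => s2 x (Submodule.smul_mem _ _ (mem_span_of_perp h.nd fun b hb => Ψ.B_eq_zero_symm ?_))
    obtain ⟨d, g, hg⟩ := exists_isE' h.nd hp.1 hb
    simpa [ha, s2 a (by simp [ha]), hp.left_ne_zero] using s0 _ _ _ hg a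
  have s2 : ∀ a, Ψ.B u a = 0 → ρ a = -(Ψ.ε * Ψ.B a (ρ r)) • u := fun a ha => by
    obtain ⟨d, g, hg⟩ := exists_isE' h.nd hp.1 ha
    have := s0 _ _ _ hg r
    simp only [s1, hp.ef] at this
    linear_combination (norm := skip) Ψ.ε • this - Ψ.εε • ρ a
    module
  have s3 : ∀ x, ∃ k : F, ρ x = Ψ.B u x • ρ r + k • u := fun x =>
    ⟨_, by rw [← s2 (x - Ψ.B u x • r) (by simp [hp.ef])]; simp⟩
  by_cases hy : ρ r ∈ F ∙ u
  · obtain ⟨k, e⟩ := Submodule.mem_span_singleton.1 hy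
    have e1 : ρ = k • rk1 u (Ψ.B u) := LinearMap.ext fun x => by
      have := s2 (x - Ψ.B u x • r) (by simp [hp.ef])
      rw [← e, Ψ.B_smul_right, Ψ.B_eq_zero_symm (x := u) (by simp [hp.ef]), map_sub, map_smul, ← e] at this
      simp [sub_eq_zero] at this
      simp [this, smul_smul, mul_comm]
    exact (R.smul_mem_iff (by rintro rfl; simp [r0] at e1)).1 (e1 ▸ hρ)
  obtain ⟨g, hg, g1, g2⟩ := h.h2 u _ hp.1 hp.left_ne_zero (s1 r) hy
  have g3 : ∀ x, Ψ.B u (g x) = Ψ.B u x := fun x => by rw [← (h.iso hg).1 u x, g1]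
  refine (R.smul_mem_iff (neg_ne_zero.2 (mul_ne_zero Ψ.ε_ne_zero g2))).1 ?_
  convert hm _ hρ _ (hc g hg ρ hρ) using 1
  ext x
  obtain ⟨k, e⟩ := s3 (g.symm x)
  rw [← g3, g.apply_symm_apply] at e
  simp [e, g1, ru, s2 (g (ρ r)) (by rw [g3, s1]), smul_smul, mul_comm]

/-- A subalgebra normalised by `G` and containing a non-scalar map contains all rank one maps. -/
theorem rk1_mem {ρ : End F U} (hρ : ρ ∈ R) (hs : ∀ c : F, ρ ≠ c • 1) (y : U) (φ : Dual F U) : rk1 y φ ∈ R := by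
  obtain ⟨u, r, hp⟩ := h.ex
  have H := h.beta_mem R h1 hm hc hp hρ hs
  obtain ⟨g, hg, g1⟩ := h.exists_opp hp
  have cj : ∀ g ∈ G, ∀ y z, rk1 y (Ψ.B z) ∈ R → rk1 (g y) (Ψ.B (g z)) ∈ R := fun g hg y z e => by
    convert hc g hg _ e using 1
    ext x
    simp [← (h.iso hg).1 z]
  have hp' := isPair_smul hp.1 (z := g u) ⟨by rw [(h.iso hg).2, hp.se.1], by rw [(h.iso hg).1, hp.se.2]⟩ g1
  let M : Submodule F U :=
    { carrier := {z | rk1 u (Ψ.B z) ∈ R}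
      zero_mem' := by simp [rk1]
      add_mem' := fun {x z} a b => show rk1 _ _ ∈ R by
        convert add_mem (show rk1 _ _ ∈ R from a) b using 1
        ext x; simp [add_smul]
      smul_mem' := fun c z a => show rk1 _ _ ∈ R by
        convert R.smul_mem (σ c) a using 1
        ext x; simp [smul_smul] }
  have m1 : g u ∈ M := (R.smul_mem_iff g1).1 (by
    convert hm _ H _ (cj g hg _ _ H) using 1
    ext x; simp [smul_smul, mul_comm])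
  have s1 : ∀ z, z ∈ M := mem_of_pair h.nd hp' H (M.smul_mem _ m1) fun a d s hs => by
    have := cj s (h.le (IsE_mem_EG hs)) _ _ (M.smul_mem (Ψ.B u (g u))⁻¹ m1)
    rwa [hs.apply_p] at this
  let L : Submodule F U :=
    { carrier := {y | ∀ z, rk1 y (Ψ.B z) ∈ R}
      zero_mem' := fun z => by simp [rk1]
      add_mem' := fun a b z => by
        convert add_mem (a z) (b z) using 1
        ext x; simp
      smul_mem' := fun c z a z => by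
        convert R.smul_mem c (a z) using 1
        ext x; simp [smul_smul, mul_comm] }
  have m2 : ∀ g ∈ G, ∀ y ∈ L, g y ∈ L := fun g hg y hy z => by simpa using cj g hg _ _ (hy (g.symm z))
  obtain ⟨z, rfl⟩ := h.nd.exists_eq_B φ
  exact mem_of_pair h.nd hp' (L := L) s1 (L.smul_mem _ (m2 g hg u s1))
    (fun a d s hs => m2 s (h.le (IsE_mem_EG hs)) _ (L.smul_mem _ (m2 g hg u s1))) y z

end UOK

theorem uok_T [Finite F] (hn : Ψ.Nondeg) (h2 : 2 ≤ finrank F U) {t : F} (ht : TP Ψ t)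
    (ex : ∃ u, u ≠ 0 ∧ Ψ.Sing u) (h3 : 3 ≤ finrank F U ∨ ∃ t' ≠ t, TP Ψ t') (hQ : ∀ x, Ψ.Q x = 0) : UOK Ψ (EG Ψ) := by
  refine ⟨hn, le_rfl, EG_le_isom, ?_, .inl ⟨t, ht, h3⟩, fun u y hu u0 h1 hy => ?_⟩
  · obtain ⟨u, u0, hu⟩ := ex
    obtain ⟨r, -, h⟩ := exists_pair_mem hn (nondeg_top hn) trivial u0 hu
    exact ⟨u, r, h⟩
  by_cases e : Ψ.B y y = 0
  swap
  · exact ⟨1, one_mem _, rfl, e⟩
  obtain ⟨w, hw, a1, -, a2⟩ := exists_sing_sep hn (x := u) (y := u) (z := y) ⟨hQ y, e⟩ h1 h1 fun ⟨α, β, e⟩ =>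
    hy (e ▸ add_mem (Submodule.smul_mem _ _ (Submodule.mem_span_singleton_self u))
      (Submodule.smul_mem _ _ (Submodule.mem_span_singleton_self u)))
  obtain ⟨g, hg⟩ := isE_T hn hw ht
  have a3 : Ψ.B w y ≠ 0 := fun e => by simpa [a2] using Ψ.B_eq_zero_symm e
  exact ⟨g, IsE_mem_EG hg, by simp [hg.app, Ψ.B_eq_zero_symm a1], by simp [hg.app, e, ht.1, a3]⟩

theorem sing_of_B {Ψ : Formed (RingHom.id F) U} (hε : Ψ.ε = 1) (h2 : (2 : F) ≠ 0) {y : U} (e : Ψ.B y y = 0) :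
    Ψ.Sing y := by
  obtain ⟨d, a, b⟩ := Ψ.trace y
  have : d = 0 := mul_left_cancel₀ h2 (by simp [hε, e] at b; linear_combination b)
  exact ⟨by simp [← a, this], e⟩

theorem B_eq_zero_of_iso {Ψ : Formed (RingHom.id F) U} (hε : Ψ.ε = 1) (h2 : (2 : F) ≠ 0) {S : Submodule F U}
    (h : ∀ a ∈ S, Ψ.B a a = 0) {a b : U} (ha : a ∈ S) (hb : b ∈ S) : Ψ.B a b = 0 := by
  have := h _ (add_mem ha hb)
  simp [h a ha, h b hb, Ψ.symm a b, hε] at this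
  exact mul_left_cancel₀ h2 (by linear_combination this)

theorem not_iso_three (hn : Ψ.Nondeg) (h3 : finrank F U ≤ 3) {u y : U} (hu : Ψ.Sing u) (u0 : u ≠ 0)
    (h : Ψ.B u y = 0) (hy : y ∉ F ∙ u) : Ψ.B y y ≠ 0 := fun e => by
  have a1 := hn.finrank_add_finrank_perp ((F ∙ u) ⊔ F ∙ y)
  have a2 : (F ∙ u) ⊔ (F ∙ y) ≤ Ψ.perp ((F ∙ u) ⊔ F ∙ y) := by
    simp [Formed.perp_sup, Formed.mem_perp_span_singleton, hu.2, h, e, Ψ.B_eq_zero_symm h]
  have a3 := Submodule.finrank_mono a2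
  have a4 := Submodule.finrank_lt_finrank_of_lt (show (F ∙ u) < (F ∙ u) ⊔ F ∙ y from
    lt_of_le_of_ne le_sup_left fun e => hy (e ▸ mem_sup_self _ _))
  rw [finrank_span_singleton u0] at a4
  omega

theorem uok_O [Finite F] {Ψ : Formed (RingHom.id F) U} (hn : Ψ.Nondeg) (hε : Ψ.ε = 1) (h2 : (2 : F) ≠ 0)
    (h3 : 3 ≤ finrank F U) (h4 : 4 ≤ finrank F U ∨ ∃ θ : F, θ ≠ 0 ∧ θ * θ ≠ 1)
    (h5 : finrank F U ≠ 4 ∨ ∀ u y, Ψ.Sing u → u ≠ 0 → Ψ.B u y = 0 → y ∉ F ∙ u → Ψ.B y y ≠ 0) : UOK Ψ (EG Ψ) := by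
  refine ⟨hn, le_rfl, EG_le_isom, ?_, .inr ⟨rfl, hε, h2, h3, h4⟩, fun u y hu u0 h1 hy => ?_⟩
  · obtain ⟨u, -, r, -, h⟩ := exists_pair hn (nondeg_top hn) (by simpa)
    exact ⟨u, r, h⟩
  by_cases e : Ψ.B y y = 0
  swap
  · exact ⟨1, one_mem _, rfl, e⟩
  have h5 : 5 ≤ finrank F U := by
    by_contra hc
    exact h5.elim (fun h => not_iso_three hn (by omega) hu u0 h1 hy e) fun h => h u y hu u0 h1 hy e
  obtain ⟨w, hw, a1, -, a2⟩ := exists_sing_sep hn (x := u) (y := u) (z := y) (sing_of_B hε h2 e) h1 h1 fun ⟨α, β, e⟩ =>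
    hy (e ▸ add_mem (Submodule.smul_mem _ _ (Submodule.mem_span_singleton_self u))
      (Submodule.smul_mem _ _ (Submodule.mem_span_singleton_self u)))
  have a3 : Ψ.B w y = 1 := by simp [Ψ.symm y w, a2, hε]
  obtain ⟨a, ha, a0⟩ : ∃ a ∈ pf Ψ ![u, y, w], Ψ.B a a ≠ 0 := by
    by_contra! hc
    have := finrank_pf (Φ := Ψ) ![u, y, w] ⊤
    obtain ⟨a, ha, a0⟩ := exists_notMem_of_lt (U := pf Ψ ![u, y, w]) (R := F ∙ u) (by
      rw [top_inf_eq, finrank_top] at this; rw [finrank_span_singleton u0]; omega)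
    refine a0 (mem_span_of_perp hn fun x hx => ?_)
    have := B_eq_zero_of_iso hε h2 hc ha (b := x - Ψ.B w x • y - Ψ.B y x • w) (by
      simp [mem_pf, Fin.forall_fin_succ, hx, h1, a1, e, a2, a3, hw.2])
    simpa [Ψ.B_eq_zero_symm (x := y) (mem_pf.1 ha 1), Ψ.B_eq_zero_symm (x := w) (mem_pf.1 ha 2)] using this
  have b1 : Ψ.B u a = 0 := mem_pf.1 ha 0
  have b2 : Ψ.B y a = 0 := mem_pf.1 ha 1
  obtain ⟨d, g, hg⟩ := exists_isE' hn hw (a := a) (mem_pf.1 ha 2)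
  refine ⟨g, IsE_mem_EG hg, by simp [hg.app, Ψ.B_eq_zero_symm a1, Ψ.B_eq_zero_symm b1], ?_⟩
  have := hg.hB
  simp [hg.app, e, a3, Ψ.B_eq_zero_symm b2]
  rintro rfl
  simp [a0.symm] at this

end Cfsg.Agent.Root.Mx
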