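import Cfsg.Agent.Root.Ten2

/-! Overgroups `X` of `EG(W) ⊗ EG(U)` in the isometry group of a tensor product of formed spaces (`FX`): the unipotent
radical of the stabiliser of `w ⊗ U` (`HE`), the criterion `FX.win` and the parabolic lemma `FX.par`. -/

set_option autoImplicit false

namespace Cfsg.Agent.Root.Mx

open Cfsg.Agent.Geom Cfsg.Agent.AutCl Module TensorProduct

variable {F : Type*} [Field F] {σ : F →+* F} {W U : Type*} [AddCommGroup W] [Module F W] [AddCommGroup U] [Module F U]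
  {Φ₁ : Formed σ W} {Φ₂ : Formed σ U} {Φ : Formed σ (W ⊗[F] U)} {X : Subgroup (W ⊗[F] U ≃ₗ[F] W ⊗[F] U)}
  {G : Subgroup (U ≃ₗ[F] U)}

/-- `ρ'` is adjoint to `ρ`. -/
def IsAdj (Ψ : Formed σ U) (ρ ρ' : End F U) : Prop := ∀ a b, Ψ.B (ρ' a) b = Ψ.B a (ρ b)

theorem IsAdj.symm {ρ ρ' : End F U} (h : IsAdj Φ₂ ρ ρ') : IsAdj Φ₂ ρ' ρ := fun a b => by
  rw [Φ₂.symm b, Φ₂.symm _ a, h]

theorem isAdj_rk1 (y z : U) : IsAdj Φ₂ (rk1 (Φ₂.ε • z) (Φ₂.B y)) (rk1 y (Φ₂.B z)) := fun a b => by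
  simp [Φ₂.symm z a]; linear_combination (-(σ (Φ₂.B z a) * Φ₂.B y b)) * Φ₂.εε

theorem exists_isAdj [FiniteDimensional F U] (hn : Φ₂.Nondeg) (ρ : End F U) : ∃ ρ', IsAdj Φ₂ ρ ρ' := by
  choose f hf using fun a => hn.exists_eq_B (Φ₂.B a ∘ₗ ρ)
  exact ⟨⟨⟨f, fun a b => hn.ext fun y => by simp [hf]⟩, fun c a => hn.ext fun y => by simp [hf]⟩,
    fun a b => by simp [hf]⟩

theorem inv_mul_apply {a b : U ≃ₗ[F] U} {x y : U} : (a⁻¹ * b) x = y ↔ b x = a y := a.symm_apply_eq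

/-- `g ⊗ 1`. -/
noncomputable abbrev lT (U : Type*) [AddCommGroup U] [Module F U] (g : W ≃ₗ[F] W) : W ⊗[F] U ≃ₗ[F] W ⊗[F] U :=
  TensorProduct.congr g (.refl F U)

theorem lT_isE {p a : W} {d : F} {g : W ≃ₗ[F] W} (h : IsE Φ₁ p a d g) (x : W ⊗[F] U) : lT U g x =
    x + p ⊗ₜ (cL (Φ₁.B a) x - d • cL (Φ₁.B p) x) - (Φ₁.ε • a) ⊗ₜ cL (Φ₁.B p) x := by
  induction x with
  | zero => simp
  | tmul w u => simp [h.app, add_tmul, sub_tmul, smul_tmul, tmul_sub, smul_smul]; module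
  | add x y a b => simp only [map_add, a, b, smul_add, tmul_add, tmul_sub]; abel

theorem cL_lT {g : W ≃ₗ[F] W} (hg : g ∈ Φ₁.isom) (w : W) (x : W ⊗[F] U) :
    cL (Φ₁.B (g w)) (lT U g x) = cL (Φ₁.B w) x := by
  induction x with
  | zero => simp
  | tmul w u => simp [hg.1]
  | add x y a b => simp only [map_add, a, b]

theorem tperp_ind {w r : W} (hp : Φ₁.IsPair w r) (A : AddSubgroup (W ⊗[F] U))
    (hA : ∀ a u, Φ₁.B w a = 0 → a ⊗ₜ u ∈ A) (x : W ⊗[F] U) : x - r ⊗ₜ cL (Φ₁.B w) x ∈ A := by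
  induction x with
  | zero => simp
  | tmul a u => simpa [sub_tmul, smul_tmul] using hA (a - Φ₁.B w a • r) u (by simp [hp.ef])
  | add x y a b => simpa [tmul_add, add_sub_add_comm] using add_mem a b

theorem mem_tstab_of [FiniteDimensional F W] [Nontrivial U] {c : W ⊗[F] U ≃ₗ[F] W ⊗[F] U} {β : U ≃ₗ[F] U}
    (h : ∀ z, ∃ z', ∀ u, c (z ⊗ₜ u) = z' ⊗ₜ β u) : c ∈ tstab F W U := by
  obtain ⟨u₀, u0⟩ := exists_ne (0 : U)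
  obtain ⟨μ, m1⟩ := exists_fun0 (F := F) u0
  let a₀ : End F W := (TensorProduct.rid F W).toLinearMap ∘ₗ μ.lTensor W ∘ₗ c.toLinearMap ∘ₗ
    (TensorProduct.mk F W U).flip (β.symm u₀)
  have a1 : ∀ z u, c (z ⊗ₜ u) = a₀ z ⊗ₜ β u := fun z u => by
    obtain ⟨z', e⟩ := h z
    simp [a₀, e, m1]
  refine ⟨.ofInjectiveEndo a₀ ((injective_iff_map_eq_zero _).2 fun z e => by_contra fun z0 => u0 (tmul_inj (F := F) z0 ?_)),
    β, a1⟩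
  simpa [e] using a1 z u₀

theorem exists_beta [FiniteDimensional F U] {c : W ⊗[F] U ≃ₗ[F] W ⊗[F] U} {w w' : W} (w0 : w ≠ 0)
    (hw : ∀ u, ∃ u', c (w ⊗ₜ u) = w' ⊗ₜ u') : ∃ β : U ≃ₗ[F] U, ∀ u, c (w ⊗ₜ u) = w' ⊗ₜ β u := by
  by_cases w1 : w' = 0
  · exact ⟨1, fun u => by obtain ⟨u', e⟩ := hw u; simp [e, w1]⟩
  obtain ⟨χ, c1⟩ := exists_fun0 (F := F) w1
  let β₀ : End F U := cL χ ∘ₗ c.toLinearMap ∘ₗ TensorProduct.mk F W U w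
  have b0 : ∀ u, c (w ⊗ₜ u) = w' ⊗ₜ β₀ u := fun u => by
    obtain ⟨u', e⟩ := hw u
    simp [β₀, e, c1]
  exact ⟨.ofInjectiveEndo β₀ fun u u' e => tmul_inj w0 (c.injective (by rw [b0, b0, e])), b0⟩

section
variable [Finite F] [FiniteDimensional F W]

theorem sing_trans (hn : Φ₁.Nondeg) (h5 : 5 ≤ finrank F W) {P : W → Prop} (hs : ∀ c : F, c ≠ 0 → ∀ w, P w → P (c • w))
    (hE : ∀ p a d g, IsE Φ₁ p a d g → ∀ w, P w → P (g w)) {w z : W} (hw : Φ₁.Sing w) (w0 : w ≠ 0) (h : P w)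
    (hz : Φ₁.Sing z) (z0 : z ≠ 0) : P z := by
  have s : ∀ {w z : W}, Φ₁.Sing w → w ≠ 0 → P w → Φ₁.Sing z → z ≠ 0 → Φ₁.B z w = 0 → P z := by
    intro w z hw w0 h hz z0 e
    obtain ⟨r, -, hr, a, b⟩ := exists_sing_both hn (nondeg_top hn) trivial w0 hw trivial z0 e
    replace a : Φ₁.B r w ≠ 0 := fun e => a (Φ₁.B_eq_zero_symm e)
    replace b : Φ₁.B r z ≠ 0 := fun e => b (Φ₁.B_eq_zero_symm e)
    obtain ⟨_, -, d, g, hg, e⟩ := exists_isE_apply hn (isPair_smul hr hw a) (isPair_smul hr hz b)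
    simpa [e, b] using hs _ b _ (hE _ _ _ _ hg _ (hs _ (inv_ne_zero a) _ h))
  obtain ⟨x, -, x0, hx, e⟩ := exists_sing_pf Φ₁ ![w, z] (U := ⊤) (R := ⊥) (by simpa)
  exact s hx x0 (s hw w0 h hx x0 (Φ₁.B_eq_zero_symm (e 0))) hz z0 (e 1)

theorem exists_sing_perp (h5 : 5 ≤ finrank F W) (w : W) : ∃ x, x ∉ F ∙ w ∧ Φ₁.Sing x ∧ Φ₁.B w x = 0 := by
  obtain ⟨x, -, a, b, c⟩ := exists_sing_pf Φ₁ ![w] (U := ⊤) (R := F ∙ w) (by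
    have := finrank_span_one (F := F) w; rw [finrank_top]; omega)
  exact ⟨x, a, b, c 0⟩

theorem perp_sing_ind (hn : Φ₁.Nondeg) (h5 : 5 ≤ finrank F W) {w : W} (hw : Φ₁.Sing w) (w0 : w ≠ 0) (A : AddSubgroup W)
    (hA : ∀ x, x ∉ F ∙ w → Φ₁.Sing x → Φ₁.B w x = 0 → x ∈ A) (a : W) (ha : Φ₁.B w a = 0) : a ∈ A := by
  have s : ∀ x, Φ₁.Sing x → Φ₁.B w x = 0 → x ∈ A := fun y hy e => by
    by_cases h : y ∈ F ∙ w
    swap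
    · exact hA y h hy e
    obtain ⟨x, a, b, c⟩ := exists_sing_perp (Φ₁ := Φ₁) h5 w
    refine (add_mem_cancel_right (hA x a b c)).1 (hA _ (by rwa [add_mem_cancel_left h]) (sing_add_of_perp hy b ?_)
      (by simp [e, c]))
    obtain ⟨k, rfl⟩ := Submodule.mem_span_singleton.1 h
    simp [c]
  obtain ⟨r, hr⟩ := hn.exists_isPair w0 hw
  have := hr.finrank_pairPerp hn
  obtain ⟨e, he, f, hf, hef⟩ := exists_pair hn (hr.nondeg_pairPerp hn) (by omega)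
  simpa [ha] using add_mem (sing_ind he hf hef A (fun x hx h => s x h (Φ₁.mem_pairPerp.1 hx).1) _
    (hr.sub_mem_pairPerp a)) (s _ (hw.smul (Φ₁.ε * Φ₁.B r a)) (by simp [hw.2]))

omit [Finite F] in
theorem exists_perp_two (hn : Φ₁.Nondeg) (h5 : 5 ≤ finrank F W) (w x : W) : ∃ a b, Φ₁.B w a = 0 ∧ Φ₁.B x a = 0 ∧
    Φ₁.B w b = 0 ∧ Φ₁.B x b = 0 ∧ Φ₁.B a b = 1 := by
  have := finrank_pf (Φ := Φ₁) ![w, x] ⊤
  obtain ⟨a, ha, a0⟩ := exists_notMem_of_lt (U := pf Φ₁ ![w, x]) (R := (F ∙ w) ⊔ F ∙ x) (by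
    have := finrank_sup_one (F ∙ w) x; have := finrank_span_one (F := F) w
    rw [top_inf_eq, finrank_top] at *; omega)
  obtain ⟨b, -, hb, e⟩ := sep hn (nondeg_top hn) le_top trivial a0
  exact ⟨a, b, mem_pf.1 ha 0, mem_pf.1 ha 1, (Φ₁.mem_pairPerp.1 hb).1, (Φ₁.mem_pairPerp.1 hb).2, e⟩

end

/-- `X` contains an element of the unipotent radical of the stabiliser of `w ⊗ U` with vector part `θ`. -/
def HE (Φ₁ : Formed σ W) (X : Subgroup (W ⊗[F] U ≃ₗ[F] W ⊗[F] U)) (w : W) (θ : U →ₗ[F] W ⊗[F] U) : Prop :=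
  (∀ u, cL (Φ₁.B w) (θ u) = 0) ∧ ∃ g ∈ X, ∀ x, ∃ u, g x = x - θ (cL (Φ₁.B w) x) + w ⊗ₜ u

/-- An overgroup of `EG(W) ⊗ G`. -/
structure FX (Φ₁ : Formed σ W) (Φ₂ : Formed σ U) (Φ : Formed σ (W ⊗[F] U)) (X : Subgroup (W ⊗[F] U ≃ₗ[F] W ⊗[F] U))
    (G : Subgroup (U ≃ₗ[F] U)) : Prop where
  B : ∀ w u w' u', Φ.B (w ⊗ₜ u) (w' ⊗ₜ u') = Φ₁.B w w' * Φ₂.B u u'
  Q : ∀ w u, Φ₁.Sing w → Φ.Q (w ⊗ₜ u) = 0
  τ : Φ₁.τ = 0
  Q₁ : ∀ w, Φ₁.Q w = 0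
  nd : Φ₁.Nondeg
  five : 5 ≤ finrank F W
  ok : UOK Φ₂ G
  iso : X ≤ Φ.isom
  l : ∀ p a d g, IsE Φ₁ p a d g → lT U g ∈ X
  r : ∀ g ∈ G, TensorProduct.congr (.refl F W) g ∈ X
  ns : NotSp2 Φ

namespace HE
variable {w : W} {θ θ' : U →ₗ[F] W ⊗[F] U}

theorem congr (h : HE Φ₁ X w θ) (e : ∀ u, θ u = θ' u) : HE Φ₁ X w θ' := LinearMap.ext e ▸ h

theorem sub (hw : Φ₁.Sing w) (h : HE Φ₁ X w θ) (h' : HE Φ₁ X w θ') : HE Φ₁ X w (θ - θ') := by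
  obtain ⟨a, g, hg, e⟩ := h
  obtain ⟨a', g', hg', e'⟩ := h'
  refine ⟨fun u => by simp [a, a'], g * g'⁻¹, mul_mem hg (inv_mem hg'), fun x => ?_⟩
  obtain ⟨x, rfl⟩ := g'.surjective x
  obtain ⟨u, e⟩ := e x
  obtain ⟨u', e'⟩ := e' x
  refine ⟨u - u', ?_⟩
  simp only [LinearEquiv.mul_apply, LinearEquiv.coe_inv, g'.symm_apply_apply, e]
  simp [e', a', hw.2, tmul_sub]; abel

theorem conj (h : HE Φ₁ X w θ) {s : W ⊗[F] U ≃ₗ[F] W ⊗[F] U} (hs : s ∈ X) {w' : W}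
    (h1 : ∀ u, ∃ u', s (w ⊗ₜ u) = w' ⊗ₜ u') {γ : End F U} (hγ : Function.Injective γ)
    (h2 : ∀ x, cL (Φ₁.B w) x = γ (cL (Φ₁.B w') (s x))) : HE Φ₁ X w' (s.toLinearMap ∘ₗ θ ∘ₗ γ) := by
  obtain ⟨a, g, hg, e⟩ := h
  refine ⟨fun u => hγ (by simp [← h2, a]), s * g * s⁻¹, mul_mem (mul_mem hs hg) (inv_mem hs), fun x => ?_⟩
  obtain ⟨x, rfl⟩ := s.surjective x
  obtain ⟨u, e⟩ := e x
  obtain ⟨u', e'⟩ := h1 u
  exact ⟨u', by simp [e, e', ← h2]⟩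

end HE

/-- All elements with vector part `v ⊗ ρ` occur. -/
def RF (Φ₁ : Formed σ W) (X : Subgroup (W ⊗[F] U ≃ₗ[F] W ⊗[F] U)) (ρ : End F U) : Prop :=
  ∀ w v, Φ₁.Sing w → w ≠ 0 → Φ₁.B w v = 0 → HE Φ₁ X w (TensorProduct.mk F W U v ∘ₗ ρ)

namespace FX

variable [Finite F] [FiniteDimensional F W] [FiniteDimensional F U] (h : FX Φ₁ Φ₂ Φ X G)
include h

theorem Bl (w : W) (u : U) (x : W ⊗[F] U) : Φ.B (w ⊗ₜ u) x = Φ₂.B u (cL (Φ₁.B w) x) := by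
  induction x with
  | zero => simp
  | tmul w u => simp [h.B]
  | add x y a b => simp only [map_add, a, b]

theorem Br (w : W) (u : U) (x : W ⊗[F] U) : Φ.B x (w ⊗ₜ u) = Φ₁.ε * Φ₂.B (cL (Φ₁.B w) x) u := by
  induction x with
  | zero => simp
  | tmul w' u => simp [h.B, Φ₁.symm w w', mul_assoc]
  | add x y a b => simp only [map_add, LinearMap.add_apply, a, b, mul_add]

theorem nondeg : Φ.Nondeg := fun x e => eq_of_cL fun φ => by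
  obtain ⟨w, rfl⟩ := h.nd.exists_eq_B φ
  exact h.ok.nd.ext fun u => by simpa [h.Br, Φ₁.ε_ne_zero] using e (w ⊗ₜ u)

theorem sing {w : W} (hw : Φ₁.Sing w) (u : U) : Φ.Sing (w ⊗ₜ u) := ⟨h.Q w u hw, by simp [h.B, hw.2]⟩

theorem exists_pair₁ : ∃ w r, Φ₁.IsPair w r := by
  obtain ⟨u, -, r, -, h⟩ := exists_pair h.nd (nondeg_top h.nd) (by have := h.five; simp; omega)
  exact ⟨u, r, h⟩

theorem ε : Φ.ε = Φ₁.ε * Φ₂.ε := by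
  obtain ⟨w, r, a⟩ := h.exists_pair₁
  obtain ⟨u, v, b⟩ := h.ok.ex
  simpa [h.B, a.ef, b.ef, a.fe, b.fe] using (Φ.symm (w ⊗ₜ u) (r ⊗ₜ v)).symm

theorem cL_fix {s : W ⊗[F] U ≃ₗ[F] W ⊗[F] U} (hs : s ∈ X) {w : W} (e : ∀ u, s (w ⊗ₜ u) = w ⊗ₜ u) (x : W ⊗[F] U) :
    cL (Φ₁.B w) (s x) = cL (Φ₁.B w) x :=
  h.ok.nd.ext_right fun u => by rw [← h.Bl, ← h.Bl, ← (h.iso hs).1 _ x, e]

theorem conj_fix {w : W} {θ : U →ₗ[F] W ⊗[F] U} (H : HE Φ₁ X w θ) {s : W ⊗[F] U ≃ₗ[F] W ⊗[F] U} (hs : s ∈ X)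
    (e : ∀ u, s (w ⊗ₜ u) = w ⊗ₜ u) : HE Φ₁ X w (s.toLinearMap ∘ₗ θ) :=
  H.conj hs (fun u => ⟨u, e u⟩) (γ := LinearMap.id) Function.injective_id fun x => (h.cL_fix hs e x).symm

theorem spec {w : W} (hw : Φ₁.Sing w) (w0 : w ≠ 0) {θ : U →ₗ[F] W ⊗[F] U} (a : ∀ u, cL (Φ₁.B w) (θ u) = 0)
    {g : W ⊗[F] U ≃ₗ[F] W ⊗[F] U} (hg : g ∈ X) (e : ∀ x, ∃ u, g x = x - θ (cL (Φ₁.B w) x) + w ⊗ₜ u)
    {x : W ⊗[F] U} (hx : cL (Φ₁.B w) x = 0) {y : U} (hy : ∀ u, Φ₂.B y u = Φ.B x (θ u)) : g x = x + w ⊗ₜ y := by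
  obtain ⟨r, hr⟩ := h.nd.exists_eq_one w0
  obtain ⟨y', e1⟩ := e x
  rw [e1, hx, map_zero, sub_zero, h.ok.nd.ext (x := y') (x' := y) fun u => ?_]
  obtain ⟨z, e2⟩ := e (r ⊗ₜ u)
  have := (h.iso hg).1 x (r ⊗ₜ u)
  simp [e1, e2, hx, hr, h.Bl, h.Br w, a, hw.2] at this
  rw [hy]; linear_combination this

theorem spec' {w v : W} (hw : Φ₁.Sing w) (w0 : w ≠ 0) {ρ ρ' : End F U} (a : IsAdj Φ₂ ρ ρ')
    (H : HE Φ₁ X w (TensorProduct.mk F W U v ∘ₗ ρ)) : ∃ g ∈ X, (∀ x, ∃ u, g x = x - v ⊗ₜ ρ (cL (Φ₁.B w) x) + w ⊗ₜ u) ∧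
      ∀ x, cL (Φ₁.B w) x = 0 → g x = x + w ⊗ₜ (Φ₁.ε • ρ' (cL (Φ₁.B v) x)) :=
  H.2.imp fun _ e => ⟨e.1, e.2, fun _ hx => h.spec hw w0 H.1 e.1 e.2 hx fun u => by simp [h.Br, a _, Φ₁.σε]⟩

theorem rf_one : RF Φ₁ X (1 : End F U) := fun w v hw _ e => by
  obtain ⟨d, g, hg⟩ := exists_isE' h.nd hw (a := Φ₁.ε • v) (by simp [e])
  exact ⟨fun u => by simp [e], _, h.l _ _ _ _ hg, fun x => ⟨_, by
    rw [lT_isE hg, smul_smul, Φ₁.εε, one_smul, add_sub_right_comm]; rfl⟩⟩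

theorem lT_fix {p a w : W} {d : F} {g : W ≃ₗ[F] W} (hg : IsE Φ₁ p a d g) (h1 : Φ₁.B w p = 0) (h2 : Φ₁.B w a = 0)
    (u : U) : lT U g (w ⊗ₜ u) = w ⊗ₜ u := by
  simp [hg.app, Φ₁.B_eq_zero_symm h1, Φ₁.B_eq_zero_symm h2]

theorem rf_of {w v : W} (hw : Φ₁.Sing w) (w0 : w ≠ 0) (e : Φ₁.B w v = 0) (hv : v ∉ F ∙ w) {ρ : End F U}
    (H : HE Φ₁ X w (TensorProduct.mk F W U v ∘ₗ ρ)) : RF Φ₁ X ρ := by
  intro z y hz z0
  revert y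
  refine sing_trans h.nd h.five (P := fun w => ∀ v, Φ₁.B w v = 0 → HE Φ₁ X w (TensorProduct.mk F W U v ∘ₗ ρ))
    (fun c hc w H v e => ?_) (fun p a d g hg w H v e => ?_) hw w0 ?_ hz z0
  · obtain ⟨a, g, hg, e1⟩ := H (σ c • v) (by simpa [hc] using e)
    refine ⟨fun u => by rw [LinearMap.comp_apply, mk_apply, cL_tmul, e, zero_smul], g, hg, fun x => ?_⟩
    obtain ⟨u, e1⟩ := e1 x
    exact ⟨c⁻¹ • u, by simp [e1, smul_tmul, hc]⟩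
  · obtain ⟨v, rfl⟩ := g.surjective v
    exact ((H v (hg.mem_isom.1 w v ▸ e)).conj (h.l _ _ _ _ hg) (fun u => ⟨u, rfl⟩) (γ := LinearMap.id)
      Function.injective_id fun x => (cL_lT hg.mem_isom w x).symm).congr fun u => rfl
  have z : HE Φ₁ X w (TensorProduct.mk F W U 0 ∘ₗ ρ) := (H.sub hw H).congr (by simp)
  exact perp_le_of_inv h.nd h.five w0 hw (AddSubgroup.ofSub {v | HE Φ₁ X w (TensorProduct.mk F W U v ∘ₗ ρ)} ⟨0, z⟩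
    fun a ha b hb => (HE.sub hw ha hb).congr fun u => by simp [add_tmul, neg_tmul, sub_eq_add_neg])
    (fun y z d g a b hg v H => (h.conj_fix H (h.l _ _ _ _ hg) (h.lT_fix hg a b)).congr fun u => rfl) H e hv

theorem extract {w x : W} (hw : Φ₁.Sing w) (w0 : w ≠ 0) (hx : Φ₁.Sing x) (e : Φ₁.B w x = 0) (hv : x ∉ F ∙ w)
    {θ : U →ₗ[F] W ⊗[F] U} (H : HE Φ₁ X w θ) : RF Φ₁ X (cL (Φ₁.B x) ∘ₗ θ) := by
  obtain ⟨b, a, b1, b2, a1, a2, e1⟩ := exists_perp_two h.nd h.five w x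
  obtain ⟨d, g, hg⟩ := exists_isE' h.nd hx a2
  obtain ⟨d', g', hg'⟩ := exists_isE' h.nd hx b2
  have H1 := (h.conj_fix H (h.l _ _ _ _ hg) (h.lT_fix hg e a1)).sub hw H
  refine h.rf_of hw w0 (v := -Φ₁.ε • x) (by simp [e]) (by
      rwa [Submodule.smul_mem_iff _ (neg_ne_zero.2 Φ₁.ε_ne_zero)])
    (((h.conj_fix H1 (h.l _ _ _ _ hg') (h.lT_fix hg' e b1)).sub hw H1).congr fun u => ?_)
  have : lT U g (θ u) - θ u = _ := sub_eq_iff_eq_add'.2 ((lT_isE hg _).trans (add_sub_assoc _ _ _))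
  simp only [LinearMap.sub_apply, LinearMap.comp_apply, LinearEquiv.coe_coe, this]
  simp [hg'.apply_p, hg'.apply_perp a2, e1, add_tmul, neg_tmul, smul_tmul']

theorem rf_mul {ρ ρ₂ ρ₂' : End F U} (H : RF Φ₁ X ρ) (H₂ : RF Φ₁ X ρ₂) (ha : IsAdj Φ₂ ρ₂ ρ₂') : RF Φ₁ X (ρ₂' * ρ) := by
  obtain ⟨w, r, hp⟩ := h.exists_pair₁
  obtain ⟨x, x1, hx, e⟩ := exists_sing_perp (Φ₁ := Φ₁) h.five w
  obtain ⟨b, a, b1, b2, a1, a2, e1⟩ := exists_perp_two h.nd h.five w x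
  obtain ⟨s, hs, -, e2⟩ := h.spec' hx (by rintro rfl; simp at x1) ha (H₂ x b hx (by rintro rfl; simp at x1) b2)
  have H1 := H w a hp.1 hp.left_ne_zero a1
  refine h.rf_of hp.1 hp.left_ne_zero (v := Φ₁.ε • x) (by simp [e]) (by rwa [Submodule.smul_mem_iff _ Φ₁.ε_ne_zero])
    (((h.conj_fix H1 hs fun u => ?_).sub hp.1 H1).congr fun u => ?_)
  · simp [e2 (w ⊗ₜ u) (by simp [Φ₁.B_eq_zero_symm e]), Φ₁.B_eq_zero_symm b1]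
  · simp [e2 (a ⊗ₜ ρ u) (by simp [a2]), e1, smul_tmul]

theorem rf_rk1 {ρ : End F U} (H : RF Φ₁ X ρ) (hs : ∀ c : F, ρ ≠ c • 1) (y : U) (φ : Dual F U) : RF Φ₁ X (rk1 y φ) := by
  let R : Submodule F (End F U) :=
    { carrier := {ρ | RF Φ₁ X ρ}
      zero_mem' := fun w v a b c => (h.rf_one w 0 a b (by simp)).congr (by simp)
      add_mem' := fun ha hb w v a b c => ((ha w v a b c).sub a (hb w (-v) a b (by simpa))).congr fun u => by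
        simp [tmul_add, neg_tmul]
      smul_mem' := fun k ρ ha w v a b c => (ha w (k • v) a b (by simp [c])).congr fun u => by simp [smul_tmul] }
  refine h.ok.rk1_mem R h.rf_one (fun a ha b hb => ?_) (fun g hg ρ ha w v a b c => ?_) H hs y φ
  · obtain ⟨a', e⟩ := exists_isAdj h.ok.nd a
    exact h.rf_mul hb (mul_one a' ▸ h.rf_mul h.rf_one ha e) e.symm
  refine ((ha w v a b c).conj (h.r g hg) (fun u => ⟨g u, rfl⟩) g.symm.injective fun x => ?_).congr fun u => rfl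
  induction x with
  | zero => simp
  | tmul w u => simp
  | add x y a b => simp only [map_add, ← a, ← b]

theorem win {ρ : End F U} (H : RF Φ₁ X ρ) (hs : ∀ c : F, ρ ≠ c • 1) : EG Φ ≤ X := by
  have all := h.rf_rk1 H hs
  obtain ⟨u₂, u₁, hu⟩ := h.ok.ex
  have sa : ∀ {w} (hw : Φ₁.Sing w), w ≠ 0 → ∀ z z', w ⊗ₜ z' ∈ AE Φ X (h.sing hw z) := fun {w} hw w0 z z' => by
    obtain ⟨b, a, b1, -, a1, -, e⟩ := exists_perp_two h.nd h.five w w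
    obtain ⟨g₁, hg₁, e1, e1'⟩ := h.spec' hw w0 (isAdj_rk1 z u₁) (all _ _ w a hw w0 a1)
    obtain ⟨g₂, hg₂, e2, e2'⟩ := h.spec' hw w0 (isAdj_rk1 z' u₂) (all _ _ w b hw w0 b1)
    refine ⟨0, (g₁ * g₂)⁻¹ * (g₂ * g₁), mul_mem (inv_mem (mul_mem hg₁ hg₂)) (mul_mem hg₂ hg₁), h.sing hw z,
      by simp [h.B, hw.2], by simp [h.Q _ _ hw], by simp [h.B, hw.2], fun x => inv_mul_apply.2 ?_⟩
    have f1 : ∀ u, g₁ (w ⊗ₜ u) = w ⊗ₜ u := fun u => by simp [e1' (w ⊗ₜ u) (by simp [hw.2]), Φ₁.B_eq_zero_symm a1]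
    have f2 : ∀ u, g₂ (w ⊗ₜ u) = w ⊗ₜ u := fun u => by simp [e2' (w ⊗ₜ u) (by simp [hw.2]), Φ₁.B_eq_zero_symm b1]
    obtain ⟨y₁, e1⟩ := e1 x
    obtain ⟨y₂, e2⟩ := e2 x
    have f3 := e1' (b ⊗ₜ u₂) (by simp [b1])
    have f4 := e2' (a ⊗ₜ u₁) (by simp [a1])
    simp only [LinearEquiv.mul_apply, map_add, map_sub, map_smul, e1, e2, f1, f2, f3, f4, LinearMap.smulRight_apply,
      tmul_smul, h.Bl, cL_tmul, e, hu.ef, hu.fe, Φ₁.symm b a, h.ε, map_one]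
    linear_combination (norm := skip) (Φ₁.εε * Φ₂.ε * Φ₂.ε + Φ₂.εε) • Φ₂.B z' (cL (Φ₁.B w) x) • w ⊗ₜ[F] z
    module
  have two : ∀ z : U, ∃ z', z' ∉ F ∙ z := fun z => by
    by_contra! hc
    obtain ⟨a, e⟩ := Submodule.mem_span_singleton.1 (hc u₂)
    obtain ⟨b, e'⟩ := Submodule.mem_span_singleton.1 (hc u₁)
    have e1 : a • u₁ = b • u₂ := by rw [← e, ← e', smul_comm]
    exact hu.left_ne_zero (by simp [← e, show a = 0 by simpa [hu.ef, hu.se.2] using congrArg (Φ₂.B u₂) e1])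
  have sb : ∀ {w} (hw : Φ₁.Sing w), w ≠ 0 → ∀ z a y, Φ₁.B w a = 0 → a ⊗ₜ y ∈ AE Φ X (h.sing hw z) :=
    fun {w} hw w0 z a y ha => by
    obtain ⟨x, x1, hx, e⟩ := exists_sing_perp (Φ₁ := Φ₁) h.five w
    have x0 : x ≠ 0 := by rintro rfl; simp at x1
    obtain ⟨b, -, b1, b2⟩ := sep h.nd (nondeg_top h.nd) le_top trivial (notMem_symm x1 w0)
    rw [Formed.mem_perp_span_singleton] at b1
    obtain ⟨z', hz'⟩ := two z
    obtain ⟨φ, p1, p2⟩ := exists_fun1 hz'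
    obtain ⟨z₂, rfl⟩ := h.ok.nd.exists_eq_B φ
    obtain ⟨s, hs, -, e1⟩ := h.spec' hx x0 (isAdj_rk1 y z₂) (all _ _ x b hx x0 b1)
    have e2 : ∀ u, s (w ⊗ₜ u) = w ⊗ₜ u + Φ₂.B z₂ u • x ⊗ₜ y := fun u => by
      simp [e1 (w ⊗ₜ u) (by simp [Φ₁.B_eq_zero_symm e]), Φ₁.symm w b, b2, smul_smul, ← mul_assoc, Φ₁.εε]
    have m := sa hw w0 z z'
    refine perp_le_of_inv h.nd h.five w0 hw ((AE Φ X (h.sing hw z)).comap
      ((TensorProduct.mk F W U).flip y).toAddMonoidHom) (fun p q d g a b hg v H => ?_) (w := x) ?_ e x1 a ha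
    · exact map_mem_AE (hp := h.sing hw z) (h.l _ _ _ _ hg) (h.iso (h.l _ _ _ _ hg)) (h.lT_fix hg a b z) H
    · simpa [e2, p1, add_mem_cancel_left m] using map_mem_AE hs (h.iso hs) (by simp [e2, p2]) m
  have sc : ∀ {w} (hw : Φ₁.Sing w), w ≠ 0 → ∀ z, z ≠ 0 → Full Φ X (w ⊗ₜ z) := fun {w} hw w0 z z0 => by
    obtain ⟨r, hr⟩ := h.nd.exists_isPair w0 hw
    refine full_of_AE' h.nondeg ?_ h.ns (fun e => z0 (tmul_inj w0 (e.trans (tmul_zero _ _).symm))) (h.sing hw z)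
      fun v hv => ?_
    · have := h.five
      have : 0 < finrank F U := finrank_pos_iff_exists_ne_zero.2 ⟨z, z0⟩
      rw [finrank_tensorProduct]; nlinarith
    rw [← sub_add_cancel v (r ⊗ₜ cL (Φ₁.B w) v)]
    refine add_mem (tperp_ind hr _ (sb hw w0 z) v) ?_
    obtain ⟨b, a, b1, b2, a1, a2, e⟩ := exists_perp_two h.nd h.five w r
    obtain ⟨d, g, hg, e1⟩ := sb hr.2 hr.right_ne_zero (cL (Φ₁.B w) v) b u₂ b2
    have m := sb hw w0 z a u₁ a1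
    have := map_mem_AE hg (h.iso hg) (by
      simp [e1.app, h.B, Φ₁.B_eq_zero_symm b1, Φ₂.B_eq_zero_symm (h.Bl _ _ _ ▸ hv)]) m
    simpa [e1.app, h.B, a2, e, hu.ef, add_mem_cancel_left m] using this
  obtain ⟨w, r, hp⟩ := h.exists_pair₁
  exact EG_le_of_full h.nondeg (sc hp.1 hp.left_ne_zero _ hu.left_ne_zero) (sc hp.2 hp.right_ne_zero _ hu.right_ne_zero)
    (by simp [h.B, hp.ef, hu.ef])

theorem mem_pt {w : W} (hw : Φ₁.Sing w) (w0 : w ≠ 0) {v : W ⊗[F] U} (hv : ∀ x, Φ₁.B w x = 0 → cL (Φ₁.B x) v = 0) :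
    ∃ u, v = w ⊗ₜ u := by
  obtain ⟨r, hr⟩ := h.nd.exists_eq_one w0
  refine ⟨Φ₁.ε • cL (Φ₁.B r) v, eq_of_cL fun φ => ?_⟩
  obtain ⟨x, rfl⟩ := h.nd.exists_eq_B φ
  have := hv (x - Φ₁.B w x • r) (by simp [hr])
  simp [sub_eq_zero] at this
  simp [this, Φ₁.symm w x, smul_smul, mul_comm _ Φ₁.ε, ← mul_assoc, Φ₁.εε]

theorem nontriv : Nontrivial U := let ⟨_, _, e⟩ := h.ok.ex; nontrivial_of_ne _ _ e.left_ne_zero

variable (hS : ¬ EG Φ ≤ X)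
include hS

theorem theta {w : W} (hw : Φ₁.Sing w) (w0 : w ≠ 0) {θ : U →ₗ[F] W ⊗[F] U} (H : HE Φ₁ X w θ) :
    ∃ b, Φ₁.B w b = 0 ∧ ∀ u, ∃ u', θ u = b ⊗ₜ u + w ⊗ₜ u' := by
  have := h.nontriv
  obtain ⟨u₀, u0⟩ := exists_ne (0 : U)
  obtain ⟨μ, m1⟩ := exists_fun0 (F := F) u0
  have e1 : ∀ (φ : Dual F W) v, φ (TensorProduct.rid F W (μ.lTensor W v)) = μ (cL φ v) := fun φ v => by
    induction v with
    | zero => simp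
    | tmul w u => simp [mul_comm]
    | add x y a b => simp only [map_add, a, b]
  refine ⟨TensorProduct.rid F W (μ.lTensor W (θ u₀)), by simp [e1, H.1], fun u => ?_⟩
  refine (h.mem_pt hw w0 fun x hx => ?_).imp fun _ => sub_eq_iff_eq_add'.1
  obtain ⟨k, hk⟩ := perp_sing_ind h.nd h.five hw w0 (AddSubgroup.ofSub {x | ∃ k : F, cL (Φ₁.B x) ∘ₗ θ = k • 1}
    ⟨0, 0, by simp⟩ fun a ⟨k, ha⟩ b ⟨l, hb⟩ => ⟨k - l, by simp [LinearMap.add_comp, ha, hb, sub_eq_add_neg, add_smul]⟩)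
    (fun x a b c => by_contra fun e => hS (h.win (h.extract hw w0 b c a H) fun k hk => e ⟨k, hk⟩)) x hx
  have := LinearMap.congr_fun hk
  simp only [LinearMap.comp_apply] at this
  simp [e1, this, m1]

theorem triv_form {w : W} (hw : Φ₁.Sing w) (w0 : w ≠ 0) {k : W ⊗[F] U ≃ₗ[F] W ⊗[F] U} (hk : k ∈ X)
    (h1 : ∀ u, k (w ⊗ₜ u) = w ⊗ₜ u) (h2 : ∀ v, cL (Φ₁.B w) v = 0 → ∃ u, k v = v + w ⊗ₜ u) :
    ∃ b, Φ₁.B b w = 0 ∧ ∀ v, cL (Φ₁.B w) v = 0 → k v = v + w ⊗ₜ cL (Φ₁.B b) v := by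
  obtain ⟨r, hr⟩ := h.nd.exists_eq_one w0
  let θ := (1 - k.toLinearMap) ∘ₗ TensorProduct.mk F W U r
  have a1 : ∀ u, cL (Φ₁.B w) (θ u) = 0 := fun u => by simp [θ, h.cL_fix hk h1]
  have a2 : ∀ x, ∃ u, k x = x - θ (cL (Φ₁.B w) x) + w ⊗ₜ u := fun x =>
    (h2 (x - r ⊗ₜ cL (Φ₁.B w) x) (by simp [hr])).imp fun u e => by
      simp only [θ, map_sub] at e ⊢
      simp; linear_combination (norm := abel) e
  obtain ⟨b, b1, e⟩ := h.theta hS hw w0 ⟨a1, k, hk, a2⟩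
  refine ⟨Φ₁.ε • b, by simp [Φ₁.B_eq_zero_symm b1], fun v hv => h.spec hw w0 a1 hk a2 hv fun u => ?_⟩
  obtain ⟨u', e⟩ := e u
  simp [e, h.Br, hv, Φ₁.σε]

theorem par_step {c : W ⊗[F] U ≃ₗ[F] W ⊗[F] U} (hc : c ∈ X) {w w' : W} (hw : Φ₁.Sing w) (w0 : w ≠ 0) {β : U ≃ₗ[F] U}
    (hβ : ∀ u, c (w ⊗ₜ u) = w' ⊗ₜ β u) (a : W) (ha : Φ₁.B w a = 0) : ∃ a', ∀ u, c (a ⊗ₜ u) = a' ⊗ₜ β u := by
  obtain ⟨u₀, u₁, hu⟩ := h.ok.ex
  have iso := (h.iso hc).1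
  have w1 : w' ≠ 0 := by
    rintro rfl
    exact hu.left_ne_zero (tmul_inj (F := F) w0 (by simpa using hβ u₀))
  have hw' : Φ₁.Sing w' := ⟨h.Q₁ _, by
    simpa [hβ, h.B, hu.ef, hw.2] using iso (w ⊗ₜ β.symm u₀) (w ⊗ₜ β.symm u₁)⟩
  obtain ⟨γ₀, hγ⟩ := exists_isAdj h.ok.nd β.toLinearMap
  obtain ⟨γ, g1⟩ : ∃ γ : U ≃ₗ[F] U, ∀ x, cL (Φ₁.B w) x = γ (cL (Φ₁.B w') (c x)) :=
    ⟨.ofInjectiveEndo γ₀ ((injective_iff_map_eq_zero _).2 fun z e => h.ok.nd _ fun y => by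
      simpa [e] using (hγ z (β.symm y)).symm), fun x => h.ok.nd.ext_right fun u => by
      rw [← h.Bl, ← iso, hβ, h.Bl]; exact hγ.symm _ _⟩
  have := fun a (ha : Φ₁.B w a = 0) => h.theta hS hw' w1 ((h.rf_one w a hw w0 ha).conj hc (fun u => ⟨_, hβ u⟩)
    γ.injective g1)
  choose! A A1 κ A2 using this
  replace A2 : ∀ a, Φ₁.B w a = 0 → ∀ u, c (a ⊗ₜ γ u) = A a ⊗ₜ u + w' ⊗ₜ κ a u := A2
  obtain ⟨l, l0, ls, hl⟩ : ∃ l, l ≠ 0 ∧ σ l = l ∧ ∀ a b, Φ₁.B w a = 0 → Φ₁.B w b = 0 →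
      Φ₁.B (A a) (A b) = l * Φ₁.B a b := by
    have s : ∀ a b u v, Φ₁.B w a = 0 → Φ₁.B w b = 0 → Φ₁.B (A a) (A b) * Φ₂.B u v = Φ₁.B a b * Φ₂.B (γ u) (γ v) :=
      fun a b u v ha hb => by
      simpa [A2, ha, hb, h.B, A1, hw'.2, Φ₁.B_eq_zero_symm (A1 a ha)] using iso (a ⊗ₜ γ u) (b ⊗ₜ γ v)
    have s1 := fun a b ha hb => (by simpa [hu.ef, mul_comm] using s a b u₀ u₁ ha hb :
      Φ₁.B (A a) (A b) = Φ₂.B (γ u₀) (γ u₁) * Φ₁.B a b)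
    obtain ⟨a, b, a1, -, b1, -, e⟩ := exists_perp_two h.nd h.five w w
    refine ⟨_, fun e0 => ?_, ?_, s1⟩
    · simpa [s1 a b a1 b1, e0, e, hu.ef] using s a b (γ.symm u₀) (γ.symm u₁) a1 b1
    · simpa [s1 a b a1 b1, s1 b a b1 a1, e, Φ₁.symm a b, Φ₁.ε_ne_zero, mul_comm, eq_comm] using Φ₁.symm (A a) (A b)
  have key := perp_sing_ind h.nd h.five hw w0 (AddSubgroup.ofSub {a | ∃ a', ∀ u, c (a ⊗ₜ γ u) = a' ⊗ₜ u}
    ⟨0, 0, by simp⟩ fun a ⟨a', ha⟩ b ⟨b', hb⟩ => ⟨a' - b', by simp [add_tmul, neg_tmul, ha, hb, sub_eq_add_neg]⟩)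
    fun x _ hx e => by
    obtain ⟨y, z, y1, y2, z1, z2, e1⟩ := exists_perp_two h.nd h.five w x
    obtain ⟨d, g, hg⟩ := exists_isE' h.nd hx y2
    obtain ⟨g₁, hg₁⟩ := exists_isE h.nd (p := A x) (a := l⁻¹ • A y) (d := d / l) ⟨h.Q₁ _, by simp [hl x x e e, hx.2]⟩
      (by simp [hl x y e y1, y2]) (by simp [h.τ, h.Q₁]) (by simp [hl y y y1 y1, ← hg.hB, ls]; field_simp)
    have f1 := h.lT_fix hg₁ (A1 x e) (by simp [A1 y y1])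
    have s : ∀ a u, Φ₁.B w a = 0 → c (lT U g (a ⊗ₜ γ u)) = lT U g₁ (c (a ⊗ₜ γ u)) + w' ⊗ₜ
        ((Φ₁.B y a - d * Φ₁.B x a) • κ x u - (Φ₁.ε * Φ₁.B x a) • κ y u) := fun a u ha => by
      rw [A2 a ha, map_add, f1]
      simp only [TensorProduct.congr_tmul, LinearEquiv.refl_apply, hg.app, hg₁.app, add_tmul, sub_tmul, ← smul_tmul',
        map_add, map_sub, map_smul, A2 _ ha, A2 _ e, A2 _ y1, hl _ _ e ha, hl _ _ y1 ha, tmul_sub, tmul_smul,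
        Φ₁.B_smul_left, map_inv₀, ls]
      match_scalars <;> field_simp
    obtain ⟨b, b1, hb⟩ := h.triv_form hS hw' w1 (k := (lT U g₁)⁻¹ * (c * lT U g * c⁻¹)) (mul_mem (inv_mem (h.l _ _ _ _ hg₁))
      (mul_mem (mul_mem hc (h.l _ _ _ _ hg)) (inv_mem hc))) (fun u => inv_mul_apply.2 (by
        obtain ⟨u, rfl⟩ := β.surjective u
        simp only [f1, LinearEquiv.mul_apply, LinearEquiv.coe_inv, ← hβ, c.symm_apply_apply, h.lT_fix hg e y1]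
        rw [hβ, f1])) fun v hv => by
      obtain ⟨v, rfl⟩ := c.surjective v
      obtain ⟨r, hr⟩ := h.nd.exists_isPair w0 hw
      obtain ⟨u, e⟩ := tperp_ind hr (AddSubgroup.ofSub {v | ∃ u, c (lT U g v) = lT U g₁ (c v) + w' ⊗ₜ u} ⟨0, 0, by simp⟩
        fun a ⟨u, ha⟩ b ⟨u', hb⟩ => ⟨u - u', by simp [ha, hb, tmul_sub]; abel⟩)
        (fun a u ha => ⟨_, by simpa using s a (γ.symm u) ha⟩) v
      exact ⟨u, inv_mul_apply.2 (by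
        simp only [g1 v, hv, map_zero, tmul_zero, sub_zero] at e
        simpa only [LinearEquiv.mul_apply, LinearEquiv.coe_inv, c.symm_apply_apply, map_add, f1] using e)⟩
    refine ⟨A x + Φ₁.B b (A z) • w', fun u => ?_⟩
    have := inv_mul_apply.1 (hb (c (z ⊗ₜ γ u)) (γ.injective (by simp [← g1, z1])))
    simp only [LinearEquiv.mul_apply, LinearEquiv.coe_inv, c.symm_apply_apply, s z u z1, map_add, f1] at this
    simp [A2 z z1, e1, z2, b1] at this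
    rw [A2 x e, this, add_tmul, smul_tmul']
  obtain ⟨w₂, e⟩ := key w hw.2
  obtain ⟨a', e'⟩ := key a ha
  obtain ⟨χ, c1⟩ := exists_fun0 (F := F) w1
  have e2 : ∀ u, β (γ u) = χ w₂ • u := fun u => by simpa [hβ, c1] using congrArg (cL χ) (e u)
  have e3 : χ w₂ ≠ 0 := fun e => hu.left_ne_zero (by simpa [e] using e2 u₀)
  refine ⟨(χ w₂)⁻¹ • a', fun u => ?_⟩
  obtain ⟨u, rfl⟩ := γ.surjective u
  simp [e', e2, smul_tmul, e3]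

/-- An element mapping a singular point `w ⊗ U` into a point is a tensor product. -/
theorem par {c : W ⊗[F] U ≃ₗ[F] W ⊗[F] U} (hc : c ∈ X) {w w' : W} (hw : Φ₁.Sing w) (w0 : w ≠ 0)
    (H : ∀ u, ∃ u', c (w ⊗ₜ u) = w' ⊗ₜ u') : c ∈ tstab F W U := by
  have := h.nontriv
  obtain ⟨β, hβ⟩ := exists_beta w0 H
  obtain ⟨e, f, hp⟩ := h.exists_pair₁
  refine mem_tstab_of (β := β) (sing_induction hp (fun z hz => ?_) fun x y ⟨x', a⟩ ⟨y', b⟩ =>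
    ⟨x' + y', fun u => by simp [add_tmul, a, b]⟩)
  obtain ⟨x, -, x0, hx, e⟩ := exists_sing_pf Φ₁ ![w, z] (U := ⊤) (R := ⊥) (by simpa using h.five)
  obtain ⟨x', a⟩ := h.par_step hS hc hw w0 hβ x (e 0)
  exact h.par_step hS hc hx x0 a z (Φ₁.B_eq_zero_symm (e 1))

end FX

end Cfsg.Agent.Root.Mx
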