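import Cfsg.Agent.Root.Ten4
import Cfsg.Agent.Root.Fr4

/-! The involution engine `FX.iengine` for tensor decompositions: if the involutions `r ⊗ 1` (`r` of rank one) each fix a
unique conjugate of the tensor stabiliser then there is only one conjugate. -/

set_option autoImplicit false

namespace Cfsg.Agent.Root.Mx

open Cfsg.Agent.Geom Cfsg.Agent.AutCl Module TensorProduct

variable {F : Type*} [Field F] {σ : F →+* F} {W U : Type*} [AddCommGroup W] [Module F W] [AddCommGroup U] [Module F U]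
  {Φ₁ : Formed σ W} {Φ₂ : Formed σ U} {Φ : Formed σ (W ⊗[F] U)} {X : Subgroup (W ⊗[F] U ≃ₗ[F] W ⊗[F] U)}
  {G : Subgroup (U ≃ₗ[F] U)}

theorem dih {G : Type*} [Group G] {a b : G} (ha : a * a = 1) (hb : b * b = 1) (k : ℕ) :
    ∃ j : ℕ, a * (a * b) ^ k = ((a * b) ^ j)⁻¹ * a * (a * b) ^ j ∨ a * (a * b) ^ k = ((a * b) ^ j)⁻¹ * b * (a * b) ^ j := by
  have e : ∀ {c : G}, c * (a * b) * c⁻¹ = (a * b)⁻¹ → ∀ j : ℕ, ((a * b) ^ j)⁻¹ * c = c * (a * b) ^ j := fun {c} h j => by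
    rw [← inv_pow, ← h, conj_pow, inv_mul_cancel_right]
  obtain ⟨j, rfl | rfl⟩ := Nat.even_or_odd' k
  · exact ⟨j, .inl (by rw [e (Invol.conj_prod_left ha hb), mul_assoc, ← pow_add, two_mul])⟩
  · exact ⟨j, .inr (by rw [e (Invol.conj_prod_right ha hb), pow_succ', ← mul_assoc, ← mul_assoc, ha, one_mul, mul_assoc,
      ← pow_add, two_mul])⟩

theorem eq_zero_of_smul_mem {S : Submodule F W} {x : W} {c : F} (hx : x ∉ S) (h : c • x ∈ S) : c = 0 :=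
  by_contra fun e => hx ((S.smul_mem_iff e).1 h)

variable [FiniteDimensional F W] [FiniteDimensional F U]

theorem exists_lam {a : End F W} {S : Submodule F W} (hd : finrank F S + 2 ≤ finrank F W)
    (h : ∀ x ∉ S, a x ∈ S ⊔ F ∙ x) : ∃ l : F, ∀ x, a x - l • x ∈ S := by
  replace h : ∀ x ∉ S, ∃ l : F, a x - l • x ∈ S := fun x hx => by
    obtain ⟨s, hs, _, hz, e⟩ := Submodule.mem_sup.1 (h x hx)
    obtain ⟨t, rfl⟩ := Submodule.mem_span_singleton.1 hz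
    exact ⟨t, by simpa [← e]⟩
  obtain ⟨y, -, hy⟩ := exists_notMem_of_lt (U := ⊤) (R := S) (by rw [finrank_top]; omega)
  obtain ⟨l, hl⟩ := h y hy
  have s : ∀ x ∉ S ⊔ F ∙ y, a x - l • x ∈ S := fun x hx => by
    obtain ⟨μ, hμ⟩ := h x fun e => hx (Submodule.mem_sup_left e)
    obtain ⟨ν, hν⟩ := h (x + y) fun e => hx ((add_mem_cancel_right (mem_sup_self _ _)).1 (Submodule.mem_sup_left e))
    have e : (ν - μ) • x + (ν - l) • y ∈ S := by
      convert sub_mem (add_mem hμ hl) hν using 1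
      rw [map_add]; module
    obtain rfl : ν = μ := sub_eq_zero.1 (eq_zero_of_smul_mem hx ((add_mem_cancel_right (Submodule.smul_mem _ _
      (mem_sup_self _ _))).1 (Submodule.mem_sup_left e)))
    rwa [← sub_eq_zero.1 (eq_zero_of_smul_mem hy (c := ν - l) (by simpa using e))]
  obtain ⟨z, -, hz⟩ := exists_notMem_of_lt (U := ⊤) (R := S ⊔ F ∙ y) (by
    have := finrank_sup_one S y; rw [finrank_top]; omega)
  refine ⟨l, fun x => ?_⟩
  by_cases hx : x ∈ S ⊔ F ∙ y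
  · convert sub_mem (s (x + z) (by rwa [add_mem_cancel_left hx])) (s z hz) using 1
    rw [map_add]; module
  · exact s x hx

theorem exists_two_dual (h5 : 5 ≤ finrank F W) {a : End F W} (h : ∀ (l : F) p, ¬ ∀ x, a x - l • x ∈ F ∙ p) :
    ∃ (p : Fin 2 → W) (φ : Fin 2 → Dual F W), (∀ i j, φ i (p j) = if i = j then 1 else 0) ∧ ∀ i j, φ i (a (p j)) = 0 := by
  by_contra hc
  have d2 : ∀ p q : W, finrank F ↥((F ∙ p) ⊔ F ∙ q) ≤ 2 := fun p q => by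
    have := finrank_sup_one (F ∙ p) q; have := finrank_span_one (F := F) p; omega
  have s : ∀ p, a p ∉ F ∙ p → ∃ l : F, ∀ x, a x - l • x ∈ (F ∙ p) ⊔ F ∙ a p := fun p hp =>
    exists_lam (by have := d2 p (a p); omega) fun x hx => by_contra fun e => by
      obtain ⟨φ, hφ⟩ := exists_dual_fam (F := F) (v := ![a x, x, a p, p]) (by
        refine linearIndependent_finCons.2 ⟨linearIndependent_finCons.2 ⟨linearIndependent_finCons.2
          ⟨by simp; rintro rfl; simp at hp, by simpa using hp⟩, ?_⟩, ?_⟩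
        · simpa [Submodule.span_insert, sup_comm] using hx
        · simpa [Submodule.span_insert, sup_comm, sup_left_comm] using e)
      exact hc ⟨![x, p], ![φ 1, φ 3], by simpa [Fin.forall_fin_two] using ⟨⟨hφ 1 1, hφ 1 3⟩, hφ 3 1, hφ 3 3⟩,
        by simpa [Fin.forall_fin_two] using ⟨⟨hφ 1 0, hφ 1 2⟩, hφ 3 0, hφ 3 2⟩⟩
  obtain ⟨p, hp⟩ := exists_notMem_of_not_scalar (ρ := a) fun c e => h c 0 (by simp [e])
  obtain ⟨l, hl⟩ := s p hp
  obtain ⟨y, hy, y0⟩ : ∃ y ∉ (F ∙ p) ⊔ F ∙ a p, a y - l • y ≠ 0 := by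
    obtain ⟨y, -, hy⟩ := exists_notMem_of_lt (U := ⊤) (R := (F ∙ p) ⊔ F ∙ a p) (by
      have := d2 p (a p); rw [finrank_top]; omega)
    obtain ⟨z, hz⟩ := not_forall.1 (h l 0)
    by_contra! hc
    refine hz (by_contra fun e => e ?_)
    by_cases e : z ∈ (F ∙ p) ⊔ F ∙ a p
    · have := hc (z + y) (by rwa [add_mem_cancel_left e])
      rw [map_add, smul_add, ← sub_add_sub_comm, hc y hy, add_zero] at this
      simp [this]
    · simp [hc z e]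
  obtain ⟨l', hl'⟩ := s y fun e => by
    obtain ⟨c, e⟩ := Submodule.mem_span_singleton.1 e
    have := hl y
    rw [← e, ← sub_smul] at this y0
    simp [eq_zero_of_smul_mem hy this] at y0
  obtain rfl : l' = l := by
    obtain ⟨z, -, hz⟩ := exists_notMem_of_lt (U := ⊤) (R := ((F ∙ p) ⊔ F ∙ a p) ⊔ ((F ∙ y) ⊔ F ∙ a y)) (by
      have := d2 p (a p); have := d2 y (a y)
      have := Submodule.finrank_add_le_finrank_add_finrank ((F ∙ p) ⊔ F ∙ a p) ((F ∙ y) ⊔ F ∙ a y)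
      rw [finrank_top]; omega)
    refine sub_eq_zero.1 (eq_zero_of_smul_mem hz ?_)
    convert sub_mem (Submodule.mem_sup_left (hl z)) (Submodule.mem_sup_right (hl' z)) using 1
    module
  refine h l' (a y - l' • y) fun x => ?_
  obtain ⟨α, β, e⟩ := Submodule.mem_span_pair.1 (by simpa [Submodule.span_insert] using hl' x :
    a x - l' • x ∈ Submodule.span F {y, a y})
  have : α + β * l' = 0 := eq_zero_of_smul_mem hy (by
    convert sub_mem (hl x) (Submodule.smul_mem _ β (hl y)) using 1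
    rw [← e]; module)
  exact Submodule.mem_span_singleton.2 ⟨β, by rw [← e]; linear_combination (norm := module) (-this) • y⟩

theorem rk1_form (hn : Φ₁.Nondeg) (h5 : 5 ≤ finrank F W) {a : W ≃ₗ[F] W} {μ l : F} (hμ : μ ≠ 0)
    (ha : ∀ x y, Φ₁.B (a x) (a y) = μ * Φ₁.B x y) {p : W} (h : ∀ x, a x - l • x ∈ F ∙ p) :
    l ≠ 0 ∧ ∃ κ : F, ∀ x, a x = l • x + (κ * Φ₁.B p x) • p := by
  obtain ⟨q, e⟩ : ∃ q, ∀ x, a x = l • x + Φ₁.B q x • p := by
    by_cases p0 : p = 0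
    · exact ⟨0, fun x => by simpa [p0, sub_eq_zero] using h x⟩
    obtain ⟨χ, c1⟩ := exists_fun0 (F := F) p0
    obtain ⟨q, hq⟩ := hn.exists_eq_B (χ ∘ₗ (a.toLinearMap - l • 1))
    refine ⟨q, fun x => ?_⟩
    obtain ⟨c, e⟩ := Submodule.mem_span_singleton.1 (h x)
    simp [hq, ← e, c1, ← sub_eq_iff_eq_add']
  obtain ⟨y, z, y1, -, z1, -, e1⟩ := exists_perp_two hn h5 q q
  have e2 : σ l * l = μ := by simpa [e, y1, z1, e1, mul_comm] using ha y z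
  have l0 : l ≠ 0 := by rintro rfl; simp [hμ.symm] at e2
  refine ⟨l0, ?_⟩
  by_cases q0 : q = 0
  · exact ⟨0, by simp [e, q0]⟩
  obtain ⟨w, hw⟩ := hn.exists_eq_one q0
  have e3 : ∀ x, l * Φ₁.B p x = -(σ l * Φ₁.B w p + Φ₁.B p p) * Φ₁.B q x := fun x => by
    have := ha w x
    simp [e, hw, ← e2] at this
    linear_combination this
  by_cases e4 : σ l * Φ₁.B w p + Φ₁.B p p = 0
  · exact ⟨0, by simp [e, hn p fun x => by simpa [e4, l0] using e3 x]⟩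
  · exact ⟨-l / (σ l * Φ₁.B w p + Φ₁.B p p), fun x => by
      rw [e]; congr 2; field_simp; linear_combination e3 x⟩

theorem three_elt (hn : Φ₁.Nondeg) (h5 : 5 ≤ finrank F W) {v : Fin 3 → W} (hv : LinearIndependent F v) {a b : W ≃ₗ[F] W}
    {l l' l'' κ κ' : F} {p p' p'' : W} (l0 : l ≠ 0) (l1 : l' ≠ 0) (ha : ∀ x, a x = l • x + (κ * Φ₁.B p x) • p)
    (hb : ∀ x, b x = l' • x + (κ' * Φ₁.B p' x) • p') (hc : ∀ x, a (b x) - l'' • x ∈ F ∙ p'') (h1 : a (v 1) ∈ F ∙ v 0)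
    (h2 : b (v 2) ∈ F ∙ v 1) : False := by
  obtain ⟨φ, hφ⟩ := exists_dual_fam hv
  obtain ⟨α, h1⟩ := Submodule.mem_span_singleton.1 h1
  obtain ⟨β, h2⟩ := Submodule.mem_span_singleton.1 h2
  have a1 := congrArg (φ 1) (h1.trans (ha _))
  have a2 := congrArg (φ 2) (h1.trans (ha _))
  have b2 := congrArg (φ 2) (h2.trans (hb _))
  simp [hφ] at a1 a2 b2
  have k0 : κ * Φ₁.B p (v 1) ≠ 0 := fun e => by simp [e, l0.symm] at a1
  have k1 : κ' * Φ₁.B p' (v 2) * φ 2 p' ≠ 0 := fun e => by simp [e, l1.symm] at b2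
  have p0 : p ≠ 0 := by rintro rfl; simp at k0
  replace a2 : φ 2 p = 0 := by simpa [left_ne_zero_of_mul k0, right_ne_zero_of_mul k0] using a2
  have i1 : p' ∉ F ∙ p := notMem_of_fun (right_ne_zero_of_mul k1) a2
  obtain ⟨y, -, y1, y2⟩ := sep hn (nondeg_top hn) le_top trivial i1
  obtain ⟨z, -, z1, z2⟩ := sep hn (nondeg_top hn) le_top trivial (notMem_symm i1 p0)
  rw [Formed.mem_perp_span_singleton] at y1 z1
  obtain rfl : l'' = l * l' := by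
    have := finrank_pf (Φ := Φ₁) ![p, p'] ⊤
    obtain ⟨x, hx, x0⟩ := exists_notMem_of_lt (U := pf Φ₁ ![p, p']) (R := F ∙ p'') (by
      have := finrank_span_one (F := F) p''; rw [top_inf_eq, finrank_top] at *; omega)
    refine (sub_eq_zero.1 (eq_zero_of_smul_mem x0 ?_)).symm
    simpa [ha, hb, show Φ₁.B p x = 0 from mem_pf.1 hx 0, show Φ₁.B p' x = 0 from mem_pf.1 hx 1, smul_smul, sub_smul]
      using hc x
  obtain ⟨s, c1⟩ := Submodule.mem_span_singleton.1 (hc z)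
  obtain ⟨t, c2⟩ := Submodule.mem_span_singleton.1 (hc y)
  simp [ha, hb, z1, z2, y1, y2, smul_smul] at c1 c2
  have d1 := congrArg (φ 2) c1
  have d2 := congrArg (φ 2) c2
  simp [a2] at d1 d2
  rcases d1 with rfl | d1
  · simp [l1, p0, left_ne_zero_of_mul k0, eq_comm (a := (0 : W))] at c1
  · simp [d1, l0, left_ne_zero_of_mul (left_ne_zero_of_mul k1), right_ne_zero_of_mul k1] at d2

omit [FiniteDimensional F W] [FiniteDimensional F U] in
theorem lT_mul (a b : W ≃ₗ[F] W) : lT U (a * b) = lT U a * lT U b :=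
  LinearEquiv.toLinearMap_injective (TensorProduct.ext' fun _ _ => rfl)

omit [FiniteDimensional F W] [FiniteDimensional F U] in
theorem lT_mem (a : W ≃ₗ[F] W) : lT U a ∈ tstab F W U := ⟨a, 1, fun _ _ => rfl⟩

theorem comm_pt (hn : Φ₁.Nondeg) {r r' : W ≃ₗ[F] W} {v v' : W} {κ κ' : F} (v0 : v ≠ 0) (hκ : κ ≠ 0)
    (e : ∀ x, r x = x + (κ * Φ₁.B v x) • v) (e' : ∀ x, r' x = x + (κ' * Φ₁.B v' x) • v')
    {s : W ⊗[F] U ≃ₗ[F] W ⊗[F] U} (h : s * lT U r = lT U r' * s) (u : U) : ∃ u', s (v ⊗ₜ u) = v' ⊗ₜ u' := by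
  obtain ⟨x, hx⟩ := hn.exists_eq_one v0
  have := LinearEquiv.congr_fun h (x ⊗ₜ (κ⁻¹ • u))
  rw [LinearEquiv.mul_apply, LinearEquiv.mul_apply, lT_rk1 e, lT_rk1 e', map_add, add_right_inj] at this
  exact ⟨_, .trans (by simp [hx, hκ, smul_smul]) (this.trans (tmul_smul _ _ _).symm)⟩

/-- `r` is an involution of rank one with centre `v`. -/
def R1 (Φ₁ : Formed σ W) (v : W) (r : W ≃ₗ[F] W) : Prop :=
  v ≠ 0 ∧ r * r = 1 ∧ ∃ κ ≠ 0, ∀ x, r x = x + (κ * Φ₁.B v x) • v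

/-- The conjugates of the involutions `r ⊗ 1`. -/
def DD (Φ₁ : Formed σ W) (X : Subgroup (W ⊗[F] U ≃ₗ[F] W ⊗[F] U)) (I : Set W) (g : W ⊗[F] U ≃ₗ[F] W ⊗[F] U) : Prop :=
  ∃ c ∈ X, ∃ v ∈ I, ∃ r, R1 Φ₁ v r ∧ lT U r ∈ X ∧ g = c⁻¹ * lT U r * c

omit [FiniteDimensional F W] [FiniteDimensional F U] in
theorem R1.sq {v : W} {r : W ≃ₗ[F] W} (h : R1 Φ₁ v r) : lT U r * lT U r = 1 := by
  rw [← lT_mul, h.2.1]; exact TensorProduct.congr_refl_refl

namespace DD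
variable {I : Set W} {g : W ⊗[F] U ≃ₗ[F] W ⊗[F] U} (h : DD Φ₁ X I g)
include h
omit [FiniteDimensional F W] [FiniteDimensional F U]

theorem mem : g ∈ X := by
  obtain ⟨c, hc, -, -, r, -, hr, rfl⟩ := h
  exact mul_mem (mul_mem (inv_mem hc) hr) hc

theorem sq : g * g = 1 := by
  obtain ⟨c, -, v, -, r, hr, -, rfl⟩ := h
  rw [show c⁻¹ * lT U r * c * (c⁻¹ * lT U r * c) = c⁻¹ * (lT U r * lT U r) * c by group, hr.sq]; simp

theorem conj {d : W ⊗[F] U ≃ₗ[F] W ⊗[F] U} (hd : d ∈ X) : DD Φ₁ X I (d⁻¹ * g * d) := by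
  obtain ⟨c, hc, v, hv, r, h1, h2, rfl⟩ := h
  exact ⟨c * d, mul_mem hc hd, v, hv, r, h1, h2, by group⟩

theorem mul_pow {g' : W ⊗[F] U ≃ₗ[F] W ⊗[F] U} (h' : DD Φ₁ X I g') (k : ℕ) : DD Φ₁ X I (g * (g * g') ^ k) := by
  obtain ⟨j, e | e⟩ := dih h.sq h'.sq k <;> rw [e]
  exacts [h.conj (pow_mem (mul_mem h.mem h'.mem) _), h'.conj (pow_mem (mul_mem h.mem h'.mem) _)]

end DD

theorem DD.mv {I : Set W} {g : W ⊗[F] U ≃ₗ[F] W ⊗[F] U} (h : DD Φ₁ X I g) :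
    ∃ Y : Submodule F (W ⊗[F] U), finrank F Y ≤ finrank F U ∧ g ∈ mvS Y := by
  obtain ⟨c, -, v, -, r, ⟨-, -, κ, -, e⟩, -, rfl⟩ := h
  exact ⟨_, finrank_ptc c v, conj_mem_mvS e c⟩

namespace FX

variable [Finite F] (h : FX Φ₁ Φ₂ Φ X G)
include h

theorem sim {g : W ⊗[F] U ≃ₗ[F] W ⊗[F] U} (hg : g ∈ X) {a : W ≃ₗ[F] W} {b : U ≃ₗ[F] U}
    (e : ∀ w u, g (w ⊗ₜ u) = a w ⊗ₜ b u) : ∃ μ ≠ 0, ∀ x y, Φ₁.B (a x) (a y) = μ * Φ₁.B x y := by
  obtain ⟨u, v, hu⟩ := h.ok.ex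
  obtain ⟨w, r, hw⟩ := h.exists_pair₁
  have s : ∀ x y, Φ₁.B (a x) (a y) = Φ₂.B (b.symm u) (b.symm v) * Φ₁.B x y := fun x y => by
    simpa [e, h.B, hu.ef, mul_comm] using (h.iso hg).1 (x ⊗ₜ b.symm u) (y ⊗ₜ b.symm v)
  exact ⟨_, fun e => by simpa [e, hw.ef] using s (a.symm w) (a.symm r), s⟩

variable (hS : ¬ EG Φ ≤ X)
include hS

theorem fin2 {g : W ⊗[F] U ≃ₗ[F] W ⊗[F] U} (hg : g ∈ X) {Y Y' : Submodule F (W ⊗[F] U)} (hY : g ∈ mvS Y)
    (h1 : finrank F Y ≤ finrank F U) (h2 : finrank F Y' ≤ finrank F U) {a : W ≃ₗ[F] W} (ha : lT U a ∈ mvS (Y ⊔ Y'))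
    (hr : ∀ p, ¬ ∀ x, a x - x ∈ F ∙ p) : g ∈ tstab F W U := by
  obtain ⟨x, hx⟩ := not_forall.1 (hr 0)
  obtain ⟨y, hy⟩ := not_forall.1 (hr (a x - x))
  obtain ⟨φ, p1, p2⟩ := exists_fun1 hy
  let j := (TensorProduct.mk F W U (a x - x)).coprod (TensorProduct.mk F W U (a y - y))
  have inj : Function.Injective j := (injective_iff_map_eq_zero _).2 fun ⟨u, v⟩ e => by
    obtain rfl : v = 0 := by simpa only [j, LinearMap.coprod_apply, mk_apply, map_add, cL_tmul, p1, p2, zero_smul,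
      one_smul, zero_add, map_zero] using congrArg (cL φ) e
    simpa using tmul_inj (F := F) (w := a x - x) (u' := 0) (fun e => hx (by simp [e])) (by
      simpa only [j, LinearMap.coprod_apply, mk_apply, tmul_zero, add_zero] using e)
  have e : LinearMap.range j = Y ⊔ Y' := Submodule.eq_of_le_of_finrank_le (by
    rintro _ ⟨⟨u, v⟩, rfl⟩
    simpa [j, sub_tmul] using add_mem (ha (x ⊗ₜ u)) (ha (y ⊗ₜ v))) (by
    have := Submodule.finrank_add_le_finrank_add_finrank Y Y'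
    rw [LinearMap.finrank_range_of_inj inj, finrank_prod]; omega)
  obtain ⟨w, -, w0, hw, e1⟩ := exists_sing_pf Φ₁ ![a x - x, a y - y] (U := ⊤) (R := ⊥) (by simpa using h.five)
  refine h.par hS hg hw w0 fun u => ⟨u, fix_of_mvS h.nondeg (h.iso hg) hY fun z hz => ?_⟩
  obtain ⟨⟨u, v⟩, rfl⟩ := e.ge (Submodule.mem_sup_left hz)
  simp only [j, LinearMap.coprod_apply, mk_apply, map_add, h.B, Φ₁.B_eq_zero_symm (show Φ₁.B (a x - x) w = 0 from e1 0),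
    Φ₁.B_eq_zero_symm (show Φ₁.B (a y - y) w = 0 from e1 1), zero_mul, add_zero]

variable {X₀ : Subgroup (W ⊗[F] U ≃ₗ[F] W ⊗[F] U)} {I : Set W} (le : X₀ ≤ X)
  (hP : ∀ c ∈ X₀, ∀ v ∈ I, ∀ v', (∀ u, ∃ u', c (v ⊗ₜ u) = v' ⊗ₜ u') → c ∈ tstab F W U)
  (hex : ∀ b : U ≃ₗ[F] U, TensorProduct.congr (.refl F W) b ∈ X₀ → b * b = 1 →
    finrank F W * finrank F (mov b) ≠ finrank F U)
include hP hex

omit hS in
theorem rec_top {c : W ⊗[F] U ≃ₗ[F] W ⊗[F] U} (hc : c ∈ X₀) {v : W} (hv : v ∈ I) {r : W ≃ₗ[F] W} (hr : R1 Φ₁ v r)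
    (hr' : lT U r ∈ X₀) (H : c⁻¹ * lT U r * c ∈ tstab F W U) :
    c ∈ tstab F W U ∧ ∃ a p, c⁻¹ * lT U r * c = lT U a ∧ ∀ x, a x - x ∈ F ∙ p := by
  have := h.nontriv
  have d : DD Φ₁ X₀ I _ := ⟨c, hc, v, hv, r, hr, hr', rfl⟩
  obtain ⟨v0, -, κ, hκ, e⟩ := id hr
  obtain ⟨a, b, e1⟩ := H
  obtain ⟨a', e2⟩ : ∃ a', c⁻¹ * lT U r * c = lT U a' := by
    by_cases hk : ∀ k : F, a.toLinearMap ≠ k • 1
    · obtain ⟨p, hp⟩ := exists_notMem_of_not_scalar hk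
      obtain ⟨φ, p1, p2⟩ := exists_fun1 (notMem_symm hp (by rintro rfl; simp at hp))
      exact (scalar_of_mv e1 (conj_mem_mvS e c) ![p] ![φ] (by simpa) (by simpa) (by
        have := finrank_ptc c v; have := h.five; omega)).imp fun _ => And.left
    obtain ⟨k, hk⟩ := not_forall.1 hk
    replace hk : ∀ w, a w = k • w := LinearMap.congr_fun (not_not.1 hk)
    have k0 : k ≠ 0 := by rintro rfl; exact v0 (by simpa using hk v)
    have e2 : c⁻¹ * lT U r * c = TensorProduct.congr (.refl F W) (.smulOfNeZero F U k k0 * b) :=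
      LinearEquiv.toLinearMap_injective (TensorProduct.ext' fun w u => (e1 w u).trans (by simp [hk, smul_tmul]))
    refine (hex _ (e2 ▸ d.mem) (LinearEquiv.ext fun u => tmul_inj v0 (LinearEquiv.congr_fun (e2 ▸ d.sq) (v ⊗ₜ u))) ?_).elim
    obtain ⟨x, hx⟩ := h.nd.exists_eq_one v0
    rw [← finrank_mov_rT, ← e2, show mov (c⁻¹ * lT U r * c) = ptc c v from le_antisymm ?_ ?_]
    · exact LinearMap.finrank_range_of_inj fun u u' e => tmul_inj v0 (c.symm.injective e)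
    · rintro _ ⟨z, rfl⟩
      exact neg_mem_iff.1 (by convert conj_mem_mvS e c z using 1; exact neg_sub _ _)
    · rintro _ ⟨u, rfl⟩
      exact ⟨c.symm (x ⊗ₜ (-κ⁻¹ • u)), by simp [e, hx, hκ, add_tmul, ← smul_tmul', smul_smul, tmul_neg]⟩
  obtain ⟨x, -, e3, e4⟩ := rec1 h.nd v0 hκ e e2
  exact ⟨inv_mem_iff.1 (hP _ (inv_mem hc) v hv _ e4), a', _, e2, e3⟩

include le

/-- The involution engine. -/
theorem iengine {v : Fin 3 → W} (hv : LinearIndependent F v) (hI : ∀ i, v i ∈ I) {r : Fin 3 → W ≃ₗ[F] W}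
    (hr : ∀ i, R1 Φ₁ (v i) (r i)) (hr' : ∀ i, lT U (r i) ∈ X₀) : X₀ ≤ tstab F W U := by
  have := h.nontriv
  have : Finite (W ⊗[F] U) := Module.finite_of_finite F
  have : Finite (W ⊗[F] U ≃ₗ[F] W ⊗[F] U) := Finite.of_injective _ DFunLike.coe_injective
  intro c hc
  by_contra hc'
  have dt : DD Φ₁ X₀ I _ := ⟨c, hc, v 0, hI 0, r 0, hr 0, hr' 0, rfl⟩
  have rc := fun {c} hc i H => (h.rec_top hP hex (c := c) hc (hI i) (hr i) (hr' i) H).1
  set t := c⁻¹ * lT U (r 0) * c with ht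
  have ht' : t ∉ tstab F W U := fun e => hc' (rc hc 0 e)
  have di : ∀ i, DD Φ₁ X₀ I (lT U (r i)) := fun i => ⟨1, one_mem _, v i, hI i, r i, hr i, hr' i, by simp⟩
  have odd : ∀ i, Odd (orderOf (lT U (r i) * t)) := fun i => Nat.not_even_iff_odd.1 fun ev => by
    obtain ⟨z1, z2, z3⟩ := Invol.half_pow_spec (di i).sq dt.sq ev
    have d1 := (di i).mul_pow dt (orderOf (lT U (r i) * t) / 2)
    have d2 : DD Φ₁ X₀ I (t * (lT U (r i) * t) ^ (orderOf (lT U (r i) * t) / 2)) := by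
      have := dt.mul_pow (di i) (orderOf (lT U (r i) * t) / 2)
      rwa [← inv_eq_of_mul_eq_one_right (show lT U (r i) * t * (t * lT U (r i)) = 1 by
        rw [mul_assoc, ← mul_assoc t, dt.sq, one_mul, (di i).sq]), inv_pow,
        inv_eq_of_mul_eq_one_right (Invol.mul_self_of z1)] at this
    have hz : (lT U (r i) * t) ^ (orderOf (lT U (r i) * t) / 2) ∈ X₀ := pow_mem (mul_mem (hr' i) dt.mem) _
    generalize (lT U (r i) * t) ^ (orderOf (lT U (r i) * t) / 2) = z at *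
    obtain ⟨c₁, hc₁, v₁, hv₁, r₁, b1, b2, b3⟩ := d1
    obtain ⟨-, a, p, e1, e2⟩ := h.rec_top hP hex hc₁ hv₁ b1 b2 (b3 ▸ mul_mem (lT_mem _) (rc hz i (by
      rw [mul_assoc, ← z2.eq, inv_mul_cancel_left]; exact lT_mem _)))
    have e3 : z = lT U (r i * a) := by rw [lT_mul, ← e1, ← b3, ← mul_assoc, (di i).sq, one_mul]
    obtain ⟨Y, y1, y2⟩ := dt.mv
    obtain ⟨Y', y3, y4⟩ := d2.mv
    refine ht' (h.fin2 hS (le dt.mem) y2 y1 y3 (a := r i * a) (by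
      rw [← e3, ← one_mul z, ← dt.sq, mul_assoc]
      exact mul_mem (mvS_mono le_sup_left y2) (mvS_mono le_sup_right y4)) fun q hq => ?_)
    obtain ⟨μ, m0, m1⟩ := h.sim (le (e1 ▸ mul_mem (mul_mem (inv_mem hc₁) b2) hc₁)) (a := a) (b := 1) fun _ _ => rfl
    obtain ⟨-, κ', e4⟩ := rk1_form h.nd h.five m0 m1 (l := 1) (p := p) (by simpa)
    obtain ⟨v0, -, κ, k0, e5⟩ := hr i
    have z0 : z ≠ 1 := by rintro rfl; simp at z1
    obtain ⟨k, e6⟩ : ∃ k : F, ∀ x, (r i * a) x = x + (k * Φ₁.B (v i) x) • v i := by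
      by_cases k1 : κ' = 0
      · exact ⟨κ, by simp [e4, e5, k1]⟩
      obtain ⟨k, rfl⟩ : ∃ k : F, k • v i = p := Submodule.mem_span_singleton.1 (by_contra fun hp => by
        obtain ⟨x, -, x1, x2⟩ := sep h.nd (nondeg_top h.nd) le_top trivial hp
        obtain ⟨y, -, y1, y2⟩ := sep h.nd (nondeg_top h.nd) le_top trivial (notMem_symm hp v0)
        rw [Formed.mem_perp_span_singleton] at x1 y1
        obtain ⟨φ, f1, f2⟩ := exists_fun1 hp
        obtain ⟨s, a1⟩ := Submodule.mem_span_singleton.1 (hq x)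
        obtain ⟨s', a2⟩ := Submodule.mem_span_singleton.1 (hq y)
        simp [e4, e5, x1, x2, y1, y2] at a1 a2
        have a3 := congrArg φ a1
        have a4 := congrArg φ a2
        simp [f1, f2] at a3 a4
        rcases a4 with rfl | a4
        · simp [k0, v0, eq_comm (a := (0 : W))] at a2
        · simp [a4, Ne.symm k1] at a3)
      exact ⟨κ + κ' * σ k * k * (1 + κ * Φ₁.B (v i) (v i)), fun x => by simp [e4, e5]; module⟩
    refine hc' (inv_mem_iff.1 (h.rec_top hP hex (inv_mem hc) (hI i) (r := r i * a) ⟨v0, LinearEquiv.ext fun x => ?_, _,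
      fun e => z0 ?_, e6⟩ (e3 ▸ hz) ?_).1)
    · obtain ⟨u, u0⟩ := exists_ne (0 : U)
      obtain ⟨μ, m⟩ := exists_fun0 (F := F) u0
      simpa [m, -EmbeddingLike.apply_eq_iff_eq] using congrArg (TensorProduct.rid F W ∘ μ.lTensor W)
        (show (r i * a) ((r i * a) x) ⊗ₜ[F] u = x ⊗ₜ u from LinearEquiv.congr_fun (e3 ▸ Invol.mul_self_of z1) (x ⊗ₜ u))
    · rw [e3, show r i * a = 1 from LinearEquiv.ext fun x => by simp only [e6, e]; simp]
      exact TensorProduct.congr_refl_refl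
    · refine rc (mul_mem (mul_mem (inv_mem (inv_mem hc)) (e3 ▸ hz)) (inv_mem hc)) 0 ?_
      rw [← e3, show (c⁻¹⁻¹ * z * c⁻¹)⁻¹ * lT U (r 0) * (c⁻¹⁻¹ * z * c⁻¹) = c * (z⁻¹ * (t * z)) * c⁻¹ by rw [ht]; group,
        ← z3.eq, inv_mul_cancel_left, ht]
      simpa [mul_assoc] using lT_mem (U := U) (r 0)
  obtain ⟨s, ds, hs⟩ : ∃ s : Fin 3 → _, (∀ i, DD Φ₁ X₀ I (s i)) ∧ ∀ i, s i * lT U (r i) * (s i)⁻¹ = t := by
    choose j hj using fun i => odd_swap (di i).sq dt.sq (odd i)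
    exact ⟨_, fun i => by simpa using (di i).conj (inv_mem (pow_mem (mul_mem (hr' i) dt.mem) (j i))), hj⟩
  have key : ∀ i j, s i * s j * lT U (r j) = lT U (r i) * (s i * s j) := fun i j => by
    rw [mul_assoc, mul_inv_eq_iff_eq_mul.1 (hs j), ← hs i, inv_eq_of_mul_eq_one_right (ds i).sq, ← mul_assoc, ← mul_assoc,
      ← mul_assoc, (ds i).sq, one_mul, mul_assoc]
  have ten : ∀ i j, s i * s j ∈ tstab F W U := fun i j => rc (mul_mem (ds i).mem (ds j).mem) i (by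
    rw [mul_assoc, ← key, inv_mul_cancel_left]; exact lT_mem _)
  have one : ∀ i j (a : W ≃ₗ[F] W) (b : U ≃ₗ[F] U), (∀ w u, (s i * s j) (w ⊗ₜ u) = a w ⊗ₜ b u) →
      ∃ (l : F) (p : W), ∀ x, a x - l • x ∈ F ∙ p := fun i j a b e => by
    by_contra hc
    obtain ⟨p, φ, p1, p2⟩ := exists_two_dual h.five (a := a.toLinearMap) fun l p e => hc ⟨l, p, e⟩
    obtain ⟨Y, y1, y2⟩ := (ds i).mv
    obtain ⟨Y', y3, y4⟩ := (ds j).mv
    have m := mul_mem (mvS_mono le_sup_left y2) (mvS_mono (Z := Y ⊔ Y') le_sup_right y4)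
    obtain ⟨a', e1, k, e2⟩ := scalar_of_mv e m p φ p1 p2 (by
      have := Submodule.finrank_add_le_finrank_add_finrank Y Y'; have := h.five; omega)
    have k0 : k ≠ 0 := by rintro rfl; exact (hr 0).1 (by simpa using e2 (v 0))
    have := h.fin2 hS (le (ds i).mem) y2 y1 y3 (e1 ▸ m) fun q hq => hc ⟨k⁻¹, q, fun x => by
      simpa [e2, smul_sub, k0] using Submodule.smul_mem _ k⁻¹ (hq x)⟩
    exact ht' (hs i ▸ mul_mem (mul_mem this (lT_mem _)) (inv_mem this))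
  have two : ∀ i j, ∃ (a : W ≃ₗ[F] W) (b : U ≃ₗ[F] U), (∀ w u, (s i * s j) (w ⊗ₜ u) = a w ⊗ₜ b u) ∧ a (v j) ∈ F ∙ v i ∧
      ∃ (l κ : F) (p : W), l ≠ 0 ∧ ∀ x, a x = l • x + (κ * Φ₁.B p x) • p := fun i j => by
    obtain ⟨a, b, e⟩ := ten i j
    obtain ⟨l, p, e1⟩ := one i j a b e
    obtain ⟨μ, m0, m1⟩ := h.sim (le (mul_mem (ds i).mem (ds j).mem)) e
    obtain ⟨l0, κ, e2⟩ := rk1_form h.nd h.five m0 m1 e1
    obtain ⟨u, u0⟩ := exists_ne (0 : U)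
    obtain ⟨v0, -, κ₁, k1, e3⟩ := hr j
    obtain ⟨-, -, κ₂, -, e4⟩ := hr i
    obtain ⟨u', e5⟩ := comm_pt h.nd v0 k1 e3 e4 (key i j) u
    exact ⟨a, b, e, mem_span_of_tmul (b.map_ne_zero_iff.2 u0) ((e _ _).symm.trans e5), l, κ, p, l0, e2⟩
  obtain ⟨a, b, e1, e2, l, κ, p, l0, e3⟩ := two 0 1
  obtain ⟨a', b', f1, f2, l', κ', p', l1, f3⟩ := two 1 2
  obtain ⟨l'', p'', e4⟩ := one 0 2 (a * a') (b * b') fun w u => by
    rw [show s 0 * s 2 = s 0 * s 1 * (s 1 * s 2) by rw [mul_assoc, ← mul_assoc (s 1), (ds 1).sq, one_mul],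
      LinearEquiv.mul_apply, f1, e1]; rfl
  exact three_elt h.nd h.five hv l0 l1 e3 f3 e4 e2 f2

end FX

end Cfsg.Agent.Root.Mx
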