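import Cfsg.Agent.Root.Ten5

/-! The reflection engine `FX.rengine` for tensor decompositions in odd characteristic and the maximality criteria
`isMaximalIn_refl` (reflections of the first factor), `isMaximalIn_tv` (transvections in characteristic two). -/

set_option autoImplicit false

namespace Cfsg.Agent.Root.Mx

open Cfsg.Agent.Geom Cfsg.Agent.AutCl Module TensorProduct

variable {F : Type*} [Field F] {σ : F →+* F} {W U : Type*} [AddCommGroup W] [Module F W] [AddCommGroup U] [Module F U]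
  {Φ₁ : Formed σ W} {Φ₂ : Formed σ U} {Φ : Formed σ (W ⊗[F] U)} {X : Subgroup (W ⊗[F] U ≃ₗ[F] W ⊗[F] U)}
  {G : Subgroup (U ≃ₗ[F] U)}

theorem nondeg_sup_one {S : Submodule F W} (hS : (Φ₁.restrict S).Nondeg) {v : W} (hv : v ∈ Φ₁.perp S)
    (v0 : Φ₁.B v v ≠ 0) : (Φ₁.restrict (S ⊔ F ∙ v)).Nondeg := Φ₁.restrict_nondeg_iff'.2 fun u hu e => by
  obtain ⟨s, hs, _, hz, rfl⟩ := Submodule.mem_sup.1 hu
  obtain ⟨t, rfl⟩ := Submodule.mem_span_singleton.1 hz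
  obtain rfl : t = 0 := by simpa [hv s hs, v0] using e v (mem_sup_self _ _)
  simpa using Φ₁.restrict_nondeg_iff'.1 hS s hs fun y hy => by simpa using e y (Submodule.mem_sup_left hy)

theorem exists_aniso (h2 : (2 : F) ≠ 0) (hε : Φ₁.ε = 1) {T R : Submodule F W} (hT : (Φ₁.restrict T).Nondeg)
    (h : ¬ T ≤ R) : ∃ v ∈ T, v ∉ R ∧ Φ₁.B v v ≠ 0 := by
  obtain ⟨x, hx, x0⟩ := SetLike.not_le_iff_exists.1 h
  by_contra! hc
  have s : ∀ a ∈ T, Φ₁.B a a = 0 := fun a ha => by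
    by_cases e : a ∈ R
    swap
    · exact hc a ha e
    have e1 := hc _ (add_mem hx ha) (by rwa [add_mem_cancel_right e])
    have e2 := hc _ (sub_mem hx ha) (by rwa [R.sub_mem_iff_left e])
    simp [hc x hx x0] at e1 e2
    exact mul_left_cancel₀ h2 (by linear_combination e1 + e2)
  obtain ⟨y, hy⟩ := hT.exists_eq_one (x := ⟨x, hx⟩) (by rintro ⟨rfl⟩; simp at x0)
  replace hy : Φ₁.B x y = 1 := hy
  have := s _ (add_mem hx y.2)
  simp [s x hx, s y y.2, Φ₁.symm x y, hy, hε] at this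
  exact h2 (by linear_combination this)

/-- The pointwise stabiliser of `S ⊗ U`. -/
def fixT (U : Type*) [AddCommGroup U] [Module F U] (S : Submodule F W) : Subgroup (W ⊗[F] U ≃ₗ[F] W ⊗[F] U) where
  carrier := {d | ∀ x ∈ S, ∀ u, d (x ⊗ₜ u) = x ⊗ₜ u}
  one_mem' := fun _ _ _ => rfl
  mul_mem' := fun ha hb x hx u => by simp [ha x hx, hb x hx]
  inv_mem' := fun {a} ha x hx u => a.symm_apply_eq.2 (ha x hx u).symm

theorem eq_lT_of_fix [Nontrivial U] {d : W ⊗[F] U ≃ₗ[F] W ⊗[F] U} (hd : d ∈ tstab F W U) {v : W} (v0 : v ≠ 0)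
    (h : ∀ u, d (v ⊗ₜ u) = v ⊗ₜ u) : ∃ a, d = lT U a := by
  obtain ⟨a, b, e⟩ := hd
  obtain ⟨χ, c1⟩ := exists_fun0 (F := F) v0
  have e1 : ∀ u, χ (a v) • b u = u := fun u => by simpa [e, c1] using congrArg (cL χ) (h u)
  obtain ⟨u, u0⟩ := exists_ne (0 : U)
  have k0 : χ (a v) ≠ 0 := fun e => u0 (by simpa [e] using (e1 u).symm)
  refine ⟨.smulOfNeZero F W _ (inv_ne_zero k0) * a, LinearEquiv.toLinearMap_injective (TensorProduct.ext' fun w u => ?_)⟩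
  conv_rhs => rw [← e1 u]
  simp [e, ← smul_tmul', smul_smul, k0]

/-- The group generated by `X` and `-1`. -/
def pmS {V : Type*} [AddCommGroup V] [Module F V] (X : Subgroup (V ≃ₗ[F] V)) : Subgroup (V ≃ₗ[F] V) where
  carrier := {g | g ∈ X ∨ LinearEquiv.neg F * g ∈ X}
  one_mem' := .inl (one_mem _)
  mul_mem' := fun {a b} ha hb => by
    rcases ha with ha | ha <;> rcases hb with hb | hb <;> have := mul_mem ha hb
    · exact .inl this
    · exact .inr (by convert this using 1; ext; simp)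
    · exact .inr this
    · exact .inl (by convert this using 1; ext; simp)
  inv_mem' := fun {a} ha => ha.imp inv_mem fun ha => by convert inv_mem ha using 1; ext; simp

theorem neg_mem_isom : LinearEquiv.neg F ∈ Φ₁.isom := ⟨by simp, by simp⟩

theorem EG_le_of_pmS [Finite F] (h2 : (2 : F) ≠ 0) {X : Subgroup (W ≃ₗ[F] W)} (h : EG Φ₁ ≤ pmS X) : EG Φ₁ ≤ X :=
  EG_le fun p a d g hg => (h (IsE_mem_EG hg)).elim id fun e => by
    have ho : Odd (ringChar F ^ 2) := ((CharP.char_is_prime F _).odd_of_ne_two (ringChar_ne_two h2)).pow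
    have e1 : LinearEquiv.neg F * LinearEquiv.neg F = (1 : W ≃ₗ[F] W) := by ext; simp
    have e2 := pow_mem e (ringChar F ^ 2)
    rw [Commute.mul_pow (by ext; simp), hg.pow_char (ringChar F), mul_one, ho.choose_spec, pow_succ, pow_mul, sq, e1,
      one_pow, one_mul] at e2
    simpa [← mul_assoc, e1] using mul_mem e2 e

variable [FiniteDimensional F W] [FiniteDimensional F U] [Finite F]

theorem exists_eich_data (h2 : (2 : F) ≠ 0) (hε : Φ₁.ε = 1) {T : Submodule F W} (hT : (Φ₁.restrict T).Nondeg)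
    (h3 : 3 ≤ finrank F T) : ∃ w ∈ T, ∃ a ∈ T, w ≠ 0 ∧ Φ₁.Sing w ∧ Φ₁.B w a = 0 ∧ Φ₁.B a a ≠ 0 := by
  obtain ⟨e, -, f, -, hp⟩ := exists_pair hT (nondeg_top hT) (by simpa)
  have := hp.finrank_pairPerp hT
  obtain ⟨a, ha, -, a0⟩ := exists_aniso (Φ₁ := Φ₁.restrict T) h2 hε (hp.nondeg_pairPerp hT) (R := ⊥) fun e => by
    have := Submodule.finrank_mono e
    rw [finrank_bot] at this; omega
  exact ⟨e, e.2, a, a.2, by simpa using hp.left_ne_zero, hp.1, ((Formed.mem_pairPerp _).1 ha).1, a0⟩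

omit [Finite F] [FiniteDimensional F U] in
theorem exists_three {T : Submodule F W} (h3 : 3 ≤ finrank F T) {N : W → Prop}
    (h : ∀ R, ¬ T ≤ R → ∃ v, v ∉ R ∧ N v) : ∃ v : Fin 3 → W, LinearIndependent F v ∧ ∀ i, N (v i) := by
  have s : ∀ R : Submodule F W, finrank F R ≤ 2 → ¬ T ≤ R := fun R a b => by
    have := Submodule.finrank_mono b; omega
  obtain ⟨x, x1, x2⟩ := h ⊥ (s _ (by simp))
  obtain ⟨y, y1, y2⟩ := h (F ∙ x) (s _ (by have := finrank_span_one (F := F) x; omega))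
  obtain ⟨z, z1, z2⟩ := h ((F ∙ y) ⊔ F ∙ x) (s _ (by
    have := finrank_span_one (F := F) y; have := finrank_sup_one (F ∙ y) x; omega))
  exact ⟨![z, y, x], linearIndependent_finCons.2 ⟨linearIndependent_finCons.2 ⟨by simpa using x1, by simpa using y1⟩,
    by simpa [Submodule.span_insert, sup_comm] using z1⟩, by simp [Fin.forall_fin_succ, *]⟩

namespace FX

variable (h : FX Φ₁ Φ₂ Φ X G)
include h

theorem pf_step {S : Submodule F W} {c : W ⊗[F] U ≃ₗ[F] W ⊗[F] U} (hc : c ∈ X ⊓ fixT U S) {v v' : W}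
    (hv : v ∈ Φ₁.perp S) (v0 : Φ₁.B v v ≠ 0) {β : U ≃ₗ[F] U} (e : ∀ u, c (v ⊗ₜ u) = v' ⊗ₜ β u) :
    v' ∈ Φ₁.perp S ∧ Φ₁.B v' v' ≠ 0 := by
  obtain ⟨u, y, hu⟩ := h.ok.ex
  refine ⟨fun x hx => ?_, fun e1 => ?_⟩
  · simpa [e, hc.2 x hx, h.B, hu.ef, hv x hx] using (h.iso hc.1).1 (x ⊗ₜ u) (v ⊗ₜ β.symm y)
  · simpa [e, h.B, hu.ef, e1, v0.symm] using (h.iso hc.1).1 (v ⊗ₜ u) (v ⊗ₜ y)

variable (hS : ¬ EG Φ ≤ X) (h2 : (2 : F) ≠ 0) (hε : Φ₁.ε = 1)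
include hS

include h2 hε in
theorem pf_eich {S : Submodule F W} (hn : (Φ₁.restrict S).Nondeg) (hd : finrank F S + 4 ≤ finrank F W)
    {c : W ⊗[F] U ≃ₗ[F] W ⊗[F] U} (hc : c ∈ X ⊓ fixT U S) {v v' : W} (hv : v ∈ Φ₁.perp S) (v0 : Φ₁.B v v ≠ 0)
    {β : U ≃ₗ[F] U} (e : ∀ u, c (v ⊗ₜ u) = v' ⊗ₜ β u) (H : X ⊓ fixT U (S ⊔ F ∙ v') ≤ tstab F W U) : c ∈ tstab F W U := by
  have := h.nontriv
  obtain ⟨w, hw, a, ha, w0, hs, a1, a0⟩ := exists_eich_data h2 hε (h.nd.restrict_perp (nondeg_sup_one hn hv v0)) (by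
    have := h.nd.finrank_add_finrank_perp (S ⊔ F ∙ v); have := finrank_sup_one S v; omega)
  obtain ⟨d, g, hg⟩ := exists_isE' h.nd hs a1
  have f := fun x hx => h.lT_fix hg (hw x hx) (ha x hx)
  have f1 : ∀ u, (c * lT U g * c⁻¹) (v' ⊗ₜ u) = v' ⊗ₜ u := fun u => by
    obtain ⟨u, rfl⟩ := β.surjective u
    simp only [← e, LinearEquiv.mul_apply, LinearEquiv.coe_inv, c.symm_apply_apply, f v (mem_sup_self _ _)]
  obtain ⟨a', e1⟩ := eq_lT_of_fix (H ⟨X.mul_mem (X.mul_mem hc.1 (h.l _ _ _ _ hg)) (X.inv_mem hc.1), fun x hx u => by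
    obtain ⟨s, hs, _, hz, rfl⟩ := Submodule.mem_sup.1 hx
    obtain ⟨t, rfl⟩ := Submodule.mem_span_singleton.1 hz
    rw [add_tmul, ← smul_tmul', map_add, map_smul, f1, LinearEquiv.mul_apply, LinearEquiv.mul_apply,
      (inv_mem hc).2 s hs, f s (Submodule.mem_sup_left hs), hc.2 s hs]⟩)
    (by rintro rfl; simpa using (h.pf_step hc hv v0 e).2) f1
  have e2 : ∀ x u, c⁻¹ ((a' x - x) ⊗ₜ u) = lT U g (c⁻¹ (x ⊗ₜ u)) - c⁻¹ (x ⊗ₜ u) := fun x u => by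
    rw [sub_tmul, map_sub, sub_left_inj]
    exact c.symm_apply_eq.2 (LinearEquiv.congr_fun e1 (x ⊗ₜ u)).symm
  obtain ⟨x, -, -, e3⟩ := rec0 h.nd (c := c⁻¹) w0 (neg_ne_zero.2 a0) (α := fun x => a' (a' x - x) - (a' x - x))
    fun x u => by
    rw [e2, e2, sub_eq_iff_eq_add'.2 ((lT_isE hg (c⁻¹ (x ⊗ₜ u))).trans (add_sub_assoc _ _ _))]
    simp [hg.apply_p, hg.apply_perp a1, add_tmul, hε, smul_tmul']
  exact h.par hS hc.1 hs w0 e3

theorem pf_mix {S : Submodule F W} (hd : 2 ≤ finrank F S) {c : W ⊗[F] U ≃ₗ[F] W ⊗[F] U} (hc : c ∈ X ⊓ fixT U S)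
    {v v' : W} (hv : v ∈ Φ₁.perp S) (v0 : Φ₁.B v v ≠ 0) {β : U ≃ₗ[F] U} (e : ∀ u, c (v ⊗ₜ u) = v' ⊗ₜ β u) {x : W}
    (hx : x ∈ S) (x0 : x ≠ 0) {t : F} (t0 : t ≠ 0) {r : W ≃ₗ[F] W} (hr : R1 Φ₁ (x + t • v) r) (hr' : lT U r ∈ X) :
    c ∈ tstab F W U := by
  have := h.nontriv
  obtain ⟨b1, b2⟩ := h.pf_step hc hv v0 e
  obtain ⟨y0, -, κ, k0, e1⟩ := hr
  have e2 : ∀ z ∈ S, ∀ (s : F) u, c ((z + s • v) ⊗ₜ u) = z ⊗ₜ u + s • v' ⊗ₜ β u := fun z hz s u => by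
    rw [add_tmul, ← smul_tmul', map_add, map_smul, e, hc.2 z hz]
  obtain ⟨w, -, w0, hw, e3⟩ := exists_sing_pf Φ₁ ![x, v'] (U := ⊤) (R := ⊥) (by simpa using h.five)
  have f : ∀ u, (c⁻¹⁻¹ * lT U r * c⁻¹) (w ⊗ₜ u) = w ⊗ₜ u := fun u => by
    have : cL (Φ₁.B (x + t • v)) (c⁻¹ (w ⊗ₜ u)) = 0 := h.ok.nd.ext_right fun y => by
      rw [← h.Bl, ← (h.iso hc.1).1, e2 x hx]
      simp [h.B, show Φ₁.B x w = 0 from e3 0, show Φ₁.B v' w = 0 from e3 1]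
    rw [LinearEquiv.mul_apply, LinearEquiv.mul_apply, lT_rk1 e1, this]; simp
  obtain ⟨a, ha⟩ := eq_lT_of_fix (h.par hS (X.mul_mem (X.mul_mem (X.inv_mem (X.inv_mem hc.1)) hr') (X.inv_mem hc.1)) hw w0
    fun u => ⟨u, f u⟩) w0 f
  obtain ⟨z, -, -, e4⟩ := rec1 h.nd y0 k0 e1 ha
  have i1 : v' ∉ F ∙ x := notMem_of_fun (φ := Φ₁.B v') b2 (Φ₁.B_eq_zero_symm (b1 x hx))
  obtain ⟨φ, p1, p2⟩ := exists_fun1 i1
  obtain ⟨ψ, q1, q2⟩ := exists_fun1 (notMem_symm i1 x0)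
  obtain ⟨k, hk⟩ : ∃ k : F, ∀ u, β u = k • u := ⟨t⁻¹ * φ (a z - z) / ψ (a z - z), fun u => by
    obtain ⟨u', e4⟩ := e4 u
    rw [inv_inv, e2 x hx] at e4
    have a1 := congrArg (cL φ) e4
    have a2 := congrArg (cL ψ) e4
    simp only [map_add, map_smul, cL_tmul, p1, p2, q1, q2, zero_smul, one_smul, zero_add, smul_zero, add_zero] at a1 a2
    by_cases e5 : ψ (a z - z) = 0
    · simp [a2, e5]
    rw [← inv_smul_smul₀ t0 (β u), a1, a2, smul_smul, smul_smul]; congr 1; field_simp⟩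
  obtain ⟨p, hp, p0, hs⟩ := exists_sing_notMem Φ₁ (U := S ⊔ F ∙ v) (R := ⊥) (by
    have := Submodule.finrank_lt_finrank_of_lt (show S < S ⊔ F ∙ v from lt_of_le_of_ne le_sup_left fun e =>
      v0 (hv v (e ▸ mem_sup_self _ _)))
    simp; omega)
  obtain ⟨s, hs', _, hz, rfl⟩ := Submodule.mem_sup.1 hp
  obtain ⟨l, rfl⟩ := Submodule.mem_span_singleton.1 hz
  exact h.par hS hc.1 hs p0 (w' := s + (l * k) • v') fun u => ⟨u, by
    rw [e2 s hs', hk, add_tmul, tmul_smul, smul_smul, smul_tmul']⟩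

include h2 hε in
/-- The reflection engine. -/
theorem rengine {N : W → Prop} (hN : ∀ v, N v → Φ₁.B v v ≠ 0 ∧ ∃ r, R1 Φ₁ v r ∧ lT U r ∈ X)
    (hI : ∀ T R : Submodule F W, (Φ₁.restrict T).Nondeg → 3 ≤ finrank F T → ¬ T ≤ R → ∃ v ∈ T, v ∉ R ∧ N v)
    (hm : 6 ≤ finrank F W ∨ ∀ S : Submodule F W, (Φ₁.restrict S).Nondeg → finrank F S = 2 → ∀ v ∈ Φ₁.perp S,
      Φ₁.B v v ≠ 0 → ∃ x ∈ S, x ≠ 0 ∧ ∃ t : F, t ≠ 0 ∧ N (x + t • v))
    (hex : ∀ b : U ≃ₗ[F] U, TensorProduct.congr (.refl F W) b ∈ X → b * b = 1 →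
      finrank F W * finrank F (mov b) ≠ finrank F U) : X ≤ tstab F W U := by
  have key : ∀ (n : ℕ) (S : Submodule F W), (Φ₁.restrict S).Nondeg → finrank F S + n = 3 →
      X ⊓ fixT U S ≤ tstab F W U := fun n => by
    induction n with
    | zero =>
      intro S _ e c hc
      obtain ⟨p, hp, p0, hs⟩ := exists_sing_notMem Φ₁ (U := S) (R := ⊥) (by simp; omega)
      exact h.par hS hc.1 hs p0 fun u => ⟨u, hc.2 p hp u⟩
    | succ n ih =>
      intro S hn e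
      have := h.nd.finrank_add_finrank_perp S
      have := h.five
      have h3 : 3 ≤ finrank F (Φ₁.perp S) := by omega
      obtain ⟨v, hv, v1⟩ := exists_three h3 (N := fun v => v ∈ Φ₁.perp S ∧ N v) fun R hR =>
        (hI _ R (h.nd.restrict_perp hn) h3 hR).imp fun _ e => ⟨e.2.1, e.1, e.2.2⟩
      choose v0 r r1 r2 using fun i => hN _ (v1 i).2
      refine h.iengine hS (I := {v | v ∈ Φ₁.perp S ∧ Φ₁.B v v ≠ 0}) inf_le_left (fun c hc v ⟨hv, v0⟩ v' H => ?_)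
        (fun b hb => hex b hb.1) hv (fun i => ⟨(v1 i).1, v0 i⟩) r1 fun i => ⟨r2 i, fun x hx u => ?_⟩
      · obtain ⟨β, hβ⟩ := exists_beta (by rintro rfl; simp at v0) H
        obtain ⟨b1, b2⟩ := h.pf_step hc hv v0 hβ
        by_cases hd : finrank F S + 4 ≤ finrank F W
        · refine h.pf_eich hS h2 hε hn hd hc hv v0 hβ (ih _ (nondeg_sup_one hn b1 b2) ?_)
          have := Submodule.finrank_lt_finrank_of_lt (show S < S ⊔ F ∙ v' from lt_of_le_of_ne le_sup_left fun e =>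
            b2 (b1 v' (e ▸ mem_sup_self _ _)))
          have := finrank_sup_one S v'
          omega
        obtain ⟨x, hx, x0, t, t0, e1⟩ := (hm.resolve_left (by omega)) S hn (by omega) v hv v0
        obtain ⟨-, r, r1, r2⟩ := hN _ e1
        exact h.pf_mix hS (by omega) hc hv v0 hβ hx x0 t0 r1 r2
      obtain ⟨-, -, κ, -, e⟩ := r1 i
      simp [e, Φ₁.B_eq_zero_symm ((v1 i).1 x hx)]
  exact fun c hc => key 3 ⊥ (fun x _ => Subsingleton.elim _ _) (by simp) ⟨hc, fun x hx u => by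
    simp [(Submodule.mem_bot F).1 hx]⟩

end FX

/-- Maximality of a tensor stabiliser containing `± r ⊗ 1` for enough reflections `r`. -/
theorem isMaximalIn_refl (h : FX Φ₁ Φ₂ Φ (tstab F W U ⊓ EG Φ) G) (h2 : (2 : F) ≠ 0) (hε : Φ₁.ε = 1) {N : W → Prop}
    (hN : ∀ v, N v → Φ₁.B v v ≠ 0 ∧ ∀ r ∈ Φ₁.isom, LinearMap.det (r : W →ₗ[F] W) = -1 → r v = -v →
      (∀ x, Φ₁.B v x = 0 → r x = x) → (∀ x, Φ₁.B v (x + r x) = 0) → lT U r ∈ pmS (EG Φ))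
    (hI : ∀ T R : Submodule F W, (Φ₁.restrict T).Nondeg → 3 ≤ finrank F T → ¬ T ≤ R → ∃ v ∈ T, v ∉ R ∧ N v)
    (hm : 6 ≤ finrank F W ∨ ∀ S : Submodule F W, (Φ₁.restrict S).Nondeg → finrank F S = 2 → ∀ v ∈ Φ₁.perp S,
      Φ₁.B v v ≠ 0 → ∃ x ∈ S, x ≠ 0 ∧ ∃ t : F, t ≠ 0 ∧ N (x + t • v))
    (hex : ∀ b : U ≃ₗ[F] U, TensorProduct.congr (.refl F W) b ∈ Φ.isom → b * b = 1 →
      finrank F W * finrank F (mov b) ≠ finrank F U) : Geo.IsMaximalIn (EG Φ) (tstab F W U ⊓ EG Φ) := by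
  refine isMaximalIn_FX h fun X a1 a2 hX hS => ?_
  have iso : pmS X ≤ Φ.isom := fun g hg => hg.elim (fun e => hX.iso e) fun e =>
    (mul_mem_cancel_left neg_mem_isom).1 (hX.iso e)
  have le : X ≤ pmS X := fun _ => Or.inl
  refine le.trans ((hX.mono le iso).rengine (fun e => hS (EG_le_of_pmS h2 e)) h2 hε
    (fun v hv => ?_) hI hm fun b hb => hex b (iso hb))
  obtain ⟨v0, H⟩ := hN v hv
  have e := B_self_eq (Φ := Φ₁) v
  rw [hε, one_mul] at e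
  have hc : σ (-2 / Φ₁.B v v) + Φ₁.ε * (-2 / Φ₁.B v v) + σ (-2 / Φ₁.B v v) * (-2 / Φ₁.B v v) * Φ₁.B v v = 0 := by
    simp [e, hε, map_ofNat]; field_simp; ring
  refine ⟨v0, Formed.qrefl h.nd v _ hc, ⟨by rintro rfl; simp at v0, LinearEquiv.ext fun x => ?_, _,
    by simp [h2, v0], fun x => rfl⟩, ?_⟩
  · simp; match_scalars <;> field_simp; ring
  refine (H _ (Formed.qrefl_mem h.nd v _ hc (by simp [h.τ, h.Q₁])) (by rw [Formed.det_qrefl]; field_simp; ring) ?_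
    (fun x e => by simp [e]) fun x => by simp; field_simp; ring).imp (fun e => a1 ⟨lT_mem _, e⟩)
    fun e => a1 ⟨mul_mem ⟨.neg F, 1, fun w u => by simp [neg_tmul]⟩ (lT_mem _), e⟩
  simp; match_scalars; field_simp; ring

end Cfsg.Agent.Root.Mx
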