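import Cfsg.Agent.Root.Ten7

/-! Tensor stabilisers `O(W) ⊗ O(U)` with `dim W ≥ 2 dim U` and `W` of minus type (`max_oo2`): elements fixing a
non-singular point are tensor products (`FX.mem_of_rf`), recognition of conjugates of rank two elements. -/

set_option autoImplicit false

namespace Cfsg.Agent.Root.Mx

open Cfsg.Agent.Geom Cfsg.Agent.AutCl Module TensorProduct

variable {F : Type*} [Field F] {W U : Type*} [AddCommGroup W] [Module F W] [AddCommGroup U] [Module F U]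
  {Φ₁ : Formed (RingHom.id F) W} {Φ₂ : Formed (RingHom.id F) U} {Φ : Formed (RingHom.id F) (W ⊗[F] U)}
  {X : Subgroup (W ⊗[F] U ≃ₗ[F] W ⊗[F] U)} {G : Subgroup (U ≃ₗ[F] U)}

/-- Commutators of isometries lie in the Eichler group. -/
def CEG {σ : F →+* F} (Φ₁ : Formed σ W) : Prop := ∀ g ∈ Φ₁.isom, ∀ h ∈ Φ₁.isom, g * h * g⁻¹ * h⁻¹ ∈ EG Φ₁

theorem CEG.comap (h : CEG Φ₁) (E : U ≃ₗ[F] W) : CEG (Φ₁.comap E.toLinearMap) := fun g hg k hk =>
  (mem_EG_comap E).2 (by simpa only [map_mul, map_inv] using h _ (mem_isom_comap E hg) _ (mem_isom_comap E hk))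

theorem ceg_quad [Finite F] [FiniteDimensional F W] {Q : QuadraticForm F W} (hQ : (Formed.ofQuad Q).Nondeg)
    (h5 : 5 ≤ finrank F W) : CEG (Formed.ofQuad Q) := fun g hg k hk => by
  have := Subgroup.commutator_mem_commutator (Subgroup.mem_top (⟨g, hg⟩ : OG Q)) (Subgroup.mem_top (⟨k, hk⟩ : OG Q))
  rw [commutatorElement_def] at this
  exact (mem_EG_quad hQ h5).2 this

/-- The elements of `X ∩ ρ X ρ` and of `ρ X ∩ X ρ`. -/
def twoS {G : Type*} [Group G] (X : Subgroup G) {r : G} (rr : r * r = 1) : Subgroup G :=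
  have ri : r⁻¹ = r := inv_eq_of_mul_eq_one_right rr
  have rc : ∀ g, r * (r * g) = g := fun g => by rw [← mul_assoc, rr, one_mul]
  { carrier := {g | (g ∈ X ∧ r * g * r ∈ X) ∨ (r * g ∈ X ∧ g * r ∈ X)}
    one_mem' := Or.inl ⟨one_mem _, by simp [rr]⟩
    mul_mem' := by
      rintro g g' (⟨a1, a2⟩ | ⟨a1, a2⟩) (⟨b1, b2⟩ | ⟨b1, b2⟩)
      · exact Or.inl ⟨mul_mem a1 b1, by simpa [mul_assoc, rc] using mul_mem a2 b2⟩
      · exact Or.inr ⟨by simpa [mul_assoc, rc] using mul_mem a2 b1, by simpa [mul_assoc] using mul_mem a1 b2⟩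
      · exact Or.inr ⟨by simpa [mul_assoc] using mul_mem a1 b1, by simpa [mul_assoc, rc] using mul_mem a2 b2⟩
      · exact Or.inl ⟨by simpa [mul_assoc, rc] using mul_mem a2 b1, by simpa [mul_assoc] using mul_mem a1 b2⟩
    inv_mem' := by
      rintro g (⟨a1, a2⟩ | ⟨a1, a2⟩)
      · exact Or.inl ⟨inv_mem a1, by simpa [ri, mul_assoc] using inv_mem a2⟩
      · exact Or.inr ⟨by simpa [ri] using inv_mem a2, by simpa [ri] using inv_mem a1⟩ }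

theorem mem_of_twoS {G : Type*} [Group G] {X : Subgroup G} {r : G} {rr : r * r = 1} {g : G} (h : g ∈ twoS X rr)
    {n : ℕ} (ho : Odd n) (e : g ^ n = 1) : g ∈ X := by
  obtain ⟨k, rfl⟩ := ho
  have : g * g ∈ X := h.elim (fun a => mul_mem a.1 a.1) fun a => by
    have := mul_mem a.2 a.1
    rwa [mul_assoc, ← mul_assoc r, rr, one_mul] at this
  rw [pow_succ, pow_mul, sq] at e
  exact inv_mem_iff.1 (eq_inv_of_mul_eq_one_left e ▸ pow_mem this k)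

/-- `r` is the reflection in `v`. -/
structure IsRf (Φ₁ : Formed (RingHom.id F) W) (v : W) (r : W ≃ₗ[F] W) : Prop where
  ne : Φ₁.B v v ≠ 0
  iso : r ∈ Φ₁.isom
  app : ∀ x, r x = x + (-2 / Φ₁.B v v * Φ₁.B v x) • v

theorem HD.exists_rf [FiniteDimensional F W] (h : HD Φ₁) {v : W} (v0 : Φ₁.B v v ≠ 0) : ∃ r, IsRf Φ₁ v r :=
  ⟨Formed.qrefl h.nd v (-2 / Φ₁.B v v) (by simp [h.ε]; field_simp; ring), v0,
    Formed.qrefl_mem h.nd v _ _ (by simp [h.τ, h.Q]), fun _ => rfl⟩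

namespace IsRf
variable {v : W} {r : W ≃ₗ[F] W} (h : IsRf Φ₁ v r)
include h

theorem self : r v = -v := by
  rw [h.app, div_mul_cancel₀ _ h.ne]; module

theorem perp {x : W} (e : Φ₁.B v x = 0) : r x = x := by simp [h.app, e]

theorem sq : r * r = 1 := LinearEquiv.ext fun x => by
  rw [LinearEquiv.mul_apply, h.app x, map_add, map_smul, h.self, h.app x]; simp

theorem r1 (h2 : (2 : F) ≠ 0) : R1 Φ₁ v r :=
  ⟨by rintro rfl; simpa using h.ne, h.sq, _, by simp [h2, h.ne], h.app⟩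

theorem conj {s : W ≃ₗ[F] W} (hs : s ∈ Φ₁.isom) : IsRf Φ₁ (s v) (s * r * s⁻¹) :=
  ⟨by rw [hs.1]; exact h.ne, mul_mem (mul_mem hs h.iso) (inv_mem hs), fun x => by
    obtain ⟨x, rfl⟩ := s.surjective x
    simp [h.app, hs.1]⟩

theorem ext {r' : W ≃ₗ[F] W} (h' : IsRf Φ₁ v r') : r = r' := LinearEquiv.ext fun x => by rw [h.app, h'.app]

end IsRf

theorem lT_inv (a : W ≃ₗ[F] W) : lT U a⁻¹ = (lT U a)⁻¹ :=
  eq_inv_of_mul_eq_one_left (by rw [← lT_mul, inv_mul_cancel]; exact TensorProduct.congr_refl_refl)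

theorem IsE_sq_ne [FiniteDimensional F W] (hn : Φ₁.Nondeg) (h2 : (2 : F) ≠ 0) {p a : W} {d : F} {g : W ≃ₗ[F] W}
    (h : IsE Φ₁ p a d g) (p0 : p ≠ 0) (ha : a ∉ F ∙ p) : g * g ≠ 1 := fun e => by
  obtain ⟨x, hx⟩ := hn.exists_eq_one p0
  have := (h.mul h).app x
  rw [e, hx] at this
  refine ha (((F ∙ p).smul_mem_iff (mul_ne_zero h2 Φ₁.ε_ne_zero)).1 (Submodule.mem_span_singleton.2 ⟨Φ₁.B (a + a) x - (d + d + Φ₁.ε * Φ₁.B a a) * 1, ?_⟩))
  change x = _ at this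
  linear_combination (norm := module) -this

variable [FiniteDimensional F W] [FiniteDimensional F U]

theorem rf_mul_mem (hB : ∀ w u w' u', Φ.B (w ⊗ₜ u) (w' ⊗ₜ u') = Φ₁.B w w' * Φ₂.B u u') (h2 : (2 : F) ≠ 0)
    (hC : CEG Φ) (h₁ : HD Φ₁) {v t : W} {r r' : W ≃ₗ[F] W} (hr : IsRf Φ₁ v r) (hr' : IsRf Φ₁ t r')
    (e : Φ₁.B v v = Φ₁.B t t) : lT U r * lT U r' ∈ tstab F W U ⊓ EG Φ := by
  obtain ⟨s, hs, rfl⟩ := h₁.nd.witt_vec (hr'.r1 h2).1 (hr.r1 h2).1 e (by simp [h₁.Q])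
  refine ⟨mul_mem (lT_mem _) (lT_mem _), ?_⟩
  have := hC _ (congr_mem_isom hB (.inl h2) hs (one_mem _)) _ (congr_mem_isom hB (.inl h2) hr'.iso (one_mem _))
  rw [hr.ext (hr'.conj hs), lT_mul, lT_mul, lT_inv]
  have i := inv_eq_of_mul_eq_one_right ((hr'.r1 h2).sq (U := U))
  change lT U s * lT U r' * (lT U s)⁻¹ * (lT U r')⁻¹ ∈ EG Φ at this
  rwa [i] at this

variable [Finite F]

omit [FiniteDimensional F U] in
theorem exists_norm_notMem (h2 : (2 : F) ≠ 0) (h₁ : HD Φ₁) {c : F} (c0 : c ≠ 0) (T R : Submodule F W)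
    (a : (Φ₁.restrict T).Nondeg) (b : 3 ≤ finrank F T) (d : ¬ T ≤ R) : ∃ v ∈ T, v ∉ R ∧ Φ₁.B v v = c := by
  obtain ⟨x, hx, x1, x0⟩ := exists_aniso h2 h₁.ε a d
  have n1 := finrank_inf_perp h₁.nd a (U := F ∙ x) (by simpa)
  have := finrank_span_one (F := F) x
  obtain ⟨y, ⟨hy, y1⟩, e⟩ := Φ₁.exists_B_self_eq h2 h₁.ε (U := T ⊓ Φ₁.perp (F ∙ x)) (Φ₁.restrict_nondeg_iff'.2
    fun u hu e => Φ₁.restrict_nondeg_iff'.1 a u hu.1 fun z hz => by
      have := Φ₁.B_eq_zero_symm (Φ₁.mem_perp_span_singleton.1 hu.2)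
      simpa [this] using e (z - (Φ₁.B x z / Φ₁.B x x) • x) ⟨sub_mem hz (T.smul_mem _ hx),
        Φ₁.mem_perp_span_singleton.2 (by simp [x0])⟩) (by omega) (c - Φ₁.B x x)
  replace y1 := Φ₁.mem_perp_span_singleton.1 y1
  by_contra! hc
  have a1 := hc _ (add_mem hx hy)
  have a2 := hc _ (sub_mem hx hy)
  simp [y1, Φ₁.B_eq_zero_symm y1, e] at a1 a2
  exact x1 ((R.smul_mem_iff h2).1 (by simpa [two_smul] using add_mem a1 a2))

omit [FiniteDimensional F U] in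
theorem exists_eich_data' (h2 : (2 : F) ≠ 0) (h₁ : HD Φ₁) {T : Submodule F W} (h3 : 3 ≤ finrank F T)
    (hT : finrank F W < 2 * finrank F T) :
    ∃ w ∈ T, ∃ a ∈ T, w ≠ 0 ∧ Φ₁.Sing w ∧ Φ₁.B w a = 0 ∧ Φ₁.B a a ≠ 0 := by
  by_cases hn : (Φ₁.restrict T).Nondeg
  · exact exists_eich_data h2 h₁.ε hn h3
  obtain ⟨a, ha, a0⟩ : ∃ a ∈ T, Φ₁.B a a ≠ 0 := by
    by_contra! hc
    have := h₁.nd.two_mul_finrank_le (U := T) fun x hx y hy => B_eq_zero_of_iso h₁.ε h2 hc hy hx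
    omega
  rw [Φ₁.restrict_nondeg_iff'] at hn
  push Not at hn
  obtain ⟨w, hw, e, w0⟩ := hn
  exact ⟨w, hw, a, ha, w0, ⟨h₁.Q w, e w hw⟩, e a ha, a0⟩

omit [FiniteDimensional F W] [FiniteDimensional F U] [Finite F] in
theorem lT_mvS {T : Submodule F W} {g : W ≃ₗ[F] W} (hg : g ∈ mvS T) (z : W ⊗[F] U) :
    lT U g z - z ∈ LinearMap.range (T.subtype.rTensor U) := by
  induction z with
  | zero => simp
  | tmul x u => exact ⟨⟨_, hg x⟩ ⊗ₜ u, by simp [sub_tmul]⟩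
  | add x y a b => rw [map_add, add_sub_add_comm]; exact add_mem a b

omit [Finite F] [FiniteDimensional F W] in
theorem rk1_isom (h2 : (2 : F) ≠ 0) (h₂ : HD Φ₂) {b : U ≃ₗ[F] U} (hb : ∀ x y, Φ₂.B (b x) (b y) = Φ₂.B x y)
    (h : finrank F (mov b) = 1) : b * b = 1 ∧ ∃ u, Φ₂.B u u ≠ 0 ∧ ∀ x, ∃ t : F, b x = x + t • u := by
  obtain ⟨⟨_, y, rfl⟩, x0, hx⟩ := finrank_eq_one_iff'.1 h
  obtain ⟨u, hu⟩ : ∃ u, b y = y + u := ⟨b y - y, by abel⟩
  have e : ∀ x, ∃ t : F, b x = x + t • u := fun x => by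
    obtain ⟨c, e⟩ := hx ⟨_, sub_mem_mov b x⟩
    have : c • (y - b y) = x - b x := congrArg Subtype.val e
    exact ⟨c, by rw [hu] at this; linear_combination (norm := module) this⟩
  have s : ∀ x y, Φ₂.B x y = Φ₂.B y x := fun x y => by simpa [h₂.ε] using Φ₂.symm y x
  have e1 : 2 * Φ₂.B u y + Φ₂.B u u = 0 := by
    have := hb y y
    simp only [hu, map_add, LinearMap.add_apply, s y u] at this
    linear_combination this
  have u0 : Φ₂.B u u ≠ 0 := fun e2 => x0 (Subtype.ext (by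
    have : u = 0 := h₂.nd _ fun x => by
      obtain ⟨t, e3⟩ := e x
      have := hb y x
      rw [e2, add_zero, mul_eq_zero_iff_left h2] at e1
      simpa [hu, e3, s y u, e1, e2] using this
    simp [hu, this]))
  refine ⟨LinearEquiv.ext fun x => ?_, u, u0, e⟩
  obtain ⟨t, e2⟩ := e u
  obtain ⟨t', e3⟩ := e x
  have := hb y u
  simp [hu, e2, s y u] at this
  obtain rfl : t = -2 := mul_right_cancel₀ u0 (by linear_combination 2 * this - (t + 1) * e1 + e1)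
  simp [e3, e2]; module

namespace FX

variable (h : FX Φ₁ Φ₂ Φ X G) (h2 : (2 : F) ≠ 0)
include h h2

theorem mem_of_rf (hS : ¬ EG Φ ≤ X) (h₁ : HD Φ₁) (hC : CEG Φ) (le : tstab F W U ⊓ EG Φ ≤ X) (h6 : 6 ≤ finrank F W)
    (hlt : finrank F U < finrank F W) {t : W} (t0 : Φ₁.B t t ≠ 0) {d : W ⊗[F] U ≃ₗ[F] W ⊗[F] U} (hd : d ∈ X)
    (e : ∀ u, d (t ⊗ₜ u) = t ⊗ₜ u) : d ∈ tstab F W U := by
  have := h.nontriv
  obtain ⟨r, hr⟩ := h₁.exists_rf t0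
  have rr := (hr.r1 h2).sq (U := U)
  have ri := congr_mem_isom h.B (.inl h2) hr.iso (one_mem Φ₂.isom)
  have cm : ∀ s ∈ X, lT U r * s = s * lT U r → s ∈ twoS X rr := fun s hs e => .inl ⟨hs, by rwa [e, mul_assoc, rr, mul_one]⟩
  have h' : FX Φ₁ Φ₂ Φ (twoS X rr) G :=
    { h with
      iso := fun g hg => hg.elim (fun a => h.iso a.1) fun a => (mul_mem_cancel_left ri).1 (h.iso a.1)
      l := fun p a d g hg => .inl ⟨h.l _ _ _ _ hg, by
        have := h.l _ _ _ _ (hg.conj hr.iso)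
        rwa [lT_mul, lT_mul, inv_eq_of_mul_eq_one_right hr.sq] at this⟩
      r := fun g hg => cm _ (h.r g hg) (LinearEquiv.toLinearMap_injective (TensorProduct.ext' fun _ _ => rfl)) }
  refine h'.rengine (fun H => hS (EG_le fun p a d g hg => mem_of_twoS (H (IsE_mem_EG hg))
    ((CharP.char_is_prime F _).odd_of_ne_two (ringChar_ne_two h2)).pow (hg.pow_char (ringChar F)))) h2 h₁.ε
    (N := fun v => Φ₁.B v v = Φ₁.B t t) (fun v hv => ?_) (exists_norm_notMem h2 h₁ t0) (.inl h6)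
    (fun b _ _ => hex_of_not_dvd (Nat.not_dvd_of_pos_of_lt finrank_pos hlt) _) (cm d hd (LinearEquiv.ext fun z => ?_))
  · obtain ⟨r', hr'⟩ := h₁.exists_rf (hv ▸ t0)
    exact ⟨hr'.ne, r', hr'.r1 h2, .inr ⟨le (rf_mul_mem h.B h2 hC h₁ hr hr' hv.symm), le (rf_mul_mem h.B h2 hC h₁ hr' hr hv)⟩⟩
  · rw [LinearEquiv.mul_apply, LinearEquiv.mul_apply, lT_rk1 hr.app, lT_rk1 hr.app, map_add, map_smul, e,
      h.cL_fix hd e]

theorem to_lT (h₂ : HD Φ₂) (h3 : 3 ≤ finrank F U) (hm : 2 * finrank F U ≤ finrank F W)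
    (hW : ∀ L : Submodule F W, (∀ x ∈ L, Φ₁.B x x = 0) → 2 * finrank F L ≠ finrank F W) {T : Submodule F W}
    (hT : finrank F T ≤ 2) {g : W ≃ₗ[F] W} (hg : g ∈ mvS T) (hg' : lT U g ∈ X) {c : W ⊗[F] U ≃ₗ[F] W ⊗[F] U} (hc : c ∈ X)
    (H : c⁻¹ * lT U g * c ∈ tstab F W U) :
    (∃ a, c⁻¹ * lT U g * c = lT U a) ∨ g * g = 1 ∧ ∀ v ∈ T, Φ₁.B v v = 0 → v = 0 := by
  have := h.nontriv
  obtain ⟨a, b, e1⟩ := H
  let Y := LinearMap.range (c.symm.toLinearMap ∘ₗ T.subtype.rTensor U)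
  have hY : c⁻¹ * lT U g * c ∈ mvS Y := fun z => by
    obtain ⟨y, e⟩ := lT_mvS hg (c z)
    exact ⟨y, by simp [e]⟩
  have dY : finrank F Y ≤ 2 * finrank F U :=
    (LinearMap.finrank_range_le _).trans (finrank_tensorProduct.trans_le (Nat.mul_le_mul_right _ hT))
  by_cases hk : ∀ k : F, a.toLinearMap ≠ k • 1
  · obtain ⟨p, hp⟩ := exists_notMem_of_not_scalar hk
    obtain ⟨φ, p1, p2⟩ := exists_fun1 (notMem_symm hp (by rintro rfl; simp at hp))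
    exact .inl ((scalar_of_mv e1 hY ![p] ![φ] (by simpa) (by simpa) (by omega)).imp fun _ => And.left)
  obtain ⟨k, hk⟩ := not_forall.1 hk
  replace hk : ∀ w, a w = k • w := LinearMap.congr_fun (not_not.1 hk)
  obtain ⟨w, r, hp⟩ := h.exists_pair₁
  have k0 : k ≠ 0 := by rintro rfl; exact hp.left_ne_zero (by simpa using hk w)
  obtain ⟨b, e2⟩ : ∃ b, c⁻¹ * lT U g * c = TensorProduct.congr (.refl F W) b := ⟨.smulOfNeZero F U k k0 * b,
    LinearEquiv.toLinearMap_injective (TensorProduct.ext' fun w u => (e1 w u).trans (by simp [hk, smul_tmul]))⟩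
  have le : mov (c⁻¹ * lT U g * c) ≤ Y := by
    rintro _ ⟨z, rfl⟩
    exact neg_mem_iff.1 (by convert hY z using 1; exact neg_sub _ _)
  have d1 := finrank_mov_rT (W := W) b
  have d2 := Submodule.finrank_mono le
  rw [← e2] at d1
  rcases e3 : finrank F (mov b) with _ | _ | n <;> rw [e3] at d1
  · refine .inl ⟨1, e2.trans (congrArg _ (LinearEquiv.ext fun u => ?_))⟩
    exact (sub_eq_zero.1 ((Submodule.finrank_eq_zero.1 e3).le (sub_mem_mov b u))).symm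
  swap
  · nlinarith
  obtain ⟨b2, u, u0, e4⟩ := rk1_isom h2 h₂ (fun x y => by
    simpa [e2, h.B, hp.ef] using (h.iso (X.mul_mem (X.mul_mem (X.inv_mem hc) hg') hc)).1 (w ⊗ₜ x) (r ⊗ₜ y)) e3
  refine .inr ⟨LinearEquiv.ext fun x => ?_, fun v hv e => by_contra fun v0 => ?_⟩
  · have : c⁻¹ * lT U (g * g) * c = 1 := by
      rw [show c⁻¹ * lT U (g * g) * c = (c⁻¹ * lT U g * c) * (c⁻¹ * lT U g * c) by rw [lT_mul]; group, e2]
      exact LinearEquiv.toLinearMap_injective (TensorProduct.ext' fun w u => congrArg (w ⊗ₜ ·) (LinearEquiv.congr_fun b2 u))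
    rw [mul_assoc, inv_mul_eq_one, eq_comm, mul_eq_right] at this
    obtain ⟨μ, m⟩ := exists_fun0 (F := F) (show u ≠ 0 by rintro rfl; simp at u0)
    simpa [m] using congrArg (TensorProduct.rid F W ∘ μ.lTensor W) (LinearEquiv.congr_fun this (x ⊗ₜ u))
  obtain ⟨μ, m⟩ := exists_fun0 (F := F) (show u ≠ 0 by rintro rfl; simp at u0)
  let ψ : W ⊗[F] U →ₗ[F] W := (TensorProduct.rid F W).toLinearMap ∘ₗ μ.lTensor W
  have e5 : ∀ z ∈ Y, z = ψ z ⊗ₜ u := by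
    rw [← Submodule.eq_of_le_of_finrank_le le (by omega), e2]
    rintro _ ⟨z, rfl⟩
    induction z with
    | zero => simp
    | tmul x y => obtain ⟨t, e⟩ := e4 y; simp [ψ, e, tmul_add, m, neg_tmul, smul_tmul]
    | add x y a b => rw [map_add, map_add, add_tmul, ← a, ← b]
  have e6 := fun y => e5 _ ⟨⟨v, hv⟩ ⊗ₜ y, rfl⟩
  refine hW (LinearMap.range (ψ ∘ₗ c.symm.toLinearMap ∘ₗ TensorProduct.mk F W U v)) ?_ ?_
  · rintro _ ⟨y, rfl⟩
    have := (h.iso (X.inv_mem hc)).1 (v ⊗ₜ y) (v ⊗ₜ y)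
    erw [e6 y, h.B, h.B, e, zero_mul] at this
    exact (mul_eq_zero.1 this).resolve_right u0
  rw [LinearMap.finrank_range_of_inj fun y y' e => tmul_inj v0 (c.symm.injective ((e6 y).trans
    ((congrArg (· ⊗ₜ u) e).trans (e6 y').symm)))]
  omega

theorem rec2 (hS : ¬ EG Φ ≤ X) (h₁ : HD Φ₁) (hC : CEG Φ) (le : tstab F W U ⊓ EG Φ ≤ X) (h6 : 6 ≤ finrank F W)
    (hlt : finrank F U < finrank F W) {T : Submodule F W} (hT : finrank F T ≤ 2) {g a : W ≃ₗ[F] W} (hg : g ∈ mvS T)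
    (g1 : g ≠ 1) {c : W ⊗[F] U ≃ₗ[F] W ⊗[F] U} (hc : c ∈ X) (H : c⁻¹ * lT U g * c = lT U a) : c ∈ tstab F W U := by
  have := h.nontriv
  obtain ⟨w, hw, b, hb, w0, hs, b1, b0⟩ := exists_eich_data' h2 h₁ (T := Φ₁.perp T)
    (by have := h.nd.finrank_add_finrank_perp T; omega) (by have := h.nd.finrank_add_finrank_perp T; omega)
  obtain ⟨d, E, hE⟩ := exists_isE' h.nd hs b1
  obtain ⟨x, hx⟩ : ∃ x, a x - x ≠ 0 := by
    by_contra! hx
    rw [show a = 1 from LinearEquiv.ext fun x => sub_eq_zero.1 (hx x), show lT U (1 : W ≃ₗ[F] W) = 1 from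
      TensorProduct.congr_refl_refl, mul_assoc, inv_mul_eq_one, eq_comm, mul_eq_right] at H
    obtain ⟨u, u0⟩ := exists_ne (0 : U)
    obtain ⟨μ, m⟩ := exists_fun0 (F := F) u0
    exact g1 (LinearEquiv.ext fun x => by
      simpa [m] using congrArg (TensorProduct.rid F W ∘ μ.lTensor W) (LinearEquiv.congr_fun H (x ⊗ₜ u)))
  have hd := X.mul_mem (X.mul_mem (X.inv_mem hc) (h.l _ _ _ _ hE)) hc
  have f : ∀ u, (c⁻¹ * lT U E * c) ((a x - x) ⊗ₜ u) = (a x - x) ⊗ₜ u := fun u => by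
    obtain ⟨y, e⟩ := lT_mvS hg (c (x ⊗ₜ u))
    have e1 : c ((a x - x) ⊗ₜ u) = T.subtype.rTensor U y := by
      rw [e, sub_tmul, map_sub, sub_left_inj]
      exact (c.symm_apply_eq.1 (LinearEquiv.congr_fun H (x ⊗ₜ u))).symm
    refine c.symm_apply_eq.2 (show lT U E (c _) = _ from ?_)
    rw [e1]
    clear e e1
    induction y with
    | zero => simp
    | tmul t y => exact h.lT_fix hE (hw t t.2) (hb t t.2) y
    | add x y a b => simp only [map_add, a, b]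
  obtain ⟨a', e1⟩ := eq_lT_of_fix ((em (Φ₁.B (a x - x) (a x - x) = 0)).elim (fun e => h.par hS hd ⟨h₁.Q _, e⟩ hx
    fun u => ⟨u, f u⟩) fun e => h.mem_of_rf h2 hS h₁ hC le h6 hlt e hd f) hx f
  have e2 : ∀ x u, c ((a' x - x) ⊗ₜ u) = lT U E (c (x ⊗ₜ u)) - c (x ⊗ₜ u) := fun x u => by
    rw [sub_tmul, map_sub, sub_left_inj]
    exact (c.symm_apply_eq.1 (LinearEquiv.congr_fun e1 (x ⊗ₜ u))).symm
  obtain ⟨x, -, -, e3⟩ := rec0 h.nd (c := c) w0 (neg_ne_zero.2 b0) (α := fun x => a' (a' x - x) - (a' x - x))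
    fun x u => by
    rw [e2, e2, sub_eq_iff_eq_add'.2 ((lT_isE hE (c (x ⊗ₜ u))).trans (add_sub_assoc _ _ _))]
    simp [hE.apply_p, hE.apply_perp b1, add_tmul, h₁.ε, smul_tmul']
  exact inv_mem_iff.1 (h.par hS (X.inv_mem hc) hs w0 e3)

end FX

omit [FiniteDimensional F W] [Finite F] in
theorem eq_zero_of_neg_eq' (h2 : (2 : F) ≠ 0) {x : F} (h : x = -x) : x = 0 :=
  (mul_eq_zero_iff_left h2).1 (by linear_combination h)

omit [FiniteDimensional F W] [Finite F] in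
theorem IsRf.mvS {v : W} {r : W ≃ₗ[F] W} (h : IsRf Φ₁ v r) {T : Submodule F W} (hv : v ∈ T) : r ∈ mvS T := fun x => by
  simpa [h.app] using T.smul_mem _ hv

theorem max_oo2 (hB : ∀ w u w' u', Φ.B (w ⊗ₜ u) (w' ⊗ₜ u') = Φ₁.B w w' * Φ₂.B u u') (h2 : (2 : F) ≠ 0) (h₁ : HD Φ₁)
    (h₂ : HD Φ₂) (ok : UOK Φ₂ (EG Φ₂)) (hU : UEG Φ) (hC : CEG Φ) (h3 : 3 ≤ finrank F U)
    (hm : 2 * finrank F U ≤ finrank F W) (h4 : 4 ≤ finrank F U ∨ ∃ θ : F, θ ≠ 0 ∧ θ * θ ≠ 1)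
    (hW : ∀ L : Submodule F W, (∀ x ∈ L, Φ₁.B x x = 0) → 2 * finrank F L ≠ finrank F W) :
    Geo.IsMaximalIn (EG Φ) (tstab F W U ⊓ EG Φ) := by
  refine isMaximalIn_FX (fx_of hB (.inl h2) h₁.τ h₁.Q h₁.nd (by omega) ok hU (notSp2_of_two h2)) fun X le _ h hS =>
    h.gengine hS fun S e => ?_
  suffices ∃ T ≤ Φ₁.perp S, finrank F T ≤ 2 ∧ ∃ g ∈ Φ₁.isom ⊓ mvS T, lT U g ∈ X ∧ g ≠ 1 ∧
      (g * g = 1 → ∃ v ∈ T, Φ₁.B v v = 0 ∧ v ≠ 0) by
    obtain ⟨T, a, b, g, ⟨g0, g1⟩, g2, g3, g4⟩ := this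
    refine ⟨g, g2, fun x hx => fix_of_mvS h₁.nd g0 g1 fun z hz => a hz x hx, fun c hc H => ?_⟩
    obtain ⟨a, e⟩ | ⟨e, e'⟩ := h.to_lT h2 h₂ h3 hm hW b g1 g2 hc H
    · exact h.rec2 h2 hS h₁ hC le (by omega) (by omega) b g1 g3 hc e
    obtain ⟨v, a, b, d⟩ := g4 e
    exact (d (e' v a b)).elim
  have d := h₁.nd.finrank_add_finrank_perp S
  by_cases hE : ∃ v ∈ Φ₁.perp S, ∃ a ∈ Φ₁.perp S, v ≠ 0 ∧ Φ₁.Sing v ∧ Φ₁.B v a = 0 ∧ a ∉ F ∙ v
  · obtain ⟨v, hv, a, ha, v0, hs, e1, e2⟩ := hE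
    obtain ⟨d, g, hg⟩ := exists_isE' h₁.nd hs e1
    refine ⟨(F ∙ v) ⊔ F ∙ a, by simp [hv, ha], by
      have := finrank_span_one (F := F) v; have := finrank_sup_one (F ∙ v) a; omega, g, ⟨hg.mem_isom, fun x => ?_⟩,
      h.l _ _ _ _ hg, fun e => IsE_sq_ne h₁.nd h2 hg v0 e2 (by simp [e]), fun _ =>
        ⟨v, Submodule.mem_sup_left (Submodule.mem_span_singleton_self _), hs.2, v0⟩⟩
    rw [hg.app, sub_right_comm, add_sub_cancel_left]
    exact sub_mem (Submodule.mem_sup_left (Submodule.smul_mem _ _ (Submodule.mem_span_singleton_self _)))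
      (Submodule.smul_mem _ _ (mem_sup_self _ _))
  push Not at hE
  set T := Φ₁.perp S
  have t2 : finrank F T = 2 := by
    by_contra e
    obtain ⟨v, hv, v0, hs⟩ := exists_sing_notMem Φ₁ (U := T) (R := ⊥) (by simp; omega)
    have := finrank_pf (Φ := Φ₁) ![v] T
    obtain ⟨a, ⟨ha, a1⟩, a0⟩ := exists_notMem_of_lt (U := T ⊓ pf Φ₁ ![v]) (R := F ∙ v) (by
      have := finrank_span_one (F := F) v; omega)
    exact a0 (hE v hv a ha v0 hs (mem_pf.1 a1 0))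
  have hn : (Φ₁.restrict T).Nondeg := Φ₁.restrict_nondeg_iff'.2 fun v hv e => by_contra fun v0 => by
    obtain ⟨a, ha, a0⟩ := exists_notMem_of_lt (U := T) (R := F ∙ v) (by have := finrank_span_one (F := F) v; omega)
    exact a0 (hE v hv a ha v0 ⟨h₁.Q _, e v hv⟩ (e a ha))
  obtain ⟨θ, t0, t1⟩ := h4.resolve_left (by omega)
  obtain ⟨w, w1, w2⟩ := hn.exists_orth_family h2 h₁.ε t2
  obtain ⟨a, ha, b, hb, a0, b0, e1⟩ : ∃ a ∈ T, ∃ b ∈ T, Φ₁.B a a ≠ 0 ∧ Φ₁.B b b ≠ 0 ∧ Φ₁.B a b = 0 :=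
    ⟨_, (w 0).2, _, (w 1).2, w2 0, w2 1, w1 0 1 (by simp)⟩
  have e2 := Φ₁.B_eq_zero_symm e1
  obtain ⟨l, l0, l1, l2⟩ : ∃ l : F, l ≠ 0 ∧ Φ₁.B a a + l * l * Φ₁.B b b ≠ 0 ∧
      (l * l * Φ₁.B b b = Φ₁.B a a → ∃ v ∈ T, Φ₁.B v v = 0 ∧ v ≠ 0) := by
    have s : ∀ l : F, Φ₁.B a a + l * l * Φ₁.B b b = 0 → ∃ v ∈ T, Φ₁.B v v = 0 ∧ v ≠ 0 := fun l e =>
      ⟨a + l • b, add_mem ha (T.smul_mem _ hb), by simp [e1, e2]; linear_combination e, fun e =>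
        a0 (by simpa [e1] using congrArg (Φ₁.B a) e)⟩
    by_cases c1 : Φ₁.B a a + 1 * 1 * Φ₁.B b b = 0
    · exact ⟨θ, t0, fun e => t1 (mul_right_cancel₀ b0 (by linear_combination e - c1)), fun _ => s 1 c1⟩
    by_cases c2 : Φ₁.B a a + θ * θ * Φ₁.B b b = 0
    · exact ⟨1, one_ne_zero, c1, fun _ => s θ c2⟩
    by_cases c3 : 1 * 1 * Φ₁.B b b = Φ₁.B a a
    · exact ⟨θ, t0, c2, fun e => (t1 (mul_right_cancel₀ b0 (e.trans (by rw [← c3, one_mul])))).elim⟩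
    exact ⟨1, one_ne_zero, c1, fun e => (c3 e).elim⟩
  obtain ⟨r, hr⟩ := h₁.exists_rf a0
  have n : Φ₁.B (a + l • b) (a + l • b) = Φ₁.B a a + l * l * Φ₁.B b b := by simp [e1, e2]; ring
  obtain ⟨s, hs⟩ := h₁.exists_rf (n ▸ l1)
  have hr' := hr.conj hs.iso
  have m := add_mem ha (T.smul_mem l hb)
  have m' : s a ∈ T := hs.app a ▸ add_mem ha (T.smul_mem _ m)
  have sb : Φ₁.B b (s a) ≠ 0 := by rw [hs.app, n]; simp [e2, h2, a0, b0, l0, l1]
  refine ⟨T, le_rfl, t2.le, r * (s * r * s⁻¹), ⟨mul_mem hr.iso hr'.iso, mul_mem (hr.mvS ha) (hr'.mvS m')⟩,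
    (lT_mul (U := U) r _).symm ▸ le (rf_mul_mem hB h2 hC h₁ hr hr' (hs.iso.1 _ _).symm), fun e => ?_, fun e => l2 ?_⟩
  · have := congrArg (Φ₁.B b) (LinearEquiv.congr_fun e (s a))
    rw [LinearEquiv.mul_apply, hr'.self, hr.app] at this
    simp [e2] at this
    exact sb ((mul_eq_zero_iff_left h2).1 (by linear_combination -this))
  have e3 : r * (s * r * s⁻¹) = s * r * s⁻¹ * r := by
    rw [← inv_eq_of_mul_eq_one_right e, mul_inv_rev, inv_eq_of_mul_eq_one_right hr.sq, inv_eq_of_mul_eq_one_right hr'.sq]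
  have := congrArg (Φ₁.B b) (LinearEquiv.congr_fun e3 a)
  rw [LinearEquiv.mul_apply, LinearEquiv.mul_apply _ r, hr.self, map_neg, hr'.app, hr.app] at this
  simp [e2] at this
  have e4 : Φ₁.B (s a) a = 0 := by simpa [h2, sb, hr'.ne] using eq_zero_of_neg_eq' h2 this
  rw [hs.app, n] at e4
  simp [e2] at e4
  generalize l * l = k at *
  field_simp at e4
  exact mul_left_cancel₀ a0 (by linear_combination e4)

omit [Finite F] in
theorem isMaximalIn_tensor_oo_minus {ι : Type} [Fintype ι] [DecidableEq ι] [Fintype F] (h2 : (2 : F) ≠ 0)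
    {Q : QuadraticForm F (ι → F)} (hQ : (Formed.ofQuad Q).Nondeg) {k m : ℕ} (hk : 3 ≤ k) (ho : Odd k) (hm : 4 ≤ m)
    (he : Even m) (hn : 13 ≤ k * m) (hex : ¬ (Fintype.card F = 3 ∧ k = 3))
    {e : ι ≃ Fin k × Fin m} {P : GL ι F} {f₁ : (Fin k → F) → (Fin k → F) → F} {f₂ : (Fin m → F) → (Fin m → F) → F}
    (hf₁ : Geo.IsSymmetricForm f₁) (hf₂ : Geo.IsSymmetricForm f₂) (hmin : ¬ Geo.IsPlusTypeOn (fun v => f₂ v v) ⊤)
    (hT : Geo.IsTensorFormStructure id (QuadraticMap.polar Q) f₁ f₂ e P) :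
    Geo.IsMaximalIn (Geo.omegaGL Q) (Geo.tensorProductSubgroup k m e P ⊓ Geo.omegaGL Q) := by
  obtain ⟨c, hc, e1⟩ := tensor_eq (σ := RingHom.id F) hT (formOfGram_bilin hf₁.bilinear) (formOfGram_bilin hf₂.bilinear)
  obtain ⟨Φ₁, a1, a2⟩ := exists_symm' h2 hf₂ hc
  obtain ⟨Φ₂, b1, b2⟩ := exists_symm' h2 hf₁ one_ne_zero
  have hn : 5 ≤ Fintype.card ι := by rw [Fintype.card_congr e]; simp; omega
  have h3 : 4 ≤ k ∨ ∃ θ : F, θ ≠ 0 ∧ θ * θ ≠ 1 := or_iff_not_imp_left.2 fun h => exists_sq_ne_one h2 (by omega)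
  have := Nat.odd_iff.1 ho
  have := Nat.even_iff.1 he
  have hW : ∀ L : Submodule F (Fin m → F), (∀ x ∈ L, Φ₁.B x x = 0) → 2 * finrank F L ≠ finrank F (Fin m → F) :=
    fun L a b => hmin ⟨L, le_top, fun x hx => by simpa [a2, hc] using a x hx, by simpa using b⟩
  refine isMaximalIn_tensorF (fun g => mem_omegaGL hQ hn) ?_
  have hB : ∀ w u w' u', ((Formed.ofQuad Q).comap ((kE F _ _).trans (Asch.tv e P)).toLinearMap).B (w ⊗ₜ u) (w' ⊗ₜ u') =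
      Φ₁.B w w' * Φ₂.B u u' := fun w u w' u' => by rw [a2, b2, one_mul]; exact e1 w u w' u'
  by_cases hd : 2 * k ≤ m
  · exact max_oo2 hB h2 a1 b1 (uok_O b1.nd b1.ε h2 (by simpa) (by simpa using h3) (.inl (by simp; omega)))
      ((ueg_quad hQ (by simpa)).comap _) ((ceg_quad hQ (by simpa)).comap _) (by simpa) (by simpa) (by simpa using h3) hW
  have h5 : 5 ≤ k := by
    by_contra
    obtain rfl : k = 3 := by omega
    omega
  refine isMaximalIn_comm (max_oo (Φ₁ := Φ₂) (Φ₂ := Φ₁) (fun w u w' u' => by simp [hB, mul_comm]) h2 b1 a1.ε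
    (uok_O a1.nd a1.ε h2 (by simp; omega) (.inl (by simpa)) (or_iff_not_imp_left.2 fun h4 u y hu u0 e hy e' => ?_))
    (((ueg_quad hQ (by simpa)).comap _).comap _) (((oeg_quad hQ (by simpa) h2).comap _).comap _) (by simpa) (by simpa)
    (.inr (.inl (by simpa))) ?_)
  · refine hW ((F ∙ u) ⊔ F ∙ y) (fun x hx => ?_) ?_
    · obtain ⟨_, ha, _, hb, rfl⟩ := Submodule.mem_sup.1 hx
      obtain ⟨s, rfl⟩ := Submodule.mem_span_singleton.1 ha
      obtain ⟨t, rfl⟩ := Submodule.mem_span_singleton.1 hb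
      simp [hu.2, e, e', Φ₁.B_eq_zero_symm e]
    have := Submodule.finrank_lt_finrank_of_lt (show F ∙ u < (F ∙ u) ⊔ F ∙ y from lt_of_le_of_ne le_sup_left fun e =>
      hy (e ▸ mem_sup_self _ _))
    have := finrank_sup_one (F ∙ u) y
    rw [finrank_span_singleton u0] at *
    omega
  simp only [finrank_fin_fun]
  rintro ⟨d, rfl⟩
  rcases d with _ | _ | d
  · omega
  · omega
  · exact hd (by nlinarith)

end Cfsg.Agent.Root.Mx
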