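import Cfsg.Agent.Root.Ten8
import Cfsg.Agent.Root.Dec5

/-! Norm one elements of a finite field with an involution (`sum3`, `ph_norm`), quasi-reflections (`IsQ`), and the
maximality in `SU` of the stabiliser of an orthogonal decomposition into at least three blocks of dimension at least
two (`ODec.isMaximalIn_herm`). -/

set_option autoImplicit false

namespace Cfsg.Agent.Root.Mx

open Cfsg.Agent.Geom Cfsg.Agent.AutCl Module Finset

variable {F : Type*} [Field F] {σ : F →+* F}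

theorem ph_two {α β : Type*} [DecidableEq β] {A B : Finset α} {T : Finset β} {f g : α → β} (hf : ∀ a ∈ A, f a ∈ T)
    (hg : ∀ a ∈ B, g a ∈ T) (h1 : ∀ v, #{a ∈ A | f a = v} ≤ 2) (h2 : ∀ v, #{a ∈ B | g a = v} ≤ 2)
    (h : 2 * #T < #A + #B) : ∃ a ∈ A, ∃ b ∈ B, f a = g b := by
  by_contra! hc
  have a1 := card_le_mul_card_image A 2 fun v _ => h1 v
  have a2 := card_le_mul_card_image B 2 fun v _ => h2 v
  have a3 := card_le_card (union_subset (image_subset_iff.2 hf) (image_subset_iff.2 hg))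
  rw [card_union_of_disjoint (disjoint_left.2 fun v a b => by
    obtain ⟨x, hx, rfl⟩ := mem_image.1 a
    obtain ⟨y, hy, e⟩ := mem_image.1 b
    exact hc x hx y hy e.symm)] at a3
  omega

theorem nrm_ne {x : F} (h : x ≠ 0) : x * σ x ≠ 0 := by simpa

theorem nrm_fix (hσσ : ∀ a, σ (σ a) = a) (x : F) : σ (x * σ x) = x * σ x := by rw [map_mul, hσσ, mul_comm]

section Mu
variable [Fintype F] [DecidableEq F] (hσ : σ ≠ RingHom.id F) (hσσ : ∀ a, σ (σ a) = a)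

theorem fib_norm (hσσ : ∀ a, σ (σ a) = a) {a b : F} (ha : a ≠ 0) (hb : b ≠ 0) (A : Finset F) (hA : ∀ τ ∈ A, τ * σ τ = 1)
    {γ : Type*} [DecidableEq γ] {φ : F → γ} (hφ : φ.Injective) (v : γ) :
    #{τ ∈ A | φ ((a + b * τ) * σ (a + b * τ)) = v} ≤ 2 := by
  by_cases hv : ∃ w, φ w = v
  swap
  · rw [filter_eq_empty_iff.2 fun τ _ e => hv ⟨_, e⟩]; simp
  obtain ⟨w, rfl⟩ := hv
  obtain ⟨r, s, H⟩ := quad_roots (a := b * σ a) (b := a * σ a + b * σ b - w) (c := a * σ b) (.inl (by simp [ha, hb]))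
  refine (card_le_card (t := {r, s}) fun τ hτ => ?_).trans card_le_two
  simp only [mem_filter, hφ.eq_iff, map_add, map_mul] at hτ
  simpa using H τ (by linear_combination τ * hτ.2 - (a * σ b + τ * b * σ b) * hA τ hτ.1)

include hσ hσσ

theorem card_mu : #{x : F | σ x = x} + 1 ≤ #{x : F | x * σ x = 1} := by
  obtain ⟨z, hz⟩ := DFunLike.ne_iff.1 hσ
  have a1 := card_le_card_of_injOn (s := ({x : F | σ x = x} : Finset F) ×ˢ ({x : F | σ x = x} : Finset F)) (t := univ)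
    (fun p => p.1 + p.2 * z) (fun _ _ => by simp) fun p hp p' hp' e => by
      simp only [coe_product, coe_filter, mem_univ, true_and, Set.mem_prod, Set.mem_ofPred_eq] at hp hp' e
      have e' := congrArg σ e
      simp only [map_add, map_mul, hp, hp'] at e'
      have : p.2 = p'.2 := mul_right_cancel₀ (sub_ne_zero.2 hz) (by simp only [RingHom.id_apply]; linear_combination e' - e)
      exact Prod.ext (by simpa [this] using e) this
  have a2 := card_le_mul_card_image_of_maps_to (s := univ.erase (0 : F)) (t := ({x : F | σ x = x} : Finset F).erase 0)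
    (f := fun x => x * σ x) (fun x hx => by simpa [hσσ, mul_comm] using hx) #{x : F | x * σ x = 1} fun v hv => by
      obtain ⟨c, hc⟩ := exists_norm_eq hσ hσσ (a := v) (by simpa using (mem_erase.1 hv).2)
      have c0 : c ≠ 0 := by rintro rfl; simp [← hc] at hv
      refine card_le_card_of_injOn (· / c) (fun x hx => ?_) fun x _ y _ e => by simpa [c0] using e
      simp only [coe_filter, mem_erase, Set.mem_ofPred_eq, mem_univ, true_and] at hx ⊢
      rw [map_div₀, div_mul_div_comm, hx.2, mul_comm, hc, div_self (mem_erase.1 hv).1]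
  have a3 : 2 ≤ #{x : F | σ x = x} := one_lt_card.2 ⟨0, by simp, 1, by simp, zero_ne_one⟩
  rw [card_erase_of_mem (by simp), card_erase_of_mem (by simp)] at a2
  rw [card_product] at a1
  obtain ⟨q, hq⟩ := Nat.exists_eq_add_of_le' a3
  rw [hq] at a1 a2 ⊢
  by_contra! h
  have := a2.trans (Nat.mul_le_mul_right _ (Nat.le_of_lt_succ h))
  have : 1 ≤ #(univ : Finset F) := by nlinarith
  simp only [show q + 2 - 1 = q + 1 from rfl] at *
  have : #(univ : Finset F) ≤ (q + 2) * (q + 1) + 1 := by omega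
  nlinarith

end Mu

section
variable [Finite F] (hσ : σ ≠ RingHom.id F) (hσσ : ∀ a, σ (σ a) = a)
include hσ hσσ

theorem exists_mu : ∃ η : F, η * σ η = 1 ∧ σ η ≠ η := by
  classical
  have := Fintype.ofFinite F
  by_contra! hc
  have := card_mu hσ hσσ
  have := card_le_card (s := ({x : F | x * σ x = 1} : Finset F)) (t := {x : F | σ x = x}) fun x hx => by
    simpa using hc x (by simpa using hx)
  omega

/-- Sums of three multiples of norm one elements. -/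
theorem sum3 {a b c z : F} (ha : a ≠ 0) (hb : b ≠ 0) (hc : c ≠ 0) (hz : z ≠ 0) :
    ∃ x y w : F, x * σ x = 1 ∧ y * σ y = 1 ∧ w * σ w = 1 ∧ x * a + y * b + w * c = z := by
  classical
  have := Fintype.ofFinite F
  obtain ⟨τ, h1, w, h2, e⟩ := ph_two (T := {x : F | σ x = x}) (A := {x : F | x * σ x = 1}) (B := {x : F | x * σ x = 1})
    (fun _ _ => by simp [hσσ, mul_comm]) (fun _ _ => by simp [hσσ, mul_comm])
    (fib_norm hσσ ha hb _ (by simp) Function.injective_id) (fib_norm hσσ hz (neg_ne_zero.2 hc) _ (by simp) Function.injective_id)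
    (by have := card_mu hσ hσσ; omega)
  simp only [mem_filter, mem_univ, true_and, id] at h1 h2 e
  by_cases h0 : a + b * τ = 0
  · refine ⟨1, τ, w, by simp, h1, h2, ?_⟩
    have : z + -c * w = 0 := by_contra fun h => nrm_ne h (by rw [← e, h0, zero_mul])
    linear_combination h0 - this
  refine ⟨(z + -c * w) / (a + b * τ), (z + -c * w) / (a + b * τ) * τ, w, ?_, ?_, h2, by field_simp; ring⟩
  · rw [map_div₀, div_mul_div_comm, ← e, div_self (nrm_ne h0)]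
  · rw [map_mul, mul_mul_mul_comm, h1, map_div₀, div_mul_div_comm, ← e, div_self (nrm_ne h0), mul_one]

theorem mem_of_mu (A : AddSubgroup F) (h : ∀ η, η * σ η = 1 → η ∈ A) (z : F) : z ∈ A := by
  rcases eq_or_ne z 0 with rfl | hz
  · exact zero_mem _
  obtain ⟨x, y, w, a, b, c, e⟩ := sum3 hσ hσσ one_ne_zero one_ne_zero one_ne_zero hz
  simpa [← e] using add_mem (add_mem (h x a) (h y b)) (h w c)

/-- The pigeonhole principle for non-zero norms. -/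
theorem ph_norm {a b a' b' : F} (ha : a ≠ 0) (hb : b ≠ 0) (ha' : a' ≠ 0) (hb' : b' ≠ 0) {φ ψ : F → F} (hφ : φ.Injective)
    (hψ : ψ.Injective) (h1 : ∀ x ≠ 0, σ x = x → φ x ≠ 0 ∧ σ (φ x) = φ x) (h2 : ∀ x ≠ 0, σ x = x → ψ x ≠ 0 ∧ σ (ψ x) = ψ x) :
    ∃ x y : F, x * σ x = 1 ∧ y * σ y = 1 ∧ a + b * x ≠ 0 ∧ a' + b' * y ≠ 0 ∧
      φ ((a + b * x) * σ (a + b * x)) = ψ ((a' + b' * y) * σ (a' + b' * y)) := by
  classical
  have := Fintype.ofFinite F
  have s : ∀ {a b x : F}, b ≠ 0 → x ≠ -a / b → a + b * x ≠ 0 := fun {a b x} hb h e => h (by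
    field_simp; linear_combination e)
  obtain ⟨x, a1, y, a2, e⟩ := ph_two (T := ({x : F | σ x = x} : Finset F).erase 0)
    (A := ({x : F | x * σ x = 1} : Finset F).erase (-a / b)) (B := ({x : F | x * σ x = 1} : Finset F).erase (-a' / b'))
    (fun x hx => by simpa using h1 _ (nrm_ne (s hb (mem_erase.1 hx).1)) (nrm_fix hσσ _))
    (fun x hx => by simpa using h2 _ (nrm_ne (s hb' (mem_erase.1 hx).1)) (nrm_fix hσσ _))
    (fib_norm hσσ ha hb _ (by simp) hφ) (fib_norm hσσ ha' hb' _ (by simp) hψ) (by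
      have := card_mu hσ hσσ
      have := pred_card_le_card_erase (s := ({x : F | x * σ x = 1} : Finset F)) (a := -a / b)
      have := pred_card_le_card_erase (s := ({x : F | x * σ x = 1} : Finset F)) (a := -a' / b')
      have : 0 < #{x : F | σ x = x} := card_pos.2 ⟨0, by simp⟩
      rw [card_erase_of_mem (by simp)]; omega)
  simp only [mem_erase, mem_filter, mem_univ, true_and] at a1 a2
  exact ⟨x, y, a1.2, a2.2, s hb a1.1, s hb' a2.1, e⟩

end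

variable {V : Type*} [AddCommGroup V] [Module F V] {Φ : Formed σ V}

/-- `g` is the quasi-reflection `x ↦ x + c B(a,x) a`. -/
structure IsQ (Φ : Formed σ V) (a : V) (c : F) (g : V ≃ₗ[F] V) : Prop where
  iso : g ∈ Φ.isom
  det : LinearMap.det (g : V →ₗ[F] V) = 1 + c * Φ.B a a
  app : ∀ x, g x = x + (c * Φ.B a x) • a

namespace IsQ
variable {a : V} {c : F} {g : V ≃ₗ[F] V} (h : IsQ Φ a c g)
include h

theorem perp {x : V} (e : Φ.B a x = 0) : g x = x := by simp [h.app, e]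

theorem ext {g' : V ≃ₗ[F] V} (h' : IsQ Φ a c g') : g = g' := LinearEquiv.ext fun x => by rw [h.app, h'.app]

theorem conj {s : V ≃ₗ[F] V} (hs : s ∈ Φ.isom) : IsQ Φ (s a) c (s * g * s⁻¹) :=
  ⟨mul_mem (mul_mem hs h.iso) (inv_mem hs), by rw [hs.1, ← h.det]; exact LinearMap.det_conj _ s, fun x => by
    obtain ⟨x, rfl⟩ := s.surjective x
    simp [h.app, hs.1]⟩

theorem smul {ζ : F} (hζ : ζ * σ ζ = 1) : IsQ Φ (ζ • a) c g :=
  ⟨h.iso, by rw [h.det]; simp; left; linear_combination -Φ.B a a * hζ, fun x => by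
    rw [h.app, smul_smul]; simp; congr 1; linear_combination -c * Φ.B a x * hζ⟩

end IsQ

/-- A unitary space with the description of its Eichler group. -/
structure HU (Φ : Formed σ V) : Prop extends HD Φ where
  ne : σ ≠ RingHom.id F
  seg : SEG Φ
  adj : ∀ U, (Φ.restrict U).Nondeg → 1 ≤ finrank F U → Adj Φ U

theorem HD.symm (h : HD Φ) (x y : V) : σ (Φ.B x y) = Φ.B y x := by rw [Φ.symm x y, h.ε, one_mul]

variable [FiniteDimensional F V]

theorem HD.exists_isQ (h : HD Φ) {a : V} {c : F} (hc : σ c + c + σ c * c * Φ.B a a = 0) : ∃ g, IsQ Φ a c g :=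
  ⟨Formed.qrefl h.nd a c (by simpa [h.ε]), Formed.qrefl_mem _ _ _ _ (by simp [h.τ, h.Q]), Formed.det_qrefl _ _ _ _,
    fun _ => rfl⟩

theorem HD.exists_mv (h : HD Φ) {p v : V} (e : Φ.B (p + v) (p + v) = Φ.B p p) (h0 : Φ.B v p ≠ 0) :
    ∃ c g, IsQ Φ v c g ∧ g p = p + v := by
  obtain ⟨g, hg⟩ := h.exists_isQ (a := v) (c := (Φ.B v p)⁻¹) (by
    have := h.symm v p ▸ (map_ne_zero σ).2 h0
    simp only [map_add, LinearMap.add_apply] at e
    rw [map_inv₀, h.symm]; field_simp; linear_combination e)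
  exact ⟨_, g, hg, by simp [hg.app, h0]⟩

theorem HU.exists_unit [Finite F] (h : HU Φ) {W : Submodule F V} (hW : (Φ.restrict W).Nondeg) (h1 : 1 ≤ finrank F W) :
    ∃ b ∈ W, Φ.B b b = 1 := by
  obtain ⟨b, hb⟩ := hW.exists_orthonormal h.ne h.ε rfl
  exact ⟨_, (b ⟨0, h1⟩).2, by simpa using hb ⟨0, h1⟩ ⟨0, h1⟩⟩

variable {t k : ℕ} {D : Fin t → Submodule F V} {X : Subgroup (V ≃ₗ[F] V)}

theorem ODec.isQ_mem (h : ODec Φ k D) {j : Fin t} {a : V} {c : F} {g : V ≃ₗ[F] V} (hg : IsQ Φ a c g) (ha : a ∈ D j) :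
    g ∈ dstab D := h.mem_dstab_of_fix hg.iso fun _ hv => hg.perp (hv a ha)

theorem ODec.mv (h : ODec Φ k D) (hu : HD Φ) {j : Fin t} {p v : V} (hv : v ∈ D j)
    (e : Φ.B (p + v) (p + v) = Φ.B p p) (h0 : Φ.B v p = 0 → v = 0) :
    ∃ s ∈ dstab D ⊓ Φ.isom, s p = p + v ∧ ∀ x ∈ Φ.perp (D j), s x = x := by
  by_cases e1 : Φ.B v p = 0
  · exact ⟨1, one_mem _, by simp [h0 e1], fun _ _ => rfl⟩
  obtain ⟨c, g, hg, e2⟩ := hu.exists_mv e e1
  exact ⟨g, ⟨h.isQ_mem hg hv, hg.iso⟩, e2, fun x hx => hg.perp (hx v hv)⟩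

theorem ODec.adjust (h : ODec Φ k D) (hu : HU Φ) {s : V ≃ₗ[F] V} (hs : s ∈ dstab D ⊓ Φ.isom) {l : Fin t} {w : V}
    (hw : w ∈ D l) (w0 : Φ.B w w ≠ 0) : ∃ s' ∈ dstab D ⊓ EG Φ, ∀ v, Φ.B w (s v) = 0 → s' v = s v := by
  obtain ⟨r, a, b, c⟩ := hu.adj _ (Φ.nondeg_span_singleton w0) (finrank_span_singleton (by rintro rfl; simp at w0)).ge s hs.2
  exact ⟨r * s, ⟨mul_mem (h.mem_dstab_of_fix (i := l) a fun v hv => b v (Φ.mem_perp_span_singleton.2 (hv w hw))) hs.1, c⟩,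
    fun v e => b _ (Φ.mem_perp_span_singleton.2 e)⟩

/-- An overgroup of the stabiliser of an orthogonal decomposition of a unitary space. -/
structure UX (Φ : Formed σ V) {t : ℕ} (k : ℕ) (D : Fin t → Submodule F V) (X : Subgroup (V ≃ₗ[F] V)) : Prop
    extends ODec Φ k D where
  hu : HU Φ
  two : 2 ≤ k
  three : 3 ≤ t
  le : dstab D ⊓ EG Φ ≤ X
  le' : X ≤ EG Φ

variable [Finite F]

theorem ODec.pair_herm (h : ODec Φ k D) (hu : HU Φ) (h2 : 2 ≤ k) (i : Fin t) : ∃ a ∈ D i, ∃ b ∈ D i, Φ.IsPair a b :=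
  let ⟨a, ha, a0, hs⟩ := exists_sing_herm hu.ne hu.ε hu.Q (T := D i) (by rwa [h.rk])
  ⟨a, ha, exists_pair_mem h.hn (h.nd i) ha a0 hs⟩

theorem ODec.sw_herm (h : ODec Φ k D) (hu : HU Φ) : Sw Φ D :=
  h.sw (fun i => hu.adj _ (h.nd i) (by rw [h.rk]; exact h.pos)) fun i j =>
    exists_isIso_herm hu.ne (h.nd i) (h.nd j) hu.ε hu.ε (by rw [h.rk, h.rk])

namespace UX
variable (h : UX Φ k D X)
include h

theorem irr {i j : Fin t} (hj : j ≠ i) {x a : V} (hx : x ∈ D i) (hs : Φ.Sing x) (ha : a ∈ AE Φ X hs)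
    (hy : ∃ y ∈ D j, Φ.B y a ≠ 0) : ∀ w ∈ D j, w ∈ AE Φ X hs := by
  obtain ⟨e, he, f, hf, hp⟩ := h.pair_herm h.hu h.two j
  obtain ⟨y, hy, ys, y1⟩ : ∃ y ∈ D j, Φ.Sing y ∧ Φ.B y a ≠ 0 := by
    by_contra! hc
    obtain ⟨y, hy, e⟩ := hy
    exact e (sing_ind he hf hp (LinearMap.ker (Φ.B.flip a)).toAddSubgroup hc y hy)
  obtain ⟨d, hd⟩ := exists_TP h.hu.ne h.hu.τ h.hu.ε
  obtain ⟨g, hg⟩ := isE_T h.hn ys hd
  have z1 := sub_mem ha (map_mem_AE (h.inE h.le j y hy 0 (zero_mem _) _ _ hg) hg.mem_isom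
    (by simp [hg.app, h.orth j i hj y hy x hx]) ha)
  simp only [hg.app, map_zero, LinearMap.zero_apply, zero_sub, smul_zero, sub_zero, neg_smul, ← sub_eq_add_neg,
    sub_sub_cancel] at z1
  obtain ⟨l, hl⟩ := exists_out_list [i, j] (by have := h.three; simp; omega)
  simp only [List.mem_cons, List.not_mem_nil, or_false, not_or] at hl
  obtain ⟨w, hw, w1⟩ := h.hu.exists_unit (h.nd l) (by rw [h.rk]; exact h.pos)
  have step : ∀ z ∈ D j, ∀ z' ∈ D j, Φ.Sing z → Φ.Sing z' → Φ.B z' z ≠ 0 → z ∈ AE Φ X hs → z' ∈ AE Φ X hs :=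
    fun z hz z' hz' a b c d => by
      obtain ⟨s, s1, s2, s3⟩ := h.mv h.hu.toHD (p := z) (sub_mem hz' hz) (by simp [a.2, b.2]) fun e => by simp [a.2, c] at e
      obtain ⟨s', s4, s5⟩ := h.adjust h.hu s1 hw (by simp [w1])
      have e1 := s3 x fun y hy => h.orth j i hj y hy x hx
      rw [add_sub_cancel] at s2
      simpa [s5 z (s2 ▸ h.orth l j hl.2 w hw z' hz'), s2] using map_mem_AE (h.le s4) (EG_le_isom s4.2)
        ((s5 x (e1.symm ▸ h.orth l i hl.1 w hw x hx)).trans e1) d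
  have m := (D j).smul_mem (d * Φ.B y a) hy
  have ms : Φ.Sing ((d * Φ.B y a) • y) := ⟨h.hu.Q _, by simp [ys.2]⟩
  refine sing_ind he hf hp _ fun z hz zs => ?_
  rcases eq_or_ne z 0 with rfl | z0
  · exact zero_mem _
  by_cases e : Φ.B z ((d * Φ.B y a) • y) = 0
  · obtain ⟨u, hu, us, u1, u2⟩ := exists_sing_both h.hn (h.nd j) m (smul_ne_zero (mul_ne_zero hd.1 y1)
      (by rintro rfl; simp at y1)) ms hz z0 e
    exact step u hu z hz us zs u2 (step _ m u hu ms us (fun e => u1 (Φ.B_eq_zero_symm e)) z1)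
  · exact step _ m z hz ms zs e z1

theorem full {i : Fin t} {x a : V} {d : F} (hx : x ∈ D i) (ha : HasE Φ X x a d) (hi : a ∉ D i) : Full Φ X x := by
  have h1 : ∀ y ∈ D i, Φ.B x y = 0 → y ∈ AE Φ X ha.sp := fun y hy e => (h.inE h.le i).hasE h.hn hx hy ha.sp e
  obtain ⟨j, hj, hy⟩ := h.exists_ne_perp hi
  have h2 := h.irr hj hx ha.sp ⟨d, ha⟩ hy
  refine full_of_AE ha.sp (fun b hb => ?_) fun d g hg => h.inE h.le i x hx 0 (zero_mem _) d g hg
  obtain ⟨w, hw, e⟩ := exists_prj h.hn (h.nd i) b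
  have := h.perp_ind (AE Φ X ha.sp) (i := i) (fun l hl y hy => by
    obtain ⟨s, hs, s1, s2⟩ := h.sw_herm h.hu i l j hl hj
    simpa using map_mem_AE (inv_mem (h.le hs)) (inv_mem (EG_le_isom hs.2))
      ((LinearEquiv.symm_apply_eq s).2 (s1 x hx).symm) (h2 _ (s2 y hy)))
    (v := b - w) fun y hy => by rw [map_sub, e y hy, sub_self]
  simpa using add_mem this (h1 w hw ((e x hx).trans hb))

theorem win {i : Fin t} {x a : V} {d : F} (hx : x ∈ D i) (hx0 : x ≠ 0) (ha : HasE Φ X x a d) (hi : a ∉ D i) :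
    EG Φ ≤ X := by
  have step : ∀ {i j : Fin t} {x z : V}, i ≠ j → x ∈ D i → x ≠ 0 → z ∈ D j → Φ.Sing z → Full Φ X x →
      Full Φ X z := fun {i j x z} hij hx hx0 hz hs hf =>
    h.full hz (hf.hasE h.hn (h.orth i j hij x hx z hz) (by simp [hs.1]) (by simp [hs.2])).swap
      fun e => hx0 (h.eq_zero hij hx (by simpa [(D j).smul_mem_iff Φ.ε_ne_zero] using e))
  obtain ⟨j, hj, -⟩ := h.exists_ne_perp hi
  obtain ⟨z, hz, _, -, hzr⟩ := h.pair_herm h.hu h.two j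
  obtain ⟨r, hr, hxr⟩ := exists_pair_mem h.hn (h.nd i) hx hx0 ha.sp
  have := h.full hx ha hi
  exact EG_le_of_full h.hn this (step hj hz hzr.left_ne_zero hr hxr.sf
    (step hj.symm hx hx0 hz hzr.se this)) (by simp [hxr.ef])

theorem win_tv {j : Fin t} {p x : V} {d : F} (hd : d ≠ 0) (hp : HasE Φ X p 0 d) (hj : p ∉ D j) (hx : x ∈ D j)
    (hx0 : x ≠ 0) (hs : Φ.Sing x) (e : Φ.B x p = 0) {s : V ≃ₗ[F] V} (h1 : s ∈ X) (h2 : s p = x + p) : EG Φ ≤ X := by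
  obtain ⟨g, hg⟩ := exists_isE h.hn hs (map_zero _) hp.hQ hp.hB
  have h3 := hp.conj h1 (EG_le_isom (h.le' h1))
  rw [h2, map_zero] at h3
  exact h.win hx hx0 (h3.of_tv ⟨g, h.inE h.le j x hx 0 (zero_mem _) d g hg, hg⟩ hp e)
    (by rwa [(D j).smul_mem_iff (mul_ne_zero Φ.ε_ne_zero hd)])

theorem mem_dstab' {g : V ≃ₗ[F] V} (hg : g ∈ Φ.isom) (hD : ∀ i, ∀ x ∈ D i, x ≠ 0 → Φ.Sing x → ∃ j, g x ∈ D j) :
    g ∈ dstab D := by
  refine h.mem_dstab fun i => ?_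
  obtain ⟨a, ha, b, hb, hab⟩ := h.pair_herm h.hu h.two i
  obtain ⟨j, hj⟩ := hD i a ha hab.left_ne_zero hab.se
  have opp : ∀ x ∈ D i, ∀ y ∈ D i, Φ.Sing y → Φ.B x y ≠ 0 → g x ∈ D j → g y ∈ D j := by
    intro x hx y hy hs e h1
    obtain ⟨l, hl⟩ := hD i y hy (by rintro rfl; simp at e) hs
    by_contra hc
    exact e ((hg.1 x y).symm.trans (h.orth j l (by rintro rfl; exact hc hl) _ h1 _ hl))
  refine ⟨j, sing_ind ha hb hab ((D j).comap (g : V →ₗ[F] V)).toAddSubgroup fun x hx hs => ?_⟩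
  rcases eq_or_ne x 0 with rfl | hx0
  · exact zero_mem _
  by_cases e : Φ.B x a = 0
  · obtain ⟨w, hw, hws, h1, h2⟩ := exists_sing_both h.hn (h.nd i) ha hab.left_ne_zero hab.se hx hx0 e
    exact opp w hw x hx hs (fun e => h2 (Φ.B_eq_zero_symm e)) (opp a ha w hw hws h1 hj)
  · exact opp a ha x hx hs (fun e' => e (Φ.B_eq_zero_symm e')) hj

/-- A transvection whose centre has a singular component. -/
theorem tvA (hq : 3 ≤ k ∨ ∃ θ : F, θ ≠ 0 ∧ θ ≠ 1 ∧ σ θ = θ) {j : Fin t} {p y : V} {d : F} (hd : d ≠ 0)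
    (hp : HasE Φ X p 0 d) (hj : p ∉ D j) (hy : y ∈ D j) (y0 : y ≠ 0) (ys : Φ.B y y = 0)
    (e : ∀ v ∈ D j, Φ.B v y = Φ.B v p) : EG Φ ≤ X := by
  obtain ⟨f, hf, hp'⟩ := exists_pair_mem h.hn (h.nd j) hy y0 ⟨h.hu.Q _, ys⟩
  have e1 : Φ.B y p = 0 := (e y hy).symm.trans ys
  have m : ∀ c, (hp'.torus c).1 ∈ dstab D ⊓ Φ.isom := fun c => ⟨h.mem_dstab_of_fix (i := j) (hp'.torus _).2
    fun v hv => hp'.torus_perp _ ((Formed.mem_pairPerp _).2 ⟨hv y hy, hv f hf⟩), (hp'.torus _).2⟩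
  have ap : ∀ c : Fˣ, (hp'.torus c).1 p = ((c : F) - 1) • y + p := fun c => by
    rw [hp'.torus_apply, e1, ← e f hf, hp'.fe, mul_assoc, Formed.εε]; simp [add_comm]
  obtain ⟨c, c1, s, s1, s2⟩ : ∃ c : F, c ≠ 1 ∧ ∃ s ∈ dstab D ⊓ EG Φ, s p = (c - 1) • y + p := by
    rcases hq with h3 | ⟨θ, t0, t1, t2⟩
    · obtain ⟨η, a, b⟩ := exists_mu h.hu.ne Φ.σσ
      have n := nondeg_plane ys (r := f) (by simp [hp'.ef])
      have le : (F ∙ y) ⊔ (F ∙ f) ≤ D j := by simp [hy, hf]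
      obtain ⟨w, hw, w1⟩ := h.hu.exists_unit (nondeg_inf_perp h.hn (h.nd j) n le) (by
        have := finrank_inf_perp h.hn (h.nd j) le
        have := finrank_sup_one (F ∙ y) f
        have := finrank_span_one (F := F) y
        rw [h.rk] at *; omega)
      obtain ⟨s, s1, s2⟩ := h.adjust h.hu (m (.mk0 η (left_ne_zero_of_mul_eq_one a))) hw.1 (by simp [w1])
      have := Φ.B_eq_zero_symm (hw.2 y (Submodule.mem_sup_left (Submodule.mem_span_singleton_self _)))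
      exact ⟨η, by rintro rfl; simp at b, s, s1, (s2 p (by simp [ap, ← e w hw.1, this])).trans (ap _)⟩
    · exact ⟨θ, t1, _, ⟨(m (.mk0 θ t0)).1, h.hu.seg ⟨(m _).2, mem_SLg.2 (by simp [hp'.det_torus, t2, t0])⟩⟩, ap _⟩
  exact h.win_tv hd hp hj ((D j).smul_mem _ hy) (smul_ne_zero (sub_ne_zero.2 c1) y0) ⟨h.hu.Q _, by simp [ys]⟩
    (by simp [e1]) (h.le s1) s2

theorem exists_perp_norm {j : Fin t} {y : V} (hy : y ∈ D j) (y0 : Φ.B y y ≠ 0) {c : F} (hc : σ c = c) :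
    ∃ w ∈ D j, Φ.B y w = 0 ∧ Φ.B w w = c ∧ (c = 0 → w = 0) := by
  have le : F ∙ y ≤ D j := by simpa
  obtain ⟨w, hw, w1⟩ := h.hu.exists_unit (nondeg_inf_perp h.hn (h.nd j) (Φ.nondeg_span_singleton y0) le) (by
    have := finrank_inf_perp h.hn (h.nd j) le
    have := finrank_span_one (F := F) y
    have := h.two
    rw [h.rk] at *; omega)
  obtain ⟨s, hs⟩ := exists_norm_eq h.hu.ne Φ.σσ hc
  exact ⟨s • w, (D j).smul_mem _ hw.1, by simp [Φ.mem_perp_span_singleton.1 hw.2], by simpa [w1, mul_comm] using hs,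
    by rintro rfl; simp_all⟩

/-- A transvection group whose centre has two non-singular components. -/
theorem tvC {θ : F} (t0 : θ ≠ 0) (t1 : θ ≠ 1) (t2 : σ θ = θ) {j l : Fin t} (hl : l ≠ j) {p y z : V}
    (hp : ∀ d, TP Φ d → HasE Φ X p 0 d) (hy : y ∈ D j) (y0 : Φ.B y y ≠ 0) (e : ∀ v ∈ D j, Φ.B v y = Φ.B v p)
    (hz : z ∈ D l) (z0 : Φ.B z z ≠ 0) (e' : ∀ v ∈ D l, Φ.B v z = Φ.B v p) : EG Φ ≤ X := by
  have sy := h.hu.symm
  obtain ⟨γ, d, g1, hd, g2⟩ : ∃ γ d : F, γ * σ γ = -1 ∧ TP Φ d ∧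
      ((2 : F) = 0 → γ * Φ.B z z ≠ Φ.B z z + γ / d + Φ.B y y) := by
    obtain ⟨d, hd⟩ := exists_TP h.hu.ne h.hu.τ h.hu.ε
    by_cases h2 : (2 : F) = 0
    swap
    · obtain ⟨γ, e⟩ := exists_norm_eq h.hu.ne Φ.σσ (a := -1) (by simp)
      exact ⟨γ, d, by rwa [mul_comm], hd, fun e => (h2 e).elim⟩
    obtain ⟨η, a, b⟩ := exists_mu h.hu.ne Φ.σσ
    obtain ⟨d, hd, d1⟩ : ∃ d, TP Φ d ∧ Φ.B z z * d ≠ 1 := by
      by_cases d1 : Φ.B z z * d = 1
      · exact ⟨θ * d, ⟨mul_ne_zero t0 hd.1, by simp [h.hu.τ], by rw [map_mul, t2]; linear_combination θ * hd.2.2⟩,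
          fun e => t1 (by linear_combination e - θ * d1)⟩
      · exact ⟨d, hd, d1⟩
    refine ⟨η, d, by linear_combination a + h2, hd, fun _ e => b ?_⟩
    have d2 : σ d = d := by have := hd.2.2; rw [h.hu.ε] at this; linear_combination this - d * h2
    have e1 := congrArg σ e
    simp only [map_add, map_mul, map_div₀, sy, d2] at e1
    have := hd.1
    field_simp at e e1
    exact mul_right_cancel₀ (sub_ne_zero.2 d1) (by linear_combination e1 - e)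
  obtain ⟨y', hy', y1, y2, -⟩ := h.exists_perp_norm hy y0 (sy y y)
  obtain ⟨x, hx⟩ : ∃ x, x * Φ.B z z = Φ.B z z + γ / d + Φ.B y y := ⟨_, div_mul_cancel₀ _ z0⟩
  obtain ⟨w, hw, w1, w2, w4⟩ := h.exists_perp_norm hz z0 (c := Φ.B z z * (1 - x * σ x)) (by simp [sy, Φ.σσ, mul_comm])
  have ps := (hp d hd).sp.2
  have o := h.orth l j hl
  have o' := h.orth j l hl.symm
  have y3 := Φ.B_eq_zero_symm y1
  have w3 := Φ.B_eq_zero_symm w1
  have f : ∀ v ∈ D j, Φ.B p v = Φ.B y v := fun v hv => by rw [← sy, ← e v hv, sy]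
  have f' : ∀ v ∈ D l, Φ.B p v = Φ.B z v := fun v hv => by rw [← sy, ← e' v hv, sy]
  obtain ⟨s, s1, s2, -⟩ := h.mv h.hu.toHD (p := p) (sub_mem hy' hy) (by
    simp [ps, f _ hy, f _ hy', ← e _ hy, ← e _ hy', y1, y2, y3]) fun e1 => by simp [← e _ hy, ← e _ hy', y3, y0] at e1
  obtain ⟨s', s3, s4, -⟩ := h.mv h.hu.toHD (p := p + (y' - y)) (add_mem ((D l).smul_mem (x - 1) hz) hw) (by
    simp [f' _ hz, f' _ hw, ← e' _ hz, ← e' _ hw, w1, w2, w3, o _ hz _ hy, o _ hz _ hy', o _ hw _ hy, o _ hw _ hy',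
      o' _ hy _ hz, o' _ hy' _ hz, o' _ hy _ hw, o' _ hy' _ hw]
    ring) fun e1 => by
    have x1 : σ x = 1 := by
      simpa [← e' _ hz, ← e' _ hw, w3, o _ hz _ hy, o _ hz _ hy', o _ hw _ hy, o _ hw _ hy', z0, sub_eq_zero] using e1
    obtain rfl : x = 1 := by simpa [Φ.σσ] using congrArg σ x1
    simp [w4]
  obtain ⟨r, r1, r2⟩ := h.adjust h.hu (mul_mem s3 s1) hy y0
  have r3 := r2 p (by simp [s2, s4, ← e _ hy, y1, o' _ hy _ hz, o' _ hy _ hw])
  rw [LinearEquiv.mul_apply, s2, s4] at r3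
  obtain ⟨g, g3, hg⟩ := hp d hd
  have := ((HasE.conj ⟨g, g3, hg⟩ (h.le r1) (EG_le_isom r1.2)).conj g3 hg.mem_isom).congr (b := 0) (by simp) rfl
  have e1 : d * Φ.B p (p + (y' - y) + ((x - 1) • z + w)) = γ := by
    have := hd.1
    simp [ps, f _ hy, f _ hy', f' _ hz, f' _ hw, y1, w1]
    field_simp at hx ⊢
    linear_combination hx
  rw [r3, hg.app, map_zero, LinearMap.zero_apply, zero_sub, e1, smul_zero, sub_zero] at this
  refine h.tvA (.inr ⟨θ, t0, t1, t2⟩) hd.1 this (fun H => ?_) (add_mem hy' ((D j).smul_mem (-γ) hy))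
    (fun e => y0 (by simpa [y3, y2] using congrArg (Φ.B y') e)) (by simp [y1, y2, y3]; linear_combination Φ.B y y * g1)
    fun v hv => by simp [← e v hv, o' v hv _ hz, o' v hv _ hw]
  have a1 := o _ hz _ H
  have a2 := o _ hw _ H
  simp [← e' _ hz, ← e' _ hw, w1, w2, w3, o _ hz _ hy, o _ hz _ hy', o _ hw _ hy, o _ hw _ hy', z0] at a1 a2
  obtain rfl : x = γ := mul_right_cancel₀ z0 (by linear_combination a1)
  exact g2 (by linear_combination a2 + g1) hx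

end UX

theorem ODec.isMaximalIn_herm (h : ODec Φ k D) (hu : HU Φ) (h2 : 2 ≤ k) (h3 : 3 ≤ t)
    (hq : 3 ≤ k ∨ ∃ θ : F, θ ≠ 0 ∧ θ ≠ 1 ∧ σ θ = θ) : Geo.IsMaximalIn (EG Φ) (dstab D ⊓ EG Φ) := by
  refine max_crit inf_le_right ?_ fun X h1 h2' g hg hg' => ?_
  · let i : Fin t := ⟨0, by omega⟩
    let j : Fin t := ⟨1, h.two_le⟩
    have hij : i ≠ j := by simp [i, j]
    obtain ⟨x, hx, r, hr, hxr⟩ := h.pair_herm hu h2 i
    obtain ⟨z, hz, _, -, hzr⟩ := h.pair_herm hu h2 j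
    obtain ⟨g, hg⟩ := exists_isE0 h.hn hxr.se hzr.se (h.orth i j hij x hx z hz)
    refine ⟨g, IsE_mem_EG hg, fun hc => ?_⟩
    obtain ⟨l, hl⟩ := exists_of_dstab hc.1 i
    have h3 := hl x hx
    have h4 := hl r hr
    rw [hg.apply_p] at h3
    obtain rfl : i = l := by_contra fun e => hxr.left_ne_zero (h.eq_zero e hx h3)
    rw [hg.apply_r hxr (h.orth i j hij r hr z hz)] at h4
    exact hzr.left_ne_zero (h.eq_zero hij (by simpa [(D i).smul_mem_iff Φ.ε_ne_zero] using (D i).sub_mem hr h4) hz)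
  have hX : UX Φ k D X := ⟨h, hu, h2, h3, h1, h2'⟩
  by_contra hc
  refine hg' ⟨hX.mem_dstab' (EG_le_isom (h2' hg)) fun i x hx hx0 hs => ?_, h2' hg⟩
  by_contra! hD
  have hp : ∀ d, TP Φ d → HasE Φ X (g x) 0 d := fun d hd =>
    let ⟨s, e⟩ := isE_T h.hn hs hd
    (HasE.conj ⟨s, h.inE h1 i x hx 0 (zero_mem _) _ s e, e⟩ hg (EG_le_isom (h2' hg))).congr (map_zero _) rfl
  obtain ⟨d, hd⟩ := exists_TP hu.ne hu.τ hu.ε
  have key : ∀ i, ∃ j ≠ i, ∃ y ∈ D j, Φ.B y y ≠ 0 ∧ ∀ v ∈ D j, Φ.B v y = Φ.B v (g x) := fun i => by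
    obtain ⟨j, hj, r, hr, e⟩ := h.exists_ne_perp (hD i)
    obtain ⟨y, hy, e1⟩ := exists_prj h.hn (h.nd j) (g x)
    exact ⟨j, hj, y, hy, fun ys => hc (hX.tvA hq hd.1 (hp d hd) (hD j) hy (by
      rintro rfl; exact e ((e1 r hr).symm.trans (map_zero _))) ys e1), e1⟩
  obtain ⟨j, -, y, hy, y0, e⟩ := key i
  obtain ⟨l, hl, z, hz, z0, e'⟩ := key j
  rcases hq with h3 | ⟨θ, t0, t1, t2⟩
  swap
  · exact hc (hX.tvC t0 t1 t2 hl hp hy y0 e hz z0 e')
  obtain ⟨u, ⟨hu', u1⟩, u0, us⟩ := exists_sing_herm hu.ne hu.ε hu.Q (T := D j ⊓ pf Φ ![y]) (by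
    have := finrank_pf (Φ := Φ) ![y] (D j); rw [h.rk] at this; omega)
  replace u1 : Φ.B u y = 0 := Φ.B_eq_zero_symm (mem_pf.1 u1 0)
  obtain ⟨a, ha, a1, a2⟩ := sep h.hn (h.nd j) (S := F ∙ u) (by simpa) hy fun H => by
    obtain ⟨c, rfl⟩ := Submodule.mem_span_singleton.1 H
    simp [us.2] at y0
  obtain ⟨d', s, hs⟩ := exists_isE' h.hn us (Φ.mem_perp_span_singleton.1 a1)
  refine hc (hX.win_tv hd.1 (hp d hd) (hD j) hu' u0 us ((e u hu').symm.trans u1) (h.inE h1 j u hu' a ha _ _ hs) ?_)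
  rw [hs.apply_perp ((e u hu').symm.trans u1), ← e a ha, ← hu.symm, a2]; simp [add_comm]

end Cfsg.Agent.Root.Mx
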