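import Cfsg.Agent.Root.Un1

/-! Overgroups of the monomial group of an orthonormal frame in `SU_n(q)`, `n ≥ 10` (`UF`): the criterion `UF.win`,
elements fixing a frame point (`UF.p1`) or mapping a frame vector to a vector of small support (`UF.z5`) are monomial. -/

set_option autoImplicit false

namespace Cfsg.Agent.Root.Mx

open Cfsg.Agent.Geom Cfsg.Agent.AutCl Module

variable {F : Type*} [Field F] {σ : F →+* F} {V : Type*} [AddCommGroup V] [Module F V] {Φ : Formed σ V}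
  {X : Subgroup (V ≃ₗ[F] V)} {t : ℕ} {e : Fin t → V}

/-- The isometries fixing `a` which lie in `X` up to a quasi-reflection with centre `a`. -/
def ZS (Φ : Formed σ V) (X : Subgroup (V ≃ₗ[F] V)) (a : V) : Subgroup (V ≃ₗ[F] V) :=
  have cj : ∀ g ∈ Φ.isom, g a = a → ∀ r ∈ Φ.isom ⊓ mvS (F ∙ a), g * r * g⁻¹ ∈ Φ.isom ⊓ mvS (F ∙ a) :=
    fun g hg e r hr => ⟨Φ.isom.mul_mem (Φ.isom.mul_mem hg hr.1) (Φ.isom.inv_mem hg), fun x => by
      obtain ⟨c, hc⟩ := Submodule.mem_span_singleton.1 (hr.2 (g.symm x))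
      exact Submodule.mem_span_singleton.2 ⟨c, by simpa [e] using congrArg g hc⟩⟩
  { carrier := {g | g ∈ Φ.isom ∧ g a = a ∧ ∃ r ∈ Φ.isom ⊓ mvS (F ∙ a), r * g ∈ X}
    one_mem' := ⟨one_mem _, rfl, 1, one_mem _, by simp⟩
    mul_mem' := fun {g g'} ⟨a1, a2, r, a3, a4⟩ ⟨b1, b2, r', b3, b4⟩ => ⟨mul_mem a1 b1, by simp [a2, b2], _,
      mul_mem a3 (cj g a1 a2 r' b3), by simpa [mul_assoc] using mul_mem a4 b4⟩
    inv_mem' := fun {g} ⟨a1, a2, r, a3, a4⟩ => ⟨inv_mem a1, g.symm_apply_eq.2 a2.symm, _,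
      cj _ (inv_mem a1) (g.symm_apply_eq.2 a2.symm) _ (inv_mem a3), by simpa [mul_assoc] using inv_mem a4⟩ }

theorem IsQ.mvS {a : V} {c : F} {g : V ≃ₗ[F] V} (h : IsQ Φ a c g) : g ∈ Φ.isom ⊓ mvS (F ∙ a) :=
  ⟨h.iso, fun x => Submodule.mem_span_singleton.2 ⟨_, by rw [h.app, add_sub_cancel_left]⟩⟩

theorem isQ_one (a : V) : IsQ Φ a 0 1 := ⟨one_mem _, by simp, by simp⟩

theorem det_mul' (g h : V ≃ₗ[F] V) : LinearMap.det ((g * h : V ≃ₗ[F] V) : V →ₗ[F] V) =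
    LinearMap.det (g : V →ₗ[F] V) * LinearMap.det (h : V →ₗ[F] V) := by rw [LinearEquiv.coe_toLinearMap_mul, map_mul]

variable [FiniteDimensional F V]

theorem isQ_of_mvS (hn : Φ.Nondeg) {a : V} (a0 : Φ.B a a ≠ 0) {r : V ≃ₗ[F] V} (hr : r ∈ Φ.isom ⊓ mvS (F ∙ a)) :
    ∃ c, IsQ Φ a c r := by
  obtain ⟨m, hm⟩ := Submodule.mem_span_singleton.1 (hr.2 a)
  have e : ∀ x, r x = x + (m / Φ.B a a * Φ.B a x) • a := fun x => by
    have := fix_of_mvS hn hr.1 hr.2 (y := x - (Φ.B a x / Φ.B a a) • a) fun z hz => by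
      obtain ⟨c, rfl⟩ := Submodule.mem_span_singleton.1 hz
      exact Φ.B_eq_zero_symm (by simp [a0])
    rw [map_sub, map_smul, sub_eq_iff_eq_add'.1 hm.symm] at this
    rw [sub_eq_iff_eq_add.1 this]; match_scalars <;> ring
  refine ⟨_, hr.1, ?_, e⟩
  rw [show (r : V →ₗ[F] V) = LinearMap.transvection ((m / Φ.B a a) • Φ.B a) a by
    ext x; simp [LinearMap.transvection.apply, e], LinearMap.transvection.det]; simp

theorem ZS.mul_mem [Finite F] (hn : Φ.Nondeg) (hX : X ≤ EG Φ) {a : V} (a0 : Φ.B a a ≠ 0) {g ρ : V ≃ₗ[F] V}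
    (hg : g ∈ ZS Φ X a) {c : F} (hρ : IsQ Φ a c ρ) (e : (1 + c * Φ.B a a) * LinearMap.det (g : V →ₗ[F] V) = 1) :
    ρ * g ∈ X := by
  obtain ⟨-, -, r, a1, a2⟩ := hg
  obtain ⟨c', hr⟩ := isQ_of_mvS hn a0 a1
  have := mem_SLg.1 (EG_le_SLg (hX a2))
  rw [det_mul', hr.det] at this
  obtain rfl : c = c' := mul_right_cancel₀ a0 (add_left_cancel (mul_right_cancel₀ (right_ne_zero_of_mul_eq_one e)
    (e.trans this.symm)))
  rwa [hρ.ext hr]

/-- The roots of a group containing quasi-reflections. -/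
def URt (Φ : Formed σ V) (Z : Subgroup (V ≃ₗ[F] V)) (a : V) : Prop :=
  Φ.B a a = 1 ∧ ∀ η, η * σ η = 1 → ∀ r, IsQ Φ a (η - 1) r → r ∈ Z

theorem HD.exists_qr (h : HD Φ) {a : V} (ha : Φ.B a a = 1) {η : F} (hη : η * σ η = 1) : ∃ g, IsQ Φ a (η - 1) g :=
  h.exists_isQ (by simp [ha]; linear_combination hη)

theorem URt.map (h : HD Φ) {Z : Subgroup (V ≃ₗ[F] V)} {a : V} (ha : URt Φ Z a) {g : V ≃ₗ[F] V} (hg : g ∈ Z)
    (hg' : g ∈ Φ.isom) : URt Φ Z (g a) := ⟨by rw [hg'.1, ha.1], fun η hη r hr => by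
  obtain ⟨s, hs⟩ := h.exists_qr ha.1 hη
  exact hr.ext (hs.conj hg') ▸ mul_mem (mul_mem hg (ha.2 η hη s hs)) (inv_mem hg)⟩

/-- The monomial group of a frame. -/
abbrev UM (F : Type*) [Field F] [Module F V] (e : Fin t → V) : Subgroup (V ≃ₗ[F] V) := dstab fun i => F ∙ e i

/-- Vectors of small support. -/
def Sm (Φ : Formed σ V) (e : Fin t → V) (m : ℕ) (v : V) : Prop :=
  ∃ S : Finset (Fin t), S.card ≤ m ∧ ∀ i ∉ S, Φ.B (e i) v = 0

omit [FiniteDimensional F V] in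
theorem Sm.comb {m n : ℕ} {v w : V} (h : Sm Φ e m v) (h' : Sm Φ e n w) (a b : F) : Sm Φ e (m + n) (a • v + b • w) :=
  let ⟨S, a1, a2⟩ := h; let ⟨T, b1, b2⟩ := h'
  ⟨S ∪ T, (Finset.card_union_le _ _).trans (add_le_add a1 b1), fun i hi => by
    simp only [Finset.mem_union, not_or] at hi; simp [a2 i hi.1, b2 i hi.2]⟩

/-- A proper overgroup of the monomial group. -/
structure UF (Φ : Formed σ V) (e : Fin t → V) (X : Subgroup (V ≃ₗ[F] V)) : Prop where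
  od : ODec Φ 1 fun i => F ∙ e i
  hu : HU Φ
  on : ∀ i j, Φ.B (e i) (e j) = if i = j then 1 else 0
  ten : 10 ≤ t
  le : UM F e ⊓ EG Φ ≤ X
  le' : X ≤ EG Φ
  small : ¬ EG Φ ≤ X

namespace UF
variable (h : UF Φ e X)
include h

theorem ext0 {v : V} (hv : ∀ i, Φ.B (e i) v = 0) : v = 0 := h.od.eq_zero' fun i x hx => by
  obtain ⟨c, rfl⟩ := Submodule.mem_span_singleton.1 hx
  simp [hv]

theorem ext {v w : V} (hv : ∀ i, Φ.B (e i) v = Φ.B (e i) w) : v = w := sub_eq_zero.1 (h.ext0 (by simp [hv]))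

theorem sum (v : V) : ∑ i, Φ.B (e i) v • e i = v := h.ext fun i => by simp [map_sum, h.on]

omit [FiniteDimensional F V] in
theorem out (l : List (Fin t)) (hl : l.length ≤ 9) : ∃ i, i ∉ l := exists_out_list l (by have := h.ten; simp; omega)

omit [FiniteDimensional F V] in
theorem iso {g : V ≃ₗ[F] V} (hg : g ∈ X) : g ∈ Φ.isom := EG_le_isom (h.le' hg)

theorem mem_UM {g : V ≃ₗ[F] V} (hg : ∀ i, ∃ j, g (e i) ∈ F ∙ e j) : g ∈ UM F e :=
  h.od.mem_dstab fun i => (hg i).imp fun j hj x hx => by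
    obtain ⟨c, rfl⟩ := Submodule.mem_span_singleton.1 hx
    simpa using Submodule.smul_mem _ c hj

omit h [FiniteDimensional F V] in
theorem of_UM {g : V ≃ₗ[F] V} (hg : g ∈ UM F e) (i : Fin t) : ∃ j, ∃ c : F, g (e i) = c • e j :=
  (exists_of_dstab hg i).imp fun _ H => (Submodule.mem_span_singleton.1 (H _ (Submodule.mem_span_singleton_self _))).imp
    fun _ => Eq.symm

omit [FiniteDimensional F V] in
theorem memX {g : V ≃ₗ[F] V} (hg : g ∈ UM F e) (hi : g ∈ Φ.isom) (hd : LinearMap.det (g : V →ₗ[F] V) = 1) : g ∈ X :=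
  h.le ⟨hg, h.hu.seg ⟨hi, mem_SLg.2 hd⟩⟩

theorem mem_span {v : V} {i : Fin t} (hv : ∀ j ≠ i, Φ.B (e j) v = 0) : v ∈ F ∙ e i :=
  Submodule.mem_span_singleton.2 ⟨Φ.B (e i) v, h.ext fun j => by by_cases e : j = i <;> simp [h.on, e, hv]⟩

theorem exists_R (i : Fin t) {η : F} (hη : η * σ η = 1) : ∃ g ∈ UM F e, IsQ Φ (e i) (η - 1) g :=
  let ⟨g, hg⟩ := h.hu.exists_qr (a := e i) (by simp [h.on]) hη
  ⟨g, h.od.isQ_mem (j := i) hg (Submodule.mem_span_singleton_self _), hg⟩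

theorem exists_δ {i j : Fin t} (hij : i ≠ j) {η : F} (hη : η * σ η = 1) : ∃ g ∈ X ⊓ UM F e, ∀ v,
    g v = v + ((η - 1) * Φ.B (e i) v) • e i + ((σ η - 1) * Φ.B (e j) v) • e j := by
  obtain ⟨r, a, b⟩ := h.exists_R i hη
  obtain ⟨s, c, d⟩ := h.exists_R j (η := σ η) (by rw [Φ.σσ, mul_comm, hη])
  exact ⟨s * r, ⟨h.memX (mul_mem c a) (mul_mem d.iso b.iso) (by simp [det_mul', b.det, d.det, h.on, mul_comm, hη]),
    mul_mem c a⟩, fun v => by simp [b.app, d.app, h.on, hij.symm]⟩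

theorem exists_sw {i j : Fin t} (hij : i ≠ j) {l : F} (hl : l * σ l = 1) : ∃ g ∈ UM F e, IsQ Φ (e i - l • e j) (-1) g := by
  obtain ⟨g, hg⟩ := h.hu.exists_isQ (a := e i - l • e j) (c := -1) (by
    simp [h.on, hij, hij.symm]; linear_combination hl)
  refine ⟨g, h.mem_UM fun m => ?_, hg⟩
  by_cases a : m = i
  · exact ⟨j, by simp [hg.app, a, h.on, hij.symm, Submodule.smul_mem _ _ (Submodule.mem_span_singleton_self _)]⟩
  by_cases b : m = j
  · exact ⟨i, h.mem_span fun k hk => by by_cases c : k = j <;> simp [hg.app, b, c, h.on, hij, hij.symm, hk, mul_comm, hl]⟩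
  · exact ⟨m, by simp [hg.app, h.on, Ne.symm a, Ne.symm b]⟩

theorem exists_ssw (i j : Fin t) : ∃ g ∈ X ⊓ UM F e, g (e i) = e j ∧
    ∀ v, Φ.B (e i) v = 0 → Φ.B (e j) v = 0 → g v = v := by
  rcases eq_or_ne i j with rfl | hij
  · exact ⟨1, one_mem _, rfl, fun _ _ _ => rfl⟩
  obtain ⟨r, a, b⟩ := h.exists_sw hij (l := 1) (by simp)
  obtain ⟨s, c, d⟩ := h.exists_R j (η := -1) (by simp)
  exact ⟨r * s, ⟨h.memX (mul_mem a c) (mul_mem b.iso d.iso) (by
    simp [det_mul', b.det, d.det, h.on, hij, hij.symm]), mul_mem a c⟩,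
    by simp [b.app, d.app, h.on, hij.symm], fun v x y => by simp [b.app, d.app, x, y]⟩

variable [Finite F]

theorem isolate {u b : V} {hu : Φ.Sing u} {j k l : Fin t} (a1 : j ≠ k) (a2 : j ≠ l) (a3 : k ≠ l) (u1 : Φ.B (e j) u = 0)
    (u2 : Φ.B (e k) u = 0) (u3 : Φ.B (e l) u = 0) (hb : b ∈ AE Φ X hu) (b0 : Φ.B (e j) b ≠ 0) :
    ∃ κ : F, κ ≠ 0 ∧ κ • e j ∈ AE Φ X hu := by
  obtain ⟨η, a, c⟩ := exists_mu h.hu.ne Φ.σσ
  obtain ⟨g, g1, g2⟩ := h.exists_δ a1 a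
  obtain ⟨g', g3, g4⟩ := h.exists_δ a2 a
  have m := sub_mem (map_mem_AE g1.1 (h.iso g1.1) (by simp [g2, u1, u2]) hb) hb
  have m' := sub_mem (map_mem_AE g3.1 (h.iso g3.1) (by simp [g4, u1, u3]) m) m
  have : η - 1 ≠ 0 := sub_ne_zero.2 (by rintro rfl; simp at c)
  exact ⟨(η - 1) * ((η - 1) * Φ.B (e j) b), by simp [*], by
    convert m' using 1; rw [g4, g2]; simp [h.on, a1, a2.symm, a3.symm]⟩

theorem spread {u : V} {hu : Φ.Sing u} {j k : Fin t} (a1 : j ≠ k) (u1 : Φ.B (e j) u = 0) (u2 : Φ.B (e k) u = 0) {κ : F}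
    (k0 : κ ≠ 0) (hb : κ • e j ∈ AE Φ X hu) {r : Fin t} (hr : Φ.B (e r) u = 0) (c : F) : c • e r ∈ AE Φ X hu := by
  have := mem_of_mu h.hu.ne Φ.σσ ((AE Φ X hu).comap (LinearMap.toSpanSingleton F V (κ • e j)).toAddMonoidHom)
    (fun η hη => by
      obtain ⟨g, g1, g2⟩ := h.exists_δ a1 hη
      have := map_mem_AE g1.1 (h.iso g1.1) (by simp [g2, u1, u2]) hb
      change η • κ • e j ∈ AE Φ X hu
      convert this using 1; simp [g2, h.on, a1.symm]; module) (c / κ)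
  obtain ⟨g, g1, g2, g3⟩ := h.exists_ssw j r
  simpa [smul_smul, k0, g2] using map_mem_AE g1.1 (h.iso g1.1) (g3 u u1 hr) this

/-- The criterion for an overgroup to contain `SU`. -/
theorem win {u : V} {hu : Φ.Sing u} (u0 : u ≠ 0) {j k : Fin t} (a1 : j ≠ k) (u1 : Φ.B (e j) u = 0)
    (u2 : Φ.B (e k) u = 0) {κ : F} (k0 : κ ≠ 0) (hb : κ • e j ∈ AE Φ X hu) : False := by
  have S := fun {r} => h.spread a1 u1 u2 k0 hb (r := r)
  have ns : NotSp2 Φ := notSp2_of_ne h.hu.ne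
  have T := fullT_of_comm hu ns fun c => ⟨_, S u1 1, _, S u1 c, by simp [h.on]⟩
  obtain ⟨l, hl⟩ := exists_norm_eq h.hu.ne Φ.σσ (a := -1) (by simp)
  obtain ⟨p, hp⟩ : ∃ p, p = e j + l • e k := ⟨_, rfl⟩
  have ps : Φ.Sing p := ⟨h.hu.Q _, by simp [hp, h.on, a1, a1.symm]; linear_combination hl⟩
  obtain ⟨d, hd⟩ : p ∈ AE Φ X hu := by simpa [hp] using add_mem (S u1 1) (S u2 l)
  obtain ⟨g, hg⟩ := exists_isE h.hu.nd hu (map_zero _) (d := -d) (by simp [h.hu.τ, h.hu.Q]) (by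
    have := hd.hB; rw [ps.2] at this; simp; linear_combination -this)
  obtain ⟨c, c0, hc⟩ := ((hd.mul ⟨g, T _ g hg, hg⟩).congr (add_zero _) (by simp)).swap'
  obtain ⟨r, hr⟩ : ∃ r, Φ.B (e r) u ≠ 0 := by by_contra! H; exact u0 (h.ext0 H)
  have rj : r ≠ j := by rintro rfl; exact hr u1
  have rk : r ≠ k := by rintro rfl; exact hr u2
  obtain ⟨s, hs⟩ := h.out [j, k, r] (by simp)
  obtain ⟨s', hs'⟩ := h.out [j, k, r, s] (by simp)
  simp only [List.mem_cons, List.not_mem_nil, or_false, not_or] at hs hs'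
  have z : ∀ m, m ≠ j → m ≠ k → Φ.B (e m) p = 0 := fun m a b => by simp [hp, h.on, a, b]
  obtain ⟨κ', k1, H⟩ := h.isolate (hu := ps) (Ne.symm hs.2.2) (Ne.symm hs'.2.2.1) (Ne.symm hs'.2.2.2) (z r rj rk)
    (z s hs.1 hs.2.1) (z s' hs'.1 hs'.2.1) ⟨0, hc⟩ (by simp [c0, hr])
  have hF := full_of_AE' h.hu.nd (by have := h.od.finrank_eq; have := h.ten; omega) ns
    (fun e0 => by simpa [hp, h.on, a1] using congrArg (Φ.B (e j)) e0) ps fun b hb => by
      have := add_mem (smul_mem_AE ps (Φ.B (e j) b)) (sum_mem (t := Finset.univ)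
        (f := fun i => Φ.B (e i) (b - Φ.B (e j) b • p) • e i) fun i _ => by
          by_cases i1 : i = j
          · simp [i1, hp, h.on, a1]
          by_cases i2 : i = k
          · have : Φ.B (e k) b - Φ.B (e j) b * l = 0 := by
              simp [hp] at hb; linear_combination -l * hb + Φ.B (e k) b * hl
            simp [i2, hp, h.on, a1.symm, this]
          exact h.spread (Ne.symm hs.2.2) (z r rj rk) (z s hs.1 hs.2.1) k1 H (z i i1 i2) _)
      simpa only [h.sum, add_sub_cancel] using this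
  obtain ⟨η, a, c⟩ := exists_mu h.hu.ne Φ.σσ
  obtain ⟨g, g1, g2⟩ := h.exists_δ rj.symm a
  refine h.small (EG_le_of_full' h.hu.nd hF g1.1 (h.iso g1.1) ?_)
  rw [g2, z r rj rk]
  simp only [map_add, map_smul, ps.2]
  simpa [hp, h.on, a1, a1.symm, sub_eq_zero] using fun e : η = 1 => by simp [e] at c

section P1
variable {k : Fin t} {a : V}

omit [Finite F] in
theorem mem_ZS {g : V ≃ₗ[F] V} (hg : g ∈ UM F e) (hi : g ∈ Φ.isom) (hk : g (e k) = e k) : g ∈ ZS Φ X (e k) := by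
  obtain ⟨r, a, b, c⟩ := h.hu.adj _ (h.od.nd k) (h.od.rk k).ge g hi
  refine ⟨hi, hk, r, ⟨a, fun x => h.mem_span fun j hj => ?_⟩, h.le ⟨mul_mem (h.od.mem_dstab_of_fix a b) hg, c⟩⟩
  rw [map_sub, ← a.1 (e j) x, b (e j) (Φ.mem_perp_span_singleton.2 (by simp [h.on, hj.symm])), sub_self]

omit [Finite F] in
theorem rt_e {j : Fin t} (hj : j ≠ k) : URt Φ (ZS Φ X (e k)) (e j) := ⟨by simp [h.on], fun η _ r hr =>
  h.mem_ZS (h.od.isQ_mem (j := j) hr (Submodule.mem_span_singleton_self _)) hr.iso (hr.perp (by simp [h.on, hj]))⟩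

theorem rt_k (ha : URt Φ (ZS Φ X (e k)) a) : Φ.B (e k) a = 0 := by
  obtain ⟨η, b, c⟩ := exists_mu h.hu.ne Φ.σσ
  obtain ⟨r, hr⟩ := h.hu.exists_qr ha.1 b
  have := congrArg (Φ.B a) (ha.2 η b r hr).2.1
  simp [hr.app, ha.1, sub_eq_zero] at this
  exact Φ.B_eq_zero_symm (this.resolve_left (by rintro rfl; simp at c))

omit [Finite F] in
theorem rt_sc (ha : URt Φ (ZS Φ X (e k)) a) {i : Fin t} (hi : i ≠ k) {η : F} (hη : η * σ η = 1) :
    URt Φ (ZS Φ X (e k)) (a + ((η - 1) * Φ.B (e i) a) • e i) :=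
  let ⟨r, _, hr⟩ := h.exists_R i hη
  hr.app a ▸ ha.map h.hu.toHD ((h.rt_e hi).2 η hη r hr) hr.iso

theorem rr {u : V} (ha : URt Φ (ZS Φ X (e k)) a) (hb : URt Φ (ZS Φ X (e k)) (a + u)) (e1 : Φ.B a u = 0) :
    ∃ hu : Φ.Sing u, ∃ κ : F, κ ≠ 0 ∧ κ • a ∈ AE Φ X hu := by
  have e2 := Φ.B_eq_zero_symm e1
  have us : Φ.Sing u := ⟨h.hu.Q _, by simpa [e1, e2, ha.1] using hb.1⟩
  obtain ⟨η, b, c⟩ := exists_mu h.hu.ne Φ.σσ
  have b' : σ η * σ (σ η) = 1 := by rw [Φ.σσ, mul_comm, b]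
  obtain ⟨r, hr⟩ := h.hu.exists_qr hb.1 b
  obtain ⟨s, hs⟩ := h.hu.exists_qr ha.1 b'
  refine ⟨us, 1 - η, sub_ne_zero.2 (by rintro rfl; simp at c), 1 - η, r * s, by
    simpa using ZS.mul_mem h.hu.nd h.le' (by simp [h.on]) (mul_mem (hb.2 η b r hr) (ha.2 _ b' s hs)) (isQ_one _) (by
      simp only [det_mul', hr.det, hs.det, ha.1, hb.1]; linear_combination b),
    us, by simp [e2], by simp [h.hu.τ, h.hu.Q], by simp [h.hu.ε, ha.1]; linear_combination -b, fun v => ?_⟩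
  simp [hr.app, hs.app, ha.1, e2, h.hu.ε]
  match_scalars
  · ring
  · linear_combination Φ.B a v * b
  · linear_combination Φ.B a v * b

theorem rt_one (ha : URt Φ (ZS Φ X (e k)) a) {i j : Fin t} (hij : i ≠ j) (hi : Φ.B (e i) a * σ (Φ.B (e i) a) = 1)
    (hj : Φ.B (e j) a ≠ 0) : False := by
  have k0 := h.rt_k ha
  have ik : i ≠ k := by rintro rfl; simp [k0] at hi
  have := h.rt_sc (h.rt_e ik) ik hi
  rw [show e i + _ = Φ.B (e i) a • e i by simp [h.on]; module] at this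
  obtain ⟨us, κ, k1, H⟩ := h.rr (u := a - Φ.B (e i) a • e i) this (by simpa) (by simp [h.on])
  exact h.win (hu := us) (fun e0 => hj (by simpa [h.on, hij.symm] using congrArg (Φ.B (e j)) e0)) ik (by simp [h.on])
    (by simp [h.on, k0, ik.symm]) (mul_ne_zero k1 (left_ne_zero_of_mul_eq_one hi)) (by rwa [← smul_smul])

theorem rt_five (ha : URt Φ (ZS Φ X (e k)) a) {S : Finset (Fin t)} (hS : ∀ i ∈ S, Φ.B (e i) a ≠ 0) (h5 : 5 ≤ S.card) :
    False := by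
  have k0 := h.rt_k ha
  obtain ⟨f, f1, f2⟩ : ∃ f : Fin 5 → Fin t, f.Injective ∧ ∀ i, Φ.B (e (f i)) a ≠ 0 :=
    ⟨S.orderEmbOfCardLe h5, (S.orderEmbOfCardLe h5).injective, fun i => hS _ (S.orderEmbOfCardLe_mem h5 i)⟩
  have fk : ∀ i, f i ≠ k := fun i e => f2 i (e ▸ k0)
  have on : ∀ i j, Φ.B (e (f i)) (e (f j)) = if i = j then 1 else 0 := fun i j => by simp [h.on, f1.eq_iff]
  have sy : ∀ i, Φ.B a (e (f i)) = σ (Φ.B (e (f i)) a) := fun i => (h.hu.symm _ _).symm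
  obtain ⟨η, b, c⟩ := exists_mu h.hu.ne Φ.σσ
  obtain ⟨s, hs⟩ : ∃ s : Fin 5 → F, ∀ i, s i = Φ.B (e (f i)) a * σ (Φ.B (e (f i)) a) := ⟨_, fun _ => rfl⟩
  have s0 : ∀ i, s i ≠ 0 := fun i => hs i ▸ nrm_ne (f2 i)
  have s1 : ∀ i, σ (s i) = s i := fun i => hs i ▸ nrm_fix Φ.σσ _
  obtain ⟨x, y, w, x1, y1, w1, e1⟩ := sum3 h.hu.ne Φ.σσ (s0 0) (s0 1) (s0 2) (z := s 0 + s 1 + s 2 + (1 - η) * s 3)
    fun e0 => c (mul_right_cancel₀ (s0 3) (by have := congrArg σ e0; simp [s1] at this; linear_combination e0 - this))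
  have := h.rt_sc (h.rt_sc (h.rt_sc (h.rt_sc ha (fk 0) x1) (fk 1) y1) (fk 2) w1) (fk 3) b
  simp only [map_add, map_smul, on, add_assoc] at this
  obtain ⟨us, κ, k1, H⟩ := h.rr ha this (by simp [sy, mul_assoc, ← hs]; linear_combination e1)
  obtain ⟨l, hl⟩ := h.out [f 0, f 1, f 2, f 3, f 4, k] (by simp)
  simp only [List.mem_cons, List.not_mem_nil, or_false, not_or] at hl
  have z1 := fun i => (fk i).symm
  obtain ⟨κ', k2, H⟩ := h.isolate (fk 4) (Ne.symm hl.2.2.2.2.1) (Ne.symm hl.2.2.2.2.2) (by simp [on]) (by simp [h.on, z1])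
    (by simp [h.on, hl]) H (by simp [k1, f2])
  refine h.win (fun e0 => ?_) (fk 4) (by simp [on]) (by simp [h.on, z1]) k2 H
  simpa [on, f2, sub_eq_zero, show η ≠ 1 by rintro rfl; simp at c] using congrArg (Φ.B (e (f 3))) e0

theorem noroot (ha : URt Φ (ZS Φ X (e k)) a) {i j : Fin t} (hij : i ≠ j) (hi : Φ.B (e i) a ≠ 0) (hj : Φ.B (e j) a ≠ 0) :
    False := by
  suffices ∀ m ≤ 3, ∃ a, URt Φ (ZS Φ X (e k)) a ∧ ∃ S : Finset (Fin t), S.card = m + 2 ∧ ∀ i ∈ S, Φ.B (e i) a ≠ 0 from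
    let ⟨_, a, _, b, c⟩ := this 3 le_rfl; h.rt_five a c b.ge
  intro m hm
  induction m with
  | zero => exact ⟨a, ha, {i, j}, Finset.card_pair hij, by simp [hi, hj]⟩
  | succ m ih =>
    obtain ⟨a, ha, S, h1, h2⟩ := ih (by omega)
    obtain ⟨r, hr⟩ := exists_out (insert k S) ((Finset.card_insert_le _ _).trans_lt (by have := h.ten; simp; omega))
    simp only [Finset.mem_insert, not_or] at hr
    suffices ∃ a, URt Φ (ZS Φ X (e k)) a ∧ ∀ i ∈ insert r S, Φ.B (e i) a ≠ 0 from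
      let ⟨a, b, c⟩ := this; ⟨a, b, _, by rw [Finset.card_insert_of_notMem hr.2, h1], c⟩
    by_cases r0 : Φ.B (e r) a = 0
    swap
    · exact ⟨a, ha, by simpa [r0] using h2⟩
    obtain ⟨o, ho, o', ho', oo⟩ := Finset.one_lt_card.1 (show 1 < S.card by omega)
    have or : o ≠ r := by rintro rfl; exact hr.2 ho
    have ok : o ≠ k := by rintro rfl; exact h2 _ ho (h.rt_k ha)
    have s1 : 1 - Φ.B (e o) a * σ (Φ.B (e o) a) ≠ 0 := fun e => h.rt_one ha oo (sub_eq_zero.1 e).symm (h2 _ ho')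
    obtain ⟨g, g1, hg⟩ := h.exists_sw or (l := 1) (by simp)
    obtain ⟨η, b, c⟩ := exists_mu h.hu.ne Φ.σσ
    obtain ⟨s, hs⟩ := h.hu.exists_qr ha.1 b
    refine ⟨_, (ha.map h.hu.toHD (h.mem_ZS g1 hg.iso (hg.perp (by simp [h.on, ok, hr.1]))) hg.iso).map h.hu.toHD
      (ha.2 η b s hs) hs.iso, fun i hi => ?_⟩
    have e1 : Φ.B a (g a) = 1 - Φ.B (e o) a * σ (Φ.B (e o) a) := by
      simp [hg.app, ha.1, r0, ← h.hu.symm _ a, Φ.σσ]; ring
    rw [hs.app, e1, hg.app]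
    have s2 := nrm_fix Φ.σσ (Φ.B (e o) a)
    generalize Φ.B (e o) a * σ (Φ.B (e o) a) = n at s1 s2
    by_cases i1 : i = r
    · simpa [i1, r0, h.on, or.symm] using h2 o ho
    have i2 := h2 i ((Finset.mem_insert.1 hi).resolve_left i1)
    by_cases i3 : i = o
    · simpa [i3, r0, h.on, or, s1, h2 o ho, sub_eq_zero] using fun e : η = 1 => by simp [e] at c
    simp only [map_add, map_smul, map_sub, h.on, i1, i3, if_false, smul_eq_mul, mul_zero, sub_zero, add_zero]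
    rw [← one_add_mul]
    refine mul_ne_zero (fun e => c (mul_right_cancel₀ s1 ?_)) i2
    have := congrArg σ e
    simp [s2] at this
    linear_combination this - e

end P1

/-- An element mapping a frame point to a frame point is monomial. -/
theorem p1 {c : V ≃ₗ[F] V} (hc : c ∈ X) {k l : Fin t} (hk : c (e k) ∈ F ∙ e l) : c ∈ UM F e := by
  obtain ⟨s, s1, s2, -⟩ := h.exists_ssw l k
  obtain ⟨ζ, hζ⟩ := Submodule.mem_span_singleton.1 hk
  have z : σ ζ * σ (σ ζ) = 1 := by simpa [← hζ, h.on, Φ.σσ, mul_comm] using (h.iso hc).1 (e k) (e k)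
  obtain ⟨r, r1, hr⟩ := h.exists_R k z
  have i := mul_mem hr.iso (h.iso (mul_mem s1.1 hc))
  have e1 : (r * (s * c)) (e k) = e k := by
    rw [Φ.σσ] at z
    simp [← hζ, s2, hr.app, h.on]; match_scalars; linear_combination z
  refine ((UM F e).mul_mem_cancel_left s1.2).1 (((UM F e).mul_mem_cancel_left r1).1 (h.mem_UM fun j => ?_))
  by_cases hj : j = k
  · exact ⟨k, by simp only [hj, e1, Submodule.mem_span_singleton_self]⟩
  have := (h.rt_e hj).map h.hu.toHD ⟨i, e1, r⁻¹, inv_mem hr.mvS, by simpa using mul_mem s1.1 hc⟩ i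
  obtain ⟨i, hi⟩ : ∃ i, Φ.B (e i) ((r * (s * c)) (e j)) ≠ 0 := by
    by_contra! H; simpa [h.ext0 H] using this.1
  exact ⟨i, h.mem_span fun m hm => by_contra fun e0 => h.noroot this hm e0 hi⟩

omit [Finite F] in
theorem exists_supp {g : V ≃ₗ[F] V} (hg : g ∈ UM F e) {Y : Submodule F V} (hY : g ∈ mvS Y) :
    ∃ S : Finset (Fin t), S.card ≤ 2 * finrank F Y ∧ ∀ x, ∀ k ∉ S, Φ.B (e k) (g x - x) = 0 := by
  obtain ⟨f, h1, h2, -⟩ := Submodule.exists_fun_fin_finrank_span_eq F (Set.range fun i => g (e i) - e i)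
  have := Submodule.finrank_mono (show Submodule.span F (Set.range fun i => g (e i) - e i) ≤ Y from
    Submodule.span_le.2 (by rintro _ ⟨i, rfl⟩; exact hY _))
  choose u hu using h1
  choose π ε h3 using of_UM hg
  refine ⟨Finset.univ.image u ∪ Finset.univ.image (π ∘ u), (Finset.card_union_le _ _).trans
    ((add_le_add Finset.card_image_le Finset.card_image_le).trans (by simp; omega)), fun x k hk => ?_⟩
  simp only [Finset.mem_union, Finset.mem_image, Finset.mem_univ, true_and, not_or, not_exists] at hk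
  refine (h2.ge.trans (Submodule.span_le.2 ?_) : _ ≤ LinearMap.ker (Φ.B (e k))) ?_
  · rintro _ ⟨i, rfl⟩
    simp [← hu, h3, h.on, Ne.symm (hk.1 i), show k ≠ π (u i) from Ne.symm (hk.2 i)]
  rw [← h.sum x, map_sum, ← Finset.sum_sub_distrib]
  exact Submodule.sum_mem _ fun i _ => by
    rw [map_smul, ← smul_sub]; exact Submodule.smul_mem _ _ (Submodule.subset_span ⟨i, rfl⟩)

/-- An element mapping a frame vector to a vector of support at most five is monomial. -/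
theorem z5 {c : V ≃ₗ[F] V} (hc : c ∈ X) {k : Fin t} (hk : Sm Φ e 5 (c (e k))) : c ∈ UM F e := by
  obtain ⟨S, h1, h2⟩ := hk
  have h5 : 5 ≤ Sᶜ.card := by have := h.ten; simp [Finset.card_compl]; omega
  obtain ⟨f, f1, f2⟩ : ∃ f : Fin 5 → Fin t, f.Injective ∧ ∀ i, Φ.B (e (f i)) (c (e k)) = 0 := ⟨Sᶜ.orderEmbOfCardLe h5,
    (Sᶜ.orderEmbOfCardLe h5).injective, fun i => h2 _ (Finset.mem_compl.1 (Sᶜ.orderEmbOfCardLe_mem h5 i))⟩
  obtain ⟨η, b, c1⟩ := exists_mu h.hu.ne Φ.σσ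
  have n1 : η - 1 ≠ 0 := sub_ne_zero.2 (by rintro rfl; simp at c1)
  obtain ⟨y, hy⟩ : ∃ y : Fin 5 → V, ∀ i, y i = c.symm (e (f i)) := ⟨_, fun _ => rfl⟩
  have on : ∀ i j, Φ.B (y i) (y j) = if i = j then 1 else 0 := fun i j => by
    rw [← (h.iso hc).1]; simp [hy, h.on, f1.eq_iff]
  have key : ∀ i j, i ≠ j → ∃ d ∈ UM F e, ∀ v, d v = v + ((η - 1) * Φ.B (y i) v) • y i + ((σ η - 1) * Φ.B (y j) v) • y j :=
    fun i j hij => by
      obtain ⟨g, g1, g2⟩ := h.exists_δ (f1.ne hij) b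
      refine ⟨c⁻¹ * g * c, h.p1 (mul_mem (mul_mem (inv_mem hc) g1.1) hc) (k := k) (l := k) (by simp [g2, f2]), fun v => ?_⟩
      simp [g2, hy, ← (h.iso hc).1 (c.symm _) v]
  by_contra hM
  have sub : ∀ i j m, Φ.B (e m) (y j) = 0 → Φ.B (e m) (y i) = 0 := fun i j m e0 => by
    rcases eq_or_ne i j with rfl | hij
    · exact e0
    obtain ⟨d, d1, d2⟩ := key i j hij
    obtain ⟨n, z, e1⟩ := of_UM d1 m
    rw [d2, Φ.B_eq_zero_symm e0] at e1
    by_contra e2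
    have e3 : Φ.B (y i) (e m) ≠ 0 := fun e => e2 (Φ.B_eq_zero_symm e)
    by_cases hn : n = m
    · refine hM (inv_mem_iff.1 (h.p1 (inv_mem hc) (k := f i) (l := m) (h.mem_span fun j hj => ?_)))
      rw [hy] at e3
      simpa [h.on, hn, hj, n1, e3, hy] using congrArg (Φ.B (e j)) e1
    have e4 := congrArg (Φ.B (e m)) e1
    simp [h.on, Ne.symm hn, ← h.hu.symm (e m)] at e4
    have e5 := congrArg σ e4
    simp [Φ.σσ] at e5
    exact c1 (mul_right_cancel₀ (nrm_ne e2) (by linear_combination e5 - e4))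
  obtain ⟨d, d1, d2⟩ := key 0 1 (by simp)
  obtain ⟨T, t1, t2⟩ := h.exists_supp d1 (Y := (F ∙ y 0) ⊔ F ∙ y 1) fun x => by
    rw [d2, add_assoc, add_sub_cancel_left]
    exact add_mem (Submodule.mem_sup_left (Submodule.smul_mem _ _ (Submodule.mem_span_singleton_self _)))
      (Submodule.smul_mem _ _ (mem_sup_self _ _))
  have := finrank_sup_one (F ∙ y 0) (y 1)
  have := finrank_span_one (F := F) (y 0)
  obtain ⟨u, hu, u0⟩ := (Submodule.ne_bot_iff _).1 (LinearMap.ker_ne_bot_of_finrank_lt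
    (f := (LinearMap.pi fun i : T => Φ.B (e i)) ∘ₗ Fintype.linearCombination F y) (by simp; omega))
  have e0 : ∑ i, u i • y i = 0 := h.ext0 fun m => by
    by_cases hm : m ∈ T
    · exact congrFun hu ⟨m, hm⟩
    · simp [map_sum, fun i => sub i 0 m (by simpa [d2, on, n1] using t2 (y 0) m hm)]
  exact u0 (funext fun i => by simpa [map_sum, on] using congrArg (Φ.B (y i)) e0)

end UF

end Cfsg.Agent.Root.Mx
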