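import Cfsg.Agent.Root.Un2

/-! Maximality in `SU_n(q)`, `n ≥ 10`, of the stabiliser of an orthonormal frame (`ODec.isMaximalIn_uframe`), and of any
orthogonal decomposition (`isMaximalIn_odec_su`). -/

set_option autoImplicit false

namespace Cfsg.Agent.Root.Mx

open Cfsg.Agent.Geom Cfsg.Agent.AutCl Module

variable {F : Type*} [Field F] {σ : F →+* F} {V : Type*} [AddCommGroup V] [Module F V] {Φ : Formed σ V}
  {X : Subgroup (V ≃ₗ[F] V)} {t : ℕ} {e : Fin t → V}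

theorem dih_two {G : Type*} [Group G] [Finite G] {a b : G} (ha : a * a = 1) (hb : b * b = 1) {H : Subgroup G}
    (h : a * b ∈ H) : (∃ z ∈ H, z ≠ 1 ∧ Commute z a ∧ Commute z b) ∨
      ∃ z ∈ H, z * a * z⁻¹ * a * (z * a * z⁻¹)⁻¹ = b :=
  (Nat.even_or_odd (orderOf (a * b))).imp (fun ho => let ⟨h1, h2⟩ := Invol.half_pow_spec ha hb ho
    ⟨_, pow_mem h _, Invol.ne_one_of h1, h2⟩) fun ho => let ⟨_, hn⟩ := odd_swap ha hb ho; ⟨_, pow_mem h _, hn⟩

theorem mvS_conj {Y : Submodule F V} {d : V ≃ₗ[F] V} (hd : d ∈ mvS Y) (g : V ≃ₗ[F] V) :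
    g * d * g⁻¹ ∈ mvS (Y.map (g : V →ₗ[F] V)) := fun x => ⟨_, hd (g.symm x), by simp⟩

theorem mvS_mul {Y Z : Submodule F V} {a b : V ≃ₗ[F] V} (ha : a ∈ mvS Y) (hb : b ∈ mvS Z) : a * b ∈ mvS (Y ⊔ Z) :=
  mul_mem (mvS_mono le_sup_left ha) (mvS_mono le_sup_right hb)

theorem Sm.mono {m n : ℕ} {v : V} (h : Sm Φ e m v) (hm : m ≤ n) : Sm Φ e n v :=
  let ⟨S, a, b⟩ := h; ⟨S, a.trans hm, b⟩

/-- The centres of the unitary transvections in `X`. -/
def Tv (Φ : Formed σ V) (X : Subgroup (V ≃ₗ[F] V)) (w : V) : Prop := ∃ g ∈ X, IsQ Φ w (-1) g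

/-- `s` is the sign change in two coordinates. -/
def Sg (Φ : Formed σ V) (a b : V) (s : V ≃ₗ[F] V) : Prop := ∀ v, s v = v + (-2 * Φ.B a v) • a + (-2 * Φ.B b v) • b

theorem Sg.mvS {a b : V} {s : V ≃ₗ[F] V} (h : Sg Φ a b s) : s ∈ mvS ((F ∙ a) ⊔ F ∙ b) := fun x => by
  rw [h, add_assoc, add_sub_cancel_left]
  exact add_mem (Submodule.mem_sup_left (Submodule.smul_mem _ _ (Submodule.mem_span_singleton_self _)))
    (Submodule.smul_mem _ _ (mem_sup_self _ _))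

theorem IsQ.eig {a y : V} {r : V ≃ₗ[F] V} (h : IsQ Φ a (-1 - 1) r) (h2 : (2 : F) ≠ 0) (hy : r y = -y) :
    y = Φ.B a y • a := smul_right_injective V h2 (by linear_combination (norm := module) (h.app y).symm.trans hy)

theorem IsQ.neg {a : V} {r : V ≃ₗ[F] V} (h : IsQ Φ a (-1 - 1) r) (ha : Φ.B a a = 1) : r a = -a := by
  rw [h.app, ha]; module

theorem IsQ.sq {a : V} {r : V ≃ₗ[F] V} (h : IsQ Φ a (-1 - 1) r) (ha : Φ.B a a = 1) : r * r = 1 :=
  LinearEquiv.ext fun x => by simp [h.app, ha]; module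

variable [FiniteDimensional F V]

theorem finrank_two (a b : V) : finrank F ↥((F ∙ a) ⊔ F ∙ b) ≤ 2 := by
  have := finrank_sup_one (F ∙ a) b
  have := finrank_span_one (F := F) a
  omega

variable [Finite F]

namespace UF
variable (h : UF Φ e X)
include h

section Even
variable {w x : V}

omit [FiniteDimensional F V] in
theorem tv_sing (hw : Tv Φ X w) : Φ.B w w = 0 :=
  let ⟨_, a, b⟩ := hw; by simpa [b.det] using mem_SLg.1 (EG_le_SLg (h.le' a))

omit [FiniteDimensional F V] [Finite F] in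
theorem tv_map (hw : Tv Φ X w) {g : V ≃ₗ[F] V} (hg : g ∈ X) : Tv Φ X (g w) :=
  let ⟨_, a, b⟩ := hw; ⟨_, mul_mem (mul_mem hg a) (inv_mem hg), b.conj (h.iso hg)⟩

theorem tv_dich (hw : Tv Φ X w) : Sm Φ e 2 w ∨ ∀ i, Φ.B (e i) w ≠ 0 := by
  refine or_iff_not_imp_right.2 fun H => ?_
  obtain ⟨g, a, b⟩ := hw
  obtain ⟨k, hk⟩ := not_forall_not.1 (H ·)
  obtain ⟨S, s1, s2⟩ := h.exists_supp (h.p1 a (k := k) (l := k) (by simp [b.perp (Φ.B_eq_zero_symm hk)])) b.mvS.2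
  refine ⟨S, s1.trans (by have := finrank_span_one (F := F) w; omega), fun i hi => by_contra fun e0 => ?_⟩
  simpa [b.app, e0, ← h.hu.symm (e i)] using s2 (e i) i hi

variable (h2 : (2 : F) = 0)
include h2

omit [Finite F] in
theorem tv_e {i j : Fin t} (hij : i ≠ j) {l : F} (hl : l * σ l = 1) : Tv Φ X (e i + l • e j) := by
  obtain ⟨g, a, b⟩ := h.exists_sw hij (l := -l) (by simpa)
  exact ⟨g, h.memX a b.iso (by simp [b.det, h.on, hij, hij.symm]; linear_combination -hl - h2), by simpa using b⟩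

theorem tv_step (hw : Tv Φ X w) (f : ∀ i, Φ.B (e i) w ≠ 0) {j k : Fin t} (hjk : j ≠ k) {l β : F} (hl : l * σ l = 1)
    (hβ : σ (Φ.B (e j) w) + σ (Φ.B (e k) w) * l = β) (b0 : β ≠ 0) : Tv Φ X (e j + l • e k - β • w) ∧
      ∀ i, Φ.B (e i) (e j + l • e k - β • w) ≠ 0 := by
  obtain ⟨g, a, b⟩ := id hw
  have := h.tv_map (h.tv_e h2 hjk hl) a
  rw [b.app, show _ + _ = e j + l • e k - β • w by simp [← hβ, h.hu.symm]; module] at this
  refine ⟨this, (h.tv_dich this).resolve_left fun ⟨S, s1, s2⟩ => ?_⟩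
  obtain ⟨r, hr⟩ := exists_out (insert j (insert k S)) ((Finset.card_insert_le _ _).trans_lt (by
    have := Finset.card_insert_le k S; have := h.ten; simp; omega))
  simp only [Finset.mem_insert, not_or] at hr
  simpa [h.on, hr, b0, f] using s2 r hr.2.2

theorem tv_ne (hw : Tv Φ X w) (f : ∀ i, Φ.B (e i) w ≠ 0) {m o : Fin t} (hmo : m ≠ o) :
    (1 - Φ.B (e m) w * σ (Φ.B (e m) w)) ^ 2 ≠ Φ.B (e m) w * σ (Φ.B (e m) w) * (Φ.B (e o) w * σ (Φ.B (e o) w)) := by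
  intro H
  have a := f m
  have b := f o
  have c := (map_ne_zero σ).2 a
  have d := (map_ne_zero σ).2 b
  refine (h.tv_step h2 hw f hmo (l := (1 - Φ.B (e m) w * σ (Φ.B (e m) w)) / (σ (Φ.B (e o) w) * Φ.B (e m) w))
    (β := (Φ.B (e m) w)⁻¹) (by simp [Φ.σσ]; field_simp; linear_combination H) (by field_simp; ring) (by simpa)).2 m ?_
  simp [h.on, hmo, a]

theorem tv_eq (hw : Tv Φ X w) (f : ∀ i, Φ.B (e i) w ≠ 0) (m o : Fin t) :
    Φ.B (e m) w * σ (Φ.B (e m) w) = Φ.B (e o) w * σ (Φ.B (e o) w) := by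
  by_contra H
  have hmo : m ≠ o := by rintro rfl; exact H rfl
  obtain ⟨j, hj⟩ := h.out [m, o] (by simp)
  obtain ⟨k, hk⟩ := h.out [m, o, j] (by simp)
  obtain ⟨j', hj'⟩ := h.out [m, o, j, k] (by simp)
  obtain ⟨k', hk'⟩ := h.out [m, o, j, k, j'] (by simp)
  simp only [List.mem_cons, List.not_mem_nil, or_false, not_or] at hj hk hj' hk'
  have f' := fun i => (map_ne_zero σ).2 (f i)
  have sq : ∀ x y : F, x ^ 2 = y ^ 2 → x = y := fun x y e =>
    sub_eq_zero.1 (pow_eq_zero_iff two_ne_zero |>.1 (by linear_combination e + (y ^ 2 - x * y) * h2))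
  obtain ⟨c, hc⟩ : ∃ c, c = Φ.B (e m) w * σ (Φ.B (e m) w) * (Φ.B (e m) w * σ (Φ.B (e m) w) - Φ.B (e o) w * σ (Φ.B (e o) w)) :=
    ⟨_, rfl⟩
  have c0 : c ≠ 0 := hc ▸ mul_ne_zero (nrm_ne (f m)) (sub_ne_zero.2 H)
  have c1 : σ c = c := by simp [hc, Φ.σσ, mul_comm]
  obtain ⟨x, y, x1, y1, a, b, e1⟩ := ph_norm h.hu.ne Φ.σσ (f' j) (f' k) (f' j') (f' k') (φ := fun x => c * (x ^ 2) ^ 2)
    (ψ := fun x => (x ^ 2)⁻¹) (fun x y e => sq _ _ (sq _ _ (mul_left_cancel₀ c0 e))) (fun x y e => sq _ _ (inv_injective e))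
    (fun x a b => by simp [a, b, c0, c1]) fun x a b => by simp [*]
  obtain ⟨t1, f1⟩ := h.tv_step h2 hw f (Ne.symm hk.2.2) x1 rfl a
  generalize σ (Φ.B (e j) w) + σ (Φ.B (e k) w) * x = β at a e1 t1 f1
  obtain ⟨t2, f2⟩ := h.tv_step h2 t1 f1 (Ne.symm hk'.2.2.2.2) y1 (β := -σ β * (σ (Φ.B (e j') w) + σ (Φ.B (e k') w) * y))
    (by simp [h.on, hj', hk']; ring) (by simp [a, b])
  generalize σ (Φ.B (e j') w) + σ (Φ.B (e k') w) * y = γ at b e1 t2 f2
  refine h.tv_ne h2 t2 f2 hmo ?_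
  have := (map_ne_zero σ).2 b
  simp [h.on, Ne.symm hj.1, Ne.symm hj.2, Ne.symm hk.1, Ne.symm hk.2.1, Ne.symm hj'.1, Ne.symm hj'.2.1, Ne.symm hk'.1,
    Ne.symm hk'.2.1, Φ.σσ]
  rw [hc] at e1
  field_simp at e1
  linear_combination e1 + (1 - (β * σ β) ^ 2 * (γ * σ γ) * (Φ.B (e m) w * σ (Φ.B (e m) w))) * h2

theorem tv_full (hw : Tv Φ X w) (f : ∀ i, Φ.B (e i) w ≠ 0) : False := by
  obtain ⟨η, b, c⟩ := exists_mu h.hu.ne Φ.σσ
  obtain ⟨g, f1⟩ : ∃ g : Fin 7 → Fin t, g.Injective := ⟨Fin.castLE (by have := h.ten; omega), Fin.castLE_injective _⟩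
  have on : ∀ i j, Φ.B (e (g i)) (e (g j)) = if i = j then 1 else 0 := fun i j => by simp [h.on, f1.eq_iff]
  obtain ⟨r, r1, r2⟩ := h.exists_δ (f1.ne (show (0 : Fin 7) ≠ 1 by simp)) b
  obtain ⟨s, s1, s2⟩ := h.exists_δ (f1.ne (show (2 : Fin 7) ≠ 3 by simp)) b
  have := h.tv_map (h.tv_map hw r1.1) s1.1
  obtain ⟨u, hu⟩ : ∃ u, ((η - 1) * Φ.B (e (g 0)) w) • e (g 0) + ((σ η - 1) * Φ.B (e (g 1)) w) • e (g 1) +
    ((η - 1) * Φ.B (e (g 2)) w) • e (g 2) + ((σ η - 1) * Φ.B (e (g 3)) w) • e (g 3) = u := ⟨_, rfl⟩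
  rw [show s (r w) = w + u by simp [s2, r2, on, ← hu, add_assoc]] at this
  have e1 : Φ.B w u = 0 := by
    simp [← hu, ← h.hu.symm (e _) w, mul_assoc, h.tv_eq h2 hw f _ (g 0)]
    linear_combination (η + σ η - 2) * (Φ.B (e (g 0)) w * σ (Φ.B (e (g 0)) w)) * h2
  have e2 := Φ.B_eq_zero_symm e1
  have w0 := h.tv_sing hw
  have us : Φ.Sing u := ⟨h.hu.Q _, by simpa [e1, e2, w0] using h.tv_sing this⟩
  obtain ⟨a, a1, a2⟩ := hw
  obtain ⟨a', a3, a4⟩ := this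
  have H : w ∈ AE Φ X us := ⟨1, a' * a, mul_mem a3 a1, us, e2, by simp [h.hu.τ, h.hu.Q],
    by simp [h.hu.ε, w0]; linear_combination h2, fun v => by
      simp [a2.app, a4.app, w0, e2, h.hu.ε]; linear_combination (norm := module) (-Φ.B w v * h2) • (w + u)⟩
  have z : ∀ i : Fin 7, 4 ≤ i → Φ.B (e (g i)) u = 0 := fun i hi => by fin_cases i <;> simp [← hu, on] at hi ⊢
  obtain ⟨κ, k1, H⟩ := h.isolate (f1.ne (show (4 : Fin 7) ≠ 5 by simp)) (f1.ne (show (4 : Fin 7) ≠ 6 by simp))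
    (f1.ne (show (5 : Fin 7) ≠ 6 by simp)) (z _ (by simp)) (z _ (by simp)) (z _ (by simp)) H (f _)
  refine h.win (fun e0 => ?_) (f1.ne (show (4 : Fin 7) ≠ 5 by simp)) (z _ (by simp)) (z _ (by simp)) k1 H
  simpa [← hu, on, f, sub_eq_zero, show η ≠ 1 by rintro rfl; simp at c] using congrArg (Φ.B (e (g 0))) e0

theorem mon_even {g : V ≃ₗ[F] V} (hg : g ∈ X) : g ∈ UM F e := by
  obtain ⟨η, b, c⟩ := exists_mu h.hu.ne Φ.σσ
  have n1 : η - 1 ≠ 0 := sub_ne_zero.2 (by rintro rfl; simp at c)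
  obtain ⟨i, -⟩ := h.out [] (by simp)
  obtain ⟨j, hj⟩ := h.out [i] (by simp)
  have key := fun l hl => let H := h.tv_map (h.tv_e h2 (i := i) (j := j) (by rintro rfl; simp at hj) (l := l) hl) hg
    (h.tv_dich H).resolve_right (h.tv_full h2 H)
  refine h.z5 hg (k := i) (Sm.mono (m := 2 + 2) ?_ (by simp))
  convert (key 1 (by simp)).comb (key η b) (η / (η - 1)) (-1 / (η - 1)) using 1
  simp only [map_add, map_smul]; match_scalars <;> field_simp <;> ring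

end Even

section Odd

omit [Finite F] in
theorem exists_mv {d : V ≃ₗ[F] V} (hd : d ∈ X) (hm : d ∈ UM F e) (h1 : d ≠ 1) :
    ∃ i j, ∃ l : F, l * σ l = 1 ∧ d (e i) = l • e j ∧ d (e i) ≠ e i := by
  obtain ⟨i, hi⟩ : ∃ i, d (e i) ≠ e i := by
    by_contra! H
    exact h1 (LinearEquiv.ext fun v => by rw [← h.sum v]; simp [map_sum, H])
  obtain ⟨j, l, hl⟩ := of_UM hm i
  exact ⟨i, j, l, by simpa [hl, h.on] using (h.iso hd).1 (e i) (e i), hl, hi⟩

omit [Finite F] in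
theorem exists_sg {i j : Fin t} (hij : i ≠ j) : ∃ s ∈ X ⊓ UM F e, Sg Φ (e i) (e j) s ∧ s * s = 1 := by
  obtain ⟨s, a, b⟩ := h.exists_δ hij (η := -1) (by simp)
  have : Sg Φ (e i) (e j) s := fun v => by rw [b]; simp only [map_neg, map_one]; module
  exact ⟨s, a, this, LinearEquiv.ext fun v => by simp [this _, h.on, hij, hij.symm]; module⟩

variable (h2 : (2 : F) ≠ 0)
include h2

theorem two {z : V ≃ₗ[F] V} (hz : z ∈ X) (hm : z ∈ UM F e) (h1 : z ≠ 1) {Y : Submodule F V} (hY : z ∈ mvS Y)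
    (r : finrank F Y ≤ 2) {y : V} (hy : y ∈ Y) : Sm Φ e 4 y := by
  obtain ⟨S, s1, s2⟩ := h.exists_supp hm hY
  have m : z ∈ mvS (Submodule.span F (Set.range fun x => z x - x)) := fun x => Submodule.subset_span ⟨x, rfl⟩
  have le : Submodule.span F (Set.range fun x => z x - x) ≤ Y := Submodule.span_le.2 (by rintro _ ⟨x, rfl⟩; exact hY x)
  refine ⟨S, by omega, fun k hk => (Submodule.span_le.2 ?_ : _ ≤ LinearMap.ker (Φ.B (e k)))
    ((Submodule.eq_of_le_of_finrank_le le (not_lt.1 fun H => h1 ?_)).ge hy)⟩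
  · rintro _ ⟨x, rfl⟩; exact s2 x k hk
  obtain ⟨i, j, l, a, b, c⟩ := h.exists_mv hz hm h1
  have p0 : Φ.B (z (e i) - e i) (z (e i) - e i) ≠ 0 := by
    rcases eq_or_ne i j with rfl | hij
    · rw [show z (e i) - e i = (l - 1) • e i by rw [b]; module]
      simpa [h.on, -map_sub, sub_eq_zero] using fun e0 : l = 1 => c (by simp [b, e0])
    · simpa [b, h.on, hij, hij.symm, mul_comm, a, one_add_one_eq_two] using h2
  rw [← Submodule.eq_of_le_of_finrank_le ((Submodule.span_singleton_le_iff_mem _ _).2 (m (e i))) (by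
    rw [finrank_span_singleton (sub_ne_zero.2 c)]; omega)] at m
  obtain ⟨c, hc⟩ := isQ_of_mvS h.hu.nd p0 ⟨h.iso hz, m⟩
  obtain rfl : c = 0 := by simpa [hc.det, p0, -map_sub] using mem_SLg.1 (EG_le_SLg (h.le' hz))
  exact hc.ext (isQ_one _)

theorem K2 {c : V ≃ₗ[F] V} (hc : c ∈ X) {i j : Fin t} (hij : i ≠ j) {l : F} (hl : l * σ l = 1)
    (ha : c (e i - l • e j) = e i - l • e j) : c ∈ UM F e := by
  have : Finite V := Module.finite_of_finite F
  have : Finite (V ≃ₗ[F] V) := Finite.of_injective _ (DFunLike.coe_injective (F := V ≃ₗ[F] V))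
  by_contra hM
  obtain ⟨ρ, r1, hρ⟩ := h.exists_sw hij hl
  have pe : ∀ m, m ≠ i → m ≠ j → Φ.B (e i - l • e j) (e m) = 0 := fun m a b => by simp [h.on, a.symm, b.symm]
  have a0 : Φ.B (e i - l • e j) (e i - l • e j) = 2 := by simp [h.on, hij, hij.symm]; linear_combination hl
  generalize e i - l • e j = a at ha hρ pe a0
  have cj : ∀ z ∈ X, z a = a → ∀ s, ρ * s ∈ X → ρ * (z * s * z⁻¹) ∈ X := fun z hz e1 s hs => by
    have := hρ.conj (h.iso hz)
    rw [hρ.ext (e1 ▸ this)]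
    simpa [mul_assoc] using mul_mem (mul_mem hz hs) (inv_mem hz)
  have R : ∀ m, ∃ s, IsQ Φ (e m) (-1 - 1) s ∧ ρ * s ∈ X := fun m =>
    let ⟨s, a, b⟩ := h.exists_R m (η := -1) (by simp)
    ⟨s, b, h.memX (mul_mem r1 a) (mul_mem hρ.iso b.iso) (by simp [det_mul', hρ.det, b.det, a0, h.on]; ring)⟩
  have u1 : ∀ m, Φ.B (e m) (e m) = 1 := fun m => by simp [h.on]
  obtain ⟨k, hk⟩ := h.out [i, j] (by simp)
  simp only [List.mem_cons, List.not_mem_nil, or_false, not_or] at hk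
  obtain ⟨r, t1, t2⟩ := R k
  replace t2 := cj c hc ha r t2
  replace t1 := t1.conj (h.iso hc)
  have b1 : Φ.B (c (e k)) (c (e k)) = 1 := by rw [(h.iso hc).1, u1]
  have b2 : Φ.B a (c (e k)) = 0 := by rw [← ha, (h.iso hc).1, pe k hk.1 hk.2]
  generalize c * r * c⁻¹ = r at t1 t2
  have key : ∀ m, m ≠ i → m ≠ j → ∃ v u, ∃ β : F, IsQ Φ v (-1 - 1) u ∧ ρ * u ∈ X ∧ c⁻¹ * (ρ * u) ∈ UM F e ∧
      c (e k) = β • u (e m) := fun m m1 m2 => by
    obtain ⟨s, s1, s2⟩ := R m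
    have ss := s1.sq (u1 m)
    rcases dih_two ss (t1.sq b1) (H := X ⊓ mvS ((F ∙ e m) ⊔ F ∙ c (e k))) ⟨by
      simpa [mul_assoc, inv_eq_of_mul_eq_one_right ss] using mul_mem (inv_mem s2) t2, mvS_mul s1.mvS.2 t1.mvS.2⟩ with
      ⟨z, z1, z2, z3, -⟩ | ⟨z, z1, z2⟩
    · refine absurd (h.z5 hc ((h.two h2 z1.1 (h.p1 z1.1 (k := m) (l := m) ?_) z2 z1.2 (finrank_two _ _)
        (mem_sup_self _ _)).mono (by simp))) hM
      rw [s1.eig h2 (y := z (e m)) (by rw [← LinearEquiv.mul_apply, ← z3.eq, LinearEquiv.mul_apply, s1.neg (u1 m), map_neg])]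
      exact Submodule.smul_mem _ _ (Submodule.mem_span_singleton_self _)
    have z3 := s1.conj (h.iso z1.1)
    have z4 := cj z z1.1 (fix_of_mvS h.hu.nd (h.iso z1.1) z1.2 fun y hy => (sup_le (by simpa using pe m m1 m2)
      (by simpa using b2) : _ ≤ LinearMap.ker (Φ.B a)) hy) s s2
    generalize z * s * z⁻¹ = u at z2 z3 z4
    have e1 := (z2 ▸ s1.conj z3.iso).eig h2 (t1.neg b1)
    generalize Φ.B (u (e m)) (c (e k)) = β at e1
    have b0 : β ≠ 0 := by rintro rfl; simp [e1] at b1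
    refine ⟨_, u, β, z3, z4, h.p1 (mul_mem (inv_mem hc) z4) (k := m) (l := k) ?_, e1⟩
    rw [← Submodule.smul_mem_iff _ b0, LinearEquiv.mul_apply, LinearEquiv.mul_apply, ← map_smul, ← map_smul, ← e1, hρ.perp b2]
    simp
  obtain ⟨m, hm⟩ := h.out [i, j, k] (by simp)
  simp only [List.mem_cons, List.not_mem_nil, or_false, not_or] at hm
  obtain ⟨v, u, β, a1, a2, a3, a4⟩ := key k hk.1 hk.2
  obtain ⟨v', u', β', c1, c2, c3, c4⟩ := key m hm.1 hm.2.1
  have := h.two h2 (z := u⁻¹ * u') (by simpa [mul_assoc] using mul_mem (inv_mem a2) c2)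
    (by simpa [mul_assoc] using mul_mem (inv_mem a3) c3) (fun e0 => by
      obtain rfl := inv_mul_eq_one.1 e0
      have := congrArg (Φ.B (u (e k))) (a4.symm.trans c4)
      simp [a1.iso.1, h.on, Ne.symm hm.2.2] at this
      simp [a4, this] at b1) (mvS_mul (inv_mem a1.mvS.2) c1.mvS.2) (finrank_two _ _)
    (Submodule.mem_sup_left (Submodule.mem_span_singleton_self _))
  refine hM (h.z5 hc (k := k) ?_)
  convert Sm.comb (m := 1) (v := e k) ⟨{k}, by simp, fun i hi => by simpa [h.on] using hi⟩ this β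
    (β * ((-1 - 1) * Φ.B v (e k))) using 1
  rw [a4, a1.app]; module

theorem Z {g s : V ≃ₗ[F] V} (hg : g ∈ X) {k l : Fin t} (hkl : k ≠ l) (hs : Sg Φ (e k) (e l) s)
    (H : g * s * g⁻¹ ∈ UM F e) : g ∈ UM F e := by
  obtain ⟨S, s1, s2⟩ := h.exists_supp H (mvS_conj hs.mvS g)
  rw [LinearEquiv.finrank_map_eq] at s1
  refine h.z5 hg (k := k) ⟨S, by have := finrank_two (F := F) (e k) (e l); omega, fun i hi => ?_⟩
  simpa [hs _, h.on, hkl.symm, h2, add_assoc] using s2 (g (e k)) i hi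

theorem fin {g d : V ≃ₗ[F] V} (hg : g ∈ X) (hd : d ∈ X) (h1 : d ≠ 1) (hm : d ∈ UM F e) (hm' : g⁻¹ * d * g ∈ UM F e)
    {Y : Submodule F V} (hY : d ∈ mvS Y) (h4 : finrank F Y ≤ 4) : g ∈ UM F e := by
  obtain ⟨i, j, a, a1, a2, a3⟩ := h.exists_mv hd hm h1
  obtain ⟨S, s1, s2⟩ := h.exists_supp hm' (by simpa using mvS_conj hY g⁻¹)
  erw [LinearEquiv.finrank_map_eq] at s1
  have h10 := h.ten
  obtain ⟨k, hk⟩ := exists_out S (by simp; omega)
  obtain ⟨l, hl⟩ := exists_out (insert k S) (by rw [Finset.card_insert_of_notMem hk]; simp; omega)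
  simp only [Finset.mem_insert, not_or] at hl
  obtain ⟨s, b1, b2, -⟩ := h.exists_sg (Ne.symm hl.1)
  have c1 := mul_mem (mul_mem hg b1.1) (inv_mem hg)
  have c2 : (g * s * g⁻¹) (e i - a • e j) = e i - a • e j := by
    have := s2 (g.symm (e i))
    rw [show (g⁻¹ * d * g) (g.symm (e i)) - g.symm (e i) = -g.symm (e i - a • e j) by simp [a2]] at this
    simp only [map_neg, neg_eq_zero] at this
    simp [b2 _, this k hk, this l hl.2, -map_sub]
  refine h.Z h2 hg (Ne.symm hl.1) b2 ?_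
  rcases eq_or_ne i j with rfl | hij
  swap
  · exact h.K2 h2 c1 hij a1 c2
  rw [show e i - a • e i = (1 - a) • e i by module, map_smul] at c2
  exact h.p1 c1 (k := i) (l := i) (by
    rw [smul_right_injective V (sub_ne_zero.2 fun e0 => a3 (by simp [a2, ← e0])) c2]
    exact Submodule.mem_span_singleton_self _)

theorem mon_odd {g : V ≃ₗ[F] V} (hg : g ∈ X) : g ∈ UM F e := by
  by_contra hc
  have : Finite V := Module.finite_of_finite F
  have : Finite (V ≃ₗ[F] V) := Finite.of_injective _ (DFunLike.coe_injective (F := V ≃ₗ[F] V))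
  obtain ⟨i, -⟩ := h.out [] (by simp)
  obtain ⟨j, hj⟩ := h.out [i] (by simp)
  obtain ⟨k, hk⟩ := h.out [i, j] (by simp)
  simp only [List.mem_cons, List.not_mem_nil, or_false, not_or] at hj hk
  have rk : ∀ A B : Submodule F V, finrank F A ≤ 2 → finrank F B ≤ 2 → finrank F ↥(A ⊔ B) ≤ 4 := fun A B a b =>
    (Submodule.finrank_add_le_finrank_add_finrank _ _).trans (by omega)
  have rk' : ∀ (z : V ≃ₗ[F] V) a b, finrank F (((F ∙ a) ⊔ F ∙ b).map (z : V →ₗ[F] V)) ≤ 2 := fun z a b => by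
    rw [LinearEquiv.finrank_map_eq]; exact finrank_two _ _
  obtain ⟨r, r1, r2, r3⟩ := h.exists_sg (Ne.symm hj)
  obtain ⟨t, ht⟩ : ∃ t, t = g * r * g⁻¹ := ⟨_, rfl⟩
  have tX : t ∈ X := ht ▸ mul_mem (mul_mem hg r1.1) (inv_mem hg)
  have t2 : t * t = 1 := by rw [ht, conj_mul, r3]; simp
  have key : ∀ l, i ≠ l → ∃ u ∈ X, ∃ s, ∃ Y : Submodule F V, Sg Φ (e i) (e l) s ∧ u * u = 1 ∧ finrank F Y ≤ 2 ∧ u ∈ mvS Y ∧
      u * s * u⁻¹ = t ∧ u⁻¹ * g ∈ UM F e := fun l hl => by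
    obtain ⟨s, s1, s2, s3⟩ := h.exists_sg hl
    rcases dih_two s3 t2 (H := X ⊓ mvS _) ⟨mul_mem s1.1 tX, mvS_mul s2.mvS (ht ▸ mvS_conj r2.mvS g)⟩ with
      ⟨z, z1, z2, z3, z4⟩ | ⟨z, z1, z2⟩
    · refine absurd (h.fin h2 hg z1.1 z2 (h.Z h2 z1.1 hl s2 ?_) (h.Z h2 (mul_mem (mul_mem (inv_mem hg) z1.1) hg)
        (Ne.symm hj) r2 ?_) z1.2 (rk _ _ (finrank_two _ _) (rk' _ _ _))) hc
      · rw [z3.eq, mul_inv_cancel_right]; exact s1.2
      · rw [show g⁻¹ * z * g * r * (g⁻¹ * z * g)⁻¹ = g⁻¹ * (z * t * z⁻¹) * g by rw [ht]; group, z4.eq,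
          mul_inv_cancel_right, ht]
        simpa [mul_assoc] using r1.2
    have uX := X.mul_mem (X.mul_mem z1.1 s1.1) (X.inv_mem z1.1)
    refine ⟨_, uX, s, _, s2, by rw [conj_mul, s3]; simp, rk' _ _ _, mvS_conj s2.mvS z, z2,
      h.Z h2 (mul_mem (inv_mem uX) hg) (Ne.symm hj) r2 ?_⟩
    generalize z * s * z⁻¹ = u at z2
    rw [show u⁻¹ * g * r * (u⁻¹ * g)⁻¹ = u⁻¹ * t * u by rw [ht]; group, ← z2]
    simpa [mul_assoc] using s1.2
  obtain ⟨u, a1, s, Y, a0, a2, a3, a4, a5, a6⟩ := key j (Ne.symm hj)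
  obtain ⟨v, b1, s', Y', b0, b2, b3, b4, b5, b6⟩ := key k (Ne.symm hk.1)
  have ui := inv_eq_of_mul_eq_one_right a2
  have vi := inv_eq_of_mul_eq_one_right b2
  refine hc (h.fin h2 hg (mul_mem a1 b1) (fun e0 => ?_) ?_ ?_ (mvS_mul a4 b4) (rk _ _ a3 b3))
  · obtain rfl : u = v := by rw [← ui, inv_eq_of_mul_eq_one_right e0]
    obtain rfl := mul_left_cancel (mul_right_cancel (a5.trans b5.symm))
    simpa [h.on, hk, Ne.symm hk.1, Ne.symm hk.2, h2] using congrArg (Φ.B (e k)) ((a0 (e k)).symm.trans (b0 _))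
  · simpa [mul_assoc, ui] using mul_mem a6 (inv_mem b6)
  · simpa [mul_assoc, vi] using mul_mem (inv_mem a6) b6

end Odd

end UF

theorem ODec.isMaximalIn_uframe {D : Fin t → Submodule F V} (h : ODec Φ 1 D) (hu : HU Φ) (h10 : 10 ≤ t) :
    Geo.IsMaximalIn (EG Φ) (dstab D ⊓ EG Φ) := by
  choose e m u using fun i => hu.exists_unit (h.nd i) (h.rk i).ge
  obtain rfl : D = fun i => F ∙ e i := funext fun i => (Submodule.eq_of_le_of_finrank_le (by simpa using m i) (by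
    rw [h.rk, finrank_span_singleton (by rintro e0; simpa [e0] using u i)])).symm
  have on : ∀ i j, Φ.B (e i) (e j) = if i = j then 1 else 0 := fun i j => by
    split_ifs with hij
    · rw [hij, u]
    · exact h.orth i j hij _ (m i) _ (m j)
  refine max_crit inf_le_right ?_ fun X h1 h2 g hg hg' => ?_
  · obtain ⟨f, f1⟩ : ∃ g : Fin 3 → Fin t, g.Injective := ⟨Fin.castLE (by omega), Fin.castLE_injective _⟩
    have on' : ∀ i j, Φ.B (e (f i)) (e (f j)) = if i = j then 1 else 0 := fun i j => by simp [on, f1.eq_iff]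
    obtain ⟨l, hl⟩ := exists_norm_eq hu.ne Φ.σσ (a := -1) (by simp)
    obtain ⟨d, g, hg⟩ := exists_isE' h.hn (p := e (f 0) + l • e (f 1)) (a := e (f 2))
      ⟨hu.Q _, by simp [on']; linear_combination hl⟩ (by simp [on'])
    refine ⟨g, IsE_mem_EG hg, fun hc => ?_⟩
    obtain ⟨j, c, e1⟩ := UF.of_UM hc.1 (f 2)
    rw [hg.apply_perp (by simp [on'])] at e1
    have a := congrArg (Φ.B (e (f 0))) e1
    have b := congrArg (Φ.B (e (f 2))) e1
    by_cases e2 : f 0 = j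
    · simp [on', ← e2] at b
    · simp [on, f1.eq_iff, e2] at a
  by_contra hc
  have H : UF Φ e X := ⟨h, hu, on, h10, h1, h2, hc⟩
  exact hg' ⟨(em _).elim (H.mon_even · hg) (H.mon_odd · hg), h2 hg⟩

omit [Finite F] in
theorem exists_theta [Fintype F] {q : ℕ} (hF : Fintype.card F = q ^ 2) (h3 : 3 ≤ q) :
    ∃ θ : F, θ ≠ 0 ∧ θ ≠ 1 ∧ frobq hF θ = θ := by
  by_contra! h
  have := (FiniteField.forall_pow_eq_one_iff F (q + 1)).1 fun x => Units.ext (by_contra fun e => h (x ^ (q + 1))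
    (by simp) e (by rw [pow_succ, map_mul, frobq_apply, frobq_apply, pow_q_pow_q hF, mul_comm]))
  have := Nat.le_of_dvd (by omega) this
  rw [hF] at this
  have : q + 2 < q ^ 2 := by nlinarith
  omega

omit [Finite F] in
theorem hu_herm [Fintype F] {n q : ℕ} (hF : Fintype.card F = q ^ 2) (hn : 4 ≤ n) : HU (hermFormed hF n) :=
  ⟨⟨hermFormed_nondeg hF n, rfl, fun _ => rfl, rfl⟩, frobq_ne_id hF, (EG_herm hF hn).ge, fun _ hU h => adj_herm hF hn hU h⟩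

omit [Finite F] in
theorem isMaximalIn_odec_su [Fintype F] {n q : ℕ} (hF : Fintype.card F = q ^ 2) (hn : 10 ≤ n) {k : ℕ}
    {D : Fin t → Submodule F (Fin n → F)} (hD : Geo.IsNondegenerateMDecomposition (hermForm n F q) k D)
    (hex : ¬ (k = 2 ∧ q = 2)) : Geo.IsMaximalIn (GU n F q ⊓ Geo.specialLinear (Fin n) F)
      (Geo.decompositionStabilizer D ⊓ (GU n F q ⊓ Geo.specialLinear (Fin n) F)) := by
  have hu := hu_herm hF (n := n) (by omega)
  have h := odec_of hu.nd hD fun _ _ => Formed.B_eq_zero_comm _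
  have e := h.finrank_eq
  have := h.pos
  have := two_le_of_card_eq_sq hF
  simp only [finrank_fintype_fun_eq_card, Fintype.card_fin] at e
  refine isMaximalIn_inf (glEquiv _ F) (H' := dstab D) ?_ (fun g => mem_suGL hF (by omega)) fun g => Iff.rfl
  by_cases h5 : 5 ≤ k
  · exact h.isMaximalIn_five (h.sw_herm hu) h5
  by_cases h1 : k = 1
  · subst h1; exact h.isMaximalIn_uframe hu (by omega)
  exact h.isMaximalIn_herm hu (by omega) (by by_contra! H; nlinarith)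
    ((em _).imp_right fun H => exists_theta hF (by omega))

end Cfsg.Agent.Root.Mx
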